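import Cfsg.Agent.Chars.CoprimeExt
import Cfsg.Agent.DegreeGraph.PRational

/-!
The canonical extension of an invariant character of a coprime normal subgroup, and its behaviour
under field automorphisms.
-/

set_option autoImplicit false
set_option linter.style.haveILetI false

open Cfsg

namespace Cfsg.Agent.Chars

universe u

variable {G : Type u} [Group G] [Finite G]

/-- An invariant character of a coprime normal subgroup has exactly one extension of determinantal
order prime to the index. -/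
theorem existsUnique_ext_coprime (K : Subgroup G) [hK : K.Normal]
    (hcop : (Nat.card K).Coprime K.index) {θ : K → ℂ} (hθ : IsIrrCharacter K θ)
    (hinv : Chars2.inertiaSub θ = ⊤) :
    ∃! χ : G → ℂ, IsIrrCharacter G χ ∧ (∀ k : K, χ k = θ k) ∧ (detOrder χ).Coprime K.index := by
  have hθ' := hθ
  obtain ⟨d', hd0, hd', hdvd⟩ := irr_degree_dvd_card hθ
  obtain ⟨d, ρ, hirr, rfl⟩ := hθ'
  haveI := hirr
  have hdd : d' = d := by
    rw [Representation.char_one, Module.finrank_fin_fun] at hd'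
    exact_mod_cast hd'.symm
  subst hdd
  have hcopd : Nat.Coprime K.index d' := (hcop.coprime_dvd_left hdvd).symm
  have hinv' := inv_of_inertia_top hinv
  set lam := Chars2.detHom ρ with hlamdef
  have hcopl : Nat.Coprime K.index (orderOf lam) :=
    hcop.symm.coprime_dvd_right (orderOf_dvd_of_pow_eq_one (MonoidHom.ext fun n => by
      rw [MonoidHom.pow_apply, ← map_pow, pow_card_eq_one', map_one]; rfl))
  have hlam : ∀ (g : G) (n : K), lam (MulAut.conjNormal g n) = lam n := by
    intro g n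
    obtain ⟨e⟩ := Chars2.equiv_of_character_eq ρ (ρ.comp (MulAut.conjNormal (H := K) g).toMonoidHom)
      (funext fun k => (Chars2.inv_conjNormal ρ.character hinv' g k).symm)
    refine Units.ext ?_
    rw [hlamdef, Chars2.detHom_apply, Chars2.detHom_apply]
    have h := e.conj_apply_self n
    simp only [MonoidHom.coe_comp, MulEquiv.coe_toMonoidHom, Function.comp_apply] at h
    rw [← h]
    exact LinearMap.det_conj _ _
  obtain ⟨μ, hμ, hμo⟩ := Chars2.exists_ext_same_order lam hlam hcopl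
  obtain ⟨χ₀, hχ₀, hχ₀r⟩ := extends_of_coprime K hcop hθ hinv
  obtain ⟨m, σ, hσ, hσc⟩ := hχ₀
  haveI := hσ
  obtain ⟨η₀, hη₀⟩ : ∃ η₀ : Representation ℂ G (Fin d' → ℂ), ∀ n : K, η₀ n = ρ n := by
    obtain ⟨e⟩ := Chars2.equiv_of_character_eq ρ (σ.comp K.subtype)
      (funext fun n => ((congrFun hσc (n : G)).trans (hχ₀r n)).symm)
    exact ⟨(e.symm.toLinearEquiv.conjAlgEquiv ℂ).toMonoidHom.comp σ,
      fun n => e.symm.conj_apply_self n⟩
  obtain ⟨χ, ⟨hχ, hχr, hχd⟩, huniq⟩ := Chars2.existsUnique_ext_det ρ hcopd η₀ hη₀ μ hμ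
  refine ⟨χ, ⟨hχ, hχr, ?_⟩, fun χ' ⟨hχ', hχ'r, hχ'o⟩ => huniq χ' ⟨hχ', hχ'r, ?_⟩⟩
  · rw [detOrder, hχd, Chars2.orderOf_linFun, hμo]
    exact hcopl.symm
  · obtain ⟨m', σ', hσ', rfl⟩ := hχ'
    haveI := hσ'
    rw [Chars2.detOrder_eq σ' _ rfl] at hχ'o
    rw [Chars2.detChar_eq σ' _ rfl]
    refine congrArg Chars2.linFun (Chars2.ext_unique_of_coprime (N := K) _ _
      (fun n => ?_) hχ'o.symm (hμo ▸ hcopl))
    rw [hμ, hlamdef]
    refine Units.ext ?_
    rw [Chars2.detHom_apply, Chars2.detHom_apply]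
    obtain ⟨e⟩ := Chars2.equiv_of_character_eq ρ (σ'.comp K.subtype) (funext fun n => (hχ'r n).symm)
    have h := e.conj_apply_self n
    simp only [MonoidHom.coe_comp, Subgroup.coe_subtype, Function.comp_apply] at h
    rw [← h]
    exact LinearMap.det_conj _ _

/-- A field automorphism does not change the determinantal order. -/
theorem detOrder_map [Fintype G] (σ : ℂ ≃+* ℂ) {χ : G → ℂ} (hχ : IsIrrCharacter G χ) :
    detOrder (fun g => σ (χ g)) = detOrder χ := by
  have hχ' := OddChar.isIrrCharacter_map σ hχ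
  obtain ⟨d, ρ, hirr, rfl⟩ := hχ
  haveI := hirr
  obtain ⟨ρ', hc, hdet⟩ := DegreeGraph.PRational.exists_rep_map σ ρ
  have he : ρ'.character = fun g => σ (ρ.character g) := funext hc
  haveI : ρ'.IsIrreducible := isIrreducible_of_character ρ' (he.symm ▸ hχ')
  rw [Chars2.detOrder_eq ρ' _ he, Chars2.detOrder_eq ρ _ rfl]
  have hcomp : Chars2.detHom ρ' =
      (Units.map (σ : ℂ →+* ℂ).toMonoidHom).comp (Chars2.detHom ρ) :=
    MonoidHom.ext fun g => Units.ext (by simp [hdet])
  have hpow : ∀ k : ℕ, Chars2.detHom ρ' ^ k = 1 ↔ Chars2.detHom ρ ^ k = 1 := by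
    intro k
    constructor
    · intro h
      refine MonoidHom.ext fun g => Units.map_injective (f := (σ : ℂ →+* ℂ).toMonoidHom) σ.injective ?_
      have := congrArg (fun f : G →* ℂˣ => f g) h
      rw [MonoidHom.one_apply, map_one]
      simpa [hcomp, MonoidHom.pow_apply] using this
    · intro h
      refine MonoidHom.ext fun g => ?_
      have h1 : Chars2.detHom ρ g ^ k = 1 := by
        rw [← MonoidHom.pow_apply, h, MonoidHom.one_apply]
      rw [MonoidHom.pow_apply, hcomp, MonoidHom.comp_apply, ← map_pow, h1, map_one]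
      rfl
  exact Nat.dvd_antisymm (orderOf_dvd_of_pow_eq_one ((hpow _).2 (pow_orderOf_eq_one _)))
    (orderOf_dvd_of_pow_eq_one ((hpow _).1 (pow_orderOf_eq_one _)))

/-- An automorphism fixing a character fixes its canonical extension. -/
theorem map_eq_of_canonical [Fintype G] (K : Subgroup G) [K.Normal]
    (hcop : (Nat.card K).Coprime K.index) {χ : G → ℂ} (hχ : IsIrrCharacter G χ)
    (hK : IsIrrCharacter K (fun k => χ k)) (hinv : Chars2.inertiaSub (fun k : K => χ k) = ⊤)
    (hdet : (detOrder χ).Coprime K.index) (σ : ℂ ≃+* ℂ) (hσ : ∀ k : K, σ (χ k) = χ k) (g : G) :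
    σ (χ g) = χ g := by
  obtain ⟨χ₀, -, huniq⟩ := existsUnique_ext_coprime K hcop hK hinv
  have h1 := huniq _ ⟨hχ, fun _ => rfl, hdet⟩
  have h2 := huniq _ ⟨OddChar.isIrrCharacter_map σ hχ, hσ, by rw [detOrder_map σ hχ]; exact hdet⟩
  exact congrFun (h2.trans h1.symm) g

end Cfsg.Agent.Chars
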