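import Cfsg.Agent.Chars.TwoDegrees
import Cfsg.Agent.Chars2.DegreeInherit
import Cfsg.Agent.Chars2.Ramified
import Cfsg.Agent.Chars2.Correspondence
import Cfsg.Agent.Chars.SimpleDegreeTools

/-!
A finite group with all character degrees at most `n` has a subgroup of index at most `n ^ 2`
with all degrees below `n`, as soon as it has a non-abelian solvable quotient.
-/

set_option autoImplicit false
set_option linter.style.haveILetI false
set_option linter.unusedSectionVars false

open Cfsg Cfsg.Agent
open scoped ComplexConjugate commutatorElement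

namespace Cfsg.Agent.Chars.AbelianBound

universe u

variable {G : Type u} [Group G] [Fintype G]

noncomputable local instance (priority := high) fintypeSub (H : Subgroup G) : Fintype H :=
  Fintype.ofFinite _

/-- All irreducible degrees are at most `n`. -/
def Bdd (G : Type u) [Group G] (n : ℕ) : Prop :=
  ∀ χ : IrrCharacter G, charDegree (χ : G → ℂ) ≤ n

theorem degree_le_of_inner {f θ : G → ℂ} (hf : IsCharacter G f) (hθ : IsIrrCharacter G θ)
    (h : classInner f θ ≠ 0) {a d : ℕ} (ha : f 1 = a) (hd : θ 1 = d) :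
    d ≤ a ∧ (a ≤ d → f = θ) := by
  classical
  obtain ⟨c, hc⟩ := Chars2.exists_multiplicities hf
  have hcl := isClassFunction_of_isCharacter hf
  set t : IrrCharacter G := ⟨θ, hθ⟩
  have hc0 : c t ≠ 0 := fun h0 => h (by rw [show classInner f θ = c t from hc t, h0, Nat.cast_zero])
  have hdt : charDegree (t : G → ℂ) = d := by
    have := (Blocks.charDegree_eq t.2).1
    rw [show (t : G → ℂ) 1 = d from hd] at this
    exact_mod_cast this.symm
  have hdpos : 0 < d := hdt ▸ (Blocks.charDegree_eq t.2).2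
  have hsum : (a : ℂ) = ∑ φ : IrrCharacter G, (c φ : ℂ) * (charDegree (φ : G → ℂ) : ℂ) := by
    rw [← ha]
    exact (Chars2.apply_eq_sum hcl 1).trans
      (Finset.sum_congr rfl fun φ _ => by rw [hc, (Blocks.charDegree_eq φ.2).1])
  have hnat : a = ∑ φ : IrrCharacter G, c φ * charDegree (φ : G → ℂ) := by exact_mod_cast hsum
  rw [← Finset.add_sum_erase _ _ (Finset.mem_univ t), hdt] at hnat
  have hle : d ≤ c t * d := Nat.le_mul_of_pos_left _ (Nat.pos_of_ne_zero hc0)
  refine ⟨by omega, fun had => ?_⟩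
  have hone : c t = 1 := by
    have : c t * d = 1 * d := by omega
    exact Nat.eq_of_mul_eq_mul_right hdpos this
  have hrest := Finset.sum_eq_zero_iff.1
    (show ∑ φ ∈ Finset.univ.erase t, c φ * charDegree (φ : G → ℂ) = 0 by omega)
  funext x
  rw [Chars2.apply_eq_sum hcl x, Finset.sum_eq_single t]
  · rw [hc, hone, Nat.cast_one, one_mul]
  · intro φ _ hφ
    have h0 := hrest φ (Finset.mem_erase.2 ⟨hφ, Finset.mem_univ φ⟩)
    rw [hc, (Nat.mul_eq_zero.1 h0).resolve_right (Blocks.charDegree_eq φ.2).2.ne', Nat.cast_zero,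
      zero_mul]
  · intro hh; exact absurd (Finset.mem_univ t) hh

theorem exists_over {H : Subgroup G} {θ : H → ℂ} (hθ : IsIrrCharacter H θ) :
    ∃ χ : IrrCharacter G, classInner (fun h : H => (χ : G → ℂ) h) θ ≠ 0 ∧
      charDegree θ ≤ charDegree (χ : G → ℂ) := by
  classical
  have hind := isCharacter_indFun H (isCharacter_of_isIrr hθ)
  obtain ⟨c, hc⟩ := Chars2.exists_multiplicities hind
  obtain ⟨χ, hχ⟩ : ∃ χ, c χ ≠ 0 := by
    by_contra hall
    push Not at hall
    have h := Chars2.apply_eq_sum (isClassFunction_of_isCharacter hind) 1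
    simp only [hc, hall, Nat.cast_zero, zero_mul, Finset.sum_const_zero, indFun_apply_one] at h
    exact mul_ne_zero (Nat.cast_ne_zero.2 H.index_ne_zero_of_finite)
      (irr_apply_one_ne_zero hθ) h
  have hm : classInner (fun h : H => (χ : G → ℂ) h) θ ≠ 0 := by
    intro h0
    have h1 := hc χ
    rw [classInner_indFun H θ (isClassFunction_irr χ), ← classInner_conj_symm, h0, map_zero] at h1
    exact hχ (by exact_mod_cast h1.symm)
  exact ⟨χ, hm, (degree_le_of_inner (isCharacter_restrict (irr_isCharacter χ) H) hθ hm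
    (Blocks.charDegree_eq χ.2).1 (Blocks.charDegree_eq hθ).1).1⟩

theorem bdd_subgroup {n : ℕ} (h : Bdd G n) (H : Subgroup G) : Bdd H n := fun θ => by
  obtain ⟨χ, -, hle⟩ := exists_over θ.2
  exact hle.trans (h χ)

theorem bdd_surjective {n : ℕ} (h : Bdd G n) {Q : Type u} [Group Q] (f : G →* Q)
    (hf : Function.Surjective f) : Bdd Q n := fun θ => by
  obtain ⟨χ, hχ⟩ := Chars2.exists_degree_eq_of_surjective f hf θ
  exact hχ ▸ h χ

/-- Some character of degree `n` restricts irreducibly to `H`. -/
def Big (n : ℕ) (H : Subgroup G) : Prop :=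
  ∃ χ : G → ℂ, IsIrrCharacter G χ ∧ χ 1 = n ∧ IsIrrCharacter H (fun h : H => χ h)

theorem restrict_eq {n : ℕ} (h : Bdd G n) {H : Subgroup G} {θ : H → ℂ}
    (hθ : IsIrrCharacter H θ) (h1 : θ 1 = n) :
    ∃ χ : G → ℂ, IsIrrCharacter G χ ∧ χ 1 = n ∧ (fun x : H => χ x) = θ := by
  obtain ⟨χ, hne, hle⟩ := exists_over hθ
  have hd : charDegree θ = n := by
    have := (Blocks.charDegree_eq hθ).1
    rw [h1] at this
    exact_mod_cast this.symm
  have hχ1 : (χ : G → ℂ) 1 = n := by
    rw [(Blocks.charDegree_eq χ.2).1, le_antisymm (h χ) (hd ▸ hle)]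
  exact ⟨χ, χ.2, hχ1, (degree_le_of_inner (isCharacter_restrict (irr_isCharacter χ) H) hθ hne
    (a := n) (d := n) hχ1 h1).2 le_rfl⟩

theorem bdd_pred {n : ℕ} (h : Bdd G n) {H : Subgroup G} (hb : ¬ Big n H) : Bdd H (n - 1) := by
  intro θ
  rcases (bdd_subgroup h H θ).lt_or_eq with hlt | he
  · omega
  refine absurd ?_ hb
  obtain ⟨χ, hχ, hχ1, hr⟩ := restrict_eq h θ.2 (by rw [(Blocks.charDegree_eq θ.2).1, he])
  exact ⟨χ, hχ, hχ1, hr ▸ θ.2⟩

theorem sum_normSq_irr {χ : G → ℂ} {H : Subgroup G}
    (hr : IsIrrCharacter H (fun h : H => χ h)) [DecidablePred (· ∈ H)] :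
    ∑ g ∈ Finset.univ.filter (· ∈ H), Complex.normSq (χ g) = Nat.card H := by
  have h1 := classInner_self_irr hr
  rw [classInner_def, inv_mul_eq_iff_eq_mul₀ (subgroup_card_ne_zero H), mul_one] at h1
  simp only [Complex.mul_conj] at h1
  rw [Finset.sum_subtype (p := (· ∈ H)) (Finset.univ.filter (· ∈ H)) (fun x => by simp)
    (fun g => Complex.normSq (χ g))]
  exact_mod_cast h1

/-- The product of two irreducible characters is irreducible when the norm is one. -/
theorem mul_irr_of_normSq {χ ξ : G → ℂ} (hχ : IsCharacter G χ) (hξ : IsCharacter G ξ)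
    (h : ∑ g, Complex.normSq (χ g) * Complex.normSq (ξ g) = Nat.card G) :
    IsIrrCharacter G (χ * ξ) := by
  refine isIrrCharacter_of_norm_one (isCharacter_mul hχ hξ) ?_
  rw [classInner_def, inv_mul_eq_iff_eq_mul₀ card_ne_zero, mul_one]
  simp only [Pi.mul_apply, Complex.mul_conj, Complex.normSq_mul]
  exact_mod_cast h

/-- A character of maximal degree that stays irreducible on `H` vanishes on `H` off the core. -/
theorem vanish_off_core {n : ℕ} (hn : Bdd G n) {χ : G → ℂ} (hχ : IsIrrCharacter G χ)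
    (h1 : χ 1 = n) {H : Subgroup G} (hr : IsIrrCharacter H (fun h : H => χ h)) {g : G}
    (hg : g ∈ H) (hcore : g ∉ H.normalCore) : χ g = 0 := by
  classical
  have hn0 : (n : ℂ) ≠ 0 := h1 ▸ irr_apply_one_ne_zero hχ
  set φ : H → ℂ := fun h => χ h with hφ
  have hIc := isClassFunction_indFun H φ
  have ha : ∀ ξ : IrrCharacter G, classInner (indFun H φ) (ξ : G → ℂ) = 0 ∨
      (classInner (indFun H φ) (ξ : G → ℂ) = 1 ∧ (ξ : G → ℂ) 1 = n) := by
    intro ξ
    rw [classInner_indFun H φ (isClassFunction_irr ξ)]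
    refine (em _).imp_right fun hne => ?_
    have hne' : classInner (fun h : H => (ξ : G → ℂ) h) φ ≠ 0 := by
      rw [← classInner_conj_symm]
      simpa using hne
    obtain ⟨hle, heq⟩ := degree_le_of_inner (isCharacter_restrict (irr_isCharacter ξ) H) hr hne'
      (d := n) (Blocks.charDegree_eq ξ.2).1 (by simpa [hφ] using h1)
    have hd : charDegree (ξ : G → ℂ) = n := le_antisymm (hn ξ) hle
    rw [heq hd.le]
    exact ⟨classInner_self_irr hr, by rw [(Blocks.charDegree_eq ξ.2).1, hd]⟩
  have hnorm : classInner (indFun H φ) (indFun H φ) = (H.index : ℂ) := by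
    have hdeg := Chars2.apply_eq_sum hIc 1
    rw [indFun_apply_one, show φ 1 = (n : ℂ) from h1] at hdeg
    rw [classInner_eq_sum hIc]
    refine mul_right_cancel₀ hn0 (hdeg ▸ ?_)
    rw [Finset.sum_mul]
    refine Finset.sum_congr rfl fun ξ _ => ?_
    rw [← classInner_conj_symm (indFun H φ) (ξ : G → ℂ)]
    rcases ha ξ with h0 | ⟨h0, hd⟩ <;> rw [h0]
    · simp
    · rw [hd]; simp
  have hone : classInner (indFun H φ) χ = 1 := by
    rw [classInner_indFun H φ (isClassFunction_of_isCharacter (isCharacter_of_isIrr hχ))]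
    exact classInner_self_irr hr
  -- the number of conjugating elements
  set c : G → ℕ := fun g => (Finset.univ.filter fun x : G => x⁻¹ * g * x ∈ H).card with hcdef
  have hI : ∀ g, indFun H φ g = (Nat.card H : ℂ)⁻¹ * ((c g : ℂ) * χ g) := by
    intro g
    rw [indFun_apply]
    congr 1
    rw [Finset.sum_congr rfl (g := fun x => if x⁻¹ * g * x ∈ H then χ g else 0) fun x _ => ?_,
      ← Finset.sum_filter, Finset.sum_const, nsmul_eq_mul]
    split_ifs with hx
    · rw [extendByZero_of_mem H φ hx]
      have := isClassFunction_of_isCharacter (isCharacter_of_isIrr hχ) g x⁻¹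
      rw [inv_inv] at this
      exact this
    · exact extendByZero_of_not_mem H φ hx
  have hH0 : (Nat.card H : ℝ) ≠ 0 := Nat.cast_ne_zero.2 Nat.card_pos.ne'
  have hGH : (Nat.card G : ℝ) = Nat.card H * H.index := by exact_mod_cast H.card_mul_index.symm
  have s1 : ∑ x, Complex.normSq (χ x) * c x = (Nat.card G : ℝ) * Nat.card H := by
    rw [classInner_def, inv_mul_eq_iff_eq_mul₀ card_ne_zero, mul_one] at hone
    simp only [hI, mul_assoc, Complex.mul_conj] at hone
    rw [← Finset.mul_sum, inv_mul_eq_iff_eq_mul₀ (subgroup_card_ne_zero H)] at hone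
    have : ∑ x, (c x : ℝ) * Complex.normSq (χ x) = (Nat.card H : ℝ) * Nat.card G := by
      exact_mod_cast hone
    rw [mul_comm (Nat.card G : ℝ), ← this]
    exact Finset.sum_congr rfl fun x _ => mul_comm _ _
  have s2 : ∑ x, Complex.normSq (χ x) * (c x : ℝ) ^ 2 = (Nat.card G : ℝ) ^ 2 * Nat.card H := by
    rw [classInner_def, inv_mul_eq_iff_eq_mul₀ card_ne_zero] at hnorm
    simp only [hI, Complex.mul_conj, Complex.normSq_mul, Complex.normSq_inv, Complex.normSq_natCast]
      at hnorm
    have h' : ∑ x, ((Nat.card H : ℝ) * Nat.card H)⁻¹ * (((c x : ℝ) * c x) * Complex.normSq (χ x)) =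
        (Nat.card G : ℝ) * H.index := by exact_mod_cast hnorm
    rw [← Finset.mul_sum, inv_mul_eq_iff_eq_mul₀ (mul_ne_zero hH0 hH0)] at h'
    rw [Finset.sum_congr rfl fun x _ => show Complex.normSq (χ x) * (c x : ℝ) ^ 2 =
      ((c x : ℝ) * c x) * Complex.normSq (χ x) by ring, h', hGH]
    ring
  have hsum : ∑ x, Complex.normSq (χ x) * ((c x : ℝ) * (Nat.card G - c x)) = 0 := by
    rw [Finset.sum_congr rfl fun x _ => show Complex.normSq (χ x) * ((c x : ℝ) * (Nat.card G - c x))
      = (Nat.card G : ℝ) * (Complex.normSq (χ x) * c x) - Complex.normSq (χ x) * (c x : ℝ) ^ 2 by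
      ring, Finset.sum_sub_distrib, ← Finset.mul_sum, s1, s2]
    ring
  have hle : ∀ x, (c x : ℝ) ≤ Nat.card G := fun x => by
    rw [Nat.card_eq_fintype_card]
    exact_mod_cast Finset.card_le_univ _
  rw [Finset.sum_eq_zero_iff_of_nonneg fun x _ => mul_nonneg (Complex.normSq_nonneg _)
    (mul_nonneg (Nat.cast_nonneg _) (sub_nonneg.2 (hle x)))] at hsum
  have h0 := hsum g (Finset.mem_univ g)
  have hpos : (0 : ℝ) < c g := by
    exact_mod_cast Finset.card_pos.2 ⟨1, Finset.mem_filter.2 ⟨Finset.mem_univ _, by simpa using hg⟩⟩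
  have hlt : (c g : ℝ) < Nat.card G := by
    rw [Nat.card_eq_fintype_card]
    refine Nat.cast_lt.2 ((Finset.card_lt_univ_of_notMem (x := ?_) ?_))
    · exact (Classical.choose (not_forall.1 hcore))⁻¹
    · intro hm
      apply Classical.choose_spec (not_forall.1 hcore)
      simpa using (Finset.mem_filter.1 hm).2
  rcases mul_eq_zero.1 h0 with h | h
  · exact Complex.normSq_eq_zero.1 h
  · rcases mul_eq_zero.1 h with h' | h'
    · exact absurd h' hpos.ne'
    · exact absurd (sub_eq_zero.1 h') hlt.ne'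

/-- The index of a normal subgroup carrying the support of a character divides the degree squared. -/
theorem index_dvd_sq {K : Subgroup G} [K.Normal] {χ : G → ℂ} (hχ : IsIrrCharacter G χ) {n : ℕ}
    (h1 : χ 1 = n) (hv : ∀ g, g ∉ K → χ g = 0) : K.index ∣ n ^ 2 := by
  classical
  set f : K → ℂ := fun x => χ x with hf
  have hfc : IsCharacter K f := isCharacter_restrict (isCharacter_of_isIrr hχ) K
  have hnorm : classInner f f = (K.index : ℂ) := (Chars2.norm_restrict_eq_index_iff hχ).2 hv
  obtain ⟨c, hc⟩ := Chars2.exists_multiplicities hfc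
  have hsq : K.index = ∑ φ : IrrCharacter K, c φ * c φ := by
    rw [classInner_eq_sum (isClassFunction_of_isCharacter hfc)] at hnorm
    have : (K.index : ℂ) = ∑ φ : IrrCharacter K, (c φ : ℂ) * (c φ : ℂ) := by
      rw [← hnorm]
      refine Finset.sum_congr rfl fun φ _ => ?_
      rw [← classInner_conj_symm f (φ : K → ℂ), hc, Complex.conj_natCast]
    exact_mod_cast this
  have hdvd : ∀ φ : IrrCharacter K, K.index ∣ c φ * n := by
    intro φ
    rcases Nat.eq_zero_or_pos (c φ) with h0 | hpos
    · simp [h0]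
    have hI := isClassFunction_indFun K (φ : K → ℂ)
    have hzero : ∀ ξ : IrrCharacter G, (ξ : G → ℂ) ≠ χ →
        classInner (indFun K (φ : K → ℂ)) (ξ : G → ℂ) = 0 := by
      intro ξ hne
      rw [classInner_indFun K _ (isClassFunction_irr ξ)]
      obtain ⟨e, he⟩ := Chars2.exists_multiplicities
        (isCharacter_restrict (irr_isCharacter ξ) K)
      have hz : classInner f (fun x : K => (ξ : G → ℂ) x) = 0 := by
        have h2 := classInner_irr_of_ne hχ ξ.2 (Ne.symm hne)
        rw [classInner_def, mul_eq_zero] at h2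
        rw [classInner_def, mul_eq_zero]
        refine Or.inr ?_
        refine Eq.trans ?_ (h2.resolve_left (inv_ne_zero card_ne_zero))
        rw [← Finset.sum_subtype (Finset.univ.filter (· ∈ K)) (fun x => by simp)
          (fun g => χ g * conj ((ξ : G → ℂ) g))]
        refine Finset.sum_subset (Finset.subset_univ _) fun x _ hx => ?_
        rw [hv x (by simpa using hx), zero_mul]
      rw [classInner_eq_sum (isClassFunction_of_isCharacter hfc)] at hz
      have hz' : ∑ θ : IrrCharacter K, (c θ : ℂ) * (e θ : ℂ) = 0 := by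
        rw [← hz]
        refine Finset.sum_congr rfl fun θ _ => ?_
        rw [hc, ← classInner_conj_symm (fun x : K => (ξ : G → ℂ) x) (θ : K → ℂ), he,
          Complex.conj_natCast]
      have hnat : ∑ θ : IrrCharacter K, c θ * e θ = 0 := by exact_mod_cast hz'
      have h3 := (Nat.mul_eq_zero.1 (Finset.sum_eq_zero_iff.1 hnat φ (Finset.mem_univ φ))).resolve_left
        hpos.ne'
      rw [← classInner_conj_symm, he, h3, Nat.cast_zero, map_zero]
    have hdeg := Chars2.apply_eq_sum hI 1
    rw [indFun_apply_one, Finset.sum_eq_single (⟨χ, hχ⟩ : IrrCharacter G)] at hdeg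
    · simp only [classInner_indFun K _
        (isClassFunction_of_isCharacter (isCharacter_of_isIrr hχ))] at hdeg
      rw [← classInner_conj_symm, show classInner (fun x : K => χ x) (φ : K → ℂ) = c φ from hc φ,
        Complex.conj_natCast, (Blocks.charDegree_eq φ.2).1, h1] at hdeg
      exact ⟨charDegree (φ : K → ℂ), by exact_mod_cast hdeg.symm⟩
    · intro ξ _ hne
      rw [hzero ξ fun e => hne (Subtype.ext e), zero_mul]
    · intro hh; exact absurd (Finset.mem_univ _) hh
  set g := Finset.univ.gcd c with hg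
  obtain ⟨a, ha⟩ : K.index ∣ g * n := by
    have := Finset.dvd_gcd (s := Finset.univ) fun φ _ => hdvd φ
    rwa [Finset.gcd_mul_right, normalize_eq] at this
  obtain ⟨b, hb⟩ : g * g ∣ K.index := hsq ▸ Finset.dvd_sum fun φ _ =>
    mul_dvd_mul (Finset.gcd_dvd (Finset.mem_univ φ)) (Finset.gcd_dvd (Finset.mem_univ φ))
  have hg0 : g ≠ 0 := fun h => K.index_ne_zero_of_finite (by rw [hb, h]; simp)
  refine ⟨b * a ^ 2, ?_⟩
  have hn : n = g * b * a := Nat.eq_of_mul_eq_mul_left (Nat.pos_of_ne_zero hg0)
    (by rw [ha, hb]; ring)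
  rw [hn, hb]; ring

/-- Irreducibility on a subgroup climbs. -/
theorem irr_of_restrict_irr {f : G → ℂ} (hf : IsCharacter G f) {K : Subgroup G}
    (hr : IsIrrCharacter K (fun x : K => f x)) : IsIrrCharacter G f := by
  obtain ⟨d, ρ, rfl⟩ := hf
  haveI hK : Representation.IsIrreducible (ρ.comp K.subtype : Representation ℂ K (Fin d → ℂ)) :=
    isIrreducible_of_character _ hr
  haveI : ρ.IsIrreducible := by
    rw [isIrreducible_iff]
    obtain ⟨h1, h2⟩ := (isIrreducible_iff _).1 hK
    exact ⟨h1, fun S hS => h2 S fun x v hv => hS (x : G) v hv⟩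
  exact isIrrCharacter_of_rep ρ

/-- The quotient of a group with all degrees at most `n` in the core case of the theorem. -/
theorem exists_of_quotient {n : ℕ} (hn : Bdd G n) {Q : Type u} [Group Q] [Finite Q] (f : G →* Q)
    (hf : Function.Surjective f) (hne : commutator Q ≠ ⊥)
    (hab : ∀ a ∈ commutator Q, ∀ b ∈ commutator Q, a * b = b * a)
    (hmin : ∀ L : Subgroup Q, L.Normal → L ≠ ⊥ → commutator Q ≤ L) :
    ∃ H : Subgroup G, H.index ≤ n ^ 2 ∧ Bdd H (n - 1) := by
  classical
  letI : Fintype Q := Fintype.ofFinite Q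
  set E := commutator Q with hE
  have hcm : ∀ a b : Q, ⁅a, b⁆ ∈ E := fun a b =>
    Subgroup.commutator_mem_commutator (Subgroup.mem_top a) (Subgroup.mem_top b)
  by_cases hcen : E ≤ Subgroup.center Q
  · -- the centre case
    set Z := Subgroup.center Q
    obtain ⟨z, hzE, hz1⟩ := (Subgroup.bot_or_exists_ne_one E).resolve_left hne
    obtain ⟨χ₀, hχz⟩ : ∃ χ₀ : IrrCharacter Q, (χ₀ : Q → ℂ) z ≠ (χ₀ : Q → ℂ) 1 := by
      by_contra hno
      push Not at hno
      have h1 := column_orth (G := Q) z 1
      rw [if_neg (fun h => hz1 (isConj_one_left.1 h) : ¬ IsConj z 1),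
        Finset.sum_congr rfl (g := fun χ : IrrCharacter Q => (χ : Q → ℂ) 1 ^ 2) fun χ _ => by
          rw [hno χ, irr_apply_one_conj (irr_isCharacter χ), sq], sum_sq_apply_one] at h1
      exact card_ne_zero h1
    have hc0 := irr_isCharacter χ₀
    have hker : charKer hc0 = ⊥ := by
      by_contra hk
      exact hχz (hmin _ (charKer_normal hc0) hk hzE)
    obtain ⟨φ, hφ⟩ := Chars2.exists_central_hom χ₀.2 (le_refl Z)
    set d := charDegree (χ₀ : Q → ℂ)
    have hd := (Blocks.charDegree_eq χ₀.2).1
    have hd0 := (Blocks.charDegree_eq χ₀.2).2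
    have hvan : ∀ x, x ∉ Z → (χ₀ : Q → ℂ) x = 0 := by
      intro x hx
      obtain ⟨y, hy⟩ := not_forall.1 fun h => hx (Subgroup.mem_center_iff.2 h)
      have hcZ : ⁅y, x⁆ ∈ Z := hcen (hcm y x)
      have h1 := hφ ⟨_, hcZ⟩ x
      rw [show (⟨⁅y, x⁆, hcZ⟩ : Z).1 * x = y * x * y⁻¹ by
        show ⁅y, x⁆ * x = _; rw [commutatorElement_def]; group,
        isCharacter_conj_apply hc0] at h1
      by_contra h0
      have hφ1 : (φ ⟨_, hcZ⟩ : ℂ) = 1 := mul_right_cancel₀ h0 (by rw [one_mul]; exact h1.symm)
      have h2 := hφ ⟨_, hcZ⟩ 1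
      rw [mul_one, hφ1, one_mul] at h2
      have : ⁅y, x⁆ ∈ charKer hc0 := (mem_charKer hc0).2 h2
      rw [hker, Subgroup.mem_bot, commutatorElement_eq_one_iff_mul_comm] at this
      exact hy this
    have hin : ∀ x ∈ Z, Complex.normSq ((χ₀ : Q → ℂ) x) = (d : ℝ) ^ 2 := by
      intro x hx
      have h1 := hφ ⟨x, hx⟩ 1
      rw [mul_one] at h1
      have hn1 : ‖(φ ⟨x, hx⟩ : ℂ)‖ = 1 := by
        refine Complex.norm_eq_one_of_pow_eq_one ?_ (orderOf_pos (⟨x, hx⟩ : Z)).ne'
        rw [← Units.val_pow_eq_pow_val, ← map_pow, pow_orderOf_eq_one, map_one, Units.val_one]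
      rw [h1, hd, Complex.normSq_mul, Complex.normSq_natCast, Complex.normSq_eq_norm_sq, hn1]
      ring
    have hd2 : 2 ≤ d := by
      by_contra hlt
      obtain ⟨l, hl⟩ := exists_hom_of_degree_one hc0 (by rw [hd, show charDegree (χ₀ : Q → ℂ) = 1 by omega, Nat.cast_one])
      refine hχz ?_
      rw [hl]
      have hk : E ≤ l.ker := Abelianization.commutator_subset_ker l
      show (l z : ℂ) = (l 1 : ℂ)
      rw [MonoidHom.mem_ker.1 (hk hzE), map_one]
    have hsum : ∀ w : Q → ℝ, (∀ x, x ∉ Z → w x = 0) →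
        ∑ x, w x = ∑ x ∈ Finset.univ.filter (· ∈ Z), w x := fun w hw =>
      (Finset.sum_subset (Finset.subset_univ _) fun x _ hx => hw x (by simpa using hx)).symm
    have hidx : Z.index = d ^ 2 := by
      have h1 := classInner_self_irr χ₀.2
      rw [classInner_def, inv_mul_eq_iff_eq_mul₀ card_ne_zero, mul_one] at h1
      simp only [Complex.mul_conj] at h1
      have h2 : ∑ x, Complex.normSq ((χ₀ : Q → ℂ) x) = (Nat.card Q : ℝ) := by exact_mod_cast h1
      rw [hsum _ fun x hx => by rw [hvan x hx, map_zero],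
        Finset.sum_congr rfl fun x hx => hin x (Finset.mem_filter.1 hx).2, Finset.sum_const,
        nsmul_eq_mul, ← Z.card_mul_index, Nat.cast_mul,
        show (Finset.univ.filter (· ∈ Z)).card = Nat.card Z by
          rw [Nat.card_eq_fintype_card, Fintype.card_subtype]] at h2
      have h3 := mul_left_cancel₀ (Nat.cast_ne_zero.2 Nat.card_pos.ne') h2
      exact_mod_cast h3.symm
    have hidx' : (Z.comap f).index = d ^ 2 := (Z.index_comap_of_surjective hf).trans hidx
    refine ⟨Z.comap f, ?_, bdd_pred hn ?_⟩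
    · obtain ⟨χ, hχ⟩ := Chars2.exists_degree_eq_of_surjective f hf χ₀
      rw [hidx']
      exact Nat.pow_le_pow_left (show d ≤ n from le_of_eq_of_le hχ.symm (hn χ)) 2
    rintro ⟨χ, hχ, hχ1, hr⟩
    haveI : (Z.comap f).Normal := Subgroup.Normal.comap inferInstance f
    have hirr := mul_irr_of_normSq (isCharacter_of_isIrr hχ) (isCharacter_comp hc0 f) (by
      rw [← Finset.sum_subset (Finset.subset_univ (Finset.univ.filter (· ∈ Z.comap f)))
          (fun x _ hx => by rw [Function.comp_apply, hvan _ (by simpa using hx)]; simp),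
        Finset.sum_congr rfl fun x hx => by
          rw [Function.comp_apply, hin _ (Finset.mem_filter.1 hx).2],
        ← Finset.sum_mul, sum_normSq_irr hr, ← (Z.comap f).card_mul_index, hidx']
      push_cast; ring)
    have h2 := hn ⟨_, hirr⟩
    have h3 := (Blocks.charDegree_eq hirr).1
    rw [Pi.mul_apply, Function.comp_apply, map_one, hχ1, hd] at h3
    have h4 : n * d = charDegree (χ * (χ₀ : Q → ℂ) ∘ f) := by exact_mod_cast h3
    have hn1 : n ≠ 0 := by
      intro h
      exact irr_apply_one_ne_zero hχ (by rw [hχ1, h, Nat.cast_zero])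
    have : 2 * n ≤ n * d := by rw [mul_comm]; exact Nat.mul_le_mul_left n hd2
    simp only at h2
    omega
  · -- the Frobenius case
    set N := Subgroup.centralizer (E : Set Q) with hN
    have hEN : E ≤ N := fun e he => Subgroup.mem_centralizer_iff.2 fun a ha => hab a ha e he
    have hfree : ∀ y, y ∉ N → ∀ e ∈ E, y * e = e * y → e = 1 := by
      intro y hy e he hye
      set L := E ⊓ Subgroup.centralizer ({y} : Set Q)
      have hL : L.Normal := ⟨fun a ha g => ⟨(inferInstance : E.Normal).conj_mem a ha.1 g, by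
        refine Subgroup.mem_centralizer_singleton_iff.2 ?_
        have hay : a * y = y * a := Subgroup.mem_centralizer_singleton_iff.1 ha.2
        have hc : a * ⁅g⁻¹, y⁆ = ⁅g⁻¹, y⁆ * a := hab _ ha.1 _ (hcm _ _)
        have hcy : Commute a (g⁻¹ * y * g) := by
          have e1 : g⁻¹ * y * g = ⁅g⁻¹, y⁆ * y := by rw [commutatorElement_def]; group
          rw [e1]; exact Commute.mul_right hc hay
        have h2 := (hcy.map (MulAut.conj g)).eq
        simp only [MulAut.conj_apply] at h2
        rwa [show g * (g⁻¹ * y * g) * g⁻¹ = y by group] at h2⟩⟩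
      by_contra he1
      have hLne : L ≠ ⊥ := fun h => he1 (Subgroup.mem_bot.1
        (h ▸ (⟨he, Subgroup.mem_centralizer_singleton_iff.2 hye.symm⟩ : e ∈ L)))
      refine hy (Subgroup.mem_centralizer_iff.2 fun a ha => ?_)
      exact Subgroup.mem_centralizer_singleton_iff.1 (hmin L hL hLne ha).2
    have hsurj : ∀ y, y ∉ N → ∀ c ∈ E, ∃ e ∈ E, ⁅y, e⁆ = c := by
      intro y hy c hc
      have hinj : Function.Injective fun e : E => (⟨⁅y, (e : Q)⁆, hcm _ _⟩ : E) := by
        intro a b hab'
        have h1 : ⁅y, (a : Q)⁆ = ⁅y, (b : Q)⁆ := congrArg Subtype.val hab'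
        have h2 := hfree y hy ((b : Q)⁻¹ * a) (mul_mem (inv_mem b.2) a.2) (by
          have e1 : y * (a : Q) * y⁻¹ = ⁅y, (a : Q)⁆ * a := by rw [commutatorElement_def]; group
          have e2 : y * (b : Q) * y⁻¹ = ⁅y, (b : Q)⁆ * b := by rw [commutatorElement_def]; group
          have e3 : y * ((b : Q)⁻¹ * a) * y⁻¹ = (b : Q)⁻¹ * a := by
            rw [show y * ((b : Q)⁻¹ * a) * y⁻¹ = (y * b * y⁻¹)⁻¹ * (y * a * y⁻¹) by group, e1, e2,
              h1]
            group
          exact mul_inv_eq_iff_eq_mul.1 e3)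
        exact Subtype.ext (inv_mul_eq_one.1 h2).symm
      obtain ⟨e, he⟩ := (Finite.injective_iff_surjective.1 hinj) ⟨c, hc⟩
      exact ⟨e, e.2, congrArg Subtype.val he⟩
    obtain ⟨x₀, -, hx₀⟩ : ∃ x, x ∈ (⊤ : Subgroup Q) ∧ x ∉ N := SetLike.not_le_iff_exists.1
      fun h => hcen fun a ha => Subgroup.mem_center_iff.2 fun g =>
        (Subgroup.mem_centralizer_iff.1 (h (Subgroup.mem_top g)) a ha).symm
    set F := Subgroup.centralizer ({x₀} : Set Q)
    have hdec : ∀ y, ∃ e ∈ E, e * y ∈ F := by
      intro y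
      obtain ⟨e, he, hc⟩ := hsurj x₀ hx₀ ⁅x₀, y⁆⁻¹ (inv_mem (hcm _ _))
      refine ⟨e, he, Subgroup.mem_centralizer_singleton_iff.2 (mul_inv_eq_iff_eq_mul.1 ?_).symm⟩
      have hcomm : e * ⁅x₀, y⁆ = ⁅x₀, y⁆ * e := hab e he _ (hcm _ _)
      calc x₀ * (e * y) * x₀⁻¹ = ⁅x₀, e⁆ * (e * ⁅x₀, y⁆) * y := by
            simp only [commutatorElement_def]; group
        _ = e * y := by rw [hcomm, hc]; group
    have hdis : ∀ x ∈ E, x ∈ F → x = 1 := fun x hx hxF =>
      hfree x₀ hx₀ x hx (Subgroup.mem_centralizer_singleton_iff.1 hxF).symm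
    have hFab : ∀ a ∈ F, ∀ b ∈ F, a * b = b * a := fun a ha b hb => by
      have hm : ⁅a, b⁆ ∈ F := by
        rw [commutatorElement_def]; exact mul_mem (mul_mem (mul_mem ha hb) (inv_mem ha)) (inv_mem hb)
      exact commutatorElement_eq_one_iff_mul_comm.1 (hdis _ (hcm a b) hm)
    have hNE : N ≤ E := by
      intro y hy
      obtain ⟨e, he, hey⟩ := hdec y
      have hzN : e * y ∈ N := mul_mem (hEN he) hy
      have hz : e * y ∈ Subgroup.center Q := by
        rw [Subgroup.mem_center_iff]
        intro g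
        obtain ⟨a, ha, hag⟩ := hdec g
        have h1 : Commute (e * y) a⁻¹ :=
          (show Commute (e * y) a from (Subgroup.mem_centralizer_iff.1 hzN a ha).symm).inv_right
        have h2 : Commute (e * y) (a * g) := hFab _ hey _ hag
        have := (h1.mul_right h2).eq
        rw [inv_mul_cancel_left] at this
        exact this.symm
      have hbot : Subgroup.center Q = ⊥ := by
        by_contra h
        exact hcen (hmin _ inferInstance h)
      rw [hbot, Subgroup.mem_bot] at hz
      rw [eq_inv_of_mul_eq_one_right hz]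
      exact inv_mem he
    have hout : ∀ y, y ∉ E → y ∉ N := fun y hy h => hy (hNE h)
    -- orders
    have hcompl : Subgroup.IsComplement' E F := by
      refine Subgroup.isComplement'_of_disjoint_and_mul_eq_univ
        (Subgroup.disjoint_def.2 fun h1 h2 => hdis _ h1 h2) (Set.eq_univ_of_forall fun y => ?_)
      obtain ⟨e, he, hey⟩ := hdec y
      exact ⟨e⁻¹, inv_mem he, e * y, hey, inv_mul_cancel_left e y⟩
    have hFc : Nat.card F = E.index := hcompl.symm.index_eq_card.symm
    have hFi : F.index = Nat.card E := hcompl.index_eq_card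
    have hcop : (Nat.card E).Coprime E.index := by
      rw [← hFc, Nat.coprime_iff_gcd_eq_one]
      by_contra hg
      obtain ⟨p, hp, hpd⟩ := Nat.exists_prime_and_dvd hg
      haveI := Fact.mk hp
      obtain ⟨⟨y, hyF⟩, hy⟩ := exists_prime_orderOf_dvd_card' (G := F) p
        (hpd.trans (Nat.gcd_dvd_right _ _))
      rw [Subgroup.orderOf_mk] at hy
      have hy1 : y ≠ 1 := fun h => hp.one_lt.ne' (by rw [← hy, h, orderOf_one])
      have hyE : y ∉ E := fun h => hy1 (hdis y h hyF)
      letI : MulAction (Subgroup.zpowers y) E :=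
        MulAction.compHom E ((MulAut.conjNormal (H := E)).comp (Subgroup.zpowers y).subtype)
      have hP : IsPGroup p (Subgroup.zpowers y) := IsPGroup.of_card (n := 1) (by
        rw [Nat.card_zpowers, hy, pow_one])
      have h1f : (1 : E) ∈ MulAction.fixedPoints (Subgroup.zpowers y) E := fun a => map_one ((MulAut.conjNormal (H := E)) (a : Q))
      obtain ⟨b, hb, hb1⟩ := hP.exists_fixed_point_of_prime_dvd_card_of_fixed_point E
        (hpd.trans (Nat.gcd_dvd_left _ _)) h1f
      refine hb1 (Subtype.ext (hfree y (hout y hyE) b b.2 ?_).symm)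
      have h2 : y * (b : Q) * y⁻¹ = b := by
        have h3 := congrArg Subtype.val (hb ⟨y, Subgroup.mem_zpowers y⟩)
        exact (MulAut.conjNormal_apply y b).symm.trans h3
      exact mul_inv_eq_iff_eq_mul.1 h2
    -- a nontrivial linear character of `E`
    obtain ⟨z, hzE, hz1⟩ := (Subgroup.bot_or_exists_ne_one E).resolve_left hne
    obtain ⟨lam, hlam⟩ : ∃ lam : E →* ℂˣ, lam ⟨z, hzE⟩ ≠ 1 := by
      by_contra hno
      push Not at hno
      exact hz1 (congrArg Subtype.val (TwoDeg.eq_one_of_forall_hom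
        (fun a b => Subtype.ext (hab a a.2 b b.2)) hno))
    set M := E.comap f with hM
    haveI : M.Normal := Subgroup.Normal.comap inferInstance f
    set K := f.ker
    have hKM : K ≤ M := fun x hx => by
      rw [hM, Subgroup.mem_comap, MonoidHom.mem_ker.1 hx]; exact one_mem E
    set pr : M →* E := (f.comp M.subtype).codRestrict E fun m => m.2
    set mu : M →* ℂˣ := lam.comp pr
    have hMi : M.index = E.index := E.index_comap_of_surjective hf
    have hf2 : 2 ≤ E.index := Subgroup.one_lt_index_of_ne_top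
      fun h => hout x₀ (fun hx => hx₀ (hEN hx)) (hEN (h ▸ Subgroup.mem_top x₀))
    -- the inertia argument
    have key : ∀ ψ : M → ℂ, IsIrrCharacter M ψ →
        (∀ g : G, ∀ m : M, ψ (MulAut.conjNormal g m) = ψ m) →
        (∀ d : ℕ, ψ 1 = d → n < E.index * d →
          ∀ m : M, ψ m ≠ 0 → (m : G) ∈ K) := by
      intro ψ hψ hinv d hd hlt m hm
      set θ : M → ℂ := fun m => (mu m : ℂ) * ψ m
      have hθ : IsIrrCharacter M θ := isIrrCharacter_mul_hom hψ mu
      obtain ⟨ξ, hξ, -⟩ := exists_over hθ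
      have hdeg := Chars2.clifford_degree ξ.2 hθ hξ
      obtain ⟨e, he⟩ := exists_classInner_eq_nat (isCharacter_restrict (irr_isCharacter ξ) M)
        (isCharacter_of_isIrr hθ)
      rw [he, (Blocks.charDegree_eq ξ.2).1, show θ 1 = (d : ℂ) by simp [θ, hd]] at hdeg
      have hnat : charDegree (ξ : G → ℂ) = (Chars2.inertiaSub θ).index * e * d := by
        exact_mod_cast hdeg
      have he0 : e ≠ 0 := fun h => hξ (by rw [he, h, Nat.cast_zero])
      obtain ⟨g, hgI, hgM⟩ : ∃ g ∈ Chars2.inertiaSub θ, g ∉ M := by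
        refine SetLike.not_le_iff_exists.1 fun h => ?_
        obtain ⟨k, hk⟩ := Subgroup.index_dvd_of_le h
        have hk0 : k ≠ 0 := fun h0 => (Chars2.inertiaSub θ).index_ne_zero_of_finite (by
          rw [hk, h0, mul_zero])
        have h1 := hn ξ
        rw [hnat, hk, hMi] at h1
        have : E.index * d ≤ E.index * k * e * d := by
          rw [mul_assoc E.index]
          exact Nat.mul_le_mul_right d (Nat.le_mul_of_pos_right _
            (Nat.pos_of_ne_zero (mul_ne_zero hk0 he0)))
        omega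
      set y := f g⁻¹ with hy
      have hyN : y ∉ N := hout y fun h => hgM (by
        rw [hM, Subgroup.mem_comap]; simpa [hy] using inv_mem h)
      -- the set of elements of `E` fixed by the twisted character
      set cj : E →* E := (MulAut.conjNormal y).toMonoidHom
      set L := (MonoidHom.eqLocus (lam.comp cj) lam).map E.subtype
      set S : Set Q := {q | ∃ m : M, ψ m ≠ 0 ∧ f m = q}
      have hSL : Subgroup.normalClosure S ≤ L := by
        rw [Subgroup.normalClosure, Subgroup.closure_le]
        intro q hq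
        rw [Group.mem_conjugatesOfSet_iff] at hq
        obtain ⟨q₀, ⟨m₀, hm₀, rfl⟩, hcq⟩ := hq
        obtain ⟨c, hc⟩ := isConj_iff.1 hcq
        obtain ⟨g', rfl⟩ := hf c
        set m₁ : M := MulAut.conjNormal g' m₀ with hm₁
        have hm1 : ψ m₁ ≠ 0 := by rw [hm₁, hinv]; exact hm₀
        refine ⟨pr m₁, ?_, ?_⟩
        · show lam (cj (pr m₁)) = lam (pr m₁)
          have h1 := congrFun (Chars2.mem_inertiaSub.1 hgI) m₁
          simp only [Chars2.conjFun, θ] at h1
          rw [hinv] at h1
          have h2 := Units.val_injective (mul_right_cancel₀ hm1 h1)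
          rw [show cj (pr m₁) = pr (MulAut.conjNormal g⁻¹ m₁) from Subtype.ext (by
            show y * f (m₁ : G) * y⁻¹ = f ((MulAut.conjNormal g⁻¹ m₁ : M) : G)
            simp only [MulAut.conjNormal_apply, map_mul, hy]; rw [map_inv f g⁻¹])]
          exact h2
        · show f (m₁ : G) = q
          rw [hm₁, MulAut.conjNormal_apply, map_mul, map_mul, map_inv, hc]
      by_contra hmK
      have hW : E ≤ Subgroup.normalClosure S := hmin _ inferInstance fun h =>
        hmK (MonoidHom.mem_ker.2 (Subgroup.mem_bot.1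
          (h ▸ Subgroup.subset_normalClosure (s := S) ⟨m, hm, rfl⟩)))
      obtain ⟨e, he', hc⟩ := hsurj y hyN z hzE
      obtain ⟨e', hel, hee⟩ := hSL (hW he')
      change lam (cj e') = lam e' at hel
      refine hlam ?_
      rw [show (⟨z, hzE⟩ : E) = cj e' * e'⁻¹ from Subtype.ext (by
        show z = ((MulAut.conjNormal y e' : E) : Q) * ((e' : E) : Q)⁻¹
        rw [MulAut.conjNormal_apply, ← hc, commutatorElement_def]
        change (e' : Q) = e at hee
        rw [hee]), map_mul, map_inv, hel, mul_inv_cancel]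
    have hEn : E.index ≤ n := by
      by_contra hlt
      obtain ⟨e, he', hc⟩ : ∃ e ∈ E, e ≠ 1 := ⟨z, hzE, hz1⟩
      obtain ⟨g, hg⟩ := hf e
      refine hc (hg ▸ MonoidHom.mem_ker.1 ?_)
      exact key (fun _ => 1) isIrrCharacter_one (fun _ _ => rfl) 1 (by simp) (by omega)
        ⟨g, by rw [hM, Subgroup.mem_comap, hg]; exact he'⟩ one_ne_zero
    have hn1 : E.index ≤ n ^ 2 := hEn.trans (Nat.le_self_pow two_ne_zero n)
    by_cases hMb : Big n M
    swap
    · exact ⟨M, hMi ▸ hn1, bdd_pred hn hMb⟩
    have hnpos : 0 < n := lt_of_lt_of_le (by omega) hEn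
    -- every such character lives on the kernel inside `M`
    have hsupM : ∀ χ : G → ℂ, IsIrrCharacter G χ → χ 1 = n →
        IsIrrCharacter M (fun m : M => χ m) → ∀ x ∈ M, x ∉ K → χ x = 0 := by
      intro χ hχ h1 hr x hx hxK
      by_contra h0
      refine hxK (key _ hr (fun g m => ?_) n (by simpa using h1) ?_ ⟨x, hx⟩ h0)
      · rw [MulAut.conjNormal_apply]
        exact isCharacter_conj_apply (isCharacter_of_isIrr hχ) _ _
      · calc n < 2 * n := by omega
          _ ≤ E.index * n := Nat.mul_le_mul_right n hf2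
    have hKi : K.index = Nat.card Q := by
      rw [Subgroup.index_ker, MonoidHom.range_eq_top.2 hf, Subgroup.card_top]
    have hQc : Nat.card Q = Nat.card E * E.index := E.card_mul_index.symm
    haveI : K.Normal := inferInstance
    have hqd : Nat.card E ∣ n ^ 2 := by
      obtain ⟨χ, hχ, h1, hr⟩ := hMb
      have := index_dvd_sq (K := K.subgroupOf M) (n := n) hr (by simpa using h1)
        fun m hm => hsupM χ hχ h1 hr m m.2 fun h => hm h
      have h2 := Subgroup.relIndex_mul_index hKM
      rw [hKi, hQc, hMi] at h2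
      rwa [show (K.subgroupOf M).index = Nat.card E from
        Nat.eq_of_mul_eq_mul_right (by omega) h2] at this
    by_cases hHb : Big n (F.comap f)
    swap
    · refine ⟨F.comap f, ?_, bdd_pred hn hHb⟩
      rw [F.index_comap_of_surjective hf, hFi]
      exact Nat.le_of_dvd (by positivity) hqd
    have hKF : K ≤ F.comap f := fun x hx => by
      rw [Subgroup.mem_comap, MonoidHom.mem_ker.1 hx]; exact one_mem F
    have hfd : E.index ∣ n ^ 2 := by
      obtain ⟨χ, hχ, h1, hr⟩ := hHb
      have hcore : (F.comap f).normalCore ≤ K := by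
        intro x hx
        have hnm : ((F.comap f).normalCore.map f).Normal :=
          Subgroup.Normal.map inferInstance f hf
        have hle : (F.comap f).normalCore.map f ≤ F :=
          Subgroup.map_le_iff_le_comap.2 (Subgroup.normalCore_le _)
        refine MonoidHom.mem_ker.2 (Subgroup.mem_bot.1 ?_)
        have hb : (F.comap f).normalCore.map f = ⊥ := by
          by_contra h
          exact hne ((Subgroup.eq_bot_iff_forall _).2 fun a ha => hdis a ha (hle (hmin _ hnm h ha)))
        exact hb ▸ Subgroup.mem_map_of_mem f hx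
      have := index_dvd_sq (K := K.subgroupOf (F.comap f)) (n := n) hr (by simpa using h1)
        fun m hm => vanish_off_core hn hχ h1 hr m.2 fun h => hm (hcore h)
      have h2 := Subgroup.relIndex_mul_index hKF
      rw [hKi, hQc, F.index_comap_of_surjective hf, hFi, mul_comm (Nat.card E)] at h2
      rwa [show (K.subgroupOf (F.comap f)).index = E.index from
        Nat.eq_of_mul_eq_mul_right Nat.card_pos h2] at this
    refine ⟨K, ?_, bdd_pred hn ?_⟩
    · rw [hKi, hQc]
      exact Nat.le_of_dvd (by positivity) (hcop.mul_dvd_of_dvd_of_dvd hqd hfd)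
    rintro ⟨χ, hχ, h1, hr⟩
    have hrM : IsIrrCharacter M (fun m : M => χ m) := by
      refine irr_of_restrict_irr (G := M) (K := K.subgroupOf M)
        (isCharacter_restrict (isCharacter_of_isIrr hχ) M) ?_
      exact isIrrCharacter_comp_equiv hr (Subgroup.subgroupOfEquivOfLe hKM)
    have hs1 := sum_normSq_irr hrM
    have hs2 := sum_normSq_irr hr
    rw [← Finset.sum_subset (show Finset.univ.filter (· ∈ K) ⊆ Finset.univ.filter (· ∈ M) by
        intro x hx; simp only [Finset.mem_filter, Finset.mem_univ, true_and] at hx ⊢; exact hKM hx)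
        fun x hx hxK => by
          rw [hsupM χ hχ h1 hrM x (Finset.mem_filter.1 hx).2 (by simpa using hxK), map_zero],
      hs2, Nat.cast_inj] at hs1
    have h2 := Subgroup.relIndex_mul_index hKM
    have h3 : K.index = M.index := Nat.eq_of_mul_eq_mul_left (Nat.card_pos (α := K))
      (by rw [K.card_mul_index, hs1, M.card_mul_index])
    rw [hKi, hQc, hMi] at h3
    have hE1 : 1 < Nat.card E := (Subgroup.one_lt_card_iff_ne_bot E).2 hne
    nlinarith

end Cfsg.Agent.Chars.AbelianBound
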