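/-
Core library: fields of values of a column of the character table, and cyclic subgroups of index two.
-/
import Cfsg.Agent.Chars.GaloisValues
import Cfsg.Agent.Chars.Orth
import Cfsg.Agent.Chars.Eigen

set_option autoImplicit false
set_option linter.style.haveILetI false

namespace Cfsg.Agent.Chars

open Cfsg Cfsg.Agent
open scoped Classical

/-- A field generated by algebraic numbers contains what is fixed by all automorphisms fixing it. -/
theorem adjoin_le_of_fixed {S T : Set ℂ} (hS : ∀ x ∈ S, IsIntegral ℤ x) (hT : ∀ x ∈ T, IsIntegral ℤ x)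
    (h : ∀ σ : ℂ ≃+* ℂ, (∀ x ∈ T, σ x = x) → ∀ x ∈ S, σ x = x) :
    IntermediateField.adjoin ℚ S ≤ IntermediateField.adjoin ℚ T := by
  rw [IntermediateField.adjoin_le_iff]
  intro x hx
  let L := algebraicClosure ℚ ℂ
  haveI : IsAlgClosure ℚ L := algebraicClosure.isAlgClosure ℚ ℂ
  haveI : Normal ℚ L := IsAlgClosure.normal ℚ L
  haveI : IsGalois ℚ L := { }
  have hmem : ∀ y : ℂ, IsIntegral ℤ y → y ∈ L := fun y hy =>
    mem_algebraicClosure_iff.mpr hy.tower_top.isAlgebraic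
  let y : L := ⟨x, hmem x (hS x hx)⟩
  let F : IntermediateField ℚ L := IntermediateField.adjoin ℚ ((Subtype.val : L → ℂ) ⁻¹' T)
  have hy : y ∈ F := by
    rw [← InfiniteGalois.fixedField_fixingSubgroup F, IntermediateField.mem_fixedField_iff]
    intro τ hτ
    obtain ⟨σ, hσ⟩ := OddChar.exists_extend_aut τ.toRingEquiv
    have h1 : ∀ t ∈ T, σ t = t := by
      intro t ht
      have h2 : τ ⟨t, hmem t (hT t ht)⟩ = ⟨t, hmem t (hT t ht)⟩ :=
        (IntermediateField.mem_fixingSubgroup_iff F τ).mp hτ _ (IntermediateField.subset_adjoin ℚ _ ht)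
      have h3 := hσ ⟨t, hmem t (hT t ht)⟩
      rw [show τ.toRingEquiv ⟨t, hmem t (hT t ht)⟩ = ⟨t, hmem t (hT t ht)⟩ from h2] at h3
      exact h3
    exact Subtype.ext ((hσ y).symm.trans (h σ h1 x hx))
  have key : ∀ z : L, z ∈ F → (z : ℂ) ∈ IntermediateField.adjoin ℚ T := by
    intro z hz
    induction hz using IntermediateField.adjoin_induction with
    | mem z hz => exact IntermediateField.subset_adjoin ℚ T hz
    | algebraMap q => exact (IntermediateField.adjoin ℚ T).algebraMap_mem q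
    | add a b _ _ ha hb => exact add_mem ha hb
    | inv a _ ha => exact inv_mem ha
    | mul a b _ _ ha hb => exact mul_mem ha hb
  exact key y hy

variable {G : Type*} [Group G] [Finite G]

/-- Characters separate classes. -/
theorem isConj_of_values {x y : G} (h : ∀ χ : IrrCharacter G, (χ : G → ℂ) x = (χ : G → ℂ) y) :
    IsConj x y := by
  haveI := Fintype.ofFinite G
  let f : G → ℂ := fun g => if IsConj x g then 1 else 0
  have hf : IsClassFunction G f := fun a b => by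
    have hc : IsConj x (b * a * b⁻¹) ↔ IsConj x a :=
      ⟨fun h => h.trans (isConj_iff.mpr ⟨b, rfl⟩).symm, fun h => h.trans (isConj_iff.mpr ⟨b, rfl⟩)⟩
    simp only [f, hc]
  have h1 : f x = f y := by
    rw [eq_sum_classInner hf]
    simp only [Finset.sum_apply, Pi.smul_apply, h]
  by_contra hne
  simp only [f, if_pos (IsConj.refl x), if_neg hne] at h1
  exact one_ne_zero h1

/-- An automorphism of `ℂ` is a power map both on a given root of unity and on character values. -/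
theorem exists_aut_apply_root (σ : ℂ ≃+* ℂ) :
    ∃ k : ℕ, k.Coprime (Nat.card G) ∧ (∀ z : ℂ, z ^ Nat.card G = 1 → σ z = z ^ k) ∧
      ∀ χ : G → ℂ, IsCharacter G χ → ∀ g : G, σ (χ g) = χ (g ^ k) := by
  have hN : Nat.card G ≠ 0 := Nat.card_pos.ne'
  haveI : NeZero (Nat.card G) := ⟨hN⟩
  have hω := Complex.isPrimitiveRoot_exp (Nat.card G) hN
  set ω := Complex.exp (2 * Real.pi * Complex.I / (Nat.card G : ℕ))
  obtain ⟨k, -, hk, hk2⟩ := (hω.isPrimitiveRoot_iff).1
    (hω.map_of_injective (f := σ) σ.injective)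
  have hroot : ∀ z : ℂ, z ^ Nat.card G = 1 → σ z = z ^ k := by
    intro z hz
    obtain ⟨j, -, rfl⟩ := hω.eq_pow_of_pow_eq_one hz
    rw [map_pow, ← hk2, ← pow_mul, ← pow_mul, mul_comm]
  refine ⟨k, hk, hroot, fun χ hχ g => ?_⟩
  obtain ⟨n, ρ, rfl⟩ := hχ
  obtain ⟨z, hz, hc, -, -⟩ := exists_eigenvalues ρ g
  rw [show ρ.character g = ∑ i, z i by simpa using hc 1, hc k, map_sum]
  refine Finset.sum_congr rfl fun i _ => hroot _ ?_
  obtain ⟨c, hc⟩ := orderOf_dvd_natCard g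
  rw [hc, pow_mul, hz i, one_pow]

/-- The character values at an element are algebraic integers. -/
theorem column_integral (g : G) :
    ∀ x ∈ {z : ℂ | ∃ χ : IrrCharacter G, (χ : G → ℂ) g = z}, IsIntegral ℤ x := by
  rintro _ ⟨χ, rfl⟩
  exact isIntegral_of_isCharacter (irr_isCharacter χ) g

/-- The column field equals a given field as soon as both are fixed by the same automorphisms. -/
theorem adjoin_column_eq (g : G) {x : ℂ} (hx : IsIntegral ℤ x)
    (h : ∀ σ : ℂ ≃+* ℂ, σ x = x ↔ ∀ χ : IrrCharacter G, σ ((χ : G → ℂ) g) = (χ : G → ℂ) g) :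
    IntermediateField.adjoin ℚ {z : ℂ | ∃ χ : IrrCharacter G, (χ : G → ℂ) g = z} =
      IntermediateField.adjoin ℚ ({x} : Set ℂ) := by
  refine le_antisymm (adjoin_le_of_fixed (column_integral g) (fun y hy => hy ▸ hx) ?_)
    (adjoin_le_of_fixed (fun y hy => hy ▸ hx) (column_integral g) ?_)
  · rintro σ hσ _ ⟨χ, rfl⟩
    exact (h σ).mp (hσ x rfl) χ
  · rintro σ hσ y rfl
    exact (h σ).mpr fun χ => hσ _ ⟨χ, rfl⟩

/-- Fixing the column is fixing the class under the power map. -/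
theorem fixes_column_iff (g : G) {σ : ℂ ≃+* ℂ} {k : ℕ}
    (hk : ∀ χ : G → ℂ, IsCharacter G χ → ∀ g : G, σ (χ g) = χ (g ^ k)) :
    (∀ χ : IrrCharacter G, σ ((χ : G → ℂ) g) = (χ : G → ℂ) g) ↔ IsConj g (g ^ k) := by
  constructor
  · intro h
    exact isConj_of_values fun χ => (h χ).symm.trans (hk _ (irr_isCharacter χ) g)
  · intro h χ
    rw [hk _ (irr_isCharacter χ) g]
    obtain ⟨c, hc⟩ := isConj_iff.mp h
    rw [← hc]
    exact isCharacter_conj_apply (irr_isCharacter χ) g c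

/-- Elements fixed by an automorphism among the sums of a root and its inverse. -/
theorem fixes_sum_iff {ζ : ℂ} (hζ0 : ζ ≠ 0) (σ : ℂ ≃+* ℂ) :
    σ (ζ + ζ⁻¹) = ζ + ζ⁻¹ ↔ σ ζ = ζ ∨ σ ζ = ζ⁻¹ := by
  rw [map_add, map_inv₀]
  have h0 : σ ζ ≠ 0 := (map_ne_zero σ).mpr hζ0
  constructor
  · intro h
    have h1 : (σ ζ - ζ) * (σ ζ - ζ⁻¹) = 0 := by
      have e1 : σ ζ * (σ ζ)⁻¹ = 1 := mul_inv_cancel₀ h0
      have e2 : ζ * ζ⁻¹ = 1 := mul_inv_cancel₀ hζ0
      linear_combination (σ ζ) * h - e1 + e2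
    exact (mul_eq_zero.mp h1).imp sub_eq_zero.mp sub_eq_zero.mp
  · rintro (h | h) <;> rw [h]
    rw [inv_inv, add_comm]

/-- Elements fixed by an automorphism among the differences of a root and its inverse. -/
theorem fixes_sub_iff {ζ : ℂ} (hζ0 : ζ ≠ 0) (σ : ℂ ≃+* ℂ) :
    σ (ζ - ζ⁻¹) = ζ - ζ⁻¹ ↔ σ ζ = ζ ∨ σ ζ = -ζ⁻¹ := by
  rw [map_sub, map_inv₀]
  have h0 : σ ζ ≠ 0 := (map_ne_zero σ).mpr hζ0
  constructor
  · intro h
    have h1 : (σ ζ - ζ) * (σ ζ - -ζ⁻¹) = 0 := by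
      have e1 : σ ζ * (σ ζ)⁻¹ = 1 := mul_inv_cancel₀ h0
      have e2 : ζ * ζ⁻¹ = 1 := mul_inv_cancel₀ hζ0
      linear_combination (σ ζ) * h + e1 - e2
    exact (mul_eq_zero.mp h1).imp sub_eq_zero.mp sub_eq_zero.mp
  · rintro (h | h) <;> rw [h]
    rw [inv_neg, inv_inv]
    ring

end Cfsg.Agent.Chars
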