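import Cfsg.Agent.Chars.InvariantAbove
import Cfsg.Agent.Chars2.Correspondence
import Cfsg.Agent.Chars.PrimePowerDivisor
import Cfsg.Agent.Core.CoprimeAction

/-!
Fixed points in cosets and invariant constituents, for a coprime action on a solvable group.
-/

set_option autoImplicit false
set_option linter.style.haveILetI false
set_option linter.unusedSectionVars false

open Cfsg Cfsg.Agent
open scoped ComplexConjugate

namespace Cfsg.Agent.Chars.CoprimeFixed

universe u v

variable {G : Type u} [Group G] [Fintype G] {A : Type v} [Group A] [Finite A]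

/-- An invariant coset of a solvable subgroup of coprime order contains a fixed point. -/
theorem exists_fixed_in_coset (φ : A →* MulAut G) (T : Subgroup G)
    (hT : ∀ a, ∀ t ∈ T, φ a t ∈ T) (hTs : Group.IsSolvable T)
    (hcop : (Nat.card T).Coprime (Nat.card A)) {g : G} (hg : ∀ a, g⁻¹ * φ a g ∈ T) :
    ∃ t ∈ T, g * t ∈ fixSub φ := by
  haveI : Finite (G ⋊[φ] A) := Finite.of_equiv _ SemidirectProduct.equivProd.symm
  let N := T.map (SemidirectProduct.inl : G →* G ⋊[φ] A)
  let S := (SemidirectProduct.inr : A →* G ⋊[φ] A).range.map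
    (MulAut.conj ((SemidirectProduct.inl g : G ⋊[φ] A)⁻¹)).toMonoidHom
  have hA : (SemidirectProduct.inr : A →* G ⋊[φ] A).range ≤
      Subgroup.normalizer (N : Set (G ⋊[φ] A)) := by
    rintro _ ⟨a, rfl⟩
    have hconj : ∀ b, ∀ y ∈ N, SemidirectProduct.inr b * y * (SemidirectProduct.inr b)⁻¹ ∈ N := by
      rintro b _ ⟨t, ht, rfl⟩
      refine ⟨φ b t, hT b t ht, ?_⟩
      rw [SemidirectProduct.inl_aut, map_inv]
    rw [Subgroup.mem_normalizer_iff]
    refine fun y => ⟨fun hy => hconj a y hy, fun hy => ?_⟩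
    have h1 := hconj a⁻¹ _ hy
    rw [map_inv, inv_inv] at h1
    simpa [mul_assoc] using h1
  have hs : Group.IsSolvable (SemidirectProduct.inr : A →* G ⋊[φ] A).range ∨ Group.IsSolvable N := by
    haveI := hTs
    exact Or.inr (Group.isSolvable_of_surjective
      (f := (SemidirectProduct.inl : G →* G ⋊[φ] A).subgroupMap T)
      (MonoidHom.subgroupMap_surjective _ _))
  have hcop' : (Nat.card (SemidirectProduct.inr : A →* G ⋊[φ] A).range).Coprime (Nat.card N) := by
    rw [show Nat.card (SemidirectProduct.inr : A →* G ⋊[φ] A).range = Nat.card A from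
        (Nat.card_congr (MonoidHom.ofInjective SemidirectProduct.inr_injective).toEquiv).symm,
      Subgroup.card_map_of_injective SemidirectProduct.inl_injective]
    exact hcop.symm
  obtain ⟨x, ⟨t, ht, rfl⟩, hx⟩ := Core.exists_conj_le hA hs hcop' (S := S) (by
    rintro _ ⟨a, rfl⟩
    refine ⟨SemidirectProduct.inl (g⁻¹ * φ a g), ⟨_, hg a, rfl⟩, SemidirectProduct.inr a,
      ⟨a, rfl⟩, ?_⟩
    show (SemidirectProduct.inl g)⁻¹ * SemidirectProduct.inr a *
      ((SemidirectProduct.inl g)⁻¹)⁻¹ = _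
    rw [map_mul, SemidirectProduct.inl_aut, map_inv, map_inv, inv_inv]
    group)
  refine ⟨t, ht, fun a => ?_⟩
  obtain ⟨_, ⟨b, rfl⟩, hb⟩ := hx (SemidirectProduct.inr a) ⟨a, rfl⟩
  change (SemidirectProduct.inl g)⁻¹ * SemidirectProduct.inr b *
    ((SemidirectProduct.inl g)⁻¹)⁻¹ = _ at hb
  rw [inv_inv] at hb
  have hba : b = a := by
    have := congrArg SemidirectProduct.rightHom hb
    simpa using this
  subst hba
  have h1 : SemidirectProduct.inr b * SemidirectProduct.inl (g * t) * (SemidirectProduct.inr b)⁻¹ =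
      (SemidirectProduct.inl (g * t) : G ⋊[φ] A) := by
    rw [map_mul]
    have h2 : SemidirectProduct.inr b * SemidirectProduct.inl g =
        SemidirectProduct.inl g * (SemidirectProduct.inl t * SemidirectProduct.inr b *
          (SemidirectProduct.inl t)⁻¹ : G ⋊[φ] A) := by
      rw [← hb]; group
    rw [← mul_assoc (SemidirectProduct.inr b), h2]
    group
  apply SemidirectProduct.inl_injective (φ := φ)
  rw [← h1, SemidirectProduct.inl_aut, map_inv]

/-- An invariant character has an invariant constituent on an invariant normal subgroup. -/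
theorem exists_invariant_constituent (φ : A →* MulAut G) (hs : Group.IsSolvable G)
    (hcop : (Nat.card G).Coprime (Nat.card A)) (N : Subgroup G) [N.Normal] [Fintype N]
    (hN : ∀ a, ∀ n ∈ N, φ a n ∈ N) {χ : IrrCharacter G} (hχ : InvFun φ (χ : G → ℂ)) :
    ∃ θ : IrrCharacter N, classInner (fun n : N => (χ : G → ℂ) n) (θ : N → ℂ) ≠ 0 ∧
      ∀ (a : A) (n : N), (θ : N → ℂ) ⟨φ a n, hN a n n.2⟩ = (θ : N → ℂ) n := by
  classical
  let μG : G →* MulAut N := MulAut.conjNormal
  let μA : A →* MulAut N := subAct φ N hN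
  let pG : G →* Equiv.Perm (IrrCharacter N) :=
    letI := irrAction μG
    MulAction.toPermHom G (IrrCharacter N)
  let pA : A →* Equiv.Perm (IrrCharacter N) :=
    letI := irrAction μA
    MulAction.toPermHom A (IrrCharacter N)
  have hcompat : ∀ a : A,
      pG.comp (φ a).toMonoidHom = (MulAut.conj (pA a)).toMonoidHom.comp pG := by
    intro a
    refine MonoidHom.ext fun g => ?_
    show pG (φ a g) = pA a * pG g * (pA a)⁻¹
    rw [← map_inv]
    refine Equiv.ext fun θ => Subtype.ext (funext fun x => ?_)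
    show (θ : N → ℂ) (μG (φ a g)⁻¹ x) = (θ : N → ℂ) (μA a⁻¹⁻¹ (μG g⁻¹ (μA a⁻¹ x)))
    refine congrArg (θ : N → ℂ) (Subtype.ext ?_)
    simp [μG, μA, subAct]
  let Φ : G ⋊[φ] A →* Equiv.Perm (IrrCharacter N) := SemidirectProduct.lift pG pA hcompat
  letI := MulAction.compHom (IrrCharacter N) Φ
  obtain ⟨θ₀, hθ₀'⟩ :=
    PrimePower.exists_constituent (irr_isCharacter χ) (irr_apply_one_ne_zero χ.2) N
  have hθ₀ : classInner (fun n : N => (χ : G → ℂ) n) (θ₀ : N → ℂ) ≠ 0 := by convert hθ₀'
  let K := (SemidirectProduct.inl : G →* G ⋊[φ] A).range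
  haveI : Finite (G ⋊[φ] A) := Finite.of_equiv _ SemidirectProduct.equivProd.symm
  haveI hKn : K.Normal := by
    show (SemidirectProduct.inl : G →* G ⋊[φ] A).range.Normal
    rw [SemidirectProduct.range_inl_eq_ker_rightHom]
    infer_instance
  have hA : (SemidirectProduct.inr : A →* G ⋊[φ] A).range ≤
      Subgroup.normalizer (K : Set (G ⋊[φ] A)) := by
    rw [Subgroup.normalizer_eq_top (H := K)]; exact le_top
  have hs' : Group.IsSolvable (SemidirectProduct.inr : A →* G ⋊[φ] A).range ∨ Group.IsSolvable K := by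
    haveI := hs
    exact Or.inr (Group.isSolvable_of_surjective
      (f := (SemidirectProduct.inl : G →* G ⋊[φ] A).rangeRestrict)
      (MonoidHom.rangeRestrict_surjective _))
  have hcop' : (Nat.card (SemidirectProduct.inr : A →* G ⋊[φ] A).range).Coprime (Nat.card K) := by
    rw [show Nat.card (SemidirectProduct.inr : A →* G ⋊[φ] A).range = Nat.card A from
        (Nat.card_congr (MonoidHom.ofInjective SemidirectProduct.inr_injective).toEquiv).symm,
      show Nat.card K = Nat.card G from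
        (Nat.card_congr (MonoidHom.ofInjective SemidirectProduct.inl_injective).toEquiv).symm]
    exact hcop.symm
  obtain ⟨x, ⟨g, rfl⟩, hfix⟩ := Core.exists_conj_le hA hs' hcop'
    (S := MulAction.stabilizer (G ⋊[φ] A) θ₀) (fun y hy => by
      obtain ⟨a, rfl⟩ := hy
      have hθ₁ : classInner (fun n : N => (χ : G → ℂ) n) (pA a θ₀ : N → ℂ) ≠ 0 := by
        show classInner (fun n : N => (χ : G → ℂ) n) (fun n => (θ₀ : N → ℂ) (μA a⁻¹ n)) ≠ 0
        have hinv' : (fun n : N => (χ : G → ℂ) n) = fun n : N => (χ : G → ℂ) (μA a⁻¹ n : N) :=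
          funext fun n => (hχ a⁻¹ (n : G)).symm
        rw [hinv', classInner_comp_equiv (μA a⁻¹) (fun n : N => (χ : G → ℂ) n) (θ₀ : N → ℂ)]
        exact hθ₀
      obtain ⟨g, hg⟩ := Chars2.clifford_constituent χ.2 (pA a θ₀).2 hθ₁ θ₀.2 hθ₀
      refine ⟨SemidirectProduct.inl g, ⟨_, rfl⟩, ?_⟩
      rw [MulAction.mem_stabilizer_iff]
      show Φ (_ * _) θ₀ = θ₀
      rw [map_mul, SemidirectProduct.lift_inl, SemidirectProduct.lift_inr]
      exact Subtype.ext hg.symm)
  let θ : IrrCharacter N := (pG g)⁻¹ θ₀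
  have hθ : classInner (fun n : N => (χ : G → ℂ) n) (θ : N → ℂ) ≠ 0 := by
    have h : θ = pG g⁻¹ θ₀ := by rw [map_inv]
    rw [h]
    show classInner (fun n : N => (χ : G → ℂ) n) (Chars2.conjFun (θ₀ : N → ℂ) g⁻¹) ≠ 0
    rw [Chars2.classInner_restrict_conjFun (isClassFunction_irr χ)]
    exact hθ₀
  have hfix' : ∀ a, pA a θ = θ := by
    intro a
    have h := MulAction.mem_stabilizer_iff.1 (hfix (SemidirectProduct.inr a) ⟨a, rfl⟩)
    change Φ (_ * _ * _) θ₀ = θ₀ at h
    rw [map_mul, map_mul, map_inv, SemidirectProduct.lift_inl, SemidirectProduct.lift_inr] at h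
    exact (Equiv.Perm.eq_inv_iff_eq).2 h
  refine ⟨θ, hθ, fun a n => ?_⟩
  have h1 := congrFun (congrArg Subtype.val (hfix' a⁻¹)) n
  change (θ : N → ℂ) (μA a⁻¹⁻¹ n) = _ at h1
  rw [inv_inv] at h1
  exact h1

end Cfsg.Agent.Chars.CoprimeFixed
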