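import Mathlib.GroupTheory.PGroup
import Mathlib.GroupTheory.QuotientGroup.Basic
import Mathlib.Algebra.BigOperators.Ring.Finset
import Mathlib.GroupTheory.Index
import Mathlib.Tactic

/-!
Averaging lemma for coprime actions: if an `r`-group acts on a finite abelian group of order
prime to `r` without nonzero common fixed points, some element fixes at most `√|V|` points.
-/

set_option autoImplicit false

namespace Cfsg.Agent.Chars.FixedProduct

variable {A V : Type*} [Group A] [AddCommGroup V]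

/-- The fixed points of one operator. -/
def fixd (ρ : A →* AddMonoid.End V) (a : A) : AddSubgroup V where
  carrier := {v | ρ a v = v}
  zero_mem' := map_zero (ρ a)
  add_mem' {v w} hv hw := by
    show ρ a (v + w) = v + w
    rw [map_add, show ρ a v = v from hv, show ρ a w = w from hw]
  neg_mem' {v} hv := by
    show ρ a (-v) = -v
    rw [map_neg, show ρ a v = v from hv]

theorem card_eq_ker_mul_map [Finite V] (δ : V →+ V) (H : AddSubgroup V) :
    Nat.card H = Nat.card ↥(H ⊓ δ.ker) * Nat.card ↥(H.map δ) := by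
  let f : H →+ V := δ.comp H.subtype
  rw [AddSubgroup.card_eq_card_quotient_mul_card_addSubgroup f.ker, mul_comm]
  congr 1
  · refine Nat.card_congr
      { toFun := fun x => ⟨(x.1 : V), x.1.2, x.2⟩
        invFun := fun x => ⟨⟨x.1, x.2.1⟩, x.2.2⟩
        left_inv := fun x => rfl
        right_inv := fun x => rfl }
  · rw [Nat.card_congr (QuotientAddGroup.quotientKerEquivRange f).toEquiv]
    have : f.range = H.map δ := by
      ext v
      constructor
      · rintro ⟨h, rfl⟩; exact ⟨h, h.2, rfl⟩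
      · rintro ⟨h, hh, rfl⟩; exact ⟨⟨h, hh⟩, rfl⟩
    rw [this]

variable [Finite A] [Finite V] {r : ℕ}

/-- Fixed point sets of the translates of `a` by the powers of a fixed-point-free `z` are independent. -/
theorem prod_translates_le {r : ℕ} (hr : r.Prime) (ρ : A →* AddMonoid.End V) (U W : AddSubgroup V)
    (hinv : ∀ a, ∀ u ∈ U, ρ a u ∈ U) (hWU : W ≤ U) (hWinv : ∀ a, ∀ w ∈ W, ρ a w ∈ W) (z : A)
    (hcomm : ∀ a, ∀ u ∈ U, ρ a (ρ z u) = ρ z (ρ a u)) (hzr : ∀ u ∈ U, ρ (z ^ r) u = u)
    (hWfix : ∀ w ∈ W, ρ z w = w → w = 0) (a : A) :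
    ∏ k ∈ Finset.range r, Nat.card ↥(W ⊓ fixd ρ (a * z ^ k)) ≤ Nat.card W := by
  classical
  have key : ∀ (s : Finset ℕ), (∀ k ∈ s, k < r) → ∀ v : ℕ → V,
      (∀ k ∈ s, v k ∈ W ⊓ fixd ρ (a * z ^ k)) → ∑ k ∈ s, v k = 0 → ∀ k ∈ s, v k = 0 := by
    intro s
    induction s using Finset.induction_on with
    | empty => intro _ _ _ _ k hk; exact absurd hk (Finset.notMem_empty k)
    | insert i s hi ihs =>
      intro hs v hv hsum
      set T := fun x : V => ρ (a * z ^ i) x - x with hT
      have hT0 : ∑ k ∈ insert i s, T (v k) = 0 := by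
        simp only [hT, Finset.sum_sub_distrib, ← map_sum, hsum, map_zero, sub_zero]
      rw [Finset.sum_insert hi, show T (v i) = 0 from sub_eq_zero.2
        (hv i (Finset.mem_insert_self i s)).2, zero_add] at hT0
      have hTv : ∀ k ∈ s, ρ (a * z ^ i) (v k) = ρ (z ^ (i + r - k)) (v k) := by
        intro k hk
        have hk' := hv k (Finset.mem_insert_of_mem hk)
        have hkr := hs k (Finset.mem_insert_of_mem hk)
        have e : a * z ^ k * z ^ (i + r - k) = a * z ^ i * z ^ r := by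
          rw [mul_assoc, ← pow_add, mul_assoc, ← pow_add]
          congr 2
          omega
        have h1 : ρ (a * z ^ i) (v k) = ρ (a * z ^ k * z ^ (i + r - k)) (v k) := by
          rw [e, map_mul ρ (a * z ^ i)]
          show _ = ρ (a * z ^ i) (ρ (z ^ r) (v k))
          rw [hzr _ (hWU hk'.1)]
        have hc : ∀ (j : ℕ) (b : A), ∀ u ∈ U, ρ b (ρ (z ^ j) u) = ρ (z ^ j) (ρ b u) := by
          intro j b
          induction j with
          | zero => intro u _; simp
          | succ j ihj =>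
            intro u hu
            rw [pow_succ', map_mul]
            show ρ b (ρ z (ρ (z ^ j) u)) = ρ z (ρ (z ^ j) (ρ b u))
            rw [hcomm b _ (hinv _ u hu), ihj u hu]
        rw [h1, map_mul]
        show ρ (a * z ^ k) (ρ (z ^ (i + r - k)) (v k)) = _
        rw [hc _ _ _ (hWU hk'.1), show ρ (a * z ^ k) (v k) = v k from hk'.2]
      have hTmem : ∀ k ∈ s, T (v k) ∈ W ⊓ fixd ρ (a * z ^ k) := by
        intro k hk
        have hk' := hv k (Finset.mem_insert_of_mem hk)
        refine ⟨W.sub_mem (hWinv _ _ hk'.1) hk'.1, ?_⟩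
        show ρ (a * z ^ k) (T (v k)) = T (v k)
        simp only [hT, map_sub, show ρ (a * z ^ k) (v k) = v k from hk'.2]
        rw [hTv k hk]
        have hc : ∀ (j : ℕ), ∀ u ∈ U, ρ (a * z ^ k) (ρ (z ^ j) u) = ρ (z ^ j) (ρ (a * z ^ k) u) := by
          intro j
          induction j with
          | zero => intro u _; simp
          | succ j ihj =>
            intro u hu
            rw [pow_succ' z j, map_mul _ z]
            show ρ (a * z ^ k) (ρ z (ρ (z ^ j) u)) = ρ z (ρ (z ^ j) (ρ (a * z ^ k) u))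
            rw [hcomm _ _ (hinv _ u hu), ihj u hu]
        rw [hc _ _ (hWU hk'.1), show ρ (a * z ^ k) (v k) = v k from hk'.2]
      have hall := ihs (fun k hk => hs k (Finset.mem_insert_of_mem hk)) (fun k => T (v k)) hTmem hT0
      have hzero : ∀ k ∈ s, v k = 0 := by
        intro k hk
        have hk' := hv k (Finset.mem_insert_of_mem hk)
        have hkr := hs k (Finset.mem_insert_of_mem hk)
        have hir := hs i (Finset.mem_insert_self i s)
        have hne : i ≠ k := fun h => hi (h ▸ hk)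
        refine hWfix _ hk'.1 ?_
        have h1 : ρ (z ^ (i + r - k)) (v k) = v k := by
          rw [← hTv k hk]; exact sub_eq_zero.1 (hall k hk)
        let S : Subgroup A :=
          { carrier := {x | ρ x (v k) = v k}
            one_mem' := by show ρ 1 (v k) = v k; rw [map_one]; rfl
            mul_mem' := fun {x y} hx hy => by
              show ρ (x * y) (v k) = v k
              rw [map_mul]; show ρ x (ρ y (v k)) = v k; rw [hy, hx]
            inv_mem' := fun {x} hx => by
              show ρ x⁻¹ (v k) = v k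
              conv_lhs => rw [← show ρ x (v k) = v k from hx]
              show (ρ x⁻¹ * ρ x) (v k) = v k
              rw [← map_mul, inv_mul_cancel, map_one]; rfl }
        have hcp : (i + r - k).Coprime r := by
          refine Nat.Coprime.symm ((hr.coprime_iff_not_dvd).2 ?_)
          rintro ⟨c, hc⟩
          rcases Nat.lt_trichotomy c 1 with h | h | h
          · interval_cases c; omega
          · subst h; omega
          · have : r * 2 ≤ r * c := Nat.mul_le_mul_left r h
            omega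
        have hb := Nat.gcd_eq_gcd_ab (i + r - k) r
        rw [hcp.gcd_eq_one, Nat.cast_one] at hb
        have : z ∈ S := by
          rw [← zpow_one z, hb, zpow_add, zpow_mul, zpow_mul, zpow_natCast, zpow_natCast]
          exact S.mul_mem (S.zpow_mem (show z ^ (i + r - k) ∈ S from h1) _)
            (S.zpow_mem (show z ^ r ∈ S from hzr _ (hWU hk'.1)) _)
        exact this
      intro k hk
      rcases Finset.mem_insert.1 hk with rfl | hk
      · rw [Finset.sum_insert hi, Finset.sum_eq_zero hzero, add_zero] at hsum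
        exact hsum
      · exact hzero k hk
  rw [← Finset.prod_coe_sort, ← Nat.card_pi]
  refine Nat.card_le_card_of_injective
    (fun f : ∀ k : Finset.range r, ↥(W ⊓ fixd ρ (a * z ^ (k : ℕ))) =>
      (⟨∑ k, (f k : V), W.sum_mem fun k _ => (f k).2.1⟩ : W)) ?_
  intro f g hfg
  have hsum : ∑ k : Finset.range r, ((f k : V) - (g k : V)) = 0 := by
    rw [Finset.sum_sub_distrib, sub_eq_zero]
    exact congrArg Subtype.val hfg
  let v : ℕ → V := fun k => if hk : k ∈ Finset.range r then (f ⟨k, hk⟩ : V) - g ⟨k, hk⟩ else 0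
  have hv0 := key (Finset.range r) (fun k hk => Finset.mem_range.1 hk) v (fun k hk => by
      simp only [v, dif_pos hk]
      exact (W ⊓ fixd ρ (a * z ^ k)).sub_mem (f ⟨k, hk⟩).2 (g ⟨k, hk⟩).2)
    (by rw [← Finset.sum_coe_sort, ← hsum]; exact Finset.sum_congr rfl fun k _ => by
          simp only [v, dif_pos k.2])
  funext k
  have := hv0 k k.2
  simp only [v, dif_pos k.2, sub_eq_zero] at this
  exact Subtype.ext this

set_option maxHeartbeats 1000000 in
theorem prod_fixd_le [Fact r.Prime] (hA : IsPGroup r A) (ρ : A →* AddMonoid.End V)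
    (hcop : (Nat.card V).Coprime r) (hfix : ∀ v, (∀ a, ρ a v = v) → v = 0) :
    ∀ (n : ℕ) (U : AddSubgroup V), Nat.card U ≤ n → (∀ a, ∀ u ∈ U, ρ a u ∈ U) →
      ∀ [Fintype A], (∏ a : A, Nat.card ↥(U ⊓ fixd ρ a)) ^ r ≤ Nat.card U ^ Nat.card A := by
  classical
  have hr : r.Prime := Fact.out
  intro n
  induction n using Nat.strong_induction_on with
  | _ n ih =>
  intro U hU hinv _
  by_cases hbot : U = ⊥
  · subst hbot
    simp
  let K : Subgroup A :=
    { carrier := {a | ∀ u ∈ U, ρ a u = u}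
      one_mem' := fun u _ => by rw [map_one]; rfl
      mul_mem' := fun {a b} ha hb u hu => by
        rw [map_mul]; show ρ a (ρ b u) = u; rw [hb u hu, ha u hu]
      inv_mem' := fun {a} ha u hu => by
        conv_lhs => rw [← ha u hu]
        show (ρ a⁻¹ * ρ a) u = u
        rw [← map_mul, inv_mul_cancel, map_one]; rfl }
  haveI hKn : K.Normal := ⟨fun a ha g u hu => by
    rw [map_mul, map_mul]
    show ρ g (ρ a (ρ g⁻¹ u)) = u
    rw [ha _ (hinv g⁻¹ u hu)]
    show (ρ g * ρ g⁻¹) u = u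
    rw [← map_mul, mul_inv_cancel, map_one]; rfl⟩
  have hKne : K ≠ ⊤ := fun hK => hbot (by
    rw [eq_bot_iff]
    intro u hu
    exact hfix u fun a => (hK ▸ Subgroup.mem_top a : a ∈ K) u hu)
  haveI : Nontrivial (A ⧸ K) := QuotientGroup.nontrivial_iff.2 hKne
  have hQ : IsPGroup r (A ⧸ K) := hA.to_quotient K
  haveI := hQ.center_nontrivial
  obtain ⟨m, hm0, hm⟩ := (hQ.to_subgroup (Subgroup.center (A ⧸ K))).nontrivial_iff_card.1 inferInstance
  obtain ⟨zc, hzc⟩ := exists_prime_orderOf_dvd_card' r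
    (show r ∣ Nat.card (Subgroup.center (A ⧸ K)) by rw [hm]; exact dvd_pow_self r hm0.ne')
  obtain ⟨z, hz⟩ := QuotientGroup.mk_surjective (zc : A ⧸ K)
  have hzr : z ^ r ∈ K := by
    rw [← QuotientGroup.eq_one_iff, QuotientGroup.mk_pow, hz, ← hzc, ← SubgroupClass.coe_pow,
      pow_orderOf_eq_one]
    rfl
  have hzK : z ∉ K := by
    intro h
    rw [← QuotientGroup.eq_one_iff, hz] at h
    have : zc = 1 := Subtype.ext h
    rw [this, orderOf_one] at hzc
    exact hr.one_lt.ne hzc
  have hcomm : ∀ a, ∀ u ∈ U, ρ a (ρ z u) = ρ z (ρ a u) := by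
    intro a u hu
    have h1 : ((z * a)⁻¹ * (a * z) : A) ∈ K := by
      rw [← QuotientGroup.eq_one_iff, QuotientGroup.mk_mul, QuotientGroup.mk_inv,
        QuotientGroup.mk_mul, QuotientGroup.mk_mul, hz, inv_mul_eq_one]
      exact (Subgroup.mem_center_iff.1 zc.2 _).symm
    have h2 := h1 u hu
    show (ρ a * ρ z) u = (ρ z * ρ a) u
    rw [← map_mul, ← map_mul, show a * z = z * a * ((z * a)⁻¹ * (a * z)) by group, map_mul]
    show ρ (z * a) (ρ _ u) = _
    rw [h2]
  set U₀ := U ⊓ fixd ρ z with hU₀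
  have hU₀inv : ∀ a, ∀ u ∈ U₀, ρ a u ∈ U₀ := fun a u hu => ⟨hinv a u hu.1, by
    show ρ z (ρ a u) = ρ a u
    rw [← hcomm a u hu.1, show ρ z u = u from hu.2]⟩
  let δ : V →+ V := AddMonoidHom.mk' (fun v => ρ z v - v) (fun v w => by
    simp only [map_add]; abel)
  have hδ : ∀ v, δ v = ρ z v - v := fun v => rfl
  have hker : ∀ v, v ∈ δ.ker ↔ v ∈ fixd ρ z := fun v => by
    rw [AddMonoidHom.mem_ker, hδ, sub_eq_zero]; rfl
  set W := U.map δ with hW
  have hWU : W ≤ U := by
    rintro _ ⟨u, hu, rfl⟩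
    rw [hδ]
    exact U.sub_mem (hinv z u hu) hu
  have hWinv : ∀ a, ∀ w ∈ W, ρ a w ∈ W := by
    rintro a _ ⟨u, hu, rfl⟩
    refine ⟨ρ a u, hinv a u hu, ?_⟩
    rw [hδ, hδ, map_sub, hcomm a u hu]
  have hzpow : ∀ (k : ℕ) (u : V), u ∈ U → ρ z (ρ z u - u) = ρ z u - u →
      ρ (z ^ k) u = u + k • (ρ z u - u) := by
    intro k u hu hw
    induction k with
    | zero => rw [pow_zero, map_one, zero_smul, add_zero]; rfl
    | succ k ihk =>
      rw [pow_succ', map_mul]
      show ρ z (ρ (z ^ k) u) = _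
      rw [ihk, map_add, map_nsmul, hw, succ_nsmul]
      abel
  have hWfix : ∀ w ∈ W, ρ z w = w → w = 0 := by
    rintro _ ⟨u, hu, rfl⟩ hw
    rw [hδ] at hw ⊢
    have h1 := hzpow r u hu hw
    rw [hzr u hu] at h1
    have h2 : r • (ρ z u - u) = 0 := by simpa using h1.symm
    have h3 : addOrderOf (ρ z u - u) = 1 := Nat.eq_one_of_dvd_coprimes hcop
      (addOrderOf_dvd_natCard _) (addOrderOf_dvd_of_nsmul_eq_zero h2)
    exact AddMonoid.addOrderOf_eq_one_iff.1 h3
  have hmapW : U.map δ = W := rfl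
  have hsplit : Nat.card U = Nat.card U₀ * Nat.card W := by
    rw [card_eq_ker_mul_map δ U, hmapW]
    congr 2
    rw [hU₀]
    congr 1
    ext v
    simp only [AddSubgroup.mem_inf, hker]
  have hle : ∀ a, Nat.card ↥(U ⊓ fixd ρ a) ≤
      Nat.card ↥(U₀ ⊓ fixd ρ a) * Nat.card ↥(W ⊓ fixd ρ a) := by
    intro a
    rw [card_eq_ker_mul_map δ (U ⊓ fixd ρ a)]
    apply Nat.mul_le_mul
    · refine AddSubgroup.card_le_of_le ?_
      intro v hv
      exact ⟨⟨hv.1.1, (hker v).1 hv.2⟩, hv.1.2⟩
    · refine AddSubgroup.card_le_of_le ?_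
      rintro _ ⟨u, ⟨hu, hua⟩, rfl⟩
      refine ⟨⟨u, hu, rfl⟩, ?_⟩
      show ρ a (δ u) = δ u
      rw [hδ, map_sub, hcomm a u hu, show ρ a u = u from hua]
  have hinj := prod_translates_le hr ρ U W hinv hWU hWinv z hcomm hzr hWfix
  have hWprod : (∏ a : A, Nat.card ↥(W ⊓ fixd ρ a)) ^ r ≤ Nat.card W ^ Nat.card A := by
    have hre : ∀ k : ℕ, ∏ a : A, Nat.card ↥(W ⊓ fixd ρ (a * z ^ k)) =
        ∏ a : A, Nat.card ↥(W ⊓ fixd ρ a) := fun k => by
      refine Equiv.prod_comp (Equiv.mulRight (z ^ k)) (fun a => Nat.card ↥(W ⊓ fixd ρ a))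
    calc (∏ a : A, Nat.card ↥(W ⊓ fixd ρ a)) ^ r
        = ∏ k ∈ Finset.range r, ∏ a : A, Nat.card ↥(W ⊓ fixd ρ (a * z ^ k)) := by
          simp only [hre, Finset.prod_const, Finset.card_range]
      _ = ∏ a : A, ∏ k ∈ Finset.range r, Nat.card ↥(W ⊓ fixd ρ (a * z ^ k)) := Finset.prod_comm
      _ ≤ ∏ _a : A, Nat.card W := Finset.prod_le_prod' fun a _ => hinj a
      _ = Nat.card W ^ Nat.card A := by
          rw [Finset.prod_const, Finset.card_univ, ← Nat.card_eq_fintype_card]
  have hlt : Nat.card U₀ < Nat.card U := by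
    refine lt_of_le_of_ne (AddSubgroup.card_le_of_le inf_le_left) fun h => hzK ?_
    have hbij : Function.Bijective (AddSubgroup.inclusion (inf_le_left : U₀ ≤ U)) :=
      (Nat.bijective_iff_injective_and_card _).2 ⟨AddSubgroup.inclusion_injective _, h⟩
    intro u hu
    obtain ⟨⟨v, hv⟩, hvu⟩ := hbij.2 ⟨u, hu⟩
    have hvu' : v = u := congrArg Subtype.val hvu
    subst hvu'
    exact hv.2
  have hU₀prod := ih (Nat.card U₀) (lt_of_lt_of_le hlt hU) U₀ le_rfl hU₀inv
  calc (∏ a : A, Nat.card ↥(U ⊓ fixd ρ a)) ^ r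
      ≤ (∏ a : A, Nat.card ↥(U₀ ⊓ fixd ρ a) * Nat.card ↥(W ⊓ fixd ρ a)) ^ r :=
        Nat.pow_le_pow_left (Finset.prod_le_prod' fun a _ => hle a) r
    _ = (∏ a : A, Nat.card ↥(U₀ ⊓ fixd ρ a)) ^ r * (∏ a : A, Nat.card ↥(W ⊓ fixd ρ a)) ^ r := by
        rw [Finset.prod_mul_distrib, mul_pow]
    _ ≤ Nat.card U₀ ^ Nat.card A * Nat.card W ^ Nat.card A := Nat.mul_le_mul hU₀prod hWprod
    _ = Nat.card U ^ Nat.card A := by rw [← mul_pow, hsplit]

/-- Some element fixes at most `√|V|` points. -/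
theorem exists_card_fixd_sq_le [Fact r.Prime] (hA : IsPGroup r A) (ρ : A →* AddMonoid.End V)
    (hcop : (Nat.card V).Coprime r) (hfix : ∀ v, (∀ a, ρ a v = v) → v = 0) :
    ∃ a, Nat.card ↥(fixd ρ a) ^ 2 ≤ Nat.card V := by
  classical
  haveI := Fintype.ofFinite A
  have hr : r.Prime := Fact.out
  by_contra h
  push Not at h
  have h1 := prod_fixd_le hA ρ hcop hfix (Nat.card (⊤ : AddSubgroup V)) ⊤ le_rfl
    (fun _ _ _ => AddSubgroup.mem_top _)
  simp only [top_inf_eq, AddSubgroup.card_top] at h1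
  have h2 : ∏ _a : A, Nat.card V < ∏ a : A, Nat.card ↥(fixd ρ a) ^ r :=
    Finset.prod_lt_prod_of_nonempty (fun _ _ => Nat.card_pos) (fun a _ => lt_of_lt_of_le (h a)
      (Nat.pow_le_pow_right Nat.card_pos hr.two_le)) Finset.univ_nonempty
  rw [Finset.prod_const, Finset.card_univ, ← Nat.card_eq_fintype_card, Finset.prod_pow] at h2
  omega

end Cfsg.Agent.Chars.FixedProduct
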