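import Cfsg.Agent.Chars.Induced
import Cfsg.Agent.Chars.Eigen
import Cfsg.Agent.Chars.Linear
import Cfsg.Agent.Blocks.PPrimeKer
import Cfsg.Agent.Blocks.Covering
import Cfsg.Agent.Core.MinimalNormal
import Cfsg.Agent.Core.Fitting

/-! Characters of larger degree and smaller kernel (Garrison). -/

set_option autoImplicit false
set_option linter.style.haveILetI false
set_option linter.unusedSectionVars false

open Cfsg Cfsg.Agent
open scoped ComplexConjugate Pointwise

namespace Cfsg.Agent.Chars

universe u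

section constituents

variable {G : Type u} [Group G] [Fintype G]

theorem coeff_eq_nat {F : G → ℂ} {m : IrrCharacter G → ℕ}
    (hsum : F = ∑ γ, m γ • (γ : G → ℂ)) (θ : IrrCharacter G) :
    classInner F (θ : G → ℂ) = (m θ : ℂ) := by
  rw [hsum, classInner_sum_left, Finset.sum_eq_single θ]
  · rw [← Nat.cast_smul_eq_nsmul ℂ, classInner_smul_left, classInner_self_irr θ.2, mul_one]
  · intro γ _ hγ
    rw [← Nat.cast_smul_eq_nsmul ℂ, classInner_smul_left, classInner_irrCharacter,
      if_neg hγ, mul_zero]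
  · simp

/-- A constituent has at most the degree, and equals the character when the degrees agree. -/
theorem degree_le_of_constituent {F θ : G → ℂ} (hF : IsCharacter G F) (hθ : IsIrrCharacter G θ)
    (h : classInner F θ ≠ 0) :
    ∃ a b : ℕ, F 1 = a ∧ θ 1 = b ∧ b ≤ a ∧ (a = b → F = θ) := by
  classical
  obtain ⟨m, hm, hsum⟩ := exists_eq_sum_nsmul hF
  choose d hd0 hd using fun γ : IrrCharacter G => exists_irr_apply_one_eq γ.2
  let t : IrrCharacter G := ⟨θ, hθ⟩
  have hmt : m t ≠ 0 := fun h0 => h (by rw [coeff_eq_nat hsum t, h0, Nat.cast_zero])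
  have ha : F 1 = ((∑ γ, m γ * d γ : ℕ) : ℂ) := by
    rw [hsum]
    simp only [Finset.sum_apply, nsmul_eq_mul, Pi.mul_apply, Pi.natCast_apply, hd]
    push_cast; rfl
  refine ⟨_, d t, ha, hd t, le_trans (Nat.le_mul_of_pos_left _ (Nat.pos_of_ne_zero hmt))
    (Finset.single_le_sum (f := fun γ => m γ * d γ) (fun _ _ => Nat.zero_le _)
      (Finset.mem_univ t)), fun he => ?_⟩
  rw [← Finset.add_sum_erase _ _ (Finset.mem_univ t)] at he
  have h1 : m t = 1 := by
    have := hd0 t
    by_contra hne
    have h2 : 2 * d t ≤ m t * d t := Nat.mul_le_mul_right _ (by omega)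
    omega
  rw [h1, one_mul] at he
  have hrest : ∑ γ ∈ Finset.univ.erase t, m γ * d γ = 0 := by omega
  rw [hsum, ← Finset.add_sum_erase _ _ (Finset.mem_univ t), h1, one_smul,
    Finset.sum_eq_zero fun γ hγ => ?_, add_zero]
  have := Finset.sum_eq_zero_iff.1 hrest γ hγ
  rw [Nat.mul_eq_zero, or_iff_left (hd0 γ).ne'] at this
  rw [this, zero_smul]

/-- The kernel of a character lies in that of its constituents. -/
theorem apply_eq_of_constituent {F θ : G → ℂ} (hF : IsCharacter G F) (hθ : IsIrrCharacter G θ)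
    (h : classInner F θ ≠ 0) {g : G} (hg : F g = F 1) : θ g = θ 1 := by
  classical
  obtain ⟨m, hm, hsum⟩ := exists_eq_sum_nsmul hF
  let t : IrrCharacter G := ⟨θ, hθ⟩
  have hmt : m t ≠ 0 := fun h0 => h (by rw [coeff_eq_nat hsum t, h0, Nat.cast_zero])
  choose d hd0 hd using fun γ : IrrCharacter G => exists_irr_apply_one_eq γ.2
  have hle : ∀ γ : IrrCharacter G, ((γ : G → ℂ) g).re ≤ d γ := fun γ => by
    have h1 := norm_le_of_isCharacter (irr_isCharacter γ) g
    rw [hd, Complex.natCast_re] at h1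
    exact (Complex.re_le_norm _).trans h1
  have hre := congrArg Complex.re hg
  rw [hsum] at hre
  simp only [Finset.sum_apply, nsmul_eq_mul, Pi.mul_apply, Pi.natCast_apply, Complex.re_sum, hd,
    Complex.mul_re,
    Complex.natCast_re, Complex.natCast_im, zero_mul, sub_zero] at hre
  have he := (Finset.sum_eq_sum_iff_of_le fun γ _ =>
    mul_le_mul_of_nonneg_left (hle γ) (Nat.cast_nonneg (m γ))).1 hre t (Finset.mem_univ t)
  have hre1 : (θ g).re = (d t : ℝ) := mul_left_cancel₀ (Nat.cast_ne_zero.2 hmt) he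
  have hn : ‖θ g‖ ≤ (θ g).re := by
    have h1 := norm_le_of_isCharacter (isCharacter_of_isIrr hθ) g
    rw [show θ 1 = (d t : ℂ) from hd t, Complex.natCast_re] at h1
    rw [hre1]; exact h1
  have him : (θ g).im = 0 :=
    Complex.abs_re_eq_norm.1 (le_antisymm (Complex.abs_re_le_norm _) (hn.trans (le_abs_self _)))
  rw [show θ 1 = (d t : ℂ) from hd t]
  apply Complex.ext
  · rw [hre1, Complex.natCast_re]
  · rw [him, Complex.natCast_im]

end constituents

section kernels

variable {G : Type u} [Group G] [Fintype G]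

/-- The step from the kernel to a normalizer supplement. -/
theorem le_of_inf_normalizer_le {q : ℕ} [Fact q.Prime] {K M L Q : Subgroup G} [K.Normal]
    [L.Normal] (hKM : K ≤ M) (hQM : Q ≤ M) (hQ : IsPGroup q Q)
    (hmax : ∀ S : Subgroup G, S ≤ M → IsPGroup q S → Q ≤ S → S = Q) (hMn : M.Normal)
    (hLM : L ⊓ M ≤ K) (hLN : L ⊓ Subgroup.normalizer (Q : Set G) ≤ K) : L ≤ K := by
  intro l hl
  set R := (L ⊓ K) ⊔ Q
  have hRM : R ≤ M := sup_le (inf_le_right.trans hKM) hQM
  have hQR : Q ≤ R := le_sup_right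
  let f : G →* G := (MulAut.conj l).toMonoidHom
  have hQl : Q.map f ≤ R := by
    rintro _ ⟨x, hx, rfl⟩
    show l * x * l⁻¹ ∈ R
    have h1 : l * x * l⁻¹ * x⁻¹ ∈ L ⊓ K := by
      have hL : l * x * l⁻¹ * x⁻¹ ∈ L := by
        have := L.mul_mem hl ((inferInstance : L.Normal).conj_mem _ (L.inv_mem hl) x)
        simpa [mul_assoc] using this
      have hM' : l * x * l⁻¹ * x⁻¹ ∈ M := M.mul_mem (hMn.conj_mem x (hQM hx) l) (M.inv_mem (hQM hx))
      exact ⟨hL, hLM ⟨hL, hM'⟩⟩
    have := R.mul_mem (Subgroup.mem_sup_left h1 : _ ∈ R) (Subgroup.mem_sup_right hx : x ∈ R)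
    simpa using this
  let S : Sylow q R :=
    { toSubgroup := Q.subgroupOf R
      isPGroup' := hQ.comap_of_injective _ Subtype.val_injective
      is_maximal' := fun {T} hT hle => by
        have h1 : T.map R.subtype = Q := hmax _
          ((Subgroup.map_subtype_le T).trans hRM) (hT.map _) (fun x hx =>
            ⟨⟨x, hQR hx⟩, hle (Subgroup.mem_subgroupOf.2 hx), rfl⟩)
        rw [← h1]
        exact (Subgroup.comap_map_eq_self_of_injective Subtype.val_injective T).symm }
  have hp2 : IsPGroup q ((Q.map f).subgroupOf R) :=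
    (hQ.map f).comap_of_injective _ Subtype.val_injective
  obtain ⟨T, hT⟩ := hp2.exists_le_sylow
  obtain ⟨r, hr⟩ := MulAction.exists_smul_eq R S T
  -- `r⁻¹ l` normalises `Q`
  have hnorm : (r : G)⁻¹ * l ∈ Subgroup.normalizer (Q : Set G) := by
    have key : ∀ x ∈ Q, ((r : G)⁻¹ * l) * x * ((r : G)⁻¹ * l)⁻¹ ∈ Q := by
      intro x hx
      have h1 := hT (show (⟨l * x * l⁻¹, hQl ⟨x, hx, rfl⟩⟩ : R) ∈ (Q.map f).subgroupOf R from
        ⟨x, hx, rfl⟩)
      rw [← hr] at h1
      change _ ∈ MulAut.conj r • (S : Subgroup R) at h1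
      rw [Subgroup.mem_pointwise_smul_iff_inv_smul_mem, MulAut.smul_def,
        MulAut.inv_def, MulAut.conj_symm_apply] at h1
      have h2 : ((r⁻¹ * ⟨l * x * l⁻¹, hQl ⟨x, hx, rfl⟩⟩ * r : R) : G) ∈ Q := h1
      simpa [mul_assoc] using h2
    have hmap : Q.map (MulAut.conj ((r : G)⁻¹ * l)).toMonoidHom = Q := by
      refine Subgroup.eq_of_le_of_card_ge ?_ (le_of_eq ?_)
      · rintro _ ⟨x, hx, rfl⟩; exact key x hx
      · exact (Nat.card_congr (Subgroup.equivMapOfInjective Q _
          (MulAut.conj ((r : G)⁻¹ * l)).injective).toEquiv)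
    rw [Subgroup.mem_normalizer_iff]
    intro x
    refine ⟨fun hx => key x hx, fun hx => ?_⟩
    have h3 : (r : G)⁻¹ * l * x * ((r : G)⁻¹ * l)⁻¹ ∈
        Q.map (MulAut.conj ((r : G)⁻¹ * l)).toMonoidHom := by rw [hmap]; exact hx
    obtain ⟨y, hy, hyx⟩ := h3
    have : y = x := (MulAut.conj ((r : G)⁻¹ * l)).injective hyx
    exact this ▸ hy
  have hrR : (r : G) ∈ (Q : Subgroup G) ⊔ (L ⊓ K) := by rw [sup_comm]; exact r.2
  obtain ⟨x, hx, z, hz, hxz⟩ := Subgroup.mem_sup_of_normal_right.1 hrR
  -- move the `L ⊓ K` part to the left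
  set z' := x * z * x⁻¹ with hz'
  have hz'mem : z' ∈ L ⊓ K := (inferInstance : (L ⊓ K).Normal).conj_mem z hz x
  have hxN : x ∈ Subgroup.normalizer (Q : Set G) := Subgroup.le_normalizer hx
  have hmem : z'⁻¹ * l ∈ L ⊓ Subgroup.normalizer (Q : Set G) := by
    refine ⟨L.mul_mem (L.inv_mem hz'mem.1) hl, ?_⟩
    have := Subgroup.mul_mem _ hxN hnorm
    rw [← hxz] at this
    have e : x * ((x * z)⁻¹ * l) = z'⁻¹ * l := by rw [hz']; group
    rwa [e] at this
  have := K.mul_mem hz'mem.2 (hLN hmem)
  simpa using this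

/-- Larger constituents of the character induced back from a normalizer supplement. -/
theorem garrison_core {q : ℕ} [Fact q.Prime] {χ : IrrCharacter G} {K M Q : Subgroup G} [K.Normal]
    (hK : ∀ g : G, g ∈ K ↔ (χ : G → ℂ) g = (χ : G → ℂ) 1) (hMn : M.Normal) (hKM : K ≤ M)
    (hQM : Q ≤ M) (hQ : IsPGroup q Q)
    (hmax : ∀ S : Subgroup G, S ≤ M → IsPGroup q S → Q ≤ S → S = Q)
    (hG : K ⊔ Subgroup.normalizer (Q : Set G) = ⊤)
    (hprop : ∀ L : Subgroup G, L.Normal → L ⊓ Subgroup.normalizer (Q : Set G) ≤ K → L ⊓ M ≤ K)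
    [Fintype (Subgroup.normalizer (Q : Set G))] :
    IsIrrCharacter (Subgroup.normalizer (Q : Set G))
      (fun n : Subgroup.normalizer (Q : Set G) => (χ : G → ℂ) n) ∧
    ∀ ψ : IrrCharacter G, ψ ≠ χ →
      classInner (indFun (Subgroup.normalizer (Q : Set G))
        (fun n => (χ : G → ℂ) n)) (ψ : G → ℂ) ≠ 0 →
      ∃ L : Subgroup G, (∀ g : G, g ∈ L ↔ (ψ : G → ℂ) g = (ψ : G → ℂ) 1) ∧ L < K ∧
        (charDegree (χ : G → ℂ) < charDegree (ψ : G → ℂ) ∨
          ∀ n : Subgroup.normalizer (Q : Set G), (ψ : G → ℂ) n = (χ : G → ℂ) n) := by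
  classical
  set N := Subgroup.normalizer (Q : Set G) with hN
  have hdec : ∀ g : G, ∃ k ∈ K, ∃ n : N, k * n = g := fun g => by
    have hg : g ∈ K ⊔ N := by rw [hG]; exact Subgroup.mem_top g
    obtain ⟨k, hk, n, hn, rfl⟩ := Subgroup.mem_sup_of_normal_left.1 hg
    exact ⟨k, hk, ⟨n, hn⟩, rfl⟩
  have hχN : IsIrrCharacter N (fun n : N => (χ : G → ℂ) n) := by
    obtain ⟨χ', hχ'⟩ : ∃ χ' : IrrCharacter (G ⧸ K),
        (χ : G → ℂ) = (χ' : G ⧸ K → ℂ) ∘ QuotientGroup.mk :=
      Blocks.exists_descend χ.2 fun n hn => (hK n).1 hn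
    have e : (fun n : N => (χ : G → ℂ) n) =
        (χ' : G ⧸ K → ℂ) ∘ ((QuotientGroup.mk' K).comp N.subtype) := by
      funext n; rw [hχ']; rfl
    rw [e]
    refine isIrrCharacter_comp_surjective χ'.2 _ fun x => ?_
    obtain ⟨g, rfl⟩ := QuotientGroup.mk_surjective x
    obtain ⟨k, hk, n, rfl⟩ := hdec g
    exact ⟨n, by
      show ((n : G) : G ⧸ K) = ((k * n : G) : G ⧸ K)
      rw [QuotientGroup.mk_mul, (QuotientGroup.eq_one_iff k).2 hk, one_mul]⟩
  refine ⟨hχN, fun ψ hne hψ => ?_⟩
  have hcon : classInner (fun n : N => (ψ : G → ℂ) n) (fun n : N => (χ : G → ℂ) n) ≠ 0 := by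
    rw [classInner_indFun N _ (isClassFunction_irr ψ), ← classInner_conj_symm] at hψ
    exact fun h => hψ (by rw [h, map_zero])
  have hres := isCharacter_restrict (irr_isCharacter ψ) N
  let L := charKer (irr_isCharacter ψ)
  haveI hLn : L.Normal := charKer_normal (irr_isCharacter ψ)
  have hLN : L ⊓ N ≤ K := by
    rintro x ⟨hx1, hx2⟩
    rw [hK]
    exact apply_eq_of_constituent hres hχN hcon (g := ⟨x, hx2⟩) hx1
  have hLK : L ≤ K := le_of_inf_normalizer_le hKM hQM hQ hmax hMn (hprop L hLn hLN) hLN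
  obtain ⟨a, b, ha, hb, hle, heq⟩ := degree_le_of_constituent hres hχN hcon
  have hda : charDegree (ψ : G → ℂ) = a := by
    unfold charDegree
    rw [show (ψ : G → ℂ) 1 = (a : ℂ) from ha, Complex.natCast_re, Nat.floor_natCast]
  have hdb : charDegree (χ : G → ℂ) = b := by
    unfold charDegree
    rw [show (χ : G → ℂ) 1 = (b : ℂ) from hb, Complex.natCast_re, Nat.floor_natCast]
  refine ⟨L, fun g => Iff.rfl, lt_of_le_of_ne hLK fun he => hne ?_, ?_⟩
  · have h2 : (fun n : N => (ψ : G → ℂ) n) = fun n : N => (χ : G → ℂ) n := by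
      have hLK' : ∀ k ∈ K, (ψ : G → ℂ) k = (ψ : G → ℂ) 1 := fun k hk => by
        rw [← he] at hk; exact hk
      obtain ⟨ψ', hψ'⟩ := Blocks.exists_descend (N := K) ψ.2 hLK'
      have hψN : IsIrrCharacter N (fun n : N => (ψ : G → ℂ) n) := by
        have e : (fun n : N => (ψ : G → ℂ) n) =
            (ψ' : G ⧸ K → ℂ) ∘ ((QuotientGroup.mk' K).comp N.subtype) := by
          funext n; rw [hψ']; rfl
        rw [e]
        refine isIrrCharacter_comp_surjective ψ'.2 _ fun x => ?_
        obtain ⟨g, rfl⟩ := QuotientGroup.mk_surjective x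
        obtain ⟨k, hk, n, rfl⟩ := hdec g
        exact ⟨n, by
          show ((n : G) : G ⧸ K) = ((k * n : G) : G ⧸ K)
          rw [QuotientGroup.mk_mul, (QuotientGroup.eq_one_iff k).2 hk, one_mul]⟩
      by_contra hne2
      exact hcon (classInner_irr_of_ne hψN hχN hne2)
    apply Subtype.ext
    funext g
    obtain ⟨k, hk, n, rfl⟩ := hdec g
    rw [apply_mul_of_mem_charKer (irr_isCharacter χ) _ ((hK k).1 hk),
      apply_mul_of_mem_charKer (irr_isCharacter ψ) _ (by rw [← he] at hk; exact hk)]
    exact congrFun h2 n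
  · rcases hle.lt_or_eq with h | h
    · left; omega
    · exact Or.inr fun n => congrFun (heq h.symm) n

end kernels

/-- A normal subgroup with a non-normal Sylow subgroup, or a nilpotent Fitting kernel. -/
theorem garrison {G : Type u} [Group G] [Finite G] (χ : IrrCharacter G) (K : Subgroup G)
    [hKn : K.Normal] (hK : ∀ g : G, g ∈ K ↔ (χ : G → ℂ) g = (χ : G → ℂ) 1)
    (h : ¬ K ≤ fittingSubgroup G ∨
      (K = fittingSubgroup G ∧ Group.IsSolvable (G ⧸ K) ∧ K ≠ ⊤)) :
    ∃ ψ : IrrCharacter G, charDegree (χ : G → ℂ) < charDegree (ψ : G → ℂ) ∧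
      ∃ L : Subgroup G, (∀ g : G, g ∈ L ↔ (ψ : G → ℂ) g = (ψ : G → ℂ) 1) ∧ L < K := by
  classical
  haveI := Fintype.ofFinite G
  -- a constituent other than `χ`
  have hex : ∀ N : Subgroup G, [Fintype N] → N ≠ ⊤ →
      IsIrrCharacter N (fun n : N => (χ : G → ℂ) n) →
      ∃ ψ : IrrCharacter G, ψ ≠ χ ∧
        classInner (indFun N (fun n : N => (χ : G → ℂ) n)) (ψ : G → ℂ) ≠ 0 := by
    intro N _ hN hirr
    by_contra hall
    push Not at hall
    have hχ1 : classInner (indFun N (fun n : N => (χ : G → ℂ) n)) (χ : G → ℂ) = 1 := by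
      rw [classInner_indFun N _ (isClassFunction_irr χ), classInner_self_irr hirr]
    have he := eq_sum_classInner (isClassFunction_indFun N (fun n : N => (χ : G → ℂ) n))
    rw [Finset.sum_eq_single χ (fun γ _ hγ => by rw [hall γ hγ, zero_smul])
      (fun h => absurd (Finset.mem_univ χ) h), hχ1, one_smul] at he
    have := congrFun he 1
    rw [indFun_apply_one] at this
    have h2 : (N.index : ℂ) = 1 :=
      mul_right_cancel₀ (irr_apply_one_ne_zero χ.2) (by rw [one_mul]; exact this)
    exact hN (Subgroup.index_eq_one.1 (by exact_mod_cast h2))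
  -- maximal `q`-subgroups of a normal subgroup
  have hsylow : ∀ (M : Subgroup G) (q : ℕ) (S : Sylow q M) (T : Subgroup G), T ≤ M →
      IsPGroup q T → (S : Subgroup M).map M.subtype ≤ T → T = (S : Subgroup M).map M.subtype := by
    intro M q S T hTM hT hle
    have h1 : T.subgroupOf M = (S : Subgroup M) :=
      S.3 (hT.comap_of_injective _ Subtype.val_injective) fun x hx =>
        Subgroup.mem_subgroupOf.2 (hle ⟨x, hx, rfl⟩)
    rw [← h1, Subgroup.subgroupOf_map_subtype, inf_eq_left.2 hTM]
  have hnonnil : ∀ M : Subgroup G, ¬ Group.IsNilpotent M →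
      ∃ (q : ℕ) (_ : Fact q.Prime) (S : Sylow q M), ¬ (S : Subgroup M).Normal := by
    intro M hM
    by_contra hall
    push Not at hall
    exact hM (((Group.isNilpotent_of_finite_tfae (G := M)).out 0 3 rfl rfl).2
      fun q hq S => hall q hq S)
  have hnormal : ∀ (M : Subgroup G) (q : ℕ) (S : Sylow q M),
      ((S : Subgroup M).map M.subtype).Normal → (S : Subgroup M).Normal := by
    intro M q S hn
    have := Subgroup.Normal.comap hn M.subtype
    rwa [Subgroup.comap_map_eq_self_of_injective Subtype.val_injective] at this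
  rcases h with h | ⟨hKF, hsolv, hKtop⟩
  · obtain ⟨q, hq, S, hS⟩ := hnonnil K fun hnil => h (Core.le_fittingSubgroup hKn hnil)
    set Q := (S : Subgroup K).map K.subtype
    haveI : Fintype (Subgroup.normalizer (Q : Set G)) := Fintype.ofFinite _
    have hQK : Q ≤ K := Subgroup.map_subtype_le _
    have hN : Subgroup.normalizer (Q : Set G) ≠ ⊤ := fun htop =>
      hS (hnormal K q S (Subgroup.normalizer_eq_top_iff.1 htop))
    have hfr : Subgroup.normalizer (Q : Set G) ⊔ K = ⊤ := Sylow.normalizer_sup_eq_top S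
    obtain ⟨hirr, hall⟩ := garrison_core hK hKn le_rfl hQK (S.isPGroup'.map _) (hsylow K q S)
      (by rw [sup_comm]; exact hfr) fun L _ _ => inf_le_right
    obtain ⟨ψ, hne, hψ⟩ := hex _ hN hirr
    obtain ⟨L, hL, hlt, hdeg | heq⟩ := hall ψ hne hψ
    · exact ⟨ψ, hdeg, L, hL, hlt⟩
    exfalso
    -- the Sylow subgroup lies in the kernel of `ψ`
    have hQL : Q ≤ L := by
      intro x hx
      have hxN : x ∈ Subgroup.normalizer (Q : Set G) := Subgroup.le_normalizer hx
      rw [hL, heq ⟨x, hxN⟩, (hK x).1 (hQK hx)]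
      exact (heq 1).symm
    haveI hLn : L.Normal := by
      have : L = charKer (irr_isCharacter ψ) := SetLike.ext fun g => by rw [hL, mem_charKer]
      rw [this]; exact charKer_normal _
    let T : Sylow q L :=
      { toSubgroup := Q.subgroupOf L
        isPGroup' := (S.isPGroup'.map _).comap_of_injective _ Subtype.val_injective
        is_maximal' := fun {T} hT hle => by
          have h1 : T.map L.subtype = Q := hsylow K q S _
            ((Subgroup.map_subtype_le T).trans hlt.le) (hT.map _) (fun x hx =>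
              ⟨⟨x, hQL hx⟩, hle (Subgroup.mem_subgroupOf.2 hx), rfl⟩)
          rw [← h1]
          exact (Subgroup.comap_map_eq_self_of_injective Subtype.val_injective T).symm }
    have hfr2 : Subgroup.normalizer (Q : Set G) ⊔ L = ⊤ := by
      have h1 := Sylow.normalizer_sup_eq_top T
      rwa [show (T : Subgroup L).map L.subtype = Q by
        show (Q.subgroupOf L).map L.subtype = Q
        rw [Subgroup.subgroupOf_map_subtype, inf_eq_left.2 hQL]] at h1
    apply hne
    apply Subtype.ext
    funext g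
    have hg : g ∈ L ⊔ Subgroup.normalizer (Q : Set G) := by
      rw [sup_comm, hfr2]; exact Subgroup.mem_top g
    obtain ⟨l, hl, n, hn, rfl⟩ := Subgroup.mem_sup_of_normal_left.1 hg
    rw [apply_mul_of_mem_charKer (irr_isCharacter ψ) _ ((hL l).1 hl),
      apply_mul_of_mem_charKer (irr_isCharacter χ) _ ((hK l).1 (hlt.le hl))]
    exact heq ⟨n, hn⟩
  · haveI : Nontrivial (G ⧸ K) := QuotientGroup.nontrivial_iff.2 hKtop
    haveI := hsolv
    obtain ⟨Mb, hMb⟩ := Core.exists_isMinNormal (G := G ⧸ K)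
    obtain ⟨-, q, hqp, -, hMbq⟩ := hMb.elementaryAbelian_of_isSolvable
    haveI := Fact.mk hqp
    set M := Mb.comap (QuotientGroup.mk' K) with hMdef
    haveI hMn : M.Normal := hMb.1.comap _
    have hKM : K ≤ M := fun x hx => by
      show ((x : G) : G ⧸ K) ∈ Mb
      rw [(QuotientGroup.eq_one_iff x).2 hx]; exact Mb.one_mem
    have hKlt : K ≠ M := fun he => hMb.2.1 (by
      refine (Subgroup.eq_bot_iff_forall _).2 fun x hx => ?_
      obtain ⟨g, rfl⟩ := QuotientGroup.mk_surjective x
      exact (QuotientGroup.eq_one_iff g).2 (by rw [he]; exact hx))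
    have hpow : ∀ x ∈ M, ∃ j : ℕ, x ^ q ^ j ∈ K := by
      intro x hx
      obtain ⟨j, hj⟩ := hMbq ⟨(x : G ⧸ K), hx⟩
      refine ⟨j, (QuotientGroup.eq_one_iff _).1 ?_⟩
      rw [QuotientGroup.mk_pow]
      exact congrArg Subtype.val hj
    have hMnil : ¬ Group.IsNilpotent M := fun hnil =>
      hKlt (le_antisymm hKM ((Core.le_fittingSubgroup hMn hnil).trans hKF.ge))
    obtain ⟨r, hr, S, hS⟩ := hnonnil M hMnil
    set Q := (S : Subgroup M).map M.subtype with hQdef
    have hQM : Q ≤ M := Subgroup.map_subtype_le _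
    have hQp : IsPGroup r Q := S.isPGroup'.map _
    have hrq : r = q := by
      by_contra hne
      apply hS
      refine hnormal M r S ?_
      have hQK : Q ≤ K := by
        intro x hx
        obtain ⟨j, hj⟩ := hpow x (hQM hx)
        obtain ⟨i, hi⟩ := hQp ⟨x, hx⟩
        have hi' : x ^ r ^ i = 1 := congrArg Subtype.val hi
        have hc : (q ^ j).Coprime (r ^ i) :=
          (((Nat.coprime_primes hqp hr.out).2 (Ne.symm hne)).pow _ _)
        have := Nat.gcd_eq_gcd_ab (q ^ j) (r ^ i)
        rw [hc.gcd_eq_one, Nat.cast_one] at this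
        rw [← zpow_one x, this, zpow_add, zpow_mul, zpow_mul, zpow_natCast, zpow_natCast, hi',
          one_zpow, mul_one]
        exact K.zpow_mem hj _
      haveI : Group.IsNilpotent K := by
        rw [hKF]; exact Core.isNilpotent_fittingSubgroup G
      let T : Sylow r K :=
        { toSubgroup := Q.subgroupOf K
          isPGroup' := hQp.comap_of_injective _ Subtype.val_injective
          is_maximal' := fun {T} hT hle => by
            have h1 : T.map K.subtype = Q := hsylow M r S _
              ((Subgroup.map_subtype_le T).trans hKM) (hT.map _) (fun x hx =>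
                ⟨⟨x, hQK hx⟩, hle (Subgroup.mem_subgroupOf.2 hx), rfl⟩)
            rw [← h1]
            exact (Subgroup.comap_map_eq_self_of_injective Subtype.val_injective T).symm }
      haveI := hr
      haveI : (T : Subgroup K).Normal :=
        ((Group.isNilpotent_of_finite_tfae (G := K)).out 0 3 rfl rfl).1 inferInstance r hr T
      haveI : (T : Subgroup K).Characteristic := Sylow.characteristic_of_normal T inferInstance
      have h2 : ((T : Subgroup K).map K.subtype).Normal :=
        ConjAct.normal_of_characteristic_of_normal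
      rwa [show (T : Subgroup K).map K.subtype = Q by
        show (Q.subgroupOf K).map K.subtype = Q
        rw [Subgroup.subgroupOf_map_subtype, inf_eq_left.2 hQK]] at h2
    subst hrq
    haveI : Fintype (Subgroup.normalizer (Q : Set G)) := Fintype.ofFinite _
    have hN : Subgroup.normalizer (Q : Set G) ≠ ⊤ := fun htop =>
      hS (hnormal M r S (Subgroup.normalizer_eq_top_iff.1 htop))
    have hMKQ : M ≤ K ⊔ Q := by
      have hle : K ⊔ Q ≤ M := sup_le hKM hQM
      rw [← Subgroup.relIndex_eq_one]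
      have h1 : (K ⊔ Q).relIndex M ∣ K.relIndex M := Subgroup.relIndex_dvd_of_le_left M le_sup_left
      have h2 : (K ⊔ Q).relIndex M ∣ Q.relIndex M := Subgroup.relIndex_dvd_of_le_left M le_sup_right
      have h3 : ¬ r ∣ Q.relIndex M := by
        have : Q.subgroupOf M = (S : Subgroup M) :=
          Subgroup.comap_map_eq_self_of_injective Subtype.val_injective _
        rw [Subgroup.relIndex, this]
        exact S.not_dvd_index
      have h4 : ∃ j, K.relIndex M = r ^ j := by
        obtain ⟨j, hj⟩ := IsPGroup.iff_card.1 hMbq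
        refine ⟨j, ?_⟩
        have := Subgroup.relIndex_comap (⊥ : Subgroup (G ⧸ K)) (QuotientGroup.mk' K) M
        rw [MonoidHom.comap_bot, QuotientGroup.ker_mk', hMdef,
          Subgroup.map_comap_eq_self_of_surjective (QuotientGroup.mk'_surjective K),
          Subgroup.relIndex_bot_left] at this
        rw [this, hj]
      obtain ⟨j, hj⟩ := h4
      obtain ⟨i, -, hi⟩ := (Nat.dvd_prime_pow hqp).1 (hj ▸ h1)
      rcases Nat.eq_zero_or_pos i with rfl | hi0
      · simpa using hi
      · exact absurd ((dvd_pow_self r hi0.ne').trans (hi ▸ h2)) h3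
    have hG : K ⊔ Subgroup.normalizer (Q : Set G) = ⊤ := by
      rw [eq_top_iff, ← (Sylow.normalizer_sup_eq_top S : Subgroup.normalizer (Q : Set G) ⊔ M = ⊤)]
      exact sup_le le_sup_right (hMKQ.trans (sup_le le_sup_left
        (Subgroup.le_normalizer.trans le_sup_right)))
    have hprop : ∀ L : Subgroup G, L.Normal → L ⊓ Subgroup.normalizer (Q : Set G) ≤ K →
        L ⊓ M ≤ K := by
      rintro L hLn hLN x ⟨hxL, hxM⟩
      obtain ⟨j, hj⟩ := hpow x hxM
      obtain ⟨a, b, hb, hob⟩ := Nat.exists_eq_pow_mul_and_not_dvd (orderOf_pos x).ne' r hqp.ne_one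
      -- the `r`-part is conjugate into `Q`
      have hxb : x ^ b ∈ K := by
        have hp : IsPGroup r (Subgroup.zpowers (x ^ b)) := by
          refine IsPGroup.of_card (n := a) ?_
          rw [Nat.card_zpowers, orderOf_pow, hob, Nat.gcd_mul_left_left,
            Nat.mul_div_cancel _ (Nat.pos_of_ne_zero fun h => hb (by rw [h]; exact dvd_zero r))]
        have hyM : Subgroup.zpowers (x ^ b) ≤ M := by
          rw [Subgroup.zpowers_le]; exact M.pow_mem hxM b
        obtain ⟨T, hT⟩ :=
          (hp.comap_of_injective M.subtype Subtype.val_injective).exists_le_sylow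
        obtain ⟨g, hg⟩ := MulAction.exists_smul_eq M S T
        have h1 := hT (show (⟨x ^ b, hyM (Subgroup.mem_zpowers _)⟩ : M) ∈
          (Subgroup.zpowers (x ^ b)).comap M.subtype from Subgroup.mem_zpowers _)
        rw [← hg] at h1
        change _ ∈ MulAut.conj g • (S : Subgroup M) at h1
        rw [Subgroup.mem_pointwise_smul_iff_inv_smul_mem, MulAut.smul_def,
          MulAut.inv_def, MulAut.conj_symm_apply] at h1
        have h2 : (g : G)⁻¹ * x ^ b * g ∈ Q := ⟨_, h1, by simp⟩
        have h3 : (g : G)⁻¹ * x ^ b * g ∈ L := by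
          simpa using hLn.conj_mem' _ (L.pow_mem hxL b) (g : G)
        have h4 := hKn.conj_mem _ (hLN ⟨h3, Subgroup.le_normalizer h2⟩) (g : G)
        simpa [mul_assoc] using h4
      have hc : (r ^ j).Coprime b := (hqp.coprime_iff_not_dvd.2 hb).pow_left j
      have := Nat.gcd_eq_gcd_ab (r ^ j) b
      rw [hc.gcd_eq_one, Nat.cast_one] at this
      rw [← zpow_one x, this, zpow_add, zpow_mul, zpow_mul, zpow_natCast, zpow_natCast]
      exact K.mul_mem (K.zpow_mem hj _) (K.zpow_mem hxb _)
    obtain ⟨hirr, hall⟩ := garrison_core hK hMn hKM hQM hQp (hsylow M r S) hG hprop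
    by_contra hno
    push Not at hno
    set N := Subgroup.normalizer (Q : Set G) with hNdef
    -- every constituent agrees with `χ` on the normalizer
    have hagree : ∀ ψ : IrrCharacter G,
        classInner (indFun N (fun n : N => (χ : G → ℂ) n)) (ψ : G → ℂ) ≠ 0 →
        ∀ n : N, (ψ : G → ℂ) n = (χ : G → ℂ) n := by
      intro ψ hψ
      by_cases he : ψ = χ
      · subst he; exact fun n => rfl
      obtain ⟨L, hL, hlt, hdeg | heq⟩ := hall ψ he hψ
      · exact absurd hlt (hno ψ hdeg L hL)
      · exact heq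
    have hsum := eq_sum_classInner (isClassFunction_indFun N (fun n : N => (χ : G → ℂ) n))
    set F := indFun N (fun n : N => (χ : G → ℂ) n) with hF
    set c := ∑ ψ : IrrCharacter G, classInner F (ψ : G → ℂ)
    have hFN : ∀ n : N, F n = c * (χ : G → ℂ) n := by
      intro n
      conv_lhs => rw [hsum]
      rw [Finset.sum_mul, Finset.sum_apply]
      refine Finset.sum_congr rfl fun ψ _ => ?_
      by_cases h0 : classInner F (ψ : G → ℂ) = 0
      · simp [h0]
      · rw [Pi.smul_apply, smul_eq_mul, hagree ψ h0 n]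
    have hc : c = (N.index : ℂ) := by
      have := hFN 1
      rw [hF, OneMemClass.coe_one, indFun_apply_one] at this
      exact (mul_right_cancel₀ (irr_apply_one_ne_zero χ.2) this).symm
    have hcore : ∀ x ∈ N, (χ : G → ℂ) x ≠ 0 → x ∈ N.normalCore := by
      intro x hx hx0
      have h1 := hFN ⟨x, hx⟩
      rw [hc, hF, indFun_apply] at h1
      have h2 : ∀ y : G, extendByZero N (fun n : N => (χ : G → ℂ) n) (y⁻¹ * x * y) =
          if y⁻¹ * x * y ∈ N then (χ : G → ℂ) x else 0 := by
        intro y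
        rw [extendByZero_eq_ite]
        split_ifs with hy
        · show (χ : G → ℂ) (y⁻¹ * x * y) = _
          simpa using (isClassFunction_irr χ) x y⁻¹
        · rfl
      simp only [h2, Finset.sum_ite, Finset.sum_const_zero, add_zero, Finset.sum_const,
        nsmul_eq_mul] at h1
      have hcard : ((Finset.univ.filter fun y : G => y⁻¹ * x * y ∈ N).card : ℂ) = Nat.card G := by
        rw [← Subgroup.card_mul_index N, Nat.cast_mul]
        have h3 : (Nat.card N : ℂ) ≠ 0 := subgroup_card_ne_zero N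
        field_simp at h1
        linear_combination h1
      have hcard' : (Finset.univ.filter fun y : G => y⁻¹ * x * y ∈ N).card = Nat.card G := by
        exact_mod_cast hcard
      rw [Nat.card_eq_fintype_card] at hcard'
      have huniv := Finset.eq_univ_of_card _ hcard'
      intro y
      have := (Finset.ext_iff.1 huniv y⁻¹).2 (Finset.mem_univ _)
      simpa using this
    have hKNC : ∀ x ∈ N, x ∈ K → x ∈ N.normalCore := fun x hxN hxK =>
      hcore x hxN (by rw [(hK x).1 hxK]; exact irr_apply_one_ne_zero χ.2)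
    set D := N.normalCore ⊓ M
    haveI : D.Normal := inferInstance
    have hQD : ¬ Q ≤ D := by
      intro hle
      apply hN
      rw [Subgroup.normalizer_eq_top_iff]
      refine ⟨fun x hx g => ?_⟩
      have hgx : g * x * g⁻¹ ∈ D := (inferInstance : D.Normal).conj_mem x (hle hx) g
      have hgN : Subgroup.zpowers (g * x * g⁻¹) ≤ N :=
        Subgroup.zpowers_le.2 (N.normalCore_le hgx.1)
      have hsup : IsPGroup r (Subgroup.zpowers (g * x * g⁻¹) ⊔ Q : Subgroup G) := by
        refine IsPGroup.to_sup_of_normal_right' ?_ hQp hgN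
        have : Subgroup.zpowers (g * x * g⁻¹) =
            (Subgroup.zpowers x).map (MulAut.conj g).toMonoidHom := by
          rw [MonoidHom.map_zpowers]; rfl
        rw [this]
        exact (hQp.to_le (Subgroup.zpowers_le.2 hx)).map _
      have := hsylow M r S _ (sup_le (Subgroup.zpowers_le.2 hgx.2) hQM) hsup le_sup_right
      have h9 : g * x * g⁻¹ ∈ Subgroup.zpowers (g * x * g⁻¹) ⊔ Q :=
        Subgroup.mem_sup_left (Subgroup.mem_zpowers _)
      rw [this] at h9
      exact h9
    have hDK : D ≤ K := by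
      have h1 : (K ⊔ D).map (QuotientGroup.mk' K) ≤ Mb := by
        rw [Subgroup.map_le_iff_le_comap]; exact sup_le hKM inf_le_right
      rcases hMb.2.2 _ (Subgroup.Normal.map inferInstance _ (QuotientGroup.mk'_surjective K)) h1
        with h2 | h2
      · intro x hx
        have : QuotientGroup.mk' K x ∈ (K ⊔ D).map (QuotientGroup.mk' K) :=
          Subgroup.mem_map_of_mem _ (Subgroup.mem_sup_right hx)
        rw [h2, Subgroup.mem_bot] at this
        exact (QuotientGroup.eq_one_iff x).1 this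
      · exfalso
        apply hQD
        intro x hx
        have hxM : QuotientGroup.mk' K x ∈ (K ⊔ D).map (QuotientGroup.mk' K) := by
          rw [h2]; exact hQM hx
        obtain ⟨y, hy, hyx⟩ := hxM
        obtain ⟨d, hd, k, hk, rfl⟩ := Subgroup.mem_sup_of_normal_right.1 (sup_comm K D ▸ hy)
        have hkK : (d⁻¹ * x) ∈ K := by
          have h3 : ((d * k : G) : G ⧸ K) = (x : G ⧸ K) := hyx
          have := K.mul_mem hk (QuotientGroup.eq.1 h3)
          simpa [mul_assoc] using this
        have hdN : d ∈ N := N.normalCore_le hd.1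
        have hmemN : d⁻¹ * x ∈ N := N.mul_mem (N.inv_mem hdN) (Subgroup.le_normalizer hx)
        have := D.mul_mem hd (⟨hKNC _ hmemN hkK, hKM hkK⟩ : d⁻¹ * x ∈ D)
        simpa using this
    have hvan : ∀ x ∈ M, x ∉ K → (χ : G → ℂ) x = 0 := by
      intro x hxM hxK
      obtain ⟨k, hk, y, hy, rfl⟩ := Subgroup.mem_sup_of_normal_left.1 (hMKQ hxM)
      rw [apply_mul_of_mem_charKer (irr_isCharacter χ) _ ((hK k).1 hk)]
      by_contra h0
      exact hxK (K.mul_mem hk (hDK ⟨hcore y (Subgroup.le_normalizer hy) h0, hQM hy⟩))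
    haveI : Fintype M := Fintype.ofFinite _
    have hcongr : ∀ x ∈ (Finset.univ.filter fun x : M => (x : G) ∈ K),
        (χ : G → ℂ) x = (χ : G → ℂ) 1 := fun x hx => (hK x).1 (Finset.mem_filter.1 hx).2
    have hSM : ∑ x : M, (χ : G → ℂ) x ≠ 0 := by
      rw [← Finset.sum_filter_add_sum_filter_not Finset.univ (fun x : M => (x : G) ∈ K),
        Finset.sum_eq_zero (s := Finset.univ.filter fun x : M => ¬ (x : G) ∈ K) fun x hx =>
          hvan x x.2 (Finset.mem_filter.1 hx).2, add_zero,
        Finset.sum_congr rfl hcongr, Finset.sum_const, nsmul_eq_mul]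
      refine mul_ne_zero (Nat.cast_ne_zero.2 ?_) (irr_apply_one_ne_zero χ.2)
      exact Finset.card_ne_zero.2 ⟨1, by simp [K.one_mem]⟩
    exact hKlt (le_antisymm hKM fun m hm => (hK m).2
      (Blocks.apply_eq_one_of_sum_ne_zero χ M hSM M le_rfl hm))

end Cfsg.Agent.Chars
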