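import Mathlib

/-!
A criterion for diameter two, and conjugacy of involutions with odd product.
-/

set_option autoImplicit false

namespace Cfsg.Agent.Chars

theorem connected_diam_two {α : Type*} [Finite α] (G : SimpleGraph α)
    (h : ∀ u v, u ≠ v → G.Adj u v ∨ ∃ w, G.Adj u w ∧ G.Adj w v)
    (hne : ∃ u v, u ≠ v ∧ ¬ G.Adj u v) : G.Connected ∧ G.diam = 2 := by
  obtain ⟨a, b, hab, hnab⟩ := hne
  haveI : Nonempty α := ⟨a⟩
  haveI : Nontrivial α := ⟨a, b, hab⟩
  have h2 : G.ediam ≤ 2 := by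
    refine SimpleGraph.ediam_le_iff.2 fun u v => ?_
    by_cases huv : u = v
    · simp [huv]
    · rcases h u v huv with h1 | ⟨w, h1, h2⟩
      · refine (SimpleGraph.edist_le h1.toWalk).trans ?_
        simp
      · refine (SimpleGraph.edist_le (SimpleGraph.Walk.cons h1 h2.toWalk)).trans ?_
        simp
  have hne : G.ediam ≠ ⊤ := fun e => by rw [e] at h2; exact absurd (top_le_iff.1 h2) (by simp)
  refine ⟨SimpleGraph.connected_of_ediam_ne_top hne, ?_⟩
  have hle : G.diam ≤ 2 := by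
    have := ENat.toNat_le_toNat h2 (by simp)
    simpa [SimpleGraph.diam] using this
  have h0 : G.diam ≠ 0 := SimpleGraph.diam_ne_zero_of_ediam_ne_top hne
  have h1 : G.diam ≠ 1 := fun e => by
    rw [SimpleGraph.diam_eq_one] at e
    exact hnab (e ▸ hab)
  omega

theorem isConj_of_odd_product {G : Type*} [Group G] (x z : G) (hx : x * x = 1) (hz : z * z = 1)
    (h : Odd (orderOf (x * z))) : IsConj x z := by
  obtain ⟨k, hk⟩ := h
  have hxi : x⁻¹ = x := inv_eq_of_mul_eq_one_right hx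
  have hzi : z⁻¹ = z := inv_eq_of_mul_eq_one_right hz
  set r := x * z with hr
  have hxr : ∀ j : ℕ, x * (r ^ j)⁻¹ = r ^ j * x := fun j => by
    have h1 : x * r⁻¹ * x⁻¹ = r := by
      rw [hr, mul_inv_rev, hxi, hzi]
      simp only [mul_assoc, hx, mul_one]
    rw [← inv_pow, ← mul_inv_eq_iff_eq_mul, ← conj_pow, h1]
  refine isConj_iff.2 ⟨r ^ k, ?_⟩
  have h2 : (r ^ k)⁻¹ * (r ^ k)⁻¹ = r := by
    rw [← mul_inv_rev, ← pow_add, inv_eq_iff_mul_eq_one, ← pow_succ, show k + k + 1 = orderOf r by omega,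
      pow_orderOf_eq_one]
  rw [← hxr, mul_assoc, h2, hr, ← mul_assoc, hx, one_mul]

end Cfsg.Agent.Chars
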