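/-
Core library: fusion inside a cyclic 2-subgroup and 2-groups with a cyclic subgroup of index two.
-/
import Mathlib.GroupTheory.SpecificGroups.Cyclic
import Mathlib.GroupTheory.Sylow
import Mathlib.GroupTheory.IndexNormal
import Mathlib.GroupTheory.Abelianization.Defs
import Mathlib.Data.Nat.Totient

set_option autoImplicit false
set_option linter.style.haveILetI false

namespace Cfsg.Agent.Chars.IndexTwo

open Subgroup

variable {G : Type*} [Group G] [Finite G]

/-- The automorphism group of a cyclic 2-group is a 2-group. -/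
theorem isPGroup_mulAut {C : Type*} [Group C] [Finite C] [IsCyclic C] {m : ℕ}
    (hC : Nat.card C = 2 ^ m) : IsPGroup 2 (MulAut C) := by
  rcases m with _ | m
  · haveI : Subsingleton C := (Nat.card_eq_one_iff_unique.1 (by simpa using hC)).1
    haveI : Subsingleton (MulAut C) := ⟨fun a b => MulEquiv.ext fun x => Subsingleton.elim _ _⟩
    exact IsPGroup.of_card (n := 0) (by simp)
  refine IsPGroup.of_card (n := m) ?_
  rw [Nat.card_congr (IsCyclic.mulAutMulEquiv C).toEquiv, hC, Nat.card_eq_fintype_card,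
    ZMod.card_units_eq_totient, Nat.totient_prime_pow_succ Nat.prime_two]
  simp

/-- The action of the normalizer of a cyclic 2-subgroup is already realised by any of its Sylow
2-subgroups. -/
theorem exists_mem_same_action [Fact (Nat.Prime 2)] {g : G} {m : ℕ} (hg : orderOf g = 2 ^ m)
    (S : Sylow 2 (normalizer (zpowers g : Set G))) {x : G} (hx : x ∈ normalizer (zpowers g : Set G)) :
    ∃ s ∈ S, ((s : normalizer (zpowers g : Set G)) : G) * g * (s : G)⁻¹ = x * g * x⁻¹ := by
  let ρ := Subgroup.normalizerMonoidHom (zpowers g)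
  have hA : IsPGroup 2 (MulAut (zpowers g)) := isPGroup_mulAut (m := m) (by rw [Nat.card_zpowers, hg])
  have htop := ((S.mapSurjective ρ.rangeRestrict_surjective).is_maximal'
    ((hA.to_subgroup ρ.range).of_equiv Subgroup.topEquiv.symm) le_top)
  have hmem : ρ.rangeRestrict ⟨x, hx⟩ ∈ (S.mapSurjective ρ.rangeRestrict_surjective : Subgroup ρ.range) :=
    htop ▸ Subgroup.mem_top _
  rw [Sylow.coe_mapSurjective] at hmem
  obtain ⟨s, hs, he⟩ := hmem
  refine ⟨s, hs, ?_⟩
  exact congrArg (fun f : MulAut (zpowers g) => ((f ⟨g, mem_zpowers g⟩ : zpowers g) : G))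
    (congrArg Subtype.val he)

/-- If the centralizer of `g` has odd index, the normalizer of `⟨g⟩` centralizes `g`. -/
theorem comm_of_odd_index [Fact (Nat.Prime 2)] {g : G} {m : ℕ} (hg : orderOf g = 2 ^ m)
    (hodd : ¬ 2 ∣ (centralizer ({g} : Set G)).index) {x : G}
    (hx : x ∈ normalizer (zpowers g : Set G)) : x * g * x⁻¹ = g := by
  let ρ := Subgroup.normalizerMonoidHom (zpowers g)
  have hA : IsPGroup 2 (MulAut (zpowers g)) := isPGroup_mulAut (m := m) (by rw [Nat.card_zpowers, hg])
  have hle : (centralizer ({g} : Set G)).subgroupOf (normalizer (zpowers g : Set G)) ≤ ρ.ker := by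
    intro y hy
    rw [MonoidHom.mem_ker]
    refine MulEquiv.ext fun z => Subtype.ext ?_
    show (y : G) * z * (y : G)⁻¹ = z
    obtain ⟨i, hi⟩ := z.2
    have hc : Commute (y : G) g := (mem_centralizer_singleton_iff.mp hy)
    have hi' : g ^ i = (z : G) := hi
    rw [← hi', (hc.zpow_right i).eq, mul_inv_cancel_right]
  have hN : centralizer ({g} : Set G) ≤ normalizer (zpowers g : Set G) := by
    rw [← Subgroup.centralizer_closure, ← Subgroup.zpowers_eq_closure]
    exact centralizer_le_normalizer _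
  have hdvd : Nat.card ρ.range ∣ (centralizer ({g} : Set G)).index := by
    rw [← Subgroup.index_ker]
    exact (Subgroup.index_dvd_of_le hle).trans (relIndex_dvd_index_of_le hN)
  obtain ⟨j, hj⟩ := IsPGroup.iff_card.mp (hA.to_subgroup ρ.range)
  have h1 : Nat.card ρ.range = 1 := by
    rcases j with _ | j
    · simpa using hj
    · exact absurd ((hj ▸ dvd_pow_self 2 (Nat.succ_ne_zero j)).trans hdvd) hodd
  have h2 : ρ ⟨x, hx⟩ = 1 := by
    have := (Nat.card_eq_one_iff_unique.1 h1).1
    exact congrArg Subtype.val (Subsingleton.elim (⟨ρ ⟨x, hx⟩, ⟨_, rfl⟩⟩ : ρ.range) 1)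
  exact congrArg (fun f : MulAut (zpowers g) => ((f ⟨g, mem_zpowers g⟩ : zpowers g) : G)) h2

omit [Finite G] in
/-- An element conjugating `g` to a power of `g` normalizes `⟨g⟩` when the order is unchanged. -/
theorem mem_normalizer_of_conj [Finite G] {g x : G} {k : ℕ} (h : x * g * x⁻¹ = g ^ k) :
    x ∈ normalizer (zpowers g : Set G) := by
  refine mem_normalizer_fintype ?_
  rintro _ ⟨i, rfl⟩
  refine ⟨(k : ℤ) * i, ?_⟩
  show g ^ ((k : ℤ) * i) = x * g ^ i * x⁻¹
  rw [← conj_zpow, h, zpow_mul, zpow_natCast]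

/-- A 2-group with a cyclic subgroup of index two inverted, or semi-inverted, has commutator quotient
of order four. -/
theorem index_commutator {P : Type*} [Group P] [Finite P] {n : ℕ} (hn : 4 ≤ n) {a b : P}
    (hP : Nat.card P = 2 ^ n) (ha : orderOf a = 2 ^ (n - 1)) {u : ℕ}
    (hu : u = 2 ^ (n - 1) - 1 ∨ u = 2 ^ (n - 2) - 1) (hb : b * a * b⁻¹ = a ^ u) :
    (commutator P).index = 4 := by
  haveI : Fact (Nat.Prime 2) := ⟨Nat.prime_two⟩
  obtain ⟨l, rfl⟩ : ∃ l, n = l + 4 := ⟨n - 4, by omega⟩
  simp only [show l + 4 - 1 = l + 3 by omega, show l + 4 - 2 = l + 2 by omega] at ha hu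
  have hA : (zpowers a).index = 2 := by
    have := (zpowers a).card_mul_index
    rw [Nat.card_zpowers, ha, hP, show l + 4 = l + 3 + 1 by omega, pow_succ 2 (l + 3)] at this
    exact Nat.eq_of_mul_eq_mul_left (by positivity) this
  haveI hAn : (zpowers a).Normal := Subgroup.normal_of_index_eq_two hA
  set C := zpowers (a ^ 2) with hC
  haveI hCn : C.Normal := by
    refine ⟨?_⟩
    rintro _ ⟨i, rfl⟩ y
    obtain ⟨j, hj⟩ := hAn.conj_mem a (mem_zpowers a) y
    refine ⟨j * i, ?_⟩
    show (a ^ 2) ^ (j * i) = y * (a ^ 2) ^ i * y⁻¹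
    have hj' : a ^ j = y * a * y⁻¹ := hj
    have h1 : y * a ^ 2 * y⁻¹ = (a ^ 2) ^ j := by
      rw [← conj_pow, ← hj', ← zpow_natCast (a ^ j) 2, ← zpow_mul, ← zpow_natCast a 2, ← zpow_mul,
        mul_comm]
    rw [← conj_zpow, h1, ← zpow_mul]
  have hCi : C.index = 4 := by
    have := C.card_mul_index
    have ho : orderOf (a ^ 2) = 2 ^ (l + 2) := by
      rw [orderOf_pow' _ two_ne_zero, ha]
      rw [Nat.gcd_eq_right (dvd_pow_self 2 (by omega)), pow_succ 2 (l + 2)]
      omega
    rw [hC, Nat.card_zpowers, ho, hP, show l + 4 = l + 2 + 2 by omega, pow_add 2 (l + 2)] at this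
    exact Nat.eq_of_mul_eq_mul_left (by positivity) this
  refine le_antisymm ?_ ?_
  · -- `a² ∈ P'`
    have hle : C ≤ commutator P := by
      rw [hC, zpowers_le]
      have hmem : b * a * b⁻¹ * a⁻¹ ∈ commutator P := by
        rw [_root_.commutator_def, ← commutatorElement_def]
        exact commutator_mem_commutator (mem_top b) (mem_top a)
      obtain ⟨w, hwodd, hw⟩ : ∃ w : ℕ, Odd w ∧ u = 2 * w + 1 := by
        rcases hu with rfl | rfl
        · refine ⟨2 ^ (l + 2) - 1, ?_, ?_⟩
          · exact Nat.Even.sub_odd Nat.one_le_two_pow ((Nat.even_pow.mpr ⟨even_two, by omega⟩)) odd_one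
          · have := Nat.one_le_two_pow (n := l + 2)
            rw [pow_succ 2 (l + 2)]
            omega
        · refine ⟨2 ^ (l + 1) - 1, ?_, ?_⟩
          · exact Nat.Even.sub_odd Nat.one_le_two_pow ((Nat.even_pow.mpr ⟨even_two, by omega⟩)) odd_one
          · have := Nat.one_le_two_pow (n := l + 1)
            rw [pow_succ 2 (l + 1)]
            omega
      rw [hb, hw, pow_succ, mul_inv_cancel_right, pow_mul] at hmem
      have hco : (orderOf (a ^ 2)).Coprime w := by
        refine Nat.Coprime.coprime_dvd_left (orderOf_dvd_of_pow_eq_one (n := 2 ^ (l + 3)) ?_)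
          (Nat.Coprime.pow_left _ hwodd.coprime_two_left)
        rw [← pow_mul, mul_comm, pow_mul, ← ha, pow_orderOf_eq_one, one_pow]
      obtain ⟨r, hr⟩ := exists_pow_eq_self_of_coprime hco.symm
      exact hr ▸ pow_mem hmem r
    exact hCi ▸ Nat.le_of_dvd (Nat.pos_of_ne_zero C.index_ne_zero_of_finite) (index_dvd_of_le hle)
  · have hle : commutator P ≤ C := by
      rw [_root_.commutator_def, Subgroup.commutator_le]
      intro x _ y _
      rw [← QuotientGroup.ker_mk' C, MonoidHom.mem_ker, map_commutatorElement,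
        commutatorElement_eq_one_iff_commute]
      exact IsPGroup.commutative_of_card_eq_prime_sq (p := 2)
        (show Nat.card (P ⧸ C) = 2 ^ 2 by rw [← Subgroup.index_eq_card, hCi]; rfl) _ _
    exact hCi ▸ Nat.le_of_dvd (Nat.pos_of_ne_zero (commutator P).index_ne_zero_of_finite)
      (index_dvd_of_le hle)

end Cfsg.Agent.Chars.IndexTwo
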