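import Mathlib.GroupTheory.QuotientGroup.Basic
import Mathlib.GroupTheory.Index
import Mathlib.GroupTheory.OrderOfElement
import Mathlib.GroupTheory.Commutator.Basic
import Mathlib.Data.Set.Card
import Mathlib.Tactic.Group
import Mathlib.Tactic.Ring
import Mathlib.Tactic.Linarith
import Mathlib.Tactic.Push

/-!
Partitions of a section by the fixed points of the conjugates of one element modulo an abelian
normal section of coprime order.
-/

set_option autoImplicit false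

open scoped commutatorElement

namespace Cfsg.Agent.Chars.NoDiv

universe u

variable {G : Type u} [Group G]

/-- The elements moving `v` inside its coset modulo `W`. -/
def stabMod (W : Subgroup G) [hW : W.Normal] (v : G) : Subgroup G where
  carrier := {g | ⁅g, v⁆ ∈ W}
  one_mem' := by simp
  mul_mem' := fun {a b} ha hb => by
    show ⁅a * b, v⁆ ∈ W
    rw [show ⁅a * b, v⁆ = a * ⁅b, v⁆ * a⁻¹ * ⁅a, v⁆ by simp only [commutatorElement_def]; group]
    exact W.mul_mem (hW.conj_mem _ hb a) ha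
  inv_mem' := fun {a} ha => by
    show ⁅a⁻¹, v⁆ ∈ W
    rw [show ⁅a⁻¹, v⁆ = a⁻¹ * ⁅a, v⁆⁻¹ * a⁻¹⁻¹ by simp only [commutatorElement_def]; group]
    exact hW.conj_mem _ (W.inv_mem ha) a⁻¹

theorem mem_stabMod {W : Subgroup G} [W.Normal] {g v : G} : g ∈ stabMod W v ↔ ⁅g, v⁆ ∈ W := Iff.rfl

/-- The elements of `V` fixed by `g` modulo `W`. -/
def fixMod (V W : Subgroup G) [hW : W.Normal] (g : G) : Subgroup G where
  carrier := {v | v ∈ V ∧ ⁅g, v⁆ ∈ W}
  one_mem' := ⟨V.one_mem, by simp⟩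
  mul_mem' := fun {a b} ha hb => ⟨V.mul_mem ha.1 hb.1, by
    rw [show ⁅g, a * b⁆ = ⁅g, a⁆ * (a * ⁅g, b⁆ * a⁻¹) by simp only [commutatorElement_def]; group]
    exact W.mul_mem ha.2 (hW.conj_mem _ hb.2 a)⟩
  inv_mem' := fun {a} ha => ⟨V.inv_mem ha.1, by
    rw [show ⁅g, a⁻¹⁆ = a⁻¹ * ⁅g, a⁆⁻¹ * a⁻¹⁻¹ by simp only [commutatorElement_def]; group]
    exact hW.conj_mem _ (W.inv_mem ha.2) a⁻¹⟩

/-- `n ↦ ⁅h⁻¹, n⁆` modulo `C`. -/
def twist (N C : Subgroup G) [hN : N.Normal] [C.Normal]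
    (hNC : ∀ a ∈ N, ∀ b ∈ N, ⁅a, b⁆ ∈ C) (h : G) : N →* G ⧸ C :=
  MonoidHom.mk' (fun n => ((⁅h⁻¹, (n : G)⁆ : G) : G ⧸ C)) fun a b => by
    have hb : ⁅h⁻¹, (b : G)⁆ ∈ N := by
      rw [commutatorElement_def]
      exact N.mul_mem (hN.conj_mem _ b.2 _) (N.inv_mem b.2)
    have hc := (QuotientGroup.eq_one_iff _).2 (hNC (a : G) a.2 _ hb)
    rw [show ⁅h⁻¹, ((a * b : N) : G)⁆ = ⁅h⁻¹, (a : G)⁆ * (⁅(a : G), ⁅h⁻¹, (b : G)⁆⁆ * ⁅h⁻¹, (b : G)⁆)
      by simp only [Subgroup.coe_mul, commutatorElement_def]; group]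
    rw [QuotientGroup.mk_mul, QuotientGroup.mk_mul, hc, one_mul]

/-- The partition. -/
theorem count_partition [Finite G] (V W N C : Subgroup G) [hV : V.Normal] [W.Normal] [hN : N.Normal]
    [C.Normal] (hWV : W ≤ V) (hNC : ∀ a ∈ N, ∀ b ∈ N, ⁅a, b⁆ ∈ C)
    (hCV : ∀ c ∈ C, ∀ v ∈ V, ⁅c, v⁆ ∈ W) (h : G) {m : ℕ} (hm : h ^ m ∈ C)
    (hcop : (Nat.card (N.map (QuotientGroup.mk' C))).Coprime m)
    (horb : ∀ v ∈ V, v ∉ W → ∃ n ∈ N, ⁅h * n, v⁆ ∈ W)
    (hst : ∀ n ∈ N, ∀ v ∈ V, v ∉ W → ⁅n, v⁆ ∈ W → ⁅h, n⁆ ∈ C) :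
    Nat.card V - Nat.card W =
      Nat.card (twist N C hNC h).range * (Nat.card (fixMod V W h) - Nat.card W) := by
  classical
  set π := QuotientGroup.mk' C with hπ
  set φ := twist N C hNC h with hφ
  set H := π h with hH
  set Nb := N.map π with hNb
  have hHm : H ^ m = 1 := by
    rw [hH, ← map_pow]; exact (QuotientGroup.eq_one_iff _).2 hm
  have hφe : ∀ n : N, φ n = H⁻¹ * π n * H * (π n)⁻¹ := fun n => by
    show π ⁅h⁻¹, (n : G)⁆ = _
    rw [commutatorElement_def, inv_inv, map_mul, map_mul, map_mul, map_inv, map_inv]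
  have hIN : ∀ i ∈ φ.range, i ∈ Nb := by
    rintro _ ⟨n, rfl⟩
    exact ⟨⁅h⁻¹, (n : G)⁆, by
      rw [commutatorElement_def]; exact N.mul_mem (hN.conj_mem _ n.2 _) (N.inv_mem n.2), rfl⟩
  have hcomm : ∀ x ∈ Nb, ∀ y ∈ Nb, x * y = y * x := by
    rintro _ ⟨a, ha, rfl⟩ _ ⟨b, hb, rfl⟩
    rw [← commutatorElement_eq_one_iff_mul_comm, ← map_commutatorElement]
    exact (QuotientGroup.eq_one_iff _).2 (hNC a ha b hb)
  have hmemI : ∀ x ∈ Nb, H⁻¹ * x * H * x⁻¹ ∈ φ.range := by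
    rintro _ ⟨a, ha, rfl⟩; exact ⟨⟨a, ha⟩, hφe ⟨a, ha⟩⟩
  -- fixed elements of the range are trivial
  have hfix : ∀ z ∈ φ.range, H⁻¹ * z * H = z → z = 1 := by
    intro z hz hzH
    obtain ⟨n, hn⟩ := hz
    rw [hφe] at hn
    set b := π (n : G)
    have hb : H⁻¹ * b * H = z * b := by rw [← hn]; group
    have hpow : ∀ j : ℕ, (H ^ j)⁻¹ * b * H ^ j = z ^ j * b := by
      intro j
      induction j with
      | zero => simp
      | succ j ih =>
        rw [pow_succ H, pow_succ z, mul_inv_rev]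
        calc H⁻¹ * (H ^ j)⁻¹ * b * (H ^ j * H) = H⁻¹ * ((H ^ j)⁻¹ * b * H ^ j) * H := by group
          _ = H⁻¹ * (z ^ j * b) * H := by rw [ih]
          _ = (H⁻¹ * z * H) ^ j * (H⁻¹ * b * H) := by
            rw [show H⁻¹ * z * H = H⁻¹ * z * H⁻¹⁻¹ by rw [inv_inv], conj_pow, inv_inv]; group
          _ = z ^ j * z * b := by rw [hzH, hb, ← mul_assoc]
    have h1 : z ^ m = 1 := by
      have := hpow m
      rw [hHm, inv_one, one_mul, mul_one] at this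
      exact mul_eq_right.1 this.symm
    have h2 : z ^ Nat.card Nb = 1 := by
      have hzN : z ∈ Nb := hIN z ⟨n, by rw [hφe]; exact hn⟩
      exact congrArg Subtype.val (pow_card_eq_one' (x := (⟨z, hzN⟩ : Nb)))
    exact orderOf_eq_one_iff.1 (Nat.eq_one_of_dvd_coprimes hcop (orderOf_dvd_of_pow_eq_one h2)
      (orderOf_dvd_of_pow_eq_one h1))
  have hsame : ∀ x y : G ⧸ C, H⁻¹ * x * H * x⁻¹ = H⁻¹ * y * H * y⁻¹ →
      H⁻¹ * (x⁻¹ * y) * H = x⁻¹ * y := by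
    intro x y e
    calc H⁻¹ * (x⁻¹ * y) * H = (H⁻¹ * x * H)⁻¹ * ((H⁻¹ * y * H * y⁻¹) * y) := by group
      _ = (H⁻¹ * x * H)⁻¹ * ((H⁻¹ * x * H * x⁻¹) * y) := by rw [e]
      _ = x⁻¹ * y := by group
  -- every element of `Nb` splits
  have hsplit : ∀ a ∈ Nb, ∃ i ∈ φ.range, H⁻¹ * (i⁻¹ * a) * H = i⁻¹ * a := by
    intro a ha
    let F : φ.range → φ.range := fun i => ⟨_, hmemI i (hIN i i.2)⟩
    have hinj : Function.Injective F := fun i j e => by
      have e' := hsame _ _ (congrArg Subtype.val e)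
      exact Subtype.ext (inv_mul_eq_one.1 (hfix _ (φ.range.mul_mem (φ.range.inv_mem i.2) j.2) e'))
    obtain ⟨i, hi⟩ := Finite.injective_iff_surjective.1 hinj ⟨_, hmemI a ha⟩
    exact ⟨i, i.2, hsame _ _ (congrArg Subtype.val hi)⟩
  have hCle : ∀ v ∈ V, π.ker ≤ stabMod W v := fun v hv c hc => by
    rw [hπ, QuotientGroup.ker_mk'] at hc
    exact hCV c hc v hv
  have hlift : ∀ v ∈ V, ∀ g : G, π g ∈ (stabMod W v).map π → g ∈ stabMod W v := fun v hv g hg => by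
    rw [← Subgroup.comap_map_eq_self (hCle v hv)]; exact hg
  have hrep : ∀ i : φ.range, ∃ b : N, φ b = i := fun i => i.2
  choose b hb using hrep
  have hconj : ∀ i : φ.range, π ((b i : G) * h * (b i : G)⁻¹) = H * i := fun i => by
    rw [← hb i, hφe, map_mul, map_mul, map_inv, ← hH]; group
  let X := {v : G // v ∈ fixMod V W h ∧ v ∉ W}
  let Y := {v : G // v ∈ V ∧ v ∉ W}
  have hWn : W.Normal := inferInstance
  let f : φ.range × X → Y := fun p => ⟨(b p.1 : G) * p.2.1 * (b p.1 : G)⁻¹,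
    hV.conj_mem _ p.2.2.1.1 _, fun hW' => p.2.2.2 (by
      have := hWn.conj_mem _ hW' (b p.1 : G)⁻¹
      rwa [show (b p.1 : G)⁻¹ * ((b p.1 : G) * p.2.1 * (b p.1 : G)⁻¹) * (b p.1 : G)⁻¹⁻¹ = p.2.1
        by group] at this)⟩
  have hfs : ∀ p, (b p.1 : G) * h * (b p.1 : G)⁻¹ ∈ stabMod W (f p).1 := fun p => by
    show ⁅_, (b p.1 : G) * p.2.1 * (b p.1 : G)⁻¹⁆ ∈ W
    rw [← conjugate_commutatorElement]
    exact hWn.conj_mem _ p.2.2.1.2 _
  have hbij : Function.Bijective f := by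
    refine ⟨fun p q e => ?_, fun v => ?_⟩
    · have e' : (f p).1 = (f q).1 := congrArg Subtype.val e
      have h1 := Subgroup.mul_mem _ (Subgroup.inv_mem _ (hfs p)) (e' ▸ hfs q)
      have h2 : π (((b p.1 : G) * h * (b p.1 : G)⁻¹)⁻¹ * ((b q.1 : G) * h * (b q.1 : G)⁻¹)) =
          (p.1 : G ⧸ C)⁻¹ * q.1 := by
        rw [map_mul, map_inv, hconj, hconj]; group
      obtain ⟨n, hn, hne⟩ := hIN _ (φ.range.mul_mem (φ.range.inv_mem p.1.2) q.1.2)
      have h3 : n ∈ stabMod W (f p).1 :=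
        hlift _ (f p).2.1 n ⟨_, h1, h2.trans hne.symm⟩
      have h4 := (QuotientGroup.eq_one_iff _).2 (hst n hn _ (f p).2.1 (f p).2.2 h3)
      rw [← QuotientGroup.mk'_apply, map_commutatorElement, commutatorElement_eq_one_iff_mul_comm,
        ← hπ, hne, ← hH] at h4
      have h5 := inv_mul_eq_one.1 (hfix _ (φ.range.mul_mem (φ.range.inv_mem p.1.2) q.1.2) (by
        rw [mul_assoc, ← h4, inv_mul_cancel_left]))
      have h6 : p.1 = q.1 := Subtype.ext h5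
      refine Prod.ext h6 (Subtype.ext ?_)
      change (b p.1 : G) * p.2.1 * (b p.1 : G)⁻¹ = (b q.1 : G) * q.2.1 * (b q.1 : G)⁻¹ at e'
      rw [h6] at e'
      exact mul_left_cancel (mul_right_cancel e')
    · obtain ⟨n, hn, hnv⟩ := horb v.1 v.2.1 v.2.2
      obtain ⟨i, hi, hci⟩ := hsplit (π n) ⟨n, hn, rfl⟩
      set c := i⁻¹ * π n with hc
      have hcN : c ∈ Nb := Nb.mul_mem (Nb.inv_mem (hIN i hi)) ⟨n, hn, rfl⟩
      have hcH : Commute c H := by
        show c * H = H * c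
        calc c * H = H * (H⁻¹ * c * H) := by group
          _ = H * c := by rw [hci]
      set B := π (b ⟨i, hi⟩ : G) with hB
      have hBi : B * H * B⁻¹ = H * i := by
        have := hconj ⟨i, hi⟩; rwa [map_mul, map_mul, map_inv] at this
      have hcB : Commute c B := hcomm _ hcN _ ⟨_, (b ⟨i, hi⟩).2, rfl⟩
      have hS : B * H * B⁻¹ * c ∈ (stabMod W v.1).map π :=
        ⟨h * n, hnv, by rw [map_mul, ← hH, hBi, hc]; group⟩
      have hcS : c ∈ (stabMod W v.1).map π := by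
        have h1 := Subgroup.pow_mem _ hS m
        rw [((hcB.mul_right hcH).mul_right hcB.inv_right).symm.mul_pow, conj_pow, hHm, mul_one,
          mul_inv_cancel, one_mul] at h1
        obtain ⟨j, hj⟩ := exists_pow_eq_self_of_coprime (x := c) (n := m)
          (hcop.coprime_dvd_left (by
            rw [← Subgroup.orderOf_mk c hcN]; exact orderOf_dvd_natCard _)).symm
        exact hj ▸ Subgroup.pow_mem _ h1 j
      have hS' := Subgroup.mul_mem _ hS (Subgroup.inv_mem _ hcS)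
      rw [mul_inv_cancel_right] at hS'
      have hg : (b ⟨i, hi⟩ : G) * h * (b ⟨i, hi⟩ : G)⁻¹ ∈ stabMod W v.1 :=
        hlift _ v.2.1 _ (by rw [map_mul, map_mul, map_inv]; exact hS')
      set g := (b ⟨i, hi⟩ : G)
      refine ⟨(⟨i, hi⟩, ⟨g⁻¹ * v.1 * g, ⟨?_, ?_⟩, fun hW' => v.2.2 ?_⟩), Subtype.ext ?_⟩
      · have := hV.conj_mem _ v.2.1 g⁻¹; rwa [inv_inv] at this
      · have := hWn.conj_mem _ (mem_stabMod.1 hg) g⁻¹
        rwa [show g⁻¹ * ⁅g * h * g⁻¹, v.1⁆ * g⁻¹⁻¹ = ⁅h, g⁻¹ * v.1 * g⁆ by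
          simp only [commutatorElement_def]; group] at this
      · have := hWn.conj_mem _ hW' g
        rwa [show g * (g⁻¹ * v.1 * g) * g⁻¹ = v.1 by group] at this
      · show g * (g⁻¹ * v.1 * g) * g⁻¹ = v.1
        group
  have hdiff : ∀ S : Subgroup G, W ≤ S →
      Nat.card {v : G // v ∈ S ∧ v ∉ W} = Nat.card S - Nat.card W := fun S hS =>
    Set.ncard_diff (s := (W : Set G)) (t := (S : Set G)) hS (Set.toFinite _)
  have hWfix : W ≤ fixMod V W h := fun w hw => ⟨hWV hw, by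
    rw [commutatorElement_def]; exact W.mul_mem (hWn.conj_mem _ hw h) (W.inv_mem hw)⟩
  rw [← hdiff V hWV, ← hdiff _ hWfix, ← Nat.card_eq_of_bijective f hbij, Nat.card_prod]

/-- Two such partitions with one number of parts have the same size. -/
theorem eq_of_ratio {r k u b w c : ℕ} (hr : 1 < r) (hk : 1 < k) (hw : 0 < w) (hu : w < u)
    (h1 : r ^ u - 1 = k * (r ^ b - 1)) (h2 : r ^ w - 1 = k * (r ^ c - 1)) : False := by
  have hpos : ∀ j, 1 ≤ r ^ j := fun j => Nat.one_le_pow _ _ (by omega)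
  have hu1 : 1 < r ^ u := Nat.one_lt_pow (by omega) hr
  have hw1 : 1 < r ^ w := Nat.one_lt_pow (by omega) hr
  have hb1 : 1 < r ^ b := by
    by_contra h
    rw [show r ^ b - 1 = 0 by omega, mul_zero] at h1; omega
  have hc1 : 1 < r ^ c := by
    by_contra h
    rw [show r ^ c - 1 = 0 by omega, mul_zero] at h2; omega
  have hbu : b < u := by
    refine (Nat.pow_lt_pow_iff_right hr).1 ?_
    have : 2 * (r ^ b - 1) ≤ r ^ u - 1 := h1 ▸ Nat.mul_le_mul_right _ hk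
    omega
  have hcw : c < w := by
    refine (Nat.pow_lt_pow_iff_right hr).1 ?_
    have : 2 * (r ^ c - 1) ≤ r ^ w - 1 := h2 ▸ Nat.mul_le_mul_right _ hk
    omega
  -- reduce modulo the least power
  have hz1 : (k : ℤ) * ((r : ℤ) ^ b - 1) = (r : ℤ) ^ u - 1 := by
    have := congrArg (Nat.cast : ℕ → ℤ) h1
    push_cast [Nat.cast_sub (hpos u), Nat.cast_sub (hpos b)] at this
    linarith
  have hz2 : (k : ℤ) * ((r : ℤ) ^ c - 1) = (r : ℤ) ^ w - 1 := by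
    have := congrArg (Nat.cast : ℕ → ℤ) h2
    push_cast [Nat.cast_sub (hpos w), Nat.cast_sub (hpos c)] at this
    linarith
  have key : ((r : ℤ) ^ u - 1) * ((r : ℤ) ^ c - 1) = ((r : ℤ) ^ w - 1) * ((r : ℤ) ^ b - 1) := by
    rw [← hz1, ← hz2]; ring
  have hndvd : ∀ j, ¬ (r : ℤ) ^ (j + 1) ∣ (r : ℤ) ^ j := fun j h => by
    have h' : r ^ (j + 1) ∣ r ^ j := by exact_mod_cast h
    exact absurd ((Nat.pow_dvd_pow_iff_le_right hr).1 h') (by omega)
  have hexp : ((r : ℤ) ^ u * (r : ℤ) ^ c - (r : ℤ) ^ u - (r : ℤ) ^ c) =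
      ((r : ℤ) ^ w * (r : ℤ) ^ b - (r : ℤ) ^ w - (r : ℤ) ^ b) := by linarith
  have hd : ∀ {j i : ℕ}, j < i → (r : ℤ) ^ (j + 1) ∣ (r : ℤ) ^ i := fun h => pow_dvd_pow _ h
  rcases lt_trichotomy b c with hlt | heq | hlt
  · refine hndvd b ?_
    have e : (r : ℤ) ^ b = (r : ℤ) ^ w * (r : ℤ) ^ b - (r : ℤ) ^ w -
        ((r : ℤ) ^ u * (r : ℤ) ^ c - (r : ℤ) ^ u - (r : ℤ) ^ c) := by linarith
    exact e ▸ dvd_sub (dvd_sub ((hd (hlt.trans hcw)).mul_right _) (hd (hlt.trans hcw)))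
      (dvd_sub (dvd_sub ((hd hbu).mul_right _) (hd hbu)) (hd hlt))
  · subst heq
    rw [← h2] at h1
    exact absurd ((Nat.pow_lt_pow_iff_right hr).2 hu) (by omega)
  · refine hndvd c ?_
    have e : (r : ℤ) ^ c = (r : ℤ) ^ u * (r : ℤ) ^ c - (r : ℤ) ^ u -
        ((r : ℤ) ^ w * (r : ℤ) ^ b - (r : ℤ) ^ w - (r : ℤ) ^ b) := by linarith
    exact e ▸ dvd_sub (dvd_sub ((hd (hcw.trans hu)).mul_right _) (hd (hcw.trans hu)))
      (dvd_sub (dvd_sub ((hd hcw).mul_right _) (hd hcw)) (hd hlt))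

end Cfsg.Agent.Chars.NoDiv
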