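import Cfsg.Agent.Chars.NoDivCount
import Mathlib.GroupTheory.PGroup
import Mathlib.GroupTheory.SchurZassenhaus
import Mathlib.GroupTheory.Solvable
import Mathlib.GroupTheory.SpecificGroups.Cyclic
import Mathlib.GroupTheory.Perm.Cycle.Type
import Mathlib.Algebra.BigOperators.Group.Finset.Basic
import Mathlib.Data.ZMod.Basic
import Mathlib.Algebra.Field.ZMod
import Mathlib.Data.Set.Finite.Lemmas
import Mathlib.Tactic.Ring
import Mathlib.Tactic.Linarith

/-!
The derived subgroup of the kernel in a group whose degrees do not divide one another is abelian: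
the group theoretical part.
-/

set_option autoImplicit false
set_option linter.style.haveILetI false
set_option linter.unusedSectionVars false

open scoped commutatorElement

namespace Cfsg.Agent.Chars.NoDiv

universe u

variable {G : Type u} [Group G]

/-- The hypotheses of the group theoretical part. -/
structure Cond (N D A C : Subgroup G) (f : ℕ) : Prop where
  nN : N.Normal
  nD : D.Normal
  nC : C.Normal
  DN : D ≤ N
  comm : ∀ a ∈ N, ∀ b ∈ N, ⁅a, b⁆ ∈ D
  AN : A ≤ N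
  cov : ∀ n ∈ N, ∃ d ∈ D, ∃ a ∈ A, n = d * a
  cl : ∀ a ∈ A, ∀ g : G, ⁅g, a⁆ ∉ D → ∀ d ∈ D, a * d = d * a → d = 1
  conj : ∀ g : G, ∀ d ∈ D, ∃ n ∈ N, g * d * g⁻¹ = n * d * n⁻¹
  DC : D ≤ C
  CN : C ≤ N
  CD : ∀ c ∈ C, ∀ d ∈ D, ⁅c, d⁆ ∈ ⁅D, D⁆
  semi : ∀ n ∈ N, n ∉ C → ∀ u ∈ D, ⁅n, u⁆ ∈ ⁅D, D⁆ → u ∈ ⁅D, D⁆
  pow : ∀ g : G, g ^ f ∈ N
  cop : (C.relIndex N).Coprime f
  moved : ∃ g : G, ∃ n ∈ N, ⁅g, n⁆ ∉ C
  cam : ∀ u ∈ D, u ∉ ⁅D, D⁆ → ∀ m ∈ ⁅D, D⁆, ∃ v ∈ D, ⁅v, u⁆ = m
  ne : ⁅D, D⁆ ≠ ⊥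

theorem comm_mul_left (a b c : G) : ⁅a * b, c⁆ = a * ⁅b, c⁆ * a⁻¹ * ⁅a, c⁆ := by
  simp only [commutatorElement_def]; group

theorem comm_mul_right (a b c : G) : ⁅a, b * c⁆ = ⁅a, b⁆ * (b * ⁅a, c⁆ * b⁻¹) := by
  simp only [commutatorElement_def]; group

theorem comm_central {z z' a b : G} (h1 : Commute z a) (h2 : Commute z b) (h3 : Commute z' a)
    (h4 : Commute z' b) (h5 : Commute z z') : ⁅z * a, z' * b⁆ = ⁅a, b⁆ := by
  have h6 : Commute z ⁅a, b⁆ := ((h1.mul_right h2).mul_right h1.inv_right).mul_right h2.inv_right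
  have h7 : Commute z' ⁅a, b⁆ := ((h3.mul_right h4).mul_right h3.inv_right).mul_right h4.inv_right
  rw [comm_mul_left, comm_mul_right a z' b, comm_mul_right z z' b,
    commutatorElement_eq_one_iff_mul_comm.2 h3.symm.eq, commutatorElement_eq_one_iff_mul_comm.2 h5.eq,
    commutatorElement_eq_one_iff_mul_comm.2 h2.eq]
  simp only [one_mul, mul_one, mul_inv_cancel]
  rw [h7.eq, mul_inv_cancel_right, h6.eq, mul_inv_cancel_right]

theorem conj_eq (a b : G) : a * b * a⁻¹ = ⁅a, b⁆ * b := by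
  simp only [commutatorElement_def]; group

theorem Cond.map {N D A C : Subgroup G} {f : ℕ} [Finite G] (h : Cond N D A C f) (L : Subgroup G)
    [hL : L.Normal] (hle : L ≤ ⁅D, D⁆) (hne : L ≠ ⁅D, D⁆) :
    Cond (N.map (QuotientGroup.mk' L)) (D.map (QuotientGroup.mk' L)) (A.map (QuotientGroup.mk' L))
      (C.map (QuotientGroup.mk' L)) f := by
  classical
  set π := QuotientGroup.mk' L with hπ
  have hπs : Function.Surjective π := QuotientGroup.mk'_surjective L
  haveI := h.nN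
  haveI := h.nD
  haveI := h.nC
  have hLD : L ≤ D := hle.trans (Subgroup.commutator_le_self D)
  have hLC : L ≤ C := hLD.trans h.DC
  have hker : π.ker = L := QuotientGroup.ker_mk' L
  have hmem : ∀ {S : Subgroup G}, L ≤ S → ∀ {x : G}, π x ∈ S.map π → x ∈ S := fun {S} hS {x} hx => by
    rw [← Subgroup.comap_map_eq_self (hker.le.trans hS)]; exact hx
  have hd : ⁅D.map π, D.map π⁆ = (⁅D, D⁆).map π := (Subgroup.map_commutator _ _ _).symm
  refine ⟨Subgroup.Normal.map h.nN _ hπs, Subgroup.Normal.map h.nD _ hπs,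
    Subgroup.Normal.map h.nC _ hπs, Subgroup.map_mono h.DN, ?_, Subgroup.map_mono h.AN, ?_, ?_, ?_,
    Subgroup.map_mono h.DC, Subgroup.map_mono h.CN, ?_, ?_, ?_, ?_, ?_, ?_, ?_⟩
  · rintro _ ⟨a, ha, rfl⟩ _ ⟨b, hb, rfl⟩
    exact ⟨⁅a, b⁆, h.comm a ha b hb, map_commutatorElement π a b⟩
  · rintro _ ⟨n, hn, rfl⟩
    obtain ⟨d, hd, a, ha, rfl⟩ := h.cov n hn
    exact ⟨π d, ⟨d, hd, rfl⟩, π a, ⟨a, ha, rfl⟩, map_mul π d a⟩
  · rintro _ ⟨a, ha, rfl⟩ gb hg _ ⟨d, hdD, rfl⟩ hc
    obtain ⟨g, rfl⟩ := hπs gb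
    rw [← map_commutatorElement] at hg
    have hg' : ⁅g, a⁆ ∉ D := fun h' => hg ⟨_, h', rfl⟩
    have hin : ⁅d, a⁆ ∈ L := by
      rw [← QuotientGroup.eq_one_iff, ← QuotientGroup.mk'_apply, map_commutatorElement,
        commutatorElement_eq_one_iff_mul_comm]
      exact hc.symm
    -- conjugating by `L` moves `a` all over its coset
    let F : L → L := fun l => ⟨⁅(l : G), a⁆, by
      rw [show ⁅(l : G), a⁆ = (l : G) * (a * (l : G)⁻¹ * a⁻¹) by
        simp only [commutatorElement_def]; group]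
      exact L.mul_mem l.2 (hL.conj_mem _ (L.inv_mem l.2) a)⟩
    have key : ∀ x ∈ D, ∀ y ∈ D, ⁅x, a⁆ = ⁅y, a⁆ → x = y := by
      intro x hx y hy e
      have e' : x * a * x⁻¹ = y * a * y⁻¹ := mul_right_cancel (by
        simpa only [commutatorElement_def] using e)
      refine (inv_mul_eq_one.1 (h.cl a ha g hg' _ (D.mul_mem (D.inv_mem hy) hx) ?_)).symm
      calc a * (y⁻¹ * x) = y⁻¹ * (y * a * y⁻¹) * x := by group
        _ = y⁻¹ * (x * a * x⁻¹) * x := by rw [e']
        _ = y⁻¹ * x * a := by group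
    have hinj : Function.Injective F := fun l l' e =>
      Subtype.ext (key _ (hLD l.2) _ (hLD l'.2) (congrArg Subtype.val e))
    obtain ⟨l, hl⟩ := Finite.injective_iff_surjective.1 hinj ⟨_, hin⟩
    rw [← key _ (hLD l.2) _ hdD (congrArg Subtype.val hl)]
    exact (QuotientGroup.eq_one_iff _).2 l.2
  · intro gb
    obtain ⟨g, rfl⟩ := hπs gb
    rintro _ ⟨d, hd, rfl⟩
    obtain ⟨n, hn, he⟩ := h.conj g d hd
    exact ⟨π n, ⟨n, hn, rfl⟩, by simpa using congrArg π he⟩
  · rintro _ ⟨c, hc, rfl⟩ _ ⟨d, hdD, rfl⟩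
    rw [hd, ← map_commutatorElement]
    exact ⟨_, h.CD c hc d hdD, rfl⟩
  · rintro _ ⟨n, hn, rfl⟩ hnC _ ⟨u, hu, rfl⟩ hnu
    rw [hd, ← map_commutatorElement] at hnu
    rw [hd]
    exact ⟨u, h.semi n hn (fun h' => hnC ⟨n, h', rfl⟩) u hu (hmem hle hnu), rfl⟩
  · intro gb
    obtain ⟨g, rfl⟩ := hπs gb
    exact ⟨g ^ f, h.pow g, map_pow π g f⟩
  · rw [Subgroup.relIndex_map_map, hker, sup_eq_left.2 hLC, sup_eq_left.2 (hLC.trans h.CN)]
    exact h.cop
  · obtain ⟨g, n, hn, hgn⟩ := h.moved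
    exact ⟨π g, π n, ⟨n, hn, rfl⟩, fun h' => hgn (hmem hLC (by rwa [map_commutatorElement]))⟩
  · rintro _ ⟨u, hu, rfl⟩ hu' _ hm
    rw [hd] at hu' hm
    obtain ⟨m, hm, rfl⟩ := hm
    obtain ⟨v, hv, he⟩ := h.cam u hu (fun h' => hu' ⟨u, h', rfl⟩) m hm
    exact ⟨π v, ⟨v, hv, rfl⟩, by rw [← map_commutatorElement, he]⟩
  · rw [hd, Ne, Subgroup.map_eq_bot_iff, hker]
    exact fun h' => hne (le_antisymm hle h')

/-- A proper normal subgroup with trivial image only. -/
theorem commutator_ne_self [Finite G] (S : Subgroup G) [Group.IsSolvable S] (hS : S ≠ ⊥) :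
    ⁅S, S⁆ ≠ S := fun e => by
  haveI : Nontrivial S := (Subgroup.nontrivial_iff_ne_bot S).2 hS
  refine (Group.IsSolvable.commutator_lt_top_of_nontrivial S).ne ?_
  refine Subgroup.map_injective S.subtype_injective ?_
  rw [Subgroup.map_subtype_commutator, e, ← MonoidHom.range_eq_map, Subgroup.range_subtype]

/-- An abelian group acting without fixed points on an abelian group of prime exponent prime to it
has few solutions of `x ^ p = 1`. -/
theorem mem_zpowers_of_fpf {V M : Type*} [CommGroup V] [CommGroup M] (φ : V →* MulAut M) {p r : ℕ}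
    [hp : Fact p.Prime] (hpr : p.Coprime r) (hexp : ∀ m : M, m ^ r = 1) (m₀ : M) (hm₀ : m₀ ≠ 1)
    (hfpf : ∀ v : V, v ≠ 1 → ∀ m : M, φ v m = m → m = 1) {x y : V} (hx : x ^ p = 1) (hy : y ^ p = 1)
    (hx1 : x ≠ 1) : y ∈ Subgroup.zpowers x := by
  classical
  by_contra hyx
  have hsum : ∀ z : V, z ^ p = 1 → z ≠ 1 → ∀ m : M,
      ∏ j : ZMod p, φ (z ^ j.val) m = 1 := by
    intro z hz hz1 m
    refine hfpf z hz1 _ ?_
    rw [map_prod]
    refine Fintype.prod_equiv (Equiv.addRight (1 : ZMod p)) _ _ fun j => ?_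
    rw [← MulAut.mul_apply, ← map_mul, Equiv.coe_addRight, ZMod.val_add, ZMod.val_one,
      ← pow_eq_pow_mod _ hz, pow_succ']
  have hmul : ∀ (i j : ZMod p), x ^ (i.val * j.val) = x ^ (i * j).val := fun i j => by
    rw [ZMod.val_mul, ← pow_eq_pow_mod _ hx]
  have key : ∏ i : ZMod p, ∏ j : ZMod p, φ ((x ^ i.val * y) ^ j.val) m₀ = 1 := by
    refine Finset.prod_eq_one fun i _ => hsum _ ?_ ?_ m₀
    · rw [mul_pow, ← pow_mul, mul_comm i.val, pow_mul, hx, one_pow, hy, mul_one]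
    · intro e
      exact hyx (eq_inv_of_mul_eq_one_right e ▸
        Subgroup.inv_mem _ (Subgroup.pow_mem _ (Subgroup.mem_zpowers x) _))
  rw [Finset.prod_comm, Finset.prod_eq_single (0 : ZMod p)] at key
  · simp only [ZMod.val_zero, pow_zero, map_one, MulAut.one_apply, Finset.prod_const,
      Finset.card_univ, ZMod.card] at key
    exact hm₀ (orderOf_eq_one_iff.1 (Nat.eq_one_of_dvd_coprimes hpr
      (orderOf_dvd_of_pow_eq_one key) (orderOf_dvd_of_pow_eq_one (hexp m₀))))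
  · intro j _ hj
    rw [← hsum x hx hx1 (φ (y ^ j.val) m₀)]
    refine Fintype.prod_equiv (Equiv.mulRight₀ j hj) _ _ fun i => ?_
    rw [← MulAut.mul_apply, ← map_mul, mul_pow, ← pow_mul, hmul]
    rfl
  · exact fun h => absurd (Finset.mem_univ _) h

/-- An abelian group with cyclic socle is cyclic. -/
theorem isCyclic_of_few {V : Type*} [CommGroup V] [Finite V]
    (h : ∀ p : ℕ, p.Prime → Nat.card (powMonoidHom p : V →* V).ker ≤ p) : IsCyclic V := by
  classical
  haveI := Fintype.ofFinite V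
  refine isCyclic_of_card_pow_eq_one_le fun n hn => ?_
  suffices hs : ∀ n : ℕ, 0 < n → Nat.card (powMonoidHom n : V →* V).ker ≤ n by
    have h1 := hs n hn
    rw [Nat.card_eq_fintype_card] at h1
    refine le_trans (le_of_eq ?_) h1
    rw [Fintype.card_subtype]
    congr 1
    ext x
    simp [MonoidHom.mem_ker]
  intro n
  induction n using Nat.strong_induction_on with
  | _ n ih =>
    intro hn
    by_cases hn1 : n = 1
    · subst hn1
      refine le_of_eq (Subgroup.card_eq_one.2 ?_)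
      exact (Subgroup.eq_bot_iff_forall _).2 fun x hx => by simpa using hx
    obtain ⟨p, hp, a, rfl⟩ := Nat.exists_prime_and_dvd hn1
    have ha : 0 < a := Nat.pos_of_mul_pos_left hn
    let S := (powMonoidHom (p * a) : V →* V).ker
    let g : S →* (powMonoidHom p : V →* V).ker :=
      ((powMonoidHom a).comp S.subtype).codRestrict _ fun x => by
        show ((x : V) ^ a) ^ p = 1
        rw [← pow_mul, mul_comm]
        exact x.2
    have h1 := g.ker.card_mul_index
    have h2 : g.ker.index ≤ p := by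
      rw [Subgroup.index_ker]
      exact (Subgroup.card_le_card_group _).trans (h p hp)
    have h3 : Nat.card g.ker ≤ a := by
      refine le_trans ?_ (ih a (lt_mul_left ha hp.one_lt) ha)
      refine Nat.card_le_card_of_injective (fun x => (⟨((x : S) : V),
        congrArg Subtype.val x.2⟩ : (powMonoidHom a : V →* V).ker)) fun x x' e => ?_
      exact Subtype.ext (Subtype.ext (congrArg (fun z : (powMonoidHom a : V →* V).ker => (z : V)) e))
    calc Nat.card S = Nat.card g.ker * g.ker.index := h1.symm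
      _ ≤ a * p := Nat.mul_le_mul h3 h2
      _ = p * a := mul_comm a p

variable [Finite G]

/-- The central case. -/
theorem central_case {N D A C : Subgroup G} {f : ℕ} (h : Cond N D A C f)
    (hsolv : Group.IsSolvable D) (hcen : ∀ m ∈ ⁅D, D⁆, ∀ d ∈ D, m * d = d * m) : False := by
  classical
  haveI := h.nN
  haveI hDn := h.nD
  haveI := h.nC
  haveI := hsolv
  set M := ⁅D, D⁆ with hM
  haveI hMn : M.Normal := Subgroup.commutator_normal D D
  have hMD : M ≤ D := Subgroup.commutator_le_self D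
  have hdd : ∀ a ∈ D, ∀ b ∈ D, ⁅a, b⁆ ∈ M := fun a ha b hb =>
    Subgroup.commutator_mem_commutator ha hb
  -- the prime
  have hne : D ≠ ⊥ := fun e => h.ne (by rw [e, Subgroup.commutator_bot_left])
  have hlt : M ≠ D := commutator_ne_self D hne
  obtain ⟨r, hr, hrd⟩ := Nat.exists_prime_and_dvd (n := M.relIndex D)
    (fun e => hlt (le_antisymm hMD (Subgroup.relIndex_eq_one.1 e)))
  haveI := Fact.mk hr
  let c : ∀ u ∈ D, D →* M := fun u hu => MonoidHom.mk' (fun v => ⟨⁅(v : G), u⁆, hdd _ v.2 u hu⟩)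
    fun a b => Subtype.ext (by
      show ⁅((a * b : D) : G), u⁆ = ⁅(a : G), u⁆ * ⁅(b : G), u⁆
      rw [Subgroup.coe_mul, comm_mul_left, ← hcen _ (hdd _ b.2 u hu) _ a.2]
      rw [mul_inv_cancel_right, hcen _ (hdd _ b.2 u hu) _ (hMD (hdd _ a.2 u hu))])
  have hsurj : ∀ u (hu : u ∈ D), u ∉ M → Function.Surjective (c u hu) := fun u hu hu' m => by
    obtain ⟨v, hv, he⟩ := h.cam u hu hu' m m.2
    exact ⟨⟨v, hv⟩, Subtype.ext he⟩
  have hcpow : ∀ (v : G) (_ : v ∈ D) (u : G) (_ : u ∈ D) (j : ℕ), ⁅v, u ^ j⁆ = ⁅v, u⁆ ^ j := by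
    intro v hv u hu j
    induction j with
    | zero => simp
    | succ j ih =>
      rw [pow_succ, comm_mul_right, ih, pow_succ, ← hcen _ (hdd v hv u hu) _ (D.pow_mem hu j),
        mul_inv_cancel_right]
  have hexp : ∀ s : ℕ, ∀ u ∈ D, u ∉ M → u ^ s ∈ M → ∀ m ∈ M, m ^ s = 1 := by
    intro s u hu hu' hus m hm
    obtain ⟨v, hv, rfl⟩ := h.cam u hu hu' m hm
    rw [← hcpow v hv u hu, commutatorElement_eq_one_iff_mul_comm]
    exact (hcen _ hus v hv).symm
  have hpick : ∀ s : ℕ, s.Prime → s ∣ M.relIndex D → ∃ u ∈ D, u ∉ M ∧ u ^ s ∈ M := by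
    intro s hs hsd
    haveI := Fact.mk hs
    have hcard : Nat.card (D.map (QuotientGroup.mk' M)) = M.relIndex D := by
      rw [← Subgroup.relIndex_ker, QuotientGroup.ker_mk']
    obtain ⟨⟨_, u, hu, rfl⟩, hu'⟩ :=
      exists_prime_orderOf_dvd_card' (G := D.map (QuotientGroup.mk' M)) s (hcard.symm ▸ hsd)
    replace hu' : orderOf (QuotientGroup.mk' M u) = s := (Subgroup.orderOf_coe _).trans hu'
    refine ⟨u, hu, fun h' => hs.ne_one ?_, ?_⟩
    · rw [← hu', QuotientGroup.mk'_apply, (QuotientGroup.eq_one_iff u).2 h', orderOf_one]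
    · rw [← QuotientGroup.eq_one_iff, QuotientGroup.mk_pow, ← hu']
      exact pow_orderOf_eq_one _
  obtain ⟨u₀, hu₀, hu₀', hu₀r⟩ := hpick r hr hrd
  obtain ⟨m₀, hm₀, hm₀1⟩ := (M.bot_or_exists_ne_one).resolve_left h.ne
  have hMr : IsPGroup r M := fun m => ⟨1, by
    rw [pow_one]; exact Subtype.ext (hexp r u₀ hu₀ hu₀' hu₀r m m.2)⟩
  obtain ⟨w, hw⟩ := IsPGroup.iff_card.1 hMr
  have hu' : M.relIndex D = r ^ (M.relIndex D).primeFactorsList.length := by
    refine Nat.eq_prime_pow_of_unique_prime_dvd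
      (Subgroup.index_ne_zero_of_finite (H := M.subgroupOf D)) fun {d} hd hdd' => ?_
    obtain ⟨v, hv, hv', hvd⟩ := hpick d hd hdd'
    by_contra hne'
    exact hm₀1 (orderOf_eq_one_iff.1 (Nat.eq_one_of_dvd_coprimes
      ((Nat.coprime_primes hd hr).2 hne') (orderOf_dvd_of_pow_eq_one (hexp d v hv hv' hvd m₀ hm₀))
      (orderOf_dvd_of_pow_eq_one (hexp r u₀ hu₀ hu₀' hu₀r m₀ hm₀))))
  generalize (M.relIndex D).primeFactorsList.length = u at hu'
  have hcardD : Nat.card D = r ^ w * r ^ u := by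
    rw [← hw, ← hu', ← Subgroup.card_mul_index (M.subgroupOf D),
      Nat.card_congr (Subgroup.subgroupOfEquivOfLe hMD).toEquiv]
    rfl
  have hw0 : 0 < w := Nat.pos_of_ne_zero fun e => h.ne (Subgroup.card_eq_one.1 (by rw [hw, e, pow_zero]))
  -- the kernel of `c` is large
  have hwu : w < u := by
    refine (Nat.pow_lt_pow_iff_right hr.one_lt).1 ?_
    have h1 := (c u₀ hu₀).ker.card_mul_index
    rw [Subgroup.index_ker, MonoidHom.range_eq_top.2 (hsurj u₀ hu₀ hu₀'), Subgroup.card_top, hw,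
      hcardD] at h1
    have h2 : Nat.card (M.subgroupOf D) < Nat.card (c u₀ hu₀).ker := by
      refine Set.ncard_lt_ncard (s := (M.subgroupOf D : Set D)) (t := ((c u₀ hu₀).ker : Set D))
        ⟨fun v hv => Subtype.ext ?_, fun hle => hu₀' ?_⟩ (Set.toFinite _)
      · show ⁅(v : G), u₀⁆ = 1
        exact commutatorElement_eq_one_iff_mul_comm.2 (hcen _ (Subgroup.mem_subgroupOf.1 hv) _ hu₀)
      · exact Subgroup.mem_subgroupOf.1 (hle (a := ⟨u₀, hu₀⟩) (Subtype.ext (by
          show ⁅u₀, u₀⁆ = 1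
          exact commutatorElement_eq_one_iff_mul_comm.2 rfl)))
    rw [Nat.card_congr (Subgroup.subgroupOfEquivOfLe hMD).toEquiv, hw] at h2
    nlinarith [Nat.one_le_pow w r hr.pos]
  -- `C` centralises `M`
  have hCM : ∀ x ∈ C, ∀ m ∈ M, x * m = m * x := by
    intro x hx
    have hle : M ≤ Subgroup.centralizer {x} := Subgroup.commutator_le.2 fun a ha b hb => by
      rw [Subgroup.mem_centralizer_singleton_iff]
      have e : x * ⁅a, b⁆ * x⁻¹ = ⁅a, b⁆ := by
        rw [conjugate_commutatorElement, conj_eq x a, conj_eq x b]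
        have hza := h.CD x hx a ha
        have hzb := h.CD x hx b hb
        exact comm_central (hcen _ hza a ha) (hcen _ hza b hb) (hcen _ hzb a ha) (hcen _ hzb b hb)
          (hcen _ hza _ (hMD hzb))
      exact (mul_inv_eq_iff_eq_mul.1 e).symm
    exact fun m hm => (Subgroup.mem_centralizer_singleton_iff.1 (hle hm)).symm
  -- the element
  obtain ⟨g, n₀, hn₀, hgn⟩ := h.moved
  obtain ⟨hh, hhm, hhn⟩ : ∃ hh : G, hh ^ f ∈ C ∧ ⁅hh, n₀⁆ ∉ C := by
    have hcard : Nat.card (N.map (QuotientGroup.mk' C)) = C.relIndex N := by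
      rw [← Subgroup.relIndex_ker, QuotientGroup.ker_mk']
    obtain ⟨j, hj⟩ := exists_pow_eq_self_of_coprime (x := (QuotientGroup.mk' N g))
      (n := C.relIndex N) (h.cop.coprime_dvd_right (orderOf_dvd_of_pow_eq_one (by
        rw [← map_pow]; exact (QuotientGroup.eq_one_iff _).2 (h.pow g))))
    refine ⟨(g ^ C.relIndex N) ^ j, ?_, fun hc => hgn ?_⟩
    · rw [← pow_mul, ← pow_mul,
        show C.relIndex N * (j * f) = f * C.relIndex N * j by ring, pow_mul, pow_mul]
      refine C.pow_mem ?_ _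
      rw [← QuotientGroup.eq_one_iff, QuotientGroup.mk_pow]
      exact congrArg Subtype.val (show (⟨QuotientGroup.mk' C (g ^ f), _, h.pow g, rfl⟩ :
        N.map (QuotientGroup.mk' C)) ^ C.relIndex N = 1 from hcard ▸ pow_card_eq_one')
    · set hh := (g ^ C.relIndex N) ^ j
      have hn : g⁻¹ * hh ∈ N := QuotientGroup.eq.1 (by
        rw [QuotientGroup.mk_pow, QuotientGroup.mk_pow]; exact hj.symm)
      rw [show hh = g * (g⁻¹ * hh) by group, comm_mul_left] at hc
      exact (C.mul_mem_cancel_left (Subgroup.Normal.conj_mem inferInstance _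
        (h.DC (h.comm _ hn n₀ hn₀)) g)).1 hc
  have hNC : ∀ a ∈ N, ∀ b ∈ N, ⁅a, b⁆ ∈ C := fun a ha b hb => h.DC (h.comm a ha b hb)
  have hcop : (Nat.card (N.map (QuotientGroup.mk' C))).Coprime f := by
    rw [← Subgroup.relIndex_ker, QuotientGroup.ker_mk']; exact h.cop
  have horb : ∀ v ∈ D, ∀ W : Subgroup G, ∃ n ∈ N, ⁅hh * n, v⁆ ∈ W := fun v hv W => by
    obtain ⟨n, hn, he⟩ := h.conj hh⁻¹ v hv
    refine ⟨n, hn, ?_⟩
    rw [show ⁅hh * n, v⁆ = hh * (n * v * n⁻¹) * hh⁻¹ * v⁻¹ by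
      simp only [commutatorElement_def]; group, ← he]
    rw [show hh * (hh⁻¹ * v * hh⁻¹⁻¹) * hh⁻¹ * v⁻¹ = 1 by group]
    exact W.one_mem
  have e1 := count_partition D M N C hMD hNC h.CD hh hhm hcop (fun v hv _ => horb v hv M)
    (fun n hn v hv hv' hnv => by
      have hnC : n ∈ C := by
        by_contra hnC
        exact hv' (h.semi n hn hnC v hv hnv)
      rw [commutatorElement_def]
      exact C.mul_mem (Subgroup.Normal.conj_mem inferInstance _ hnC hh) (C.inv_mem hnC))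
  have e2 := count_partition M ⊥ N C bot_le hNC
    (fun x hx m hm => Subgroup.mem_bot.2 (commutatorElement_eq_one_iff_mul_comm.2 (hCM x hx m hm)))
    hh hhm hcop (fun v hv _ => horb v (hMD hv) ⊥)
    (fun n hn v hv hv' hnv => by
      obtain ⟨d, hd, a, ha, rfl⟩ := h.cov n hn
      rw [Subgroup.mem_bot, commutatorElement_eq_one_iff_mul_comm] at hnv
      rw [Subgroup.mem_bot] at hv'
      have hac : a * v = v * a := by
        refine mul_left_cancel (a := d) ?_
        rw [← mul_assoc, hnv, ← mul_assoc, hcen v hv d hd, mul_assoc]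
      have hga : ⁅hh, a⁆ ∈ D := by
        by_contra hga
        exact hv' (h.cl a ha hh hga v (hMD hv) hac)
      rw [comm_mul_right]
      refine C.mul_mem ?_ (Subgroup.Normal.conj_mem inferInstance _ (h.DC hga) d)
      rw [commutatorElement_def]
      exact h.DC (D.mul_mem (hDn.conj_mem _ hd hh) (D.inv_mem hd)))
  set k := Nat.card (twist N C hNC hh).range with hk
  have hk1 : 1 < k := by
    rw [hk, Finite.one_lt_card_iff_nontrivial, Subgroup.nontrivial_iff_ne_bot, ne_eq,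
      Subgroup.eq_bot_iff_forall]
    intro hall
    refine hhn ?_
    have h1 : ⁅hh⁻¹, n₀⁆ ∈ C := (QuotientGroup.eq_one_iff _).1 (hall _ ⟨⟨n₀, hn₀⟩, rfl⟩)
    have h2 := Subgroup.Normal.conj_mem (inferInstance : C.Normal) _ (C.inv_mem h1) hh
    rwa [show hh * ⁅hh⁻¹, n₀⁆⁻¹ * hh⁻¹ = ⁅hh, n₀⁆ by simp only [commutatorElement_def]; group] at h2
  -- the two counts
  have hfixD : ∃ b, Nat.card (fixMod D M hh) = r ^ w * r ^ b := by
    have hle : M ≤ fixMod D M hh := fun m hm => ⟨hMD hm, by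
      rw [commutatorElement_def]; exact M.mul_mem (hMn.conj_mem _ hm hh) (M.inv_mem hm)⟩
    obtain ⟨b, -, hb⟩ := (Nat.dvd_prime_pow hr).1
      ((pow_add r w u).symm ▸ hcardD ▸ Subgroup.card_dvd_of_le
        (show fixMod D M hh ≤ D from fun v hv => hv.1))
    have hwb : w ≤ b := (Nat.pow_dvd_pow_iff_le_right hr.one_lt).1
      (hw ▸ hb ▸ Subgroup.card_dvd_of_le hle)
    exact ⟨b - w, by rw [hb, ← pow_add, Nat.add_sub_cancel' hwb]⟩
  obtain ⟨b, hb⟩ := hfixD
  obtain ⟨c', -, hc'⟩ := (Nat.dvd_prime_pow hr).1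
    (hw ▸ Subgroup.card_dvd_of_le (show fixMod M ⊥ hh ≤ M from fun v hv => hv.1))
  rw [hcardD, hw, hb] at e1
  rw [hw, Subgroup.card_bot, hc'] at e2
  refine eq_of_ratio (b := b) (c := c') hr.one_lt hk1 hw0 hwu ?_ e2
  refine Nat.eq_of_mul_eq_mul_left (pow_pos hr.pos w) ?_
  rw [Nat.mul_sub, mul_one, e1, mul_left_comm (r ^ w) k, Nat.mul_sub (r ^ w), mul_one]

/-- The case of a minimal noncentral derived subgroup. -/
theorem minimal_case {N D A C : Subgroup G} {f : ℕ} (h : Cond N D A C f)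
    (hsolv : Group.IsSolvable D)
    (hmin : ∀ S : Subgroup G, S.Normal → S ≤ ⁅D, D⁆ → S ≠ ⊥ → S = ⁅D, D⁆)
    (hncen : ⁅⁅D, D⁆, D⁆ ≠ ⊥) : False := by
  classical
  haveI := h.nN
  haveI hDn := h.nD
  haveI := hsolv
  set M := ⁅D, D⁆ with hM
  haveI hMn : M.Normal := Subgroup.commutator_normal D D
  have hMD : M ≤ D := Subgroup.commutator_le_self D
  have hdd : ∀ a ∈ D, ∀ b ∈ D, ⁅a, b⁆ ∈ M := fun a ha b hb =>
    Subgroup.commutator_mem_commutator ha hb
  have hab : ∀ a ∈ M, ∀ b ∈ M, a * b = b * a := by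
    have hb : ⁅M, M⁆ = ⊥ := by
      by_contra hb
      haveI : Group.IsSolvable M :=
        Group.isSolvable_of_isSolvable_injective (Subgroup.inclusion_injective hMD)
      exact commutator_ne_self M h.ne
        (hmin _ (Subgroup.commutator_normal M M) (Subgroup.commutator_le_self M) hb)
    exact fun a ha b hb' => commutatorElement_eq_one_iff_mul_comm.1
      (Subgroup.mem_bot.1 (hb ▸ Subgroup.commutator_mem_commutator ha hb'))
  obtain ⟨r, hr, hrM⟩ := Nat.exists_prime_and_dvd (n := Nat.card M)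
    (fun e => h.ne (Subgroup.card_eq_one.1 e))
  haveI := Fact.mk hr
  have hexp : ∀ m ∈ M, m ^ r = 1 := by
    let S : Subgroup G :=
      { carrier := {m | m ∈ M ∧ m ^ r = 1}
        one_mem' := ⟨M.one_mem, one_pow r⟩
        mul_mem' := fun {a b} ha hb => ⟨M.mul_mem ha.1 hb.1, by
          rw [Commute.mul_pow (hab a ha.1 b hb.1), ha.2, hb.2, one_mul]⟩
        inv_mem' := fun {a} ha => ⟨M.inv_mem ha.1, by rw [inv_pow, ha.2, inv_one]⟩ }
    have hSn : S.Normal := ⟨fun a ha g => ⟨hMn.conj_mem a ha.1 g, by rw [conj_pow, ha.2]; simp⟩⟩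
    obtain ⟨⟨g, hg⟩, hgr⟩ := exists_prime_orderOf_dvd_card' (G := M) r hrM
    rw [Subgroup.orderOf_mk] at hgr
    have hS : S ≠ ⊥ := fun e => hr.ne_one (by
      have h1 : g = 1 := Subgroup.mem_bot.1 (e ▸ (⟨hg, hgr ▸ pow_orderOf_eq_one g⟩ : g ∈ S))
      rw [← hgr, h1, orderOf_one])
    intro m hm
    rw [← hmin S hSn (fun a ha => ha.1) hS] at hm
    exact hm.2
  -- the `r`-part of the section
  set π := QuotientGroup.mk' M with hπ
  have hπc : ∀ a ∈ D, ∀ b ∈ D, Commute (π a) (π b) := fun a ha b hb => by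
    refine commutatorElement_eq_one_iff_mul_comm.1 ?_
    rw [← map_commutatorElement]
    exact (QuotientGroup.eq_one_iff _).2 (hdd a ha b hb)
  let R : Subgroup G :=
    { carrier := {v | v ∈ D ∧ ∃ j : ℕ, π v ^ r ^ j = 1}
      one_mem' := ⟨D.one_mem, 0, by simp⟩
      mul_mem' := fun {a b} ⟨ha, i, hai⟩ ⟨hb, j, hbj⟩ => ⟨D.mul_mem ha hb, i + j, by
        rw [map_mul, Commute.mul_pow (hπc a ha b hb), pow_add, pow_mul, hai, one_pow, one_mul,
          mul_comm, pow_mul, hbj, one_pow]⟩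
      inv_mem' := fun {a} ⟨ha, i, hai⟩ => ⟨D.inv_mem ha, i, by rw [map_inv, inv_pow, hai, inv_one]⟩ }
  have hMR : M ≤ R := fun m hm => ⟨hMD hm, 0, by
    rw [pow_zero, pow_one]; exact (QuotientGroup.eq_one_iff _).2 hm⟩
  have hRn : R.Normal := ⟨fun a ⟨ha, i, hai⟩ g => ⟨hDn.conj_mem a ha g, i, by
    rw [map_mul, map_mul, map_inv, conj_pow, hai]; simp⟩⟩
  have hRp : IsPGroup r R := by
    rintro ⟨v, hv, j, hj⟩
    refine ⟨j + 1, Subtype.ext ?_⟩
    rw [← map_pow] at hj
    show v ^ r ^ (j + 1) = 1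
    rw [pow_succ, pow_mul]
    exact hexp _ ((QuotientGroup.eq_one_iff _).1 hj)
  -- `M` is central in `R`
  have hMRc : ∀ m ∈ M, ∀ v ∈ R, v * m = m * v := by
    have hle : M ≤ Subgroup.centralizer (R : Set G) := by
      letI : MulAction R M := MulAction.compHom M ((MulAut.conjNormal (H := M)).comp R.subtype)
      have hfix : ∀ m : M, m ∈ MulAction.fixedPoints R M ↔ ∀ v ∈ R, v * (m : G) * v⁻¹ = m := by
        intro m
        rw [MulAction.mem_fixedPoints]
        exact ⟨fun h' v hv => congrArg Subtype.val (h' ⟨v, hv⟩),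
          fun h' v => Subtype.ext (h' v v.2)⟩
      obtain ⟨m, hm, hne⟩ := hRp.exists_fixed_point_of_prime_dvd_card_of_fixed_point M hrM
        (a := (1 : M)) ((hfix 1).2 fun v _ => by simp)
      haveI := hRn
      have hS := hmin (M ⊓ Subgroup.centralizer (R : Set G)) inferInstance inf_le_left fun e =>
        hne (Subtype.ext (Eq.symm (Subgroup.mem_bot.1 (e ▸ (⟨m.2, Subgroup.mem_centralizer_iff.2
          fun v hv => mul_inv_eq_iff_eq_mul.1 ((hfix m).1 hm v hv)⟩ :
            (m : G) ∈ M ⊓ Subgroup.centralizer (R : Set G))))))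
      exact hS.ge.trans inf_le_right
    exact fun m hm v hv => Subgroup.mem_centralizer_iff.1 (hle hm) v hv
  -- nothing in `M` is fixed by `D`
  have hCMD : ∀ m ∈ M, (∀ d ∈ D, d * m = m * d) → m = 1 := by
    intro m hm hmd
    by_contra hm1
    refine hncen ?_
    have hS := hmin (M ⊓ Subgroup.centralizer (D : Set G)) inferInstance inf_le_left fun e => hm1
      (Subgroup.mem_bot.1 (e ▸ (⟨hm, Subgroup.mem_centralizer_iff.2 hmd⟩ :
        m ∈ M ⊓ Subgroup.centralizer (D : Set G))))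
    rw [Subgroup.commutator_eq_bot_iff_le_centralizer]
    exact hS.ge.trans inf_le_right
  have hRab : ∀ a ∈ R, ∀ b ∈ R, a * b = b * a := by
    intro a ha b hb
    rw [← commutatorElement_eq_one_iff_mul_comm]
    refine hCMD _ (hdd a ha.1 b hb.1) fun d hd => mul_inv_eq_iff_eq_mul.1 ?_
    rw [conjugate_commutatorElement, conj_eq d a, conj_eq d b]
    have hza := hdd d hd a ha.1
    have hzb := hdd d hd b hb.1
    exact comm_central (hMRc _ hza a ha).symm (hMRc _ hza b hb).symm (hMRc _ hzb a ha).symm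
      (hMRc _ hzb b hb).symm (hab _ hza _ hzb)
  -- class sizes
  have hRM : R ≤ M := by
    intro u hu
    by_contra hu'
    obtain ⟨m₀, hm₀, hm₀1⟩ := (M.bot_or_exists_ne_one).resolve_left h.ne
    have hdvd : ∀ Cu : Subgroup G, Cu = D ⊓ Subgroup.centralizer {u} → Nat.card M = Cu.relIndex D := by
      rintro Cu rfl
      refine Eq.symm (Nat.card_eq_of_bijective
        (Quotient.lift (fun v : D => (⟨⁅(v : G), u⁆, hdd _ v.2 u hu.1⟩ : M)) ?_) ⟨?_, ?_⟩)
      · intro a b hab'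
        have h1 : (a : G)⁻¹ * b * u = u * ((a : G)⁻¹ * b) := Subgroup.mem_centralizer_singleton_iff.1
          (Subgroup.mem_subgroupOf.1 (QuotientGroup.leftRel_apply.1 hab')).2
        refine Subtype.ext ?_
        show ⁅(a : G), u⁆ = ⁅(b : G), u⁆
        rw [show ⁅(b : G), u⁆ = (a : G) * (((a : G)⁻¹ * b) * u) * ((a : G)⁻¹ * b)⁻¹ * (a : G)⁻¹ * u⁻¹
          by simp only [commutatorElement_def]; group, h1]
        simp only [commutatorElement_def]; group
      · rintro ⟨a⟩ ⟨b⟩ e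
        refine Quotient.sound (QuotientGroup.leftRel_apply.2 (Subgroup.mem_subgroupOf.2
          ⟨D.mul_mem (D.inv_mem a.2) b.2, Subgroup.mem_centralizer_singleton_iff.2 ?_⟩))
        have e' : (a : G) * u * (a : G)⁻¹ = (b : G) * u * (b : G)⁻¹ := mul_right_cancel (by
          simpa only [commutatorElement_def] using congrArg Subtype.val e)
        show (a : G)⁻¹ * b * u = u * ((a : G)⁻¹ * b)
        calc (a : G)⁻¹ * b * u = (a : G)⁻¹ * ((b : G) * u * (b : G)⁻¹) * b := by group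
          _ = (a : G)⁻¹ * ((a : G) * u * (a : G)⁻¹) * b := by rw [e']
          _ = u * ((a : G)⁻¹ * b) := by group
      · rintro ⟨m, hm⟩
        obtain ⟨v, hv, rfl⟩ := h.cam u hu.1 hu' m hm
        exact ⟨Quotient.mk _ ⟨v, hv⟩, rfl⟩
    have h1 : Nat.card M ∣ R.relIndex D := by
      rw [hdvd _ rfl]
      refine Subgroup.relIndex_dvd_of_le_left D (le_inf (fun v hv => hv.1) fun v hv => ?_)
      exact Subgroup.mem_centralizer_singleton_iff.2 (hRab v hv u hu)
    -- but the index of `R` is prime to `r`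
    haveI := hRn
    have hcard : Nat.card (D.map (QuotientGroup.mk' R)) = R.relIndex D := by
      rw [← Subgroup.relIndex_ker, QuotientGroup.ker_mk']
    obtain ⟨⟨_, v, hv, rfl⟩, hvr⟩ := exists_prime_orderOf_dvd_card'
      (G := D.map (QuotientGroup.mk' R)) r (hcard.symm ▸ hrM.trans h1)
    replace hvr : orderOf (QuotientGroup.mk' R v) = r := (Subgroup.orderOf_coe _).trans hvr
    have hvR : v ^ r ∈ R := by
      rw [← QuotientGroup.eq_one_iff, QuotientGroup.mk_pow, ← hvr]; exact pow_orderOf_eq_one _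
    obtain ⟨-, j, hj⟩ := hvR
    refine hr.ne_one ?_
    rw [← hvr, QuotientGroup.mk'_apply,
      (QuotientGroup.eq_one_iff v).2 (⟨hv, j + 1, by rw [pow_succ', pow_mul, ← map_pow]; exact hj⟩ :
        v ∈ R), orderOf_one]
  -- a complement
  haveI : (M.subgroupOf D).Normal := hMn.subgroupOf D
  have hco : (Nat.card (M.subgroupOf D)).Coprime (M.subgroupOf D).index := by
    rw [Nat.card_congr (Subgroup.subgroupOfEquivOfLe hMD).toEquiv]
    have hp : IsPGroup r M := hRp.to_le hMR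
    obtain ⟨w, hw⟩ := IsPGroup.iff_card.1 hp
    rw [hw]
    refine (hr.coprime_iff_not_dvd.2 fun hd => ?_).pow_left w
    have hcard : Nat.card (D.map π) = M.relIndex D := by
      rw [← Subgroup.relIndex_ker, QuotientGroup.ker_mk']
    obtain ⟨⟨_, v, hv, rfl⟩, hvr⟩ := exists_prime_orderOf_dvd_card' (G := D.map π) r (hcard.symm ▸ hd)
    replace hvr : orderOf (π v) = r := (Subgroup.orderOf_coe _).trans hvr
    refine hr.ne_one ?_
    rw [← hvr, hπ, QuotientGroup.mk'_apply, (QuotientGroup.eq_one_iff v).2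
      (hRM ⟨hv, 1, by rw [pow_one, ← hvr]; exact pow_orderOf_eq_one _⟩), orderOf_one]
  obtain ⟨V₀, hV₀⟩ := Subgroup.exists_right_complement'_of_coprime hco
  set V := V₀.map D.subtype with hV
  have hVD : V ≤ D := Subgroup.map_subtype_le V₀
  have hVM : ∀ v ∈ V, v ∈ M → v = 1 := by
    rintro _ ⟨v, hv, rfl⟩ hvM
    have : v = 1 := Subgroup.disjoint_def.1 hV₀.disjoint hvM hv
    rw [this]; rfl
  have hcov : ∀ d ∈ D, ∃ m ∈ M, ∃ v ∈ V, d = m * v := fun d hd => by
    obtain ⟨⟨m, v⟩, he⟩ := hV₀.2 ⟨d, hd⟩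
    exact ⟨_, m.2, _, ⟨v, v.2, rfl⟩, (congrArg Subtype.val he).symm⟩
  have hVab : ∀ a ∈ V, ∀ b ∈ V, a * b = b * a := fun a ha b hb =>
    commutatorElement_eq_one_iff_mul_comm.1 (hVM _
      (by rw [commutatorElement_def]; exact V.mul_mem (V.mul_mem (V.mul_mem ha hb) (V.inv_mem ha)) (V.inv_mem hb))
      (hdd a (hVD ha) b (hVD hb)))
  -- fixed point free on `M`
  have hfpf : ∀ v ∈ V, v ≠ 1 → ∀ m ∈ M, v * m = m * v → m = 1 := by
    intro v hv hv1 m hm hvm
    let F : M → M := fun z => ⟨⁅(z : G), v⁆, hdd _ (hMD z.2) v (hVD hv)⟩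
    have hs : Function.Surjective F := by
      rintro ⟨z, hz⟩
      obtain ⟨y, hy, hye⟩ := h.cam v (hVD hv) (fun h' => hv1 (hVM v hv h')) z hz
      obtain ⟨m', hm', v', hv', rfl⟩ := hcov y hy
      refine ⟨⟨m', hm'⟩, Subtype.ext ?_⟩
      show ⁅m', v⁆ = z
      rw [← hye, comm_mul_left, commutatorElement_eq_one_iff_mul_comm.2 (hVab v' hv' v hv)]
      simp
    have hi := (Finite.injective_iff_surjective.2 hs) (a₁ := ⟨m, hm⟩) (a₂ := 1) (Subtype.ext (by
      show ⁅m, v⁆ = ⁅((1 : M) : G), v⁆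
      rw [commutatorElement_eq_one_iff_mul_comm.2 hvm.symm, Subgroup.coe_one]
      simp))
    exact congrArg Subtype.val hi
  -- hence cyclic
  letI : CommGroup M := { mul_comm := fun a b => Subtype.ext (hab a a.2 b b.2) }
  letI : CommGroup V := { mul_comm := fun a b => Subtype.ext (hVab a a.2 b b.2) }
  have hcyc : IsCyclic V := by
    refine isCyclic_of_few fun p hp => ?_
    by_contra hgt
    push Not at hgt
    haveI := Fact.mk hp
    obtain ⟨m₀, hm₀, hm₀1⟩ := (M.bot_or_exists_ne_one).resolve_left h.ne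
    set S := (powMonoidHom p : V →* V).ker with hS
    obtain ⟨x, hx⟩ : ∃ x : S, x ≠ 1 := by
      haveI : Nontrivial S := Finite.one_lt_card_iff_nontrivial.1 (hp.one_lt.trans hgt)
      exact exists_ne 1
    have hx' : (x : V) ^ p = 1 := x.2
    have hx1 : (x : V) ≠ 1 := fun e => hx (Subtype.ext e)
    have hpr : p.Coprime r := by
      refine (Nat.coprime_primes hp hr).2 fun e => ?_
      subst e
      refine hx1 (Subtype.ext (hVM _ (x : V).2 (hRM ⟨hVD (x : V).2, 1, ?_⟩)))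
      rw [pow_one, ← map_pow,
        show ((x : V) : G) ^ p = 1 from congrArg Subtype.val hx', map_one]
    have hle : S ≤ Subgroup.zpowers (x : V) := fun y hy =>
      mem_zpowers_of_fpf ((MulAut.conjNormal (H := M)).comp V.subtype) hpr
        (fun m => Subtype.ext (hexp m m.2)) ⟨m₀, hm₀⟩ (fun e => hm₀1 (congrArg Subtype.val e))
        (fun v hv m he => Subtype.ext (hfpf v v.2 (fun e => hv (Subtype.ext e)) m m.2
          (mul_inv_eq_iff_eq_mul.1 (congrArg Subtype.val he))))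
        hx' hy hx1
    have h1 := Subgroup.card_le_of_le hle
    rw [Nat.card_zpowers] at h1
    have h2 := Nat.le_of_dvd hp.pos (orderOf_dvd_of_pow_eq_one hx')
    omega
  obtain ⟨v₀, hv₀⟩ := hcyc.exists_generator
  obtain ⟨g, n, hn, hgn⟩ := h.moved
  set w := π (v₀ : G) with hw
  have hgen : ∀ d ∈ D, ∃ i : ℤ, π d = w ^ i := fun d hd => by
    obtain ⟨m, hm, v, hv, rfl⟩ := hcov d hd
    obtain ⟨i, hi⟩ := Subgroup.mem_zpowers_iff.1 (hv₀ ⟨v, hv⟩)
    refine ⟨i, ?_⟩
    rw [map_mul, show π m = 1 from (QuotientGroup.eq_one_iff _).2 hm, one_mul, hw, ← map_zpow]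
    exact congrArg π (congrArg Subtype.val hi).symm
  have hconjw : ∀ a : G, ∃ i : ℤ, π a * w * (π a)⁻¹ = w ^ i := fun a => by
    obtain ⟨i, hi⟩ := hgen _ (hDn.conj_mem _ (hVD v₀.2) a)
    exact ⟨i, by rw [← hi, map_mul, map_mul, map_inv]⟩
  obtain ⟨i, hi⟩ := hconjw g⁻¹
  obtain ⟨j, hj⟩ := hconjw n⁻¹
  rw [map_inv, inv_inv] at hi hj
  have hcomm : (π g)⁻¹ * (π n)⁻¹ * w * π n * π g = (π n)⁻¹ * (π g)⁻¹ * w * π g * π n := by
    have e : ∀ (a : G ⧸ M) (k : ℤ), a⁻¹ * w ^ k * a = (a⁻¹ * w * a) ^ k := fun a k => by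
      have := (conj_zpow (a := a⁻¹) (b := w) (i := k)).symm
      rwa [inv_inv] at this
    calc (π g)⁻¹ * (π n)⁻¹ * w * π n * π g = (π g)⁻¹ * ((π n)⁻¹ * w * π n) * π g := by group
      _ = w ^ (i * j) := by rw [hj, e, hi, ← zpow_mul]
      _ = (π n)⁻¹ * ((π g)⁻¹ * w * π g) * π n := by rw [hi, e, hj, ← zpow_mul, mul_comm]
      _ = _ := by group
  have hcM : ⁅⁅g, n⁆, (v₀ : G)⁆ ∈ M := by
    rw [← QuotientGroup.eq_one_iff, ← QuotientGroup.mk'_apply, map_commutatorElement,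
      map_commutatorElement, commutatorElement_eq_one_iff_mul_comm]
    change ⁅π g, π n⁆ * w = w * ⁅π g, π n⁆
    calc ⁅π g, π n⁆ * w
        = π g * π n * ((π g)⁻¹ * (π n)⁻¹ * w * π n * π g) * (π g)⁻¹ * (π n)⁻¹ := by
          simp only [commutatorElement_def]; group
      _ = w * ⁅π g, π n⁆ := by
          rw [hcomm]
          simp only [commutatorElement_def]; group
  have hcN : ⁅g, n⁆ ∈ N := by
    rw [commutatorElement_def]
    exact N.mul_mem (Subgroup.Normal.conj_mem inferInstance _ hn g) (N.inv_mem hn)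
  have hv₀M := h.semi _ hcN hgn _ (hVD v₀.2) hcM
  -- then `D = M`
  have hne : D ≠ ⊥ := fun e => h.ne (by rw [e, Subgroup.commutator_bot_left])
  refine commutator_ne_self D hne (le_antisymm hMD fun d hd => ?_)
  obtain ⟨k, hk⟩ := hgen d hd
  rw [show w = 1 from (QuotientGroup.eq_one_iff _).2 hv₀M, one_zpow] at hk
  exact (QuotientGroup.eq_one_iff _).1 hk

/-- The derived subgroup of `N` is abelian. -/
theorem group_part {N D A C : Subgroup G} {f : ℕ} (h : Cond N D A C f)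
    (hsolv : Group.IsSolvable D) : False := by
  classical
  haveI := h.nD
  haveI := hsolv
  have hMD : ⁅D, D⁆ ≤ D := Subgroup.commutator_le_self D
  have hsolv' : ∀ L : Subgroup G, ∀ [L.Normal], Group.IsSolvable (D.map (QuotientGroup.mk' L)) :=
    fun L _ => Group.isSolvable_of_surjective
      (MonoidHom.subgroupMap_surjective (QuotientGroup.mk' L) D)
  by_cases hlt : ⁅⁅D, D⁆, D⁆ = ⁅D, D⁆
  · obtain ⟨L, ⟨hLn, hLM, hLne⟩, hLmax⟩ := Set.exists_max_image
      {S : Subgroup G | S.Normal ∧ S ≤ ⁅D, D⁆ ∧ S ≠ ⁅D, D⁆} (fun S => Nat.card S) (Set.toFinite _)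
      ⟨⊥, inferInstance, bot_le, fun e => h.ne e.symm⟩
    haveI := hLn
    refine minimal_case (h.map L hLM hLne) (hsolv' L) ?_ ?_
    · intro S hS hle hne
      haveI := hS
      set π := QuotientGroup.mk' L
      rw [← Subgroup.map_commutator] at hle ⊢
      have hπs : Function.Surjective π := QuotientGroup.mk'_surjective L
      by_contra hne'
      have hle' : S.comap π ≤ ⁅D, D⁆ := by
        refine (Subgroup.comap_mono hle).trans (le_of_eq (Subgroup.comap_map_eq_self ?_))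
        rw [QuotientGroup.ker_mk']; exact hLM
      have h1 := hLmax (S.comap π) ⟨inferInstance, hle', fun e => hne' (by
        rw [← Subgroup.map_comap_eq_self_of_surjective hπs S, e])⟩
      have hL : L ≤ S.comap π := (QuotientGroup.ker_mk' L).symm.le.trans (Subgroup.ker_le_comap π S)
      refine hne ?_
      rw [← Subgroup.map_comap_eq_self_of_surjective hπs S, ← Subgroup.eq_of_le_of_card_ge hL h1,
        QuotientGroup.map_mk'_self]
    · rw [← Subgroup.map_commutator, ← Subgroup.map_commutator, hlt, Ne, Subgroup.map_eq_bot_iff,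
        QuotientGroup.ker_mk']
      exact fun e => hLne (le_antisymm hLM e)
  · have hle : ⁅⁅D, D⁆, D⁆ ≤ ⁅D, D⁆ := Subgroup.commutator_mono hMD le_rfl
    refine central_case (h.map _ hle hlt) (hsolv' _) ?_
    rw [← Subgroup.map_commutator]
    rintro _ ⟨m, hm, rfl⟩ _ ⟨d, hd, rfl⟩
    rw [← commutatorElement_eq_one_iff_mul_comm, ← map_commutatorElement]
    exact (QuotientGroup.eq_one_iff _).2 (Subgroup.commutator_mem_commutator hm hd)

end Cfsg.Agent.Chars.NoDiv
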