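import Cfsg.Agent.Chars.TwoDegrees
import Cfsg.Agent.Chars.AbelianIndexBound
import Cfsg.Agent.S0887

/-!
Groups in which no nonlinear irreducible degree properly divides another and a prime divides all
of them.
-/

set_option autoImplicit false
set_option linter.style.haveILetI false
set_option linter.unusedSectionVars false

open Cfsg Cfsg.Agent
open scoped ComplexConjugate commutatorElement

namespace Cfsg.Agent.Chars.NoDiv

universe u

variable {H : Type u} [Group H] [Fintype H]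

noncomputable local instance (priority := high) fintypeOfSub (S : Subgroup H) : Fintype S :=
  Fintype.ofFinite _

/-- No nonlinear degree properly divides a degree. -/
def ND (H : Type u) [Group H] : Prop :=
  ∀ θ θ' : IrrCharacter H, charDegree (θ : H → ℂ) ≠ 1 →
    charDegree (θ : H → ℂ) ∣ charDegree (θ' : H → ℂ) →
      charDegree (θ : H → ℂ) = charDegree (θ' : H → ℂ)

theorem deg_at_one (χ : IrrCharacter H) : (χ : H → ℂ) 1 = (charDegree (χ : H → ℂ) : ℂ) :=
  (Blocks.charDegree_eq χ.2).1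

theorem deg_eq_of_one {χ : H → ℂ} (hχ : IsIrrCharacter H χ) {d : ℕ} (h : χ 1 = d) :
    charDegree χ = d := by
  exact_mod_cast (Blocks.charDegree_eq hχ).1.symm.trans h

/-- The orbit formula for a constituent. -/
theorem exists_under (M : Subgroup H) [M.Normal] (χ : IrrCharacter H) :
    ∃ θ : IrrCharacter M, classInner (fun x : M => (χ : H → ℂ) x) (θ : M → ℂ) ≠ 0 ∧
      ∃ m, charDegree (χ : H → ℂ) =
        (Chars2.inertiaSub (θ : M → ℂ)).index * m * charDegree (θ : M → ℂ) := by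
  classical
  obtain ⟨c, hc⟩ := Chars2.exists_multiplicities (isCharacter_restrict (irr_isCharacter χ) M)
  obtain ⟨θ, hθ⟩ : ∃ θ, c θ ≠ 0 := by
    by_contra hall
    push Not at hall
    have h := Chars2.apply_eq_sum (isClassFunction_of_isCharacter
      (isCharacter_restrict (irr_isCharacter χ) M)) 1
    simp only [hc, hall, Nat.cast_zero, zero_mul, Finset.sum_const_zero] at h
    exact irr_apply_one_ne_zero χ.2 h
  have hne : classInner (fun x : M => (χ : H → ℂ) x) (θ : M → ℂ) ≠ 0 := by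
    rw [hc]; exact_mod_cast hθ
  refine ⟨θ, hne, c θ, ?_⟩
  have h := Chars2.clifford_degree χ.2 θ.2 hne
  rw [hc, deg_at_one, (Blocks.charDegree_eq θ.2).1] at h
  exact_mod_cast h

/-- Above every character of a normal subgroup. -/
theorem exists_above (M : Subgroup H) [M.Normal] (θ : IrrCharacter M) :
    ∃ (χ : IrrCharacter H) (m : ℕ), charDegree (χ : H → ℂ) =
      (Chars2.inertiaSub (θ : M → ℂ)).index * m * charDegree (θ : M → ℂ) := by
  obtain ⟨χ, hχ, -⟩ := AbelianBound.exists_over (G := H) θ.2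
  obtain ⟨m, hm⟩ := exists_classInner_eq_nat (isCharacter_restrict (irr_isCharacter χ) M)
    (irr_isCharacter θ)
  refine ⟨χ, m, ?_⟩
  have h := Chars2.clifford_degree χ.2 θ.2 hχ
  rw [hm, deg_at_one, (Blocks.charDegree_eq θ.2).1] at h
  exact_mod_cast h

theorem cancel_unit {a b : ℂˣ} {x y : ℂ} (h : (a : ℂ) * x = (b : ℂ) * y) :
    x = ((a⁻¹ * b : ℂˣ) : ℂ) * y := by
  rw [Units.val_mul, mul_assoc, ← h, ← mul_assoc, Units.inv_mul, one_mul]

theorem mem_inertia {M : Subgroup H} [hM : M.Normal] {ψ : M → ℂ} {g : H} :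
    g ∈ Chars2.inertiaSub ψ ↔ ∀ d : M, ψ ⟨g * d * g⁻¹, hM.conj_mem d d.2 g⟩ = ψ d := by
  rw [show g ∈ Chars2.inertiaSub ψ ↔ g⁻¹ ∈ Chars2.inertiaSub ψ from
    ((Chars2.inertiaSub ψ).inv_mem_iff).symm, Chars2.mem_inertiaSub, funext_iff]
  refine forall_congr' fun n => ?_
  rw [Chars2.conjFun_apply]
  simp only [inv_inv]

/-- A degree is at most the index of an abelian subgroup. -/
theorem deg_le_index (χ : IrrCharacter H) (A : Subgroup H)
    (hA : ∀ a ∈ A, ∀ b ∈ A, a * b = b * a) : charDegree (χ : H → ℂ) ≤ A.index := by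
  classical
  obtain ⟨c, hc⟩ := Chars2.exists_multiplicities (isCharacter_restrict (irr_isCharacter χ) A)
  obtain ⟨θ, hθ⟩ : ∃ θ, c θ ≠ 0 := by
    by_contra hall
    push Not at hall
    have h := Chars2.apply_eq_sum (isClassFunction_of_isCharacter
      (isCharacter_restrict (irr_isCharacter χ) A)) 1
    simp only [hc, hall, Nat.cast_zero, zero_mul, Finset.sum_const_zero] at h
    exact irr_apply_one_ne_zero χ.2 h
  have h1 : (θ : A → ℂ) 1 = 1 :=
    irr_apply_one_of_comm (fun a b => Subtype.ext (hA _ a.2 _ b.2)) θ.2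
  refine (AbelianBound.degree_le_of_inner (a := A.index) (isCharacter_indFun A (irr_isCharacter θ)) χ.2 ?_ ?_
    (deg_at_one χ)).1
  · rw [classInner_indFun A _ (isClassFunction_irr χ), ← classInner_conj_symm, hc, map_natCast]
    exact_mod_cast hθ
  · rw [indFun_apply_one, h1, mul_one]

theorem induced_degree {M T : Subgroup H} [M.Normal] (hMT : M ≤ T) {ψ : M → ℂ}
    (hψ : IsIrrCharacter M ψ) (hT : T = Chars2.inertiaSub ψ) {η : T → ℂ} (hη : IsIrrCharacter T η)
    {c : ℕ} (hc : c ≠ 0) (hres : ∀ n : M, η ⟨(n : H), hMT n.2⟩ = (c : ℂ) * ψ n) {e : ℕ}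
    (he : η 1 = e) : ∃ χ : IrrCharacter H, charDegree (χ : H → ℂ) = T.index * e := by
  have hirr := Chars2.isIrr_indFun_of_inertia hMT hψ hT hη (by
    rw [show Chars2.resSub M T hMT η = (c : ℂ) • ψ from funext fun n => hres n,
      classInner_smul_left, classInner_self_irr hψ, mul_one]
    exact_mod_cast hc)
  refine ⟨⟨_, hirr⟩, deg_eq_of_one hirr ?_⟩
  rw [indFun_apply_one, he, Nat.cast_mul]

/-- The case of a nonabelian quotient of prime power order. -/
theorem all_equal_of_nonabelian (hnd : ND H) {q : ℕ} (hq : q.Prime)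
    (hqd : ∀ θ : IrrCharacter H, charDegree (θ : H → ℂ) ≠ 1 → q ∣ charDegree (θ : H → ℂ))
    (R : Subgroup H) [R.Normal] (hR : (Nat.card R).Coprime q) {k : ℕ} (hk : R.index = q ^ k)
    (hna : ¬ commutator H ≤ R) :
    ∃ Q, ∀ θ : IrrCharacter H, charDegree (θ : H → ℂ) ≠ 1 → charDegree (θ : H → ℂ) = Q := by
  classical
  haveI : Fintype (H ⧸ R) := Fintype.ofFinite _
  obtain ⟨θ₀, hθ₀⟩ : ∃ θ : IrrCharacter (H ⧸ R), charDegree (θ : H ⧸ R → ℂ) ≠ 1 := by
    by_contra hall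
    push Not at hall
    refine hna ?_
    rw [commutator_def, Subgroup.commutator_le]
    intro a _ b _
    rw [← QuotientGroup.eq_one_iff, ← QuotientGroup.mk'_apply, map_commutatorElement,
      commutatorElement_eq_one_iff_mul_comm]
    exact Chars2.comm_of_degree_one hall _ _
  obtain ⟨χ₀, hχ₀⟩ := Chars2.exists_degree_eq_of_surjective (QuotientGroup.mk' R)
    (QuotientGroup.mk'_surjective R) θ₀
  set Q := charDegree (θ₀ : H ⧸ R → ℂ) with hQdef
  obtain ⟨e, -, he⟩ : ∃ e ≤ k, Q = q ^ e := by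
    obtain ⟨d, -, hd, hdd⟩ := irr_degree_dvd_card θ₀.2
    rw [deg_at_one] at hd
    refine (Nat.dvd_prime_pow hq).1 ?_
    rw [← hk, Subgroup.index_eq_card, hQdef, show charDegree (θ₀ : H ⧸ R → ℂ) = d by exact_mod_cast hd]
    exact hdd
  refine ⟨Q, fun θ hθ => ?_⟩
  suffices hdvd : Q ∣ charDegree (θ : H → ℂ) by
    exact ((hnd χ₀ θ (by rw [hχ₀]; exact hθ₀) (hχ₀ ▸ hdvd)).symm.trans hχ₀)
  -- comparing powers of `q`
  have hpow : ∀ {a : ℕ}, (∃ j, a = q ^ j) → Q ≤ a → Q ∣ a := by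
    rintro a ⟨j, rfl⟩ hle
    rw [he] at hle ⊢
    exact pow_dvd_pow q ((Nat.pow_le_pow_iff_right hq.one_lt).1 hle)
  obtain ⟨ψ, hψ, m, hm⟩ := exists_under R θ
  set T := Chars2.inertiaSub (ψ : R → ℂ) with hT
  have hRT : R ≤ T := Chars2.le_inertiaSub (isClassFunction_irr ψ)
  have hψq : ¬ q ∣ charDegree (ψ : R → ℂ) := fun h => by
    obtain ⟨d, -, hd, hdd⟩ := irr_degree_dvd_card ψ.2
    rw [(Blocks.charDegree_eq ψ.2).1] at hd
    exact hq.not_dvd_one (hR ▸ Nat.dvd_gcd (h.trans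
      ((show charDegree (ψ : R → ℂ) = d by exact_mod_cast hd) ▸ hdd)) dvd_rfl)
  obtain ⟨j, -, hj⟩ : ∃ j ≤ k, T.index = q ^ j :=
    (Nat.dvd_prime_pow hq).1 (hk ▸ Subgroup.index_dvd_of_le hRT)
  -- the extension to the inertia group
  let ι := Subgroup.subgroupOfEquivOfLe hRT
  haveI : (R.subgroupOf T).Normal := Subgroup.Normal.subgroupOf inferInstance T
  have hψ' : IsIrrCharacter (R.subgroupOf T) ((ψ : R → ℂ) ∘ ι) := isIrrCharacter_comp_equiv ψ.2 ι
  have hinv : Chars2.inertiaSub ((ψ : R → ℂ) ∘ ι) = ⊤ := by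
    refine Chars2.inertiaSub_eq_top fun t x => ?_
    refine Eq.trans ?_ (mem_inertia.1 t.2 (ι x))
    show (ψ : R → ℂ) _ = _
    congr 1
  have hcop : (Nat.card (R.subgroupOf T)).Coprime (R.subgroupOf T).index := by
    rw [Nat.card_congr ι.toEquiv]
    exact (hk ▸ hR.pow_right k).coprime_dvd_right ⟨T.index, (Subgroup.relIndex_mul_index hRT).symm⟩
  obtain ⟨η, hη, hext⟩ := extends_of_coprime (R.subgroupOf T) hcop hψ' hinv
  have hη1 : η 1 = (charDegree (ψ : R → ℂ) : ℂ) := by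
    have := hext 1
    rw [Subgroup.coe_one] at this
    rw [this, Function.comp_apply, map_one]
    exact (Blocks.charDegree_eq ψ.2).1
  have hηres : ∀ n : R, η ⟨(n : H), hRT n.2⟩ = (ψ : R → ℂ) n := fun n =>
    hext ⟨⟨(n : H), hRT n.2⟩, n.2⟩
  obtain ⟨χ₁, hχ₁⟩ := induced_degree hRT ψ.2 hT hη one_ne_zero
    (fun n => by rw [hηres, Nat.cast_one, one_mul]) hη1
  by_cases htop : T = ⊤
  · -- `ψ` is linear
    have hψ1 : charDegree (ψ : R → ℂ) = 1 := by
      by_contra h1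
      rw [htop, Subgroup.index_top, one_mul] at hχ₁
      exact hψq (hχ₁ ▸ hqd χ₁ (by rw [hχ₁]; exact h1))
    obtain ⟨⟨t, ht⟩, hi⟩ := S0887.result R _ θ.2 _ ψ.2 hψ _ _ (deg_at_one θ)
      (Blocks.charDegree_eq ψ.2).1
    rw [hψ1, one_mul] at ht
    rw [hψ1, Nat.div_one] at hi
    obtain ⟨i, -, hi'⟩ := (Nat.dvd_prime_pow hq).1 (hk ▸ hi)
    rcases le_total Q (charDegree (θ : H → ℂ)) with hle | hle
    · exact hpow ⟨i, hi'⟩ hle
    · rw [he, hi'] at hle ⊢
      have h2 := hnd θ χ₀ hθ (by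
        rw [hχ₀, he, hi']
        exact pow_dvd_pow q ((Nat.pow_le_pow_iff_right hq.one_lt).1 hle))
      rw [hχ₀, he, hi'] at h2
      exact h2 ▸ dvd_rfl
  · have hidx : T.index ≠ 1 := fun h => htop (Subgroup.index_eq_one.1 h)
    have ha : charDegree (χ₁ : H → ℂ) ≠ 1 := by
      rw [hχ₁]; exact fun h => hidx (Nat.eq_one_of_mul_eq_one_right h)
    -- the section over `R` is abelian
    have hab : ∀ a b : T, ⁅a, b⁆ ∈ R.subgroupOf T := by
      by_contra hno
      push Not at hno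
      obtain ⟨a, b, hab⟩ := hno
      haveI : Fintype (T ⧸ R.subgroupOf T) := Fintype.ofFinite _
      obtain ⟨β, hβ⟩ : ∃ β : IrrCharacter (T ⧸ R.subgroupOf T),
          charDegree (β : T ⧸ R.subgroupOf T → ℂ) ≠ 1 := by
        by_contra hall
        push Not at hall
        refine hab ?_
        rw [← QuotientGroup.eq_one_iff, ← QuotientGroup.mk'_apply, map_commutatorElement,
          commutatorElement_eq_one_iff_mul_comm]
        exact Chars2.comm_of_degree_one hall _ _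
      set π := QuotientGroup.mk' (R.subgroupOf T)
      have hβi : IsIrrCharacter T ((β : _ → ℂ) ∘ π) :=
        isIrrCharacter_comp_surjective β.2 π (QuotientGroup.mk'_surjective _)
      set b' := charDegree (β : T ⧸ R.subgroupOf T → ℂ) with hb'
      have hb1 : (β : T ⧸ R.subgroupOf T → ℂ) 1 = (b' : ℂ) := (Blocks.charDegree_eq β.2).1
      have hg := (Chars2.gallagher (N := R.subgroupOf T) (φ := 1) isIrrCharacter_one
        (Chars2.inertiaSub_eq_top fun g n => rfl) hinv (by rw [one_mul]; exact hψ') hη hext).mapsTo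
        (show ((β : _ → ℂ) ∘ π) ∈ {γ : T → ℂ | IsIrrCharacter T γ ∧
          classInner (indFun (R.subgroupOf T) (1 : R.subgroupOf T → ℂ)) γ ≠ 0} from ⟨hβi, by
          rw [classInner_indFun (R.subgroupOf T) _ (isClassFunction_of_isCharacter
            (isCharacter_of_isIrr hβi))]
          rw [show (fun x : R.subgroupOf T => ((β : _ → ℂ) ∘ π) x) =
              (b' : ℂ) • (1 : R.subgroupOf T → ℂ) from funext fun x => by
            rw [Function.comp_apply, show π x = 1 from (QuotientGroup.eq_one_iff _).2 x.2, hb1]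
            simp]
          rw [classInner_smul_right, show classInner (1 : R.subgroupOf T → ℂ) 1 = 1 from
            classInner_self_irr isIrrCharacter_one]
          simp only [map_natCast, mul_one, ne_eq, Nat.cast_eq_zero]
          exact (Blocks.charDegree_eq β.2).2.ne'⟩)
      obtain ⟨χ₂, hχ₂⟩ := induced_degree hRT ψ.2 hT hg.1 (c := b')
        (e := b' * charDegree (ψ : R → ℂ)) (Blocks.charDegree_eq β.2).2.ne'
        (fun n => by
          show (β : _ → ℂ) (π ⟨(n : H), hRT n.2⟩) * η ⟨(n : H), hRT n.2⟩ = _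
          rw [show π ⟨(n : H), hRT n.2⟩ = 1 from (QuotientGroup.eq_one_iff _).2
            (Subgroup.mem_subgroupOf.2 n.2), hb1, hηres])
        (by
          show (β : _ → ℂ) (π 1) * η 1 = _
          rw [map_one, hb1, hη1, Nat.cast_mul])
      have h2 := hnd χ₁ χ₂ ha (by rw [hχ₁, hχ₂]; exact Dvd.intro b' (by ring))
      rw [hχ₁, hχ₂] at h2
      have h3 : 1 * charDegree (ψ : R → ℂ) = b' * charDegree (ψ : R → ℂ) := by
        rw [one_mul]
        exact Nat.eq_of_mul_eq_mul_left (Nat.pos_of_ne_zero Subgroup.index_ne_zero_of_finite) h2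
      exact hβ (Nat.eq_of_mul_eq_mul_right (Blocks.charDegree_eq ψ.2).2 h3).symm
    have hQle : Q ≤ T.index := by
      refine (deg_le_index θ₀ (T.map (QuotientGroup.mk' R)) ?_).trans (le_of_eq ?_)
      · rintro _ ⟨a, ha, rfl⟩ _ ⟨b, hb, rfl⟩
        rw [← commutatorElement_eq_one_iff_mul_comm, ← map_commutatorElement]
        exact (QuotientGroup.eq_one_iff _).2 (hab ⟨a, ha⟩ ⟨b, hb⟩)
      · rw [Subgroup.index_map, QuotientGroup.ker_mk', sup_eq_left.2 hRT,
          MonoidHom.range_eq_top.2 (QuotientGroup.mk'_surjective R), Subgroup.index_top, mul_one]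
    rw [hm]
    exact ((hpow ⟨j, hj⟩ hQle).mul_right m).mul_right _

/-- Vanishing of the nonlinear characters gives the size of the centralizer. -/
theorem cent_of_vanish {n : H}
    (hv : ∀ χ : IrrCharacter H, charDegree (χ : H → ℂ) ≠ 1 → (χ : H → ℂ) n = 0) :
    Nat.card (Subgroup.centralizer ({n} : Set H)) * Nat.card (commutator H) = Nat.card H := by
  classical
  have h := column_orth n n
  rw [if_pos (IsConj.refl n), ← Finset.sum_filter_add_sum_filter_not Finset.univ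
    (fun χ : IrrCharacter H => (χ : H → ℂ) 1 = 1), Finset.sum_eq_zero (s := Finset.univ.filter
      (fun χ : IrrCharacter H => ¬ (χ : H → ℂ) 1 = 1)) fun χ hχ => ?_, add_zero,
    Finset.sum_congr rfl (g := fun _ => (1 : ℂ)) fun χ hχ => ?_, Finset.sum_const, nsmul_eq_mul,
    mul_one] at h
  · have h2 : (Finset.univ.filter fun χ : IrrCharacter H => (χ : H → ℂ) 1 = 1).card =
        (commutator H).index := by
      rw [← card_linear, Nat.card_eq_fintype_card, Fintype.card_subtype]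
    rw [h2] at h
    rw [← (show (commutator H).index = Nat.card (Subgroup.centralizer ({n} : Set H)) by
      exact_mod_cast h), mul_comm, Subgroup.card_mul_index]
  · obtain ⟨φ, hφ⟩ := exists_hom_of_degree_one (irr_isCharacter χ) (Finset.mem_filter.1 hχ).2
    rw [hφ]
    show (φ n : ℂ) * conj (φ n : ℂ) = 1
    rw [Complex.mul_conj', Complex.norm_eq_one_of_pow_eq_one (by
      rw [← Units.val_pow_eq_pow_val, ← map_pow, pow_orderOf_eq_one, map_one, Units.val_one])
      (orderOf_pos n).ne']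
    simp
  · rw [hv χ (fun e => (Finset.mem_filter.1 hχ).2 (by rw [deg_at_one, e, Nat.cast_one])), zero_mul]

/-- The twist of a linear character by a conjugation. -/
noncomputable def tw {D : Subgroup H} [D.Normal] (lam : D →* ℂˣ) (n : H) : D →* ℂˣ :=
  lam.comp (MulAut.conjNormal n).toMonoidHom * lam⁻¹

theorem tw_apply {D : Subgroup H} [hD : D.Normal] (lam : D →* ℂˣ) (n : H) (d : D) :
    tw lam n d = lam ⟨n * d * n⁻¹, hD.conj_mem d d.2 n⟩ * (lam d)⁻¹ := by
  rw [tw, MonoidHom.mul_apply, MonoidHom.inv_apply, MonoidHom.comp_apply,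
    MulEquiv.coe_toMonoidHom]
  congr 2

theorem tw_eq_one {D : Subgroup H} [D.Normal] {lam : D →* ℂˣ} {n : H} :
    tw lam n = 1 ↔ n ∈ TwoDeg.stab D lam := by
  rw [TwoDeg.mem_stab, MonoidHom.ext_iff]
  exact forall_congr' fun d => by rw [tw_apply, MonoidHom.one_apply, mul_inv_eq_one]

theorem hom_kill {D : Subgroup H} (lam : D →* ℂˣ) {u : D} (hu : (u : H) ∈ ⁅D, D⁆) : lam u = 1 := by
  rw [← Subgroup.map_subtype_commutator] at hu
  obtain ⟨v, hv, he⟩ := hu
  rw [← Subtype.ext he]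
  exact TwoDeg.hom_apply_commutator lam hv

theorem mem_of_forall_hom {D : Subgroup H} {u : D} (h : ∀ lam : D →* ℂˣ, lam u = 1) :
    (u : H) ∈ ⁅D, D⁆ := by
  rw [← Subgroup.map_subtype_commutator]
  refine ⟨u, ?_, rfl⟩
  haveI : Finite (Abelianization D) := Finite.of_surjective _ QuotientGroup.mk_surjective
  have h1 : Abelianization.of u = 1 :=
    TwoDeg.eq_one_of_forall_hom (fun a b => mul_comm a b) fun φ => h (φ.comp Abelianization.of)
  exact Abelianization.ker_of D ▸ h1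

/-- What the derived subgroup of `H` looks like. -/
structure Shape (H : Type u) [Group H] (D A C : Subgroup H) : Prop where
  DC : D ≤ C
  deg : ∃ χ : IrrCharacter H, charDegree (χ : H → ℂ) = C.index
  CD : ∀ c ∈ C, ∀ d ∈ D, ⁅c, d⁆ ∈ ⁅D, D⁆
  semi : ∀ n : H, n ∉ C → ∀ u ∈ D, ⁅n, u⁆ ∈ ⁅D, D⁆ → u ∈ ⁅D, D⁆
  out : ∀ a ∈ A, (∀ d ∈ D, a * d = d * a → d = 1) → a ∉ C
  abel : ⁅D, D⁆ = ⊥ →
    ∀ θ : IrrCharacter H, charDegree (θ : H → ℂ) ≠ 1 → charDegree (θ : H → ℂ) = C.index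
  cam : ⁅D, D⁆ ≠ ⊥ → ∀ u ∈ D, u ∉ ⁅D, D⁆ → ∀ m ∈ ⁅D, D⁆, ∃ v ∈ D, ⁅v, u⁆ = m

theorem exists_shape [Group.IsSolvable H] (hnd : ND H) (A : Subgroup H)
    (hcov : ∀ h : H, ∃ d ∈ commutator H, ∃ a ∈ A, h = d * a)
    (hdisj : ∀ d ∈ commutator H, d ∈ A → d = 1) (hne : commutator H ≠ ⊥)
    (x : H) (hfix : ∀ d ∈ commutator H, x * d = d * x → d = 1) :
    ∃ C : Subgroup H, Shape H (commutator H) A C := by
  classical
  set D := commutator H with hDdef
  haveI hDn : D.Normal := inferInstanceAs (commutator H).Normal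
  haveI : Finite (D →* ℂˣ) := Finite.of_equiv _ (homEquivLinear (G := D)).symm
  have hcomm : ∀ a b : H, ⁅a, b⁆ ∈ D := fun a b =>
    Subgroup.commutator_mem_commutator (Subgroup.mem_top a) (Subgroup.mem_top b)
  have hD' : ⁅D, D⁆ ≠ D := fun e => by
    haveI : Nontrivial D := (Subgroup.nontrivial_iff_ne_bot D).2 hne
    refine (Group.IsSolvable.commutator_lt_top_of_nontrivial D).ne ?_
    refine Subgroup.map_injective D.subtype_injective ?_
    rw [Subgroup.map_subtype_commutator, e, ← MonoidHom.range_eq_map, Subgroup.range_subtype]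
  -- fixed point free elements fix no linear character
  have hfree : ∀ a : H, (∀ d ∈ D, a * d = d * a → d = 1) → ∀ lam : D →* ℂˣ,
      a ∈ TwoDeg.stab D lam → lam = 1 := by
    intro a ha lam hlam
    let F : D → D := fun d => ⟨⁅a, (d : H)⁆, hcomm _ _⟩
    have hinj : Function.Injective F := by
      rintro ⟨d, hd⟩ ⟨e, he⟩ hde
      have h1 : a * d * a⁻¹ * d⁻¹ = a * e * a⁻¹ * e⁻¹ := by
        simpa only [F, commutatorElement_def] using congrArg Subtype.val hde
      refine Subtype.ext (inv_mul_eq_one.1 (ha _ (D.mul_mem (D.inv_mem he) hd) ?_)).symm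
      calc a * (e⁻¹ * d) = a * e⁻¹ * a⁻¹ * (a * d * a⁻¹ * d⁻¹) * d * a := by group
        _ = a * e⁻¹ * a⁻¹ * (a * e * a⁻¹ * e⁻¹) * d * a := by rw [h1]
        _ = e⁻¹ * d * a := by group
    refine MonoidHom.ext fun y => ?_
    obtain ⟨d, rfl⟩ := Finite.injective_iff_surjective.1 hinj y
    rw [show F d = ⟨a * d * a⁻¹, hDn.conj_mem d d.2 a⟩ * d⁻¹ from
      Subtype.ext (commutatorElement_def a (d : H)), map_mul, map_inv, TwoDeg.mem_stab.1 hlam d,
      mul_inv_cancel, MonoidHom.one_apply]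
  -- the index of each stabilizer is a degree
  have hdeg : ∀ lam : D →* ℂˣ, ∃ χ : IrrCharacter H,
      charDegree (χ : H → ℂ) = (TwoDeg.stab D lam).index := by
    intro lam
    set S := TwoDeg.stab D lam with hS
    have hDS : D ≤ S := TwoDeg.le_stab lam
    have hsp : ∀ s : S, ∃ d : D, (d : H)⁻¹ * s ∈ A := fun s => by
      obtain ⟨d, hd, a, ha, he⟩ := hcov s
      exact ⟨⟨d, hd⟩, by rwa [he, inv_mul_cancel_left]⟩
    choose δ hδ using hsp
    have huniq : ∀ (s : S) (d : D), (d : H)⁻¹ * s ∈ A → δ s = d := fun s d hd => by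
      have h1 := hdisj ((δ s : H)⁻¹ * d) (D.mul_mem (D.inv_mem (δ s).2) d.2) (by
        have := A.mul_mem (hδ s) (A.inv_mem hd)
        rwa [show (δ s : H)⁻¹ * s * ((d : H)⁻¹ * s)⁻¹ = (δ s : H)⁻¹ * d by group] at this)
      exact Subtype.ext (inv_mul_eq_one.1 h1)
    let η : S →* ℂˣ := MonoidHom.mk' (fun s => lam (δ s)) fun s t => by
      set a := (δ s : H)⁻¹ * s with ha
      have h1 : δ (s * t) = δ s * ⟨a * (δ t : H) * a⁻¹, hDn.conj_mem _ (δ t).2 a⟩ := by
        refine huniq _ _ ?_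
        show ((δ s : H) * (a * (δ t : H) * a⁻¹))⁻¹ * ((s : H) * t) ∈ A
        rw [show ((δ s : H) * (a * (δ t : H) * a⁻¹))⁻¹ * ((s : H) * t) =
          a * ((δ t : H)⁻¹ * t) by rw [ha]; group]
        exact A.mul_mem (hδ s) (hδ t)
      show lam (δ (s * t)) = lam (δ s) * lam (δ t)
      rw [h1, map_mul, TwoDeg.mem_stab.1 (S.mul_mem (S.inv_mem (hDS (δ s).2)) s.2) (δ t)]
    obtain ⟨χ, hχ⟩ := induced_degree (M := D) hDS (isIrrCharacter_hom lam) hS
      (isIrrCharacter_hom η) one_ne_zero (fun n => by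
        show (lam (δ ⟨(n : H), hDS n.2⟩) : ℂ) = _
        rw [huniq ⟨(n : H), hDS n.2⟩ n (by rw [inv_mul_cancel]; exact A.one_mem), Nat.cast_one,
          one_mul])
      (e := 1) (by rw [map_one, Units.val_one, Nat.cast_one])
    exact ⟨χ, by rw [hχ, mul_one]⟩
  have hidx : ∀ lam : D →* ℂˣ, lam ≠ 1 → (TwoDeg.stab D lam).index ≠ 1 := fun lam hl he =>
    hl (hfree x hfix lam (Subgroup.index_eq_one.1 he ▸ Subgroup.mem_top x))
  have hmax : ∀ lam μ : D →* ℂˣ, μ ≠ 1 → TwoDeg.stab D lam ≤ TwoDeg.stab D μ →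
      TwoDeg.stab D lam = TwoDeg.stab D μ := by
    intro lam μ hμ hle
    obtain ⟨χ, hχ⟩ := hdeg lam
    obtain ⟨χ', hχ'⟩ := hdeg μ
    have h1 := hnd χ' χ (hχ' ▸ hidx μ hμ) (hχ ▸ hχ' ▸ Subgroup.index_dvd_of_le hle)
    rw [hχ, hχ'] at h1
    exact Subgroup.eq_of_le_of_card_ge hle (le_of_eq (Nat.eq_of_mul_eq_mul_right
      (Nat.pos_of_ne_zero (Subgroup.index_ne_zero_of_finite (H := TwoDeg.stab D μ)))
      (by rw [Subgroup.card_mul_index, h1, Subgroup.card_mul_index])))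
  -- the stabilizer only grows under twisting
  have htw : ∀ (v : D →* ℂˣ) (s : H), TwoDeg.stab D v ≤ TwoDeg.stab D (tw v s) := by
    intro v s n hn
    refine TwoDeg.mem_stab.2 fun d => ?_
    rw [tw_apply, tw_apply, TwoDeg.mem_stab.1 hn d]
    congr 1
    have h1 : (⟨s * (n * d * n⁻¹) * s⁻¹, hDn.conj_mem _ (hDn.conj_mem d d.2 n) s⟩ : D) =
        ⟨⁅s, n⁆, hcomm s n⟩ * ⟨n * (s * d * s⁻¹) * n⁻¹, hDn.conj_mem _ (hDn.conj_mem d d.2 s) n⟩ *
          (⟨⁅s, n⁆, hcomm s n⟩ : D)⁻¹ := Subtype.ext (by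
      simp only [Subgroup.coe_mul, Subgroup.coe_inv, commutatorElement_def]; group)
    rw [h1, map_mul, map_mul, map_inv, mul_comm, inv_mul_cancel_left,
      TwoDeg.mem_stab.1 hn ⟨s * d * s⁻¹, hDn.conj_mem d d.2 s⟩]
  have hsame : ∀ lam μ : D →* ℂˣ, lam ≠ 1 → μ ≠ 1 →
      TwoDeg.stab D lam ≤ TwoDeg.stab D μ := by
    intro lam μ hl hμ s hs
    by_contra hs'
    set v := lam * μ with hv
    have hρ : tw v s = tw μ s := by
      refine MonoidHom.ext fun d => ?_
      rw [tw_apply, tw_apply, hv, MonoidHom.mul_apply, MonoidHom.mul_apply,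
        TwoDeg.mem_stab.1 hs d, mul_inv, mul_mul_mul_comm, mul_inv_cancel, one_mul]
    have hρ1 : tw μ s ≠ 1 := fun e => hs' (tw_eq_one.1 e)
    have h1 := hmax μ _ hρ1 (htw μ s)
    have h2 : TwoDeg.stab D v ≤ TwoDeg.stab D μ := (htw v s).trans (hρ ▸ h1.ge)
    have h3 : TwoDeg.stab D v ≤ TwoDeg.stab D lam := fun n hn => TwoDeg.mem_stab.2 fun d => by
      have e1 := TwoDeg.mem_stab.1 hn d
      rw [hv, MonoidHom.mul_apply, MonoidHom.mul_apply, TwoDeg.mem_stab.1 (h2 hn) d] at e1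
      exact mul_right_cancel e1
    exact hs' (h2 (hmax v lam hl h3 ▸ hs))
  obtain ⟨u₁, hu₁, hu₁'⟩ := SetLike.not_le_iff_exists.1 fun h => hD'
    (le_antisymm (Subgroup.commutator_le_self D) h)
  obtain ⟨l₁, hl₁⟩ : ∃ l : D →* ℂˣ, l ≠ 1 := by
    by_contra hall
    push Not at hall
    exact hu₁' (mem_of_forall_hom (u := ⟨u₁, hu₁⟩) fun l => by rw [hall l, MonoidHom.one_apply])
  set C := TwoDeg.stab D l₁ with hC
  have hCeq : ∀ lam : D →* ℂˣ, lam ≠ 1 → TwoDeg.stab D lam = C := fun lam hl =>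
    le_antisymm (hsame lam l₁ hl hl₁) (hsame l₁ lam hl₁ hl)
  obtain ⟨χC, hχC⟩ := hdeg l₁
  have hCd : ∀ χ : IrrCharacter H, C.index ∣ charDegree (χ : H → ℂ) →
      charDegree (χ : H → ℂ) = C.index := fun χ h =>
    (hnd χC χ (hχC ▸ hidx l₁ hl₁) (hχC ▸ h)).symm.trans hχC
  -- twisting by an element outside `C` is bijective
  have hinj : ∀ n : H, n ∉ C → ∀ lam μ : D →* ℂˣ, tw lam n = tw μ n → lam = μ := by
    intro n hn lam μ he
    by_contra hne'
    refine hn (hCeq (lam * μ⁻¹) (fun e => hne' (mul_inv_eq_one.1 e)) ▸ TwoDeg.mem_stab.2 fun d => ?_)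
    have h1 := DFunLike.congr_fun he d
    rw [tw_apply, tw_apply] at h1
    simp only [MonoidHom.mul_apply, MonoidHom.inv_apply]
    calc lam ⟨n * d * n⁻¹, hDn.conj_mem d d.2 n⟩ * (μ ⟨n * d * n⁻¹, hDn.conj_mem d d.2 n⟩)⁻¹
        = (lam ⟨n * d * n⁻¹, hDn.conj_mem d d.2 n⟩ * (lam d)⁻¹) * lam d *
            (μ ⟨n * d * n⁻¹, hDn.conj_mem d d.2 n⟩)⁻¹ := by rw [inv_mul_cancel_right]
      _ = lam d * (μ d)⁻¹ := by rw [h1, mul_assoc _ _ (lam d), mul_comm, ← mul_assoc,
          inv_mul_cancel, one_mul, mul_comm]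
  refine ⟨C, TwoDeg.le_stab _, ⟨χC, hχC⟩, fun c hc d hd => ?_, fun n hn u hu hnu => ?_,
    fun a _ haf hac => hl₁ (hfree a haf l₁ hac), fun hab θ hθ => ?_, fun hnab => ?_⟩
  · refine mem_of_forall_hom (u := ⟨_, hcomm c d⟩) fun lam => ?_
    by_cases hl : lam = 1
    · rw [hl, MonoidHom.one_apply]
    rw [show (⟨⁅c, d⁆, hcomm c d⟩ : D) = ⟨c * d * c⁻¹, hDn.conj_mem d hd c⟩ * (⟨d, hd⟩ : D)⁻¹ from
      Subtype.ext (commutatorElement_def c d), map_mul, map_inv,
      TwoDeg.mem_stab.1 ((hCeq lam hl).symm ▸ hc) ⟨d, hd⟩, mul_inv_cancel]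
  · refine mem_of_forall_hom (u := ⟨u, hu⟩) fun μ => ?_
    obtain ⟨lam, rfl⟩ := Finite.injective_iff_surjective.1 (fun a b => hinj n hn a b) μ
    rw [tw_apply, ← map_inv, ← map_mul]
    exact hom_kill lam (by
      show n * u * n⁻¹ * u⁻¹ ∈ ⁅D, D⁆
      rwa [← commutatorElement_def])
  · -- `D` abelian
    obtain ⟨ψ, hψ, m, hm⟩ := exists_under D θ
    have hDab : ∀ a b : D, a * b = b * a := fun a b => Subtype.ext
      (commutatorElement_eq_one_iff_mul_comm.1 (Subgroup.mem_bot.1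
        (hab ▸ Subgroup.commutator_mem_commutator a.2 b.2)))
    obtain ⟨lam, hlam⟩ := exists_hom_of_degree_one (irr_isCharacter ψ)
      (irr_apply_one_of_comm hDab ψ.2)
    by_cases hl : lam = 1
    · -- then `θ` is linear
      refine absurd ?_ hθ
      have hres := Chars2.clifford_invariant θ.2 ψ.2
        (Chars2.inertiaSub_eq_top fun g d => by rw [hlam, hl]; rfl) hψ
      obtain ⟨dθ, ρ, hρ, hρe⟩ := θ.2
      haveI := hρ
      have hker : ∀ d ∈ D, ρ d = 1 := fun d hd => (rep_char_eq_finrank_iff ρ d).1 (by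
        rw [hρe]
        have e1 := hres ⟨d, hd⟩
        have e2 := hres 1
        have e3 : ∀ z : D, (ψ : D → ℂ) z = 1 := fun z => by
          rw [hlam, hl]; rfl
        rw [e3, mul_one] at e1 e2
        rw [Subgroup.coe_one] at e2
        change (θ : H → ℂ) d = _
        rw [← Representation.char_one ρ, hρe]
        exact e1.trans e2.symm)
      have hsc : ∀ z ∈ (⊤ : Subgroup H), ∃ c : ℂ, ρ z = c • 1 := fun z _ =>
        scalar_of_commute ρ (ρ z) fun w => by
          show ρ z * ρ w = ρ w * ρ z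
          rw [← map_mul, ← map_mul,
            show z * w = ⁅z, w⁆ * (w * z) by simp only [commutatorElement_def]; group, map_mul,
            hker _ (hcomm z w), one_mul]
      have h1 := Chars2.finrank_dvd_index ρ ⊤ hsc
      rw [Subgroup.index_top, Nat.dvd_one] at h1
      refine deg_eq_of_one θ.2 ?_
      rw [← hρe, Representation.char_one, h1]
    · refine hCd θ (hm ▸ Dvd.intro (m * charDegree (ψ : D → ℂ)) ?_)
      rw [show Chars2.inertiaSub (ψ : D → ℂ) = C by rw [hlam]; exact hCeq lam hl, mul_assoc]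
  · -- `D` not abelian
    intro u hu hu' m hm
    have hvan : ∀ ψ : IrrCharacter D, charDegree (ψ : D → ℂ) ≠ 1 →
        (ψ : D → ℂ) ⟨u, hu⟩ = 0 := by
      have hout : ∀ ψ : IrrCharacter D, charDegree (ψ : D → ℂ) ≠ 1 →
          ∃ s, s ∈ Chars2.inertiaSub (ψ : D → ℂ) ∧ s ∉ C := by
        intro ψ hψ
        by_contra hno
        push Not at hno
        obtain ⟨χ, e, he⟩ := exists_above D ψ
        obtain ⟨i, hi⟩ := Subgroup.index_dvd_of_le (show Chars2.inertiaSub (ψ : D → ℂ) ≤ C from hno)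
        have h1 := hCd χ (he ▸ hi ▸ ⟨i * e * charDegree (ψ : D → ℂ), by ring⟩)
        rw [he, hi] at h1
        have h2 : C.index * (i * e * charDegree (ψ : D → ℂ)) = C.index * 1 := by
          rw [mul_one]; refine Eq.trans ?_ h1; ring
        exact hψ (Nat.eq_one_of_mul_eq_one_left
          (Nat.eq_of_mul_eq_mul_left (Nat.pos_of_ne_zero Subgroup.index_ne_zero_of_finite) h2))
      intro ψ hψ
      obtain ⟨lam, hlam⟩ : ∃ lam : D →* ℂˣ, lam ⟨u, hu⟩ ≠ 1 := by
        by_contra hall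
        push Not at hall
        exact hu' (mem_of_forall_hom (u := ⟨u, hu⟩) hall)
      obtain ⟨s, hsψ, hs⟩ := hout ψ hψ
      -- the characters fixing `ψ`
      let Λ : Set (D →* ℂˣ) := {l | ∀ d : D, (l d : ℂ) * (ψ : D → ℂ) d = (ψ : D → ℂ) d}
      have hsurj : ∀ g : H, g ∈ Chars2.inertiaSub (ψ : D → ℂ) → g ∉ C →
          ∀ μ ∈ Λ, ∃ l ∈ Λ, tw l g = μ := by
        intro g hg hgC μ hμ
        have hmaps : ∀ l ∈ Λ, tw l g ∈ Λ := by
          intro l hl d
          have e1 := hl ⟨g * d * g⁻¹, hDn.conj_mem d d.2 g⟩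
          rw [mem_inertia.1 hg d] at e1
          rw [tw_apply, Units.val_mul, mul_comm (l _ : ℂ), mul_assoc, e1]
          conv_lhs => rw [← hl d]
          rw [← mul_assoc, ← Units.val_mul, inv_mul_cancel, Units.val_one, one_mul]
        obtain ⟨⟨l, hl⟩, he⟩ := (Finite.injective_iff_surjective
          (f := fun l : Λ => (⟨tw l.1 g, hmaps _ l.2⟩ : Λ))).1
          (fun a b e => Subtype.ext (hinj g hgC _ _ (congrArg Subtype.val e))) ⟨μ, hμ⟩
        exact ⟨l, hl, congrArg Subtype.val he⟩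
      obtain ⟨g, hg, hgC⟩ := hout ⟨_, isIrrCharacter_mul_hom ψ.2 lam⟩ (by
        rw [deg_eq_of_one (isIrrCharacter_mul_hom ψ.2 lam) (d := charDegree (ψ : D → ℂ))
          (by rw [map_one, Units.val_one, one_mul]; exact (Blocks.charDegree_eq ψ.2).1)]
        exact hψ)
      -- `ψ ^ g = μ ψ`
      set μ : D →* ℂˣ := lam * (lam.comp (MulAut.conjNormal g).toMonoidHom)⁻¹ with hμ
      have hψg : ∀ d : D, (ψ : D → ℂ) ⟨g * d * g⁻¹, hDn.conj_mem d d.2 g⟩ =
          (μ d : ℂ) * (ψ : D → ℂ) d := by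
        intro d
        have e1 : (lam ⟨g * d * g⁻¹, hDn.conj_mem d d.2 g⟩ : ℂ) *
            (ψ : D → ℂ) ⟨g * d * g⁻¹, hDn.conj_mem d d.2 g⟩ = (lam d : ℂ) * (ψ : D → ℂ) d :=
          mem_inertia.1 hg d
        rw [hμ, MonoidHom.mul_apply, MonoidHom.inv_apply, MonoidHom.comp_apply,
          MulEquiv.coe_toMonoidHom, show MulAut.conjNormal g d =
            (⟨g * d * g⁻¹, hDn.conj_mem d d.2 g⟩ : D) from Subtype.ext (MulAut.conjNormal_apply g d),
          mul_comm (lam d)]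
        exact cancel_unit e1
      have htμ : tw μ s ∈ Λ := by
        intro d
        have hsd := mem_inertia.1 hsψ
        have e1 : (ψ : D → ℂ) ⟨g * (s * d * s⁻¹) * g⁻¹, hDn.conj_mem _ (hDn.conj_mem d d.2 s) g⟩ =
            (ψ : D → ℂ) ⟨g * d * g⁻¹, hDn.conj_mem d d.2 g⟩ := by
          rw [← hsd ⟨g * d * g⁻¹, hDn.conj_mem d d.2 g⟩]
          refine Eq.trans (congrArg (ψ : D → ℂ) (Subtype.ext ?_))
            (isClassFunction_irr ψ (⟨s * (g * d * g⁻¹) * s⁻¹,
              hDn.conj_mem _ (hDn.conj_mem d d.2 g) s⟩ : D) ⟨⁅g, s⁆, hcomm g s⟩)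
          simp only [Subgroup.coe_mul, Subgroup.coe_inv, commutatorElement_def]; group
        rw [hψg, hψg ⟨s * d * s⁻¹, hDn.conj_mem d d.2 s⟩, hsd d] at e1
        rw [tw_apply, Units.val_mul, mul_comm (μ _ : ℂ), mul_assoc, e1, ← mul_assoc,
          ← Units.val_mul, inv_mul_cancel, Units.val_one, one_mul]
      obtain ⟨ν, hν, hνe⟩ := hsurj s hsψ hs _ htμ
      have hμΛ : μ ∈ Λ := hinj s hs ν μ hνe ▸ hν
      have hgψ : g ∈ Chars2.inertiaSub (ψ : D → ℂ) :=
        mem_inertia.2 fun d => (hψg d).trans (hμΛ d)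
      have hgl : tw lam g ∈ Λ := by
        intro d
        have e1 : (lam ⟨g * d * g⁻¹, hDn.conj_mem d d.2 g⟩ : ℂ) *
            (ψ : D → ℂ) ⟨g * d * g⁻¹, hDn.conj_mem d d.2 g⟩ = (lam d : ℂ) * (ψ : D → ℂ) d :=
          mem_inertia.1 hg d
        rw [mem_inertia.1 hgψ d] at e1
        rw [tw_apply, Units.val_mul, mul_comm (lam _ : ℂ), mul_assoc, e1, ← mul_assoc,
          ← Units.val_mul, inv_mul_cancel, Units.val_one, one_mul]
      obtain ⟨l, hl, hle⟩ := hsurj g hgψ hgC _ hgl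
      have hlΛ : lam ∈ Λ := hinj g hgC l lam hle ▸ hl
      by_contra hne'
      exact hlam (Units.ext (mul_right_cancel₀ hne'
        ((hlΛ ⟨u, hu⟩).trans (one_mul _).symm)))
    have hc := cent_of_vanish (H := D) hvan
    -- count the class
    let F : D → commutator D := fun v => ⟨⁅v, ⟨u, hu⟩⁆,
      Subgroup.commutator_mem_commutator (Subgroup.mem_top _) (Subgroup.mem_top _)⟩
    have hsur : Function.Surjective F := by
      set Z := Subgroup.centralizer ({(⟨u, hu⟩ : D)} : Set D)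
      have hcl : ∀ a b : D, F a = F b ↔ a⁻¹ * b ∈ Z := by
        intro a b
        have e : ∀ w : D, (⁅w, ⟨u, hu⟩⁆ : D) = w * ⟨u, hu⟩ * w⁻¹ * (⟨u, hu⟩ : D)⁻¹ := fun w => rfl
        rw [Subgroup.mem_centralizer_singleton_iff, Subtype.ext_iff]
        show ⁅a, (⟨u, hu⟩ : D)⁆ = ⁅b, (⟨u, hu⟩ : D)⁆ ↔ _
        rw [e, e, mul_left_inj]
        constructor
        · intro h'
          calc a⁻¹ * b * ⟨u, hu⟩ = a⁻¹ * (b * ⟨u, hu⟩ * b⁻¹) * b := by group
            _ = a⁻¹ * (a * ⟨u, hu⟩ * a⁻¹) * b := by rw [h']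
            _ = ⟨u, hu⟩ * (a⁻¹ * b) := by group
        · intro h'
          calc a * ⟨u, hu⟩ * a⁻¹ = a * (⟨u, hu⟩ * (a⁻¹ * b)) * b⁻¹ := by group
            _ = a * (a⁻¹ * b * ⟨u, hu⟩) * b⁻¹ := by rw [h']
            _ = b * ⟨u, hu⟩ * b⁻¹ := by group
      let F' : D ⧸ Z → commutator D := Quotient.lift F fun a b h' =>
        (hcl a b).2 (QuotientGroup.leftRel_apply.1 h')
      have hi : Function.Injective F' := by
        rintro ⟨a⟩ ⟨b⟩ h'
        exact Quotient.sound (QuotientGroup.leftRel_apply.2 ((hcl a b).1 h'))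
      have hcard : Nat.card (D ⧸ Z) = Nat.card (commutator D) := by
        rw [← Subgroup.index_eq_card]
        refine Nat.eq_of_mul_eq_mul_left (Nat.card_pos (α := Z)) ?_
        rw [Z.card_mul_index, hc]
      intro y
      obtain ⟨⟨v⟩, hv⟩ := ((Nat.bijective_iff_injective_and_card F').2 ⟨hi, hcard⟩).2 y
      exact ⟨v, hv⟩
    rw [← Subgroup.map_subtype_commutator] at hm
    obtain ⟨mD, hmD, rfl⟩ := hm
    obtain ⟨v, hv⟩ := hsur ⟨mD, hmD⟩
    exact ⟨v, v.2, congrArg (fun z : commutator D => ((z : D) : H)) hv⟩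

end Cfsg.Agent.Chars.NoDiv
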