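import Cfsg.Agent.Chars.ThreeDegCoprime
import Cfsg.Agent.Chars.NoDivGroup
import Cfsg.Agent.Chars.NoDivInner
import Cfsg.Prelude.Def_DegreeGraph

/-!
Solvable groups in which no nonlinear degree divides another and whose degree graph is not
connected have three degrees.
-/

set_option autoImplicit false
set_option linter.style.haveILetI false
set_option linter.unusedSectionVars false

open Cfsg Cfsg.Agent
open scoped ComplexConjugate commutatorElement

namespace Cfsg.Agent.Chars.NoDiv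

universe u

variable {G : Type u} [Group G] [Fintype G]

noncomputable local instance (priority := high) fintypeOfSubG (S : Subgroup G) : Fintype S :=
  Fintype.ofFinite _

/-- A quotient of prime power order with nilpotent action makes one prime divide all degrees. -/
theorem common_prime (hnd : ND G) (K : Subgroup G) [K.Normal] (hK : ¬ commutator G ≤ K)
    (hKmax : ∀ M : Subgroup G, M.Normal → K < M → commutator G ≤ M)
    (hnil : ⁅commutator G, (⊤ : Subgroup G)⁆ ≤ K) :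
    ∃ p : ℕ, p.Prime ∧
      ∀ χ : IrrCharacter G, charDegree (χ : G → ℂ) ≠ 1 → p ∣ charDegree (χ : G → ℂ) := by
  classical
  set π := QuotientGroup.mk' K
  have hπ : Function.Surjective π := QuotientGroup.mk'_surjective K
  have hcQ : commutator (G ⧸ K) = (commutator G).map π := by
    rw [commutator_def, commutator_def, Subgroup.map_commutator,
      Subgroup.map_top_of_surjective π hπ]
  haveI : Group.IsNilpotent (G ⧸ K) := by
    refine Subgroup.isNilpotent_of_ker_le_center (Abelianization.of : G ⧸ K →* Abelianization (G ⧸ K)) ?_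
    rw [Abelianization.ker_of, hcQ, Subgroup.map_le_iff_le_comap]
    intro a ha
    refine Subgroup.mem_comap.2 (Subgroup.mem_center_iff.2 fun g => ?_)
    obtain ⟨g, rfl⟩ := hπ g
    refine (commutatorElement_eq_one_iff_mul_comm.1 ?_).symm
    rw [← map_commutatorElement]
    exact (QuotientGroup.eq_one_iff _).2
      (hnil (Subgroup.commutator_mem_commutator ha (Subgroup.mem_top g)))
  have hne : commutator (G ⧸ K) ≠ ⊥ := by
    rw [hcQ, Ne, Subgroup.map_eq_bot_iff, QuotientGroup.ker_mk']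
    exact hK
  have hmin : ∀ M : Subgroup (G ⧸ K), M.Normal → M ≠ ⊥ → commutator (G ⧸ K) ≤ M := by
    intro M hM hM0
    haveI := hM
    have hlt : K < M.comap π := by
      refine lt_of_le_of_ne (fun x hx => ?_) fun e => hM0 ?_
      · rw [Subgroup.mem_comap, QuotientGroup.mk'_apply, (QuotientGroup.eq_one_iff x).2 hx]
        exact M.one_mem
      · rw [← Subgroup.map_comap_eq_self_of_surjective hπ M, ← e, QuotientGroup.map_mk'_self]
    rw [hcQ, Subgroup.map_le_iff_le_comap]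
    exact hKmax _ inferInstance hlt
  have huniq : ∀ {p q : ℕ}, p.Prime → q.Prime → p ∣ Nat.card (G ⧸ K) → q ∣ Nat.card (G ⧸ K) →
      p = q := by
    intro p q hp hq hpd hqd
    by_contra hpq
    haveI := Fact.mk hp
    haveI := Fact.mk hq
    obtain ⟨P⟩ : Nonempty (Sylow p (G ⧸ K)) := inferInstance
    obtain ⟨R⟩ : Nonempty (Sylow q (G ⧸ K)) := inferInstance
    have hPn : (P : Subgroup (G ⧸ K)).Normal :=
      P.normal_of_normalizerCondition Group.normalizerCondition_of_isNilpotent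
    have hRn : (R : Subgroup (G ⧸ K)).Normal :=
      R.normal_of_normalizerCondition Group.normalizerCondition_of_isNilpotent
    refine hne (le_bot_iff.1 ?_)
    have h1 := le_inf (hmin _ hPn (P.ne_bot_of_dvd_card hpd))
      (hmin _ hRn (R.ne_bot_of_dvd_card hqd))
    rwa [(IsPGroup.disjoint_of_ne p q hpq _ _ P.isPGroup' R.isPGroup').eq_bot] at h1
  haveI : Nontrivial (G ⧸ K) := by
    by_contra h0
    rw [not_nontrivial_iff_subsingleton] at h0
    exact hne (Subsingleton.elim _ _)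
  obtain ⟨p, hp, hpd⟩ := Nat.exists_prime_and_dvd (Finite.one_lt_card (α := G ⧸ K)).ne'
  haveI := Fact.mk hp
  refine ⟨p, hp, fun χ hχ => ?_⟩
  by_contra hpg
  have hcard : Nat.card (G ⧸ K) = p ^ (Nat.card (G ⧸ K)).primeFactorsList.length :=
    Nat.eq_prime_pow_of_unique_prime_dvd Nat.card_pos.ne' fun {d} hd hdd => huniq hd hp hdd hpd
  generalize (Nat.card (G ⧸ K)).primeFactorsList.length = k at hcard
  haveI : Fintype (G ⧸ K) := Fintype.ofFinite _
  obtain ⟨θ, hθ⟩ : ∃ θ : IrrCharacter (G ⧸ K), charDegree (θ : G ⧸ K → ℂ) ≠ 1 := by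
    by_contra hall
    push Not at hall
    refine hne (le_bot_iff.1 ?_)
    rw [commutator_def, Subgroup.commutator_le]
    intro x _ y _
    rw [Subgroup.mem_bot, commutatorElement_eq_one_iff_mul_comm]
    exact Chars2.comm_of_degree_one hall x y
  have hres := restrict_pPrime (p := p) χ.2 hpg
  have hle : pResidual p G ≤ K := (Subgroup.closure_le _).2 fun x hx => by
    rw [SetLike.mem_coe, ← QuotientGroup.eq_one_iff, ← orderOf_eq_one_iff]
    refine Nat.eq_one_of_dvd_coprimes (hx.symm.pow_left k) ?_ (orderOf_map_dvd π x)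
    exact hcard ▸ orderOf_dvd_natCard (x : G ⧸ K)
  set N := pResidual p G with hNdef
  have hg' := Chars2.gallagher (N := N) (φ := 1) (ϑ := fun x : N => (χ : G → ℂ) x)
    isIrrCharacter_one (Chars2.inertiaSub_eq_top fun g n => rfl) hres.2
    (by rw [one_mul]; exact hres.1) χ.2 fun _ => rfl
  set β : G → ℂ := fun x => (θ : G ⧸ K → ℂ) (π x) with hβ
  have hβi : IsIrrCharacter G β := isIrrCharacter_comp_surjective θ.2 π hπ
  have hθ1 : (θ : G ⧸ K → ℂ) 1 = (charDegree (θ : G ⧸ K → ℂ) : ℂ) := (Blocks.charDegree_eq θ.2).1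
  have hβd : charDegree β = charDegree (θ : G ⧸ K → ℂ) :=
    deg_eq_of_one hβi (by show (θ : G ⧸ K → ℂ) (π 1) = _; rw [map_one, hθ1])
  have hβm : classInner (indFun N (1 : N → ℂ)) β ≠ 0 := by
    rw [classInner_indFun N 1 (isClassFunction_of_isCharacter (isCharacter_of_isIrr hβi)),
      show (fun x : N => β x) = (θ : G ⧸ K → ℂ) 1 • (1 : N → ℂ) by
        funext x
        rw [hβ, Pi.smul_apply, Pi.one_apply, smul_eq_mul, mul_one]
        refine congrArg (θ : G ⧸ K → ℂ) ?_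
        exact (QuotientGroup.eq_one_iff (x : G)).2 (hle x.2),
      classInner_smul_right, show classInner (1 : N → ℂ) (1 : N → ℂ) = 1 from
        classInner_self_irr isIrrCharacter_one, mul_one]
    simpa using irr_apply_one_ne_zero θ.2
  obtain ⟨hirr, -⟩ := hg'.mapsTo (show β ∈ {β : G → ℂ | IsIrrCharacter G β ∧
    classInner (indFun N (1 : N → ℂ)) β ≠ 0} from ⟨hβi, hβm⟩)
  have h1 : charDegree (β * (χ : G → ℂ)) =
      charDegree (θ : G ⧸ K → ℂ) * charDegree (χ : G → ℂ) := deg_eq_of_one hirr (by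
    show (θ : G ⧸ K → ℂ) (π 1) * (χ : G → ℂ) 1 = _
    rw [map_one, hθ1, deg_at_one, Nat.cast_mul])
  have h2 := hnd ⟨β, hβi⟩ ⟨_, hirr⟩ (by show charDegree β ≠ 1; rw [hβd]; exact hθ)
    (by show charDegree β ∣ charDegree (β * (χ : G → ℂ)); rw [hβd, h1]; exact dvd_mul_right _ _)
  change charDegree β = charDegree (β * (χ : G → ℂ)) at h2
  rw [hβd, h1] at h2
  exact hχ (Nat.eq_of_mul_eq_mul_left (Blocks.charDegree_eq θ.2).2
    (h2.symm.trans (mul_one _).symm))

/-- The prime of the Frobenius quotient and the degree of the twisted characters. -/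
theorem frobenius_twist (N K : Subgroup G) [N.Normal] [K.Normal] (hGN : commutator G ≤ N)
    (hab : ∀ a ∈ N, ∀ b ∈ N, ⁅a, b⁆ ∈ K) (hNK : ¬ N ≤ K)
    (hfpf : ∀ x : G, x ∉ N → ∀ a ∈ N, ⁅x, a⁆ ∈ K → a ∈ K) {q : ℕ} (hq : q.Prime)
    (hexp : ∀ a ∈ N, a ^ q ∈ K) :
    ¬ q ∣ N.index ∧ ∀ ψ : IrrCharacter N, ¬ q ∣ charDegree (ψ : N → ℂ) →
      ∃ χ : IrrCharacter G, charDegree (χ : G → ℂ) = N.index * charDegree (ψ : N → ℂ) := by
  classical
  haveI := Fact.mk hq
  haveI : Finite (N →* ℂˣ) := Finite.of_equiv _ (homEquivLinear (G := N)).symm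
  set M := ThreeDeg.homsOver N K with hMdef
  have hMp : IsPGroup q M := fun μ => ⟨1, Subtype.ext (MonoidHom.ext fun a => by
    rw [pow_one, SubmonoidClass.coe_pow, MonoidHom.pow_apply, ← map_pow]
    exact μ.2 (a ^ q) (by rw [SubmonoidClass.coe_pow]; exact hexp a a.2))⟩
  have hconj : ∀ (g : G) (η : N →* ℂˣ), η ∈ M →
      η.comp (MulAut.conjNormal g).toMonoidHom ∈ M := fun g η hη a ha =>
    hη _ (by
      simp only [MulEquiv.coe_toMonoidHom, MulAut.conjNormal_apply]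
      exact Subgroup.Normal.conj_mem inferInstance _ ha g)
  have hstab : ∀ η : N →* ℂˣ, η ∈ M → η ≠ 1 → TwoDeg.stab N η = N :=
    fun η hη hne => ThreeDeg.stab_eq_of_fpf N K hGN hab hfpf η hη hne
  obtain ⟨η₀, hη₀M, hη₀⟩ := ThreeDeg.exists_homOver N K hab hNK
  -- the orbits
  let X := {η : N →* ℂˣ // η ∈ M ∧ η ≠ 1}
  letI : MulAction G X :=
    { smul := fun g η => ⟨η.1.comp (MulAut.conjNormal g⁻¹).toMonoidHom, hconj g⁻¹ η.1 η.2.1,
        fun he => η.2.2 (MonoidHom.ext fun a => by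
          have := DFunLike.congr_fun he (MulAut.conjNormal g a)
          rw [MonoidHom.comp_apply, MulEquiv.coe_toMonoidHom, ← MulAut.mul_apply, ← map_mul,
            inv_mul_cancel, map_one, MulAut.one_apply] at this
          exact this)⟩
      one_smul := fun η => Subtype.ext (MonoidHom.ext fun a => by
        show η.1 (MulAut.conjNormal (1 : G)⁻¹ a) = η.1 a
        rw [inv_one, map_one, MulAut.one_apply])
      mul_smul := fun g g' η => Subtype.ext (MonoidHom.ext fun a => by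
        show η.1 (MulAut.conjNormal (g * g')⁻¹ a) =
          η.1 (MulAut.conjNormal g'⁻¹ (MulAut.conjNormal g⁻¹ a))
        rw [mul_inv_rev, map_mul, MulAut.mul_apply]) }
  have hX : N.index ∣ Nat.card X := by
    rw [Nat.card_congr (MulAction.selfEquivSigmaOrbitsQuotientStabilizer G X)]
    haveI : Fintype (Quotient (MulAction.orbitRel G X)) := Fintype.ofFinite _
    rw [Nat.card_sigma]
    refine Finset.dvd_sum fun o _ => ?_
    rw [← Subgroup.index_eq_card]
    suffices hs : ∀ η : X, MulAction.stabilizer G η = N by rw [hs]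
    intro η
    ext g
    rw [MulAction.mem_stabilizer_iff, ← N.inv_mem_iff (x := g), ← SetLike.ext_iff.1
      (hstab η.1 η.2.1 η.2.2) g⁻¹, TwoDeg.mem_stab, Subtype.ext_iff]
    show η.1.comp (MulAut.conjNormal g⁻¹).toMonoidHom = η.1 ↔ _
    rw [MonoidHom.ext_iff]
    refine forall_congr' fun a => ?_
    rw [MonoidHom.comp_apply, MulEquiv.coe_toMonoidHom]
    rw [show MulAut.conjNormal g⁻¹ a =
      (⟨g⁻¹ * a * g⁻¹⁻¹, Subgroup.Normal.conj_mem inferInstance _ a.2 g⁻¹⟩ : N) from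
        Subtype.ext (MulAut.conjNormal_apply _ _)]
  have hMX : Nat.card M = Nat.card X + 1 := by
    rw [← Finite.card_option]
    refine Nat.card_congr
      { toFun := fun η => if he : η.1 = 1 then none else some ⟨η.1, η.2, he⟩
        invFun := fun o => o.elim 1 fun x => ⟨x.1, x.2.1⟩
        left_inv := fun η => ?_
        right_inv := fun o => ?_ }
    · by_cases he : η.1 = 1
      · simp only [he, dite_true, Option.elim]; exact Subtype.ext he.symm
      · simp only [he, dite_false, Option.elim]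
    · rcases o with _ | x
      · simp
      · simp [x.2.2]
  haveI : Nonempty X := ⟨⟨η₀, hη₀M, hη₀⟩⟩
  have hlt : N.index < Nat.card M := by
    have := Nat.le_of_dvd Nat.card_pos hX
    omega
  obtain ⟨b, hb⟩ := IsPGroup.iff_card.1 hMp
  have hqM : q ∣ Nat.card M := by
    rw [hb]
    refine dvd_pow_self q fun e => ?_
    rw [hb, e, pow_zero] at hMX
    have : 0 < Nat.card X := Nat.card_pos
    omega
  refine ⟨fun hd => hq.not_dvd_one ((Nat.dvd_add_right (hd.trans hX)).1 (hMX ▸ hqM)), ?_⟩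
  intro ψ hqψ
  have hcopψ : (charDegree (ψ : N → ℂ)).Coprime (Nat.card M) := by
    rw [hb]; exact ((hq.coprime_iff_not_dvd.2 hqψ).pow_left b).symm
  obtain ⟨d, ρ, hρ, hρe⟩ := ψ.2
  haveI := hρ
  have hd : charDegree (ψ : N → ℂ) = d := by
    have h5 : (ψ : N → ℂ) 1 = (d : ℂ) := by
      rw [← hρe, Representation.char_one, Module.finrank_fin_fun]
    exact Nat.cast_inj.1 ((Blocks.charDegree_eq ψ.2).1.symm.trans h5)
  set δ := Chars2.detHom ρ with hδ
  obtain ⟨μ, hμ⟩ : ∃ μ : M, TwoDeg.stab N (δ * (μ : N →* ℂˣ)) = N := by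
    by_contra hall
    push Not at hall
    have hg : ∀ μ : M, ∃ g, g ∈ TwoDeg.stab N (δ * (μ : N →* ℂˣ)) ∧ g ∉ N := fun μ => by
      by_contra hno
      push Not at hno
      exact hall μ (le_antisymm hno (TwoDeg.le_stab _))
    choose g hg hgN using hg
    have hinj : Function.Injective fun μ : M => ((g μ : G) : G ⧸ N) := by
      intro μ μ' he
      by_contra hne
      have hmem : g μ ∈ TwoDeg.stab N (δ * (μ' : N →* ℂˣ)) := by
        have h1 := Subgroup.mul_mem _ (hg μ')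
          (TwoDeg.le_stab (δ * (μ' : N →* ℂˣ)) (QuotientGroup.eq.1 (Eq.symm he)))
        rwa [mul_inv_cancel_left] at h1
      have hq : g μ ∈ TwoDeg.stab N ((μ : N →* ℂˣ) * (μ' : N →* ℂˣ)⁻¹) := by
        rw [TwoDeg.mem_stab]
        intro a
        have h1 := TwoDeg.mem_stab.1 (hg μ) a
        have h2 := TwoDeg.mem_stab.1 hmem a
        simp only [MonoidHom.mul_apply, MonoidHom.inv_apply] at h1 h2 ⊢
        have h3 := congrArg₂ (fun A B : ℂˣ => A / B) h1 h2
        rw [mul_div_mul_left_eq_div, mul_div_mul_left_eq_div, div_eq_mul_inv, div_eq_mul_inv] at h3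
        exact h3
      rw [hstab _ (M.mul_mem μ.2 (M.inv_mem μ'.2))
        (fun e => hne (Subtype.ext (mul_inv_eq_one.1 e)))] at hq
      exact hgN μ hq
    have := Nat.card_le_card_of_injective _ hinj
    rw [← Subgroup.index_eq_card] at this
    omega
  have hc' : (Nat.card M).Coprime d := by rw [← hd]; exact hcopψ.symm
  obtain ⟨η, hη⟩ := (powCoprime hc').surjective μ
  rw [powCoprime_apply] at hη
  -- the twisted representation
  let σ : Representation ℂ N (Fin d → ℂ) :=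
    { toFun := fun x => ((η : N →* ℂˣ) x : ℂ) • ρ x
      map_one' := by rw [map_one, map_one, Units.val_one, one_smul]
      map_mul' := fun x y => by rw [map_mul, map_mul, Units.val_mul, smul_mul_smul_comm] }
  have hσc : σ.character = fun x => ((η : N →* ℂˣ) x : ℂ) * (ψ : N → ℂ) x := funext fun x => by
    rw [← hρe]
    show LinearMap.trace ℂ _ (σ x) = _
    rw [show σ x = ((η : N →* ℂˣ) x : ℂ) • ρ x from rfl, map_smul, smul_eq_mul]
    rfl
  have hψη : IsIrrCharacter N fun x => ((η : N →* ℂˣ) x : ℂ) * (ψ : N → ℂ) x :=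
    isIrrCharacter_mul_hom ψ.2 _
  haveI hσi : σ.IsIrreducible := isIrreducible_of_character σ (hσc ▸ hψη)
  have hdet : ∀ x : N, Chars2.detHom σ x = (δ * (μ : N →* ℂˣ)) x := by
    intro x
    refine Units.ext ?_
    rw [MonoidHom.mul_apply, Units.val_mul, hδ, Chars2.detHom_apply, Chars2.detHom_apply, ← hη,
      SubmonoidClass.coe_pow, MonoidHom.pow_apply, Units.val_pow_eq_pow_val,
      show σ x = ((η : N →* ℂˣ) x : ℂ) • ρ x from rfl, LinearMap.det_smul,
      Module.finrank_fin_fun, mul_comm]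
  have hinert : N = Chars2.inertiaSub σ.character := by
    refine le_antisymm
      (Chars2.le_inertiaSub (isClassFunction_of_isCharacter (isCharacter_of_rep σ))) ?_
    intro g hg
    rw [← hμ]
    have hg' : g⁻¹ ∈ Chars2.inertiaSub σ.character := Subgroup.inv_mem _ hg
    rw [Chars2.mem_inertiaSub, funext_iff] at hg'
    obtain ⟨e⟩ := Chars2.equiv_of_character_eq σ
      (σ.comp (MulAut.conjNormal (H := N) g).toMonoidHom) (funext fun k => by
        have h1 := hg' k
        rw [Chars2.conjFun] at h1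
        rw [inv_inv] at h1
        exact h1.symm)
    rw [TwoDeg.mem_stab]
    intro a
    rw [← hdet, ← hdet]
    refine Units.ext ?_
    rw [Chars2.detHom_apply, Chars2.detHom_apply]
    have h := e.conj_apply_self a
    simp only [MonoidHom.coe_comp, MulEquiv.coe_toMonoidHom, Function.comp_apply] at h
    rw [show (⟨g * a * g⁻¹, Subgroup.Normal.conj_mem inferInstance _ a.2 g⟩ : N) =
      MulAut.conjNormal g a from Subtype.ext (MulAut.conjNormal_apply g a).symm, ← h]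
    rw [LinearEquiv.conj_apply, LinearMap.comp_assoc]
    exact LinearMap.det_conj _ _
  have hirr := Chars2.isIrr_indFun_of_inertia (le_refl N) (hσc ▸ hψη) hinert (hσc ▸ hψη) (by
    rw [show Chars2.resSub N N le_rfl σ.character = σ.character from rfl,
      classInner_self_irr (hσc ▸ hψη)]
    exact one_ne_zero)
  refine ⟨⟨_, hirr⟩, deg_eq_of_one hirr ?_⟩
  rw [indFun_apply_one, Representation.char_one, Module.finrank_fin_fun, hd, Nat.cast_mul]

/-- The nonlinear characters of `N` have one degree. -/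
theorem all_equal_kernel (N K : Subgroup G) [hN : N.Normal] [K.Normal] [Group.IsSolvable N]
    (hab : ∀ a ∈ N, ∀ b ∈ N, ⁅a, b⁆ ∈ K) (hNK : ¬ N ≤ K) (hGN : commutator G ≤ N)
    (hfpf : ∀ x : G, x ∉ N → ∀ a ∈ N, ⁅x, a⁆ ∈ K → a ∈ K) (hout : ∃ g : G, g ∉ N)
    {q : ℕ} (hq : q.Prime) (hexp : ∀ a ∈ N, a ^ q ∈ K) (hnd : ND N)
    (hqd : ∀ θ : IrrCharacter N, charDegree (θ : N → ℂ) ≠ 1 → q ∣ charDegree (θ : N → ℂ))
    (hcopf : ∀ θ : IrrCharacter N, charDegree (θ : N → ℂ) ≠ 1 →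
      (charDegree (θ : N → ℂ)).Coprime N.index)
    (hinv : ∀ θ : IrrCharacter N, charDegree (θ : N → ℂ) ≠ 1 →
      ∀ (g : G) (n : N), (θ : N → ℂ) ⟨g * n * g⁻¹, hN.conj_mem n n.2 g⟩ = (θ : N → ℂ) n) :
    ∃ Q, ∀ θ : IrrCharacter N, charDegree (θ : N → ℂ) ≠ 1 → charDegree (θ : N → ℂ) = Q := by
  classical
  haveI := Fact.mk hq
  obtain ⟨R, hRn, hRc, k, hk⟩ := S4456.result (G := N) q hq hqd
  haveI := hRn
  by_cases hna : commutator N ≤ R
  swap
  · exact all_equal_of_nonabelian hnd hq hqd R hRc hk hna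
  by_cases hDN : commutator N = ⊥
  · -- all characters are linear
    refine ⟨1, fun θ hθ => absurd ?_ hθ⟩
    refine deg_eq_of_one θ.2 ?_
    rw [irr_apply_one_of_comm (fun a b => commutatorElement_eq_one_iff_mul_comm.1
      (Subgroup.mem_bot.1 (hDN ▸ Subgroup.commutator_mem_commutator (Subgroup.mem_top a)
        (Subgroup.mem_top b)))) θ.2, Nat.cast_one]
  set D₀ := commutator N with hD₀
  set D := D₀.map N.subtype with hD
  have hDeq : D = ⁅N, N⁆ := Subgroup.map_subtype_commutator N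
  haveI hDn : D.Normal := by rw [hDeq]; exact Subgroup.commutator_normal N N
  have hDle : D ≤ N := Subgroup.map_subtype_le D₀
  have hDK : D ≤ K := by rw [hDeq]; exact Subgroup.commutator_le.2 hab
  have hcomm : ∀ a ∈ N, ∀ b ∈ N, ⁅a, b⁆ ∈ D := fun a ha b hb => by
    rw [hDeq]; exact Subgroup.commutator_mem_commutator ha hb
  have hDmem : ∀ n : N, (n : G) ∈ D → n ∈ D₀ := fun n hn => by
    obtain ⟨m, hm, he⟩ := hn
    rwa [← Subtype.ext he]
  have hDq : ¬ q ∣ Nat.card D₀ := fun h => hq.not_dvd_one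
    (hRc ▸ Nat.dvd_gcd (h.trans (Subgroup.card_dvd_of_le hna)) dvd_rfl)
  -- vanishing
  have hcent : ∀ (n : N) (g : G), ⁅g, (n : G)⁆ ∉ D →
      Nat.card (Subgroup.centralizer ({n} : Set N)) * Nat.card D₀ = Nat.card N := by
    intro n g hgn
    refine cent_of_vanish fun θ hθ => ?_
    set n' : N := ⟨g * n * g⁻¹, hN.conj_mem n n.2 g⟩ with hn'
    obtain ⟨ν, hν⟩ : ∃ ν : N →* ℂˣ, ν n' ≠ ν n := by
      by_contra hall
      push Not at hall
      refine hgn ?_
      haveI : Finite (Abelianization N) := Finite.of_surjective _ QuotientGroup.mk_surjective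
      have h1 : Abelianization.of (n' * n⁻¹) = 1 :=
        TwoDeg.eq_one_of_forall_hom (fun a b => mul_comm a b) fun φ => by
          have := hall (φ.comp Abelianization.of)
          rw [map_mul, map_inv, map_mul, map_inv, mul_inv_eq_one]
          exact this
      refine ⟨n' * n⁻¹, ?_, (commutatorElement_def g (n : G)).symm⟩
      rw [hD₀, ← Abelianization.ker_of]
      exact h1
    have h1 := hinv θ hθ g n
    have h2 := hinv ⟨_, isIrrCharacter_mul_hom θ.2 ν⟩ (by
      rw [deg_eq_of_one (isIrrCharacter_mul_hom θ.2 ν) (d := charDegree (θ : N → ℂ))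
        (by rw [map_one, Units.val_one, one_mul]; exact deg_at_one θ)]
      exact hθ) g n
    change (ν n' : ℂ) * (θ : N → ℂ) n' = (ν n : ℂ) * (θ : N → ℂ) n at h2
    rw [h1] at h2
    by_contra h0
    exact hν (Units.ext (mul_right_cancel₀ h0 h2))
  -- the element
  obtain ⟨g₀, hg₀⟩ := hout
  obtain ⟨x, hxq, hxK⟩ : ∃ x : N, (∃ i, x ^ q ^ i = 1) ∧ (x : G) ∉ K := by
    obtain ⟨a, ha, haK⟩ := SetLike.not_le_iff_exists.1 hNK
    obtain ⟨i, m, hm, he⟩ := Nat.exists_eq_pow_mul_and_not_dvd (orderOf_pos (⟨a, ha⟩ : N)).ne'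
      q hq.ne_one
    refine ⟨⟨a, ha⟩ ^ m, ⟨i, by rw [← pow_mul, mul_comm, ← he]; exact pow_orderOf_eq_one _⟩,
      fun h => haK ?_⟩
    have hco : (m : ℤ).gcd q = 1 := (hq.coprime_iff_not_dvd.2 hm).symm
    rw [show a = (a ^ (m : ℤ)) ^ (Int.gcdA m q) * (a ^ (q : ℤ)) ^ (Int.gcdB m q) by
      rw [← zpow_mul, ← zpow_mul, ← zpow_add, ← Int.gcd_eq_gcd_ab, hco, Nat.cast_one, zpow_one],
      zpow_natCast, zpow_natCast]
    exact K.mul_mem (K.zpow_mem h _) (K.zpow_mem (hexp a ha) _)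
  have hgx : ⁅g₀, (x : G)⁆ ∉ D := fun h => hxK (hfpf g₀ hg₀ x x.2 (hDK h))
  -- the complement
  set A₀ := Subgroup.centralizer ({x} : Set N) with hA₀
  have hA₀card := hcent x g₀ hgx
  have hcov : ∀ n : N, ∃ d ∈ D₀, ∃ a ∈ A₀, n = d * a := by
    intro n
    let α := {y : N // y * n⁻¹ ∈ D₀}
    have hstep : ∀ c : N, ∀ y : α, c * (y : N) * c⁻¹ * n⁻¹ ∈ D₀ := fun c y => by
      rw [show c * (y : N) * c⁻¹ * n⁻¹ = ⁅c, (y : N)⁆ * ((y : N) * n⁻¹) by
        simp only [commutatorElement_def]; group]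
      exact D₀.mul_mem (Subgroup.commutator_mem_commutator (Subgroup.mem_top _) (Subgroup.mem_top _))
        y.2
    letI : MulAction (Subgroup.zpowers x) α :=
      { smul := fun c y => ⟨(c : N) * y * (c : N)⁻¹, hstep c y⟩
        one_smul := fun y => Subtype.ext (show (1 : N) * y * (1 : N)⁻¹ = y by group)
        mul_smul := fun c c' y => Subtype.ext (show ((c * c' : Subgroup.zpowers x) : N) * y *
          ((c * c' : Subgroup.zpowers x) : N)⁻¹ =
            (c : N) * ((c' : N) * y * (c' : N)⁻¹) * (c : N)⁻¹ by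
          rw [Subgroup.coe_mul]; group) }
    have hp : IsPGroup q (Subgroup.zpowers x) := by
      obtain ⟨i, hi⟩ := hxq
      rintro ⟨_, j, rfl⟩
      refine ⟨i, Subtype.ext ?_⟩
      show (x ^ j) ^ q ^ i = 1
      rw [← zpow_natCast, ← zpow_mul, mul_comm, zpow_mul, zpow_natCast, hi, one_zpow]
    have hα : Nat.card α = Nat.card D₀ := Nat.card_congr
      { toFun := fun y => ⟨_, y.2⟩
        invFun := fun d => ⟨d * n, by rw [mul_inv_cancel_right]; exact d.2⟩
        left_inv := fun y => Subtype.ext (inv_mul_cancel_right _ _)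
        right_inv := fun d => Subtype.ext (mul_inv_cancel_right _ _) }
    obtain ⟨y, hy⟩ := hp.nonempty_fixed_point_of_prime_not_dvd_card α (hα ▸ hDq)
    refine ⟨((y : N) * n⁻¹)⁻¹, D₀.inv_mem y.2, y, ?_, by group⟩
    rw [hA₀, Subgroup.mem_centralizer_singleton_iff]
    have h1 : x * (y : N) * x⁻¹ = y :=
      congrArg Subtype.val (hy ⟨x, Subgroup.mem_zpowers x⟩)
    exact (mul_inv_eq_iff_eq_mul.1 h1).symm
  have hdisj : ∀ d ∈ D₀, d ∈ A₀ → d = 1 := by
    intro d hd hdA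
    let F : D₀ × A₀ → N := fun p => (p.1 : N) * p.2
    have hs : Function.Surjective F := fun n => by
      obtain ⟨d, hd, a, ha, rfl⟩ := hcov n
      exact ⟨(⟨d, hd⟩, ⟨a, ha⟩), rfl⟩
    have hb := (Nat.bijective_iff_surjective_and_card F).2
      ⟨hs, by rw [Nat.card_prod, mul_comm]; exact hA₀card⟩
    have h1 := hb.1 (a₁ := (⟨d, hd⟩, 1)) (a₂ := (1, ⟨d, hdA⟩)) (by
      show d * ((1 : A₀) : N) = ((1 : D₀) : N) * d
      simp)
    exact congrArg Subtype.val (Prod.ext_iff.1 h1).1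
  have hA₀comm : ∀ a ∈ A₀, ∀ b ∈ A₀, a * b = b * a := fun a ha b hb =>
    commutatorElement_eq_one_iff_mul_comm.1 (hdisj _
      (Subgroup.commutator_mem_commutator (Subgroup.mem_top _) (Subgroup.mem_top _))
      (by rw [commutatorElement_def]
          exact A₀.mul_mem (A₀.mul_mem (A₀.mul_mem ha hb) (A₀.inv_mem ha)) (A₀.inv_mem hb)))
  have hcl : ∀ a ∈ A₀, ∀ g : G, ⁅g, (a : G)⁆ ∉ D → ∀ d ∈ D₀, a * d = d * a → d = 1 := by
    intro a ha g hga d hd hadd
    have hle : A₀ ≤ Subgroup.centralizer ({a} : Set N) := fun b hb =>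
      Subgroup.mem_centralizer_singleton_iff.2 (hA₀comm b hb a ha)
    have hcard : Nat.card (Subgroup.centralizer ({a} : Set N)) ≤ Nat.card A₀ :=
      le_of_eq (Nat.eq_of_mul_eq_mul_right (Nat.card_pos (α := D₀))
        ((hcent a g hga).trans hA₀card.symm))
    refine hdisj d hd ?_
    rw [Subgroup.eq_of_le_of_card_ge hle hcard]
    exact Subgroup.mem_centralizer_singleton_iff.2 hadd.symm
  have hxfix : ∀ d ∈ D₀, x * d = d * x → d = 1 :=
    hcl x (Subgroup.mem_centralizer_singleton_iff.2 rfl) g₀ hgx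
  obtain ⟨C₀, hS⟩ := exists_shape hnd A₀ hcov hdisj hDN x hxfix
  refine ⟨C₀.index, ?_⟩
  by_cases hab' : ⁅D₀, D₀⁆ = ⊥
  · exact hS.abel hab'
  exfalso
  set C := C₀.map N.subtype with hC
  set A := A₀.map N.subtype with hA
  have hd' : ⁅D, D⁆ = (⁅D₀, D₀⁆).map N.subtype := (Subgroup.map_commutator _ _ _).symm
  haveI hD'n : (⁅D, D⁆ : Subgroup G).Normal := Subgroup.commutator_normal D D
  have hd'mem : ∀ n : N, (n : G) ∈ ⁅D, D⁆ → n ∈ ⁅D₀, D₀⁆ := fun n hn => by
    rw [hd'] at hn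
    obtain ⟨m, hm, he⟩ := hn
    rwa [← Subtype.ext he]
  have hCmem : ∀ n : N, (n : G) ∈ C → n ∈ C₀ := fun n hn => by
    obtain ⟨m, hm, he⟩ := hn
    rwa [← Subtype.ext he]
  -- `C` consists of the elements centralising the section
  have hsec : ∀ n : N, (∀ d ∈ D₀, ⁅n, d⁆ ∈ ⁅D₀, D₀⁆) → n ∈ C₀ := by
    intro n hn
    by_contra hnC
    have hD'ne : ⁅D₀, D₀⁆ ≠ D₀ := fun e => by
      haveI : Nontrivial D₀ := (Subgroup.nontrivial_iff_ne_bot D₀).2 hDN
      refine (Group.IsSolvable.commutator_lt_top_of_nontrivial D₀).ne ?_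
      refine Subgroup.map_injective D₀.subtype_injective ?_
      rw [Subgroup.map_subtype_commutator, e, ← MonoidHom.range_eq_map, Subgroup.range_subtype]
    exact hD'ne (le_antisymm (Subgroup.commutator_le_self D₀)
      fun u hu => hS.semi n hnC u hu (hn u hu))
  have hCn : C.Normal := by
    refine ⟨fun c hc g => ?_⟩
    obtain ⟨c₀, hc₀, rfl⟩ := hc
    refine ⟨⟨g * c₀ * g⁻¹, hN.conj_mem _ c₀.2 g⟩, hsec _ fun d hd => hd'mem _ ?_, rfl⟩
    have hd₁ : (⟨g⁻¹ * d * g⁻¹⁻¹, hN.conj_mem _ d.2 g⁻¹⟩ : N) ∈ D₀ :=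
      hDmem _ (hDn.conj_mem _ ⟨d, hd, rfl⟩ g⁻¹)
    have h1 : ((⁅c₀, (⟨g⁻¹ * d * g⁻¹⁻¹, hN.conj_mem _ d.2 g⁻¹⟩ : N)⁆ : N) : G) ∈ ⁅D, D⁆ := by
      rw [hd']; exact ⟨_, hS.CD c₀ hc₀ _ hd₁, rfl⟩
    have h2 := hD'n.conj_mem _ h1 g
    simp only [commutatorElement_def, Subgroup.coe_mul, Subgroup.coe_inv] at h2 ⊢
    convert h2 using 1
    group
  have hCK : C ≤ K := by
    rintro _ ⟨c, hc, rfl⟩
    obtain ⟨d, hd, a, ha, rfl⟩ := hcov c
    have haC : a ∈ C₀ := (Subgroup.mul_mem_cancel_left _ (hS.DC hd)).1 hc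
    have hga : ⁅g₀, (a : G)⁆ ∈ D := by
      by_contra h
      exact hS.out a ha (hcl a ha g₀ h) haC
    exact K.mul_mem (hDK ⟨d, hd, rfl⟩) (hfpf g₀ hg₀ a a.2 (hDK hga))
  refine group_part (f := N.index) (N := N) (D := D) (A := A) (C := C) ?_ ?_
  · refine ⟨hN, hDn, hCn, hDle, hcomm, Subgroup.map_subtype_le A₀, ?_, ?_, ?_,
      Subgroup.map_mono hS.DC, Subgroup.map_subtype_le C₀, ?_, ?_, ?_, ?_, ?_, ?_, ?_⟩
    · intro n hn
      obtain ⟨d, hd, a, ha, he⟩ := hcov ⟨n, hn⟩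
      exact ⟨d, ⟨d, hd, rfl⟩, a, ⟨a, ha, rfl⟩, congrArg Subtype.val he⟩
    · rintro _ ⟨a, ha, rfl⟩ g hg _ ⟨d, hd, rfl⟩ he
      rw [hcl a ha g hg d hd (Subtype.ext he), map_one]
    · -- conjugates in `D`
      intro g d hd
      obtain ⟨d₀, hd₀, rfl⟩ := hd
      have hconj : IsConj d₀ (⟨g * d₀ * g⁻¹, hN.conj_mem _ d₀.2 g⟩ : N) := by
        have hall : ∀ θ : IrrCharacter N,
            (θ : N → ℂ) ⟨g * d₀ * g⁻¹, hN.conj_mem _ d₀.2 g⟩ = (θ : N → ℂ) d₀ := by
          intro θ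
          by_cases hθ : charDegree (θ : N → ℂ) = 1
          · have hg' : (⟨g * d₀ * g⁻¹, hN.conj_mem _ d₀.2 g⟩ : N) ∈ commutator N :=
              hDmem _ (hDn.conj_mem _ ⟨d₀, hd₀, rfl⟩ g)
            rw [TwoDeg.linear_apply_commutator hθ hg', TwoDeg.linear_apply_commutator hθ hd₀]
          · exact hinv θ hθ g d₀
        by_contra hno
        have h1 := column_orth d₀ (⟨g * d₀ * g⁻¹, hN.conj_mem _ d₀.2 g⟩ : N)
        rw [if_neg hno] at h1
        have h2 := column_orth d₀ d₀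
        rw [if_pos (IsConj.refl d₀)] at h2
        simp only [hall] at h1
        rw [h1] at h2
        exact Nat.cast_ne_zero.2 (Nat.card_pos (α := Subgroup.centralizer ({d₀} : Set N))).ne'
          h2.symm
      obtain ⟨n, hn⟩ := isConj_iff.1 hconj
      exact ⟨n, n.2, (congrArg Subtype.val hn).symm⟩
    · rintro _ ⟨c, hc, rfl⟩ _ ⟨d, hd, rfl⟩
      rw [hd']
      exact ⟨_, hS.CD c hc d hd, map_commutatorElement N.subtype c d⟩
    · intro n hn hnC u hu hnu
      obtain ⟨u₀, hu₀, rfl⟩ := hu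
      rw [hd']
      exact ⟨u₀, hS.semi ⟨n, hn⟩ (fun h => hnC ⟨_, h, rfl⟩) u₀ hu₀
        (hd'mem ⁅(⟨n, hn⟩ : N), u₀⁆ hnu), rfl⟩
    · intro g
      rw [← QuotientGroup.eq_one_iff, QuotientGroup.mk_pow, Subgroup.index_eq_card]
      exact pow_card_eq_one'
    · obtain ⟨χ, hχ⟩ := hS.deg
      rw [hC, show (C₀.map N.subtype).relIndex N = C₀.index by
        show ((C₀.map N.subtype).subgroupOf N).index = _
        rw [Subgroup.subgroupOf, Subgroup.comap_map_eq_self_of_injective N.subtype_injective]]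
      rw [← hχ]
      refine hcopf χ fun h1 => ?_
      rw [h1] at hχ
      have := hCK ⟨x, Subgroup.index_eq_one.1 hχ.symm ▸ Subgroup.mem_top x, rfl⟩
      exact hxK this
    · exact ⟨g₀, x, x.2, fun h => hxK (hfpf g₀ hg₀ x x.2 (hCK h))⟩
    · intro u hu hu' m hm
      obtain ⟨u₀, hu₀, rfl⟩ := hu
      rw [hd'] at hu' hm
      obtain ⟨m₀, hm₀, rfl⟩ := hm
      obtain ⟨v, hv, he⟩ := hS.cam hab' u₀ hu₀ (fun h => hu' ⟨_, h, rfl⟩) m₀ hm₀
      exact ⟨v, ⟨v, hv, rfl⟩, by rw [← he, map_commutatorElement]; rfl⟩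
    · rw [hd', Ne, Subgroup.map_eq_bot_iff_of_injective _ N.subtype_injective]
      exact hab'
  · exact Group.isSolvable_of_isSolvable_injective (Subgroup.inclusion_injective hDle)

/-- A degree graph with two components: no prime is joined to all. -/
theorem not_all_reach {G : Type*} [Group G]
    (htwo : Nat.card ((degreeGraph G).induce (degreePrimes G)).ConnectedComponent = 2)
    (v : degreePrimes G) (h : ∀ w, ((degreeGraph G).induce (degreePrimes G)).Reachable w v) :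
    False := by
  have : Subsingleton ((degreeGraph G).induce (degreePrimes G)).ConnectedComponent :=
    ⟨fun a b => by
      induction a using SimpleGraph.ConnectedComponent.ind with
      | _ x =>
        induction b using SimpleGraph.ConnectedComponent.ind with
        | _ y => exact SimpleGraph.ConnectedComponent.eq.2 ((h x).trans (h y).symm)⟩
  have := Nat.card_of_subsingleton (((degreeGraph G).induce (degreePrimes G)).connectedComponentMk v)
  omega

theorem adj_of_dvd {G : Type*} [Group G] {p r d : ℕ} (hp : p.Prime) (hr : r.Prime) (hne : p ≠ r)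
    (hd : d ∈ charDegrees G) (hpd : p ∣ d) (hrd : r ∣ d) : (degreeGraph G).Adj p r :=
  ⟨hne, hp, hr, d, hd, ((Nat.coprime_primes hp hr).2 hne).mul_dvd_of_dvd_of_dvd hpd hrd⟩

theorem reach_of_dvd {G : Type*} [Group G] {d : ℕ} (hd : d ∈ charDegrees G)
    (a b : degreePrimes G) (ha : (a : ℕ) ∣ d) (hb : (b : ℕ) ∣ d) :
    ((degreeGraph G).induce (degreePrimes G)).Reachable a b := by
  by_cases h : a = b
  · rw [h]
  · exact (show ((degreeGraph G).induce (degreePrimes G)).Adj a b from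
      adj_of_dvd a.2.1 b.2.1 (fun e => h (Subtype.ext e)) hd ha hb).reachable

/-- The main theorem. -/
theorem three_degrees [Group.IsSolvable G]
    (hnd : ∀ a ∈ charDegrees G, ∀ b ∈ charDegrees G, 1 < a → a < b → ¬ a ∣ b)
    (htwo : Nat.card ((degreeGraph G).induce (degreePrimes G)).ConnectedComponent = 2) :
    Nat.card (charDegrees G) = 3 := by
  classical
  have hpos : ∀ χ : IrrCharacter G, 0 < charDegree (χ : G → ℂ) := fun χ =>
    (Blocks.charDegree_eq χ.2).2
  have hnd' : ND G := fun χ χ' hne hdvd => by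
    by_contra hne'
    exact hnd _ ⟨χ, rfl⟩ _ ⟨χ', rfl⟩ (by have := hpos χ; omega)
      (lt_of_le_of_ne (Nat.le_of_dvd (hpos χ') hdvd) hne') hdvd
  obtain ⟨cc⟩ : Nonempty ((degreeGraph G).induce (degreePrimes G)).ConnectedComponent :=
    Nat.card_pos_iff.1 (htwo ▸ Nat.zero_lt_two) |>.1
  obtain ⟨v₀, -⟩ := cc.exists_rep
  -- no prime divides every degree
  have hno : ∀ p : ℕ, p.Prime →
      ¬ ∀ χ : IrrCharacter G, charDegree (χ : G → ℂ) ≠ 1 → p ∣ charDegree (χ : G → ℂ) := by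
    intro p hp hall
    have hdp : ∀ w : degreePrimes G, ∃ d ∈ charDegrees G, (w : ℕ) ∣ d ∧ p ∣ d := by
      intro w
      obtain ⟨hw, d, ⟨χ, rfl⟩, hwd⟩ := w.2
      exact ⟨_, ⟨χ, rfl⟩, hwd, hall χ fun e => hw.not_dvd_one (e ▸ hwd)⟩
    obtain ⟨d, hd, -, hpd⟩ := hdp v₀
    refine not_all_reach htwo ⟨p, hp, d, hd, hpd⟩ fun w => ?_
    obtain ⟨d', hd', hwd, hpd'⟩ := hdp w
    exact reach_of_dvd hd' _ _ hwd hpd'
  have hc : commutator G ≠ ⊥ := by
    intro hc
    obtain ⟨hw, d, ⟨χ, rfl⟩, hwd⟩ := v₀.2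
    have h1 : charDegree (χ : G → ℂ) = 1 := deg_eq_of_one χ.2 (by
      rw [irr_apply_one_of_comm (fun a b => commutatorElement_eq_one_iff_mul_comm.1
        (Subgroup.mem_bot.1 (hc ▸ Subgroup.commutator_mem_commutator (Subgroup.mem_top a)
          (Subgroup.mem_top b)))) χ.2, Nat.cast_one])
    exact hw.not_dvd_one (h1 ▸ hwd)
  obtain ⟨K, ⟨hKn, hK⟩, hKmax⟩ := Set.exists_max_image
    {S : Subgroup G | S.Normal ∧ ¬ commutator G ≤ S} (fun S => Nat.card S) (Set.toFinite _)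
    ⟨⊥, inferInstance, fun h1 => hc (le_bot_iff.1 h1)⟩
  haveI := hKn
  have hKmax' : ∀ M : Subgroup G, M.Normal → K < M → commutator G ≤ M := by
    intro M hM hlt
    by_contra hle
    exact hlt.ne (Subgroup.eq_of_le_of_card_ge hlt.le (hKmax M ⟨hM, hle⟩))
  by_cases hnil : ⁅commutator G, (⊤ : Subgroup G)⁆ ≤ K
  · obtain ⟨p, hp, hpd⟩ := common_prime hnd' K hK hKmax' hnil
    exact absurd hpd (hno p hp)
  -- the Frobenius quotient
  set π := QuotientGroup.mk' K with hπdef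
  have hπ : Function.Surjective π := QuotientGroup.mk'_surjective K
  have hcQ : commutator (G ⧸ K) = (commutator G).map π := by
    rw [commutator_def, commutator_def, Subgroup.map_commutator,
      Subgroup.map_top_of_surjective π hπ]
  have hminQ : ∀ M : Subgroup (G ⧸ K), M.Normal → M ≠ ⊥ → commutator (G ⧸ K) ≤ M := by
    intro M hM hM0
    haveI := hM
    have hlt : K < M.comap π := by
      refine lt_of_le_of_ne (fun x hx => ?_) fun e => hM0 ?_
      · rw [Subgroup.mem_comap, hπdef, QuotientGroup.mk'_apply, (QuotientGroup.eq_one_iff x).2 hx]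
        exact M.one_mem
      · rw [← Subgroup.map_comap_eq_self_of_surjective hπ M, ← e, hπdef, QuotientGroup.map_mk'_self]
    rw [hcQ, Subgroup.map_le_iff_le_comap]
    exact hKmax' _ inferInstance hlt
  have hneQ : commutator (G ⧸ K) ≠ ⊥ := by
    rw [hcQ, Ne, Subgroup.map_eq_bot_iff, hπdef, QuotientGroup.ker_mk']
    exact hK
  haveI : Group.IsSolvable (G ⧸ K) := Group.isSolvable_of_surjective hπ
  have habQ : ∀ a ∈ commutator (G ⧸ K), ∀ b ∈ commutator (G ⧸ K), a * b = b * a := by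
    have hb : ⁅commutator (G ⧸ K), commutator (G ⧸ K)⁆ = ⊥ := by
      by_contra hb
      exact commutator_ne_self (commutator (G ⧸ K)) hneQ
        (le_antisymm (Subgroup.commutator_le_self _) (hminQ _ (Subgroup.commutator_normal _ _) hb))
    intro a ha b hb'
    exact commutatorElement_eq_one_iff_mul_comm.1
      (Subgroup.mem_bot.1 (hb ▸ Subgroup.commutator_mem_commutator ha hb'))
  have hncQ : ¬ commutator (G ⧸ K) ≤ Subgroup.center (G ⧸ K) := by
    intro h
    refine hnil (Subgroup.commutator_le.2 fun a ha g _ => ?_)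
    rw [← QuotientGroup.eq_one_iff, ← QuotientGroup.mk'_apply, map_commutatorElement,
      commutatorElement_eq_one_iff_mul_comm]
    exact (Subgroup.mem_center_iff.1 (h (hcQ ▸ ⟨a, ha, rfl⟩)) _).symm
  have hfQ := ThreeDeg.fixedPointFree hminQ habQ hncQ
  set N := commutator G ⊔ K with hNdef
  haveI hNn : N.Normal := inferInstanceAs (commutator G ⊔ K).Normal
  have hGN : commutator G ≤ N := le_sup_left
  have hNm : ∀ a, a ∈ N ↔ π a ∈ commutator (G ⧸ K) := fun a => by
    rw [hcQ, ← Subgroup.mem_comap, Subgroup.comap_map_eq, hπdef, QuotientGroup.ker_mk']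
  have habN : ∀ a ∈ N, ∀ b ∈ N, ⁅a, b⁆ ∈ K := fun a ha b hb => by
    rw [← QuotientGroup.eq_one_iff, ← QuotientGroup.mk'_apply, map_commutatorElement,
      commutatorElement_eq_one_iff_mul_comm]
    exact habQ _ ((hNm a).1 ha) _ ((hNm b).1 hb)
  have hNK : ¬ N ≤ K := fun h => hK (hGN.trans h)
  have hfpf : ∀ x : G, x ∉ N → ∀ a ∈ N, ⁅x, a⁆ ∈ K → a ∈ K := fun x hx a ha hxa => by
    rw [← QuotientGroup.eq_one_iff]
    refine hfQ (π x) (fun h => hx ((hNm x).2 h)) (π a) ((hNm a).1 ha) ?_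
    rw [← commutatorElement_eq_one_iff_mul_comm, ← map_commutatorElement]
    exact (QuotientGroup.eq_one_iff _).2 hxa
  have hout : ∃ g : G, g ∉ N := by
    by_contra hall
    push Not at hall
    exact hncQ fun a ha => Subgroup.mem_center_iff.2 fun g => by
      obtain ⟨g, rfl⟩ := hπ g
      exact habQ _ ((hNm g).1 (hall g)) a ha
  obtain ⟨q, hq, hqc⟩ := Nat.exists_prime_and_dvd (n := Nat.card (commutator (G ⧸ K)))
    (fun h1 => hneQ (Subgroup.card_eq_one.1 h1))
  haveI := Fact.mk hq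
  have hexpN : ∀ a ∈ N, a ^ q ∈ K := by
    let S : Subgroup (G ⧸ K) :=
      { carrier := {e | e ∈ commutator (G ⧸ K) ∧ e ^ q = 1}
        one_mem' := ⟨Subgroup.one_mem _, one_pow q⟩
        mul_mem' := fun {a b} ha hb => ⟨Subgroup.mul_mem _ ha.1 hb.1, by
          rw [Commute.mul_pow (habQ a ha.1 b hb.1), ha.2, hb.2, one_mul]⟩
        inv_mem' := fun {a} ha => ⟨Subgroup.inv_mem _ ha.1, by rw [inv_pow, ha.2, inv_one]⟩ }
    have hSn : S.Normal := ⟨fun a ha g => ⟨Subgroup.Normal.conj_mem inferInstance a ha.1 g, by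
      rw [conj_pow, ha.2]; simp⟩⟩
    obtain ⟨⟨g, hgE⟩, hg⟩ := exists_prime_orderOf_dvd_card' q hqc
    rw [Subgroup.orderOf_mk] at hg
    have hS : S ≠ ⊥ := fun hS => hq.ne_one (by
      have h1 : g = 1 := Subgroup.mem_bot.1 (hS ▸ (⟨hgE, hg ▸ pow_orderOf_eq_one g⟩ : g ∈ S))
      rw [← hg, h1, orderOf_one])
    intro a ha
    rw [← QuotientGroup.eq_one_iff, QuotientGroup.mk_pow]
    exact (hminQ S hSn hS ((hNm a).1 ha)).2
  obtain ⟨hqf, htw⟩ := frobenius_twist N K hGN habN hNK hfpf hq hexpN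
  obtain ⟨χf, hχf⟩ := ThreeDeg.index_mem_degrees N K habN hNK hGN hfpf
  have hf1 : N.index ≠ 1 := fun h => by
    obtain ⟨g, hg⟩ := hout
    exact hg (Subgroup.index_eq_one.1 h ▸ Subgroup.mem_top g)
  have hqN : ∀ θ : IrrCharacter N, charDegree (θ : N → ℂ) ≠ 1 → q ∣ charDegree (θ : N → ℂ) := by
    intro θ hθ
    by_contra hqθ
    obtain ⟨χ, hχ⟩ := htw θ hqθ
    have h1 := hnd' χf χ (hχf ▸ hf1) (hχf ▸ hχ ▸ dvd_mul_right _ _)
    rw [hχf, hχ] at h1
    exact hθ (Nat.eq_of_mul_eq_mul_left (Nat.pos_of_ne_zero Subgroup.index_ne_zero_of_finite)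
      (h1.symm.trans (mul_one _).symm))
  -- the two components
  have hbelow : ∀ χ : IrrCharacter G, charDegree (χ : G → ℂ) ≠ 1 →
      charDegree (χ : G → ℂ) = N.index ∨ q ∣ charDegree (χ : G → ℂ) := by
    intro χ hχ
    obtain ⟨θ, hθ, -⟩ := exists_under N χ
    obtain ⟨⟨t, ht⟩, hi⟩ := S0887.result N _ χ.2 _ θ.2 hθ _ _ (deg_at_one χ)
      (Blocks.charDegree_eq θ.2).1
    by_cases hθ1 : charDegree (θ : N → ℂ) = 1
    · left
      rw [hθ1, Nat.div_one] at hi
      exact (hnd' χ χf hχ (hχf ▸ hi)).trans hχf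
    · right
      exact ht ▸ dvd_mul_of_dvd_left (hqN θ hθ1) t
  have hsep : ∀ χ : IrrCharacter G, q ∣ charDegree (χ : G → ℂ) →
      (charDegree (χ : G → ℂ)).Coprime N.index := by
    intro χ hqχ
    by_contra hnc
    obtain ⟨r, hr, hrχ, hrf⟩ := Nat.Prime.not_coprime_iff_dvd.1 hnc
    let vq : degreePrimes G := ⟨q, hq, _, ⟨χ, rfl⟩, hqχ⟩
    let vr : degreePrimes G := ⟨r, hr, _, ⟨χ, rfl⟩, hrχ⟩
    refine not_all_reach htwo vq fun w => ?_
    obtain ⟨hw, d, ⟨χ', rfl⟩, hwd⟩ := w.2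
    rcases hbelow χ' (fun e => hw.not_dvd_one (e ▸ hwd)) with h | h
    · refine (reach_of_dvd ⟨χ', rfl⟩ w vr hwd ?_).trans (reach_of_dvd ⟨χ, rfl⟩ vr vq hrχ hqχ)
      exact h ▸ hrf
    · exact reach_of_dvd ⟨χ', rfl⟩ w vq hwd h
  have hext : ∀ θ : IrrCharacter N, charDegree (θ : N → ℂ) ≠ 1 → ∃ χ : IrrCharacter G,
      charDegree (χ : G → ℂ) = charDegree (θ : N → ℂ) ∧
        (fun n : N => (χ : G → ℂ) n) = (θ : N → ℂ) := by
    intro θ hθ
    obtain ⟨χ, hχ, -⟩ := AbelianBound.exists_over (G := G) θ.2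
    obtain ⟨⟨t, ht⟩, hi⟩ := S0887.result N _ χ.2 _ θ.2 hχ _ _ (deg_at_one χ)
      (Blocks.charDegree_eq θ.2).1
    rw [ht, Nat.mul_div_cancel_left _ (Blocks.charDegree_eq θ.2).2] at hi
    have hco := hsep χ (ht ▸ dvd_mul_of_dvd_left (hqN θ hθ) t)
    rw [Nat.eq_one_of_dvd_coprimes hco (ht ▸ dvd_mul_left t _) hi, mul_one] at ht
    exact ⟨χ, ht, (AbelianBound.degree_le_of_inner (isCharacter_restrict (irr_isCharacter χ) N) θ.2
      hχ (a := charDegree (θ : N → ℂ)) (by rw [Subgroup.coe_one, deg_at_one, ht])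
      (Blocks.charDegree_eq θ.2).1).2 le_rfl⟩
  have hNd : ∀ χ : IrrCharacter G, charDegree (χ : G → ℂ) ≠ 1 →
      charDegree (χ : G → ℂ) = N.index ∨ ∃ θ : IrrCharacter N,
        charDegree (θ : N → ℂ) ≠ 1 ∧ charDegree (χ : G → ℂ) = charDegree (θ : N → ℂ) := by
    intro χ hχ
    rcases hbelow χ hχ with h | h
    · exact Or.inl h
    · obtain ⟨θ, hθ, -⟩ := exists_under N χ
      obtain ⟨⟨t, ht⟩, hi⟩ := S0887.result N _ χ.2 _ θ.2 hθ _ _ (deg_at_one χ)
        (Blocks.charDegree_eq θ.2).1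
      rw [ht, Nat.mul_div_cancel_left _ (Blocks.charDegree_eq θ.2).2] at hi
      have t1 := Nat.eq_one_of_dvd_coprimes (hsep χ h) (ht ▸ dvd_mul_left t _) hi
      rw [t1, mul_one] at ht
      exact Or.inr ⟨θ, fun e => hχ (ht.trans e), ht⟩
  have hndN : ND N := by
    intro θ θ' hθ hdvd
    by_cases hθ' : charDegree (θ' : N → ℂ) = 1
    · exact absurd (Nat.dvd_one.1 (hθ' ▸ hdvd)) hθ
    obtain ⟨χ, hχ, -⟩ := hext θ hθ
    obtain ⟨χ', hχ', -⟩ := hext θ' hθ'
    rw [← hχ, ← hχ'] at hdvd ⊢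
    exact hnd' χ χ' (hχ ▸ hθ) hdvd
  obtain ⟨Q, hQ⟩ := all_equal_kernel N K habN hNK hGN hfpf hout hq hexpN hndN hqN
    (fun θ hθ => by
      obtain ⟨χ, hχ, -⟩ := hext θ hθ
      exact hχ ▸ hsep χ (hχ ▸ hqN θ hθ))
    (fun θ hθ g n => by
      obtain ⟨χ, -, hχ⟩ := hext θ hθ
      rw [← hχ]
      exact isClassFunction_irr χ (n : G) g)
  obtain ⟨θ₁, hθ₁⟩ : ∃ θ : IrrCharacter N, charDegree (θ : N → ℂ) ≠ 1 := by
    by_contra hall
    push Not at hall
    obtain ⟨p, hp, hpf⟩ := Nat.exists_prime_and_dvd hf1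
    refine hno p hp fun χ hχ => ?_
    rcases hNd χ hχ with h | ⟨θ, hθ, -⟩
    · exact h ▸ hpf
    · exact absurd (hall θ) hθ
  obtain ⟨χ₁, hχ₁, -⟩ := hext θ₁ hθ₁
  have hQ₁ : charDegree (χ₁ : G → ℂ) = Q := hχ₁.trans (hQ θ₁ hθ₁)
  have hQ1 : Q ≠ 1 := fun e => hθ₁ ((hQ θ₁ hθ₁).trans e)
  have hQf : Q ≠ N.index := fun e => hqf (e ▸ hQ θ₁ hθ₁ ▸ hqN θ₁ hθ₁)
  have hset : charDegrees G = (({1, N.index, Q} : Finset ℕ) : Set ℕ) := by
    ext d
    simp only [Finset.coe_insert, Finset.coe_singleton, Set.mem_insert_iff, Set.mem_singleton_iff]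
    constructor
    · rintro ⟨χ, rfl⟩
      by_cases hχ : charDegree (χ : G → ℂ) = 1
      · exact Or.inl hχ
      rcases hNd χ hχ with h | ⟨θ, hθ, h⟩
      · exact Or.inr (Or.inl h)
      · exact Or.inr (Or.inr (h.trans (hQ θ hθ)))
    · rintro (rfl | rfl | rfl)
      · exact ⟨⟨_, isIrrCharacter_one⟩, by simp [charDegree]⟩
      · exact ⟨χf, hχf⟩
      · exact ⟨χ₁, hQ₁⟩
  rw [hset, Nat.card_eq_card_toFinset, Finset.toFinset_coe, Finset.card_eq_three]
  exact ⟨1, N.index, Q, Ne.symm hf1, Ne.symm hQ1, Ne.symm hQf, rfl⟩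

end Cfsg.Agent.Chars.NoDiv
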