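import Mathlib

/-!
Points on the sphere `p² + r² + w² = 1` over a finite field of odd order for which two given
characters are not one.
-/

set_option autoImplicit false

namespace Cfsg.Agent.Chars.OddPSL

open Finset

variable {F : Type*} [Field F] [Fintype F] [DecidableEq F]

theorem small_seven : ∀ a c : ZMod 7, a * a + c * c = 1 → c ≠ 0 →
    ∃ z ∈ ([(3, 3, 2), (3, 2, 3), (3, 5, 3)] : List (ZMod 7 × ZMod 7 × ZMod 7)),
      z.1 * z.1 + z.2.1 * z.2.1 + z.2.2 * z.2.2 = 1 ∧
        (∀ d, d * d = 1 - z.1 * z.1 → d = 0) ∧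
        ∀ d, d * d = 1 - (a * z.1 + c * z.2.1) * (a * z.1 + c * z.2.1) → d = 0 := by decide

theorem small_eleven : ∀ a c : ZMod 11, a * a + c * c = 1 → c ≠ 0 →
    ∃ z ∈ ([(2, 2, 2), (2, 4, 5), (2, 7, 5)] : List (ZMod 11 × ZMod 11 × ZMod 11)),
      z.1 * z.1 + z.2.1 * z.2.1 + z.2.2 * z.2.2 = 1 ∧
        (∀ d, d * d = 1 - z.1 * z.1 → d = 0) ∧
        ∀ d, d * d = 1 - (a * z.1 + c * z.2.1) * (a * z.1 + c * z.2.1) → d = 0 := by decide

theorem small_nineteen : ∀ a c : ZMod 19, a * a + c * c = 1 → c ≠ 0 →
    ∃ z ∈ ([(5, 4, 6), (5, 3, 9), (5, 9, 3), (5, 8, 8), (5, 6, 4)] : List (ZMod 19 × ZMod 19 × ZMod 19)),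
      z.1 * z.1 + z.2.1 * z.2.1 + z.2.2 * z.2.2 = 1 ∧
        (∀ d, d * d = 1 - z.1 * z.1 → d = 0) ∧
        ∀ d, d * d = 1 - (a * z.1 + c * z.2.1) * (a * z.1 + c * z.2.1) → d = 0 := by decide

local notation "χ" => quadraticChar F

section

variable (hF : ringChar F ≠ 2)
include hF

omit [DecidableEq F] in
theorem two_ne : (2 : F) ≠ 0 := Ring.two_ne_zero hF

theorem card_sqrt (ν : F) : ((univ.filter fun s : F => s * s = ν).card : ℤ) = χ ν + 1 := by
  rw [← quadraticChar_card_sqrts hF ν]
  congr 2
  ext s
  simp [sq]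

theorem sum_hyperbola {ν : F} (hν : ν ≠ 0) : ∑ r : F, χ (r * r - ν) = -1 := by
  have h2 := two_ne hF
  have h1 : ((univ.filter fun z : F × F => z.1 * z.1 - z.2 * z.2 = ν).card : ℤ) =
      ((univ : Finset F).erase 0).card := by
    congr 1
    refine Finset.card_bij' (fun z _ => z.1 - z.2) (fun t _ => ((t + ν / t) / 2, (ν / t - t) / 2))
      ?_ ?_ ?_ ?_
    · intro z hz
      simp only [mem_filter, mem_univ, true_and] at hz
      simp only [mem_erase, mem_univ, and_true]
      intro h
      exact hν (by rw [← hz, sub_eq_zero.1 h, sub_self])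
    · intro t ht
      simp only [mem_erase, mem_univ, and_true] at ht
      simp only [mem_filter, mem_univ, true_and]
      field_simp
      ring
    · intro z hz
      simp only [mem_filter, mem_univ, true_and] at hz
      have hne : z.1 - z.2 ≠ 0 := fun h => hν (by rw [← hz, sub_eq_zero.1 h, sub_self])
      refine Prod.ext ?_ ?_ <;> simp only
      · field_simp
        linear_combination -hz
      · field_simp
        linear_combination -hz
    · intro t ht
      simp only [mem_erase, mem_univ, and_true] at ht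
      field_simp
      ring
  have h3 : ((univ.filter fun z : F × F => z.1 * z.1 - z.2 * z.2 = ν).card : ℤ) =
      ∑ r : F, (χ (r * r - ν) + 1) := by
    rw [Finset.card_filter, Nat.cast_sum, Fintype.sum_prod_type]
    refine Finset.sum_congr rfl fun r _ => ?_
    rw [← card_sqrt hF, Finset.card_filter, Nat.cast_sum]
    refine Finset.sum_congr rfl fun s _ => ?_
    congr 1
    exact if_congr ⟨fun h => by linear_combination -h, fun h => by linear_combination -h⟩ rfl rfl
  rw [h1, Finset.card_erase_of_mem (mem_univ _), Finset.card_univ, Finset.sum_add_distrib] at h3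
  simp only [Finset.sum_const, Finset.card_univ, nsmul_eq_mul, mul_one] at h3
  have : 1 ≤ Fintype.card F := Fintype.card_pos
  push_cast [Nat.cast_sub this] at h3
  linarith

theorem sum_circle {ν : F} (hν : ν ≠ 0) : ∑ r : F, χ (ν - r * r) = -χ (-1) := by
  have : ∀ r : F, χ (ν - r * r) = χ (-1) * χ (r * r - ν) := fun r => by
    rw [← map_mul]; congr 1; ring
  rw [Finset.sum_congr rfl fun r _ => this r, ← Finset.mul_sum, sum_hyperbola hF hν]
  ring

theorem card_pairs (ν : F) : ((univ.filter fun z : F × F => z.1 * z.1 + z.2 * z.2 = ν).card : ℤ) =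
    ∑ r : F, (χ (ν - r * r) + 1) := by
  rw [Finset.card_filter, Nat.cast_sum, Fintype.sum_prod_type]
  refine Finset.sum_congr rfl fun r _ => ?_
  rw [← card_sqrt hF, Finset.card_filter, Nat.cast_sum]
  refine Finset.sum_congr rfl fun s _ => ?_
  congr 1
  exact if_congr ⟨fun h => by linear_combination h, fun h => by linear_combination h⟩ rfl rfl

theorem circle_value (ν : F) : ∑ r : F, (χ (ν - r * r) + 1) =
    if ν = 0 then (Fintype.card F : ℤ) + χ (-1) * ((Fintype.card F : ℤ) - 1)
    else (Fintype.card F : ℤ) - χ (-1) := by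
  rw [Finset.sum_add_distrib]
  simp only [Finset.sum_const, Finset.card_univ, nsmul_eq_mul, mul_one]
  split_ifs with h
  · subst h
    have h1 : ∀ r : F, χ (0 - r * r) = χ (-1) * (if r = 0 then 0 else 1) := fun r => by
      rw [show (0 : F) - r * r = -1 * r ^ 2 by ring, map_mul]
      split_ifs with hr
      · simp [hr]
      · rw [quadraticChar_sq_one' hr]
    rw [Finset.sum_congr rfl fun r _ => h1 r, ← Finset.mul_sum, Finset.sum_ite]
    simp only [Finset.sum_const_zero, Finset.sum_const, zero_add, nsmul_eq_mul, mul_one]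
    rw [Finset.filter_ne', Finset.card_erase_of_mem (mem_univ _), Finset.card_univ]
    push_cast [Nat.cast_sub (show 1 ≤ Fintype.card F from Fintype.card_pos)]
    ring
  · rw [sum_circle hF h]; ring

/-- The sphere. -/
def sphere (F : Type*) [Field F] [Fintype F] [DecidableEq F] : Finset (F × F × F) :=
  univ.filter fun z => z.1 * z.1 + z.2.1 * z.2.1 + z.2.2 * z.2.2 = 1

theorem sum_sphere (g : F → ℤ) : ∑ z ∈ sphere F, g z.1 =
    ∑ p : F, g p * (if 1 - p * p = 0 then (Fintype.card F : ℤ) + χ (-1) * ((Fintype.card F : ℤ) - 1)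
      else (Fintype.card F : ℤ) - χ (-1)) := by
  rw [sphere, Finset.sum_filter, Fintype.sum_prod_type]
  refine Finset.sum_congr rfl fun p _ => ?_
  rw [← circle_value hF, ← card_pairs hF, Finset.card_filter, Nat.cast_sum, Finset.mul_sum]
  refine Finset.sum_congr rfl fun z _ => ?_
  by_cases h : z.1 * z.1 + z.2 * z.2 = 1 - p * p
  · rw [if_pos h, if_pos (by linear_combination h)]; simp
  · rw [if_neg h, if_neg fun e => h (by linear_combination e)]; simp

theorem card_roots_one : (univ.filter fun p : F => 1 - p * p = 0).card = 2 := by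
  rw [Finset.card_eq_two]
  refine ⟨1, -1, fun h => two_ne hF (by linear_combination h), Finset.ext fun p => ?_⟩
  simp only [mem_filter, mem_univ, true_and, mem_insert, mem_singleton]
  constructor
  · intro h; exact mul_self_eq_one_iff.1 (sub_eq_zero.1 h).symm
  · rintro (rfl | rfl) <;> ring

theorem card_sphere : ((sphere F).card : ℤ) = (Fintype.card F : ℤ) ^ 2 + χ (-1) * Fintype.card F := by
  have h := sum_sphere hF (fun _ : F => (1 : ℤ))
  simp only [Finset.sum_const, nsmul_eq_mul, mul_one, one_mul] at h
  rw [h, Finset.sum_ite]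
  simp only [Finset.sum_const, nsmul_eq_mul]
  have hc := Finset.card_filter_add_card_filter_not (s := (univ : Finset F)) (fun p : F => 1 - p * p = 0)
  rw [card_roots_one hF, Finset.card_univ] at hc
  rw [card_roots_one hF]
  zify at hc
  push_cast
  linear_combination ((Fintype.card F : ℤ) - χ (-1)) * hc

theorem card_bad : 2 * (((sphere F).filter fun z => χ (1 - z.1 * z.1) ≠ 1).card : ℤ) =
    (sphere F).card + χ (-1) * ((Fintype.card F : ℤ) - χ (-1)) +
      2 * ((Fintype.card F : ℤ) + χ (-1) * ((Fintype.card F : ℤ) - 1)) := by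
  have hind : ∀ ν : F, 2 * (if χ ν ≠ 1 then (1 : ℤ) else 0) = 1 - χ ν + (if ν = 0 then 1 else 0) := by
    intro ν
    by_cases h : ν = 0
    · simp [h]
    · rcases quadraticChar_dichotomy h with e | e <;> simp [e, h]
  rw [Finset.card_filter, Nat.cast_sum, Finset.mul_sum]
  simp only [Nat.cast_ite, Nat.cast_one, Nat.cast_zero]
  rw [Finset.sum_congr rfl fun z _ => hind (1 - z.1 * z.1), Finset.sum_add_distrib, Finset.sum_sub_distrib,
    Finset.sum_const, nsmul_eq_mul, mul_one, sum_sphere hF (fun p => χ (1 - p * p)),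
    sum_sphere hF (fun p => if 1 - p * p = 0 then (1 : ℤ) else 0)]
  have h1 : ∀ p : F, χ (1 - p * p) * (if 1 - p * p = 0 then (Fintype.card F : ℤ) + χ (-1) * ((Fintype.card F : ℤ) - 1)
      else (Fintype.card F : ℤ) - χ (-1)) = ((Fintype.card F : ℤ) - χ (-1)) * χ (1 - p * p) := fun p => by
    by_cases h : 1 - p * p = 0
    · simp [h]
    · rw [if_neg h]; ring
  have h2 : ∀ p : F, (if 1 - p * p = 0 then (1 : ℤ) else 0) * (if 1 - p * p = 0 then (Fintype.card F : ℤ) + χ (-1) * ((Fintype.card F : ℤ) - 1)
      else (Fintype.card F : ℤ) - χ (-1)) = if 1 - p * p = 0 then (Fintype.card F : ℤ) + χ (-1) * ((Fintype.card F : ℤ) - 1) else 0 := fun p => by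
    by_cases h : 1 - p * p = 0 <;> simp [h]
  rw [Finset.sum_congr rfl fun p _ => h1 p, Finset.sum_congr rfl fun p _ => h2 p, ← Finset.mul_sum,
    sum_circle hF (one_ne_zero (α := F)), Finset.sum_ite, Finset.sum_const_zero, Finset.sum_const,
    card_roots_one hF, nsmul_eq_mul]
  push_cast; ring

theorem exists_sq {ν : F} (h : χ ν ≠ -1) : ∃ K, K * K = ν := by
  by_cases h0 : ν = 0
  · exact ⟨0, by simp [h0]⟩
  · have h1 : χ ν = 1 := (quadraticChar_dichotomy h0).resolve_right h
    obtain ⟨K, hK⟩ := (quadraticChar_one_iff_isSquare h0).1 h1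
    exact ⟨K, hK.symm⟩

omit hF in
theorem chi_sq {K : F} (hK : K ≠ 0) : χ (K * K) = 1 := by rw [← sq]; exact quadraticChar_sq_one' hK

/-- For a field of `q ≡ 3 (mod 4)` elements, `q ≥ 23`: the sphere has a point outside the
trivial ones with both values equal to one. -/
theorem not_all_exceptional {a c : F} (hac : a * a + c * c = 1) (hc : c ≠ 0) (hε : χ (-1) = -1)
    (hq : 23 ≤ Fintype.card F) :
    ∃ p r w : F, p * p + r * r + w * w = 1 ∧ χ (1 - p * p) = 1 ∧
      χ (1 - (a * p + c * r) * (a * p + c * r)) = 1 ∧ w ≠ 0 ∧ (p ≠ 0 ∨ r ≠ 0) := by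
  classical
  by_contra hno
  push Not at hno
  have H : ∀ p r w : F, p * p + r * r + w * w = 1 → χ (1 - p * p) = 1 → w ≠ 0 → (p ≠ 0 ∨ r ≠ 0) →
      χ (1 - (a * p + c * r) * (a * p + c * r)) ≠ 1 := fun p r w h1 h2 h4 h5 h3 => by
    rcases h5 with h5 | h5
    · exact h5 (hno p r w h1 h2 h3 h4).1
    · exact h5 (hno p r w h1 h2 h3 h4).2
  have hneg : ∀ x : F, x * x ≠ -1 := fun x hx => by
    have hx0 : x ≠ 0 := fun h => by simp [h] at hx
    have := chi_sq (F := F) hx0
    rw [hx, hε] at this; norm_num at this
  set Sq := univ.filter fun s : F => χ s = 1 ∧ χ (1 - s) = 1 with hSq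
  set k := Sq.card with hk
  have hkq : (4 * k + 3 : ℤ) = Fintype.card F := by
    have hJ : ∑ s : F, χ s * χ (1 - s) = 1 := by
      have h4 : (4 : F) ≠ 0 := by
        rw [show (4 : F) = 2 * 2 by norm_num]; exact mul_ne_zero (two_ne hF) (two_ne hF)
      have e : ∀ r : F, χ ((r + 1 / 2)) * χ (1 - (r + 1 / 2)) = χ (1 / 4 - r * r) := fun r => by
        rw [← map_mul]; congr 1
        have := two_ne hF
        field_simp
        ring
      rw [← Equiv.sum_comp (Equiv.addRight (1 / 2 : F))]
      simp only [Equiv.coe_addRight]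
      rw [Finset.sum_congr rfl fun r _ => e r, sum_circle hF (one_div_ne_zero h4), hε]; norm_num
    have hsum : ∑ s : F, (1 + χ s) * (1 + χ (1 - s)) = (Fintype.card F : ℤ) + 1 := by
      have e2 : ∑ s : F, χ (1 - s) = 0 := by
        rw [← quadraticChar_sum_zero hF]
        exact Equiv.sum_comp (Equiv.subLeft (1 : F)) (fun s => χ s)
      simp only [add_mul, mul_add, one_mul, mul_one, Finset.sum_add_distrib, hJ, e2,
        quadraticChar_sum_zero hF, Finset.sum_const, Finset.card_univ, nsmul_eq_mul]
      ring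
    have hterm : ∀ s : F, (1 + χ s) * (1 + χ (1 - s)) =
        (if s ∈ Sq then 4 else 0) + (if s = 0 then 2 else 0) + (if s = 1 then 2 else 0) := fun s => by
      simp only [Sq, mem_filter, mem_univ, true_and]
      by_cases h0 : s = 0
      · subst h0; simp
      by_cases h1 : s = 1
      · subst h1; simp
      rcases quadraticChar_dichotomy h0 with e | e <;>
        rcases quadraticChar_dichotomy (sub_ne_zero.2 (Ne.symm h1) : (1 : F) - s ≠ 0) with e' | e' <;>
        simp [e, e', h0, h1]
    rw [Finset.sum_congr rfl fun s _ => hterm s] at hsum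
    simp only [Finset.sum_add_distrib, Finset.sum_ite_eq', mem_univ, if_true, Finset.sum_ite_mem,
      univ_inter, Finset.sum_const, nsmul_eq_mul] at hsum
    rw [hk]; linarith
  have hk5 : 5 ≤ k := by omega
  -- the case `a = 0`
  have ha : a ≠ 0 := by
    intro ha
    have hp : ∃ s, s ∈ Sq := Finset.card_pos.1 (show 0 < k by omega)
    obtain ⟨s, hs⟩ := hp
    simp only [Sq, mem_filter, mem_univ, true_and] at hs
    obtain ⟨p, rfl⟩ := exists_sq hF (ν := s) (by rw [hs.1]; norm_num)
    obtain ⟨w, hw⟩ := exists_sq hF (ν := 1 - p * p) (by rw [hs.2]; norm_num)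
    refine H p 0 w (by linear_combination hw) hs.2 (fun h => ?_) (Or.inl fun h => ?_) ?_
    · rw [h, mul_zero] at hw; rw [← hw] at hs; simp at hs
    · rw [h] at hs; simp at hs
    · simp [ha]
  have hcast : ∀ t u L : F, t * t + u * u = 1 → u ≠ 0 → L ≠ 0 → χ (1 - L * L) = 1 → L * L ≠ a * a →
      L * L ≠ c * c * (t * t) → χ (a * a + c * c * (t * t) - L * L) = -1 := by
    intro t u L htu hu hL hL1 h1 h2
    by_contra hne
    obtain ⟨K, hK⟩ := exists_sq hF hne
    set m := a * a + c * c * (t * t) with hm
    have hm0 : m ≠ 0 := fun h => hneg (c * t / a) (by field_simp; linear_combination h)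
    set p := (a * L - c * t * K) / m with hp
    set ρ := (c * t * L + a * K) / m with hρ
    have e1 : a * p + c * t * ρ = L := by
      rw [hp, hρ]; field_simp; rw [hm]; ring
    have e2 : p * p + ρ * ρ = 1 := by
      rw [hp, hρ]; field_simp
      linear_combination m * hK - (L * L + K * K) * hm
    have hp0 : p ≠ 0 := fun h => h2 (by rw [← e1, h]; rw [h] at e2; linear_combination c * c * (t * t) * e2)
    have hρ0 : ρ ≠ 0 := fun h => h1 (by rw [← e1, h]; rw [h] at e2; linear_combination a * a * e2)
    have e3 : (1 : F) - p * p = ρ * ρ := by linear_combination -e2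
    refine H p (ρ * t) (ρ * u) (by linear_combination e2 + ρ * ρ * htu) (by rw [e3]; exact chi_sq hρ0)
      (mul_ne_zero hρ0 hu) (Or.inl hp0) ?_
    rwa [show a * p + c * (ρ * t) = L by linear_combination e1]
  have hct : ∀ t u : F, t * t + u * u = 1 → u ≠ 0 → t ≠ 0 → χ (1 - c * c * (t * t)) ≠ 1 := by
    intro t u htu hu ht
    have := H 0 t u (by linear_combination htu) (by simp) hu (Or.inr ht)
    rwa [show a * 0 + c * t = c * t by ring, show c * t * (c * t) = c * c * (t * t) by ring] at this
  -- the character sums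
  set ψ : F → ℤ := fun m => ∑ s ∈ Sq, χ (m - s) with hψ
  have hsqsum : ∑ m : F, ψ m * ψ m = (Fintype.card F : ℤ) * k - (k : ℤ) * k := by
    have hpair : ∀ s s' : F, ∑ m : F, χ (m - s) * χ (m - s') =
        if s = s' then (Fintype.card F : ℤ) - 1 else -1 := by
      intro s s'
      split_ifs with h
      · subst h
        have e : ∀ m : F, χ (m - s) * χ (m - s) = if m = s then 0 else 1 := fun m => by
          split_ifs with hm
          · simp [hm]
          · rw [← map_mul]; exact chi_sq (sub_ne_zero.2 hm)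
        rw [Finset.sum_congr rfl fun m _ => e m, Finset.sum_ite, Finset.sum_const_zero, Finset.sum_const,
          Finset.filter_ne', Finset.card_erase_of_mem (mem_univ _), Finset.card_univ, nsmul_eq_mul, mul_one]
        push_cast [Nat.cast_sub (show 1 ≤ Fintype.card F from Fintype.card_pos)]
        ring
      · have h2' := two_ne hF
        have hd : ((s - s') / 2) * ((s - s') / 2) ≠ 0 :=
          mul_self_ne_zero.2 (div_ne_zero (sub_ne_zero.2 h) h2')
        rw [← Equiv.sum_comp (Equiv.addRight ((s + s') / 2 : F))]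
        simp only [Equiv.coe_addRight]
        rw [← sum_hyperbola hF hd]
        refine Finset.sum_congr rfl fun r _ => ?_
        rw [← map_mul]; congr 1
        field_simp
        ring
    simp only [ψ, Finset.sum_mul, Finset.mul_sum]
    rw [Finset.sum_comm]
    rw [Finset.sum_congr rfl fun s _ => Finset.sum_comm]
    simp only [hpair]
    have e : ∀ s ∈ Sq, ∑ s' ∈ Sq, (if s' = s then (Fintype.card F : ℤ) - 1 else -1) =
        (Fintype.card F : ℤ) - k := by
      intro s hs
      rw [← Finset.add_sum_erase _ _ hs, if_pos rfl,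
        Finset.sum_congr rfl (fun x hx => if_neg (Finset.ne_of_mem_erase hx)), Finset.sum_const,
        Finset.card_erase_of_mem hs, nsmul_eq_mul, ← hk]
      push_cast [Nat.cast_sub (show 1 ≤ k by omega)]
      ring
    first
      | rw [Finset.sum_congr rfl e, Finset.sum_const, nsmul_eq_mul, ← hk]; ring
      | (rw [Finset.sum_congr rfl fun s hs => (Finset.sum_congr rfl fun x _ => if_congr eq_comm rfl rfl).trans (e s hs),
          Finset.sum_const, nsmul_eq_mul, ← hk]; ring)
  have hmem : ∀ s ∈ Sq, ∃ L, L * L = s ∧ L ≠ 0 ∧ χ (1 - L * L) = 1 := by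
    intro s hs
    simp only [Sq, mem_filter, mem_univ, true_and] at hs
    obtain ⟨L, rfl⟩ := exists_sq hF (ν := s) (by rw [hs.1]; norm_num)
    exact ⟨L, rfl, fun h => by rw [h] at hs; simp at hs, hs.2⟩
  have hψ0 : ψ 0 = -(k : ℤ) := by
    have : ∀ s ∈ Sq, χ (0 - s) = -1 := fun s hs => by
      simp only [Sq, mem_filter, mem_univ, true_and] at hs
      rw [show (0 : F) - s = -1 * s by ring, map_mul, hε, hs.1]; norm_num
    rw [hψ]; simp only; rw [Finset.sum_congr rfl this]; simp [hk]
  have hψ1 : ψ 1 = (k : ℤ) := by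
    have : ∀ s ∈ Sq, χ (1 - s) = 1 := fun s hs => by
      simp only [Sq, mem_filter, mem_univ, true_and] at hs; exact hs.2
    rw [hψ]; simp only; rw [Finset.sum_congr rfl this]; simp [hk]
  have bound : ∀ (m : F) (d : ℤ), 0 ≤ d → d ≤ 1 → χ (m - a * a) ≤ d →
      (∀ s ∈ Sq, s ≠ a * a → χ (m - s) = -1) → ψ m ≤ -(k : ℤ) + 1 + d := by
    intro m d hd0 hd1 hd hall
    rw [hψ]; simp only
    by_cases hA : a * a ∈ Sq
    · rw [← Finset.add_sum_erase _ _ hA, Finset.sum_congr rfl (fun s hs => hall s (Finset.mem_of_mem_erase hs)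
        (Finset.ne_of_mem_erase hs)), Finset.sum_const, Finset.card_erase_of_mem hA, nsmul_eq_mul, ← hk]
      push_cast [Nat.cast_sub (show 1 ≤ k by omega)]
      linarith
    · rw [Finset.sum_congr rfl fun s hs => hall s hs fun e => hA (e ▸ hs), Finset.sum_const, nsmul_eq_mul,
        ← hk]
      linarith
  have hψa : ψ (a * a) ≤ -(k : ℤ) + 1 := by
    have := bound (a * a) 0 le_rfl zero_le_one (by simp) fun s hs hne => by
      obtain ⟨L, rfl, hL, hL1⟩ := hmem s hs
      have := hcast 0 1 L (by ring) one_ne_zero hL hL1 hne (by simpa using hL)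
      simpa using this
    linarith
  set M : F → F := fun τ => a * a + c * c * τ with hM
  have hψM : ∀ τ ∈ Sq, ψ (M τ) ≤ -(k : ℤ) + 2 := by
    intro τ hτ
    obtain ⟨t, rfl, ht, ht1⟩ := hmem τ hτ
    obtain ⟨u, hu⟩ := exists_sq hF (ν := 1 - t * t) (by rw [ht1]; norm_num)
    have hu0 : u ≠ 0 := fun h => by rw [h, mul_zero] at hu; rw [← hu] at ht1; simp at ht1
    have := bound (M (t * t)) 1 zero_le_one le_rfl (by
      rw [hM]; simp only
      rw [add_sub_cancel_left, show c * c * (t * t) = (c * t) * (c * t) by ring, chi_sq (mul_ne_zero hc ht)])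
      fun s hs hne => by
        obtain ⟨L, rfl, hL, hL1⟩ := hmem s hs
        exact hcast t u L (by linear_combination hu) hu0 hL hL1 hne fun e =>
          hct t u (by linear_combination hu) hu0 ht (e ▸ hL1)
    linarith
  have hMinj : Function.Injective M := fun s t h => by
    simp only [M, add_right_inj] at h
    exact mul_left_cancel₀ (mul_ne_zero hc hc) h
  have hM0 : ∀ τ ∈ Sq, M τ ≠ 0 ∧ M τ ≠ 1 ∧ M τ ≠ a * a := by
    intro τ hτ
    obtain ⟨t, rfl, ht, ht1⟩ := hmem τ hτ
    refine ⟨fun h => hneg (c * t / a) (by field_simp; linear_combination h), fun h => ?_, fun h => ?_⟩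
    · have h1 : c * c * (t * t - 1) = 0 := by linear_combination h - hac
      rcases mul_eq_zero.1 h1 with e | e
      · exact hc (mul_self_eq_zero.1 e)
      · rw [← neg_sub, neg_eq_zero] at e; rw [e] at ht1; simp at ht1
    · have h1 : c * c * (t * t) = 0 := by linear_combination h
      rcases mul_eq_zero.1 h1 with e | e
      · exact hc (mul_self_eq_zero.1 e)
      · exact ht (mul_self_eq_zero.1 e)
  have h0a : (0 : F) ≠ a * a := fun h => ha (mul_self_eq_zero.1 h.symm)
  have h1a : (1 : F) ≠ a * a := fun h => hc (mul_self_eq_zero.1 (by linear_combination hac + h))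
  have hdisj : Disjoint ({0, 1, a * a} : Finset F) (Sq.image M) := by
    rw [Finset.disjoint_right]
    intro m hm
    obtain ⟨τ, hτ, rfl⟩ := Finset.mem_image.1 hm
    obtain ⟨e0, e1, e2⟩ := hM0 τ hτ
    simp [e0, e1, e2]
  have hle : ∑ m ∈ ({0, 1, a * a} : Finset F) ∪ Sq.image M, ψ m * ψ m ≤ (Fintype.card F : ℤ) * k - (k : ℤ) * k := by
    rw [← hsqsum]
    exact Finset.sum_le_sum_of_subset_of_nonneg (Finset.subset_univ _) fun m _ _ => mul_self_nonneg _
  rw [Finset.sum_union hdisj, Finset.sum_insert (by simp [h0a]), Finset.sum_insert (by simp [h1a]),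
    Finset.sum_singleton, Finset.sum_image fun _ _ _ _ h => hMinj h, hψ0, hψ1] at hle
  have hA : ((k : ℤ) - 1) * ((k : ℤ) - 1) ≤ ψ (a * a) * ψ (a * a) := by
    have : (1 : ℤ) ≤ k := by exact_mod_cast (show 1 ≤ k by omega)
    nlinarith
  have hB : (k : ℤ) * (((k : ℤ) - 2) * ((k : ℤ) - 2)) ≤ ∑ τ ∈ Sq, ψ (M τ) * ψ (M τ) := by
    have h := Finset.card_nsmul_le_sum Sq (fun τ => ψ (M τ) * ψ (M τ)) (((k : ℤ) - 2) * ((k : ℤ) - 2))
      fun τ hτ => by
        have := hψM τ hτ
        have : (2 : ℤ) ≤ k := by exact_mod_cast (show 2 ≤ k by omega)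
        nlinarith
    rwa [nsmul_eq_mul, ← hk] at h
  have hk5' : (5 : ℤ) ≤ k := by exact_mod_cast hk5
  rw [← hkq] at hle
  nlinarith [mul_le_mul_of_nonneg_right hk5' (mul_self_nonneg (k : ℤ))]

theorem exists_sphere_point {a c : F} (hac : a * a + c * c = 1) (hc : c ≠ 0) (h4 : 4 ≤ Fintype.card F) :
    ∃ p r w : F, p * p + r * r + w * w = 1 ∧ χ (1 - p * p) ≠ 1 ∧
      χ (1 - (a * p + c * r) * (a * p + c * r)) ≠ 1 := by
  classical
  by_contra hno
  push Not at hno
  set S := sphere F with hS
  set NA := S.filter fun z => χ (1 - z.1 * z.1) ≠ 1 with hNA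
  set NB := S.filter fun z => χ (1 - (a * z.1 + c * z.2.1) * (a * z.1 + c * z.2.1)) ≠ 1 with hNB
  have hbad := card_bad hF
  rw [← hS, ← hNA] at hbad
  have hsph := card_sphere hF
  rw [← hS] at hsph
  have hBA : NB.card = NA.card := by
    refine Finset.card_bij' (fun z _ => (a * z.1 + c * z.2.1, -c * z.1 + a * z.2.1, z.2.2))
      (fun z _ => (a * z.1 - c * z.2.1, c * z.1 + a * z.2.1, z.2.2)) ?_ ?_ ?_ ?_
    · intro z hz
      simp only [NA, NB, S, sphere, mem_filter, mem_univ, true_and] at hz ⊢
      exact ⟨by linear_combination hz.1 + (z.1 * z.1 + z.2.1 * z.2.1) * hac, hz.2⟩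
    · intro z hz
      simp only [NA, NB, S, sphere, mem_filter, mem_univ, true_and] at hz ⊢
      refine ⟨by linear_combination hz.1 + (z.1 * z.1 + z.2.1 * z.2.1) * hac, ?_⟩
      rw [show a * (a * z.1 - c * z.2.1) + c * (c * z.1 + a * z.2.1) = z.1 by
        linear_combination z.1 * hac]
      exact hz.2
    · intro z hz
      refine Prod.ext ?_ (Prod.ext ?_ rfl) <;> simp only
      · linear_combination z.1 * hac
      · linear_combination z.2.1 * hac
    · intro z hz
      refine Prod.ext ?_ (Prod.ext ?_ rfl) <;> simp only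
      · linear_combination z.1 * hac
      · linear_combination z.2.1 * hac
  have hdis : Disjoint NA NB := by
    rw [Finset.disjoint_left]
    intro z h1 h2
    simp only [NA, NB, S, sphere, mem_filter, mem_univ, true_and] at h1 h2
    exact h2.2 (hno z.1 z.2.1 z.2.2 h1.1 h1.2)
  have hsub : NA ∪ NB ⊆ S := Finset.union_subset (Finset.filter_subset _ _) (Finset.filter_subset _ _)
  have hle : (NA.card : ℤ) + NB.card ≤ S.card := by
    have := Finset.card_le_card hsub
    rw [Finset.card_union_of_disjoint hdis] at this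
    exact_mod_cast this
  rw [hBA] at hle
  have h4' : (4 : ℤ) ≤ Fintype.card F := by exact_mod_cast h4
  rcases quadraticChar_dichotomy (neg_ne_zero.2 (one_ne_zero (α := F))) with hε | hε
  · rw [hε] at hbad; linarith
  · rw [hε] at hbad hsph
    have hcirc : ((univ.filter fun z : F × F => z.1 * z.1 + z.2 * z.2 = 1).card : ℤ) = Fintype.card F + 1 := by
      rw [card_pairs hF, circle_value hF, if_neg one_ne_zero, hε]; ring
    have hmod : Fintype.card F % 4 = 3 := by
      by_contra h
      have hsq : IsSquare (-1 : F) := FiniteField.isSquare_neg_one_iff.2 h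
      rw [← quadraticChar_one_iff_isSquare (neg_ne_zero.2 one_ne_zero), hε] at hsq
      norm_num at hsq
    by_cases hq : 23 ≤ Fintype.card F
    · -- only trivial points have both values one
      obtain ⟨p, r, w, h1, h2, h3, hw, hpr⟩ := not_all_exceptional hF hac hc hε hq
      set R := S \ (NA ∪ NB) with hR
      have hRc : (R.card : ℤ) = Fintype.card F - 1 := by
        rw [hR, Finset.card_sdiff_of_subset hsub, Nat.cast_sub (Finset.card_le_card hsub),
          Finset.card_union_of_disjoint hdis, hBA]
        push_cast; linarith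
      set E := (univ.filter fun z : F × F => z.1 * z.1 + z.2 * z.2 = 1).image
          (fun z : F × F => ((z.1, z.2, 0) : F × F × F)) ∪ {(0, 0, 1), (0, 0, -1)} with hE
      have hEc : (E.card : ℤ) = Fintype.card F + 3 := by
        rw [hE, Finset.card_union_of_disjoint, Finset.card_image_of_injective _ (fun x y h => by
          simp only [Prod.mk.injEq, and_true] at h; exact Prod.ext h.1 h.2), Finset.card_pair]
        · push_cast; linarith
        · simp only [ne_eq, Prod.mk.injEq, true_and]
          exact fun h => two_ne hF (by linear_combination h)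
        · rw [Finset.disjoint_left]
          intro z hz hz'
          obtain ⟨y, -, rfl⟩ := Finset.mem_image.1 hz
          simp at hz'
      set P : Finset (F × F × F) := {(1, 0, 0), (-1, 0, 0), (a, c, 0), (-a, -c, 0)}
      have hP : P.card ≤ 4 := by
        refine (Finset.card_insert_le _ _).trans ?_
        refine Nat.succ_le_succ ((Finset.card_insert_le _ _).trans ?_)
        exact Nat.succ_le_succ ((Finset.card_insert_le _ _).trans (by simp))
      have hER : E \ P ⊆ R := by
        intro z hz
        simp only [Finset.mem_sdiff] at hz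
        obtain ⟨hz, hzP⟩ := hz
        simp only [P, mem_insert, mem_singleton, not_or] at hzP
        simp only [R, NA, NB, S, sphere, Finset.mem_sdiff, mem_union, mem_filter, mem_univ, true_and,
          not_or, not_and, not_not]
        rw [hE] at hz
        rcases Finset.mem_union.1 hz with hz | hz
        · obtain ⟨⟨x, y⟩, hy, rfl⟩ := Finset.mem_image.1 hz
          simp only [mem_filter, mem_univ, true_and] at hy
          simp only [Prod.mk.injEq, and_true] at hzP ⊢
          obtain ⟨n1, n2, n3, n4⟩ := hzP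
          refine ⟨by linear_combination hy, fun _ => ?_, fun _ => ?_⟩
          · rw [show (1 : F) - x * x = y * y by linear_combination -hy]
            refine chi_sq fun h0 => ?_
            rw [h0] at hy
            rcases mul_self_eq_one_iff.1 (show x * x = 1 by linear_combination hy) with e | e
            · exact n1 ⟨e, h0⟩
            · exact n2 ⟨e, h0⟩
          · rw [show (1 : F) - (a * x + c * y) * (a * x + c * y) = (c * x - a * y) * (c * x - a * y) by
              linear_combination (-(x * x + y * y)) * hac - hy]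
            refine chi_sq fun h0 => ?_
            have hb : (a * x + c * y) * (a * x + c * y) = 1 := by
              linear_combination (x * x + y * y) * hac + hy - (c * x - a * y) * h0
            have hx : x = a * (a * x + c * y) := by linear_combination (-x) * hac + c * h0
            have hy' : y = c * (a * x + c * y) := by linear_combination (-y) * hac - a * h0
            rcases mul_self_eq_one_iff.1 hb with e | e <;> rw [e] at hx hy'
            · exact n3 ⟨by simpa using hx, by simpa using hy'⟩
            · exact n4 ⟨by simpa using hx, by simpa using hy'⟩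
        · simp only [mem_insert, mem_singleton] at hz
          rcases hz with rfl | rfl <;> simp
      have hEq : E \ P = R := by
        refine Finset.eq_of_subset_of_card_le hER ?_
        have := Finset.le_card_sdiff P E
        omega
      have hmem : ((p, r, w) : F × F × F) ∈ R := by
        simp only [R, NA, NB, S, sphere, Finset.mem_sdiff, mem_union, mem_filter, mem_univ, true_and]
        exact ⟨h1, fun h => h.elim (fun h => h.2 h2) (fun h => h.2 h3)⟩
      rw [← hEq, Finset.mem_sdiff, hE, Finset.mem_union] at hmem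
      rcases hmem.1 with h | h
      · obtain ⟨y, -, hy⟩ := Finset.mem_image.1 h
        simp only [Prod.mk.injEq] at hy
        exact hw hy.2.2.symm
      · simp only [mem_insert, mem_singleton, Prod.mk.injEq] at h
        rcases h with ⟨e1, e2, -⟩ | ⟨e1, e2, -⟩ <;> exact hpr.elim (· e1) (· e2)
    · -- three small fields
      obtain ⟨n, hp, hn⟩ := FiniteField.card F (ringChar F)
      have hcases : Fintype.card F = 7 ∨ Fintype.card F = 11 ∨ Fintype.card F = 19 := by
        have : Fintype.card F ≠ 15 := fun h => by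
          have h15 : IsPrimePow 15 := h ▸ hn ▸ ((Nat.Prime.isPrimePow hp).pow n.pos.ne')
          rw [isPrimePow_nat_iff_bounded] at h15
          revert h15; decide
        omega
      have key : ∀ (m : ℕ) [Fact m.Prime], Fintype.card F = m →
          (∀ a c : ZMod m, a * a + c * c = 1 → c ≠ 0 → ∃ p r w : ZMod m, p * p + r * r + w * w = 1 ∧
            (∀ d, d * d = 1 - p * p → d = 0) ∧
            ∀ d, d * d = 1 - (a * p + c * r) * (a * p + c * r) → d = 0) → False := by
        intro m _ hm hall
        let e : F ≃+* ZMod m := FiniteField.ringEquivOfCardEq (K := F) (K' := ZMod m) (by rw [hm, ZMod.card])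
        obtain ⟨p, r, w, h1, h2, h3⟩ := hall (e a) (e c) (by rw [← map_mul, ← map_mul, ← map_add, hac, map_one])
          (by simpa using hc)
        have conv : ∀ ν : F, (∀ d : ZMod m, d * d = e ν → d = 0) → χ ν ≠ 1 := fun ν h hν => by
          have hν0 : ν ≠ 0 := fun h0 => by rw [h0] at hν; simp at hν
          obtain ⟨d, hd⟩ := (quadraticChar_one_iff_isSquare hν0).1 hν
          have := h (e d) (by rw [← map_mul, ← hd])
          rw [map_eq_zero] at this
          rw [this, mul_zero] at hd; exact hν0 hd
        refine conv (1 - (a * e.symm p + c * e.symm r) * (a * e.symm p + c * e.symm r)) ?_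
          (hno (e.symm p) (e.symm r) (e.symm w) (e.injective (by simpa using h1)) (conv _ ?_))
        · simpa using h3
        · simpa using h2
      rcases hcases with h | h | h
      · haveI : Fact (Nat.Prime 7) := ⟨by norm_num⟩
        exact key 7 h fun a c h1 h2 => by
          obtain ⟨z, -, hz⟩ := small_seven a c h1 h2; exact ⟨_, _, _, hz⟩
      · haveI : Fact (Nat.Prime 11) := ⟨by norm_num⟩
        exact key 11 h fun a c h1 h2 => by
          obtain ⟨z, -, hz⟩ := small_eleven a c h1 h2; exact ⟨_, _, _, hz⟩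
      · haveI : Fact (Nat.Prime 19) := ⟨by norm_num⟩
        exact key 19 h fun a c h1 h2 => by
          obtain ⟨z, -, hz⟩ := small_nineteen a c h1 h2; exact ⟨_, _, _, hz⟩

end

end Cfsg.Agent.Chars.OddPSL
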