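import Cfsg.Agent.Chars.OddPSLField
import Cfsg.Agent.Chars.GraphDiamTwo
import Mathlib

/-!
The odd-product graph on the involutions of `PSL₂(F)`.
-/

set_option autoImplicit false

namespace Cfsg.Agent.Chars.OddPSL

open Matrix

variable {F : Type*} [Field F] [Fintype F]

local notation "SL" => SpecialLinearGroup (Fin 2) F
local notation "M2" => Matrix (Fin 2) (Fin 2) F
local notation "PSL" => Matrix.ProjectiveSpecialLinearGroup (Fin 2) F

/-- The projection to `PSL₂`. -/
def proj : SL →* PSL := QuotientGroup.mk' _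

theorem proj_surjective : Function.Surjective (proj (F := F)) := QuotientGroup.mk'_surjective _

theorem proj_eq_one {g : SL} : proj g = 1 ↔ ∃ r : F, r * r = 1 ∧ (g : M2) = r • 1 := by
  rw [proj, QuotientGroup.mk'_apply, QuotientGroup.eq_one_iff, Matrix.SpecialLinearGroup.mem_center_iff]
  constructor
  · rintro ⟨r, hr, he⟩
    exact ⟨r, by simpa [sq] using hr, by rw [← he]; simp [Matrix.smul_one_eq_diagonal]⟩
  · rintro ⟨r, hr, he⟩
    exact ⟨r, by simpa [sq] using hr, by rw [he]; simp [Matrix.smul_one_eq_diagonal]⟩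

omit [Fintype F] in
theorem cayley (g : SL) : (g : M2) * (g : M2) = (g : M2).trace • (g : M2) - 1 := by
  have hd := g.2
  rw [Matrix.det_fin_two] at hd
  ext i j
  fin_cases i <;> fin_cases j <;>
    simp [Matrix.mul_apply, Fin.sum_univ_two, Matrix.trace_fin_two, Matrix.one_apply] <;>
    first | linear_combination (-1 : F) * hd | ring1 | linear_combination hd

theorem proj_eq_one_of_scalar {g : SL} {r : F} (h : (g : M2) = r • 1) : proj g = 1 := by
  refine proj_eq_one.2 ⟨r, ?_, h⟩
  have hd := g.2
  rw [h, Matrix.det_smul, Matrix.det_one, mul_one, Fintype.card_fin, sq] at hd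
  exact hd

theorem lift_involution (x : PSL) (hx : x * x = 1) (hx1 : x ≠ 1) :
    ∃ A : SL, proj A = x ∧ (A : M2).trace = 0 := by
  obtain ⟨A, rfl⟩ := proj_surjective x
  refine ⟨A, rfl, ?_⟩
  rw [← map_mul] at hx
  obtain ⟨r, -, hr⟩ := proj_eq_one.1 hx
  rw [Matrix.SpecialLinearGroup.coe_mul, cayley] at hr
  by_contra ht
  apply hx1
  refine proj_eq_one_of_scalar (r := (A : M2).trace⁻¹ * (r + 1)) ?_
  have : (A : M2).trace • (A : M2) = (r + 1) • (1 : M2) := by
    rw [add_smul, one_smul, ← hr, sub_add_cancel]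
  rw [mul_smul, ← this, inv_smul_smul₀ ht]

theorem proj_sq_of_trace_zero {A : SL} (h : (A : M2).trace = 0) : proj A * proj A = 1 := by
  rw [← map_mul]
  exact proj_eq_one_of_scalar (r := -1) (by rw [Matrix.SpecialLinearGroup.coe_mul, cayley, h]; simp)

theorem proj_pow_eq_one_of_scalar {g : SL} {m : ℕ} {r : F} (h : (g : M2) ^ m = r • 1) : proj g ^ m = 1 := by
  rw [← map_pow]
  exact proj_eq_one_of_scalar (r := r) (by rw [Matrix.SpecialLinearGroup.coe_pow, h])

theorem odd_order_of_pow {g : SL} {m : ℕ} (hm : Odd m) (h : proj g ^ m = 1) : Odd (orderOf (proj g)) :=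
  Odd.of_dvd_nat hm (orderOf_dvd_of_pow_eq_one h)

/-- The criterion in odd characteristic. -/
theorem odd_order_odd [DecidableEq F] (hF : ringChar F ≠ 2) (g : SL)
    (h : quadraticChar F (4 - (g : M2).trace * (g : M2).trace) ≠ 1) : Odd (orderOf (proj g)) := by
  have h2 := two_ne (F := F) hF
  obtain ⟨n, hp, hq⟩ := FiniteField.card F (ringChar F)
  haveI : Fact (ringChar F).Prime := ⟨hp⟩
  haveI : CharP F (ringChar F) := ringChar.charP F
  haveI : CharP M2 (ringChar F) := inferInstance
  set p := ringChar F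
  set q := Fintype.card F with hq'
  set s := (g : M2).trace
  have hpodd : Odd p := hp.odd_of_ne_two hF
  set hm : M2 := (2 : F) • (g : M2) - s • 1 with hhm
  have hsq : hm * hm = (s * s - 4) • (1 : M2) := by
    rw [hhm]
    simp only [sub_mul, mul_sub, Matrix.smul_mul, Matrix.mul_smul, smul_sub, smul_smul, mul_one, one_mul,
      cayley g, show (g : M2).trace = s from rfl]
    module
  by_cases hD : s * s - 4 = 0
  · have hz : hm ^ p = 0 := by
      obtain ⟨k, hk⟩ : ∃ k, p = k + 2 := ⟨p - 2, by have := hp.two_le; omega⟩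
      rw [hk, pow_add, sq hm, hsq, hD, zero_smul, mul_zero]
    have h3 : ((2 : F) • (g : M2)) ^ p = (s ^ p) • (1 : M2) := by
      have e : ((2 : F) • (g : M2)) = hm + s • 1 := by rw [hhm, sub_add_cancel]
      rw [e, add_pow_char_of_commute _ ((Commute.one_right hm).smul_right s), hz, zero_add, smul_pow,
        one_pow]
    rw [smul_pow] at h3
    refine odd_order_of_pow hpodd (proj_pow_eq_one_of_scalar (r := ((2 : F) ^ p)⁻¹ * s ^ p) ?_)
    rw [mul_smul, ← h3, inv_smul_smul₀ (pow_ne_zero _ h2)]
  · have hneg : quadraticChar F (4 - s * s) = -1 :=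
      (quadraticChar_dichotomy (fun e => hD (by linear_combination -e))).resolve_left h
    have hη : quadraticChar F (s * s - 4) = -quadraticChar F (-1) := by
      rw [show s * s - 4 = -1 * (4 - s * s) by ring, map_mul, hneg]; ring
    have hqodd : q % 2 = 1 := FiniteField.odd_card_of_char_ne_two hF
    have hpow : hm ^ q = ((s * s - 4) ^ (q / 2)) • hm := by
      conv_lhs => rw [show q = 2 * (q / 2) + 1 by omega]
      rw [pow_succ, pow_mul, sq hm, hsq, smul_pow, one_pow, Matrix.smul_mul, one_mul]
    have hfr : ((2 : F) • (g : M2)) ^ q = hm ^ q + (s • (1 : M2)) ^ q := by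
      have e : ((2 : F) • (g : M2)) = hm + s • 1 := by rw [hhm, sub_add_cancel]
      rw [e, hq]
      exact add_pow_char_pow_of_commute _ _ ((Commute.one_right hm).smul_right s)
    rw [smul_pow, smul_pow, one_pow, FiniteField.pow_card, FiniteField.pow_card, hpow] at hfr
    have hc := quadraticChar_eq_pow_of_char_ne_two hF hD
    have hg0 : ((g : M2) * ((g : M2).trace • 1 - (g : M2))) = 1 := by
      rw [mul_sub, cayley, Matrix.mul_smul, mul_one, sub_sub_cancel]
    have hchi := quadraticChar_neg_one hF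
    rcases quadraticChar_dichotomy (neg_ne_zero.2 (one_ne_zero (α := F))) with e | e
    · -- `q ≡ 1 (mod 4)`
      have hD1 : (s * s - 4) ^ (q / 2) = -1 := by
        have := quadraticChar_eq_pow_of_char_ne_two' hF (s * s - 4)
        rw [hη, e] at hc
        by_contra hne
        rw [if_neg] at hc
        · exact hne (((FiniteField.pow_dichotomy hF hD).resolve_left fun h1 => by
            rw [hη, e, h1] at this; norm_num at this; exact h2 (by linear_combination -this)))
        · intro h1
          rw [hη, e, h1] at this; norm_num at this; exact h2 (by linear_combination -this)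
      rw [hD1, hhm, neg_one_smul] at hfr
      have hgq : (g : M2) ^ q = s • 1 - (g : M2) := by
        apply smul_right_injective M2 h2
        simp only
        rw [hfr]; module
      have h4 : q % 4 = 1 := by
        have hsq' : IsSquare (-1 : F) := (quadraticChar_one_iff_isSquare (neg_ne_zero.2 one_ne_zero)).1 e
        rw [FiniteField.isSquare_neg_one_iff] at hsq'
        omega
      refine odd_order_of_pow (m := q / 2 + 1) ⟨q / 4, by omega⟩ ?_
      have h1 : ((g : M2) ^ (q / 2 + 1)) * ((g : M2) ^ (q / 2 + 1)) = 1 := by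
        rw [← pow_add, show q / 2 + 1 + (q / 2 + 1) = q + 1 by omega, pow_succ', hgq]
        exact hg0
      obtain ⟨r, hr⟩ := sq_one_scalar hF (g ^ (q / 2 + 1)) (Subtype.ext (by
        simpa [Matrix.SpecialLinearGroup.coe_pow] using h1))
      exact proj_pow_eq_one_of_scalar (by simpa [Matrix.SpecialLinearGroup.coe_pow] using hr)
    · have hD1 : (s * s - 4) ^ (q / 2) = 1 := by
        rw [hη, e] at hc
        by_contra hne
        rw [if_neg hne] at hc
        norm_num at hc
      rw [hD1, hhm, one_smul] at hfr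
      have hgq : (g : M2) ^ q = (g : M2) := by
        apply smul_right_injective M2 h2
        simp only
        rw [hfr]; module
      have h4 : q % 4 = 3 := by
        by_contra h
        have hsq' : IsSquare (-1 : F) := FiniteField.isSquare_neg_one_iff.2 h
        rw [← quadraticChar_one_iff_isSquare (neg_ne_zero.2 one_ne_zero), e] at hsq'
        norm_num at hsq'
      refine odd_order_of_pow (m := q / 2) ⟨q / 4, by omega⟩ ?_
      have hgq' : g ^ q = g := Subtype.ext (by simpa [Matrix.SpecialLinearGroup.coe_pow] using hgq)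
      have h1 : g ^ (q / 2) * g ^ (q / 2) = 1 := by
        rw [← pow_add]
        apply mul_left_cancel (a := g)
        rw [← pow_succ', show q / 2 + q / 2 + 1 = q by omega, hgq', mul_one]
      obtain ⟨r, hr⟩ := sq_one_scalar hF (g ^ (q / 2)) h1
      exact proj_pow_eq_one_of_scalar (by simpa [Matrix.SpecialLinearGroup.coe_pow] using hr)
where
  sq_one_scalar (hF : ringChar F ≠ 2) (X : SL) (hX : X * X = 1) : ∃ r : F, (X : M2) = r • 1 := by
    have h := congrArg (fun A : SL => (A : M2)) hX
    simp only [Matrix.SpecialLinearGroup.coe_mul, Matrix.SpecialLinearGroup.coe_one, cayley] at h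
    have h2 : (X : M2).trace • (X : M2) = (2 : F) • (1 : M2) := by
      rw [two_smul]
      exact eq_add_of_sub_eq h
    have ht : (X : M2).trace ≠ 0 := fun e => by
      rw [e, zero_smul] at h2
      have := congrArg (fun A : M2 => A 0 0) h2
      simp at this
      exact two_ne hF this.symm
    exact ⟨(X : M2).trace⁻¹ * 2, by rw [mul_smul, ← h2, inv_smul_smul₀ ht]⟩

/-- The criterion in characteristic two. -/
theorem odd_order_two [CharP F 2] (g : SL) (h : (g : M2).trace ≠ 0) : Odd (orderOf (proj g)) := by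
  obtain ⟨n, hp, hq⟩ := FiniteField.card F 2
  haveI : CharP M2 2 := inferInstance
  set s := (g : M2).trace with hs
  have hsum : ∀ i : ℕ, ∃ b : F, (g : M2) ^ (2 ^ i) = s ^ (2 ^ i - 1) • (g : M2) + b • 1 := by
    intro i
    induction i with
    | zero => exact ⟨0, by simp⟩
    | succ i ih =>
      obtain ⟨b, hb⟩ := ih
      refine ⟨b * b - s ^ (2 ^ i - 1) * s ^ (2 ^ i - 1), ?_⟩
      rw [pow_succ, pow_mul, hb, sq]
      have h1 : 1 ≤ 2 ^ i := Nat.one_le_two_pow
      have e : 2 ^ i * 2 - 1 = (2 ^ i - 1) + (2 ^ i - 1) + 1 := by omega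
      rw [e, pow_succ, pow_add]
      simp only [add_mul, mul_add, Matrix.smul_mul, Matrix.mul_smul, one_mul, mul_one, smul_smul,
        cayley g, ← hs, smul_sub]
      have h2 : (2 : F) = 0 := CharTwo.two_eq_zero
      match_scalars <;> first | ring1 | linear_combination (b * s ^ (2 ^ i - 1)) * h2 | linear_combination (-(b * s ^ (2 ^ i - 1))) * h2
  obtain ⟨b, hb⟩ := hsum n
  rw [← hq, FiniteField.pow_card_sub_one_eq_one s h, one_smul] at hb
  have h2 : (2 : F) = 0 := CharTwo.two_eq_zero
  set q := Fintype.card F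
  have hev : q % 2 = 0 := by rw [hq]; simp [Nat.pow_mod]
  have hq2 : 1 < q := Fintype.one_lt_card
  -- the image satisfies the same equation
  have hgq : ((g ^ q : SL) : M2) = (g : M2) + b • 1 := by rw [Matrix.SpecialLinearGroup.coe_pow, hb]
  have hd := (g ^ q).2
  have htr : ((g ^ q : SL) : M2).trace = s := by
    rw [hgq, Matrix.trace_add, Matrix.trace_smul, Matrix.trace_one, Fintype.card_fin, ← hs, smul_eq_mul]
    push_cast; linear_combination b * h2
  have hbb : b * (b + s) = 0 := by
    rw [hgq] at hd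
    have hd' := g.2
    rw [Matrix.det_fin_two] at hd hd'
    simp [Matrix.one_apply] at hd
    rw [hs, Matrix.trace_fin_two]
    linear_combination hd - hd'
  rcases mul_eq_zero.1 hbb with hb0 | hb0
  · refine odd_order_of_pow (m := q - 1) ⟨(q - 2) / 2, by omega⟩ ?_
    have e : g ^ q = g := Subtype.ext (by rw [hgq, hb0, zero_smul, add_zero])
    have : g ^ (q - 1) = 1 := mul_left_cancel (a := g)
      (by rw [← pow_succ', show q - 1 + 1 = q by omega, e, mul_one])
    rw [← map_pow, this, map_one]
  · refine odd_order_of_pow (m := q + 1) ⟨q / 2, by omega⟩ ?_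
    refine proj_pow_eq_one_of_scalar (r := 1) ?_
    have hbs : b = s := by linear_combination hb0 - s * h2
    rw [pow_succ', hb, mul_add, cayley, Matrix.mul_smul, mul_one, hbs, ← hs]
    match_scalars <;> first | linear_combination s * h2 | linear_combination -s * h2 | linear_combination h2 | linear_combination -h2 | ring1

omit [Fintype F] in
theorem coe_mk' (X : M2) (h : X.det = 1) : ((⟨X, h⟩ : SL) : M2) = X := rfl

/-- Two involutions with no odd product have a common neighbour. -/
theorem common_neighbour (hcard : 4 ≤ Fintype.card F) (x y : PSL) (hx : x * x = 1) (hx1 : x ≠ 1)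
    (hy : y * y = 1) (hy1 : y ≠ 1) (hxy : ¬ Odd (orderOf (x * y))) :
    ∃ z : PSL, z * z = 1 ∧ Odd (orderOf (x * z)) ∧ Odd (orderOf (y * z)) := by
  classical
  obtain ⟨A, rfl, hA⟩ := lift_involution x hx hx1
  obtain ⟨B, rfl, hB⟩ := lift_involution y hy hy1
  have hA' := hA; have hB' := hB
  rw [Matrix.trace_fin_two] at hA' hB'
  have hdA := A.2; have hdB := B.2
  rw [Matrix.det_fin_two] at hdA hdB
  by_cases hF : ringChar F = 2
  · haveI : CharP F 2 := hF ▸ ringChar.charP F
    have h2 : (2 : F) = 0 := CharTwo.two_eq_zero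
    have off : ∀ X : SL, proj X ≠ 1 → (X : M2) 0 0 + (X : M2) 1 1 = 0 →
        (X : M2) 0 1 ≠ 0 ∨ (X : M2) 1 0 ≠ 0 := by
      intro X hX ht
      by_contra h
      push Not at h
      refine hX (proj_eq_one_of_scalar (r := (X : M2) 0 0) ?_)
      ext i j
      fin_cases i <;> fin_cases j <;> simp [Matrix.one_apply, h.1, h.2]
      linear_combination ht - (X : M2) 0 0 * h2
    have fin : ∀ C : SL, (C : M2).trace = 0 → (((A : M2) * (C : M2)).trace ≠ 0) →
        (((B : M2) * (C : M2)).trace ≠ 0) →
        ∃ z : PSL, z * z = 1 ∧ Odd (orderOf (proj A * z)) ∧ Odd (orderOf (proj B * z)) := fun C hC h1 h3 =>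
      ⟨proj C, proj_sq_of_trace_zero hC, by rw [← map_mul]; exact odd_order_two _ (by rwa [Matrix.SpecialLinearGroup.coe_mul]),
        by rw [← map_mul]; exact odd_order_two _ (by rwa [Matrix.SpecialLinearGroup.coe_mul])⟩
    by_cases hc1 : (A : M2) 1 0 ≠ 0 ∧ (B : M2) 1 0 ≠ 0
    · refine fin ⟨!![1, 1; 0, 1], by simp [Matrix.det_fin_two]⟩ ?_ ?_ ?_ <;>
        simp [Matrix.trace_fin_two, Matrix.mul_apply, Fin.sum_univ_two]
      · linear_combination h2
      · intro h; exact hc1.1 (by linear_combination h - hA')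
      · intro h; exact hc1.2 (by linear_combination h - hB')
    by_cases hc2 : (A : M2) 0 1 ≠ 0 ∧ (B : M2) 0 1 ≠ 0
    · refine fin ⟨!![1, 0; 1, 1], by simp [Matrix.det_fin_two]⟩ ?_ ?_ ?_ <;>
        simp [Matrix.trace_fin_two, Matrix.mul_apply, Fin.sum_univ_two]
      · linear_combination h2
      · intro h; exact hc2.1 (by linear_combination h - hA')
      · intro h; exact hc2.2 (by linear_combination h - hB')
    refine fin ⟨!![0, 1; 1, 0], by simp [Matrix.det_fin_two]; linear_combination -h2⟩ ?_ ?_ ?_ <;>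
      simp [Matrix.trace_fin_two, Matrix.mul_apply, Fin.sum_univ_two]
    all_goals
      intro h
      have oa := off A hx1 hA'
      have ob := off B hy1 hB'
      grind
  · have h2 := two_ne (F := F) hF
    set a := -(((A : M2) * (B : M2)).trace) / 2 with ha
    have h4 : quadraticChar F (4 - ((A * B : SL) : M2).trace * ((A * B : SL) : M2).trace) = 1 := by
      by_contra hne
      exact hxy (by rw [← map_mul]; exact odd_order_odd hF _ hne)
    rw [Matrix.SpecialLinearGroup.coe_mul] at h4
    have hAB : ((A : M2) * (B : M2)).trace = -2 * a := by rw [ha]; field_simp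
    rw [hAB] at h4
    obtain ⟨d, hd⟩ := exists_sq hF (ν := 4 - -2 * a * (-2 * a)) (by rw [h4]; norm_num)
    set c := d / 2 with hc
    have hac : a * a + c * c = 1 := by
      rw [hc]; field_simp; linear_combination hd
    have hc0 : c ≠ 0 := fun h => by
      have : d = 0 := by rw [hc] at h; simpa [h2] using h
      rw [← hd, this] at h4; simp at h4
    obtain ⟨p, r, w, hs, hp, hr⟩ := exists_sphere_point hF hac hc0 hcard
    set U : M2 := c⁻¹ • ((B : M2) - a • (A : M2)) with hU
    have hU00 : U 0 0 + U 1 1 = 0 := by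
      simp [hU]; grind
    rw [Matrix.trace_fin_two] at hAB
    simp only [Matrix.mul_apply, Fin.sum_univ_two] at hAB
    have hUd : U 0 0 * U 1 1 - U 0 1 * U 1 0 = 1 := by
      simp [hU]; field_simp
      grind
    have hUA : (A : M2) 0 0 * U 0 0 + (A : M2) 0 1 * U 1 0 + ((A : M2) 1 0 * U 0 1 + (A : M2) 1 1 * U 1 1) = 0 := by
      simp [hU]; field_simp
      grind
    have hBU : ∀ i j, (B : M2) i j = a * (A : M2) i j + c * U i j := fun i j => by
      simp [hU]; field_simp; ring
    set C : M2 := p • (A : M2) + r • U + w • ((A : M2) * U) with hC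
    have hCd : C.det = 1 := by
      rw [Matrix.det_fin_two]
      simp [hC, Matrix.mul_apply, Fin.sum_univ_two]
      grind
    have hCt : C.trace = 0 := by
      rw [Matrix.trace_fin_two]
      simp [hC, Matrix.mul_apply, Fin.sum_univ_two]
      grind
    have hAC : ((A : M2) * C).trace = -2 * p := by
      rw [Matrix.trace_fin_two]
      simp [hC, Matrix.mul_apply, Fin.sum_univ_two]
      grind
    have hBC : ((B : M2) * C).trace = -2 * (a * p + c * r) := by
      rw [Matrix.trace_fin_two]
      simp [hC, Matrix.mul_apply, Fin.sum_univ_two, hBU]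
      grind
    obtain ⟨Cs, hCs⟩ : ∃ Cs : SL, (Cs : M2) = C := ⟨⟨C, hCd⟩, rfl⟩
    have key : ∀ (X : SL) (v : F), ((X : M2) * C).trace = -2 * v → quadraticChar F (1 - v * v) ≠ 1 →
        Odd (orderOf (proj X * proj Cs)) := by
      intro X v hv hne
      rw [← map_mul]
      refine odd_order_odd hF _ ?_
      rw [Matrix.SpecialLinearGroup.coe_mul, hCs, hv, show (4 : F) - -2 * v * (-2 * v) = 2 * 2 * (1 - v * v) by ring,
        map_mul, chi_sq (F := F) h2, one_mul]
      exact hne
    exact ⟨proj Cs, proj_sq_of_trace_zero (by rw [hCs]; exact hCt), key A p hAC hp, key B _ hBC hr⟩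

/-- A second involution commuting with a given one. -/
theorem exists_commuting (hcard : 4 ≤ Fintype.card F) (x : PSL) (hx : x * x = 1) (hx1 : x ≠ 1) :
    ∃ y : PSL, y * y = 1 ∧ y ≠ 1 ∧ y ≠ x ∧ orderOf (x * y) = 2 := by
  classical
  obtain ⟨A, rfl, hA⟩ := lift_involution x hx hx1
  have hA' := hA; rw [Matrix.trace_fin_two] at hA'
  have hdA := A.2; rw [Matrix.det_fin_two] at hdA
  suffices h : ∃ C : SL, (C : M2).trace = 0 ∧ proj C ≠ 1 ∧ proj A ≠ proj C ∧ (proj A * proj C) ^ 2 = 1 by
    obtain ⟨C, hC, h1, h3, h4⟩ := h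
    refine ⟨proj C, proj_sq_of_trace_zero hC, h1, fun e => h3 e.symm, orderOf_eq_prime h4 fun e => h3 ?_⟩
    rw [mul_eq_one_iff_eq_inv.1 e, inv_eq_of_mul_eq_one_right (proj_sq_of_trace_zero hC)]
  by_cases hF : ringChar F = 2
  · haveI : CharP F 2 := hF ▸ ringChar.charP F
    have h2 : (2 : F) = 0 := CharTwo.two_eq_zero
    obtain ⟨l, -, hl⟩ : ∃ l ∈ (Finset.univ : Finset F), l ∉ ({0, 1} : Finset F) :=
      Finset.exists_mem_notMem_of_card_lt_card (by
        refine lt_of_le_of_lt ((Finset.card_insert_le _ _).trans (by simp : _ ≤ 2)) ?_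
        rw [Finset.card_univ]; omega)
    simp only [Finset.mem_insert, Finset.mem_singleton, not_or] at hl
    set X : M2 := 1 + l • ((A : M2) - 1) with hX
    have hXd : X.det = 1 := by
      rw [Matrix.det_fin_two]; simp [hX, Matrix.one_apply]
      grind
    obtain ⟨Xs, hXs⟩ : ∃ Xs : SL, (Xs : M2) = X := ⟨⟨X, hXd⟩, rfl⟩
    refine ⟨Xs, ?_, fun e => ?_, fun e => ?_, ?_⟩
    · rw [hXs, Matrix.trace_fin_two]; simp [hX, Matrix.one_apply]; grind
    · obtain ⟨r, hr, he⟩ := proj_eq_one.1 e
      rw [hXs, hX] at he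
      apply hx1
      refine proj_eq_one_of_scalar (r := l⁻¹ * (r - 1) + 1) ?_
      have e1 : (A : M2) - 1 = l⁻¹ • ((r - 1) • (1 : M2)) := by
        rw [sub_smul, one_smul, ← he, add_sub_cancel_left, inv_smul_smul₀ hl.1]
      rw [add_smul, one_smul, mul_smul, ← e1, sub_add_cancel]
    · rw [← mul_inv_eq_one, ← map_inv, ← map_mul] at e
      obtain ⟨r, hr, he⟩ := proj_eq_one.1 e
      rw [show r = 1 by
        have : (r - 1) * (r - 1) = 0 := by linear_combination hr - (r - 1) * h2
        exact sub_eq_zero.1 (mul_self_eq_zero.1 this), one_smul] at he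
      have e' : A * Xs⁻¹ = 1 := Subtype.ext he
      rw [mul_inv_eq_one] at e'
      have e2 := congrArg (fun Y : SL => (Y : M2)) e'
      simp only [hXs, hX] at e2
      apply hx1
      refine proj_eq_one_of_scalar (r := 1) ?_
      have e3 : (l - 1) • ((A : M2) - 1) = 0 := by
        rw [sub_smul, one_smul, sub_eq_zero]
        conv_rhs => rw [e2]
        rw [add_sub_cancel_left]
      rw [one_smul]
      exact sub_eq_zero.1 ((smul_eq_zero.1 e3).resolve_left (sub_ne_zero.2 hl.2))
    · rw [← map_mul, ← map_pow]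
      refine proj_eq_one_of_scalar (r := 1) ?_
      rw [one_smul, sq, Matrix.SpecialLinearGroup.coe_mul, Matrix.SpecialLinearGroup.coe_mul, hXs, hX]
      ext i j
      fin_cases i <;> fin_cases j <;> simp [Matrix.mul_apply, Fin.sum_univ_two, Matrix.one_apply] <;> grind
  · have h2 := two_ne (F := F) hF
    obtain ⟨u, v, e, hz, hne⟩ : ∃ u v e : F,
        2 * (A : M2) 0 0 * u + (A : M2) 0 1 * e + (A : M2) 1 0 * v = 0 ∧ -(u * u) - v * e ≠ 0 := by
      by_cases hb : (A : M2) 0 1 = 0
      · by_cases hg : (A : M2) 1 0 = 0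
        · exact ⟨0, 1, -1, by rw [hb, hg]; ring, by norm_num⟩
        · exact ⟨1, -(2 * (A : M2) 0 0) / (A : M2) 1 0, 0, by rw [hb]; field_simp; ring, by norm_num⟩
      · exact ⟨1, 0, -(2 * (A : M2) 0 0) / (A : M2) 0 1, by field_simp; ring, by norm_num⟩
    set δ := -(u * u) - v * e with hδ
    obtain ⟨s, t, hst⟩ : ∃ s t : F, s * s + t * t = δ⁻¹ := by
      obtain ⟨⟨s, t⟩, h⟩ := Finset.card_pos.1 (show 0 < (Finset.univ.filter
          fun z : F × F => z.1 * z.1 + z.2 * z.2 = δ⁻¹).card by
        have h := card_pairs hF δ⁻¹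
        rw [circle_value hF, if_neg (inv_ne_zero hne)] at h
        rcases quadraticChar_dichotomy (neg_ne_zero.2 (one_ne_zero (α := F))) with e' | e' <;>
          rw [e'] at h <;> omega)
      exact ⟨s, t, (Finset.mem_filter.1 h).2⟩
    set X : M2 := !![u, v; e, -u] with hX
    set C : M2 := s • X + t • ((A : M2) * X) with hC
    have hCd : C.det = 1 := by
      have e1 : C.det = (s * s + t * t) * δ := by
        rw [Matrix.det_fin_two]; simp [hC, hX, Matrix.mul_apply, Fin.sum_univ_two]
        grind
      rw [e1, hst, inv_mul_cancel₀ hne]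
    have hCt : C.trace = 0 := by
      rw [Matrix.trace_fin_two]; simp [hC, hX, Matrix.mul_apply, Fin.sum_univ_two]; grind
    have hAC : ((A : M2) * C).trace = 0 := by
      rw [Matrix.trace_fin_two]; simp [hC, hX, Matrix.mul_apply, Fin.sum_univ_two]; grind
    obtain ⟨Cs, hCs⟩ : ∃ Cs : SL, (Cs : M2) = C := ⟨⟨C, hCd⟩, rfl⟩
    refine ⟨Cs, by rw [hCs]; exact hCt, fun h => ?_, fun h => ?_, ?_⟩
    · obtain ⟨k, hk, he⟩ := proj_eq_one.1 h
      rw [hCs] at he
      rw [he, Matrix.trace_smul, Matrix.trace_one, Fintype.card_fin, smul_eq_mul] at hCt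
      have : k = 0 := by simpa [h2] using hCt
      rw [this, mul_zero] at hk; exact zero_ne_one hk
    · have h1 : proj (A * Cs) = 1 := by
        rw [map_mul, ← h, proj_sq_of_trace_zero hA]
      obtain ⟨k, hk, he⟩ := proj_eq_one.1 h1
      rw [Matrix.SpecialLinearGroup.coe_mul, hCs] at he
      rw [he, Matrix.trace_smul, Matrix.trace_one, Fintype.card_fin, smul_eq_mul] at hAC
      have : k = 0 := by simpa [h2] using hAC
      rw [this, mul_zero] at hk; exact zero_ne_one hk
    · rw [← map_mul, sq]
      exact proj_sq_of_trace_zero (by rw [Matrix.SpecialLinearGroup.coe_mul, hCs]; exact hAC)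

end Cfsg.Agent.Chars.OddPSL
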