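import Mathlib

/-!
Two conjugate involutions of a symmetric group of degree at least five have a common neighbour
in the odd-product graph.
-/

set_option autoImplicit false

namespace Cfsg.Agent.Chars.OddSym

open Equiv Finset

variable {α : Type*} [Fintype α] [DecidableEq α]

/-- `f` returns `v` to itself in an odd number of steps. -/
def OddPer (f : Perm α) (v : α) : Prop := ∃ k : ℕ, Odd k ∧ (f ^ k) v = v

/-- The three-cycle `a ↦ b ↦ c ↦ a`. -/
def cyc (a b c : α) : Perm α := swap a b * swap b c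

omit [Fintype α] in
theorem cyc_spec {a b c : α} (hab : a ≠ b) (hbc : b ≠ c) (hac : a ≠ c) :
    cyc a b c a = b ∧ cyc a b c b = c ∧ cyc a b c c = a ∧
      (∀ v, v ≠ a → v ≠ b → v ≠ c → cyc a b c v = v) := by
  refine ⟨?_, ?_, ?_, fun v h1 h2 h3 => ?_⟩
  · simp [cyc, Perm.mul_apply, swap_apply_of_ne_of_ne hab hac]
  · simp [cyc, Perm.mul_apply, swap_apply_of_ne_of_ne hac.symm hbc.symm]
  · simp [cyc, Perm.mul_apply]
  · simp [cyc, Perm.mul_apply, swap_apply_of_ne_of_ne, h1, h2, h3]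

omit [Fintype α] in
theorem cyc_pow {a b c : α} (hab : a ≠ b) (hbc : b ≠ c) (hac : a ≠ c) : cyc a b c ^ 3 = 1 := by
  obtain ⟨h1, h2, h3, h4⟩ := cyc_spec hab hbc hac
  ext v
  simp only [pow_three, Perm.mul_apply, Perm.one_apply]
  by_cases ha : v = a
  · subst ha; rw [h1, h2, h3]
  by_cases hb : v = b
  · subst hb; rw [h2, h3, h1]
  by_cases hc : v = c
  · subst hc; rw [h3, h1, h2]
  rw [h4 v ha hb hc, h4 v ha hb hc, h4 v ha hb hc]

omit [Fintype α] in
theorem cyc_inv {a b c : α} : (cyc a b c)⁻¹ = cyc c b a := by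
  simp [cyc, mul_inv_rev, swap_inv, swap_comm]

omit [Fintype α] in
theorem cyc_rot {a b c : α} (hab : a ≠ b) (hbc : b ≠ c) (hac : a ≠ c) : cyc a b c = cyc b c a := by
  obtain ⟨h1, h2, h3, h4⟩ := cyc_spec hab hbc hac
  obtain ⟨k1, k2, k3, k4⟩ := cyc_spec hbc hac.symm hab.symm
  ext v
  by_cases ha : v = a
  · subst ha; rw [h1, k3]
  by_cases hb : v = b
  · subst hb; rw [h2, k1]
  by_cases hc : v = c
  · subst hc; rw [h3, k2]
  rw [h4 v ha hb hc, k4 v hb hc ha]

omit [Fintype α] in
theorem cyc_conj (x : Perm α) (hx : x * x = 1) (a b c : α) :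
    x * cyc a b c * x = cyc (x a) (x b) (x c) := by
  have hinv : x⁻¹ = x := inv_eq_of_mul_eq_one_right hx
  have h : ∀ p q : α, x * swap p q * x = swap (x p) (x q) := fun p q => by
    rw [Equiv.swap_apply_apply, hinv]
  calc x * cyc a b c * x = (x * swap a b * x) * (x * swap b c * x) := by
        rw [cyc]; simp only [mul_assoc, ← mul_assoc x x, hx, one_mul]
    _ = _ := by rw [h, h, cyc]

theorem odd_orderOf (f : Perm α) (h : ∀ v, OddPer f v) : Odd (orderOf f) := by
  choose k hk hkv using h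
  refine Odd.of_dvd_nat (?_ : Odd (∏ v, k v)) (orderOf_dvd_of_pow_eq_one ?_)
  · rw [Nat.odd_iff, Finset.prod_nat_mod, Finset.prod_eq_one (fun v _ => Nat.odd_iff.1 (hk v)),
      Nat.one_mod]
  · ext v
    obtain ⟨m, hm⟩ := Finset.dvd_prod_of_mem k (Finset.mem_univ v)
    rw [hm, pow_mul, Perm.one_apply]
    clear hm
    induction m with
    | zero => simp
    | succ m ih => rw [pow_succ, Perm.mul_apply, hkv, ih]

omit [Fintype α] [DecidableEq α] in
theorem oddPer_transport {f : Perm α} {v : α} (i : ℕ) (h : OddPer f ((f ^ i) v)) : OddPer f v := by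
  obtain ⟨k, hk, hkv⟩ := h
  refine ⟨k, hk, (f ^ i).injective ?_⟩
  rw [← Perm.mul_apply, ← pow_add, add_comm, pow_add, Perm.mul_apply, hkv]

omit [Fintype α] [DecidableEq α] in
theorem pow_split (f : Perm α) (v : α) (a b : ℕ) : (f ^ (a + b)) v = (f ^ b) ((f ^ a) v) := by
  rw [add_comm, pow_add, Perm.mul_apply]

/-- The period of `v` under `u`. -/
noncomputable def per (u : Perm α) (v : α) : ℕ := Function.minimalPeriod u v

theorem per_pos (u : Perm α) (v : α) : 0 < per u v :=
  Function.minimalPeriod_pos_of_mem_periodicPts (u.injective.mem_periodicPts v)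

omit [Fintype α] [DecidableEq α] in
theorem pow_eq_self_iff (u : Perm α) (v : α) (i : ℕ) : (u ^ i) v = v ↔ per u v ∣ i := by
  rw [per, ← Function.isPeriodicPt_iff_minimalPeriod_dvd, Function.IsPeriodicPt, Function.IsFixedPt,
    ← Equiv.Perm.coe_pow]

omit [Fintype α] [DecidableEq α] in
theorem pow_per (u : Perm α) (v : α) : (u ^ per u v) v = v := (pow_eq_self_iff u v _).2 dvd_rfl

omit [Fintype α] [DecidableEq α] in
theorem zpow_eq_iff (u : Perm α) (v : α) (i j : ℤ) :
    (u ^ i) v = (u ^ j) v ↔ (per u v : ℤ) ∣ i - j := by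
  have h1 : ∀ k : ℤ, (u ^ k) v = v ↔ (per u v : ℤ) ∣ k := by
    intro k
    obtain ⟨m, rfl | rfl⟩ := Int.eq_nat_or_neg k
    · rw [zpow_natCast, pow_eq_self_iff, Int.natCast_dvd_natCast]
    · rw [zpow_neg, zpow_natCast, Perm.inv_eq_iff_eq, eq_comm, pow_eq_self_iff, dvd_neg,
        Int.natCast_dvd_natCast]
  rw [← h1 (i - j)]
  constructor
  · intro h
    rw [sub_eq_neg_add, zpow_add, Perm.mul_apply, h, zpow_neg]
    simp
  · intro h
    conv_rhs => rw [← h]
    rw [← Perm.mul_apply, ← zpow_add, add_sub_cancel]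

section Gadget

variable (x u : Perm α)

/-- A modification supported on `W` making every cycle inside `W` odd. -/
def Gadget (W : Finset α) : Prop :=
  ∃ g : Perm α, (∀ v, v ∉ W → g v = v) ∧ g ^ 3 = 1 ∧ x * g * x = g⁻¹ ∧
    ∀ v ∈ W, OddPer (g * u) v

/-- `W` is invariant under `x` and `u`. -/
def Inv (W : Finset α) : Prop := (∀ v, x v ∈ W ↔ v ∈ W) ∧ ∀ v, u v ∈ W ↔ v ∈ W

variable {x u}

omit [Fintype α] [DecidableEq α] in
theorem Inv.pow_mem {W : Finset α} (h : Inv x u W) {v : α} (hv : v ∈ W) (i : ℕ) : (u ^ i) v ∈ W := by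
  induction i with
  | zero => simpa using hv
  | succ i ih => rw [pow_succ', Perm.mul_apply, h.2]; exact ih

omit [Fintype α] in
theorem Gadget.union {V W : Finset α} (hV : Inv x u V) (hW : Inv x u W) (hd : Disjoint V W)
    (h1 : Gadget x u V) (h2 : Gadget x u W) (hx : x * x = 1) : Gadget x u (V ∪ W) := by
  obtain ⟨g, hg, hg3, hgi, hgp⟩ := h1
  obtain ⟨k, hk, hk3, hki, hkp⟩ := h2
  have hgV : ∀ v, v ∈ V → g v ∈ V := fun v hv => by
    by_contra h
    have := g.injective (hg _ h)
    exact h (this.symm ▸ hv)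
  have hkW : ∀ v, v ∈ W → k v ∈ W := fun v hv => by
    by_contra h
    have := k.injective (hk _ h)
    exact h (this.symm ▸ hv)
  have hc : Commute g k := by
    refine Perm.Disjoint.commute fun v => ?_
    by_cases hv : v ∈ V
    · exact Or.inr (hk v (Finset.disjoint_left.1 hd hv))
    · exact Or.inl (hg v hv)
  refine ⟨g * k, fun v hv => ?_, ?_, ?_, fun v hv => ?_⟩
  · rw [Finset.mem_union, not_or] at hv
    rw [Perm.mul_apply, hk v hv.2, hg v hv.1]
  · rw [hc.mul_pow, hg3, hk3, one_mul]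
  · have : x * (g * k) * x = (x * g * x) * (x * k * x) := by
      simp only [mul_assoc, ← mul_assoc x x, hx, one_mul]
    rw [this, hgi, hki, ← mul_inv_rev, ← hc.eq]
  · rcases Finset.mem_union.1 hv with hv | hv
    · obtain ⟨m, hm, hmv⟩ := hgp v hv
      refine ⟨m, hm, ?_⟩
      have : ∀ j : ℕ, ((g * k * u) ^ j) v = ((g * u) ^ j) v ∧ ((g * u) ^ j) v ∈ V := by
        intro j
        induction j with
        | zero => exact ⟨by simp, by simpa using hv⟩
        | succ j ih =>
          have hu : u (((g * u) ^ j) v) ∈ V := (hV.2 _).2 ih.2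
          simp only [pow_succ', Perm.mul_apply, ih.1]
          exact ⟨by rw [hk _ (Finset.disjoint_left.1 hd hu)], hgV _ hu⟩
      rw [(this m).1, hmv]
    · obtain ⟨m, hm, hmv⟩ := hkp v hv
      refine ⟨m, hm, ?_⟩
      have : ∀ j : ℕ, ((g * k * u) ^ j) v = ((k * u) ^ j) v ∧ ((k * u) ^ j) v ∈ W := by
        intro j
        induction j with
        | zero => exact ⟨by simp, by simpa using hv⟩
        | succ j ih =>
          have hu : u (((k * u) ^ j) v) ∈ W := (hW.2 _).2 ih.2
          simp only [pow_succ', Perm.mul_apply, ih.1]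
          exact ⟨hg _ (Finset.disjoint_right.1 hd (hkW _ hu)), hkW _ hu⟩
      rw [(this m).1, hmv]

end Gadget

/-- The `u`-cycle of `v`. -/
noncomputable def cycOf (u : Perm α) (v : α) : Finset α := by
  classical exact Finset.univ.filter fun w => u.SameCycle v w

/-- The orbit of `v` under `x` and `u`. -/
noncomputable def orb (x u : Perm α) (v : α) : Finset α := cycOf u v ∪ cycOf u (x v)

theorem mem_cycOf (u : Perm α) (v w : α) : w ∈ cycOf u v ↔ ∃ i : ℕ, i < per u v ∧ (u ^ i) v = w := by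
  classical
  simp only [cycOf, Finset.mem_filter, Finset.mem_univ, true_and]
  constructor
  · rintro h
    obtain ⟨i, -, -, hi⟩ := Perm.SameCycle.exists_pow_eq u h
    refine ⟨i % per u v, Nat.mod_lt _ (per_pos u v), ?_⟩
    conv_rhs => rw [← hi, ← Nat.div_add_mod i (per u v)]
    rw [pow_split, (pow_eq_self_iff u v _).2 (dvd_mul_right _ _)]
  · rintro ⟨i, -, rfl⟩
    exact ⟨i, by simp⟩

theorem mem_cycOf' (u : Perm α) (v w : α) : w ∈ cycOf u v ↔ u.SameCycle v w := by
  classical
  simp [cycOf]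

section Periods

variable {g u : Perm α} {S : Set α}

omit [Fintype α] [DecidableEq α] in
theorem pow_eq_off (hg : ∀ v, v ∉ S → g v = v) (v : α) (k : ℕ)
    (h : ∀ i, 1 ≤ i → i ≤ k → (u ^ i) v ∉ S) : ((g * u) ^ k) v = (u ^ k) v := by
  induction k with
  | zero => simp
  | succ k ih =>
    rw [pow_succ', Perm.mul_apply, ih fun i h1 h2 => h i h1 (by omega), Perm.mul_apply,
      ← Perm.mul_apply u, ← pow_succ']
    exact hg _ (h _ (by omega) le_rfl)

omit [Fintype α] [DecidableEq α] in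
theorem pow_eq_reach (hg : ∀ v, v ∉ S → g v = v) (v : α) (k : ℕ) (hk : 1 ≤ k)
    (h : ∀ i, 1 ≤ i → i < k → (u ^ i) v ∉ S) : ((g * u) ^ k) v = g ((u ^ k) v) := by
  obtain ⟨k, rfl⟩ : ∃ j, k = j + 1 := ⟨k - 1, by omega⟩
  rw [pow_succ', Perm.mul_apply, pow_eq_off hg v k fun i h1 h2 => h i h1 (by omega), Perm.mul_apply,
    ← Perm.mul_apply u, ← pow_succ']

end Periods

section Gadgets

variable {x u : Perm α} (hx : x * x = 1) (hinv : ∀ v, x (u v) = u⁻¹ (x v))
include hx hinv

omit [Fintype α] [DecidableEq α] in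
theorem x_x (v : α) : x (x v) = v := by rw [← Perm.mul_apply, hx, Perm.one_apply]

omit [Fintype α] [DecidableEq α] in
theorem x_zpow (i : ℤ) (v : α) : x ((u ^ i) v) = (u ^ (-i)) (x v) := by
  have hc : x * u * x⁻¹ = u⁻¹ := by
    rw [mul_inv_eq_iff_eq_mul]; ext v; exact hinv v
  have : x * u ^ i * x⁻¹ = u ^ (-i) := by rw [← conj_zpow, hc, inv_zpow']
  rw [mul_inv_eq_iff_eq_mul] at this
  exact congrArg (fun f : Perm α => f v) this

omit [Fintype α] [DecidableEq α] in
theorem x_pow (i : ℕ) (v : α) : (u ^ i) (x ((u ^ i) v)) = x v := by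
  rw [← zpow_natCast, x_zpow hx hinv, ← Perm.mul_apply, ← zpow_add, add_neg_cancel, zpow_zero,
    Perm.one_apply]

omit [Fintype α] [DecidableEq α] in
theorem per_x (v : α) : per u (x v) = per u v := by
  have h : ∀ w, per u (x w) ∣ per u w := fun w => by
    have h1 := x_pow hx hinv (per u w) w
    rw [pow_per] at h1
    exact (pow_eq_self_iff u _ _).1 h1
  refine Nat.dvd_antisymm (h v) ?_
  have := h (x v)
  rwa [x_x hx hinv] at this

omit [Fintype α] [DecidableEq α] in
theorem per_sameCycle {v w : α} (h : u.SameCycle v w) : per u w = per u v := by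
  obtain ⟨i, rfl⟩ := h
  refine Nat.dvd_antisymm ?_ ?_ <;> rw [← pow_eq_self_iff]
  · rw [← zpow_natCast, ← Perm.mul_apply, ← zpow_add, add_comm, zpow_add, Perm.mul_apply,
      zpow_natCast, pow_per]
  · refine (u ^ i).injective ?_
    rw [← zpow_natCast, ← Perm.mul_apply, ← zpow_add, add_comm, zpow_add, Perm.mul_apply,
      zpow_natCast, pow_per]

omit [Fintype α] [DecidableEq α] in
theorem sameCycle_x {v w : α} (h : u.SameCycle v w) : u.SameCycle (x v) (x w) := by
  obtain ⟨i, rfl⟩ := h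
  exact ⟨-i, (x_zpow hx hinv i v).symm⟩

theorem mem_orb (v w : α) : w ∈ orb x u v ↔ u.SameCycle v w ∨ u.SameCycle (x v) w := by
  rw [orb, Finset.mem_union, mem_cycOf', mem_cycOf']

theorem inv_orb (v : α) : Inv x u (orb x u v) := by
  refine ⟨fun w => ?_, fun w => ?_⟩
  · rw [mem_orb hx hinv, mem_orb hx hinv]
    constructor <;> intro h
    · rcases h with h | h <;> have h' := sameCycle_x hx hinv h <;> rw [x_x hx hinv] at h'
      · exact Or.inr h'
      · rw [x_x hx hinv] at h'; exact Or.inl h'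
    · rcases h with h | h <;> have h' := sameCycle_x hx hinv h
      · exact Or.inr h'
      · rw [x_x hx hinv] at h'; exact Or.inl h'
  · rw [mem_orb hx hinv, mem_orb hx hinv, Perm.sameCycle_apply_right, Perm.sameCycle_apply_right]

theorem orb_sub {W : Finset α} (hW : Inv x u W) {v : α} (hv : v ∈ W) : orb x u v ⊆ W := by
  intro w hw
  rcases (mem_orb hx hinv v w).1 hw with h | h
  · obtain ⟨i, -, -, rfl⟩ := Perm.SameCycle.exists_pow_eq u h; exact hW.pow_mem hv i
  · obtain ⟨i, -, -, rfl⟩ := Perm.SameCycle.exists_pow_eq u h; exact hW.pow_mem ((hW.1 v).2 hv) i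

theorem oddPer_union {g : Perm α} {S : Set α} {v : α} (hg : ∀ w, w ∉ S → g w = w)
    (hS : ∀ s ∈ S, OddPer (g * u) s)
    (h : ∃ s ∈ S, u.SameCycle v s) : OddPer (g * u) v := by
  classical
  obtain ⟨s, hs, hvs⟩ := h
  obtain ⟨i, hi1, -, hi⟩ := Perm.SameCycle.exists_pow_eq u hvs
  have h : ∃ i, 1 ≤ i ∧ (u ^ i) v ∈ S := ⟨i, hi1, hi ▸ hs⟩
  have hk := Nat.find_spec h
  refine oddPer_transport (Nat.find h) ?_
  rw [pow_eq_reach hg v _ hk.1 fun i h1 h2 hi => Nat.find_min h h2 ⟨h1, hi⟩]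
  refine hS _ ?_
  by_contra h'
  exact h' ((g.injective (hg _ h')).symm ▸ hk.2)

/-- An orbit of odd period needs no modification. -/
theorem gadget_odd (v : α) (hv : Odd (per u v)) : Gadget x u (orb x u v) := by
  refine ⟨1, fun _ _ => rfl, one_pow 3, by simp [hx], fun w hw => ?_⟩
  refine ⟨per u w, ?_, by rw [one_mul, pow_per]⟩
  rcases (mem_orb hx hinv v w).1 hw with h | h
  · rwa [per_sameCycle hx hinv h]
  · rwa [per_sameCycle hx hinv h, per_x hx hinv]

/-- An orbit with an `x`-free end and one with a `y`-free end, both even: slide. -/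
theorem gadget_slide {p r : α} (hp : u p = x p) (hr : x r = r) (hLp : Even (per u p))
    (hLr : Even (per u r)) (hne : ¬ u.SameCycle p r) : Gadget x u (orb x u p ∪ orb x u r) := by
  set p1 := u p with hp1
  have hsc : u.SameCycle p p1 := ⟨1, by simp [hp1]⟩
  have h1 : p ≠ p1 := fun h => by
    have := (pow_eq_self_iff u p 1).1 (by rw [pow_one]; exact h.symm)
    rw [Nat.dvd_one] at this; rw [this] at hLp; exact Nat.not_even_one hLp
  have h2 : p1 ≠ r := fun h => hne (h ▸ hsc)
  have h3 : p ≠ r := fun h => hne (h ▸ Perm.SameCycle.refl _ _)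
  obtain ⟨c1, c2, c3, c4⟩ := cyc_spec h1 h2 h3
  let g := cyc p p1 r
  let S : Set α := {w | w = p ∨ w = p1 ∨ w = r}
  have hg : ∀ w, w ∉ S → g w = w := fun w hw => by
    simp only [S, Set.mem_setOf_eq, not_or] at hw; exact c4 w hw.1 hw.2.1 hw.2.2
  have hxp : x p = p1 := hp.symm
  have hxp1 : x p1 = p := by rw [← hxp, x_x hx hinv]
  have hS : ∀ s ∈ S, OddPer (g * u) s := by
    have hA : ((g * u) ^ 1) p = r := by rw [pow_one, Perm.mul_apply]; exact c2
    have hB : ((g * u) ^ per u r) r = p := by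
      rw [pow_eq_reach hg r _ (per_pos u r) ?_, pow_per]
      · exact c3
      · intro i h1' h2' hi
        have hcyc : u.SameCycle r ((u ^ i) r) := ⟨i, by simp⟩
        rcases hi with hi | hi | hi
        · rw [hi] at hcyc; exact hne hcyc.symm
        · rw [hi] at hcyc; exact hne (hsc.trans hcyc.symm)
        · exact absurd (Nat.le_of_dvd h1' ((pow_eq_self_iff u r i).1 hi)) (by omega)
    have hC : ((g * u) ^ (per u p - 1)) p1 = p1 := by
      have hL : 2 ≤ per u p := by
        obtain ⟨m, hm⟩ := hLp; have := per_pos u p; omega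
      rw [pow_eq_reach hg p1 _ (by omega) ?_]
      · have hback : (u ^ (per u p - 1)) p1 = p := by
          rw [hp1, ← Perm.mul_apply, ← pow_succ, Nat.sub_add_cancel (by omega), pow_per]
        rw [hback]
        exact c1
      · intro i h1' h2' hi
        have hpi : (u ^ i) p1 = (u ^ (i + 1)) p := by rw [hp1, pow_succ, Perm.mul_apply]
        rcases hi with hi | hi | hi
        · rw [hpi, pow_eq_self_iff] at hi
          exact absurd (Nat.le_of_dvd (by omega) hi) (by omega)
        · have hd : per u p1 ∣ i := (pow_eq_self_iff u p1 i).1 hi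
          rw [per_sameCycle hx hinv hsc] at hd
          exact absurd (Nat.le_of_dvd h1' hd) (by omega)
        · exact hne (hsc.trans (hi ▸ (⟨i, by simp⟩ : u.SameCycle p1 ((u ^ i) p1))))
    have hp' : OddPer (g * u) p := ⟨1 + per u r, by rw [add_comm]; exact hLr.add_one,
      by rw [pow_split, hA, hB]⟩
    intro s hs
    rcases hs with h | h | h <;> rw [h]
    · exact hp'
    · exact ⟨_, Nat.Even.sub_odd (per_pos u p) hLp odd_one, hC⟩
    · exact oddPer_transport (per u r) (by rw [hB]; exact hp')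
  refine ⟨g, fun w hw => hg w ?_, cyc_pow h1 h2 h3, ?_, fun w hw => oddPer_union hx hinv hg hS ?_⟩
  · intro hs
    rcases hs with h | h | h <;> apply hw <;> rw [h] <;> rw [Finset.mem_union, mem_orb hx hinv, mem_orb hx hinv]
    · exact Or.inl (Or.inl (Perm.SameCycle.refl _ _))
    · exact Or.inl (Or.inl hsc)
    · exact Or.inr (Or.inl (Perm.SameCycle.refl _ _))
  · rw [cyc_conj x hx, hxp, hxp1, hr, cyc_inv, cyc_rot h1.symm h3 h2, cyc_rot h3 h2.symm h1]
  · rw [Finset.mem_union, mem_orb hx hinv, mem_orb hx hinv, hxp, hr] at hw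
    rcases hw with (h | h) | (h | h)
    · exact ⟨p, Or.inl rfl, h.symm⟩
    · exact ⟨p1, Or.inr (Or.inl rfl), h.symm⟩
    · exact ⟨r, Or.inr (Or.inr rfl), h.symm⟩
    · exact ⟨r, Or.inr (Or.inr rfl), h.symm⟩

theorem gadget_of (g : Perm α) (S : Set α) (W : Finset α) (hg : ∀ w, w ∉ S → g w = w)
    (hSW : ∀ s ∈ S, s ∈ W) (h3 : g ^ 3 = 1) (hgi : x * g * x = g⁻¹)
    (hS : ∀ s ∈ S, OddPer (g * u) s) (hcov : ∀ w ∈ W, ∃ s ∈ S, u.SameCycle w s) : Gadget x u W :=
  ⟨g, fun w hw => hg w fun h => hw (hSW w h), h3, hgi,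
    fun w hw => oddPer_union hx hinv hg hS (hcov w hw)⟩

omit [Fintype α] [DecidableEq α] hinv in
theorem conj_inv_mul {g k : Perm α} (hg : x * g * x = g⁻¹) (hk : x * k * x = k⁻¹) (hc : Commute g k) :
    x * (g * k) * x = (g * k)⁻¹ := by
  have : x * (g * k) * x = (x * g * x) * (x * k * x) := by
    simp only [mul_assoc, ← mul_assoc x x, hx, one_mul]
  rw [this, hg, hk, ← mul_inv_rev, ← hc.eq]

omit [Fintype α] [DecidableEq α] in
/-- The mirror of an odd cycle is odd. -/
theorem oddPer_mirror {g : Perm α} (hgi : x * g * x = g⁻¹) {s : α} (h : OddPer (g * u) s) :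
    OddPer (g * u) (x (g⁻¹ s)) := by
  obtain ⟨k, hk, hkv⟩ := h
  refine ⟨k, hk, ?_⟩
  have hc : x * u * x = u⁻¹ := by
    ext v; rw [Perm.mul_apply, Perm.mul_apply, hinv, x_x hx hinv]
  have hxu : x * u⁻¹ * x = u := by
    rw [← hc]; simp only [mul_assoc, ← mul_assoc x x, hx, one_mul, mul_one]
  have hxg : x * g⁻¹ * x = g := by
    rw [← hgi]; simp only [mul_assoc, ← mul_assoc x x, hx, one_mul, mul_one]
  have hxi : x⁻¹ = x := inv_eq_of_mul_eq_one_right hx
  have h1 : g * u = x * (g⁻¹ * u⁻¹) * x⁻¹ := by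
    rw [hxi]
    calc g * u = (x * g⁻¹ * x) * (x * u⁻¹ * x) := by rw [hxg, hxu]
      _ = _ := by simp only [mul_assoc, ← mul_assoc x x, hx, one_mul]
  have h2 : g⁻¹ * u⁻¹ = g⁻¹ * (g * u)⁻¹ * (g⁻¹)⁻¹ := by group
  have h3 : ((g * u)⁻¹ ^ k) s = s := by
    rw [inv_pow, Perm.inv_eq_iff_eq]; exact hkv.symm
  rw [h1, conj_pow, hxi, Perm.mul_apply, Perm.mul_apply, x_x hx hinv, h2, conj_pow]
  have h4 : g (g⁻¹ s) = s := by simp
  rw [inv_inv, Perm.mul_apply, Perm.mul_apply, h4, h3]

/-- The double three-cycle of a triple. -/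
def six (x : Perm α) (a b c : α) : Perm α := cyc a b c * cyc (x c) (x b) (x a)

/-- The six points of a triple are distinct. -/
def Six (x : Perm α) (a b c : α) : Prop :=
  a ≠ b ∧ b ≠ c ∧ a ≠ c ∧ ∀ s, (s = a ∨ s = b ∨ s = c) → x s ≠ a ∧ x s ≠ b ∧ x s ≠ c

omit [Fintype α] in
theorem six_spec {a b c : α} (h : Six x a b c) :
    six x a b c a = b ∧ six x a b c b = c ∧ six x a b c c = a ∧ six x a b c (x c) = x b ∧
      six x a b c (x b) = x a ∧ six x a b c (x a) = x c ∧
      (∀ w, (w ≠ a ∧ w ≠ b ∧ w ≠ c) → (w ≠ x c ∧ w ≠ x b ∧ w ≠ x a) → six x a b c w = w) ∧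
      six x a b c ^ 3 = 1 ∧ x * six x a b c * x = (six x a b c)⁻¹ := by
  obtain ⟨hab, hbc, hac, hx'⟩ := h
  obtain ⟨ha1, ha2, ha3⟩ := hx' a (Or.inl rfl)
  obtain ⟨hb1, hb2, hb3⟩ := hx' b (Or.inr (Or.inl rfl))
  obtain ⟨hc1, hc2, hc3⟩ := hx' c (Or.inr (Or.inr rfl))
  have i : ∀ p q, p ≠ q → x p ≠ x q := fun p q h e => h (x.injective e)
  obtain ⟨f1, f2, f3, f4⟩ := cyc_spec hab hbc hac
  obtain ⟨k1, k2, k3, k4⟩ := cyc_spec (i _ _ hbc.symm) (i _ _ hab.symm) (i _ _ hac.symm)
  have hd : Perm.Disjoint (cyc a b c) (cyc (x c) (x b) (x a)) := by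
    intro w
    by_cases hw : w = a ∨ w = b ∨ w = c
    · right; rcases hw with h | h | h <;> subst h
      · exact k4 _ hc1.symm hb1.symm ha1.symm
      · exact k4 _ hc2.symm hb2.symm ha2.symm
      · exact k4 _ hc3.symm hb3.symm ha3.symm
    · left; push Not at hw; exact f4 w hw.1 hw.2.1 hw.2.2
  have e : ∀ w, six x a b c w = cyc a b c (cyc (x c) (x b) (x a) w) := fun w => rfl
  refine ⟨?_, ?_, ?_, ?_, ?_, ?_, fun w h1 h2 => ?_, ?_, ?_⟩
  · rw [e, k4 a hc1.symm hb1.symm ha1.symm, f1]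
  · rw [e, k4 b hc2.symm hb2.symm ha2.symm, f2]
  · rw [e, k4 c hc3.symm hb3.symm ha3.symm, f3]
  · rw [e, k1, f4 _ hb1 hb2 hb3]
  · rw [e, k2, f4 _ ha1 ha2 ha3]
  · rw [e, k3, f4 _ hc1 hc2 hc3]
  · rw [e, k4 w h2.1 h2.2.1 h2.2.2, f4 w h1.1 h1.2.1 h1.2.2]
  · rw [six, hd.commute.mul_pow, cyc_pow hab hbc hac,
      cyc_pow (i _ _ hbc.symm) (i _ _ hab.symm) (i _ _ hac.symm), one_mul]
  · have : x * six x a b c * x = (x * cyc a b c * x) * (x * cyc (x c) (x b) (x a) * x) := by
      simp only [six, mul_assoc, ← mul_assoc x x, hx, one_mul]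
    rw [this, cyc_conj x hx, cyc_conj x hx, x_x hx hinv, x_x hx hinv, x_x hx hinv, six, mul_inv_rev,
      cyc_inv, cyc_inv]

omit [Fintype α] [DecidableEq α] in
theorem sc (v : α) (i : ℕ) : u.SameCycle v ((u ^ i) v) := ⟨i, by simp⟩

omit [Fintype α] [DecidableEq α] in
theorem sc' (v : α) (i : ℤ) : u.SameCycle v ((u ^ i) v) := ⟨i, rfl⟩

theorem gadget_six {a b c : α} (h : Six x a b c) (W : Finset α) (hW : Inv x u W)
    (ha : a ∈ W) (hb : b ∈ W) (hc : c ∈ W)
    (oa : OddPer (six x a b c * u) a) (ob : OddPer (six x a b c * u) b) (oc : OddPer (six x a b c * u) c)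
    (hcov : ∀ w ∈ W, u.SameCycle w a ∨ u.SameCycle w b ∨ u.SameCycle w c ∨ u.SameCycle w (x a) ∨
      u.SameCycle w (x b) ∨ u.SameCycle w (x c)) : Gadget x u W := by
  obtain ⟨f1, f2, f3, f4, f5, f6, foff, f7, f8⟩ := six_spec hx hinv h
  refine gadget_of hx hinv (six x a b c) {w | w = a ∨ w = b ∨ w = c ∨ w = x a ∨ w = x b ∨ w = x c} W
    (fun w hw => ?_) (fun s hs => ?_) f7 f8 (fun s hs => ?_) (fun w hw => ?_)
  · simp only [Set.mem_setOf_eq, not_or] at hw
    exact foff w ⟨hw.1, hw.2.1, hw.2.2.1⟩ ⟨hw.2.2.2.2.2, hw.2.2.2.2.1, hw.2.2.2.1⟩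
  · rcases hs with e | e | e | e | e | e <;> rw [e] <;>
      first | assumption | exact (hW.1 _).2 ‹_›
  · have ma := oddPer_mirror hx hinv f8 ob
    rw [show (six x a b c)⁻¹ b = a by rw [Perm.inv_eq_iff_eq]; exact f1.symm] at ma
    have mb := oddPer_mirror hx hinv f8 oc
    rw [show (six x a b c)⁻¹ c = b by rw [Perm.inv_eq_iff_eq]; exact f2.symm] at mb
    have mc := oddPer_mirror hx hinv f8 oa
    rw [show (six x a b c)⁻¹ a = c by rw [Perm.inv_eq_iff_eq]; exact f3.symm] at mc
    rcases hs with e | e | e | e | e | e <;> rw [e] <;> assumption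
  · rcases hcov w hw with e | e | e | e | e | e <;> exact ⟨_, by simp, e⟩

omit [Fintype α] [DecidableEq α] in
theorem pow_inj {v : α} {i j : ℕ} (hi : i < per u v) (hj : j < per u v)
    (h : (u ^ i) v = (u ^ j) v) : i = j := by
  rw [← zpow_natCast, ← zpow_natCast, zpow_eq_iff] at h
  have := Int.eq_zero_of_abs_lt_dvd h (abs_lt.2 ⟨by omega, by omega⟩)
  omega

omit [Fintype α] [DecidableEq α] in
theorem not_sc_x {v : α} (hv : ¬ u.SameCycle v (x v)) {w w' : α} (h : u.SameCycle v w)
    (h' : u.SameCycle v w') : x w ≠ w' := fun e => hv <| by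
  have h2 := sameCycle_x hx hinv h
  rw [e] at h2
  exact h'.trans h2.symm

/-- A pair of cycles of even length at least four. -/
theorem gadget_pair {v : α} (hv : ¬ u.SameCycle v (x v)) {L : ℕ} (hL : per u v = L) (hev : Even L)
    (h4 : 4 ≤ L) : Gadget x u (orb x u v) := by
  set a := (u ^ 2) v with ha
  set b := x v with hb
  set c := x (u v) with hc
  have ha' : u.SameCycle v a := sc hx hinv v 2
  have h0 : u.SameCycle v v := Perm.SameCycle.refl _ _
  have h1' : u.SameCycle v (u v) := ⟨1, by simp⟩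
  have hS : Six x a b c := by
    refine ⟨fun e => not_sc_x hx hinv hv h0 ha' e.symm, fun e => ?_, fun e => not_sc_x hx hinv hv h1' ha' e.symm, ?_⟩
    · have : (u ^ 0) v = (u ^ 1) v := by simpa using x.injective e
      exact absurd (pow_inj hx hinv (v := v) (by omega) (by omega) this) (by omega)
    · intro s hs
      rcases hs with e | e | e <;> rw [e]
      · exact ⟨not_sc_x hx hinv hv ha' ha', fun e => absurd (pow_inj hx hinv (v := v) (i := 2) (j := 0) (by omega) (by omega) (by simpa using x.injective e)) (by omega),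
          fun e => absurd (pow_inj hx hinv (v := v) (i := 2) (j := 1) (by omega) (by omega) (by simpa using x.injective e)) (by omega)⟩
      · rw [hb, x_x hx hinv]
        exact ⟨fun e => absurd (pow_inj hx hinv (v := v) (i := 2) (j := 0) (by omega) (by omega) (by simpa using e.symm)) (by omega),
          fun e => not_sc_x hx hinv hv h0 h0 e.symm, fun e => not_sc_x hx hinv hv h1' h0 e.symm⟩
      · rw [hc, x_x hx hinv]
        exact ⟨fun e => absurd (pow_inj hx hinv (v := v) (i := 2) (j := 1) (by omega) (by omega) (by simpa using e.symm)) (by omega),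
          fun e => not_sc_x hx hinv hv h0 h1' e.symm, fun e => not_sc_x hx hinv hv h1' h1' e.symm⟩
  obtain ⟨f1, f2, f3, f4, f5, f6, foff, -, -⟩ := six_spec hx hinv hS
  set g := six x a b c with hg
  set P : Set α := {w | w = a ∨ w = b ∨ w = c ∨ w = x a ∨ w = x b ∨ w = x c}
  have hoff : ∀ w, w ∉ P → g w = w := fun w hw => by
    simp only [P, Set.mem_setOf_eq, not_or] at hw
    exact foff w ⟨hw.1, hw.2.1, hw.2.2.1⟩ ⟨hw.2.2.2.2.2, hw.2.2.2.2.1, hw.2.2.2.1⟩
  have hpos : ∀ w, w ∈ P → (∃ j, j < 3 ∧ w = (u ^ j) v) ∨ (∃ j, j < 3 ∧ w = x ((u ^ j) v)) := by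
    intro w hw
    rcases hw with e | e | e | e | e | e
    · exact Or.inl ⟨2, by omega, e⟩
    · exact Or.inr ⟨0, by omega, by simpa [hb] using e⟩
    · exact Or.inr ⟨1, by omega, by simpa [hc] using e⟩
    · exact Or.inr ⟨2, by omega, by simpa [ha] using e⟩
    · exact Or.inl ⟨0, by omega, by simpa [hb, x_x hx hinv] using e⟩
    · exact Or.inl ⟨1, by omega, by simpa [hc, x_x hx hinv] using e⟩
  -- the fixed point
  have pc : (g * u) c = c := by
    rw [Perm.mul_apply, show u c = b by rw [hc, hinv, Perm.coe_inv, Equiv.apply_symm_apply], f2]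
  -- the cycle of `a`
  have pa : ((g * u) ^ (L - 2)) a = x a := by
    rw [pow_eq_reach hoff a _ (by omega) ?_]
    · rw [ha, ← pow_split, show 2 + (L - 2) = per u v by omega, pow_per]
      have h5 := f5
      rw [hb, x_x hx hinv] at h5
      exact h5
    · intro i h1 h2 hi
      rw [ha, ← pow_split] at hi
      rcases hpos _ hi with ⟨j, hj, e⟩ | ⟨j, hj, e⟩
      · have := pow_inj hx hinv (v := v) (by omega) (by omega) e; omega
      · exact not_sc_x hx hinv hv (sc hx hinv v j) (sc hx hinv v _) e.symm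
  have pa' : ((g * u) ^ 1) (x a) = a := by
    rw [pow_one, Perm.mul_apply, ha, show u (x ((u ^ 2) v)) = c by
      rw [pow_two, Perm.mul_apply, hinv, hc, Perm.coe_inv, Equiv.apply_symm_apply], f3]
  have hodd : Odd (L - 2 + 1) := by obtain ⟨m, rfl⟩ := hev; exact ⟨m - 1, by omega⟩
  have oa : OddPer (g * u) a := ⟨_, hodd, by rw [pow_split, pa, pa']⟩
  -- the cycle of `b`
  have pb : ((g * u) ^ (L - 2)) b = u v := by
    rw [pow_eq_reach hoff b _ (by omega) ?_]
    · have : (u ^ (L - 2)) b = x a := by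
        apply (u ^ 2).injective
        rw [← pow_split, show L - 2 + 2 = per u v by omega, hb, ha,
          x_pow hx hinv, ← per_x hx hinv v, pow_per]
      rw [this, f6, hc, x_x hx hinv]
    · intro i h1 h2 hi
      have e0 : (u ^ i) b = x ((u ^ (L - i)) v) := by
        apply (u ^ (L - i)).injective
        rw [x_pow hx hinv, ← pow_split, show i + (L - i) = per u v by omega, hb,
          ← per_x hx hinv v, pow_per]
      rw [e0] at hi
      rcases hpos _ hi with ⟨j, hj, e⟩ | ⟨j, hj, e⟩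
      · exact not_sc_x hx hinv hv (sc hx hinv v _) (sc hx hinv v j) e
      · have := pow_inj hx hinv (v := v) (by omega) (by omega) (x.injective e); omega
  have pb' : ((g * u) ^ 1) (u v) = b := by
    rw [pow_one, Perm.mul_apply, show u (u v) = a by rw [ha, pow_two, Perm.mul_apply], f1]
  have ob : OddPer (g * u) b := ⟨_, hodd, by rw [pow_split, pb, pb']⟩
  have hm : ∀ w, u.SameCycle v w → w ∈ orb x u v := fun w hw => (mem_orb hx hinv v w).2 (Or.inl hw)
  refine gadget_six hx hinv hS _ (inv_orb hx hinv v) (hm _ ha') (((inv_orb hx hinv v).1 v).2 (hm _ h0))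
    (((inv_orb hx hinv v).1 _).2 (hm _ h1')) oa ob ⟨1, odd_one, by rw [pow_one]; exact pc⟩ fun w hw => ?_
  rcases (mem_orb hx hinv v w).1 hw with e | e
  · exact Or.inl (e.symm.trans ha')
  · exact Or.inr (Or.inl e.symm)

/-- A pair of two-cycles together with a pair of cycles of even length. -/
theorem gadget_two_even {v w : α} (hv : ¬ u.SameCycle v (x v)) (hv2 : per u v = 2)
    (hw : ¬ u.SameCycle w (x w)) {L : ℕ} (hL : per u w = L) (hev : Even L)
    (hd : w ∉ orb x u v) : Gadget x u (orb x u v ∪ orb x u w) := by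
  set a := v with ha
  set b := x w with hb
  set c := x (u w) with hc
  have hL2 : 2 ≤ L := by obtain ⟨m, hm⟩ := hev; have := per_pos u w; omega
  have h0 : u.SameCycle w w := Perm.SameCycle.refl _ _
  have h1' : u.SameCycle w (u w) := ⟨1, by simp⟩
  have hout : ∀ s, u.SameCycle w s → s ∉ orb x u v ∧ x s ∉ orb x u v := by
    intro s hs
    have : s ∉ orb x u v := fun h => hd <| (mem_orb hx hinv v w).2 <|
      ((mem_orb hx hinv v s).1 h).imp (fun e => e.trans hs.symm) (fun e => e.trans hs.symm)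
    exact ⟨this, fun h => this (((inv_orb hx hinv v).1 s).1 h)⟩
  have hav : a ∈ orb x u v := (mem_orb hx hinv v v).2 (Or.inl (Perm.SameCycle.refl _ _))
  have hxa : x a ∈ orb x u v := ((inv_orb hx hinv v).1 v).2 hav
  have hw1 : u w ≠ w := fun e => by
    have := (pow_eq_self_iff u w 1).1 (by simpa using e)
    rw [hL, Nat.dvd_one] at this; omega
  have hne : ∀ p q, p ∈ orb x u v → q ∉ orb x u v → p ≠ q := fun p q h h' e => h' (e ▸ h)
  have hS : Six x a b c := by
    refine ⟨hne _ _ hav (hout w h0).2, fun e => hw1 (x.injective e).symm, hne _ _ hav (hout _ h1').2, ?_⟩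
    intro s hs
    rcases hs with e | e | e <;> rw [e]
    · exact ⟨not_sc_x hx hinv hv (Perm.SameCycle.refl _ _) (Perm.SameCycle.refl _ _),
        hne _ _ hxa (hout w h0).2, hne _ _ hxa (hout _ h1').2⟩
    · rw [hb, x_x hx hinv]
      exact ⟨(hne _ _ hav (hout w h0).1).symm, fun e => not_sc_x hx hinv hw h0 h0 e.symm,
        fun e => not_sc_x hx hinv hw h1' h0 e.symm⟩
    · rw [hc, x_x hx hinv]
      exact ⟨(hne _ _ hav (hout _ h1').1).symm, fun e => not_sc_x hx hinv hw h0 h1' e.symm,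
        fun e => not_sc_x hx hinv hw h1' h1' e.symm⟩
  obtain ⟨f1, f2, f3, f4, f5, f6, foff, -, -⟩ := six_spec hx hinv hS
  set g := six x a b c with hg
  set P : Set α := {w | w = a ∨ w = b ∨ w = c ∨ w = x a ∨ w = x b ∨ w = x c}
  have hoff : ∀ w, w ∉ P → g w = w := fun w hw => by
    simp only [P, Set.mem_setOf_eq, not_or] at hw
    exact foff w ⟨hw.1, hw.2.1, hw.2.2.1⟩ ⟨hw.2.2.2.2.2, hw.2.2.2.2.1, hw.2.2.2.1⟩
  have pc : (g * u) c = c := by
    rw [Perm.mul_apply, show u c = b by rw [hc, hinv, Perm.coe_inv, Equiv.apply_symm_apply], f2]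
  have pa : ((g * u) ^ 2) a = b := by
    rw [pow_eq_reach hoff a _ (by omega) ?_]
    · rw [show (u ^ 2) a = a by rw [← hv2, ha, pow_per], f1]
    · intro i h1 h2 hi
      obtain rfl : i = 1 := by omega
      have hi' : (u ^ 1) a ∈ orb x u v := (mem_orb hx hinv v _).2 (Or.inl (sc hx hinv v 1))
      rcases hi with e | e | e | e | e | e
      · have := (pow_eq_self_iff u v 1).1 e; rw [hv2] at this; omega
      · exact hne _ _ hi' (hout w h0).2 e
      · exact hne _ _ hi' (hout _ h1').2 e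
      · exact not_sc_x hx hinv hv (Perm.SameCycle.refl _ _) (sc hx hinv v 1) e.symm
      · exact hne _ _ hi' (hout w h0).1 (e.trans (x_x hx hinv w))
      · exact hne _ _ hi' (hout _ h1').1 (e.trans (x_x hx hinv _))
  have pb : ((g * u) ^ (L - 1)) b = a := by
    rw [pow_eq_reach hoff b _ (by omega) ?_]
    · have : (u ^ (L - 1)) b = c := by
        apply u.injective
        rw [← Perm.mul_apply, ← pow_succ', show L - 1 + 1 = per u w by omega, hb, ← per_x hx hinv w, pow_per,
          hc, hinv, Perm.coe_inv, Equiv.apply_symm_apply]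
      rw [this, f3]
    · intro i h1 h2 hi
      have e0 : (u ^ i) b = x ((u ^ (L - i)) w) := by
        apply (u ^ (L - i)).injective
        rw [x_pow hx hinv, ← pow_split, show i + (L - i) = per u w by omega, hb,
          ← per_x hx hinv w, pow_per]
      have hi' := hout _ (sc hx hinv w (L - i))
      rcases hi with e | e | e | e | e | e <;> rw [e0] at e
      · exact hne _ _ hav hi'.2 e.symm
      · have := pow_inj hx hinv (v := w) (i := L - i) (j := 0) (by omega) (by omega) (by simpa [hb] using x.injective e)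
        omega
      · have := pow_inj hx hinv (v := w) (i := L - i) (j := 1) (by omega) (by omega) (by simpa [hc] using x.injective e)
        omega
      · exact hne _ _ hxa hi'.2 e.symm
      · exact not_sc_x hx hinv hw (sc hx hinv w _) h0 (e.trans (x_x hx hinv w))
      · exact not_sc_x hx hinv hw (sc hx hinv w _) h1' (e.trans (x_x hx hinv _))
  have oa : OddPer (g * u) a := ⟨2 + (L - 1), by obtain ⟨m, rfl⟩ := hev; exact ⟨m, by omega⟩,
    by rw [pow_split, pa, pb]⟩
  have ob : OddPer (g * u) b := oddPer_transport (L - 1) (by rw [pb]; exact oa)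
  have hI : Inv x u (orb x u v ∪ orb x u w) := by
    constructor <;> intro s <;>
      simp only [Finset.mem_union, (inv_orb hx hinv v).1, (inv_orb hx hinv w).1, (inv_orb hx hinv v).2,
        (inv_orb hx hinv w).2]
  have hmw : w ∈ orb x u v ∪ orb x u w :=
    Finset.mem_union_right _ ((mem_orb hx hinv w w).2 (Or.inl h0))
  refine gadget_six hx hinv hS _ hI (Finset.mem_union_left _ hav) ((hI.1 w).2 hmw)
    ((hI.1 _).2 ((hI.2 w).2 hmw)) oa ob ⟨1, odd_one, by rw [pow_one]; exact pc⟩ fun s hs => ?_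
  rcases Finset.mem_union.1 hs with h | h <;> rcases (mem_orb hx hinv _ s).1 h with e | e
  · exact Or.inl e.symm
  · exact Or.inr (Or.inr (Or.inr (Or.inl e.symm)))
  · refine Or.inr (Or.inr (Or.inr (Or.inr (Or.inl ?_))))
    rw [hb, x_x hx hinv]; exact e.symm
  · exact Or.inr (Or.inl e.symm)

/-- A pair of two-cycles together with a pair of cycles of odd length. -/
theorem gadget_two_odd {v w : α} (hv : ¬ u.SameCycle v (x v)) (hv2 : per u v = 2)
    (hw : ¬ u.SameCycle w (x w)) {L : ℕ} (hL : per u w = L) (hodd : Odd L)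
    (hd : w ∉ orb x u v) : Gadget x u (orb x u v ∪ orb x u w) := by
  set a := v with ha
  set b := w with hb
  set c := x (u v) with hc
  have h0 : u.SameCycle v v := Perm.SameCycle.refl _ _
  have h1' : u.SameCycle v (u v) := ⟨1, by simp⟩
  have hL0 : 1 ≤ L := hL ▸ per_pos u w
  have hout : ∀ s, u.SameCycle w s → s ∉ orb x u v ∧ x s ∉ orb x u v := by
    intro s hs
    have : s ∉ orb x u v := fun h => hd <| (mem_orb hx hinv v w).2 <|
      ((mem_orb hx hinv v s).1 h).imp (fun e => e.trans hs.symm) (fun e => e.trans hs.symm)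
    exact ⟨this, fun h => this (((inv_orb hx hinv v).1 s).1 h)⟩
  have hav : a ∈ orb x u v := (mem_orb hx hinv v v).2 (Or.inl h0)
  have hxa : x a ∈ orb x u v := ((inv_orb hx hinv v).1 v).2 hav
  have huv : u v ∈ orb x u v := ((inv_orb hx hinv v).2 v).2 hav
  have hcv : c ∈ orb x u v := ((inv_orb hx hinv v).1 _).2 huv
  have hv1 : u v ≠ v := fun e => by
    have := (pow_eq_self_iff u v 1).1 (by simpa using e)
    rw [hv2, Nat.dvd_one] at this; omega
  have hne : ∀ p q, p ∈ orb x u v → q ∉ orb x u v → p ≠ q := fun p q h h' e => h' (e ▸ h)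
  have hS : Six x a b c := by
    refine ⟨hne _ _ hav hd, fun e => hne _ _ hcv hd e.symm, fun e => not_sc_x hx hinv hv h1' h0 e.symm, ?_⟩
    intro s hs
    rcases hs with e | e | e <;> rw [e]
    · exact ⟨not_sc_x hx hinv hv h0 h0, hne _ _ hxa hd, fun e => hv1 (x.injective e).symm⟩
    · exact ⟨(hne _ _ hav (hout w (Perm.SameCycle.refl _ _)).2).symm,
        not_sc_x hx hinv hw (Perm.SameCycle.refl _ _) (Perm.SameCycle.refl _ _),
        (hne _ _ hcv (hout w (Perm.SameCycle.refl _ _)).2).symm⟩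
    · rw [hc, x_x hx hinv]
      exact ⟨hv1, hne _ _ huv hd, fun e => not_sc_x hx hinv hv h1' h1' e.symm⟩
  obtain ⟨f1, f2, f3, f4, f5, f6, foff, -, -⟩ := six_spec hx hinv hS
  set g := six x a b c with hg
  set P : Set α := {w | w = a ∨ w = b ∨ w = c ∨ w = x a ∨ w = x b ∨ w = x c}
  have hoff : ∀ w, w ∉ P → g w = w := fun w hw => by
    simp only [P, Set.mem_setOf_eq, not_or] at hw
    exact foff w ⟨hw.1, hw.2.1, hw.2.2.1⟩ ⟨hw.2.2.2.2.2, hw.2.2.2.2.1, hw.2.2.2.1⟩
  have huu : u (u v) = v := by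
    have := pow_per u v; rw [hv2, pow_two, Perm.mul_apply] at this; exact this
  have hxuv : x (u v) = u (x v) := by
    rw [hinv, Perm.inv_eq_iff_eq]
    have hp := pow_per u (x v)
    rw [per_x hx hinv, hv2, pow_two, Perm.mul_apply] at hp
    exact hp.symm
  have qa : (g * u) a = x b := by
    rw [Perm.mul_apply, ha, show u v = x c by rw [hc, x_x hx hinv]]; exact f4
  have qf : ((g * u) ^ L) (x b) = x a := by
    rw [pow_eq_reach hoff _ _ hL0 ?_]
    · rw [← hL, hb, ← per_x hx hinv w, pow_per, f5]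
    · intro i h1 h2 hi
      have e0 : (u ^ i) (x b) = x ((u ^ (L - i)) w) := by
        apply (u ^ (L - i)).injective
        rw [x_pow hx hinv, ← pow_split, show i + (L - i) = per u b by omega, hb,
          ← per_x hx hinv w, pow_per]
      have hi' := hout _ (sc hx hinv w (L - i))
      rcases hi with e | e | e | e | e | e <;> rw [e0] at e
      · exact hne _ _ hav hi'.2 e.symm
      · exact not_sc_x hx hinv hw (sc hx hinv w _) (Perm.SameCycle.refl _ _) e
      · exact hne _ _ hcv hi'.2 e.symm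
      · exact hne _ _ hxa hi'.2 e.symm
      · have := pow_inj hx hinv (v := b) (i := L - i) (j := 0) (by omega) (by omega) (by simpa [hb] using x.injective e)
        omega
      · exact hne _ _ huv hi'.2 (e.trans (x_x hx hinv _)).symm
  have qd : (g * u) (x a) = a := by
    rw [Perm.mul_apply, ha, ← hxuv, ← hc]; exact f3
  have qb : ((g * u) ^ L) b = c := by
    rw [pow_eq_reach hoff _ _ hL0 ?_]
    · rw [← hL, hb, pow_per, f2]
    · intro i h1 h2 hi
      have hi' := hout _ (sc hx hinv w i)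
      rcases hi with e | e | e | e | e | e
      · exact hne _ _ hav hi'.1 e.symm
      · have := (pow_eq_self_iff u b i).1 e
        have := Nat.le_of_dvd h1 this; omega
      · exact hne _ _ hcv hi'.1 e.symm
      · exact hne _ _ hxa hi'.1 e.symm
      · exact not_sc_x hx hinv hw (Perm.SameCycle.refl _ _) (sc hx hinv w i) e.symm
      · exact hne _ _ huv hi'.1 (e.trans (x_x hx hinv _)).symm
  have qc : (g * u) c = x c := by
    rw [Perm.mul_apply, hc, hinv, Perm.coe_inv, Equiv.apply_symm_apply, ← Perm.coe_inv, ← hinv, ← hc]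
    exact f6
  have qxc : (g * u) (x c) = b := by
    rw [Perm.mul_apply, hc, x_x hx hinv, huu]; exact f1
  have hoddk : Odd (1 + L + 1) := by obtain ⟨m, rfl⟩ := hodd; exact ⟨m + 1, by omega⟩
  have oa : OddPer (g * u) a := ⟨1 + L + 1, hoddk,
    by rw [pow_split, pow_split, pow_one, qa, qf, qd]⟩
  have ob : OddPer (g * u) b := ⟨L + 1 + 1, by rw [show L + 1 + 1 = 1 + L + 1 by omega]; exact hoddk,
    by rw [pow_split, pow_split, qb, pow_one, qc, qxc]⟩
  have oc : OddPer (g * u) c := oddPer_transport 2 (by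
    rw [pow_two, Perm.mul_apply, qc, qxc]; exact ob)
  have hI : Inv x u (orb x u v ∪ orb x u w) := by
    constructor <;> intro s <;>
      simp only [Finset.mem_union, (inv_orb hx hinv v).1, (inv_orb hx hinv w).1, (inv_orb hx hinv v).2,
        (inv_orb hx hinv w).2]
  refine gadget_six hx hinv hS _ hI (Finset.mem_union_left _ hav)
    (Finset.mem_union_right _ ((mem_orb hx hinv w w).2 (Or.inl (Perm.SameCycle.refl _ _))))
    (Finset.mem_union_left _ hcv) oa ob oc fun s hs => ?_
  rcases Finset.mem_union.1 hs with h | h <;> rcases (mem_orb hx hinv _ s).1 h with e | e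
  · exact Or.inl e.symm
  · exact Or.inr (Or.inr (Or.inr (Or.inl e.symm)))
  · exact Or.inr (Or.inl e.symm)
  · exact Or.inr (Or.inr (Or.inr (Or.inr (Or.inl e.symm))))

/-- A pair of two-cycles together with an odd path. -/
theorem gadget_two_path {p r : α} (hv : ¬ u.SameCycle p (x p)) (hv2 : per u p = 2)
    (hr : x r = r) {L : ℕ} (hL : per u r = L) (hodd : Odd L)
    (hd : r ∉ orb x u p) : Gadget x u (orb x u p ∪ orb x u r) := by
  set p1 := x p with hp1
  have hpp : u.SameCycle p p := Perm.SameCycle.refl _ _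
  have hmp : p ∈ orb x u p := (mem_orb hx hinv p p).2 (Or.inl hpp)
  have hmp1 : p1 ∈ orb x u p := ((inv_orb hx hinv p).1 p).2 hmp
  have h1 : p ≠ p1 := fun h => not_sc_x hx hinv hv hpp hpp h.symm
  have h2 : p1 ≠ r := fun h => hd (h ▸ hmp1)
  have h3 : p ≠ r := fun h => hd (h ▸ hmp)
  obtain ⟨c1, c2, c3, c4⟩ := cyc_spec h1 h2 h3
  set g := cyc p p1 r
  set S : Set α := {w | w = p ∨ w = p1 ∨ w = r}
  have hg : ∀ w, w ∉ S → g w = w := fun w hw => by
    simp only [S, Set.mem_setOf_eq, not_or] at hw; exact c4 w hw.1 hw.2.1 hw.2.2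
  have hL0 : 1 ≤ L := hL ▸ per_pos u r
  have hout : ∀ i, (u ^ i) r ∉ orb x u p := fun i h => hd <| (mem_orb hx hinv p r).2 <|
    ((mem_orb hx hinv p _).1 h).imp (fun e => e.trans (sc hx hinv r i).symm)
      (fun e => e.trans (sc hx hinv r i).symm)
  have qA : ((g * u) ^ 2) p = p1 := by
    rw [pow_eq_reach hg p 2 (by omega) ?_]
    · rw [show (u ^ 2) p = p by rw [← hv2, pow_per]]; exact c1
    · intro i h1' h2' hi
      obtain rfl : i = 1 := by omega
      have hm : (u ^ 1) p ∈ orb x u p := (mem_orb hx hinv p _).2 (Or.inl (sc hx hinv p 1))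
      rcases hi with e | e | e
      · have := (pow_eq_self_iff u p 1).1 e; rw [hv2] at this; omega
      · exact not_sc_x hx hinv hv hpp (sc hx hinv p 1) e.symm
      · exact hd (e ▸ hm)
  have qB : ((g * u) ^ 2) p1 = r := by
    rw [pow_eq_reach hg p1 2 (by omega) ?_]
    · rw [show (u ^ 2) p1 = p1 by rw [← hv2, ← per_x hx hinv p, ← hp1, pow_per]]; exact c2
    · intro i h1' h2' hi
      obtain rfl : i = 1 := by omega
      have hm : (u ^ 1) p1 ∈ orb x u p := (mem_orb hx hinv p _).2 (Or.inr (sc hx hinv _ 1))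
      rcases hi with e | e | e
      · have hsc := sc hx hinv (u := u) p1 1
        rw [e] at hsc; exact hv hsc.symm
      · have := (pow_eq_self_iff u p1 1).1 e; rw [hp1, per_x hx hinv, hv2] at this; omega
      · exact hd (e ▸ hm)
  have qC : ((g * u) ^ L) r = p := by
    rw [pow_eq_reach hg r L hL0 ?_]
    · rw [← hL, pow_per]; exact c3
    · intro i h1' h2' hi
      rcases hi with e | e | e
      · exact hout i (e ▸ hmp)
      · exact hout i (e ▸ hmp1)
      · have := Nat.le_of_dvd h1' ((pow_eq_self_iff u r i).1 e); omega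
  have op : OddPer (g * u) p := ⟨2 + 2 + L, by obtain ⟨m, rfl⟩ := hodd; exact ⟨m + 2, by omega⟩,
    by rw [pow_split, pow_split, qA, qB, qC]⟩
  refine gadget_of hx hinv g S _ hg (fun s hs => ?_) (cyc_pow h1 h2 h3) ?_ (fun s hs => ?_) fun w hw => ?_
  · rcases hs with h | h | h <;> rw [h]
    · exact Finset.mem_union_left _ hmp
    · exact Finset.mem_union_left _ hmp1
    · exact Finset.mem_union_right _ ((mem_orb hx hinv r r).2 (Or.inl (Perm.SameCycle.refl _ _)))
  · rw [cyc_conj x hx, hr, hp1, x_x hx hinv, ← hp1, cyc_inv, cyc_rot h1.symm h3 h2,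
      cyc_rot h3 h2.symm h1]
  · rcases hs with h | h | h <;> rw [h]
    · exact op
    · exact oddPer_transport (2 + L) (by rw [pow_split, qB, qC]; exact op)
    · exact oddPer_transport L (by rw [qC]; exact op)
  · rw [Finset.mem_union, mem_orb hx hinv, mem_orb hx hinv, hr] at hw
    rcases hw with (h | h) | (h | h)
    · exact ⟨p, Or.inl rfl, h.symm⟩
    · exact ⟨p1, Or.inr (Or.inl rfl), h.symm⟩
    · exact ⟨r, Or.inr (Or.inr rfl), h.symm⟩
    · exact ⟨r, Or.inr (Or.inr rfl), h.symm⟩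

/-- A pair of two-cycles with two even paths. -/
theorem gadget_two_slide {p q r : α} (hv : ¬ u.SameCycle p (x p)) (hv2 : per u p = 2)
    (hq : u q = x q) (hLq : Even (per u q)) (hr : x r = r) (hLr : Even (per u r))
    (hdq : q ∉ orb x u p) (hdr : r ∉ orb x u p) (hqr : ¬ u.SameCycle q r) :
    Gadget x u (orb x u p ∪ (orb x u q ∪ orb x u r)) := by
  obtain ⟨m, hm⟩ := hLr
  have hm0 : 1 ≤ m := by have := per_pos u r; omega
  set r2 := (u ^ m) r with hr2'
  have hr2 : x r2 = r2 := by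
    apply (u ^ m).injective
    rw [hr2', x_pow hx hinv, hr, ← Perm.mul_apply, ← pow_add, ← hm, pow_per]
  have hrr : u.SameCycle r r2 := sc hx hinv r m
  set p1 := x p with hp1
  set q1 := u q with hq1
  have hqq : u.SameCycle q q1 := ⟨1, by simp [hq1]⟩
  have hpp : u.SameCycle p p := Perm.SameCycle.refl _ _
  have hmp : p ∈ orb x u p := (mem_orb hx hinv p p).2 (Or.inl hpp)
  have hmp1 : p1 ∈ orb x u p := ((inv_orb hx hinv p).1 p).2 hmp
  have outq : ∀ s, u.SameCycle q s → s ∉ orb x u p := fun s hs h => hdq <| (mem_orb hx hinv p q).2 <|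
    ((mem_orb hx hinv p s).1 h).imp (fun e => e.trans hs.symm) (fun e => e.trans hs.symm)
  have outr : ∀ s, u.SameCycle r s → s ∉ orb x u p := fun s hs h => hdr <| (mem_orb hx hinv p r).2 <|
    ((mem_orb hx hinv p s).1 h).imp (fun e => e.trans hs.symm) (fun e => e.trans hs.symm)
  have nqr : ∀ s t, u.SameCycle q s → u.SameCycle r t → s ≠ t := fun s t h h' e =>
    hqr ((e ▸ h).trans h'.symm)
  have h1 : p ≠ p1 := fun h => not_sc_x hx hinv hv hpp hpp h.symm
  have h2 : p1 ≠ r := fun h => hdr (h ▸ hmp1)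
  have h3 : p ≠ r := fun h => hdr (h ▸ hmp)
  have hLq2 : 2 ≤ per u q := by obtain ⟨k, hk⟩ := hLq; have := per_pos u q; omega
  have k1 : q ≠ q1 := fun h => by
    have := (pow_eq_self_iff u q 1).1 (by rw [pow_one]; exact h.symm)
    rw [Nat.dvd_one] at this; omega
  have k2 : q1 ≠ r2 := nqr _ _ hqq hrr
  have k3 : q ≠ r2 := nqr _ _ (Perm.SameCycle.refl _ _) hrr
  obtain ⟨c1, c2, c3, c4⟩ := cyc_spec h1 h2 h3
  obtain ⟨d1, d2, d3, d4⟩ := cyc_spec k1 k2 k3
  have hrr2 : r ≠ r2 := fun h => by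
    have := Nat.le_of_dvd hm0 ((pow_eq_self_iff u r m).1 h.symm); omega
  have sep1 : ∀ s, (s = p ∨ s = p1 ∨ s = r) → cyc q q1 r2 s = s := by
    intro s hs
    rcases hs with e | e | e <;> rw [e]
    · exact d4 _ (fun e => outq q (Perm.SameCycle.refl _ _) (e ▸ hmp))
        (fun e => outq _ hqq (e ▸ hmp)) (fun e => outr _ hrr (e ▸ hmp))
    · exact d4 _ (fun e => outq q (Perm.SameCycle.refl _ _) (e ▸ hmp1))
        (fun e => outq _ hqq (e ▸ hmp1)) (fun e => outr _ hrr (e ▸ hmp1))
    · exact d4 _ (nqr _ _ (Perm.SameCycle.refl _ _) (Perm.SameCycle.refl _ _)).symm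
        (nqr _ _ hqq (Perm.SameCycle.refl _ _)).symm hrr2
  have hc : Commute (cyc p p1 r) (cyc q q1 r2) := by
    refine Perm.Disjoint.commute fun s => ?_
    by_cases hs : s = p ∨ s = p1 ∨ s = r
    · exact Or.inr (sep1 s hs)
    · push Not at hs; exact Or.inl (c4 s hs.1 hs.2.1 hs.2.2)
  set g := cyc p p1 r * cyc q q1 r2
  set S : Set α := {w | w = p ∨ w = p1 ∨ w = r ∨ w = q ∨ w = q1 ∨ w = r2}
  have hg : ∀ w, w ∉ S → g w = w := fun w hw => by
    simp only [S, Set.mem_setOf_eq, not_or] at hw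
    rw [Perm.mul_apply, d4 w hw.2.2.2.1 hw.2.2.2.2.1 hw.2.2.2.2.2, c4 w hw.1 hw.2.1 hw.2.2.1]
  have g1 : g p = p1 := by rw [Perm.mul_apply, sep1 p (Or.inl rfl), c1]
  have g2 : g p1 = r := by rw [Perm.mul_apply, sep1 p1 (Or.inr (Or.inl rfl)), c2]
  have g3 : g r = p := by rw [Perm.mul_apply, sep1 r (Or.inr (Or.inr rfl)), c3]
  have g4 : g q = q1 := by
    rw [Perm.mul_apply, d1, c4 q1 (fun e => outq _ hqq (e ▸ hmp)) (fun e => outq _ hqq (e ▸ hmp1))
      (nqr _ _ hqq (Perm.SameCycle.refl _ _))]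
  have g5 : g q1 = r2 := by
    rw [Perm.mul_apply, d2, c4 r2 (fun e => outr _ hrr (e ▸ hmp)) (fun e => outr _ hrr (e ▸ hmp1))
      hrr2.symm]
  have g6 : g r2 = q := by
    rw [Perm.mul_apply, d3, c4 q (fun e => outq q (Perm.SameCycle.refl _ _) (e ▸ hmp))
      (fun e => outq q (Perm.SameCycle.refl _ _) (e ▸ hmp1))
      (nqr _ _ (Perm.SameCycle.refl _ _) (Perm.SameCycle.refl _ _))]
  have qA : ((g * u) ^ 2) p = p1 := by
    rw [pow_eq_reach hg p 2 (by omega) ?_]
    · rw [show (u ^ 2) p = p by rw [← hv2, pow_per]]; exact g1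
    · intro i h1' h2' hi
      obtain rfl : i = 1 := by omega
      have hm' : (u ^ 1) p ∈ orb x u p := (mem_orb hx hinv p _).2 (Or.inl (sc hx hinv p 1))
      rcases hi with e | e | e | e | e | e
      · have := (pow_eq_self_iff u p 1).1 e; rw [hv2] at this; omega
      · exact not_sc_x hx hinv hv hpp (sc hx hinv p 1) e.symm
      · exact hdr (e ▸ hm')
      · exact hdq (e ▸ hm')
      · exact outq _ hqq (e ▸ hm')
      · exact outr _ hrr (e ▸ hm')
  have qB : ((g * u) ^ 2) p1 = r := by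
    rw [pow_eq_reach hg p1 2 (by omega) ?_]
    · rw [show (u ^ 2) p1 = p1 by rw [← hv2, ← per_x hx hinv p, ← hp1, pow_per]]; exact g2
    · intro i h1' h2' hi
      obtain rfl : i = 1 := by omega
      have hm' : (u ^ 1) p1 ∈ orb x u p := (mem_orb hx hinv p _).2 (Or.inr (sc hx hinv _ 1))
      rcases hi with e | e | e | e | e | e
      · have hsc := sc hx hinv (u := u) p1 1
        rw [e] at hsc; exact hv hsc.symm
      · have := (pow_eq_self_iff u p1 1).1 e; rw [hp1, per_x hx hinv, hv2] at this; omega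
      · exact hdr (e ▸ hm')
      · exact hdq (e ▸ hm')
      · exact outq _ hqq (e ▸ hm')
      · exact outr _ hrr (e ▸ hm')
  have hoffr : ∀ i, 1 ≤ i → i < m → (u ^ i) r ∉ S ∧ (u ^ i) r2 ∉ S := by
    intro i h1' h2'
    have hr2i : (u ^ i) r2 = (u ^ (m + i)) r := by rw [hr2', ← pow_split]
    constructor <;> intro hi <;> [skip; rw [hr2i] at hi] <;> rcases hi with e | e | e | e | e | e
    all_goals first
      | (have h' := outr _ (sc hx hinv r i); rw [e] at h'; exact h' hmp)
      | (have h' := outr _ (sc hx hinv r i); rw [e] at h'; exact h' hmp1)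
      | (have h' := outr _ (sc hx hinv r (m + i)); rw [e] at h'; exact h' hmp)
      | (have h' := outr _ (sc hx hinv r (m + i)); rw [e] at h'; exact h' hmp1)
      | exact nqr _ _ (Perm.SameCycle.refl _ _) (sc hx hinv r _) e.symm
      | exact nqr _ _ hqq (sc hx hinv r _) e.symm
      | (have := Nat.le_of_dvd (by omega) ((pow_eq_self_iff u r _).1 e); omega)
      | (have := pow_inj hx hinv (v := r) (i := i) (j := m) (by omega) (by omega) e; omega)
      | (have := pow_inj hx hinv (v := r) (i := m + i) (j := m) (by omega) (by omega) e; omega)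
  have qC : ((g * u) ^ m) r = q := by
    rw [pow_eq_reach hg r m hm0 fun i a b => (hoffr i a b).1]; exact g6
  have qD : (g * u) q = r2 := by rw [Perm.mul_apply, ← hq1]; exact g5
  have qE : ((g * u) ^ m) r2 = p := by
    rw [pow_eq_reach hg r2 m hm0 fun i a b => (hoffr i a b).2]
    rw [hr2', ← pow_split, ← hm, pow_per]; exact g3
  have qF : ((g * u) ^ (per u q - 1)) q1 = q1 := by
    rw [pow_eq_reach hg q1 _ (by omega) ?_]
    · have hback : (u ^ (per u q - 1)) q1 = q := by
        rw [hq1, ← Perm.mul_apply, ← pow_succ, Nat.sub_add_cancel (by omega), pow_per]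
      rw [hback, g4]
    · intro i h1' h2' hi
      have hcy : u.SameCycle q ((u ^ i) q1) := hqq.trans (sc hx hinv q1 i)
      rcases hi with e | e | e | e | e | e
      · exact outq _ hcy (e ▸ hmp)
      · exact outq _ hcy (e ▸ hmp1)
      · exact nqr _ _ hcy (Perm.SameCycle.refl _ _) e
      · rw [hq1, ← Perm.mul_apply, ← pow_succ, pow_eq_self_iff] at e
        have := Nat.le_of_dvd (by omega) e; omega
      · have hd' : per u q1 ∣ i := (pow_eq_self_iff u q1 i).1 e
        rw [per_sameCycle hx hinv hqq] at hd'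
        have := Nat.le_of_dvd h1' hd'; omega
      · exact nqr _ _ hcy hrr e
  have op : OddPer (g * u) p := ⟨2 + 2 + m + 1 + m, ⟨m + 2, by omega⟩,
    by rw [pow_split, pow_split, pow_split, pow_split, qA, qB, qC, pow_one, qD, qE]⟩
  have oq : OddPer (g * u) q := oddPer_transport (1 + m) (by
    rw [pow_split, pow_one, qD, qE]; exact op)
  refine gadget_of hx hinv g S _ hg (fun s hs => ?_) ?_ ?_ (fun s hs => ?_) fun w hw => ?_
  · have hmq : q ∈ orb x u q := (mem_orb hx hinv q q).2 (Or.inl (Perm.SameCycle.refl _ _))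
    have hmq1 : q1 ∈ orb x u q := (mem_orb hx hinv q _).2 (Or.inl hqq)
    have hmr : r ∈ orb x u r := (mem_orb hx hinv r r).2 (Or.inl (Perm.SameCycle.refl _ _))
    have hmr2 : r2 ∈ orb x u r := (mem_orb hx hinv r _).2 (Or.inl hrr)
    rcases hs with h | h | h | h | h | h <;> rw [h] <;> simp [hmp, hmp1, hmq, hmq1, hmr, hmr2]
  · rw [hc.mul_pow, cyc_pow h1 h2 h3, cyc_pow k1 k2 k3, one_mul]
  · refine conj_inv_mul hx ?_ ?_ hc
    · rw [cyc_conj x hx, hr, hp1, x_x hx hinv, ← hp1, cyc_inv, cyc_rot h1.symm h3 h2,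
        cyc_rot h3 h2.symm h1]
    · rw [cyc_conj x hx, hr2, ← hq, hq, x_x hx hinv, ← hq, cyc_inv, cyc_rot k1.symm k3 k2,
        cyc_rot k3 k2.symm k1]
  · rcases hs with h | h | h | h | h | h <;> rw [h]
    · exact op
    · exact oddPer_transport (2 + m) (by rw [pow_split, qB, qC]; exact oq)
    · exact oddPer_transport m (by rw [qC]; exact oq)
    · exact oq
    · exact ⟨_, Nat.Even.sub_odd (per_pos u q) hLq odd_one, qF⟩
    · exact oddPer_transport m (by rw [qE]; exact op)
  · rw [Finset.mem_union, Finset.mem_union, mem_orb hx hinv, mem_orb hx hinv, mem_orb hx hinv, hr,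
      ← hq] at hw
    rcases hw with (h | h) | (h | h) | (h | h)
    · exact ⟨p, Or.inl rfl, h.symm⟩
    · exact ⟨p1, Or.inr (Or.inl rfl), h.symm⟩
    · exact ⟨q, Or.inr (Or.inr (Or.inr (Or.inl rfl))), h.symm⟩
    · exact ⟨q1, Or.inr (Or.inr (Or.inr (Or.inr (Or.inl rfl)))), h.symm⟩
    · exact ⟨r, Or.inr (Or.inr (Or.inl rfl)), h.symm⟩
    · exact ⟨r, Or.inr (Or.inr (Or.inl rfl)), h.symm⟩

end Gadgets

end Cfsg.Agent.Chars.OddSym
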