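import Cfsg.Agent.Chars.OddProductSym

/-!
Two conjugate involutions of a symmetric group of degree at least five have a common neighbour
in the odd-product graph: assembling the pieces.
-/

set_option autoImplicit false

namespace Cfsg.Agent.Chars.OddSym

open Equiv Finset

variable {α : Type*} [Fintype α] [DecidableEq α] {x u : Perm α}

section

variable (hx : x * x = 1) (hinv : ∀ v, x (u v) = u⁻¹ (x v))
include hx hinv

/-- `v` lies in a pair of two-cycles. -/
def IsPairTwo (x u : Perm α) (v : α) : Prop := per u v = 2 ∧ ¬ u.SameCycle v (x v)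

/-- `W` is a single pair of two-cycles. -/
def Single (x u : Perm α) (W : Finset α) : Prop := ∃ v, IsPairTwo x u v ∧ W = orb x u v

omit [Fintype α] [DecidableEq α] in
theorem pairTwo_facts {v : α} (h : IsPairTwo x u v) :
    u (u v) = v ∧ u v ≠ v ∧ u (x v) = x (u v) ∧ u (x (u v)) = x v := by
  obtain ⟨h2, -⟩ := h
  have huu : u (u v) = v := by
    have := pow_per u v; rw [h2, pow_two, Perm.mul_apply] at this; exact this
  have hne : u v ≠ v := fun e => by
    have := (pow_eq_self_iff u v 1).1 (by simpa using e)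
    rw [h2, Nat.dvd_one] at this; omega
  have h4 : u (x (u v)) = x v := by
    rw [hinv, Perm.coe_inv, Equiv.apply_symm_apply]
  refine ⟨huu, hne, ?_, h4⟩
  conv_lhs => rw [← huu]
  rw [hinv, Perm.coe_inv, Equiv.apply_symm_apply]

theorem mem_self (v : α) : v ∈ orb x u v :=
  (mem_orb hx hinv v v).2 (Or.inl (Perm.SameCycle.refl _ _))

theorem mem_orb_symm {v w : α} (h : w ∈ orb x u v) : v ∈ orb x u w := by
  rcases (mem_orb hx hinv v w).1 h with e | e
  · exact (mem_orb hx hinv w v).2 (Or.inl e.symm)
  · have := sameCycle_x hx hinv e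
    rw [x_x hx hinv] at this
    exact (mem_orb hx hinv w v).2 (Or.inr this.symm)

theorem orb_disjoint {W : Finset α} (hW : Inv x u W) {v : α} (hv : v ∉ W) :
    Disjoint W (orb x u v) :=
  Finset.disjoint_left.2 fun _ hw hwv => hv (orb_sub hx hinv hW hw (mem_orb_symm hx hinv hwv))

theorem inv_union {V W : Finset α} (hV : Inv x u V) (hW : Inv x u W) : Inv x u (V ∪ W) := by
  constructor <;> intro v <;> simp only [Finset.mem_union, hV.1, hW.1, hV.2, hW.2]

theorem inv_sdiff {V W : Finset α} (hV : Inv x u V) (hW : Inv x u W) : Inv x u (V \ W) := by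
  constructor <;> intro v <;> simp only [Finset.mem_sdiff, hV.1, hW.1, hV.2, hW.2]

theorem pairTwo_mem {v w : α} (hv : IsPairTwo x u v) (hw : w ∈ orb x u v) : IsPairTwo x u w := by
  rcases (mem_orb hx hinv v w).1 hw with e | e
  · refine ⟨(per_sameCycle hx hinv e).trans hv.1, fun h => hv.2 ?_⟩
    exact (e.trans h).trans (sameCycle_x hx hinv e).symm
  · refine ⟨(per_sameCycle hx hinv e).trans ((per_x hx hinv v).trans hv.1), fun h => hv.2 ?_⟩
    have e' := sameCycle_x hx hinv e
    rw [x_x hx hinv] at e'
    exact ((e.trans h).trans e'.symm).symm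

theorem not_path_mem {v w : α} (hv : ¬ u.SameCycle v (x v)) (hw : w ∈ orb x u v) : x w ≠ w ∧ u w ≠ x w := by
  have key : ¬ u.SameCycle w (x w) := fun h => hv <| by
    rcases (mem_orb hx hinv v w).1 hw with e | e
    · exact (e.trans h).trans (sameCycle_x hx hinv e).symm
    · have e' := sameCycle_x hx hinv e
      rw [x_x hx hinv] at e'
      exact ((e.trans h).trans e'.symm).symm
  exact ⟨fun h => key (by rw [h]), fun h => key ⟨1, by rw [zpow_one]; exact h⟩⟩

/-- Three pairs of two-cycles. -/
theorem gadget_triple {v e p : α} (hv : IsPairTwo x u v) (he : IsPairTwo x u e) (hp : IsPairTwo x u p)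
    (he' : e ∉ orb x u v) (hp' : p ∉ orb x u v) (hp'' : p ∉ orb x u e) :
    Gadget x u (orb x u v ∪ (orb x u e ∪ orb x u p)) := by
  let base : Fin 3 → α := ![v, e, p]
  have hb : ∀ i, IsPairTwo x u (base i) := fun i => by fin_cases i <;> assumption
  let φ : Fin 3 × Bool × Bool → α := fun t =>
    match t with
    | (i, false, false) => base i
    | (i, true, false) => u (base i)
    | (i, false, true) => x (base i)
    | (i, true, true) => x (u (base i))
  have hmem : ∀ i k l, φ (i, k, l) ∈ orb x u (base i) := by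
    intro i k l
    have h0 := mem_self hx hinv (base i)
    have hI := inv_orb hx hinv (base i)
    cases k <;> cases l
    · exact h0
    · exact (hI.1 _).2 h0
    · exact (hI.2 _).2 h0
    · exact (hI.1 _).2 ((hI.2 _).2 h0)
  have hd : ∀ i j, i ≠ j → base i ∉ orb x u (base j) := by
    intro i j hij
    fin_cases i <;> fin_cases j <;> first
      | exact absurd rfl hij
      | assumption
      | exact fun h => he' (mem_orb_symm hx hinv h)
      | exact fun h => hp' (mem_orb_symm hx hinv h)
      | exact fun h => hp'' (mem_orb_symm hx hinv h)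
  have hinj : Function.Injective φ := by
    rintro ⟨i, k, l⟩ ⟨j, k', l'⟩ h
    have hij : i = j := by
      by_contra hij
      refine hd i j hij (orb_sub hx hinv (inv_orb hx hinv (base j)) ?_ (mem_orb_symm hx hinv (hmem i k l)))
      rw [h]; exact hmem j k' l'
    subst hij
    obtain ⟨-, hne, -, -⟩ := pairTwo_facts hx hinv (hb i)
    have h0 : u.SameCycle (base i) (base i) := Perm.SameCycle.refl _ _
    have h1 : u.SameCycle (base i) (u (base i)) := ⟨1, by simp⟩
    have n1 := not_sc_x hx hinv (hb i).2 h0 h0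
    have n2 := not_sc_x hx hinv (hb i).2 h0 h1
    have n3 := not_sc_x hx hinv (hb i).2 h1 h0
    have n4 := not_sc_x hx hinv (hb i).2 h1 h1
    have n5 : x (u (base i)) ≠ x (base i) := fun h => hne (x.injective h)
    revert h
    cases k <;> cases l <;> cases k' <;> cases l' <;> intro h <;> first
      | rfl
      | exact absurd h hne
      | exact absurd h.symm hne
      | exact absurd h n1
      | exact absurd h.symm n1
      | exact absurd h n2
      | exact absurd h.symm n2
      | exact absurd h n3
      | exact absurd h.symm n3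
      | exact absurd h n4
      | exact absurd h.symm n4
      | exact absurd h n5
      | exact absurd h.symm n5
  have hxφ : ∀ i k l, x (φ (i, k, l)) = φ (i, k, !l) := by
    intro i k l; cases k <;> cases l <;> simp [φ, x_x hx hinv]
  have huφ : ∀ i k l, u (φ (i, k, l)) = φ (i, !k, l) := by
    intro i k l
    obtain ⟨f1, -, f3, f4⟩ := pairTwo_facts hx hinv (hb i)
    cases k <;> cases l <;> simp only [φ, Bool.not_false, Bool.not_true]
    · exact f3
    · exact f1
    · exact f4
  obtain ⟨z1, z2, z3, z4, z5, z6⟩ : φ (0, false, false) = v ∧ φ (0, false, true) = x v ∧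
      φ (1, false, false) = e ∧ φ (1, false, true) = x e ∧ φ (2, false, false) = p ∧
      φ (2, false, true) = x p := ⟨rfl, rfl, rfl, rfl, rfl, rfl⟩
  clear_value φ
  have hS : Six x (φ (0, false, false)) (φ (1, false, true)) (φ (1, true, true)) := by
    refine ⟨hinj.ne (by decide), hinj.ne (by decide), hinj.ne (by decide), ?_⟩
    intro s hs
    rcases hs with h | h | h <;> rw [h, hxφ] <;>
      exact ⟨hinj.ne (by decide), hinj.ne (by decide), hinj.ne (by decide)⟩
  have hS' : Six x (φ (2, false, false)) (φ (0, true, false)) (φ (2, true, true)) := by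
    refine ⟨hinj.ne (by decide), hinj.ne (by decide), hinj.ne (by decide), ?_⟩
    intro s hs
    rcases hs with h | h | h <;> rw [h, hxφ] <;>
      exact ⟨hinj.ne (by decide), hinj.ne (by decide), hinj.ne (by decide)⟩
  obtain ⟨f1, f2, f3, f4, f5, f6, foff, fp, fi⟩ := six_spec hx hinv hS
  obtain ⟨k1, k2, k3, k4, k5, k6, koff, kp, ki⟩ := six_spec hx hinv hS'
  set gC := six x (φ (0, false, false)) (φ (1, false, true)) (φ (1, true, true))
  set gD := six x (φ (2, false, false)) (φ (0, true, false)) (φ (2, true, true))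
  simp only [hxφ, Bool.not_true, Bool.not_false] at f1 f2 f3 f4 f5 f6 foff
  simp only [hxφ, Bool.not_true, Bool.not_false] at k1 k2 k3 k4 k5 k6 koff
  have offC : ∀ t, t ≠ (0, false, false) → t ≠ (1, false, true) → t ≠ (1, true, true) →
      t ≠ (1, true, false) → t ≠ (1, false, false) → t ≠ (0, false, true) → gC (φ t) = φ t :=
    fun t t1 t2 t3 t4 t5 t6 => foff _ ⟨hinj.ne t1, hinj.ne t2, hinj.ne t3⟩
      ⟨hinj.ne t4, hinj.ne t5, hinj.ne t6⟩
  have offD : ∀ t, t ≠ (2, false, false) → t ≠ (0, true, false) → t ≠ (2, true, true) →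
      t ≠ (2, true, false) → t ≠ (0, true, true) → t ≠ (2, false, true) → gD (φ t) = φ t :=
    fun t t1 t2 t3 t4 t5 t6 => koff _ ⟨hinj.ne t1, hinj.ne t2, hinj.ne t3⟩
      ⟨hinj.ne t4, hinj.ne t5, hinj.ne t6⟩
  have hcomm : Commute gC gD := by
    refine Perm.Disjoint.commute fun w => ?_
    by_cases hw : ∃ t, φ t = w
    · obtain ⟨t, rfl⟩ := hw
      by_cases hC : t = (0, false, false) ∨ t = (1, false, true) ∨ t = (1, true, true) ∨
          t = (1, true, false) ∨ t = (1, false, false) ∨ t = (0, false, true)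
      · refine Or.inr (offD t ?_ ?_ ?_ ?_ ?_ ?_) <;> revert hC <;> revert t <;> decide
      · push Not at hC
        exact Or.inl (offC t hC.1 hC.2.1 hC.2.2.1 hC.2.2.2.1 hC.2.2.2.2.1 hC.2.2.2.2.2)
    · push Not at hw
      exact Or.inl (foff w ⟨(hw _).symm, (hw _).symm, (hw _).symm⟩
        ⟨(hw _).symm, (hw _).symm, (hw _).symm⟩)
  have inC : ∀ {i k l t}, gC (φ (i, k, l)) = φ t → gD (φ (i, k, l)) = φ (i, k, l) →
      (gC * gD) (φ (i, k, l)) = φ t := fun h h' => by rw [Perm.mul_apply, h', h]
  have inD : ∀ {i k l t}, gD (φ (i, k, l)) = φ t → gC (φ t) = φ t →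
      (gC * gD) (φ (i, k, l)) = φ t := fun h h' => by rw [Perm.mul_apply, h, h']
  refine gadget_of hx hinv (gC * gD) (Set.range φ) _ (fun w hw => ?_) ?_ ?_
    (conj_inv_mul hx fi ki hcomm) ?_ ?_
  · have hw' : ∀ t, w ≠ φ t := fun t h => hw ⟨t, h.symm⟩
    rw [Perm.mul_apply, koff w ⟨hw' _, hw' _, hw' _⟩ ⟨hw' _, hw' _, hw' _⟩,
      foff w ⟨hw' _, hw' _, hw' _⟩ ⟨hw' _, hw' _, hw' _⟩]
  · rintro _ ⟨⟨i, k, l⟩, rfl⟩
    have := hmem i k l
    fin_cases i
    · exact Finset.mem_union_left _ this
    · exact Finset.mem_union_right _ (Finset.mem_union_left _ this)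
    · exact Finset.mem_union_right _ (Finset.mem_union_right _ this)
  · rw [hcomm.mul_pow, fp, kp, one_mul]
  · have s1 : (gC * gD * u) (φ (0, false, false)) = φ (2, true, true) := by
      rw [Perm.mul_apply, huφ]; exact inD k2 (offC _ (by decide) (by decide) (by decide) (by decide) (by decide) (by decide))
    have s2 : (gC * gD * u) (φ (2, true, true)) = φ (2, true, false) := by
      rw [Perm.mul_apply, huφ]; exact inD k6 (offC _ (by decide) (by decide) (by decide) (by decide) (by decide) (by decide))
    have s3 : (gC * gD * u) (φ (2, true, false)) = φ (0, true, false) := by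
      rw [Perm.mul_apply, huφ]; exact inD k1 (offC _ (by decide) (by decide) (by decide) (by decide) (by decide) (by decide))
    have s4 : (gC * gD * u) (φ (0, true, false)) = φ (1, false, true) := by
      rw [Perm.mul_apply, huφ]; exact inC f1 (offD _ (by decide) (by decide) (by decide) (by decide) (by decide) (by decide))
    have s5 : (gC * gD * u) (φ (1, false, true)) = φ (0, false, false) := by
      rw [Perm.mul_apply, huφ]; exact inC f3 (offD _ (by decide) (by decide) (by decide) (by decide) (by decide) (by decide))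
    have s6 : (gC * gD * u) (φ (1, true, true)) = φ (1, true, true) := by
      rw [Perm.mul_apply, huφ]; exact inC f2 (offD _ (by decide) (by decide) (by decide) (by decide) (by decide) (by decide))
    have t1 : (gC * gD * u) (φ (0, false, true)) = φ (2, false, true) := by
      rw [Perm.mul_apply, huφ]; exact inD k5 (offC _ (by decide) (by decide) (by decide) (by decide) (by decide) (by decide))
    have t2 : (gC * gD * u) (φ (2, false, true)) = φ (2, false, false) := by
      rw [Perm.mul_apply, huφ]; exact inD k3 (offC _ (by decide) (by decide) (by decide) (by decide) (by decide) (by decide))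
    have t3 : (gC * gD * u) (φ (2, false, false)) = φ (0, true, true) := by
      rw [Perm.mul_apply, huφ]; exact inD k4 (offC _ (by decide) (by decide) (by decide) (by decide) (by decide) (by decide))
    have t4 : (gC * gD * u) (φ (0, true, true)) = φ (1, true, false) := by
      rw [Perm.mul_apply, huφ]; exact inC f6 (offD _ (by decide) (by decide) (by decide) (by decide) (by decide) (by decide))
    have t5 : (gC * gD * u) (φ (1, true, false)) = φ (0, false, true) := by
      rw [Perm.mul_apply, huφ]; exact inC f5 (offD _ (by decide) (by decide) (by decide) (by decide) (by decide) (by decide))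
    have t6 : (gC * gD * u) (φ (1, false, false)) = φ (1, false, false) := by
      rw [Perm.mul_apply, huφ]; exact inC f4 (offD _ (by decide) (by decide) (by decide) (by decide) (by decide) (by decide))
    set f := gC * gD * u with hf
    rintro _ ⟨⟨i, k, l⟩, rfl⟩
    fin_cases i <;> cases k <;> cases l <;> first
      | exact ⟨1, odd_one, by rw [pow_one]; first | exact s6 | exact t6⟩
      | refine ⟨5, ⟨2, rfl⟩, ?_⟩
        simp [pow_succ, s1, s2, s3, s4, s5, t1, t2, t3, t4, t5]
  · intro w hw
    simp only [Finset.mem_union, mem_orb hx hinv] at hw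
    rcases hw with (h | h) | (h | h) | (h | h)
    · exact ⟨_, ⟨(0, false, false), z1⟩, h.symm⟩
    · exact ⟨_, ⟨(0, false, true), z2⟩, h.symm⟩
    · exact ⟨_, ⟨(1, false, false), z3⟩, h.symm⟩
    · exact ⟨_, ⟨(1, false, true), z4⟩, h.symm⟩
    · exact ⟨_, ⟨(2, false, false), z5⟩, h.symm⟩
    · exact ⟨_, ⟨(2, false, true), z6⟩, h.symm⟩

omit [Fintype α] [DecidableEq α] in
theorem path_rep {v : α} (hv : u.SameCycle v (x v)) :
    ∃ r, u.SameCycle v r ∧ (x r = r ∨ u r = x r) := by
  obtain ⟨c, hc⟩ := hv
  rcases Int.even_or_odd c with ⟨k, rfl⟩ | ⟨k, rfl⟩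
  · refine ⟨(u ^ k) v, ⟨k, rfl⟩, Or.inl ?_⟩
    rw [x_zpow hx hinv, ← hc, ← Perm.mul_apply, ← zpow_add, neg_add_cancel_left]
  · refine ⟨(u ^ k) v, ⟨k, rfl⟩, Or.inr ?_⟩
    rw [x_zpow hx hinv, ← hc, ← Perm.mul_apply, ← Perm.mul_apply, ← zpow_one_add, ← zpow_add]
    congr 2; ring

omit [Fintype α] [DecidableEq α] in
/-- An odd cycle meeting its mirror has a point fixed by `x`. -/
theorem odd_path_fixed {v : α} (hv : u.SameCycle v (x v)) (ho : Odd (per u v)) :
    ∃ r, u.SameCycle v r ∧ x r = r := by
  obtain ⟨r, hr, h | h⟩ := path_rep hx hinv hv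
  · exact ⟨r, hr, h⟩
  · rw [← per_sameCycle hx hinv hr] at ho
    obtain ⟨h0, hh⟩ := ho
    refine ⟨(u ^ (h0 + 1)) r, hr.trans (sc hx hinv r _), ?_⟩
    have hxr : x ((u ^ (h0 + 1)) r) = (u ^ (-((h0 + 1 : ℕ) : ℤ) + 1)) r := by
      rw [← zpow_natCast, x_zpow hx hinv, ← h, zpow_add, zpow_one, Perm.mul_apply]
    rw [hxr, ← zpow_natCast, zpow_eq_iff]
    exact ⟨-1, by push_cast; rw [hh]; push_cast; ring⟩

/-- The points fixed by `x`. -/
def FX (x : Perm α) (W : Finset α) : Finset α := W.filter fun v => x v = v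

/-- The points fixed by `x * u`. -/
def FY (x u : Perm α) (W : Finset α) : Finset α := W.filter fun v => u v = x v

theorem orb_path {r : α} (h : u.SameCycle r (x r)) {w : α} (hw : w ∈ orb x u r) :
    ∃ i, i < per u r ∧ (u ^ i) r = w := by
  rw [← mem_cycOf, mem_cycOf']
  rcases (mem_orb hx hinv r w).1 hw with e | e
  · exact e
  · exact h.trans e

theorem count_pair {v : α} (hv : ¬ u.SameCycle v (x v)) :
    (FX x (orb x u v)).card = 0 ∧ (FY x u (orb x u v)).card = 0 := by
  simp only [FX, FY, Finset.card_eq_zero, Finset.filter_eq_empty_iff]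
  exact ⟨fun w hw => (not_path_mem hx hinv hv hw).1, fun w hw => (not_path_mem hx hinv hv hw).2⟩

theorem count_odd {r : α} (hr : x r = r) (ho : Odd (per u r)) :
    (FX x (orb x u r)).card = 1 ∧ (FY x u (orb x u r)).card = 1 := by
  obtain ⟨h, hh⟩ := ho
  have hxi : ∀ i : ℕ, x ((u ^ i) r) = (u ^ (-(i : ℤ))) r := fun i => by
    rw [← zpow_natCast, x_zpow hx hinv, hr]
  have hxs : u.SameCycle r (x r) := by rw [hr]
  have hm : ∀ i, (u ^ i) r ∈ orb x u r := fun i => (mem_orb hx hinv r _).2 (Or.inl (sc hx hinv r i))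
  constructor <;> rw [Finset.card_eq_one]
  · refine ⟨r, Finset.ext fun w => ?_⟩
    simp only [FX, Finset.mem_filter, Finset.mem_singleton]
    refine ⟨fun ⟨hw, hw'⟩ => ?_, fun e => by rw [e]; exact ⟨mem_self hx hinv r, hr⟩⟩
    obtain ⟨i, hi, rfl⟩ := orb_path hx hinv hxs hw
    rw [hxi, ← zpow_natCast, zpow_eq_iff, show -(i : ℤ) - i = -(2 * (i : ℤ)) by ring, dvd_neg] at hw'
    have h2 : per u r ∣ 2 * i := by exact_mod_cast hw'
    have h3 : per u r ∣ i := (Nat.Coprime.dvd_of_dvd_mul_left (by rw [hh]; simp) h2)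
    exact (pow_eq_self_iff u r i).2 h3
  · refine ⟨(u ^ h) r, Finset.ext fun w => ?_⟩
    simp only [FY, Finset.mem_filter, Finset.mem_singleton]
    have key : ∀ i : ℕ, u ((u ^ i) r) = x ((u ^ i) r) ↔ per u r ∣ 2 * i + 1 := by
      intro i
      rw [hxi, ← Perm.mul_apply, ← pow_succ', ← zpow_natCast, zpow_eq_iff,
        show ((i + 1 : ℕ) : ℤ) - -(i : ℤ) = ((2 * i + 1 : ℕ) : ℤ) by push_cast; ring, Int.natCast_dvd_natCast]
    refine ⟨fun ⟨hw, hw'⟩ => ?_, fun e => by rw [e]; exact ⟨hm h, (key h).2 (by rw [hh])⟩⟩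
    obtain ⟨i, hi, rfl⟩ := orb_path hx hinv hxs hw
    obtain ⟨k, hk⟩ := (key i).1 hw'
    have hk1 : k = 1 := by
      rcases k with _ | _ | k
      · omega
      · rfl
      · exfalso
        have : per u r * 2 ≤ per u r * (k + 1 + 1) := Nat.mul_le_mul_left _ (by omega)
        omega
    subst hk1
    rw [show i = h by omega]

omit [Fintype α] [DecidableEq α] hx hinv in
theorem two_fix {L i : ℕ} (hi : i < L) (h : L ∣ 2 * i) : i = 0 ∨ 2 * i = L := by
  obtain ⟨k, hk⟩ := h
  rcases k with _ | _ | k
  · left; omega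
  · right; omega
  · exfalso
    have : L * 2 ≤ L * (k + 1 + 1) := Nat.mul_le_mul_left _ (by omega)
    omega

theorem count_xfixed_even {r : α} (hr : x r = r) (he : Even (per u r)) :
    (FX x (orb x u r)).card = 2 ∧ (FY x u (orb x u r)).card = 0 := by
  obtain ⟨h, hh⟩ := he
  have h0 : 1 ≤ h := by have := per_pos u r; omega
  have hxi : ∀ i : ℕ, x ((u ^ i) r) = (u ^ (-(i : ℤ))) r := fun i => by
    rw [← zpow_natCast, x_zpow hx hinv, hr]
  have hxs : u.SameCycle r (x r) := by rw [hr]
  constructor
  · rw [Finset.card_eq_two]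
    refine ⟨r, (u ^ h) r, fun e => ?_, Finset.ext fun w => ?_⟩
    · have := Nat.le_of_dvd h0 ((pow_eq_self_iff u r h).1 e.symm); omega
    simp only [FX, Finset.mem_filter, Finset.mem_insert, Finset.mem_singleton]
    have key : ∀ i : ℕ, x ((u ^ i) r) = (u ^ i) r ↔ per u r ∣ 2 * i := by
      intro i
      rw [hxi, ← zpow_natCast, zpow_eq_iff, show -(i : ℤ) - i = -(2 * (i : ℤ)) by ring, dvd_neg]
      exact_mod_cast Iff.rfl
    constructor
    · rintro ⟨hw, hw'⟩
      obtain ⟨i, hi, rfl⟩ := orb_path hx hinv hxs hw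
      rcases two_fix hi ((key i).1 hw') with e | e
      · left; simp [e]
      · right; rw [show i = h by omega]
    · rintro (e | e) <;> rw [e]
      · exact ⟨mem_self hx hinv r, hr⟩
      · exact ⟨(mem_orb hx hinv r _).2 (Or.inl (sc hx hinv r h)), (key h).2 (by rw [hh]; exact dvd_of_eq (by ring))⟩
  · rw [Finset.card_eq_zero, FY, Finset.filter_eq_empty_iff]
    intro w hw e
    obtain ⟨i, hi, rfl⟩ := orb_path hx hinv hxs hw
    rw [hxi, ← Perm.mul_apply, ← pow_succ', ← zpow_natCast, zpow_eq_iff,
        show ((i + 1 : ℕ) : ℤ) - -(i : ℤ) = ((2 * i + 1 : ℕ) : ℤ) by push_cast; ring, Int.natCast_dvd_natCast] at e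
    have : 2 ∣ 2 * i + 1 := (Dvd.intro_left _ rfl : 2 ∣ h * 2).trans ((dvd_of_eq (by omega)).trans e)
    omega

theorem count_yfixed_even {r : α} (hr : u r = x r) (he : Even (per u r)) :
    (FX x (orb x u r)).card = 0 ∧ (FY x u (orb x u r)).card = 2 := by
  obtain ⟨h, hh⟩ := he
  have h0 : 1 ≤ h := by have := per_pos u r; omega
  have hxi : ∀ i : ℕ, x ((u ^ i) r) = (u ^ (-(i : ℤ) + 1)) r := fun i => by
    rw [← zpow_natCast, x_zpow hx hinv, ← hr, zpow_add, zpow_one, Perm.mul_apply]
  have hxs : u.SameCycle r (x r) := ⟨1, by rw [zpow_one, hr]⟩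
  constructor
  · rw [Finset.card_eq_zero, FX, Finset.filter_eq_empty_iff]
    intro w hw e
    obtain ⟨i, hi, rfl⟩ := orb_path hx hinv hxs hw
    rw [hxi, ← zpow_natCast, zpow_eq_iff] at e
    have h2 : ((2 : ℕ) : ℤ) ∣ -(i : ℤ) + 1 - i := (Int.natCast_dvd_natCast.2 ⟨h, by omega⟩).trans e
    omega
  · rw [Finset.card_eq_two]
    refine ⟨r, (u ^ h) r, fun e => ?_, Finset.ext fun w => ?_⟩
    · have := Nat.le_of_dvd h0 ((pow_eq_self_iff u r h).1 e.symm); omega
    simp only [FY, Finset.mem_filter, Finset.mem_insert, Finset.mem_singleton]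
    have key : ∀ i : ℕ, u ((u ^ i) r) = x ((u ^ i) r) ↔ per u r ∣ 2 * i := by
      intro i
      rw [hxi, ← Perm.mul_apply, ← pow_succ', ← zpow_natCast, zpow_eq_iff,
        show ((i + 1 : ℕ) : ℤ) - (-(i : ℤ) + 1) = ((2 * i : ℕ) : ℤ) by push_cast; ring,
        Int.natCast_dvd_natCast]
    constructor
    · rintro ⟨hw, hw'⟩
      obtain ⟨i, hi, rfl⟩ := orb_path hx hinv hxs hw
      rcases two_fix hi ((key i).1 hw') with e | e
      · left; simp [e]
      · right; rw [show i = h by omega]
    · rintro (e | e) <;> rw [e]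
      · exact ⟨mem_self hx hinv r, hr⟩
      · exact ⟨(mem_orb hx hinv r _).2 (Or.inl (sc hx hinv r h)), (key h).2 (by rw [hh]; exact dvd_of_eq (by ring))⟩

omit hx hinv in
theorem card_FX_union {V W : Finset α} (h : Disjoint V W) :
    (FX x (V ∪ W)).card = (FX x V).card + (FX x W).card ∧
      (FY x u (V ∪ W)).card = (FY x u V).card + (FY x u W).card := by
  simp only [FX, FY, Finset.filter_union]
  exact ⟨Finset.card_union_of_disjoint (Finset.disjoint_filter_filter h),
    Finset.card_union_of_disjoint (Finset.disjoint_filter_filter h)⟩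

/-- The gadget on any balanced invariant set other than a single pair of two-cycles. -/
theorem gadget_exists (W : Finset α) (hW : Inv x u W) (hbal : (FX x W).card = (FY x u W).card)
    (hns : ¬ Single x u W) : Gadget x u W := by
  classical
  induction W using Finset.strongInduction with
  | H W ih =>
  by_cases hW0 : W = ∅
  · exact ⟨1, fun _ _ => rfl, one_pow 3, by simp [hx], fun v hv => absurd hv (by simp [hW0])⟩
  -- removing a balanced piece
  have step : ∀ P : Finset α, P ⊆ W → P.Nonempty → Inv x u P → Gadget x u P →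
      (FX x P).card = (FY x u P).card → ¬ Single x u (W \ P) → Gadget x u W := by
    intro P hPW hPne hP hg hb hs
    have hd : Disjoint P (W \ P) := disjoint_sdiff
    have hu : P ∪ (W \ P) = W := Finset.union_sdiff_of_subset hPW
    have hc := card_FX_union (x := x) (u := u) hd
    rw [hu] at hc
    have hrest := ih (W \ P) (Finset.sdiff_ssubset hPW hPne) (inv_sdiff hx hinv hW hP) (by omega) hs
    rw [← hu]
    exact Gadget.union hP (inv_sdiff hx hinv hW hP) hd hg hrest hx
  have nonempty : ∀ v, (orb x u v).Nonempty := fun v => ⟨v, mem_self hx hinv v⟩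
  have sub : ∀ v ∈ W, orb x u v ⊆ W := fun v hv => orb_sub hx hinv hW hv
  have Iorb := inv_orb hx hinv
  by_cases hE : ∃ v ∈ W, IsPairTwo x u v
  · obtain ⟨v, hvW, hv⟩ := hE
    by_cases hE2 : ∃ e ∈ W, IsPairTwo x u e ∧ e ∉ orb x u v
    · obtain ⟨e, heW, he, hev⟩ := hE2
      have hde := orb_disjoint hx hinv (Iorb v) hev
      by_cases hS : Single x u (W \ (orb x u v ∪ orb x u e))
      · obtain ⟨p, hp, hrest⟩ := hS
        have hpm : p ∈ W \ (orb x u v ∪ orb x u e) := hrest ▸ mem_self hx hinv p
        simp only [Finset.mem_sdiff, Finset.mem_union, not_or] at hpm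
        have hWeq : W = orb x u v ∪ (orb x u e ∪ orb x u p) := by
          rw [← Finset.union_assoc, ← hrest,
            Finset.union_sdiff_of_subset (Finset.union_subset (sub v hvW) (sub e heW))]
        rw [hWeq]
        exact gadget_triple hx hinv hv he hp hev hpm.2.1 hpm.2.2
      · refine step _ (Finset.union_subset (sub v hvW) (sub e heW)) ((nonempty v).mono Finset.subset_union_left)
          (inv_union hx hinv (Iorb v) (Iorb e)) (gadget_two_even hx hinv hv.2 hv.1 he.2 he.1 even_two hev) ?_ hS
        rw [(card_FX_union (x := x) (u := u) hde).1, (card_FX_union (x := x) (u := u) hde).2, (count_pair hx hinv hv.2).1,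
          (count_pair hx hinv hv.2).2, (count_pair hx hinv he.2).1, (count_pair hx hinv he.2).2]
    · push Not at hE2
      have hrest : ∀ P, orb x u v ⊆ P → ¬ Single x u (W \ P) := by
        rintro P hP ⟨p, hp, hpe⟩
        have hpm : p ∈ W \ P := hpe ▸ mem_self hx hinv p
        rw [Finset.mem_sdiff] at hpm
        exact hpm.2 (hP (hE2 p hpm.1 hp))
      have hne : (W \ orb x u v).Nonempty := by
        rw [Finset.nonempty_iff_ne_empty, Ne, Finset.sdiff_eq_empty_iff_subset]
        exact fun h => hns ⟨v, hv, Finset.Subset.antisymm h (sub v hvW)⟩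
      have cv := count_pair hx hinv hv.2
      by_cases hC : ∃ w ∈ W, w ∉ orb x u v ∧ ¬ u.SameCycle w (x w)
      · obtain ⟨w, hwW, hwv, hw⟩ := hC
        have hd := orb_disjoint hx hinv (Iorb v) hwv
        refine step _ (Finset.union_subset (sub v hvW) (sub w hwW)) ((nonempty v).mono Finset.subset_union_left)
          (inv_union hx hinv (Iorb v) (Iorb w)) ?_ ?_ (hrest _ Finset.subset_union_left)
        · rcases Nat.even_or_odd (per u w) with h | h
          · exact gadget_two_even hx hinv hv.2 hv.1 hw rfl h hwv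
          · exact gadget_two_odd hx hinv hv.2 hv.1 hw rfl h hwv
        · rw [(card_FX_union (x := x) (u := u) hd).1, (card_FX_union (x := x) (u := u) hd).2, cv.1, cv.2, (count_pair hx hinv hw).1,
            (count_pair hx hinv hw).2]
      · push Not at hC
        by_cases hO : ∃ w ∈ W, w ∉ orb x u v ∧ Odd (per u w)
        · obtain ⟨w, hwW, hwv, hwo⟩ := hO
          obtain ⟨r, hwr, hr⟩ := odd_path_fixed hx hinv (hC w hwW hwv) hwo
          have hrw : r ∈ orb x u w := (mem_orb hx hinv w r).2 (Or.inl hwr)
          have hrW : r ∈ W := sub w hwW hrw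
          have hrv : r ∉ orb x u v := fun h => hwv (orb_sub hx hinv (Iorb v) h (mem_orb_symm hx hinv hrw))
          have hd := orb_disjoint hx hinv (Iorb v) hrv
          have hro : Odd (per u r) := by rwa [per_sameCycle hx hinv hwr]
          refine step _ (Finset.union_subset (sub v hvW) (sub r hrW)) ((nonempty v).mono Finset.subset_union_left)
            (inv_union hx hinv (Iorb v) (Iorb r)) (gadget_two_path hx hinv hv.2 hv.1 hr rfl hro hrv) ?_
            (hrest _ Finset.subset_union_left)
          rw [(card_FX_union (x := x) (u := u) hd).1, (card_FX_union (x := x) (u := u) hd).2, cv.1, cv.2, (count_odd hx hinv hr hro).1,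
            (count_odd hx hinv hr hro).2]
        · push Not at hO
          have hall : ∀ w ∈ W, w ∉ orb x u v → Even (per u w) := fun w h1 h2 =>
            Nat.not_odd_iff_even.1 (hO w h1 h2)
          obtain ⟨w, hw⟩ := hne
          rw [Finset.mem_sdiff] at hw
          obtain ⟨r0, hr0, hor⟩ := path_rep hx hinv (hC w hw.1 hw.2)
          have hr0m : r0 ∈ orb x u w := (mem_orb hx hinv w r0).2 (Or.inl hr0)
          have hr0W : r0 ∈ W := sub w hw.1 hr0m
          have hex : (FX x W).Nonempty ∧ (FY x u W).Nonempty := by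
            rw [← Finset.card_pos, ← Finset.card_pos]
            rcases hor with h | h
            · have : 0 < (FX x W).card := Finset.card_pos.2 ⟨r0, Finset.mem_filter.2 ⟨hr0W, h⟩⟩
              omega
            · have : 0 < (FY x u W).card := Finset.card_pos.2 ⟨r0, Finset.mem_filter.2 ⟨hr0W, h⟩⟩
              omega
          obtain ⟨⟨r, hr⟩, ⟨q, hq⟩⟩ := hex
          rw [FX, Finset.mem_filter] at hr
          rw [FY, Finset.mem_filter] at hq
          have hrv : r ∉ orb x u v := fun h => (not_path_mem hx hinv hv.2 h).1 hr.2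
          have hqv : q ∉ orb x u v := fun h => (not_path_mem hx hinv hv.2 h).2 hq.2
          have her := hall r hr.1 hrv
          have heq := hall q hq.1 hqv
          have cr := count_xfixed_even hx hinv hr.2 her
          have cq := count_yfixed_even hx hinv hq.2 heq
          have hqr : r ∉ orb x u q := fun h => by
            have : r ∈ FX x (orb x u q) := Finset.mem_filter.2 ⟨h, hr.2⟩
            rw [Finset.card_eq_zero.1 cq.1] at this; simp at this
          have hd2 := orb_disjoint hx hinv (Iorb q) hqr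
          have hd1 : Disjoint (orb x u v) (orb x u q ∪ orb x u r) :=
            Finset.disjoint_union_right.2 ⟨orb_disjoint hx hinv (Iorb v) hqv, orb_disjoint hx hinv (Iorb v) hrv⟩
          refine step _ (Finset.union_subset (sub v hvW) (Finset.union_subset (sub q hq.1) (sub r hr.1)))
            ((nonempty v).mono Finset.subset_union_left) (inv_union hx hinv (Iorb v) (inv_union hx hinv (Iorb q) (Iorb r)))
            (gadget_two_slide hx hinv hv.2 hv.1 hq.2 heq hr.2 her hqv hrv
              fun h => hqr ((mem_orb hx hinv q r).2 (Or.inl h))) ?_ (hrest _ Finset.subset_union_left)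
          rw [(card_FX_union (x := x) (u := u) hd1).1, (card_FX_union (x := x) (u := u) hd1).2, (card_FX_union (x := x) (u := u) hd2).1, (card_FX_union (x := x) (u := u) hd2).2,
            cv.1, cv.2, cr.1, cr.2, cq.1, cq.2]
  · push Not at hE
    have hrest : ∀ P, ¬ Single x u (W \ P) := by
      rintro P ⟨p, hp, hpe⟩
      have hpm : p ∈ W \ P := hpe ▸ mem_self hx hinv p
      exact hE p (Finset.mem_sdiff.1 hpm).1 hp
    by_cases hO : ∃ w ∈ W, Odd (per u w)
    · obtain ⟨w, hwW, hwo⟩ := hO
      refine step _ (sub w hwW) (nonempty w) (Iorb w) (gadget_odd hx hinv w hwo) ?_ (hrest _)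
      by_cases hp : u.SameCycle w (x w)
      · obtain ⟨r, hwr, hr⟩ := odd_path_fixed hx hinv hp hwo
        have hrw : r ∈ orb x u w := (mem_orb hx hinv w r).2 (Or.inl hwr)
        have : orb x u r = orb x u w := Finset.Subset.antisymm (orb_sub hx hinv (Iorb w) hrw)
          (orb_sub hx hinv (Iorb r) (mem_orb_symm hx hinv hrw))
        rw [← this, (count_odd hx hinv hr (by rwa [per_sameCycle hx hinv hwr])).1,
          (count_odd hx hinv hr (by rwa [per_sameCycle hx hinv hwr])).2]
      · rw [(count_pair hx hinv hp).1, (count_pair hx hinv hp).2]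
    · push Not at hO
      have hall : ∀ w ∈ W, Even (per u w) := fun w h => Nat.not_odd_iff_even.1 (hO w h)
      by_cases hC : ∃ w ∈ W, ¬ u.SameCycle w (x w)
      · obtain ⟨w, hwW, hw⟩ := hC
        have h4 : 4 ≤ per u w := by
          obtain ⟨k, hk⟩ := hall w hwW
          have := per_pos u w
          have : per u w ≠ 2 := fun h => hE w hwW ⟨h, hw⟩
          omega
        refine step _ (sub w hwW) (nonempty w) (Iorb w) (gadget_pair hx hinv hw rfl (hall w hwW) h4) ?_ (hrest _)
        rw [(count_pair hx hinv hw).1, (count_pair hx hinv hw).2]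
      · push Not at hC
        obtain ⟨w, hw⟩ := Finset.nonempty_iff_ne_empty.2 hW0
        obtain ⟨r0, hr0, hor⟩ := path_rep hx hinv (hC w hw)
        have hr0W : r0 ∈ W := sub w hw ((mem_orb hx hinv w r0).2 (Or.inl hr0))
        have hex : (FX x W).Nonempty ∧ (FY x u W).Nonempty := by
          rw [← Finset.card_pos, ← Finset.card_pos]
          rcases hor with h | h
          · have : 0 < (FX x W).card := Finset.card_pos.2 ⟨r0, Finset.mem_filter.2 ⟨hr0W, h⟩⟩
            omega
          · have : 0 < (FY x u W).card := Finset.card_pos.2 ⟨r0, Finset.mem_filter.2 ⟨hr0W, h⟩⟩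
            omega
        obtain ⟨⟨r, hr⟩, ⟨q, hq⟩⟩ := hex
        rw [FX, Finset.mem_filter] at hr
        rw [FY, Finset.mem_filter] at hq
        have her := hall r hr.1
        have heq := hall q hq.1
        have cr := count_xfixed_even hx hinv hr.2 her
        have cq := count_yfixed_even hx hinv hq.2 heq
        have hqr : r ∉ orb x u q := fun h => by
          have : r ∈ FX x (orb x u q) := Finset.mem_filter.2 ⟨h, hr.2⟩
          rw [Finset.card_eq_zero.1 cq.1] at this; simp at this
        have hd2 := orb_disjoint hx hinv (Iorb q) hqr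
        refine step _ (Finset.union_subset (sub q hq.1) (sub r hr.1)) ((nonempty q).mono Finset.subset_union_left)
          (inv_union hx hinv (Iorb q) (Iorb r)) (gadget_slide hx hinv hq.2 hr.2 heq her
            fun h => hqr ((mem_orb hx hinv q r).2 (Or.inl h))) ?_ (hrest _)
        rw [(card_FX_union (x := x) (u := u) hd2).1, (card_FX_union (x := x) (u := u) hd2).2, cr.1, cr.2, cq.1, cq.2]

end

/-- Two conjugate involutions of a permutation group on at least five points have a common
neighbour in the odd-product graph. -/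
theorem exists_common_odd (h5 : 5 ≤ Fintype.card α) (x y : Perm α) (hx : x * x = 1) (hy : y * y = 1)
    (hc : IsConj x y) :
    ∃ z : Perm α, z * z = 1 ∧ Odd (orderOf (x * z)) ∧ Odd (orderOf (y * z)) := by
  classical
  set u := x * y with hu
  have hinv : ∀ v, x (u v) = u⁻¹ (x v) := fun v => by
    have hxi : x⁻¹ = x := inv_eq_of_mul_eq_one_right hx
    have hyi : y⁻¹ = y := inv_eq_of_mul_eq_one_right hy
    have : x * u = u⁻¹ * x := by
      rw [hu, mul_inv_rev, hxi, hyi, ← mul_assoc, hx, one_mul, mul_assoc, hx, mul_one]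
    exact congrArg (fun f : Perm α => f v) this
  have hW : Inv x u (Finset.univ : Finset α) := by constructor <;> simp
  have hxu : x * u = y := by rw [hu, ← mul_assoc, hx, one_mul]
  have hbal : (FX x (Finset.univ : Finset α)).card = (FY x u Finset.univ).card := by
    obtain ⟨c, hc⟩ := isConj_iff.1 hc
    have hy' : ∀ v, u v = x v ↔ y v = v := fun v => by
      have e : y v = x (u v) := (congrArg (fun f : Perm α => f v) hxu).symm
      rw [e]
      exact ⟨fun h => by rw [h, x_x hx hinv], fun h => by rw [← x_x hx hinv (u v), h]⟩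
    refine Finset.card_bij (fun v _ => c v) (fun v hv => ?_) (fun _ _ _ _ h => c.injective h) fun w hw => ?_
    · simp only [FX, FY, Finset.mem_filter, Finset.mem_univ, true_and] at hv ⊢
      rw [hy', ← hc]; simp [hv]
    · simp only [FX, FY, Finset.mem_filter, Finset.mem_univ, true_and] at hw ⊢
      rw [hy', ← hc] at hw
      simp only [Perm.mul_apply] at hw
      refine ⟨c⁻¹ w, ?_, by simp⟩
      apply c.injective
      rw [hw]; simp
  have hns : ¬ Single x u (Finset.univ : Finset α) := by
    rintro ⟨v, hv, he⟩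
    have hc1 : ∀ w, per u w = 2 → (cycOf u w).card ≤ 2 := fun w hw => by
      refine le_trans (Finset.card_le_card (t := (Finset.range 2).image fun i => (u ^ i) w) fun s hs => ?_)
        (Finset.card_image_le.trans (by simp))
      obtain ⟨i, hi, rfl⟩ := (mem_cycOf u w s).1 hs
      exact Finset.mem_image.2 ⟨i, Finset.mem_range.2 (hw ▸ hi), rfl⟩
    have h := congrArg Finset.card he
    rw [Finset.card_univ] at h
    have := Finset.card_union_le (cycOf u v) (cycOf u (x v))
    have := hc1 v hv.1
    have := hc1 (x v) ((per_x hx hinv v).trans hv.1)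
    rw [orb] at h
    omega
  obtain ⟨g, -, hg3, hgi, hgp⟩ := gadget_exists hx hinv _ hW hbal hns
  have hxi : x⁻¹ = x := inv_eq_of_mul_eq_one_right hx
  have hodd3 : Odd (orderOf g) := Odd.of_dvd_nat (by decide : Odd 3) (orderOf_dvd_of_pow_eq_one hg3)
  refine ⟨g * x, ?_, ?_, ?_⟩
  · rw [mul_assoc, ← mul_assoc x, hgi, mul_inv_cancel]
  · rwa [← mul_assoc, hgi, orderOf_inv]
  · have h1 : (y * (g * x))⁻¹ = x * g⁻¹ * y := by
      rw [mul_inv_rev, mul_inv_rev, hxi, inv_eq_of_mul_eq_one_right hy]
    have h2 : x * g⁻¹ * y = g * u := by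
      rw [← hgi, hu]; simp only [mul_assoc, ← mul_assoc x x, hx, one_mul, mul_one]
    rw [← orderOf_inv, h1, h2]
    exact odd_orderOf _ fun v => hgp v (Finset.mem_univ v)

end Cfsg.Agent.Chars.OddSym
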