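import Cfsg.Agent.Chars.PSLBinaryOdd
import Cfsg.Agent.Linear.PSL2FourCyclic
import Cfsg.Agent.Core.PiNumber
import Mathlib

/-!
Binary coset actions of `PSL₂`: subgroups of even order prime to the odd characteristic.
-/

set_option autoImplicit false
set_option linter.unusedSectionVars false
set_option maxHeartbeats 400000
set_option synthInstance.maxSize 1000
set_option synthInstance.maxHeartbeats 100000

namespace Cfsg.Agent.Chars.PSLBinary

open Matrix Cfsg.Agent.Chars.SzBinary Cfsg.Agent.Dickson Cfsg.Agent.Linear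

variable {F : Type*} [Field F] [Fintype F]

local notation "SL" => Matrix.SpecialLinearGroup (Fin 2) F
local notation "PSL" => Matrix.ProjectiveSpecialLinearGroup (Fin 2) F
local notation "Ct" e => Subgroup.centralizer ({e} : Set PSL)

/-- An involution. -/
def Inv (e : Matrix.ProjectiveSpecialLinearGroup (Fin 2) F) : Prop := e ≠ 1 ∧ e * e = 1

theorem mem_ct {g e : PSL} : g ∈ Subgroup.centralizer ({e} : Set PSL) ↔ g * e = e * g :=
  Subgroup.mem_centralizer_singleton_iff

theorem inv_orderOf {e : PSL} (he : Inv e) : orderOf e = 2 :=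
  orderOf_eq_prime (by rw [pow_two]; exact he.2) he.1

theorem quatJ_entries : (quatJ : SL) 0 0 = 0 ∧ (quatJ : SL) 0 1 = -1 ∧ (quatJ : SL) 1 0 = 1 ∧
    (quatJ : SL) 1 1 = 0 := ⟨rfl, rfl, rfl, rfl⟩

theorem exists_anti_J (h2 : (2 : F) ≠ 0) :
    ∃ A : SL, A * quatJ = -(quatJ * A) := by
  obtain ⟨x, y, hxy⟩ := Forms.exists_sq_add_sq_eq (F := F) one_ne_zero one_ne_zero (-1)
  refine ⟨mk x y y (-x) (by linear_combination -hxy), ?_⟩
  obtain ⟨a, b, c, d⟩ := quatJ_entries (F := F)
  apply ext2 <;> simp only [mul_apply2, neg_apply2, mk00, mk01, mk10, mk11, a, b, c, d] <;> ring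

theorem inv_lift (h2 : (2 : F) ≠ 0) {E : SL} (he : Inv (toPSL E)) : E.1 * E.1 = -1 :=
  (toPSL_involution h2).1 he

theorem inv_isConj (h2 : (2 : F) ≠ 0) {e f : PSL} (he : Inv e) (hf : Inv f) : IsConj e f :=
  involutions_conj h2 e f (inv_orderOf he) (inv_orderOf hf)

theorem card_ct_J (h2 : (2 : F) ≠ 0) :
    Nat.card (Ct (toPSL (quatJ : SL))) = Nat.card {x : SL // x * quatJ = quatJ * x} := by
  classical
  let K : Subgroup SL := Subgroup.centralizer ({quatJ} : Set SL)
  let N : Subgroup SL := (Ct (toPSL (quatJ : SL))).comap toPSL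
  have hK : Nat.card K = Nat.card {x : SL // x * quatJ = quatJ * x} :=
    Nat.card_congr (Equiv.subtypeEquivRight fun x => Subgroup.mem_centralizer_singleton_iff)
  have hJ : quatJ.1 * quatJ.1 = (-1 : Matrix (Fin 2) (Fin 2) F) := quatJ_sq
  have hN : ∀ x : SL, x ∈ N ↔ x * quatJ = quatJ * x ∨ x * quatJ = -(quatJ * x) := fun x => by
    simp only [N, Subgroup.mem_comap, mem_ct, ← map_mul, toPSL_eq_iff]
  have hKN : K ≤ N := fun x hx => (hN x).2 (Or.inl (Subgroup.mem_centralizer_singleton_iff.1 hx))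
  obtain ⟨A, hA⟩ := exists_anti_J h2
  have hne : ∀ x : SL, x * quatJ = -(quatJ * x) → ¬ x ∈ K := by
    intro x hx hxK
    rw [Subgroup.mem_centralizer_singleton_iff, hx, neg_eq_iff_eq_neg] at hxK
    have h3 : x * quatJ * (x * quatJ)⁻¹ = (1 : SL) := mul_inv_cancel _
    apply one_ne_neg_one_SL h2
    have : quatJ * x * (quatJ * x)⁻¹ = -(quatJ * x) * (quatJ * x)⁻¹ := by rw [← hxK]
    simpa [neg_mul] using this
  have hidx : K.relIndex N = 2 := by
    rw [Subgroup.relIndex, Subgroup.index_eq_two_iff]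
    refine ⟨⟨A, (hN A).2 (Or.inr hA)⟩, fun b => ?_⟩
    simp only [Subgroup.mem_subgroupOf, Subgroup.coe_mul]
    rcases (hN b.1).1 b.2 with hb | hb
    · refine Or.inr ⟨Subgroup.mem_centralizer_singleton_iff.2 hb, hne _ ?_⟩
      rw [mul_assoc, hA, mul_neg, ← mul_assoc, hb, mul_assoc]
    · refine Or.inl ⟨Subgroup.mem_centralizer_singleton_iff.2 ?_, hne _ hb⟩
      rw [mul_assoc, hA, mul_neg, ← mul_assoc, hb, neg_mul, neg_neg, mul_assoc]
  have h1 : Nat.card N = Nat.card K * 2 := by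
    rw [← Subgroup.relIndex_bot_left, ← Subgroup.relIndex_bot_left,
      ← Subgroup.relIndex_mul_relIndex ⊥ K N bot_le hKN, hidx]
  have h3 : Nat.card N = Nat.card (Ct (toPSL (quatJ : SL))) * 2 := by
    have hker : Nat.card (toPSL : SL →* PSL).ker = 2 := by
      rw [show ((toPSL : SL →* PSL).ker) = Subgroup.center SL from QuotientGroup.ker_mk' _]
      have : (Subgroup.center SL : Set SL) = {1, -1} := Set.ext fun g => by
        simp [mem_center_SL2_iff]
      show Nat.card ((Subgroup.center SL : Set SL)) = 2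
      rw [Nat.card_coe_set_eq, this, Set.ncard_pair (one_ne_neg_one_SL h2)]
    have e1 : (toPSL : SL →* PSL).ker ≤ N := fun x hx => Subgroup.mem_comap.2 (by
      rw [MonoidHom.mem_ker.1 hx]; exact one_mem _)
    rw [← Subgroup.relIndex_bot_left, ← Subgroup.relIndex_mul_relIndex ⊥ _ N bot_le e1,
      Subgroup.relIndex_bot_left, hker, mul_comm]
    congr 1
    rw [← Subgroup.relIndex_bot_left]
    rw [show (toPSL : SL →* PSL).ker = (⊥ : Subgroup PSL).comap toPSL from rfl,
      Subgroup.relIndex_comap, Subgroup.map_comap_eq_self_of_surjective toPSL_surjective]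
  omega

theorem card_ct (h2 : (2 : F) ≠ 0) {e : PSL} (he : Inv e) :
    (Nat.card (Ct e) = Fintype.card F - 1 ∨ Nat.card (Ct e) = Fintype.card F + 1) ∧
      4 ∣ Nat.card (Ct e) := by
  have hJ : Inv (toPSL (quatJ : SL)) := (toPSL_involution h2).2 quatJ_sq
  obtain ⟨c, hc⟩ := isConj_iff.1 (inv_isConj h2 hJ he)
  have hcard : Nat.card (Ct e) = Nat.card (Ct (toPSL (quatJ : SL))) := by
    refine Nat.card_congr
      { toFun := fun g => ⟨c⁻¹ * g.1 * c, mem_ct.2 ?_⟩
        invFun := fun g => ⟨c * g.1 * c⁻¹, mem_ct.2 ?_⟩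
        left_inv := fun g => Subtype.ext (by simp [mul_assoc])
        right_inv := fun g => Subtype.ext (by simp [mul_assoc]) }
    · have : g.1 * (c * toPSL quatJ * c⁻¹) = (c * toPSL quatJ * c⁻¹) * g.1 := by
        simpa only [hc] using mem_ct.1 g.2
      calc c⁻¹ * g.1 * c * toPSL quatJ = c⁻¹ * (g.1 * (c * toPSL quatJ * c⁻¹)) * c := by group
        _ = c⁻¹ * ((c * toPSL quatJ * c⁻¹) * g.1) * c := by rw [this]
        _ = toPSL quatJ * (c⁻¹ * g.1 * c) := by group
    · have := mem_ct.1 g.2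
      rw [← hc]
      calc c * g.1 * c⁻¹ * (c * toPSL quatJ * c⁻¹) = c * (g.1 * toPSL quatJ) * c⁻¹ := by group
        _ = c * (toPSL quatJ * g.1) * c⁻¹ := by rw [this]
        _ = c * toPSL quatJ * c⁻¹ * (c * g.1 * c⁻¹) := by group
  rw [hcard, card_ct_J h2, card_centralizer_quatJ h2]
  have hodd : Fintype.card F % 2 = 1 := FiniteField.odd_card_of_char_ne_two fun h => h2 (by
    have : CharP F 2 := ringChar.of_eq h
    exact CharTwo.two_eq_zero)
  split_ifs with h
  · exact ⟨Or.inl rfl, by omega⟩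
  · exact ⟨Or.inr rfl, by omega⟩

theorem inv_of_anti (h2 : (2 : F) ≠ 0) {E G : SL} (he : E.1 * E.1 = -1) (hG : G * E = -(E * G)) :
    Inv (toPSL G) ∧ toPSL G ≠ toPSL E ∧ toPSL G * toPSL E = toPSL E * toPSL G := by
  have ht : Dickson.tr G = -Dickson.tr G := by
    have e2 : E⁻¹ * G * E = -G := by
      rw [mul_assoc, hG, mul_neg, inv_mul_cancel_left]
    calc Dickson.tr G = Dickson.tr (E⁻¹ * G * E⁻¹⁻¹) := (Dickson.tr_conj _ _).symm
      _ = -Dickson.tr G := by rw [inv_inv, e2, Dickson.tr_neg]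
  have h0 : Dickson.tr G = 0 :=
    (mul_eq_zero.1 (show (2 : F) * Dickson.tr G = 0 by linear_combination ht)).resolve_left h2
  refine ⟨(toPSL_involution h2).2 (sq_neg_one_of_trace G h0), fun e => ?_,
    by rw [← map_mul, ← map_mul, hG, toPSL_neg]⟩
  have hEE := mul_self_SL he
  rcases toPSL_eq_iff.1 e with rfl | rfl
  · rw [hEE, neg_neg] at hG
    exact one_ne_neg_one_SL h2 hG.symm
  · rw [neg_mul, mul_neg, hEE, neg_neg] at hG
    exact one_ne_neg_one_SL h2 hG

theorem anti_of_commute (h2 : (2 : F) ≠ 0) {E M : SL} (he : Inv (toPSL E)) (hf : Inv (toPSL M))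
    (hne : toPSL E ≠ toPSL M) (hc : toPSL E * toPSL M = toPSL M * toPSL E) : M * E = -(E * M) :=
  (isQuatPair_of_commute h2 (inv_lift h2 he) (inv_lift h2 hf) hne hc).anti

theorem comm_or_anti {G E : SL} (hg : toPSL G ∈ Ct (toPSL E)) : G * E = E * G ∨ G * E = -(E * G) :=
  eq_or_neg_of_psl (mem_ct.1 hg)

theorem four_cases (h2 : (2 : F) ≠ 0) {e f g : PSL} (he : Inv e) (hf : Inv f) (hne : e ≠ f)
    (hc : e * f = f * e) (hge : g * e = e * g) (hgf : g * f = f * g) :
    g = 1 ∨ g = e ∨ g = f ∨ g = e * f := by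
  obtain ⟨E, rfl⟩ := toPSL_surjective e
  obtain ⟨M, rfl⟩ := toPSL_surjective f
  obtain ⟨G, rfl⟩ := toPSL_surjective g
  have hEM := anti_of_commute h2 he hf hne hc
  have hE := mul_self_SL (inv_lift h2 he)
  have hM := mul_self_SL (inv_lift h2 hf)
  have key : ∀ K : SL, K * E = E * K → K * M = M * K → toPSL K = 1 := by
    intro K k1 k2
    by_contra hK
    have h := commute_of_commute (fun hs => hK (toPSL_eq_one_iff.2 hs.eq_one_or)) k1 k2
    rw [hEM] at h
    have : E * M * (E * M)⁻¹ = -(E * M) * (E * M)⁻¹ := by rw [← h]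
    rw [neg_mul, mul_inv_cancel] at this
    exact one_ne_neg_one_SL h2 this
  have hME : M * E = -(E * M) := hEM
  have hEM' : E * M = -(M * E) := by rw [hME, neg_neg]
  have pe : toPSL E * toPSL E = 1 := he.2
  have pf : toPSL M * toPSL M = 1 := hf.2
  rcases comm_or_anti (mem_ct.2 hge) with a | a <;> rcases comm_or_anti (mem_ct.2 hgf) with b | b
  · exact Or.inl (key G a b)
  · refine Or.inr (Or.inl ?_)
    have k := key (G * E) (by rw [a, mul_assoc, a]) (by
      rw [mul_assoc, hEM', mul_neg, ← mul_assoc, b, neg_mul, neg_neg, mul_assoc])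
    rw [map_mul] at k
    rw [← mul_right_inj (a := toPSL G) ] at pe
    calc toPSL G = toPSL G * (toPSL E * toPSL E) := by rw [he.2, mul_one]
      _ = toPSL G * toPSL E * toPSL E := by group
      _ = toPSL E := by rw [k, one_mul]
  · refine Or.inr (Or.inr (Or.inl ?_))
    have k := key (G * M) (by
      rw [mul_assoc, hME, mul_neg, ← mul_assoc, a, neg_mul, neg_neg, mul_assoc]) (by rw [b, mul_assoc, b])
    rw [map_mul] at k
    calc toPSL G = toPSL G * (toPSL M * toPSL M) := by rw [hf.2, mul_one]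
      _ = toPSL G * toPSL M * toPSL M := by group
      _ = toPSL M := by rw [k, one_mul]
  · refine Or.inr (Or.inr (Or.inr ?_))
    have k := key (G * (E * M)) (by
      rw [mul_assoc, mul_assoc E, hME, mul_neg, mul_neg, ← mul_assoc G E, a, neg_mul, neg_neg, mul_assoc]) (by
      have hMG : M * G = -(G * M) := by rw [b, neg_neg]
      calc G * (E * M) * M = G * (E * M * M) := mul_assoc _ _ _
        _ = G * (-(M * E) * M) := by rw [← hEM']
        _ = -(G * M) * (E * M) := by simp only [neg_mul, mul_neg, mul_assoc]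
        _ = M * (G * (E * M)) := by rw [← hMG, mul_assoc])
    rw [map_mul, map_mul] at k
    calc toPSL G = toPSL G * (toPSL E * (toPSL M * toPSL M) * toPSL E) := by rw [hf.2, mul_one, he.2, mul_one]
      _ = toPSL G * (toPSL E * toPSL M) * (toPSL M * toPSL E) := by group
      _ = toPSL E * toPSL M := by rw [k, one_mul, hc]

theorem exists_commuting_inv (h2 : (2 : F) ≠ 0) {e : PSL} (he : Inv e) :
    ∃ f, Inv f ∧ f ≠ e ∧ f * e = e * f := by
  obtain ⟨E, rfl⟩ := toPSL_surjective e
  obtain ⟨x, hx⟩ := exists_conj_quatJ h2 E (inv_lift h2 he)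
  obtain ⟨A, hA⟩ := exists_anti_J h2
  have hE : E = x * quatJ * x⁻¹ := by rw [hx, mul_inv_cancel_right]
  obtain ⟨a, b, c⟩ := inv_of_anti h2 (inv_lift h2 he) (G := x * A * x⁻¹) (by
    rw [hE]
    calc x * A * x⁻¹ * (x * quatJ * x⁻¹) = x * (A * quatJ) * x⁻¹ := by group
      _ = -(x * (quatJ * A) * x⁻¹) := by rw [hA, mul_neg, neg_mul]
      _ = -(x * quatJ * x⁻¹ * (x * A * x⁻¹)) := by congr 1; group)
  exact ⟨_, a, b, c⟩

/-- An element of the centraliser is an involution, or becomes one after a reflection. -/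
theorem refl_or (h2 : (2 : F) ≠ 0) {e f g : PSL} (he : Inv e) (hf : Inv f) (hne : f ≠ e)
    (hfe : f * e = e * f) (hg : g * e = e * g) :
    (Inv g ∧ g ≠ e) ∨ (Inv (g * f) ∧ g * f ≠ e ∧ g * f * e = e * (g * f)) := by
  obtain ⟨E, rfl⟩ := toPSL_surjective e
  obtain ⟨M, rfl⟩ := toPSL_surjective f
  obtain ⟨G, rfl⟩ := toPSL_surjective g
  have hME := anti_of_commute h2 he hf (Ne.symm hne) hfe.symm
  rcases comm_or_anti (mem_ct.2 hg) with a | a
  · obtain ⟨i1, i2, i3⟩ := inv_of_anti h2 (inv_lift h2 he) (G := G * M) (by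
      rw [mul_assoc, hME, mul_neg, ← mul_assoc, a, mul_assoc])
    rw [map_mul] at i1 i2 i3
    exact Or.inr ⟨i1, i2, i3⟩
  · obtain ⟨i1, i2, -⟩ := inv_of_anti h2 (inv_lift h2 he) a
    exact Or.inl ⟨i1, i2⟩

theorem f24 : Nat.factorization 24 2 = 3 := by
  rw [show (24 : ℕ) = 2 ^ 3 * 3 from rfl, Nat.factorization_mul (by norm_num) (by norm_num),
    Nat.prime_two.factorization_pow, Nat.prime_three.factorization]
  simp

theorem facts_perm4 : ∀ a b : Equiv.Perm (Fin 4),
    a * a = 1 → b * b * b = 1 → a * b = b * a → a = 1 ∨ b = 1 := by decide +kernel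

theorem facts_alt5 : ∀ a b : alternatingGroup (Fin 5),
    a * a = 1 → (b ^ 3 = 1 ∨ b ^ 5 = 1) → a * b = b * a → a = 1 ∨ b = 1 := by decide +kernel

/-- Overgroups of an involution centraliser of order prime to the characteristic. -/
theorem overgroup (p : ℕ) [Fact p.Prime] [CharP F p] (h2 : (2 : F) ≠ 0) (h7 : 7 ≤ Fintype.card F)
    {e : PSL} (he : Inv e) {L : Subgroup PSL} (hp : ¬ p ∣ Nat.card L) (hle : (Ct e) ≤ L) :
    L = (Ct e) ∨ (Nat.card L = 24 ∧ Nat.card (Ct e) = 8) := by
  obtain ⟨hc, hc4⟩ := card_ct h2 he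
  set c := Nat.card (Ct e) with hcdef
  set q := Fintype.card F
  have hd : c ∣ Nat.card L := Subgroup.card_dvd_of_le hle
  have heq : Nat.card L ≤ c → L = (Ct e) := fun h =>
    (Subgroup.eq_of_le_of_card_ge hle h).symm
  have hg : Nat.gcd 2 (q - 1) = 2 := by
    have hodd : q % 2 = 1 := FiniteField.odd_card_of_char_ne_two fun h => h2 (by
      have : CharP F 2 := ringChar.of_eq h
      exact CharTwo.two_eq_zero)
    exact Nat.gcd_eq_left (by omega)
  have heL : e ∈ L := hle (mem_ct.2 rfl)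
  have noperm : ∀ {P : Type} [Group P] (_ : L ≃* P) (r : ℕ), r.Prime → r ∣ c →
      (∀ a b : P, a * a = 1 → b ^ r = 1 → a * b = b * a → a = 1 ∨ b = 1) → False := by
    intro P _ φ r hr hrc hfact
    haveI := Fact.mk hr
    obtain ⟨⟨b, hb⟩, hbo⟩ := exists_prime_orderOf_dvd_card' r hrc
    rw [Subgroup.orderOf_mk] at hbo
    have hbp : b ^ r = 1 := hbo ▸ pow_orderOf_eq_one b
    have := hfact (φ ⟨e, heL⟩) (φ ⟨b, hle hb⟩)
      (by rw [← map_mul, show (⟨e, heL⟩ : L) * ⟨e, heL⟩ = 1 from Subtype.ext he.2, map_one])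
      (by rw [← map_pow, show (⟨b, hle hb⟩ : L) ^ r = 1 from Subtype.ext hbp, map_one])
      (by rw [← map_mul, ← map_mul]; congr 1; exact Subtype.ext (mem_ct.1 hb).symm)
    rcases this with h | h
    · exact he.1 (congrArg Subtype.val (φ.map_eq_one_iff.1 h))
    · have : b = 1 := congrArg Subtype.val (φ.map_eq_one_iff.1 h)
      rw [this, orderOf_one] at hbo
      exact hr.ne_one hbo.symm
  rcases PSL2PrimeTo.classification p L hp with
    ⟨k, hk, ⟨-, hcard⟩ | ⟨-, hcard, -⟩⟩ | ⟨⟨φ⟩⟩ | ⟨⟨φ⟩⟩ | ⟨⟨φ⟩⟩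
  · exfalso
    rw [hg] at hk
    have hkle : k ≤ (q + 1) / 2 := by
      rcases hk with h | h
      · exact Nat.le_of_dvd (by omega) h
      · exact (Nat.le_of_dvd (by omega) h).trans (by omega)
    have := Nat.le_of_dvd (by rw [← hcard]; exact Nat.card_pos) (hcard ▸ hd)
    omega
  · left
    apply heq
    rw [hg] at hk
    rw [hcard] at hd ⊢
    rcases hk with h | h
    · obtain ⟨w, hw⟩ := h
      have h2k : 2 * k ∣ q + 1 := ⟨w, by rw [mul_assoc, ← hw]; omega⟩
      rcases hc with e1 | e1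
      · have := Nat.dvd_sub (hd.trans h2k) (dvd_refl c)
        have := Nat.le_of_dvd (by omega) this
        omega
      · have := Nat.le_of_dvd (by omega) h2k
        omega
    · obtain ⟨w, hw⟩ := h
      have h2k : 2 * k ∣ q - 1 := ⟨w, by rw [mul_assoc, ← hw]; omega⟩
      rcases hc with e1 | e1
      · have := Nat.le_of_dvd (by omega) h2k
        omega
      · have := Nat.le_of_dvd (by omega) (hd.trans h2k)
        omega
  · left
    apply heq
    rw [Nat.card_congr φ.toEquiv, card_alt4] at hd ⊢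
    have := Nat.le_of_dvd (by norm_num) hd
    rcases hc with h | h <;> interval_cases c <;> omega
  · rw [Nat.card_congr φ.toEquiv, card_perm4] at hd ⊢
    have := Nat.le_of_dvd (by norm_num) hd
    by_cases h8 : c = 8
    · exact Or.inr ⟨rfl, h8⟩
    exfalso
    refine noperm φ 3 Nat.prime_three (by rcases hc with h | h <;> interval_cases c <;> omega) ?_
    exact fun a b h1 h2 h3 => facts_perm4 a b h1 (by rw [← h2, pow_succ, pow_two]) h3
  · exfalso
    rw [Nat.card_congr φ.toEquiv, card_alt5] at hd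
    have := Nat.le_of_dvd (by norm_num) hd
    by_cases h3 : 3 ∣ c
    · exact noperm φ 3 Nat.prime_three h3 fun a b h1 h2 h3 => facts_alt5 a b h1 (Or.inl h2) h3
    · refine noperm φ 5 (by norm_num) ?_ fun a b h1 h2 h3 => facts_alt5 a b h1 (Or.inr h2) h3
      rcases hc with h | h <;> interval_cases c <;> omega

theorem not_dvd_rSub (p : ℕ) [Fact p.Prime] {H : Subgroup PSL} (hp : ¬ p ∣ Nat.card H) {e t : PSL}
    (ht : At H e t) : ¬ p ∣ Nat.card (rSub H e) := by
  intro h
  obtain ⟨⟨g, hg⟩, hgo⟩ := exists_prime_orderOf_dvd_card' p h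
  rw [Subgroup.orderOf_mk] at hgo
  apply hp
  have h1 : orderOf (t⁻¹ * g * t) = p := by
    rw [show t⁻¹ * g * t = MulAut.conj t⁻¹ g by simp]
    exact ((MulAut.conj t⁻¹).orderOf_eq g).trans hgo
  rw [← h1, ← Subgroup.orderOf_mk (t⁻¹ * g * t) (hg t ht)]
  exact orderOf_dvd_natCard _

theorem rSub_shape (p : ℕ) [Fact p.Prime] [CharP F p] (h2 : (2 : F) ≠ 0) (h7 : 7 ≤ Fintype.card F)
    {H : Subgroup PSL} (hp : ¬ p ∣ Nat.card H) {e t : PSL} (he : Inv e) (ht : At H e t)
    (hpc : ¬ p ∣ Nat.card (Ct e)) :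
    rSub H e ≤ (Ct e) ∨ (Nat.card (rSub H e) ∣ 24 ∧ Nat.card (Ct e) = 8) := by
  set K := rSub H e
  have hn : (Ct e) ≤ Subgroup.normalizer (K : Set PSL) :=
    le_normalizer_rSub fun c hc => by
      rw [mem_ct.1 hc, mul_inv_cancel_right]
      exact Subgroup.mem_zpowers e
  have hL : ¬ p ∣ Nat.card ↥((Ct e) ⊔ K) := by
    intro h
    let N := Subgroup.normalizer (K : Set PSL)
    haveI : (K.subgroupOf N).Normal := Subgroup.normal_in_normalizer
    have hK : K ≤ N := Subgroup.le_normalizer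
    have h1 := Cfsg.Agent.Core.card_sup_dvd_mul' (K.subgroupOf N) ((Ct e).subgroupOf N)
    rw [← Subgroup.subgroupOf_sup hK hn, Nat.card_congr (Subgroup.subgroupOfEquivOfLe (sup_le hK hn)).toEquiv,
      Nat.card_congr (Subgroup.subgroupOfEquivOfLe hK).toEquiv,
      Nat.card_congr (Subgroup.subgroupOfEquivOfLe hn).toEquiv, sup_comm] at h1
    rcases (Fact.out : p.Prime).dvd_mul.1 (h.trans h1) with h' | h'
    · exact not_dvd_rSub p hp ht h'
    · exact hpc h'
  rcases overgroup p h2 h7 he hL le_sup_left with h | ⟨h, h8⟩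
  · exact Or.inl (h ▸ le_sup_right)
  · exact Or.inr ⟨h ▸ Subgroup.card_dvd_of_le le_sup_right, h8⟩

/-- Subgroups of even order prime to the characteristic. -/
theorem inv_main (p : ℕ) [Fact p.Prime] [CharP F p] (h2 : (2 : F) ≠ 0) (h7 : 7 ≤ Fintype.card F)
    {H : Subgroup PSL} (hp : ¬ p ∣ Nat.card H) (heven : Even (Nat.card H)) : ¬ Bin H := by
  classical
  intro hb
  have hpc : ∀ e : PSL, Inv e → ¬ p ∣ Nat.card (Ct e) := by
    intro e he h
    have hpq : p ∣ Fintype.card F := by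
      obtain ⟨n, hn, hq⟩ := FiniteField.card F p
      rw [hq]
      exact dvd_pow_self p n.pos.ne'
    have hq0 : 7 ≤ Fintype.card F := h7
    rcases (card_ct h2 he).1 with e1 | e1 <;> rw [e1] at h
    · have := Nat.dvd_sub hpq h
      rw [show Fintype.card F - (Fintype.card F - 1) = 1 by omega] at this
      exact (Fact.out : p.Prime).not_dvd_one this
    · exact (Fact.out : p.Prime).not_dvd_one ((Nat.dvd_add_right hpq).1 h)
  have hge : ∀ e : PSL, Inv e → 8 ≤ Nat.card (Ct e) := by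
    intro e he
    obtain ⟨h, h4⟩ := card_ct h2 he
    rcases h with h | h <;> omega
  -- every involution of `H` has its centraliser in `H`
  have hct : ∀ e ∈ H, Inv e → (Ct e) ≤ H := by
    intro e heH he
    have hat : At H e 1 := by simpa [At] using heH
    have hRH : rSub H e ≤ H := fun g hg => by simpa [At] using hg 1 hat
    refine le_trans ?_ hRH
    by_contra hnle
    obtain ⟨f, hf, hfe, hfc, hfR⟩ : ∃ f, Inv f ∧ f ≠ e ∧ f * e = e * f ∧ f ∉ rSub H e := by
      by_contra! hall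
      obtain ⟨f, hf, hfe, hfc⟩ := exists_commuting_inv h2 he
      refine hnle fun g hg => ?_
      rcases refl_or h2 he hf hfe hfc (mem_ct.1 hg) with ⟨hi, hne⟩ | ⟨hi, hne, hcg⟩
      · exact hall g hi hne (mem_ct.1 hg)
      · have := (rSub H e).mul_mem (hall _ hi hne hcg) ((rSub H e).inv_mem (hall f hf hfe hfc))
        rwa [mul_inv_cancel_right] at this
    obtain ⟨tf, htf⟩ := at_of_isConj (inv_isConj h2 he hf) hat
    have hy : Inv (e * f) := by
      refine ⟨fun h => hfe ?_, ?_⟩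
      · calc f = e * (e * f) := by rw [← mul_assoc, he.2, one_mul]
          _ = e := by rw [h, mul_one]
      · calc e * f * (e * f) = e * (f * e) * f := by group
          _ = (e * e) * (f * f) := by rw [hfc]; group
          _ = 1 := by rw [he.2, hf.2, one_mul]
    have hxy : e ∉ rSub H (e⁻¹ * f) := by
      rw [inv_eq_of_mul_eq_one_right he.2]
      intro h
      have hq := rSub_eq h (inv_isConj h2 he hy)
      have hef : e * f ∈ rSub H e := hq ▸ mem_rSub_self H (e * f)
      have := (rSub H e).mul_mem (mem_rSub_self H e) hef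
      rw [← mul_assoc, he.2, one_mul] at this
      exact hfR this
    refine not_bin_of_disjoint (x := e) (z := f) ?_ hxy hb
    have hnoinv : ∀ v, Inv v → v ∈ rSub H e → v ∈ rSub H f → False := by
      intro v hv h1 h1'
      have a := rSub_eq h1 (inv_isConj h2 hv he)
      have b := rSub_eq h1' (inv_isConj h2 hv hf)
      exact hfR (a ▸ b ▸ mem_rSub_self H f)
    intro g hg hg'
    by_contra hg1
    have hshE := rSub_shape p h2 h7 hp he hat (hpc e he)
    have hshF := rSub_shape p h2 h7 hp hf htf (hpc f hf)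
    have h24 : (g * e = e * g ∧ g * f = f * g) ∨
        (Nat.card ↥(rSub H e ⊓ rSub H f) ∣ 24 ∧
          (Nat.card (Ct e) = 8 ∨ Nat.card (Ct f) = 8)) := by
      rcases hshE with a | ⟨a, a8⟩
      · rcases hshF with b | ⟨b, b8⟩
        · exact Or.inl ⟨mem_ct.1 (a hg), mem_ct.1 (b hg')⟩
        · exact Or.inr ⟨(Subgroup.card_dvd_of_le inf_le_right).trans b, Or.inr b8⟩
      · exact Or.inr ⟨(Subgroup.card_dvd_of_le inf_le_left).trans a, Or.inl a8⟩
    rcases h24 with ⟨h1, h1'⟩ | ⟨hD24, h8⟩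
    · rcases four_cases h2 he hf (Ne.symm hfe) hfc.symm h1 h1' with h | h | h | h
      · exact hg1 h
      · exact hnoinv g (h ▸ he) hg hg'
      · exact hnoinv g (h ▸ hf) hg hg'
      · exact hnoinv g (h ▸ hy) hg hg'
    set D := rSub H e ⊓ rSub H f
    have hDodd : ¬ 2 ∣ Nat.card D := by
      intro h
      haveI : Fact (Nat.Prime 2) := ⟨Nat.prime_two⟩
      obtain ⟨⟨v, hv⟩, hvo⟩ := exists_prime_orderOf_dvd_card' 2 h
      rw [Subgroup.orderOf_mk] at hvo
      refine hnoinv v ⟨fun e => by rw [e, orderOf_one] at hvo; norm_num at hvo, ?_⟩ hv.1 hv.2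
      have := pow_orderOf_eq_one v
      rwa [hvo, pow_two] at this
    have hD3 : Nat.card D ∣ 3 := by
      have hco : (Nat.card D).Coprime 8 := by
        rw [show (8 : ℕ) = 2 ^ 3 from rfl]
        exact ((Nat.prime_two.coprime_iff_not_dvd.2 hDodd).symm).pow_right 3
      exact hco.dvd_of_dvd_mul_left (by simpa using hD24)
    have hgD : g ∈ D := ⟨hg, hg'⟩
    have hg3 : g ^ 3 = 1 := by
      obtain ⟨w, hw⟩ := hD3
      have := congrArg Subtype.val (pow_card_eq_one' (x := (⟨g, hgD⟩ : D)))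
      rw [hw, pow_mul]
      simp only [Subgroup.coe_pow, Subgroup.coe_one] at this
      rw [this, one_pow]
    have hcD : Nat.card D = 3 := by
      rcases (Nat.dvd_prime Nat.prime_three).1 hD3 with h | h
      · exact absurd (Subgroup.mem_bot.1 ((Subgroup.eq_bot_of_card_eq D h) ▸ hgD)) hg1
      · exact h
    haveI : Fact (Nat.Prime 3) := ⟨Nat.prime_three⟩
    have hcyc : ∀ d ∈ D, d = 1 ∨ d = g ∨ d = g⁻¹ := by
      intro d hd
      have hz := mem_zpowers_of_prime_card hcD (g := (⟨g, hgD⟩ : D)) (g' := ⟨d, hd⟩)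
        (fun e => hg1 (congrArg Subtype.val e))
      obtain ⟨k, hk⟩ := Subgroup.mem_zpowers_iff.1 hz
      have hk' : g ^ k = d := by simpa using congrArg Subtype.val hk
      rw [← hk']
      have hgz : g ^ (3 : ℤ) = 1 := by exact_mod_cast hg3
      rw [← Int.emod_add_mul_ediv k 3, _root_.zpow_add, _root_.zpow_mul, hgz, _root_.one_zpow, mul_one]
      have h0 : 0 ≤ k % 3 := Int.emod_nonneg k (by norm_num)
      have h3 : k % 3 < 3 := Int.emod_lt_of_pos k (by norm_num)
      interval_cases k % 3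
      · left; exact _root_.zpow_zero g
      · right; left; exact _root_.zpow_one g
      · right; right
        rw [show (2 : ℤ) = 3 + (-1) by norm_num, _root_.zpow_add, hgz, one_mul, _root_.zpow_neg_one]
    have hnorm : ∀ v, v * e = e * v → v * f = f * v → v * g * v⁻¹ = g ∨ v * g * v⁻¹ = g⁻¹ := by
      intro v hv hv'
      have hm : v * g * v⁻¹ ∈ D :=
        ⟨conj_mem_rSub (by rw [hv, mul_inv_cancel_right]; exact Subgroup.mem_zpowers e) hg,
          conj_mem_rSub (by rw [hv', mul_inv_cancel_right]; exact Subgroup.mem_zpowers f) hg'⟩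
      rcases hcyc _ hm with h | h | h
      · exact absurd (conj_eq_one_iff.1 h) hg1
      · exact Or.inl h
      · exact Or.inr h
    have hex : ∃ v, Inv v ∧ v * g = g * v := by
      rcases hnorm e rfl hfc.symm with a | a
      · exact ⟨e, he, mul_inv_eq_iff_eq_mul.1 a⟩
      rcases hnorm f hfc rfl with b | b
      · exact ⟨f, hf, mul_inv_eq_iff_eq_mul.1 b⟩
      refine ⟨e * f, hy, mul_inv_eq_iff_eq_mul.1 ?_⟩
      calc e * f * g * (e * f)⁻¹ = e * (f * g * f⁻¹) * e⁻¹ := by group
        _ = (e * g * e⁻¹)⁻¹ := by rw [b]; group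
        _ = g := by rw [a, inv_inv]
    obtain ⟨v, hv, hvg⟩ := hex
    have hgo : orderOf g = 3 := orderOf_eq_prime hg3 hg1
    have h3c : 3 ∣ Nat.card (Ct v) := by
      rw [← hgo, ← Subgroup.orderOf_mk g (mem_ct.2 hvg.symm)]
      exact orderOf_dvd_natCard _
    have hsame : ∀ a b : PSL, Inv a → Inv b → Nat.card (Ct a) = Nat.card (Ct b) := by
      intro a b ha hb'
      obtain ⟨c, hc⟩ := isConj_iff.1 (inv_isConj h2 ha hb')
      refine Nat.card_congr
        { toFun := fun u => ⟨c * u.1 * c⁻¹, mem_ct.2 ?_⟩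
          invFun := fun u => ⟨c⁻¹ * u.1 * c, mem_ct.2 ?_⟩
          left_inv := fun u => Subtype.ext (by simp [mul_assoc])
          right_inv := fun u => Subtype.ext (by simp [mul_assoc]) }
      · have := mem_ct.1 u.2
        rw [← hc]
        calc c * u.1 * c⁻¹ * (c * a * c⁻¹) = c * (u.1 * a) * c⁻¹ := by group
          _ = c * (a * u.1) * c⁻¹ := by rw [this]
          _ = c * a * c⁻¹ * (c * u.1 * c⁻¹) := by group
      · have : u.1 * (c * a * c⁻¹) = (c * a * c⁻¹) * u.1 := by
          simpa only [hc] using mem_ct.1 u.2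
        calc c⁻¹ * u.1 * c * a = c⁻¹ * (u.1 * (c * a * c⁻¹)) * c := by group
          _ = c⁻¹ * ((c * a * c⁻¹) * u.1) * c := by rw [this]
          _ = a * (c⁻¹ * u.1 * c) := by group
    rcases h8 with h8 | h8
    · rw [hsame v e hv he, h8] at h3c; norm_num at h3c
    · rw [hsame v f hv hf, h8] at h3c; norm_num at h3c
  -- the final contradiction
  haveI : Fact (Nat.Prime 2) := ⟨Nat.prime_two⟩
  obtain ⟨⟨e, heH⟩, heo⟩ := exists_prime_orderOf_dvd_card' 2 (even_iff_two_dvd.1 heven)
  rw [Subgroup.orderOf_mk] at heo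
  have he : Inv e := ⟨fun h => by rw [h, orderOf_one] at heo; norm_num at heo,
    by have := pow_orderOf_eq_one e; rwa [heo, pow_two] at this⟩
  obtain ⟨f, hf, hfe, hfc⟩ := exists_commuting_inv h2 he
  have hfH : f ∈ H := hct e heH he (mem_ct.2 hfc)
  have hinj : ∀ a b : PSL, Inv a → Inv b → (Ct a) = (Ct b) → a = b := by
    intro a b ha hb' heq
    by_contra hab
    have hba : b * a = a * b := mem_ct.1 (heq ▸ mem_ct.2 (rfl : b * b = b * b))
    have hsub : ((Ct a) : Set PSL) ⊆ {1, a, b, a * b} := fun g hg => by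
      rcases four_cases h2 ha hb' hab hba.symm (mem_ct.1 hg) (mem_ct.1 (heq ▸ hg)) with h | h | h | h <;>
        simp [h]
    have h8 := hge a ha
    have h4 := Set.ncard_le_ncard hsub (Set.toFinite _)
    have h4' : ({1, a, b, a * b} : Set PSL).ncard ≤ 4 := by
      refine (Set.ncard_insert_le _ _).trans (Nat.succ_le_succ ?_)
      refine (Set.ncard_insert_le _ _).trans (Nat.succ_le_succ ?_)
      refine (Set.ncard_insert_le _ _).trans (Nat.succ_le_succ ?_)
      exact le_of_eq (Set.ncard_singleton _)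
    rw [← Nat.card_coe_set_eq] at h4
    simp only [SetLike.coe_sort_coe] at h4
    omega
  rcases overgroup p h2 h7 he hp (hct e heH he) with h | ⟨h24, h8⟩
  · refine hfe (hinj f e hf he ?_)
    refine Subgroup.eq_of_le_of_card_ge (h ▸ hct f hfH hf) ?_
    obtain ⟨c1, c1'⟩ := card_ct h2 he
    obtain ⟨c2, c2'⟩ := card_ct h2 hf
    rcases c1 with c1 | c1 <;> rcases c2 with c2 | c2 <;> omega
  obtain ⟨g, hg, hgV⟩ : ∃ g ∈ (Ct e), g ∉ ({1, e, f, e * f} : Set PSL) := by
    by_contra! hall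
    have h4 := Set.ncard_le_ncard (s := ((Ct e) : Set PSL)) hall (Set.toFinite _)
    have h4' : ({1, e, f, e * f} : Set PSL).ncard ≤ 4 := by
      refine (Set.ncard_insert_le _ _).trans (Nat.succ_le_succ ?_)
      refine (Set.ncard_insert_le _ _).trans (Nat.succ_le_succ ?_)
      refine (Set.ncard_insert_le _ _).trans (Nat.succ_le_succ ?_)
      exact le_of_eq (Set.ncard_singleton _)
    rw [← Nat.card_coe_set_eq] at h4
    simp only [SetLike.coe_sort_coe] at h4
    omega
  simp only [Set.mem_insert_iff, Set.mem_singleton_iff, not_or] at hgV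
  have hef : Inv (e * f) := by
    refine ⟨fun h => hfe ?_, ?_⟩
    · calc f = e * (e * f) := by rw [← mul_assoc, he.2, one_mul]
        _ = e := by rw [h, mul_one]
    · calc e * f * (e * f) = e * (f * e) * f := by group
        _ = (e * e) * (f * f) := by rw [hfc]; group
        _ = 1 := by rw [he.2, hf.2, one_mul]
  obtain ⟨h, hh, hhH, n1, n2, n3⟩ : ∃ h, Inv h ∧ h ∈ H ∧ h ≠ e ∧ h ≠ f ∧ h ≠ e * f := by
    have hgH : g ∈ H := hct e heH he hg
    rcases refl_or h2 he hf hfe hfc (mem_ct.1 hg) with ⟨hi, hne⟩ | ⟨hi, hne, -⟩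
    · exact ⟨g, hi, hgH, hne, hgV.2.2.1, hgV.2.2.2⟩
    · refine ⟨g * f, hi, H.mul_mem hgH hfH, hne, fun h => hgV.1 ?_, fun h => hgV.2.1 ?_⟩
      · exact mul_eq_right.1 h
      · exact mul_right_cancel h
  let i : Fin 4 → {v : PSL // v ∈ H ∧ Inv v} :=
    ![⟨e, heH, he⟩, ⟨f, hfH, hf⟩, ⟨e * f, H.mul_mem heH hfH, hef⟩, ⟨h, hhH, hh⟩]
  have hSy : ∀ j, ∃ P : Sylow 2 H, (P : Subgroup H) = (Ct (i j).1).subgroupOf H := by
    intro j
    obtain ⟨hm, hi⟩ := (i j).2
    have hc8 : Nat.card (Ct (i j).1) = 8 := by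
      rcases overgroup p h2 h7 hi hp (hct _ hm hi) with h | ⟨-, h⟩
      · obtain ⟨c1, -⟩ := card_ct h2 hi
        obtain ⟨c2, -⟩ := card_ct h2 he
        have : Nat.card (Ct (i j).1) = 24 := by rw [← h, h24]
        rcases c1 with c1 | c1 <;> rcases c2 with c2 | c2 <;> omega
      · exact h
    refine ⟨Sylow.ofCard ((Ct (i j).1).subgroupOf H) ?_, rfl⟩
    rw [Nat.card_congr (Subgroup.subgroupOfEquivOfLe (hct _ hm hi)).toEquiv, hc8, h24]
    rw [f24]; rfl
  choose P hP using hSy
  have hP3 : Nat.card (Sylow 2 H) ≤ 3 := by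
    have hidx := (P 0).card_dvd_index
    have h1 := (P 0 : Subgroup H).index_mul_card
    have h0 : Nat.card (P 0 : Subgroup H) = 8 := by
      rw [(P 0).card_eq_multiplicity, h24]
      rw [f24]; rfl
    rw [h0, h24] at h1
    exact Nat.le_of_dvd (by norm_num) (show (P 0 : Subgroup H).index = 3 by omega ▸ hidx)
  have hPinj : Function.Injective P := by
    intro a b hab
    have h1 : (Ct (i a).1) = (Ct (i b).1) := by
      have := congrArg (fun Q : Sylow 2 H => (Q : Subgroup H).map H.subtype) hab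
      simp only [hP, Subgroup.subgroupOf_map_subtype] at this
      rwa [inf_eq_left.2 (hct _ (i a).2.1 (i a).2.2), inf_eq_left.2 (hct _ (i b).2.1 (i b).2.2)] at this
    have hval := hinj _ _ (i a).2.2 (i b).2.2 h1
    have he1 : e ≠ e * f := fun h => hf.1 (left_eq_mul.1 h)
    have hf1 : f ≠ e * f := fun h => he.1 (right_eq_mul.1 h)
    fin_cases a <;> fin_cases b <;> simp [i] at hval ⊢ <;>
      first
        | exact hfe hval
        | exact hfe hval.symm
        | exact he1 hval
        | exact he1 hval.symm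
        | exact hf1 hval
        | exact hf1 hval.symm
        | exact n1 hval
        | exact n1 hval.symm
        | exact n2 hval
        | exact n2 hval.symm
        | exact n3 hval
        | exact n3 hval.symm
        | exact hf.1 hval
        | exact he.1 hval
  have := Nat.card_le_card_of_injective P hPinj
  rw [Nat.card_fin] at this
  omega

end Cfsg.Agent.Chars.PSLBinary
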