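import Cfsg.Agent.Chars.PSLBinaryUni
import Cfsg.Agent.Linear.PSL2Classes
import Cfsg.Agent.Linear.PSL2PrimeTo
import Mathlib

/-!
Binary coset actions of `PSL₂`: subgroups of odd order prime to the characteristic.
-/

set_option autoImplicit false
set_option linter.unusedSectionVars false
set_option maxHeartbeats 400000

namespace Cfsg.Agent.Chars.PSLBinary

open Matrix Cfsg.Agent.Chars.SzBinary Cfsg.Agent.Dickson Cfsg.Agent.Linear
open Cfsg.Agent.KnownA.GL2 (IsScalar Qf exists_Qf_eq_one)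

variable {F : Type*} [Field F] [Fintype F]

local notation "SL" => Matrix.SpecialLinearGroup (Fin 2) F
local notation "PSL" => Matrix.ProjectiveSpecialLinearGroup (Fin 2) F

theorem eq_or_neg_of_psl {g x : SL} (h : toPSL g * toPSL x = toPSL x * toPSL g) :
    g * x = x * g ∨ g * x = -(x * g) := by
  rwa [← map_mul, ← map_mul, toPSL_eq_iff] at h

theorem lift_commute {g x : SL} (h : toPSL g * toPSL x = toPSL x * toPSL g)
    (hx : toPSL x * toPSL x ≠ 1) : g * x = x * g := by
  rcases eq_or_neg_of_psl h with e | e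
  · exact e
  have ht : Dickson.tr x = -Dickson.tr x := by
    have e2 : g * x * g⁻¹ = -x := by rw [e, neg_mul, mul_inv_cancel_right]
    calc Dickson.tr x = Dickson.tr (g * x * g⁻¹) := (Dickson.tr_conj g x).symm
      _ = -Dickson.tr x := by rw [e2, Dickson.tr_neg]
  by_cases h2 : (2 : F) = 0
  · rw [e]
    refine ext2 ?_ ?_ ?_ ?_ <;> rw [neg_apply2] <;>
    · linear_combination (-1 : F) * ((x * g) _ _) * h2
  exfalso
  have h0 : Dickson.tr x = 0 :=
    (mul_eq_zero.1 (show (2 : F) * Dickson.tr x = 0 by linear_combination ht)).resolve_left h2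
  refine hx ?_
  rw [← map_mul, mul_self_SL (sq_neg_one_of_trace x h0), toPSL_eq_one_iff]
  exact Or.inr rfl

theorem psl_comm_of_at {H : Subgroup PSL} (hab : ∀ a ∈ H, ∀ b ∈ H, a * b = b * a) {a b t : PSL}
    (ha : At H a t) (hb : At H b t) : a * b = b * a := by
  have h := hab _ ha _ hb
  calc a * b = t * ((t⁻¹ * a * t) * (t⁻¹ * b * t)) * t⁻¹ := by group
    _ = t * ((t⁻¹ * b * t) * (t⁻¹ * a * t)) * t⁻¹ := by rw [h]
    _ = b * a := by group

theorem sq_ne_one_of_isConj {v w : PSL} (hc : IsConj v w) (h : v * v ≠ 1) : w * w ≠ 1 := by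
  obtain ⟨c, rfl⟩ := isConj_iff.1 hc
  intro e
  apply h
  calc v * v = c⁻¹ * ((c * v * c⁻¹) * (c * v * c⁻¹)) * c := by group
    _ = 1 := by rw [e]; group

/-- Three non-commuting conjugates in the abelian case. -/
theorem not_bin_abelian {H : Subgroup PSL} (hab : ∀ a ∈ H, ∀ b ∈ H, a * b = b * a) {X Z : SL} {t : PSL}
    (ht : At H (toPSL X) t) (hx2 : toPSL X * toPSL X ≠ 1) (hz : IsConj (toPSL X) (toPSL Z))
    (hy : IsConj (toPSL X) (toPSL (X⁻¹ * Z))) (hne : X * Z ≠ Z * X) : ¬ Bin H := by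
  obtain ⟨t', ht'⟩ := at_of_isConj hz ht
  obtain ⟨t'', ht''⟩ := at_of_isConj hy ht
  refine not_bin_of_disjoint (x := toPSL X) (z := toPSL Z) (fun g hg hg' => ?_) fun h => ?_
  · obtain ⟨M, rfl⟩ := toPSL_surjective g
    have e1 := lift_commute (psl_comm_of_at hab (hg t ht) ht) hx2
    have e2 := lift_commute (psl_comm_of_at hab (hg' t' ht') ht') (sq_ne_one_of_isConj hz hx2)
    by_contra hM
    refine hne (commute_of_commute (fun hs => hM (toPSL_eq_one_iff.2 hs.eq_one_or)) e1 e2)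
  · rw [← map_inv, ← map_mul] at h
    have e := lift_commute (psl_comm_of_at hab (h t'' ht'') ht'') (sq_ne_one_of_isConj hy hx2)
    rw [mul_inv_cancel_left] at e
    apply hne
    calc X * Z = X * (X⁻¹ * Z * X) := by rw [← e]
      _ = Z * X := by group

theorem not_scalar_of_tr {g : SL} (ht : Dickson.tr g ^ 2 ≠ 4) : ¬ IsScalar g.1 := by
  intro hs
  have hd := det_eq g
  obtain ⟨h1, h2, h3⟩ := hs
  apply ht
  simp only [Dickson.tr]
  rw [h1, h2, ← h3] at hd
  rw [← h3]
  linear_combination 4 * hd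

theorem tr_eq (g : SL) : PSL2Classes.tr g = Dickson.tr g := by
  simp [PSL2Classes.tr, Dickson.tr, Matrix.trace_fin_two]

theorem conj_of_tr' {g h : SL} (ht : Dickson.tr g ^ 2 ≠ 4) (e : Dickson.tr g = Dickson.tr h) :
    ∃ u : SL, h = u * g * u⁻¹ :=
  PSL2Classes.conj_of_tr (not_scalar_of_tr ht) (not_scalar_of_tr (e ▸ ht))
    (by rw [tr_eq, tr_eq, e]) (Or.inl (by rw [tr_eq]; exact ht))

theorem isConj_of_tr {g h : SL} (ht : Dickson.tr g ^ 2 ≠ 4) (e : Dickson.tr g = Dickson.tr h) :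
    IsConj (toPSL g) (toPSL h) := by
  obtain ⟨u, rfl⟩ := conj_of_tr' ht e
  exact isConj_iff.2 ⟨toPSL u, by rw [← map_inv, ← map_mul, ← map_mul]⟩

theorem exists_conic {τ : F} (h : τ ^ 2 ≠ 4) (hroot : τ ≠ -1 ∨ ∃ w : F, w * w + w + 1 = 0) :
    ∃ u v : F, (u ≠ 0 ∨ v ≠ 0) ∧
      (u * u - τ * u * v + v * v) * (τ + 2) = (τ - 2) * (τ + 1) := by
  have h2' : τ + 2 ≠ 0 := fun e => h (by linear_combination (τ - 2) * e)
  by_cases hr : τ = -1
  · obtain ⟨w, hw⟩ := hroot.resolve_left (not_not.2 hr)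
    exact ⟨w, 1, Or.inr one_ne_zero, by rw [hr]; linear_combination hw⟩
  set r := (τ - 2) * (τ + 1) / (τ + 2) with hrdef
  have hr0 : r ≠ 0 := div_ne_zero (mul_ne_zero (fun e => h (by linear_combination (τ + 2) * e))
    (fun e => hr (by linear_combination e))) h2'
  let g : SL := mk 0 (-r) r⁻¹ (-τ) (by field_simp; ring)
  have hg : ¬ IsScalar g.1 := fun hs => inv_ne_zero hr0 (by simpa [g] using hs.2.1)
  obtain ⟨v, hv⟩ := exists_Qf_eq_one hg (Or.inl (by simpa [g, Matrix.trace_fin_two] using h))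
  simp only [Qf, g, mk00, mk01, mk10, mk11] at hv
  field_simp at hv
  have key : v 0 * v 0 - τ * v 0 * (r * v 1) + (r * v 1) * (r * v 1) = r := by
    linear_combination hv
  refine ⟨v 0, r * v 1, ?_, by rw [key]; exact div_mul_cancel₀ _ h2'⟩
  by_contra! hc
  apply hr0
  rw [← key, hc.1, hc.2]
  ring

/-- Two non-commuting elements of one trace with quotient of the same trace. -/
theorem exists_triple {X : SL} (ht : Dickson.tr X ^ 2 ≠ 4)
    (hroot : Dickson.tr X ≠ -1 ∨ ∃ w : F, w * w + w + 1 = 0) :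
    ∃ Z : SL, Dickson.tr Z = Dickson.tr X ∧ Dickson.tr (X⁻¹ * Z) = Dickson.tr X ∧ X * Z ≠ Z * X := by
  set τ := Dickson.tr X with hτ
  obtain ⟨u, v, huv, hq⟩ := exists_conic ht hroot
  have h2' : τ + 2 ≠ 0 := fun e => ht (by linear_combination (τ - 2) * e)
  let X0 : SL := mk 0 (-1) 1 τ (by ring)
  set a0 := τ / (τ + 2) with ha0
  set a := a0 + u with ha
  set b := -a0 + v with hb
  have hdet : a * (τ - a) - b * (b + τ * (1 - a)) = 1 := by
    rw [ha, hb, ha0]
    field_simp
    linear_combination -(τ + 2) * hq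
  let Z0 : SL := mk a b (b + τ * (1 - a)) (τ - a) hdet
  have htX0 : Dickson.tr X0 = τ := by simp only [Dickson.tr, X0, mk00, mk11, zero_add]
  obtain ⟨k, hk⟩ := conj_of_tr' (g := X0) (h := X) (by rw [htX0]; exact ht) htX0
  have htZ : Dickson.tr Z0 = τ := by simp only [Dickson.tr, Z0, mk00, mk11]; ring
  have htY : Dickson.tr (X0⁻¹ * Z0) = τ := by
    simp only [Dickson.tr, mul_apply2, inv00, inv01, inv10, inv11, X0, Z0, mk00, mk01, mk10, mk11]
    ring
  refine ⟨k * Z0 * k⁻¹, by rw [Dickson.tr_conj, htZ], ?_, fun e => ?_⟩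
  · rw [hk, show (k * X0 * k⁻¹)⁻¹ * (k * Z0 * k⁻¹) = k * (X0⁻¹ * Z0) * k⁻¹ by group, Dickson.tr_conj, htY]
  · rw [hk] at e
    have e' : X0 * Z0 = Z0 * X0 := by
      calc X0 * Z0 = k⁻¹ * ((k * X0 * k⁻¹) * (k * Z0 * k⁻¹)) * k := by group
        _ = k⁻¹ * ((k * Z0 * k⁻¹) * (k * X0 * k⁻¹)) * k := by rw [e]
        _ = Z0 * X0 := by group
    have e00 := congrArg (fun y : SL => y 0 0) e'
    have e01 := congrArg (fun y : SL => y 0 1) e'
    simp only [mul_apply2, X0, Z0, mk00, mk01, mk10, mk11] at e00 e01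
    -- the two linear equations at the centre
    have l1 : 2 * v - τ * u = 0 := by
      rw [ha, hb, ha0] at e00
      field_simp at e00
      apply mul_left_cancel₀ h2'
      linear_combination -e00
    have l2 : τ * v - 2 * u = 0 := by
      rw [ha, hb, ha0] at e01
      field_simp at e01
      apply mul_left_cancel₀ h2'
      linear_combination -e01
    have hd : τ ^ 2 - 4 ≠ 0 := sub_ne_zero.2 ht
    rcases huv with h | h
    · exact h ((mul_eq_zero.1 (show (τ ^ 2 - 4) * u = 0 by linear_combination -τ * l1 + 2 * l2)).resolve_left hd)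
    · exact h ((mul_eq_zero.1 (show (τ ^ 2 - 4) * v = 0 by linear_combination -2 * l1 + τ * l2)).resolve_left hd)

theorem sq_eq_inv_of_tr {X : SL} (h : Dickson.tr X = -1) : X * X = X⁻¹ := by
  have hd := det_eq X
  simp only [Dickson.tr] at h
  apply ext2 <;> simp only [mul_apply2, inv00, inv01, inv10, inv11]
  · linear_combination X 0 0 * h - hd + (-1 : F) * h
  · linear_combination X 0 1 * h
  · linear_combination X 1 0 * h
  · linear_combination X 1 1 * h - hd + (-1 : F) * h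

theorem card_alt4 : Nat.card (alternatingGroup (Fin 4)) = 12 := by
  rw [Nat.card_eq_fintype_card]; decide
theorem card_perm4 : Nat.card (Equiv.Perm (Fin 4)) = 24 := by
  rw [Nat.card_eq_fintype_card]; decide
theorem card_alt5 : Nat.card (alternatingGroup (Fin 5)) = 60 := by
  rw [nat_card_alternatingGroup, Nat.card_fin]; rfl

/-- Subgroups of odd order prime to the characteristic. -/
theorem odd_main (p : ℕ) [Fact p.Prime] [CharP F p] {H : Subgroup PSL} (h1 : H ≠ ⊥)
    (hp : ¬ p ∣ Nat.card H) (hodd : Odd (Nat.card H)) (hb : Bin H) :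
    (2 : F) = 0 ∧ Nat.card H = 3 ∧ ∀ w : F, w * w + w + 1 ≠ 0 := by
  have hcyc : IsCyclic H := by
    rcases PSL2PrimeTo.classification p H hp with ⟨k, -, ⟨h, -⟩ | ⟨-, h, -⟩⟩ | ⟨⟨e⟩⟩ | ⟨⟨e⟩⟩ | ⟨⟨e⟩⟩
    · exact h
    · rw [h, Nat.odd_iff] at hodd; omega
    · rw [Nat.card_congr e.toEquiv, card_alt4] at hodd; exact absurd hodd (by decide)
    · rw [Nat.card_congr e.toEquiv, card_perm4] at hodd; exact absurd hodd (by decide)
    · rw [Nat.card_congr e.toEquiv, card_alt5] at hodd; exact absurd hodd (by decide)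
  obtain ⟨⟨x, hx⟩, hgen⟩ := hcyc.exists_generator
  have hab : ∀ a ∈ H, ∀ b ∈ H, a * b = b * a := by
    letI := hcyc.commGroup
    exact fun a ha b hb => congrArg Subtype.val (mul_comm (⟨a, ha⟩ : H) ⟨b, hb⟩)
  have hord : orderOf x = Nat.card H := by
    rw [← orderOf_eq_card_of_forall_mem_zpowers hgen, Subgroup.orderOf_mk]
  have hx1 : x ≠ 1 := by
    intro e
    rw [e, orderOf_one] at hord
    exact h1 (Subgroup.eq_bot_of_card_eq H hord.symm)
  have hx2 : x * x ≠ 1 := by
    intro e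
    have hd : orderOf x ∣ 2 := orderOf_dvd_of_pow_eq_one (by rw [pow_two, e])
    rcases (Nat.dvd_prime Nat.prime_two).1 hd with h | h
    · exact hx1 (orderOf_eq_one_iff.1 h)
    · rw [hord] at h
      rw [h] at hodd
      exact absurd hodd (by decide)
  have key : ∀ X : SL, toPSL X = x →
      Dickson.tr X = -1 ∧ ∀ w : F, w * w + w + 1 ≠ 0 := by
    intro X hX
    have h4 : Dickson.tr X ^ 2 ≠ 4 := by
      intro e
      have : ∀ Y : SL, toPSL Y = x → Dickson.tr Y = 2 → False := fun Y hY hT => by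
        have hp1 : x ^ p = 1 := by rw [← hY, ← map_pow, pow_p_of_tr Y hT, map_one]
        rcases (Nat.dvd_prime (Fact.out : p.Prime)).1 (orderOf_dvd_of_pow_eq_one hp1) with h | h
        · exact hx1 (orderOf_eq_one_iff.1 h)
        · exact hp (by rw [← hord, h])
      rcases mul_eq_zero.1 (show (Dickson.tr X - 2) * (Dickson.tr X + 2) = 0 by linear_combination e) with h | h
      · exact this X hX (sub_eq_zero.1 h)
      · exact this (-X) (by rw [toPSL_neg, hX]) (by rw [Dickson.tr_neg]; linear_combination -h)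
    by_contra hc
    have hroot : Dickson.tr X ≠ -1 ∨ ∃ w : F, w * w + w + 1 = 0 := by
      by_cases h : Dickson.tr X = -1
      · exact Or.inr (by by_contra! hn; exact hc ⟨h, hn⟩)
      · exact Or.inl h
    obtain ⟨Z, hZ, hY, hne⟩ := exists_triple h4 hroot
    refine not_bin_abelian hab (t := 1) ?_ (hX ▸ hx2) (isConj_of_tr h4 hZ.symm)
      (isConj_of_tr h4 hY.symm) hne hb
    simpa [At, hX] using hx
  obtain ⟨X, hX⟩ := toPSL_surjective x
  obtain ⟨e1, e2⟩ := key X hX
  obtain ⟨e3, -⟩ := key (-X) (by rw [toPSL_neg, hX])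
  refine ⟨?_, ?_, e2⟩
  · rw [Dickson.tr_neg, e1] at e3
    linear_combination e3
  · have h3 : x ^ 3 = 1 := by
      rw [← hX, ← map_pow, pow_succ, pow_two, sq_eq_inv_of_tr e1, inv_mul_cancel, map_one]
    rcases (Nat.dvd_prime Nat.prime_three).1 (orderOf_dvd_of_pow_eq_one h3) with h | h
    · exact absurd (orderOf_eq_one_iff.1 h) hx1
    · rw [← hord, h]

theorem eq_of_traces (h2 : (2 : F) = 0) (hno : ∀ w : F, w * w + w + 1 ≠ 0) {A B : SL}
    (hA : Dickson.tr A = 1) (hB : Dickson.tr B = 1) (hAB : Dickson.tr (A * B) = 1) : A = B := by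
  have dA := det_eq A
  have dB := det_eq B
  simp only [Dickson.tr, mul_apply2] at hA hB hAB
  set a := A 0 0
  set b := A 0 1
  set c := A 1 0
  set d := A 1 1
  set m := B 0 0 - a with hm
  set n := B 0 1 - b with hn
  set o := B 1 0 - c with ho
  have hd : d = 1 - a := by linear_combination hA
  have hd' : B 1 1 = 1 - a - m := by rw [hm]; linear_combination hB
  rw [hd'] at dB hAB
  rw [hd] at hAB dA
  rw [show B 0 0 = a + m by rw [hm]; ring, show B 0 1 = b + n by rw [hn]; ring,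
    show B 1 0 = c + o by rw [ho]; ring] at dB hAB
  have r1 : b * o + c * n = m := by
    linear_combination hAB + (-a ^ 2 + a - b * c - a * m + m - m) * h2
  have r2 : m * m = n * o := by
    linear_combination dB - dA + r1 + (a * m + m * m + b * o + c * n - m + (B 0 0 - a + 2 * b * c - b * B 1 0 - c * B 0 1)) * h2
  have hn0 : n = 0 := by
    by_contra hn0
    refine hno (a + b * m / n) ?_
    field_simp
    linear_combination b * b * r2 + n * b * (-r1) + n * n * dA + (a * n * n + a * a * n * n + a * b * n * m + b * m * n - n * n * b * c + (3 * a * B 0 1 * b - a * B 0 1 ^ 2 - 2 * a * b ^ 2 - 2 * B 0 1 * b - B 0 1 * b * B 0 0 + B 0 1 * b ^ 2 * B 1 0 - 5 * B 0 1 * b ^ 2 * c + B 0 1 ^ 2 + 2 * B 0 1 ^ 2 * b * c + b ^ 2 + b ^ 2 * B 0 0 - b ^ 3 * B 1 0 + 3 * b ^ 3 * c)) * h2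
  have hm0 : m = 0 := mul_self_eq_zero.1 (by rw [r2, hn0, zero_mul])
  have ho0 : o = 0 := by
    by_contra ho0
    have hb0 : b = 0 := by
      have : b * o = 0 := by rw [hn0, hm0] at r1; linear_combination r1
      exact (mul_eq_zero.1 this).resolve_right ho0
    refine hno a ?_
    rw [hb0] at dA
    linear_combination dA + (a * a + a) * h2 - 2 * a * h2 + a * h2 + h2
  refine ext2 ?_ ?_ ?_ ?_
  · exact (sub_eq_zero.1 hm0).symm
  · exact (sub_eq_zero.1 hn0).symm
  · exact (sub_eq_zero.1 ho0).symm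
  · show d = B 1 1
    rw [hd, hd', hm0, sub_zero]

/-- The exceptional binary action. -/
theorem bin_three (h2 : (2 : F) = 0) (hno : ∀ w : F, w * w + w + 1 ≠ 0) {H : Subgroup PSL}
    (h3 : Nat.card H = 3) : Bin H := by
  haveI : Fact (Nat.Prime 3) := ⟨Nat.prime_three⟩
  have negSL : ∀ g : SL, -g = g := fun g => ext2
    (by rw [neg_apply2]; linear_combination (-1 : F) * g 0 0 * h2)
    (by rw [neg_apply2]; linear_combination (-1 : F) * g 0 1 * h2)
    (by rw [neg_apply2]; linear_combination (-1 : F) * g 1 0 * h2)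
    (by rw [neg_apply2]; linear_combination (-1 : F) * g 1 1 * h2)
  have htr : ∀ (A : SL) (t : PSL), At H (toPSL A) t → toPSL A ≠ 1 → Dickson.tr A = 1 := by
    intro A t hA h1
    have hcube : (t⁻¹ * toPSL A * t) ^ 3 = 1 := by
      have := congrArg Subtype.val (pow_card_eq_one' (x := (⟨_, hA⟩ : H)))
      rwa [h3] at this
    have hA3 : toPSL A ^ 3 = 1 := by
      have e : (t⁻¹ * toPSL A * t) ^ 3 = t⁻¹ * toPSL A ^ 3 * t := by
        simp [pow_succ, mul_assoc]
      rw [e] at hcube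
      calc toPSL A ^ 3 = t * (t⁻¹ * toPSL A ^ 3 * t) * t⁻¹ := by group
        _ = 1 := by rw [hcube]; group
    rw [← map_pow, toPSL_eq_one_iff, negSL, or_self] at hA3
    have hi : A * A = A⁻¹ := eq_inv_of_mul_eq_one_left (by rw [← pow_two, ← pow_succ]; exact hA3)
    have e00 := congrArg (fun y : SL => y 0 0) hi
    have e01 := congrArg (fun y : SL => y 0 1) hi
    have e10 := congrArg (fun y : SL => y 1 0) hi
    simp only [mul_apply2, inv00, inv01, inv10] at e00 e01 e10
    by_contra hT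
    have hT' : A 0 0 + A 1 1 + 1 ≠ 0 := fun e => hT (by
      simp only [Dickson.tr]; linear_combination e + (-1 : F) * h2)
    have z1 : A 0 1 = 0 :=
      (mul_eq_zero.1 (show (A 0 0 + A 1 1 + 1) * A 0 1 = 0 by linear_combination e01)).resolve_left hT'
    have z2 : A 1 0 = 0 :=
      (mul_eq_zero.1 (show (A 0 0 + A 1 1 + 1) * A 1 0 = 0 by linear_combination e10)).resolve_left hT'
    have hd := det_eq A
    rw [z1, z2] at hd e00
    have hc : (A 0 0 - 1) * (A 0 0 * A 0 0 + A 0 0 + 1) = 0 := by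
      linear_combination A 0 0 * e00 + hd
    rcases mul_eq_zero.1 hc with h | h
    · refine h1 (toPSL_eq_one_iff.2 (IsScal.eq_one_or ⟨z1, z2, ?_⟩))
      linear_combination -hd + (1 + A 1 1) * h - A 1 1 * 0
    · exact hno _ h
  have hti : ∀ t₁ t₂ a : PSL, At H a t₁ → At H a t₂ → a ≠ 1 → ∀ c, At H c t₁ → At H c t₂ := by
    intro t₁ t₂ a ha1 ha2 ha c hc
    have hne : t₁⁻¹ * a * t₁ ≠ 1 := fun e => ha (by
      simpa [mul_assoc] using congrArg (fun u => t₁ * u * t₁⁻¹) e)
    have hz := mem_zpowers_of_prime_card h3 (g := (⟨_, ha1⟩ : H)) (g' := ⟨_, hc⟩)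
      (fun e => hne (congrArg Subtype.val e))
    obtain ⟨k, hk⟩ := Subgroup.mem_zpowers_iff.1 hz
    have hk' := congrArg Subtype.val hk
    simp only [SubgroupClass.coe_zpow] at hk'
    have e : c = a ^ k := by
      have e1 : (t₁⁻¹ * a * t₁) ^ k = t₁⁻¹ * a ^ k * t₁ := by
        simpa using (map_zpow (MulAut.conj t₁⁻¹) a k).symm
      rw [e1] at hk'
      exact (mul_left_cancel (mul_right_cancel hk')).symm
    rw [e]
    exact at_zpow ha2 k
  refine bin_of_product H ?_ hti
  intro t₁ t₂ t₃ a b ha hb hab ha1 hb1 hab1 c hc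
  obtain ⟨A, rfl⟩ := toPSL_surjective a
  obtain ⟨B, rfl⟩ := toPSL_surjective b
  rw [← map_mul] at hab hab1
  have : A = B := eq_of_traces h2 hno (htr A t₁ ha ha1) (htr B t₂ hb hb1) (htr _ t₃ hab hab1)
  subst this
  exact hti t₁ t₂ _ ha hb ha1 c hc

end Cfsg.Agent.Chars.PSLBinary
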