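import Cfsg.Agent.Chars.Basic
import Cfsg.Agent.Chars.Linear
import Cfsg.Agent.Chars.Induced
import Cfsg.Agent.Chars.Eigen
import Cfsg.Agent.Chars2.Correspondence
import Cfsg.Agent.Chars2.Linear
import Cfsg.Agent.LeadWork.ItoPSolvable

/-!
The derived length of a Sylow subgroup of a `p`-solvable group is at most one more than the number
of irreducible characters of degree divisible by `p`.
-/

set_option autoImplicit false
set_option linter.style.haveILetI false
set_option linter.unusedSectionVars false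

namespace Cfsg.Agent.Chars.PSingular

open Cfsg Cfsg.Agent

universe u

variable {G : Type u} [Group G] [Finite G] {p : ℕ} [hp : Fact p.Prime]

/-- The number of irreducible characters of degree divisible by `p`. -/
noncomputable def num (p : ℕ) (G : Type u) [Group G] : ℕ :=
  Nat.card {χ : IrrCharacter G // p ∣ charDegree (χ : G → ℂ)}

/-- Inflation of characters from a quotient. -/
noncomputable def inflate (N : Subgroup G) [N.Normal] (χ : IrrCharacter (G ⧸ N)) :
    IrrCharacter G :=
  ⟨(χ : G ⧸ N → ℂ) ∘ QuotientGroup.mk' N,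
    isIrrCharacter_comp_surjective χ.2 (QuotientGroup.mk' N) (QuotientGroup.mk'_surjective N)⟩

theorem inflate_injective (N : Subgroup G) [N.Normal] : Function.Injective (inflate N) := by
  intro a b h
  refine Subtype.ext (funext fun x => ?_)
  obtain ⟨g, rfl⟩ := QuotientGroup.mk'_surjective N x
  exact congrFun (congrArg Subtype.val h) g

theorem charDegree_inflate (N : Subgroup G) [N.Normal] (χ : IrrCharacter (G ⧸ N)) :
    charDegree (inflate N χ : G → ℂ) = charDegree (χ : G ⧸ N → ℂ) := by
  haveI := Fintype.ofFinite G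
  haveI := Fintype.ofFinite (G ⧸ N)
  have h1 := (Blocks.charDegree_eq (inflate N χ).2).1
  have h2 := (Blocks.charDegree_eq χ.2).1
  have : (inflate N χ : G → ℂ) 1 = (χ : G ⧸ N → ℂ) 1 := by
    show (χ : G ⧸ N → ℂ) (QuotientGroup.mk' N 1) = _
    rw [map_one]
  rw [h1, h2] at this
  exact_mod_cast this

theorem num_quotient_le (N : Subgroup G) [N.Normal] : num p (G ⧸ N) ≤ num p G := by
  refine Nat.card_le_card_of_injective
    (fun χ => ⟨inflate N χ.1, (charDegree_inflate N χ.1).symm ▸ χ.2⟩) ?_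
  intro a b h
  exact Subtype.ext (inflate_injective N (congrArg Subtype.val h))

theorem num_quotient_lt (N : Subgroup G) [N.Normal] {χ : IrrCharacter G}
    (hp' : p ∣ charDegree (χ : G → ℂ)) {v : G} (hv : v ∈ N)
    (hne : (χ : G → ℂ) v ≠ (χ : G → ℂ) 1) : num p (G ⧸ N) < num p G := by
  haveI := Fintype.ofFinite G
  haveI := Fintype.ofFinite (G ⧸ N)
  haveI : Fintype {χ : IrrCharacter G // p ∣ charDegree (χ : G → ℂ)} := Fintype.ofFinite _
  haveI : Fintype {χ : IrrCharacter (G ⧸ N) // p ∣ charDegree (χ : G ⧸ N → ℂ)} := Fintype.ofFinite _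
  rw [num, num, Nat.card_eq_fintype_card, Nat.card_eq_fintype_card]
  refine Fintype.card_lt_of_injective_of_notMem
    (fun θ => ⟨inflate N θ.1, (charDegree_inflate N θ.1).symm ▸ θ.2⟩) ?_ (b := ⟨χ, hp'⟩) ?_
  · intro a b h
    exact Subtype.ext (inflate_injective N (congrArg Subtype.val h))
  · rintro ⟨θ, hθ⟩
    apply hne
    rw [← congrArg Subtype.val (congrArg Subtype.val hθ)]
    show (θ.1 : G ⧸ N → ℂ) (QuotientGroup.mk' N v) = (θ.1 : G ⧸ N → ℂ) (QuotientGroup.mk' N 1)
    rw [map_one, show QuotientGroup.mk' N v = 1 from (QuotientGroup.eq_one_iff v).2 hv]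

/-- If every character outside a normal abelian `p`-subgroup `V ≠ 1` has degree prime to `p`, then
a Sylow subgroup is abelian modulo `V`. -/
theorem commutator_le (hs : IsPSolvable p G) (V : Subgroup G) [V.Normal]
    (hab : ∀ a ∈ V, ∀ b ∈ V, a * b = b * a) (hVp : IsPGroup p V) (hne : V ≠ ⊥)
    (hdeg : ∀ χ : IrrCharacter G, (∃ v ∈ V, (χ : G → ℂ) v ≠ (χ : G → ℂ) 1) →
      ¬ p ∣ charDegree (χ : G → ℂ)) :
    ∃ P : Sylow p G, ∀ a ∈ (P : Subgroup G), ∀ b ∈ (P : Subgroup G),
      a * b * a⁻¹ * b⁻¹ ∈ V := by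
  classical
  haveI := Fintype.ofFinite G
  haveI : Fintype V := Fintype.ofFinite _
  obtain ⟨v₀, hv₀, hv₀1⟩ := (Subgroup.bot_or_exists_ne_one V).resolve_left hne
  -- a linear character
  letI : CommGroup V := { (inferInstance : Group V) with
    mul_comm := fun a b => Subtype.ext (hab a a.2 b b.2) }
  obtain ⟨lam, hlam⟩ := CommGroup.exists_apply_ne_one_of_hasEnoughRootsOfUnity V ℂ
    (a := (⟨v₀, hv₀⟩ : V)) (fun h => hv₀1 (congrArg Subtype.val h))
  set θ : V → ℂ := fun v => (lam v : ℂ) with hθdef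
  have hθ : IsIrrCharacter V θ := isIrrCharacter_hom lam
  have hθne : θ ≠ fun _ => 1 := fun h => hlam (Units.ext (congrFun h ⟨v₀, hv₀⟩))
  have hVT : V ≤ Chars2.inertiaSub θ :=
    Chars2.le_inertiaSub (isClassFunction_of_isCharacter (isCharacter_of_isIrr hθ))
  set T := Chars2.inertiaSub θ with hTdef
  haveI : Fintype T := Fintype.ofFinite _
  -- characters over `θ` have degree prime to `p`
  have hover : ∀ χ : IrrCharacter G, classInner (fun n : V => (χ : G → ℂ) n) θ ≠ 0 →
      ¬ p ∣ charDegree (χ : G → ℂ) := by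
    intro χ hχ
    refine hdeg χ ?_
    by_contra hall
    push Not at hall
    apply hχ
    rw [show (fun n : V => (χ : G → ℂ) n) = (χ : G → ℂ) 1 • (fun _ : V => (1 : ℂ)) from
      funext fun n => by rw [Pi.smul_apply, smul_eq_mul, mul_one]; exact hall n n.2,
      classInner_smul_left, classInner_irr_of_ne isIrrCharacter_one hθ hθne.symm, mul_zero]
  have hdegT : ∀ ψ : T → ℂ, IsIrrCharacter T ψ → classInner (Chars2.resSub V T hVT ψ) θ ≠ 0 →
      ¬ p ∣ T.index * charDegree ψ := by
    intro ψ hψ hψθ hd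
    have hirr := Chars2.isIrr_indFun_of_inertia hVT hθ hTdef hψ hψθ
    let χ : IrrCharacter G := ⟨indFun T ψ, hirr⟩
    have hd' : charDegree (χ : G → ℂ) = T.index * charDegree ψ := by
      have h1 := (Blocks.charDegree_eq χ.2).1
      have h2 : (χ : G → ℂ) 1 = (T.index : ℂ) * ψ 1 := indFun_apply_one T ψ
      rw [h1, (Blocks.charDegree_eq hψ).1] at h2
      exact_mod_cast h2
    refine hover χ ?_ (hd'.symm ▸ hd)
    have h1 : classInner (fun t : T => indFun T ψ t) ψ ≠ 0 := by
      rw [← classInner_indFun_right T ψ (isClassFunction_indFun T ψ), classInner_self_irr hirr]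
      exact one_ne_zero
    have h2 := (Chars2.clifford_correspondence hVT hθ hTdef hirr hψ h1 hψθ).2.1
    exact h2 ▸ hψθ
  -- a character over `θ`
  have hind := isCharacter_indFun V (isCharacter_of_isIrr hθ)
  obtain ⟨c, hc⟩ := Chars2.exists_multiplicities hind
  obtain ⟨χ, hχ⟩ : ∃ χ, c χ ≠ 0 := by
    by_contra hall
    push Not at hall
    have h := Chars2.apply_eq_sum (isClassFunction_of_isCharacter hind) 1
    simp only [hc, hall, Nat.cast_zero, zero_mul, Finset.sum_const_zero, indFun_apply_one] at h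
    exact mul_ne_zero (Nat.cast_ne_zero.2 V.index_ne_zero_of_finite)
      (irr_apply_one_ne_zero hθ) h
  have hcon : classInner (fun n : V => (χ : G → ℂ) n) θ ≠ 0 := by
    intro h0
    have h1 := hc χ
    rw [classInner_indFun V _ (isClassFunction_irr χ), ← classInner_conj_symm, h0, map_zero] at h1
    exact hχ (by exact_mod_cast h1.symm)
  obtain ⟨ψ, hψ, hψi, hψθ'⟩ := Chars2.exists_correspondent hVT hθ hTdef χ.2 hcon
  have hψθ : classInner (Chars2.resSub V T hVT ψ) θ ≠ 0 := hψθ' ▸ hcon
  have hTi : ¬ p ∣ T.index := fun h => hdegT ψ hψ hψθ (h.mul_right _)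
  have hψd : ¬ p ∣ charDegree ψ := fun h => hdegT ψ hψ hψθ (h.mul_left _)
  -- an extension of `θ` to its inertia group
  have hres := Chars2.resSub_eq_of_fixing V T hVT hθ le_rfl hψ hψθ
  set e := classInner (Chars2.resSub V T hVT ψ) θ with he
  obtain ⟨d, σ, hσi, hσψ⟩ := hψ
  have hψ' : IsIrrCharacter T ψ := ⟨d, σ, hσi, hσψ⟩
  have he' : e = d := by
    have h1 := hres 1
    rw [show θ 1 = 1 by simp [θ], mul_one] at h1
    rw [← h1, Chars2.resSub, show (⟨((1 : V) : G), hVT (1 : V).2⟩ : T) = 1 from rfl, ← hσψ,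
      Representation.char_one, Module.finrank_fin_fun]
  have hd : charDegree ψ = d := by
    have h1 := (Blocks.charDegree_eq hψ').1
    rw [← hσψ, Representation.char_one, Module.finrank_fin_fun, hσψ] at h1
    exact_mod_cast h1.symm
  rw [hd] at hψd
  have hval : ∀ v : V, σ.character ⟨v, hVT v.2⟩ = (d : ℂ) * θ v := fun v => by
    rw [hσψ, ← he']; exact hres v
  have hscal : ∀ v : V, σ ⟨v, hVT v.2⟩ = (θ v) • (1 : Module.End ℂ (Fin d → ℂ)) := by
    intro v
    have hn : ‖θ v‖ = 1 := by
      refine Complex.norm_eq_one_of_pow_eq_one (n := Nat.card V) ?_ Nat.card_pos.ne'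
      show (lam v : ℂ) ^ _ = 1
      rw [← Units.val_pow_eq_pow_val, ← map_pow, pow_card_eq_one', map_one, Units.val_one]
    obtain ⟨a, ha⟩ := (rep_norm_char_eq_iff σ ⟨v, hVT v.2⟩).1 (by
      rw [hval, norm_mul, hn, mul_one, Complex.norm_natCast, Module.finrank_fin_fun])
    have h1 := hval v
    rw [Representation.character, ha, map_smul, LinearMap.trace_one, Module.finrank_fin_fun,
      smul_eq_mul, mul_comm] at h1
    rw [ha, mul_left_cancel₀ (Nat.cast_ne_zero.2 fun h => hψd (by rw [h]; exact dvd_zero p)) h1]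
  obtain ⟨j, hj⟩ := IsPGroup.iff_card.1 hVp
  obtain ⟨u, hu⟩ : ∃ u : ℕ, d * u ≡ 1 [MOD p ^ j] := by
    have hcop : Nat.Coprime d (p ^ j) :=
      ((hp.out.coprime_iff_not_dvd.2 hψd).symm).pow_right j
    by_cases h1 : p ^ j = 1
    · exact ⟨0, by rw [h1]; exact Nat.modEq_one⟩
    · obtain ⟨u, hu⟩ := Nat.exists_mul_mod_eq_one_of_coprime hcop (by
        have := Nat.one_le_pow j p hp.out.pos
        omega)
      exact ⟨u, by rw [Nat.ModEq, hu.2, Nat.mod_eq_of_lt (by
        have := Nat.one_le_pow j p hp.out.pos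
        omega)]⟩
  set μ : T →* ℂˣ := (Chars2.detHom σ) ^ u with hμdef
  have hμ : ∀ v : V, (μ ⟨v, hVT v.2⟩ : ℂ) = θ v := by
    intro v
    rw [hμdef, MonoidHom.pow_apply, Units.val_pow_eq_pow_val, Chars2.detHom_apply, hscal,
      LinearMap.det_smul, map_one, mul_one, Module.finrank_fin_fun, ← pow_mul]
    show (lam v : ℂ) ^ (d * u) = (lam v : ℂ)
    rw [← Units.val_pow_eq_pow_val]
    congr 1
    conv_rhs => rw [← pow_one (lam v)]
    refine pow_eq_pow_iff_modEq.mpr (hu.of_dvd (orderOf_dvd_of_pow_eq_one ?_))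
    rw [← hj, ← map_pow, pow_card_eq_one', map_one]
  -- every character of the inertia group modulo `V` has degree prime to `p`
  set V' := V.subgroupOf T with hV'
  have hβ : ∀ β : IrrCharacter (T ⧸ V'), ¬ p ∣ charDegree (β : T ⧸ V' → ℂ) := by
    intro β hb
    let f : T → ℂ := fun t => ((β : T ⧸ V' → ℂ) ∘ QuotientGroup.mk' V') t * (μ t : ℂ)
    have hf : IsIrrCharacter T f := by
      have h := isIrrCharacter_mul_hom (inflate V' β).2 μ
      convert h using 1
      funext t
      exact mul_comm _ _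
    obtain ⟨m, hm0, hm⟩ := exists_irr_apply_one_eq β.2
    have hfv : Chars2.resSub V T hVT f = (m : ℂ) • θ := by
      funext v
      show (β : T ⧸ V' → ℂ) (QuotientGroup.mk' V' ⟨v, hVT v.2⟩) * (μ ⟨v, hVT v.2⟩ : ℂ) = _
      have hv' : QuotientGroup.mk' V' (⟨v, hVT v.2⟩ : T) = 1 := (QuotientGroup.eq_one_iff _).2 v.2
      rw [hμ, hv', hm, Pi.smul_apply, smul_eq_mul]
    refine hdegT f hf ?_ ((dvd_trans hb ?_).mul_left _)
    · rw [hfv, classInner_smul_left, classInner_self_irr hθ, mul_one]
      exact_mod_cast hm0.ne'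
    · have h1 := (Blocks.charDegree_eq hf).1
      have h2 : f 1 = (β : T ⧸ V' → ℂ) 1 := by
        show (β : T ⧸ V' → ℂ) (QuotientGroup.mk' V' 1) * (μ 1 : ℂ) = _
        rw [map_one, map_one, Units.val_one, mul_one]
      rw [h1, (Blocks.charDegree_eq β.2).1] at h2
      exact dvd_of_eq (by exact_mod_cast h2.symm)
  obtain ⟨A, hAn, hAab, -, hAi⟩ := LeadWork.Ito.ito_pSolvable (p := p) (Nat.card (T ⧸ V')) (T ⧸ V')
    le_rfl (Core.isPSolvable_quotient (Core.isPSolvable_subgroup hs T) V') hβ
  obtain ⟨Q⟩ : Nonempty (Sylow p T) := inferInstance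
  have hQi : ¬ p ∣ ((Q : Subgroup T).map T.subtype).index := by
    rw [Subgroup.index_map_subtype]
    exact hp.out.not_dvd_mul Q.not_dvd_index hTi
  refine ⟨(Q.2.map T.subtype).toSylow hQi, ?_⟩
  rw [IsPGroup.toSylow_coe]
  rintro _ ⟨a, ha, rfl⟩ _ ⟨b, hb, rfl⟩
  haveI := hAn
  have hmem : ∀ x ∈ (Q : Subgroup T), QuotientGroup.mk' V' x ∈ A := by
    intro x hx
    obtain ⟨k, hk⟩ := Q.2 ⟨x, hx⟩
    have hk' : x ^ p ^ k = 1 := by simpa using congrArg Subtype.val hk
    set y : (T ⧸ V') ⧸ A := QuotientGroup.mk' A (QuotientGroup.mk' V' x) with hy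
    have h1 : y ^ p ^ k = 1 := by rw [hy, ← map_pow, ← map_pow, hk', map_one, map_one]
    have h2 : y ^ A.index = 1 := by
      rw [Subgroup.index_eq_card]; exact pow_card_eq_one'
    have h3 : y = 1 := by
      have h4 := pow_gcd_eq_one.mpr ⟨h1, h2⟩
      rwa [Nat.Coprime.gcd_eq_one ((hp.out.coprime_iff_not_dvd.2 hAi).pow_left k), pow_one] at h4
    exact (QuotientGroup.eq_one_iff _).1 h3
  have hcomm := hAab _ (hmem a ha) _ (hmem b hb)
  have : a * b * a⁻¹ * b⁻¹ ∈ V' := by
    refine (QuotientGroup.eq_one_iff _).1 ?_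
    show QuotientGroup.mk' V' (a * b * a⁻¹ * b⁻¹) = 1
    rw [map_mul, map_mul, map_mul, map_inv, map_inv, hcomm]
    group
  simpa [hV', Subgroup.mem_subgroupOf] using this

theorem main : ∀ (m : ℕ) (G : Type u) [Group G] [Finite G], Nat.card G ≤ m → IsPSolvable p G →
    ∀ P : Sylow p G, derivedSeries ↥(P : Subgroup G) (num p G + 1) = ⊥ := by
  intro m
  induction m with
  | zero => intro G _ _ hle; exact absurd hle (not_le.2 Nat.card_pos)
  | succ m ih =>
    intro G _ _ hle hs P
    classical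
    set n := num p G with hn
    by_cases h0 : n = 0
    · -- Itô
      have hdeg : ∀ χ : IrrCharacter G, ¬ p ∣ charDegree (χ : G → ℂ) := by
        intro χ hd
        haveI := Fintype.ofFinite G
        haveI : Nonempty {χ : IrrCharacter G // p ∣ charDegree (χ : G → ℂ)} := ⟨⟨χ, hd⟩⟩
        exact Nat.card_pos.ne' (hn ▸ h0 : Nat.card _ = 0)
      obtain ⟨A, hAn, hAab, hAp, hAi⟩ :=
        LeadWork.Ito.ito_pSolvable (p := p) (Nat.card G) G le_rfl hs hdeg
      haveI := hAn
      haveI : (hAp.toSylow hAi : Subgroup G).Normal := by rwa [IsPGroup.toSylow_coe]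
      have hPA : (P : Subgroup G) = A := by
        have := Sylow.unique_of_normal (hAp.toSylow hAi) (by assumption)
        rw [Subsingleton.elim P (hAp.toSylow hAi), IsPGroup.toSylow_coe]
      rw [h0, zero_add, derivedSeries_one, commutator_def, eq_bot_iff,
        Subgroup.commutator_le]
      intro a _ b _
      have : a * b = b * a := Subtype.ext (hAab a (hPA ▸ a.2) b (hPA ▸ b.2))
      rw [Subgroup.mem_bot, commutatorElement_def, this]
      group
    by_cases hG : Nontrivial G
    swap
    · haveI : Subsingleton G := not_nontrivial_iff_subsingleton.1 hG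
      exact Subsingleton.elim _ _
    -- a normal subgroup
    obtain ⟨N, hNn, hNne, hNty⟩ : ∃ N : Subgroup G, N.Normal ∧ N ≠ ⊥ ∧
        (((∀ a ∈ N, ∀ b ∈ N, a * b = b * a) ∧ IsPGroup p N) ∨ (Nat.card N).Coprime p) := by
      rcases Core.piCore_ne_bot_or (Core.isPiSeparable_of_isPSolvable hs) with h | h
      · rw [← Core.pCore_eq_piCore] at h
        haveI : Nontrivial (pCore p G) := (Subgroup.nontrivial_iff_ne_bot _).mpr h
        have hc := (Core.isPGroup_pCore p G).center_nontrivial
        refine ⟨(Subgroup.center (pCore p G)).map (pCore p G).subtype,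
          Core.normal_map_subtype_of_characteristic _, ?_, Or.inl ⟨?_, ?_⟩⟩
        · rw [Ne, Subgroup.map_eq_bot_iff_of_injective _ (pCore p G).subtype_injective]
          exact (Subgroup.nontrivial_iff_ne_bot _).mp hc
        · rintro _ ⟨a, ha, rfl⟩ _ ⟨b, hb, rfl⟩
          rw [← map_mul, ← map_mul, Subgroup.mem_center_iff.mp hb a]
        · exact ((Core.isPGroup_pCore p G).to_subgroup _).map _
      · rw [← Core.pPrimeCore_eq_piCore] at h
        exact ⟨_, inferInstance, h, Or.inr (Core.card_pPrimeCore_coprime p G)⟩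
    haveI := hNn
    have hN1 : 1 < Nat.card N := (Finite.one_lt_card_iff_nontrivial).2
      ((Subgroup.nontrivial_iff_ne_bot N).2 hNne)
    have hlt : Nat.card (G ⧸ N) ≤ m := by
      have h := N.card_mul_index
      rw [Subgroup.index_eq_card] at h
      have h2 : Nat.card (G ⧸ N) * 2 ≤ Nat.card G := by
        rw [← h, mul_comm]; exact Nat.mul_le_mul_right _ hN1
      have h3 : 0 < Nat.card (G ⧸ N) := Nat.card_pos
      omega
    -- the image of `P`
    set f := QuotientGroup.mk' N with hf
    set φ := f.subgroupMap (P : Subgroup G) with hφ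
    have hφs : Function.Surjective φ := f.subgroupMap_surjective _
    have hker : ∀ x : (P : Subgroup G), φ x = 1 → (x : G) ∈ N := fun x hx =>
      (QuotientGroup.eq_one_iff _).1 (congrArg Subtype.val hx)
    have hq : derivedSeries ↥((P : Subgroup G).map f) (num p (G ⧸ N) + 1) = ⊥ := by
      have := ih (G ⧸ N) hlt (Core.isPSolvable_quotient hs N)
        (P.mapSurjective (QuotientGroup.mk'_surjective N))
      exact this
    have hdrop : ∀ k, num p (G ⧸ N) + 1 ≤ k → ∀ x ∈ derivedSeries ↥(P : Subgroup G) k,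
        (x : G) ∈ N := by
      intro k hk x hx
      refine hker x ?_
      have h1 : φ x ∈ derivedSeries _ k :=
        map_derivedSeries_le_derivedSeries φ k (Subgroup.mem_map_of_mem φ hx)
      have h2 := derivedSeries_antitone _ hk h1
      rwa [hq, Subgroup.mem_bot] at h2
    rcases hNty with ⟨hab, hNp⟩ | hcop
    · -- abelian `p`-subgroup
      have hstep : ∀ k, (∀ x ∈ derivedSeries ↥(P : Subgroup G) k, (x : G) ∈ N) →
          derivedSeries ↥(P : Subgroup G) (k + 1) = ⊥ := by
        intro k hk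
        rw [derivedSeries_succ, eq_bot_iff, Subgroup.commutator_le]
        intro a ha b hb
        have : a * b = b * a := Subtype.ext (hab a (hk a ha) b (hk b hb))
        rw [Subgroup.mem_bot, commutatorElement_def, this]
        group
      by_cases hex : ∃ χ : IrrCharacter G, p ∣ charDegree (χ : G → ℂ) ∧
          ∃ v ∈ N, (χ : G → ℂ) v ≠ (χ : G → ℂ) 1
      · obtain ⟨χ, hχd, v, hv, hne⟩ := hex
        have := num_quotient_lt N hχd hv hne
        exact hstep n (hdrop n (by omega))
      · obtain ⟨Q, hQ⟩ := commutator_le hs N hab hNp hNne fun χ hv hd => hex ⟨χ, hd, hv⟩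
        obtain ⟨g, hg⟩ := MulAction.exists_smul_eq G Q P
        have h1 : ∀ x ∈ derivedSeries ↥(P : Subgroup G) 1, (x : G) ∈ N := by
          intro x hx
          suffices h : derivedSeries ↥(P : Subgroup G) 1 ≤ N.subgroupOf (P : Subgroup G) from h hx
          rw [derivedSeries_one, commutator_def, Subgroup.commutator_le]
          intro a _ b _
          rw [Subgroup.mem_subgroupOf]
          have hmem : ∀ y : (P : Subgroup G), g⁻¹ * y * g ∈ (Q : Subgroup G) := by
            intro y
            have hy : (y : G) ∈ ((g • Q : Sylow p G) : Subgroup G) := hg ▸ y.2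
            rw [Sylow.coe_subgroup_smul, Subgroup.mem_pointwise_smul_iff_inv_smul_mem] at hy
            simpa using hy
          have h2 := hNn.conj_mem _ (hQ _ (hmem a) _ (hmem b)) g
          have e : g * (g⁻¹ * a * g * (g⁻¹ * b * g) * (g⁻¹ * a * g)⁻¹ * (g⁻¹ * b * g)⁻¹) * g⁻¹ =
              (a : G) * b * (a : G)⁻¹ * (b : G)⁻¹ := by group
          rw [e] at h2
          simpa [commutatorElement_def] using h2
        refine le_bot_iff.1 (le_trans (derivedSeries_antitone _ ?_) (hstep 1 h1).le)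
        omega
    · -- `p'`-subgroup
      have hle' := num_quotient_le (p := p) N
      rw [eq_bot_iff]
      intro x hx
      have hxN := hdrop (n + 1) (by omega) x hx
      obtain ⟨j, hj⟩ := IsPGroup.iff_card.1 P.2
      have hcPN : (Nat.card (P : Subgroup G)).Coprime (Nat.card N) := by
        rw [hj]; exact hcop.symm.pow_left j
      have : (x : G) ∈ (P : Subgroup G) ⊓ N := ⟨x.2, hxN⟩
      rw [Coprime.inf_eq_bot_of_coprime hcPN.symm, Subgroup.mem_bot] at this
      exact Subgroup.mem_bot.2 (Subtype.ext this)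

end Cfsg.Agent.Chars.PSingular
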