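import Cfsg.Agent.Chars.SimpleDegreeTools
import Cfsg.Agent.DegreeGraph.AbelianNormal
import Cfsg.Agent.Blocks.Basic
import Cfsg.Agent.S4441
import Cfsg.Agent.S4456

/-!
A group all of whose nonlinear irreducible characters have prime degree is solvable.
-/

set_option autoImplicit false
set_option linter.style.haveILetI false
set_option linter.unusedSectionVars false

open Cfsg Cfsg.Agent Cfsg.Agent.Blocks
open scoped ComplexConjugate

namespace Cfsg.Agent.Chars.PrimeDeg

universe u

/-- The simple groups in question are abelian. -/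
theorem simple_case {G : Type u} [Group G] [Finite G] [IsSimpleGroup G]
    (h : ∀ χ : IrrCharacter G, charDegree (χ : G → ℂ) ≠ 1 → (charDegree (χ : G → ℂ)).Prime) :
    ∀ a b : G, a * b = b * a := by
  classical
  by_contra hna
  haveI := Fintype.ofFinite G
  have hdeg : ∀ χ : IrrCharacter G, (χ : G → ℂ) 1 = (charDegree (χ : G → ℂ) : ℂ) :=
    fun χ => (Blocks.charDegree_eq χ.2).1
  -- the largest degree
  obtain ⟨χq, -, hmax⟩ := Finset.exists_max_image Finset.univ
    (fun χ : IrrCharacter G => charDegree (χ : G → ℂ)) ⟨oneChar G, Finset.mem_univ _⟩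
  have hdq : charDegree (χq : G → ℂ) ≠ 1 := fun h1 =>
    hna (Chars2.comm_of_degree_one fun χ => le_antisymm (h1 ▸ hmax χ (Finset.mem_univ χ))
      (Blocks.charDegree_eq χ.2).2)
  obtain ⟨q, hq⟩ : ∃ q, charDegree (χq : G → ℂ) = q := ⟨_, rfl⟩
  have hqp : q.Prime := hq ▸ h χq hdq
  haveI := Fact.mk hqp
  have hle : ∀ χ : IrrCharacter G, charDegree (χ : G → ℂ) ≤ q := fun χ =>
    hq ▸ hmax χ (Finset.mem_univ χ)
  have hqG : q ∣ Nat.card G := by
    obtain ⟨d, -, hd, hdd⟩ := irr_degree_dvd_card χq.2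
    rw [hdeg, hq] at hd
    exact (show q = d by exact_mod_cast hd) ▸ hdd
  -- a smaller degree
  obtain ⟨χr, hr1, hrq⟩ : ∃ χ : IrrCharacter G, charDegree (χ : G → ℂ) ≠ 1 ∧
      charDegree (χ : G → ℂ) < q := by
    by_contra hno
    push Not at hno
    obtain ⟨N, hN, hNc, k, hk⟩ := S4456.result (G := G) q hqp fun χ hχ =>
      (le_antisymm (hle χ) (hno χ hχ)).symm.dvd
    rcases IsSimpleGroup.eq_bot_or_eq_top_of_normal N hN with hb | hb
    · rw [hb, Subgroup.index_bot] at hk
      haveI : Nontrivial G := inferInstance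
      have hG : IsPGroup q G := IsPGroup.iff_card.2 ⟨k, hk⟩
      haveI := hG.center_nontrivial
      rcases IsSimpleGroup.eq_bot_or_eq_top_of_normal (Subgroup.center G) inferInstance with hc | hc
      · exact (Subgroup.nontrivial_iff_ne_bot _).1 inferInstance hc
      · exact hna fun a b => Subgroup.mem_center_iff.1 (hc ▸ Subgroup.mem_top b) a
    · rw [hb, Subgroup.card_top] at hNc
      exact hqp.not_dvd_one (hNc ▸ Nat.dvd_gcd hqG dvd_rfl)
  have hrp := h χr hr1
  have hr2 := hrp.two_le
  have hq3 : 3 ≤ q := by omega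
  obtain ⟨P⟩ : Nonempty (Sylow q G) := inferInstance
  haveI : Fintype (P : Subgroup G) := Fintype.ofFinite _
  -- the Sylow subgroup is abelian
  have hPab : ∀ x ∈ (P : Subgroup G), ∀ y ∈ (P : Subgroup G), x * y = y * x := by
    intro x hx y hy
    choose c hc using fun l : IrrCharacter (P : Subgroup G) => exists_classInner_eq_nat
      (isCharacter_restrict (irr_isCharacter χr) (P : Subgroup G)) (irr_isCharacter l)
    have hexp : ∀ z : (P : Subgroup G), (χr : G → ℂ) z =
        ∑ l : IrrCharacter (P : Subgroup G), (c l : ℂ) * (l : ↥(P : Subgroup G) → ℂ) z := fun z => by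
      refine (Chars2.apply_eq_sum (isClassFunction_of_isCharacter
        (isCharacter_restrict (irr_isCharacter χr) (P : Subgroup G))) z).trans ?_
      exact Finset.sum_congr rfl fun l _ => by rw [hc]
    have hlin : ∀ l : IrrCharacter (P : Subgroup G), c l ≠ 0 →
        (l : ↥(P : Subgroup G) → ℂ) 1 = 1 := by
      intro l hl
      obtain ⟨d, hd0, hd, hdd⟩ := irr_degree_dvd_card l.2
      obtain ⟨a, ha⟩ := IsPGroup.iff_card.1 P.isPGroup'
      obtain ⟨j, -, hj⟩ := (Nat.dvd_prime_pow hqp).1 (ha ▸ hdd)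
      have h1 := hexp 1
      rw [Subgroup.coe_one, hdeg] at h1
      choose e he0 he using fun l : IrrCharacter (P : Subgroup G) =>
        exists_irr_apply_one_eq l.2
      simp only [he] at h1
      have h2 : charDegree (χr : G → ℂ) = ∑ l, c l * e l := by exact_mod_cast h1
      have h3 : d ≤ charDegree (χr : G → ℂ) := by
        have h4 : d = e l := by exact_mod_cast hd.symm.trans (he l)
        rw [h2, h4]
        exact (Nat.le_mul_of_pos_left _ (Nat.pos_of_ne_zero hl)).trans
          (Finset.single_le_sum (f := fun l => c l * e l) (fun l _ => Nat.zero_le _)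
            (Finset.mem_univ l))
      rcases j with _ | j
      · rw [hd, hj, pow_zero, Nat.cast_one]
      · exfalso
        have : q ≤ d := hj ▸ Nat.le_self_pow (Nat.succ_ne_zero j) q
        omega
    have h1 : (χr : G → ℂ) (x * y * x⁻¹ * y⁻¹) = (χr : G → ℂ) 1 := by
      have ea := hexp (⟨x, hx⟩ * ⟨y, hy⟩ * ⟨x, hx⟩⁻¹ * ⟨y, hy⟩⁻¹ : (P : Subgroup G))
      have eb := hexp 1
      rw [Subgroup.coe_one] at eb
      rw [eb]
      refine ea.trans (Finset.sum_congr rfl fun l _ => ?_)
      by_cases hl : c l = 0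
      · rw [hl, Nat.cast_zero, zero_mul, zero_mul]
      · obtain ⟨f, hf⟩ := exists_hom_of_degree_one (irr_isCharacter l) (hlin l hl)
        rw [hf]
        simp only [map_mul, map_inv, map_one]
        rw [mul_comm (f ⟨x, hx⟩), mul_inv_cancel_right, mul_inv_cancel]
    have h2 := SimpleDeg.eq_one_of_apply_eq (χ := χr)
      (by rw [hdeg]; exact_mod_cast hr1) h1
    rw [mul_inv_eq_one, mul_inv_eq_iff_eq_mul] at h2
    exact h2
  -- it has order `q`
  have hPq : Nat.card P = q := by
    rcases (Nat.dvd_prime hqp).1 (SimpleDeg.sylow_card_dvd_of_prime_degree hna P hPab hq) with h1 | h1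
    · exact absurd (h1 ▸ P.dvd_card_of_dvd_card hqG) hqp.not_dvd_one
    · exact h1
  obtain ⟨M, hMmax, hqM⟩ := DegreeGraph.exists_isMaximal_mem q
  obtain ⟨X, Y, hB, hdisj, hX, hY, εX, ε, hXp, hε, hYp, -, hrel⟩ :=
    S4441.result q M ⟨hqp, hMmax, hqM⟩ (by omega) P hPq _ rfl
  set e := (Subgroup.centralizer ((P : Subgroup G) : Set G)).relIndex
    (Subgroup.normalizer ((P : Subgroup G) : Set G))
  have he2 : 2 ≤ e := SimpleDeg.two_le_relIndex hna P hPq rfl
  have hedvd : e ∣ q - 1 := SimpleDeg.relIndex_dvd_pred P hPq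
  have hone : ∀ χ : IrrCharacter G, charDegree (χ : G → ℂ) = 1 → χ = oneChar G := fun χ hχ =>
    Subtype.ext (SimpleDeg.eq_one_of_degree_one hna (by rw [hdeg, hχ, Nat.cast_one]))
  have hone1 : charDegree ((oneChar G : IrrCharacter G) : G → ℂ) = 1 := by
    rw [coe_oneChar]; simp [charDegree]
  have hXdeg : ∀ χ ∈ X, (charDegree (χ : G → ℂ) = 1 ∧ εX χ = 1) ∨
      (charDegree (χ : G → ℂ) = 2 ∧ q = 3 ∧ εX χ = -1) := by
    intro χ hχ
    obtain ⟨hs, hc, -⟩ := hXp χ hχ
    obtain ⟨k, hk⟩ := Int.modEq_iff_dvd.1 hc.symm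
    have hd0 := (Blocks.charDegree_eq χ.2).2
    have hd := hle χ
    rcases hs with hs | hs <;> rw [hs] at hk
    · left
      have : k = 0 := by
        rcases lt_trichotomy k 0 with hk' | hk' | hk'
        · nlinarith
        · exact hk'
        · nlinarith
      subst this
      exact ⟨by omega, hs⟩
    · right
      have : k = 1 := by
        rcases lt_trichotomy k 1 with hk' | hk' | hk'
        · nlinarith
        · exact hk'
        · nlinarith
      subst this
      have hd1 : charDegree (χ : G → ℂ) + 1 = q := by omega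
      have hp' := h χ (by omega)
      rcases hp'.eq_two_or_odd' with h2 | ho
      · exact ⟨h2, by omega, hs⟩
      · rcases hqp.eq_two_or_odd' with h3 | ho'
        · omega
        · obtain ⟨a, ha⟩ := ho; obtain ⟨b, hb⟩ := ho'; omega
  by_cases hq5 : q = 3
  swap
  · have hsub : X ⊆ {oneChar G} := fun χ hχ => by
      rcases hXdeg χ hχ with ⟨h1, -⟩ | ⟨-, h1, -⟩
      · exact hone χ h1
      · exact absurd h1 hq5
    have := Set.ncard_le_ncard hsub
    rw [Set.ncard_singleton, ← Nat.card_coe_set_eq, hX] at this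
    omega
  subst hq5
  have he : e = 2 := by
    have := Nat.le_of_dvd two_pos hedvd
    omega
  rw [he] at hX hY
  rw [Nat.card_coe_set_eq, Set.ncard_eq_two] at hX
  obtain ⟨χ, χ', hne, hXeq⟩ := hX
  rw [Nat.card_coe_set_eq, show (3 - 1) / 2 = 1 from rfl, Set.ncard_eq_one] at hY
  obtain ⟨θ, hYeq⟩ := hY
  have hr := hrel θ (hYeq ▸ rfl) 1 (by rw [orderOf_one]; exact hqp.not_dvd_one)
  rw [hXeq, finsum_mem_pair hne, hdeg, hdeg, hdeg] at hr
  have hr' : ε * (charDegree (θ : G → ℂ) : ℤ) =
      εX χ * charDegree (χ : G → ℂ) + εX χ' * charDegree (χ' : G → ℂ) := by exact_mod_cast hr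
  have hθdeg := hle θ
  have hθ0 := (Blocks.charDegree_eq θ.2).2
  have hχm : χ ∈ X := by rw [hXeq]; exact Set.mem_insert _ _
  have hχm' : χ' ∈ X := by rw [hXeq]; exact Set.mem_insert_of_mem _ rfl
  have hmem : oneChar G = χ ∨ oneChar G = χ' ∨ oneChar G = θ := by
    have h1 : oneChar G ∈ X ∪ Y := hB ▸ Blocks.one_mem_principal
    rw [hXeq, hYeq] at h1
    simp only [Set.mem_union, Set.mem_insert_iff, Set.mem_singleton_iff] at h1
    tauto
  have hθX : θ ∉ X := fun h1 => Set.disjoint_left.1 hdisj h1 (hYeq ▸ rfl)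
  have hθY := hYp θ (hYeq ▸ rfl)
  rw [he] at hθY
  obtain ⟨k, hk⟩ := Int.modEq_iff_dvd.1 hθY
  rcases hXdeg χ hχm with ⟨h1, h1'⟩ | ⟨h1, -, h1'⟩ <;>
    rcases hXdeg χ' hχm' with ⟨h2, h2'⟩ | ⟨h2, -, h2'⟩ <;> rw [h1, h1', h2, h2'] at hr'
  · exact hne ((hone χ h1).trans (hone χ' h2).symm)
  all_goals
    have hθ1 : charDegree (θ : G → ℂ) = 1 → False := fun h3 => by
      rcases hε with hε | hε <;> rw [hε, h3] at hr' <;> first
        | omega
        | exact hθX (hone θ h3 ▸ (by first
            | exact hone χ h1 ▸ hχm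
            | exact hone χ' h2 ▸ hχm'))
    have hθne : oneChar G ≠ θ := fun e1 => hθ1 (e1 ▸ hone1)
    rcases hε with hε | hε <;> rw [hε] at hr' <;>
      rcases hmem with e1 | e1 | e1 <;> first
        | exact hθne e1
        | (apply hθ1; omega)
        | (rw [← e1, hone1] at h1; omega)
        | (rw [← e1, hone1] at h2; omega)
        | omega

/-- Prime degrees imply solvability. -/
theorem isSolvable : ∀ (m : ℕ) (G : Type u) [Group G] [Finite G], Nat.card G ≤ m →
    (∀ χ : IrrCharacter G, charDegree (χ : G → ℂ) ≠ 1 → (charDegree (χ : G → ℂ)).Prime) →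
    Group.IsSolvable G := by
  intro m
  induction m with
  | zero => intro G _ _ hm; exact absurd hm (by have := Nat.card_pos (α := G); omega)
  | succ m ih =>
    intro G _ _ hm h
    by_cases hab : ∀ a b : G, a * b = b * a
    · exact Group.isSolvable_of_comm hab
    by_cases hsimple : IsSimpleGroup G
    · exact absurd (simple_case h) hab
    obtain ⟨N, hNn, hNb, hNt⟩ : ∃ N : Subgroup G, N.Normal ∧ N ≠ ⊥ ∧ N ≠ ⊤ := by
      by_contra hno
      push Not at hno
      haveI : Nontrivial G := by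
        by_contra hnt
        rw [not_nontrivial_iff_subsingleton] at hnt
        exact hab fun a b => Subsingleton.elim _ _
      exact hsimple ⟨fun N hN => or_iff_not_imp_left.2 (hno N hN)⟩
    haveI := hNn
    haveI : Group.IsSolvable N := ih N (by
        have : Nat.card N < Nat.card G :=
          lt_of_le_of_ne (Subgroup.card_le_card_group N) fun e => hNt (Subgroup.card_eq_iff_eq_top N |>.1 e)
        omega) fun θ hθ => by
      obtain ⟨χ, hχ⟩ := Chars2.exists_degree_dvd_of_normal θ
      have hχ1 : charDegree (χ : G → ℂ) ≠ 1 := fun h1 => hθ (Nat.dvd_one.1 (h1 ▸ hχ))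
      rcases (Nat.dvd_prime (h χ hχ1)).1 hχ with h1 | h1
      · exact absurd h1 hθ
      · exact h1 ▸ h χ hχ1
    haveI : Group.IsSolvable (G ⧸ N) := ih (G ⧸ N) (by
        have h1 := Subgroup.card_eq_card_quotient_mul_card_subgroup N
        have h2 : 1 < Nat.card N := Subgroup.one_lt_card_iff_ne_bot N |>.2 hNb
        have h3 : 0 < Nat.card (G ⧸ N) := Nat.card_pos
        nlinarith) fun θ hθ => by
      obtain ⟨χ, hχ⟩ := Chars2.exists_degree_eq_of_surjective (QuotientGroup.mk' N)
        (QuotientGroup.mk'_surjective N) θ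
      exact hχ ▸ h χ (hχ.symm ▸ hθ)
    exact Group.isSolvable_of_ker_le_range N.subtype (QuotientGroup.mk' N) (by
      rw [QuotientGroup.ker_mk', Subgroup.range_subtype])

end Cfsg.Agent.Chars.PrimeDeg
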