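import Cfsg.Agent.Chars.PrimeDegrees
import Cfsg.Agent.Chars2.Correspondence
import Cfsg.Agent.Chars2.DegreeRatio
import Cfsg.Agent.Chars2.DegreeInherit
import Cfsg.Agent.Chars.Garrison
import Mathlib.GroupTheory.FiniteAbelian.Duality
import Cfsg.Prelude.Def_DegreeGraph

/-!
If all nonlinear irreducible characters have prime degree, there are at most three degrees.
-/

set_option autoImplicit false
set_option linter.style.haveILetI false

open Cfsg Cfsg.Agent
open scoped commutatorElement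

namespace Cfsg.Agent.Chars.PrimeDegThree

universe u

variable {G : Type u} [Group G] [Finite G]

theorem exists_index_dvd (h : ∀ χ : IrrCharacter G, charDegree (χ : G → ℂ) ≠ 1 →
      (charDegree (χ : G → ℂ)).Prime)
    (E : Subgroup G) [E.Normal] (lam : E →* ℂˣ)
    (hT : Chars2.inertiaSub (fun e : E => (lam e : ℂ)) ≠ ⊤) :
    (Chars2.inertiaSub (fun e : E => (lam e : ℂ))).index.Prime := by
  classical
  haveI := Fintype.ofFinite G
  haveI := Fintype.ofFinite E
  obtain ⟨m, hm, hsum⟩ := exists_eq_sum_nsmul (isCharacter_indFun E (isCharacter_hom lam))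
  obtain ⟨χ, hne⟩ : ∃ χ, m χ ≠ 0 := by
    by_contra hno
    push Not at hno
    have := congrFun hsum 1
    simp [hno, indFun_apply_one, Subgroup.index_ne_zero_of_finite] at this
  have hcon : classInner (fun k : E => (χ : G → ℂ) k) (fun k : E => (lam k : ℂ)) = m χ := by
    have h1 := hm χ
    rw [classInner_indFun E _ (isClassFunction_irr χ), ← classInner_conj_symm] at h1
    have h2 := congrArg (starRingEnd ℂ) h1
    rwa [Complex.conj_conj, map_natCast] at h2
  have hd := Chars2.clifford_degree χ.2 (isIrrCharacter_hom lam)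
    (by rw [hcon]; exact_mod_cast hne)
  rw [hcon, map_one, Units.val_one, mul_one, (Blocks.charDegree_eq χ.2).1] at hd
  set T := Chars2.inertiaSub (fun e : E => (lam e : ℂ))
  have hd' : charDegree (χ : G → ℂ) = T.index * m χ := by exact_mod_cast hd
  have h1 : T.index ≠ 1 := fun h1 => hT (Subgroup.index_eq_one.1 h1)
  have h2 : charDegree (χ : G → ℂ) ≠ 1 := fun h2 => h1 (Nat.eq_one_of_mul_eq_one_right (hd' ▸ h2))
  rcases (h χ h2).eq_one_or_self_of_dvd _ ⟨_, hd'⟩ with h3 | h3
  · exact absurd h3 h1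
  · exact h3 ▸ h χ h2

/-- The prime divisors of a just non-abelian group. -/
theorem prime_divisors [Group.IsSolvable G]
    (h : ∀ χ : IrrCharacter G, charDegree (χ : G → ℂ) ≠ 1 → (charDegree (χ : G → ℂ)).Prime)
    (hne : commutator G ≠ ⊥)
    (hmin : ∀ S : Subgroup G, S.Normal → S ≠ ⊥ → commutator G ≤ S) :
    ∃ a b : ℕ, ∀ r : ℕ, r.Prime → r ∣ Nat.card G → r = a ∨ r = b := by
  classical
  set E := commutator G with hE
  haveI : E.Normal := inferInstanceAs (commutator G).Normal
  have hab : ∀ x ∈ E, ∀ y ∈ E, x * y = y * x := by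
    have hb : ⁅E, E⁆ = ⊥ := by
      by_contra hb
      have heq : ⁅E, E⁆ = E :=
        le_antisymm (Subgroup.commutator_le_left E E) (hmin _ (Subgroup.commutator_normal E E) hb)
      haveI : Nontrivial E := (Subgroup.nontrivial_iff_ne_bot E).2 hne
      refine (Group.IsSolvable.commutator_lt_top_of_nontrivial E).ne ?_
      rw [_root_.commutator_def]
      refine Subgroup.map_injective E.subtype_injective ?_
      rw [Subgroup.map_commutator, ← MonoidHom.range_eq_map, Subgroup.range_subtype, heq]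
    intro x hx y hy
    exact commutatorElement_eq_one_iff_mul_comm.1
      (Subgroup.mem_bot.1 (hb ▸ Subgroup.commutator_mem_commutator hx hy))
  obtain ⟨q, hq, hqE⟩ := Nat.exists_prime_and_dvd (n := Nat.card E)
    (fun h1 => hne (Subgroup.card_eq_one.1 h1))
  haveI := Fact.mk hq
  have hexp : ∀ e ∈ E, e ^ q = 1 := by
    let S : Subgroup G :=
      { carrier := {e | e ∈ E ∧ e ^ q = 1}
        one_mem' := ⟨E.one_mem, one_pow q⟩
        mul_mem' := fun {a b} ha hb => ⟨E.mul_mem ha.1 hb.1, by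
          rw [Commute.mul_pow (hab a ha.1 b hb.1), ha.2, hb.2, one_mul]⟩
        inv_mem' := fun {a} ha => ⟨E.inv_mem ha.1, by rw [inv_pow, ha.2, inv_one]⟩ }
    have hSn : S.Normal := ⟨fun a ha g => ⟨Subgroup.Normal.conj_mem inferInstance a ha.1 g, by
      rw [conj_pow, ha.2]; simp⟩⟩
    obtain ⟨⟨g, hgE⟩, hg⟩ := exists_prime_orderOf_dvd_card' q hqE
    rw [Subgroup.orderOf_mk] at hg
    have hS : S ≠ ⊥ := fun hS => hq.ne_one (by
      have h1 : g = 1 := Subgroup.mem_bot.1 (hS ▸ (⟨hgE, hg ▸ pow_orderOf_eq_one g⟩ : g ∈ S))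
      rw [← hg, h1, orderOf_one])
    exact fun e he => (hmin S hSn hS he).2
  set C := Subgroup.centralizer (E : Set G) with hC
  have hcard : ∀ r : ℕ, r.Prime → r ∣ Nat.card C → r = q := by
    intro r hr hrC
    haveI := Fact.mk hr
    by_contra hrq
    have hcent : ∀ s ∈ C, ∀ j : ℕ, s ^ r ^ j = 1 → ∀ c ∈ C, c * s = s * c := by
      intro s hs j hsj c hc
      have he : ⁅c, s⁆ ∈ E := Subgroup.commutator_mem_commutator (Subgroup.mem_top c) (Subgroup.mem_top s)
      have hes : ⁅c, s⁆ * s = s * ⁅c, s⁆ := Subgroup.mem_centralizer_iff.1 hs _ he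
      have h1 : (⁅c, s⁆ * s) ^ r ^ j = 1 := by
        rw [show ⁅c, s⁆ * s = c * s * c⁻¹ by rw [commutatorElement_def, inv_mul_cancel_right],
          conj_pow, hsj]
        simp
      rw [Commute.mul_pow hes, hsj, mul_one] at h1
      have h2 : ⁅c, s⁆ = 1 := orderOf_eq_one_iff.1 (Nat.eq_one_of_dvd_coprimes
        (((Nat.coprime_primes hr hq).2 hrq).pow_left j)
        (orderOf_dvd_of_pow_eq_one h1) (orderOf_dvd_of_pow_eq_one (hexp _ he)))
      exact commutatorElement_eq_one_iff_mul_comm.1 h2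
    let R : Subgroup G :=
      { carrier := {s | s ∈ C ∧ ∃ j : ℕ, s ^ r ^ j = 1}
        one_mem' := ⟨C.one_mem, 0, one_pow _⟩
        mul_mem' := fun {a b} ⟨ha, i, hai⟩ ⟨hb, j, hbj⟩ => ⟨C.mul_mem ha hb, i + j, by
          rw [Commute.mul_pow (hcent b hb j hbj a ha), pow_add, pow_mul, hai, one_pow, one_mul,
            mul_comm, pow_mul, hbj, one_pow]⟩
        inv_mem' := fun {a} ⟨ha, i, hai⟩ => ⟨C.inv_mem ha, i, by rw [inv_pow, hai, inv_one]⟩ }
    have hRn : R.Normal := ⟨fun a ⟨ha, i, hai⟩ g =>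
      ⟨Subgroup.Normal.conj_mem inferInstance a ha g, i, by rw [conj_pow, hai]; simp⟩⟩
    obtain ⟨⟨g, hgC⟩, hg⟩ := exists_prime_orderOf_dvd_card' r hrC
    rw [Subgroup.orderOf_mk] at hg
    have hR : R ≠ ⊥ := fun hR => hr.ne_one (by
      have h1 : g = 1 := Subgroup.mem_bot.1
        (hR ▸ (⟨hgC, 1, by rw [pow_one, ← hg, pow_orderOf_eq_one]⟩ : g ∈ R))
      rw [← hg, h1, orderOf_one])
    refine hne ((Subgroup.eq_bot_iff_forall _).2 fun e he => ?_)
    obtain ⟨-, j, hj⟩ := hmin R hRn hR he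
    exact orderOf_eq_one_iff.1 (Nat.eq_one_of_dvd_coprimes
      (((Nat.coprime_primes hr hq).2 hrq).pow_left j)
      (orderOf_dvd_of_pow_eq_one hj) (orderOf_dvd_of_pow_eq_one (hexp e he)))
  by_cases htop : C = ⊤
  · exact ⟨q, q, fun r hr hd => Or.inl (hcard r hr (by rw [htop, Subgroup.card_top]; exact hd))⟩
  · obtain ⟨g, hg⟩ : ∃ g, g ∉ C := by
      by_contra hno
      push Not at hno
      exact htop (eq_top_iff.2 fun x _ => hno x)
    rw [hC, Subgroup.mem_centralizer_iff] at hg
    push Not at hg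
    obtain ⟨e, he, hne'⟩ := hg
    letI : CommGroup E := { mul_comm := fun a b => Subtype.ext (hab a a.2 b b.2) }
    obtain ⟨lam, hlam⟩ := CommGroup.exists_apply_ne_one_of_hasEnoughRootsOfUnity E ℂ
      (a := (⟨g⁻¹ * e * g, by simpa using Subgroup.Normal.conj_mem inferInstance e he g⁻¹⟩ : E) *
        (⟨e, he⟩ : E)⁻¹) (by
        rw [ne_eq, mul_inv_eq_one, Subtype.ext_iff]
        intro h1
        apply hne'
        calc e * g = g * (g⁻¹ * e * g) := by group
          _ = g * e := by rw [show g⁻¹ * e * g = e from h1])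
    set T := Chars2.inertiaSub (fun k : E => (lam k : ℂ)) with hT
    have hmem : ∀ t ∈ T, ∀ k : E, lam ⟨t⁻¹ * k * t,
        by simpa using Subgroup.Normal.conj_mem inferInstance (k : G) k.2 t⁻¹⟩ = lam k := by
      intro t ht k
      have h1 := congrFun (Chars2.mem_inertiaSub.1 ht) k
      rw [Chars2.conjFun_apply] at h1
      exact Units.ext (by simpa using h1)
    have hTne : T ≠ ⊤ := fun h1 => hlam (by
      rw [map_mul, map_inv, mul_inv_eq_one]
      exact hmem g (h1 ▸ Subgroup.mem_top g) ⟨e, he⟩)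
    have hET : E ≤ T := Chars2.le_inertiaSub (isClassFunction_of_isCharacter (isCharacter_hom lam))
    haveI : T.Normal := Subgroup.Normal.of_commutator_le G hET
    have hTC : ⁅E, T⁆ = ⊥ := by
      by_contra hb
      have hle := hmin _ (Subgroup.commutator_normal E T) hb
      have hker : ⁅E, T⁆ ≤ lam.ker.map E.subtype := Subgroup.commutator_le.2 fun k hk t ht => by
        have h1 : ⁅k, t⁆ ∈ E := Subgroup.commutator_le_left E T (Subgroup.commutator_mem_commutator hk ht)
        refine ⟨⟨_, h1⟩, ?_, rfl⟩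
        have h2 := hmem t⁻¹ (T.inv_mem ht) ((⟨k, hk⟩ : E)⁻¹)
        rw [map_inv] at h2
        show lam _ = 1
        have h3 : (⟨_, h1⟩ : E) = ⟨k, hk⟩ * ⟨t⁻¹⁻¹ * (((⟨k, hk⟩ : E)⁻¹ : E) : G) * t⁻¹,
            by simpa using Subgroup.Normal.conj_mem inferInstance (k⁻¹) (E.inv_mem hk) t⟩ :=
          Subtype.ext (by simp [commutatorElement_def, mul_assoc])
        rw [h3, map_mul, h2, mul_inv_cancel]
      refine hlam ?_
      have hall : ∀ k : E, lam k = 1 := fun k => by
        obtain ⟨a, ha, hae⟩ := hker (hle k.2)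
        rw [← Subtype.ext hae]
        exact ha
      exact hall _
    have hTle : T ≤ C := fun t ht => Subgroup.mem_centralizer_iff.2 fun k hk =>
      commutatorElement_eq_one_iff_mul_comm.1
        (Subgroup.mem_bot.1 (hTC ▸ Subgroup.commutator_mem_commutator hk ht))
    have hf := exists_index_dvd h E lam hTne
    refine ⟨T.index, q, fun r hr hd => ?_⟩
    rw [← C.card_mul_index] at hd
    rcases hr.dvd_mul.1 hd with h1 | h1
    · exact Or.inr (hcard r hr h1)
    · exact Or.inl ((Nat.prime_dvd_prime_iff_eq hr hf).1 (h1.trans (Subgroup.index_dvd_of_le hTle)))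

theorem card_le_three (h : ∀ χ : IrrCharacter G, charDegree (χ : G → ℂ) ≠ 1 →
      (charDegree (χ : G → ℂ)).Prime) : Nat.card (charDegrees G) ≤ 3 := by
  classical
  haveI := Fintype.ofFinite G
  have hsolv : Group.IsSolvable G := PrimeDeg.isSolvable (Nat.card G) G le_rfl h
  suffices ∃ a b : ℕ, charDegrees G ⊆ ({1, a, b} : Finset ℕ) by
    obtain ⟨a, b, hab⟩ := this
    refine (Nat.card_mono (Finset.finite_toSet _) hab).trans ?_
    rw [Nat.card_eq_card_toFinset, Finset.toFinset_coe]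
    exact Finset.card_le_three
  by_cases hc : commutator G = ⊥
  · refine ⟨1, 1, ?_⟩
    rintro d ⟨χ, rfl⟩
    have hab : ∀ a b : G, a * b = b * a := fun a b => commutatorElement_eq_one_iff_mul_comm.1
      (Subgroup.mem_bot.1 (hc ▸ Subgroup.commutator_mem_commutator (Subgroup.mem_top a) (Subgroup.mem_top b)))
    have := irr_apply_one_of_comm hab χ.2
    simp [charDegree, this]
  obtain ⟨K, ⟨hKn, hK⟩, hKmax⟩ := Set.exists_max_image {S : Subgroup G | S.Normal ∧ ¬ commutator G ≤ S}
    (fun S => Nat.card S) (Set.toFinite _) ⟨⊥, inferInstance, fun h1 => hc (le_bot_iff.1 h1)⟩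
  haveI := hKn
  haveI := Fintype.ofFinite K
  let f := QuotientGroup.mk' K
  have hf : Function.Surjective f := QuotientGroup.mk'_surjective K
  have hcomm : (commutator G).map f = commutator (G ⧸ K) := by
    rw [_root_.commutator_def, _root_.commutator_def, Subgroup.map_commutator,
      Subgroup.map_top_of_surjective f hf]
  have hne : commutator (G ⧸ K) ≠ ⊥ := by
    rw [← hcomm, ne_eq, Subgroup.map_eq_bot_iff, QuotientGroup.ker_mk']
    exact hK
  have hmin : ∀ S : Subgroup (G ⧸ K), S.Normal → S ≠ ⊥ → commutator (G ⧸ K) ≤ S := by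
    intro S hS hSne
    rw [← hcomm, Subgroup.map_le_iff_le_comap]
    by_contra hle
    have h1 := hKmax (S.comap f) ⟨hS.comap f, hle⟩
    have h2 : K ≤ S.comap f := (QuotientGroup.ker_mk' K).symm.le.trans (Subgroup.ker_le_comap f S)
    have h3 := Subgroup.eq_of_le_of_card_ge h2 h1
    refine hSne ?_
    rw [← Subgroup.map_comap_eq_self_of_surjective hf S, ← h3]
    exact (Subgroup.map_eq_bot_iff _).2 (QuotientGroup.ker_mk' K).symm.le
  haveI : Group.IsSolvable (G ⧸ K) := Group.isSolvable_of_surjective hf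
  have hQ : ∀ θ : IrrCharacter (G ⧸ K), charDegree (θ : G ⧸ K → ℂ) ≠ 1 →
      (charDegree (θ : G ⧸ K → ℂ)).Prime := by
    intro θ hθ
    have h1 := h ⟨_, isIrrCharacter_comp_surjective θ.2 f hf⟩
    simp only [charDegree, Function.comp_apply, map_one] at h1 hθ ⊢
    exact h1 hθ
  obtain ⟨a, b, hab⟩ := prime_divisors hQ hne hmin
  -- a nonlinear character of the quotient
  obtain ⟨θ, hθ⟩ : ∃ θ : IrrCharacter (G ⧸ K), charDegree (θ : G ⧸ K → ℂ) ≠ 1 := by
    by_contra hno
    push Not at hno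
    refine hne (le_bot_iff.1 ?_)
    rw [_root_.commutator_def]
    exact Subgroup.commutator_le.2 fun x _ y _ => Subgroup.mem_bot.2
      (commutatorElement_eq_one_iff_mul_comm.2 (Chars2.comm_of_degree_one hno x y))
  refine ⟨a, b, ?_⟩
  rintro d ⟨χ, rfl⟩
  simp only [Finset.coe_insert, Finset.coe_singleton, Set.mem_insert_iff, Set.mem_singleton_iff]
  by_cases hd1 : charDegree (χ : G → ℂ) = 1
  · exact Or.inl hd1
  by_contra hnot
  push Not at hnot
  set r := charDegree (χ : G → ℂ) with hr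
  have hrp : r.Prime := h χ hd1
  have hrK : ¬ r ∣ K.index := fun hd => by
    rcases hab r hrp hd with h1 | h1
    · exact hnot.2.1 h1
    · exact hnot.2.2 h1
  -- the restriction to `K` is irreducible
  obtain ⟨m, hm, hsum⟩ := exists_eq_sum_nsmul (isCharacter_restrict (irr_isCharacter χ) K)
  obtain ⟨φ, hφ⟩ : ∃ φ, m φ ≠ 0 := by
    by_contra hno
    push Not at hno
    have h1 := congrFun hsum 1
    simp [hno, irr_apply_one_ne_zero χ.2] at h1
  obtain ⟨dχ, σ, hσ, hσe⟩ := χ.2
  obtain ⟨dφ, ρ, hρ, hρe⟩ := φ.2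
  haveI := hσ
  haveI := hρ
  have hcon : classInner (fun n : K => σ.character n) ρ.character ≠ 0 := by
    rw [hσe, hρe]
    show classInner (fun n : K => (χ : G → ℂ) n) (φ : K → ℂ) ≠ 0
    rw [hm]
    exact_mod_cast hφ
  obtain ⟨h1, h2⟩ := Chars2.finrank_dvd_of_constituent ρ σ
    (Chars2.nontrivial_of_classInner σ ρ hcon)
  have hdd : Module.finrank ℂ (Fin dχ → ℂ) = r := by
    have h3 : (χ : G → ℂ) 1 = (Module.finrank ℂ (Fin dχ → ℂ) : ℂ) := by
      rw [← Representation.char_one σ, hσe]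
    rw [hr, charDegree, h3, Complex.natCast_re, Nat.floor_natCast]
  rw [hdd] at h1 h2
  have hdφ : Module.finrank ℂ (Fin dφ → ℂ) = r := by
    rcases hrp.eq_one_or_self_of_dvd _ h1 with h3 | h3
    · rw [h3, Nat.div_one] at h2
      exact absurd h2 hrK
    · exact h3
  have hres : (fun n : K => (χ : G → ℂ) n) = (φ : K → ℂ) := by
    obtain ⟨x, y, hx, hy, -, hxy⟩ := degree_le_of_constituent
      (isCharacter_restrict (irr_isCharacter χ) K) φ.2 (by rw [hm]; exact_mod_cast hφ)
    refine hxy ?_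
    have e1 : (x : ℂ) = r := by
      rw [← hx]
      exact (Blocks.charDegree_eq χ.2).1
    have e2 : (y : ℂ) = r := by
      rw [← hy, ← hρe, Representation.char_one, hdφ]
    exact_mod_cast e1.trans e2.symm
  -- Gallagher
  have hinv1 : Chars2.inertiaSub (fun _ : K => (1 : ℂ)) = ⊤ :=
    Chars2.inertiaSub_eq_top fun g n => rfl
  have hinv2 : Chars2.inertiaSub (fun n : K => (χ : G → ℂ) n) = ⊤ :=
    Chars2.inertiaSub_eq_top fun g n => isClassFunction_irr χ (n : G) g
  have hprod : IsIrrCharacter K ((fun _ : K => (1 : ℂ)) * fun n : K => (χ : G → ℂ) n) := by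
    rw [show ((fun _ : K => (1 : ℂ)) * fun n : K => (χ : G → ℂ) n) = (φ : K → ℂ) by
      rw [← hres]; funext n; simp]
    exact φ.2
  have hβ : IsIrrCharacter G (fun g => (θ : G ⧸ K → ℂ) (f g)) :=
    isIrrCharacter_comp_surjective θ.2 f hf
  have hG := (Chars2.gallagher isIrrCharacter_one hinv1 hinv2 hprod χ.2 (fun n => rfl)).mapsTo
    (show (fun g => (θ : G ⧸ K → ℂ) (f g)) ∈ {β : G → ℂ | IsIrrCharacter G β ∧
      classInner (indFun K fun _ => (1 : ℂ)) β ≠ 0} from ⟨hβ, by
      rw [classInner_indFun K _ (isClassFunction_of_isCharacter (isCharacter_of_isIrr hβ))]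
      have e : (fun n : K => (θ : G ⧸ K → ℂ) (f n)) =
          fun _ => (θ : G ⧸ K → ℂ) 1 := funext fun n => congrArg (θ : G ⧸ K → ℂ)
            ((QuotientGroup.eq_one_iff (n : G)).2 n.2)
      rw [e, show (fun _ : K => (θ : G ⧸ K → ℂ) 1) = (θ : G ⧸ K → ℂ) 1 • fun _ => (1 : ℂ) by
        funext n; simp, classInner_smul_right, classInner_self_irr isIrrCharacter_one, mul_one]
      simpa using irr_apply_one_ne_zero θ.2⟩)
  have h5 := h ⟨_, hG.1⟩
  have hval : charDegree (fun g => (θ : G ⧸ K → ℂ) (f g) * (χ : G → ℂ) g) =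
      charDegree (θ : G ⧸ K → ℂ) * r := by
    show ⌊((θ : G ⧸ K → ℂ) (f 1) * (χ : G → ℂ) 1).re⌋₊ = _
    rw [map_one, (Blocks.charDegree_eq θ.2).1, (Blocks.charDegree_eq χ.2).1, ← Nat.cast_mul,
      Complex.natCast_re, Nat.floor_natCast]
  replace h5 : charDegree (θ : G ⧸ K → ℂ) * r ≠ 1 → (charDegree (θ : G ⧸ K → ℂ) * r).Prime := by
    rw [← hval]; exact h5
  refine Nat.not_prime_mul hθ hrp.ne_one (h5 fun h6 => hrp.ne_one ?_)
  exact (Nat.eq_one_of_mul_eq_one_left h6)

end Cfsg.Agent.Chars.PrimeDegThree
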