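import Cfsg.Agent.Chars2.RelativeM
import Cfsg.Agent.Chars2.Correspondence
import Cfsg.Agent.Chars2.Intertwiner
import Cfsg.Agent.Chars.Orth
import Cfsg.Agent.Chars.Eigen
import Cfsg.Agent.Chars.CoprimeFixedProduct
import Cfsg.Agent.Blocks.Orth
import Cfsg.Agent.OddLocal.NilBasics
import Mathlib.GroupTheory.Nilpotent
import Mathlib.GroupTheory.Sylow

/-!
Primitive characters of groups with a nilpotent normal subgroup of nilpotent quotient:
the degree divides a class size when at most two primes are involved.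
-/

set_option autoImplicit false
set_option linter.style.haveILetI false
set_option linter.unusedSectionVars false

namespace Cfsg.Agent.Chars.PrimitiveNil

open Cfsg Cfsg.Agent
open scoped ComplexConjugate commutatorElement

universe u

variable {G : Type u} [Group G] [Fintype G]

/-- Chief factors above a normal subgroup with nilpotent quotient have prime order. -/
theorem noSquareFactor_of_nilpotentQuotient (N : Subgroup G) [N.Normal]
    (hnil : Group.IsNilpotent (G ⧸ N)) : Chars2.NoSquareFactor N := by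
  intro H K L hNL hLK hKH hK hL hmin hsq
  let K' : Subgroup H := K.subgroupOf H
  let L' : Subgroup H := L.subgroupOf H
  have hLH : L ≤ H := hLK.le.trans hKH
  haveI : L'.Normal := ⟨fun x hx g => Subgroup.mem_subgroupOf.2 (by
    simpa using hL g g.2 x (Subgroup.mem_subgroupOf.1 hx))⟩
  haveI : K'.Normal := ⟨fun x hx g => Subgroup.mem_subgroupOf.2 (by
    simpa using hK g g.2 x (Subgroup.mem_subgroupOf.1 hx))⟩
  haveI hQ : Group.IsNilpotent (H ⧸ L') := by
    haveI := hnil
    let f : H →* G ⧸ N := (QuotientGroup.mk' N).comp H.subtype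
    haveI : Group.IsNilpotent f.range := inferInstance
    haveI : Group.IsNilpotent (H ⧸ f.ker) :=
      Group.nilpotent_of_mulEquiv (QuotientGroup.quotientKerEquivRange f).symm
    have hle : f.ker ≤ L' := fun x hx => Subgroup.mem_subgroupOf.2 (hNL (by
      simpa [f] using hx))
    exact Group.nilpotent_of_surjective (QuotientGroup.map f.ker L' (MonoidHom.id H) hle)
      (QuotientGroup.map_surjective_of_surjective f.ker L' (MonoidHom.id H)
        (QuotientGroup.mk'_surjective L') hle)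
  set M := K'.map (QuotientGroup.mk' L') with hM
  haveI : M.Normal := Subgroup.Normal.map inferInstance _ (QuotientGroup.mk'_surjective L')
  have hMne : M ≠ ⊥ := fun h => by
    rw [hM, Subgroup.map_eq_bot_iff, QuotientGroup.ker_mk'] at h
    exact hLK.not_ge fun x hx => Subgroup.mem_subgroupOf.1
      (h (show (⟨x, hKH hx⟩ : H) ∈ K' from hx))
  obtain ⟨x, hxM, hx1, hxc⟩ := OddLocal.exists_ne_one_mem_center_of_normal M hMne
  obtain ⟨q, hq, hqx⟩ := Nat.exists_prime_and_dvd (mt orderOf_eq_one_iff.1 hx1)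
  set z := x ^ (orderOf x / q) with hz
  have hzord : orderOf z = q := orderOf_pow_orderOf_div (orderOf_pos x).ne' hqx
  set Z := Subgroup.zpowers z with hZ
  have hZc : Z ≤ Subgroup.center (H ⧸ L') := Subgroup.zpowers_le.2 (pow_mem hxc _)
  have hZM : Z ≤ M := Subgroup.zpowers_le.2 (pow_mem hxM _)
  haveI : Z.Normal := ⟨fun y hy g => by
    rwa [Subgroup.mem_center_iff.1 (hZc hy) g, mul_inv_cancel_right]⟩
  have hZcard : Nat.card Z = q := by rw [hZ, Nat.card_zpowers, hzord]
  set W := Z.comap (QuotientGroup.mk' L') with hW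
  have hWK : W ≤ K' := fun y hy => by
    obtain ⟨w, hw, hwy⟩ := hZM hy
    have h1 : w⁻¹ * y ∈ L' := QuotientGroup.eq.1 hwy
    have h2 : w⁻¹ * y ∈ K' := Subgroup.comap_mono hLK.le h1
    simpa using K'.mul_mem hw h2
  have hLW : L' ≤ W := fun y hy => by
    rw [hW, Subgroup.mem_comap, QuotientGroup.mk'_apply, (QuotientGroup.eq_one_iff y).2 hy]
    exact Z.one_mem
  rcases hmin (W.map H.subtype)
      (fun l hl => ⟨⟨l, hLH hl⟩, hLW (Subgroup.mem_subgroupOf.2 hl), rfl⟩)
      (fun y hy => by obtain ⟨w, hw, rfl⟩ := hy; exact Subgroup.mem_subgroupOf.1 (hWK hw))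
      (fun h hh m hm => by
        obtain ⟨y, hy, rfl⟩ := hm
        refine ⟨⟨h, hh⟩ * y * ⟨h, hh⟩⁻¹, ?_, by simp⟩
        exact (Subgroup.Normal.comap (inferInstance : Z.Normal) (QuotientGroup.mk' L')).conj_mem y hy _) with e | e
  · have h1 : W.map H.subtype = L'.map H.subtype := by
      rw [e, Subgroup.subgroupOf_map_subtype, inf_eq_left.2 hLH]
    have h2 : W = L' := Subgroup.map_injective H.subtype_injective h1
    have h3 : Z = ⊥ := by
      rw [← Subgroup.map_comap_eq_self_of_surjective (QuotientGroup.mk'_surjective L') Z, ← hW, h2,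
        QuotientGroup.map_mk'_self]
    rw [h3, Subgroup.card_bot] at hZcard
    exact hq.ne_one hZcard.symm
  · have h1 : W.map H.subtype = K'.map H.subtype := by
      rw [e, Subgroup.subgroupOf_map_subtype, inf_eq_left.2 hKH]
    have h2 : W = K' := Subgroup.map_injective H.subtype_injective h1
    have h3 : L.relIndex K = q := by
      refine (Subgroup.relIndex_subgroupOf (H := L) (L := H) hKH).symm.trans ?_
      show L'.relIndex K' = q
      rw [← h2]
      have h4 : L'.relIndex W * W.index = L'.index := Subgroup.relIndex_mul_index hLW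
      have h5 : W.index = Z.index := Subgroup.index_comap_of_surjective Z (QuotientGroup.mk'_surjective L')
      have h6 : Nat.card Z * Z.index = L'.index := by
        rw [Z.card_mul_index, ← Subgroup.index_eq_card]
      rw [h5, ← h6, hZcard] at h4
      exact Nat.eq_of_mul_eq_mul_right (Nat.pos_of_ne_zero Subgroup.index_ne_zero_of_finite) h4
    rw [h3] at hsq
    exact hq.prime.not_isSquare hsq

variable {n : ℕ} (ρ : Representation ℂ G (Fin n → ℂ))

/-- The elements represented by scalars. -/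
def scalarSub : Subgroup G where
  carrier := {x | ∃ c : ℂ, ρ x = c • (1 : Module.End ℂ (Fin n → ℂ))}
  one_mem' := ⟨1, by rw [map_one, one_smul]⟩
  mul_mem' {x y} := by
    rintro ⟨c, hc⟩ ⟨d, hd⟩
    exact ⟨c * d, by rw [map_mul, hc, hd, smul_mul_smul_comm, one_mul]⟩
  inv_mem' {x} := by
    rintro ⟨c, hc⟩
    refine ⟨c⁻¹, ?_⟩
    have h1 : c • ρ x⁻¹ = 1 := by
      rw [← mul_one (ρ x⁻¹), ← mul_smul_comm, ← hc, ← map_mul, inv_mul_cancel, map_one]
    rcases eq_or_ne c 0 with rfl | h0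
    · rw [zero_smul] at h1
      rw [inv_zero, zero_smul, ← mul_one (ρ x⁻¹), ← h1, mul_zero]
    · calc ρ x⁻¹ = c⁻¹ • (c • ρ x⁻¹) := (inv_smul_smul₀ h0 _).symm
        _ = _ := by rw [h1]

theorem mem_scalarSub {x : G} :
    x ∈ scalarSub ρ ↔ ∃ c : ℂ, ρ x = c • (1 : Module.End ℂ (Fin n → ℂ)) := Iff.rfl

theorem scalar_commute {x : G} (hx : x ∈ scalarSub ρ) (g : G) : ρ x * ρ g = ρ g * ρ x := by
  obtain ⟨c, hc⟩ := hx
  rw [hc, smul_mul_assoc, one_mul, mul_smul_comm, mul_one]

instance scalarSub_normal : (scalarSub ρ).Normal := ⟨fun x hx g => by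
  obtain ⟨c, hc⟩ := hx
  refine ⟨c, ?_⟩
  rw [map_mul, map_mul, hc, mul_smul_comm, mul_one, smul_mul_assoc, ← map_mul, mul_inv_cancel,
    map_one]⟩

/-- A primitive character is scalar on every normal subgroup with commutative image. -/
theorem le_scalarSub [ρ.IsIrreducible]
    (hprim : ¬ ∃ H : Subgroup G, H ≠ ⊤ ∧ ∃ θ : H → ℂ, IsCharacter H θ ∧ indFun H θ = ρ.character)
    (A : Subgroup G) [A.Normal] (hab : ∀ a ∈ A, ∀ b ∈ A, ρ a * ρ b = ρ b * ρ a) :
    A ≤ scalarSub ρ := by
  classical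
  haveI : Fintype A := Fintype.ofFinite _
  have hχ := Chars.isIrrCharacter_of_rep ρ
  have hres : IsCharacter A (fun a : A => ρ.character a) :=
    Chars.isCharacter_restrict (Chars.isCharacter_of_rep ρ) A
  obtain ⟨c, hc⟩ := Chars2.exists_multiplicities hres
  obtain ⟨θ, hθ⟩ : ∃ θ, c θ ≠ 0 := by
    by_contra hall
    push Not at hall
    have h := Chars2.apply_eq_sum (Chars.isClassFunction_of_isCharacter hres) 1
    simp only [hc, hall, Nat.cast_zero, zero_mul, Finset.sum_const_zero, OneMemClass.coe_one] at h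
    exact Chars.irr_apply_one_ne_zero hχ h
  have hcon : classInner (fun a : A => ρ.character a) (θ : A → ℂ) ≠ 0 := by
    rw [hc]; exact_mod_cast hθ
  have hinv : Chars2.inertiaSub (θ : A → ℂ) = ⊤ := by
    by_contra hne
    obtain ⟨ψ, hψ, hind, -⟩ := Chars2.exists_correspondent
      (Chars2.le_inertiaSub (Chars.isClassFunction_irr θ)) θ.2 rfl hχ hcon
    exact hprim ⟨_, hne, ψ, Chars.isCharacter_of_isIrr hψ, hind⟩
  have hval : ∀ a : A, ρ.character a = (c θ : ℂ) * (θ : A → ℂ) a := fun a => by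
    rw [Chars2.clifford_invariant hχ θ.2 hinv hcon a, hc]
  have hm : (c θ : ℂ) ≠ 0 := by exact_mod_cast hθ
  intro a ha
  rw [mem_scalarSub, ← Chars.rep_norm_char_eq_iff]
  obtain ⟨d, σ, hσ, hσc⟩ := θ.2
  haveI := hσ
  have hone : ∀ b : A, ρ (b : G) = 1 → σ b = 1 := by
    intro b hb
    rw [← Chars.rep_char_eq_finrank_iff] at hb ⊢
    have h1 := hval b
    have h2 := hval 1
    rw [OneMemClass.coe_one, Representation.char_one] at h2
    rw [hb, h2, ← hσc] at h1
    rw [← Representation.char_one σ]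
    exact (mul_left_cancel₀ hm h1).symm
  obtain ⟨e, he⟩ := Chars2.scalar_of_commute σ (σ ⟨a, ha⟩) fun b => by
    have h1 := hone (b * ⟨a, ha⟩ * b⁻¹ * ⟨a, ha⟩⁻¹) (by
      simp only [Subgroup.coe_mul, InvMemClass.coe_inv, map_mul]
      rw [hab (b : G) b.2 a ha, mul_assoc (ρ a), ← map_mul, mul_inv_cancel, map_one, mul_one,
        ← map_mul, mul_inv_cancel, map_one])
    calc σ ⟨a, ha⟩ * σ b = σ (b * ⟨a, ha⟩ * b⁻¹ * ⟨a, ha⟩⁻¹) * (σ ⟨a, ha⟩ * σ b) := by
          rw [h1, one_mul]
      _ = σ b * σ ⟨a, ha⟩ := by rw [← map_mul, ← map_mul, ← map_mul]; congr 1; group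
  have hnorm : ‖σ.character ⟨a, ha⟩‖ = (Module.finrank ℂ (Fin d → ℂ) : ℝ) :=
    (Chars.rep_norm_char_eq_iff σ _).2 ⟨e, by rw [he, Algebra.algebraMap_eq_smul_one]⟩
  have h2 := hval 1
  rw [OneMemClass.coe_one, Representation.char_one, ← hσc, Representation.char_one] at h2
  rw [hval ⟨a, ha⟩, ← hσc, norm_mul, hnorm, Complex.norm_natCast]
  exact_mod_cast h2.symm

/-- In the primitive case a nilpotent normal subgroup has scalar commutators. -/
theorem commutator_le_scalarSub [ρ.IsIrreducible]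
    (hprim : ¬ ∃ H : Subgroup G, H ≠ ⊤ ∧ ∃ θ : H → ℂ, IsCharacter H θ ∧ indFun H θ = ρ.character)
    (F : Subgroup G) [F.Normal] (hF : Group.IsNilpotent F) : ⁅F, F⁆ ≤ scalarSub ρ := by
  obtain ⟨N, hN⟩ := (Subgroup.isNilpotent_iff_lowerCentralSeries F).1 hF
  have hnorm : ∀ i, (F.lowerCentralSeries i).Normal := by
    intro i
    induction i with
    | zero => simpa using ‹F.Normal›
    | succ i ih => rw [Subgroup.lowerCentralSeries_succ]; infer_instance
  have hstep : ∀ i, 1 ≤ i → F.lowerCentralSeries (i + 1) ≤ scalarSub ρ →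
      F.lowerCentralSeries i ≤ scalarSub ρ := by
    intro i hi hnext
    haveI := hnorm i
    refine le_scalarSub ρ hprim _ ?_
    intro a ha b hb
    have hsc : ∀ x ∈ F, ∃ c : ℂ, ρ (x * a) = c • ρ (a * x) := by
      intro x hx
      have hm : ⁅x, a⁆ ∈ scalarSub ρ := hnext (by
        rw [Subgroup.lowerCentralSeries_succ, Subgroup.commutator_comm]
        exact Subgroup.commutator_mem_commutator hx ha)
      obtain ⟨c, hc⟩ := hm
      refine ⟨c, ?_⟩
      rw [show x * a = ⁅x, a⁆ * (a * x) by rw [commutatorElement_def]; group, map_mul, hc,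
        smul_mul_assoc, one_mul]
    let S : Subgroup G :=
      { carrier := {g | ρ (g * a) = ρ (a * g)}
        one_mem' := by simp
        mul_mem' := fun {x y} hx hy => by
          show ρ (x * y * a) = ρ (a * (x * y))
          rw [mul_assoc, map_mul, show ρ (y * a) = ρ (a * y) from hy, ← map_mul, ← mul_assoc,
            map_mul, show ρ (x * a) = ρ (a * x) from hx, ← map_mul, mul_assoc]
        inv_mem' := fun {x} hx => by
          show ρ (x⁻¹ * a) = ρ (a * x⁻¹)
          rw [show x⁻¹ * a = x⁻¹ * (a * x) * x⁻¹ by group, map_mul, map_mul,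
            ← show ρ (x * a) = ρ (a * x) from hx, ← map_mul, ← map_mul]
          congr 1
          group }
    have hcom : ⁅F, F⁆ ≤ S := by
      rw [Subgroup.commutator_le]
      intro x hx y hy
      obtain ⟨c₁, h1⟩ := hsc x hx
      obtain ⟨c₂, h2⟩ := hsc y hy
      obtain ⟨d₁, h1'⟩ := hsc x⁻¹ (F.inv_mem hx)
      obtain ⟨d₂, h2'⟩ := hsc y⁻¹ (F.inv_mem hy)
      have key : ∀ (p q : G) (s t : ℂ), ρ (p * a) = s • ρ (a * p) → ρ (q * a) = t • ρ (a * q) →
          ρ (p * q * a) = (t * s) • ρ (a * (p * q)) := by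
        intro p q s t hp hq
        rw [mul_assoc, map_mul, hq, mul_smul_comm, ← map_mul, ← mul_assoc, map_mul, hp,
          smul_mul_assoc, smul_smul, ← map_mul, mul_assoc]
      have hxi : c₁ * d₁ = 1 ∨ n = 0 := by
        have h := key x⁻¹ x d₁ c₁ h1' h1
        simp only [inv_mul_cancel, one_mul, mul_one] at h
        by_cases hn : n = 0
        · exact Or.inr hn
        left
        haveI : Nonempty (Fin n) := ⟨⟨0, Nat.pos_of_ne_zero hn⟩⟩
        have h' := congrArg (fun T => T * ρ a⁻¹) h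
        simp only [smul_mul_assoc, ← map_mul, mul_inv_cancel, map_one] at h'
        have h'' := congrFun (LinearMap.congr_fun h' (fun _ => (1 : ℂ))) ⟨0, Nat.pos_of_ne_zero hn⟩
        simpa using h''.symm
      have hyi : c₂ * d₂ = 1 ∨ n = 0 := by
        have h := key y⁻¹ y d₂ c₂ h2' h2
        simp only [inv_mul_cancel, one_mul, mul_one] at h
        by_cases hn : n = 0
        · exact Or.inr hn
        left
        haveI : Nonempty (Fin n) := ⟨⟨0, Nat.pos_of_ne_zero hn⟩⟩
        have h' := congrArg (fun T => T * ρ a⁻¹) h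
        simp only [smul_mul_assoc, ← map_mul, mul_inv_cancel, map_one] at h'
        have h'' := congrFun (LinearMap.congr_fun h' (fun _ => (1 : ℂ))) ⟨0, Nat.pos_of_ne_zero hn⟩
        simpa using h''.symm
      show ρ (⁅x, y⁆ * a) = ρ (a * ⁅x, y⁆)
      rcases hxi with hxi | hn
      · rcases hyi with hyi | hn
        · rw [commutatorElement_def, key _ _ _ _ (key _ _ _ _ (key _ _ _ _ h1 h2) h1') h2',
            show d₂ * (d₁ * (c₂ * c₁)) = (c₁ * d₁) * (c₂ * d₂) by ring, hxi, hyi, one_mul, one_smul]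
        · subst hn; exact LinearMap.ext fun v => Subsingleton.elim _ _
      · subst hn; exact LinearMap.ext fun v => Subsingleton.elim _ _
    have hb' : b ∈ ⁅F, F⁆ := by
      have := Subgroup.lowerCentralSeries_antitone F hi hb
      simpa using this
    have h3 : ρ (b * a) = ρ (a * b) := hcom hb'
    rw [← map_mul, ← map_mul, h3]
  have hbot : ∀ k i, 1 ≤ i → N ≤ i + k → F.lowerCentralSeries i ≤ scalarSub ρ := by
    intro k
    induction k with
    | zero =>
      intro i _ hNi
      calc F.lowerCentralSeries i ≤ F.lowerCentralSeries N :=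
            Subgroup.lowerCentralSeries_antitone F (by omega)
        _ ≤ scalarSub ρ := by rw [hN]; exact bot_le
    | succ k ih => exact fun i hi hNi => hstep i hi (ih (i + 1) (by omega) (by omega))
  simpa using hbot N 1 le_rfl (by omega)

/-- The degree equation `χ(1)² = |F : F ∩ Z(χ)|`. -/
theorem sq_eq_index [ρ.IsIrreducible] (F : Subgroup G)
    (hcomm : ⁅F, F⁆ ≤ scalarSub ρ)
    (hirr : IsIrrCharacter F (fun f : F => ρ.character f)) :
    n * n * Nat.card ↥(F ⊓ scalarSub ρ) = Nat.card F := by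
  classical
  haveI : Fintype F := Fintype.ofFinite _
  haveI : Representation.IsIrreducible (ρ.comp F.subtype) :=
    Chars.isIrreducible_of_character _ hirr
  have hvan : ∀ x ∈ F, x ∉ scalarSub ρ → ρ.character x = 0 := by
    intro x hx hxs
    by_contra hne
    refine hxs ?_
    obtain ⟨c, hc⟩ := Chars2.scalar_of_commute (ρ.comp F.subtype) (ρ x) fun y => by
      show ρ x * ρ (y : G) = ρ (y : G) * ρ x
      obtain ⟨e, he⟩ := hcomm (Subgroup.commutator_mem_commutator y.2 hx)
      have h1 : ρ ((y : G) * x) = e • ρ (x * y) := by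
        rw [show (y : G) * x = ⁅(y : G), x⁆ * (x * y) by rw [commutatorElement_def]; group,
          map_mul, he, smul_mul_assoc, one_mul]
      have h2 : ρ.character x = e * ρ.character x := by
        conv_lhs => rw [← Representation.char_conj ρ x (y : G)]
        show LinearMap.trace ℂ _ (ρ ((y : G) * x * (y : G)⁻¹)) = _
        rw [map_mul, h1, smul_mul_assoc, ← map_mul, mul_inv_cancel_right, map_smul, smul_eq_mul]
        rfl
      have he1 : e = 1 := by
        by_contra he1
        exact hne (mul_left_cancel₀ (sub_ne_zero.2 he1) (by rw [sub_mul, one_mul, ← h2, sub_self, mul_zero]))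
      rw [he1, one_smul] at h1
      rw [← map_mul, ← map_mul, h1]
    exact ⟨c, by rw [hc, Algebra.algebraMap_eq_smul_one]⟩
  have hone := Chars.classInner_self_irr hirr
  rw [Chars.classInner_def] at hone
  have hterm : ∀ f : F, ρ.character f * conj (ρ.character f) =
      if (f : G) ∈ scalarSub ρ then ((n : ℂ) * n) else 0 := by
    intro f
    split_ifs with hf
    · have h1 := (Chars.rep_norm_char_eq_iff ρ (f : G)).2 hf
      rw [Module.finrank_fin_fun] at h1
      rw [Complex.mul_conj', h1]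
      push_cast
      ring
    · rw [hvan f f.2 hf, zero_mul]
  simp only [hterm] at hone
  rw [← Finset.sum_filter, Finset.sum_const, nsmul_eq_mul] at hone
  have hcard : (Finset.univ.filter fun f : F => (f : G) ∈ scalarSub ρ).card =
      Nat.card ↥(F ⊓ scalarSub ρ) := by
    rw [← Fintype.card_subtype, ← Nat.card_eq_fintype_card]
    exact Nat.card_congr
      { toFun := fun f => ⟨f.1, f.1.2, f.2⟩
        invFun := fun f => ⟨⟨f.1, f.2.1⟩, f.2.2⟩
        left_inv := fun f => rfl
        right_inv := fun f => rfl }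
  rw [hcard] at hone
  have hF0 : (Nat.card F : ℂ) ≠ 0 := Nat.cast_ne_zero.2 Nat.card_pos.ne'
  field_simp at hone
  have h := congrArg Complex.re hone
  have hnat : ((n * n * Nat.card ↥(F ⊓ scalarSub ρ) : ℕ) : ℂ) = (Nat.card F : ℂ) := by
    push_cast
    linear_combination hone
  exact_mod_cast hnat

section quotientPart

variable {Q : Type u} [Group Q] [Finite Q]

/-- An element of `R` fixing at most `√|U|` points of the abelian normal `p`-subgroup `U`. -/
theorem exists_small_centralizer {r : ℕ} [Fact r.Prime] (U R : Subgroup Q) [U.Normal]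
    (hUab : ∀ a ∈ U, ∀ b ∈ U, a * b = b * a) (hR : IsPGroup r R)
    (hcop : (Nat.card U).Coprime r) (hfix : U ⊓ Subgroup.centralizer (R : Set Q) = ⊥) :
    ∃ a ∈ R, Nat.card ↥(U ⊓ Subgroup.centralizer ({a} : Set Q)) ^ 2 ≤ Nat.card U := by
  classical
  letI : CommGroup U := { (inferInstance : Group U) with
    mul_comm := fun a b => Subtype.ext (hUab a a.2 b b.2) }
  let ρ : R →* AddMonoid.End (Additive U) :=
    { toFun := fun a => MonoidHom.toAdditive (MulAut.conjNormal (a : Q) : MulAut U).toMonoidHom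
      map_one' := AddMonoidHom.ext fun x => by
        show Additive.ofMul (MulAut.conjNormal (((1 : R) : Q)) (Additive.toMul x)) = x
        simp
      map_mul' := fun a b => AddMonoidHom.ext fun x => by
        show Additive.ofMul (MulAut.conjNormal (((a * b : R) : Q)) (Additive.toMul x)) =
          Additive.ofMul (MulAut.conjNormal (a : Q) (MulAut.conjNormal (b : Q) (Additive.toMul x)))
        rw [Subgroup.coe_mul, map_mul, MulAut.mul_apply] }
  have hρ : ∀ (a : R) (u : Additive U),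
      ρ a u = u ↔ (a : Q) * ((Additive.toMul u : U) : Q) = ((Additive.toMul u : U) : Q) * a := by
    intro a u
    show Additive.ofMul (MulAut.conjNormal (a : Q) (Additive.toMul u)) = u ↔ _
    rw [← Additive.toMul.injective.eq_iff, toMul_ofMul, ← Subtype.coe_injective.eq_iff,
      MulAut.conjNormal_apply, mul_inv_eq_iff_eq_mul]
  obtain ⟨a, ha⟩ := FixedProduct.exists_card_fixd_sq_le (r := r) hR ρ
    (by rwa [Nat.card_congr Additive.toMul]) (fun v hv => by
      have h : ((Additive.toMul v : U) : Q) ∈ U ⊓ Subgroup.centralizer (R : Set Q) := by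
        refine ⟨(Additive.toMul v : U).2, Subgroup.mem_centralizer_iff.2 fun x hx => ?_⟩
        exact (hρ ⟨x, hx⟩ v).1 (hv _)
      rw [hfix, Subgroup.mem_bot] at h
      exact Additive.toMul.injective (Subtype.ext h))
  refine ⟨a, a.2, le_of_eq_of_le ?_ (ha.trans (le_of_eq (Nat.card_congr Additive.toMul)))⟩
  congr 1
  refine Nat.card_congr
    { toFun := fun u => ⟨Additive.ofMul ⟨(u : Q), u.2.1⟩, (hρ a _).2
        (Subgroup.mem_centralizer_iff.1 u.2.2 _ rfl)⟩
      invFun := fun v => ⟨((Additive.toMul (v : Additive U) : U) : Q),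
        (Additive.toMul (v : Additive U) : U).2,
        Subgroup.mem_centralizer_iff.2 fun y hy => by
          rw [Set.mem_singleton_iff.1 hy]; exact (hρ a _).1 v.2⟩
      left_inv := fun u => rfl
      right_inv := fun v => rfl }

/-- Sylow subgroups become normal in a nilpotent quotient. -/
theorem map_sylow_normal (Fb : Subgroup Q) [Fb.Normal] (hnil : Group.IsNilpotent (Q ⧸ Fb))
    {r : ℕ} [Fact r.Prime] (R : Sylow r Q) :
    ((R : Subgroup Q).map (QuotientGroup.mk' Fb)).Normal := by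
  have h : ((R.mapSurjective (QuotientGroup.mk'_surjective Fb) : Sylow r (Q ⧸ Fb)) :
      Subgroup (Q ⧸ Fb)).Normal := by
    haveI := hnil
    exact ((Group.isNilpotent_of_finite_tfae (G := Q ⧸ Fb)).out 0 3 rfl rfl).1 hnil r inferInstance _
  simpa using h

/-- Everything is generated by a `p`- and a `q`-Sylow subgroup when only these primes occur. -/
theorem eq_top_of_two_sylows {p q : ℕ} [Fact p.Prime] [Fact q.Prime] (hpq : p ≠ q)
    (hprimes : ∀ l : ℕ, l.Prime → l ∣ Nat.card Q → l = p ∨ l = q)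
    (P : Sylow p Q) (R : Sylow q Q) (H : Subgroup Q) (hP : (P : Subgroup Q) ≤ H)
    (hR : (R : Subgroup Q) ≤ H) : H = ⊤ := by
  rw [← Subgroup.index_eq_one]
  by_contra hne
  obtain ⟨l, hl, hdvd⟩ := Nat.exists_prime_and_dvd hne
  rcases hprimes l hl (hdvd.trans H.index_dvd_card) with rfl | rfl
  · exact P.not_dvd_index (hdvd.trans (Subgroup.index_dvd_of_le hP))
  · exact R.not_dvd_index (hdvd.trans (Subgroup.index_dvd_of_le hR))

/-- For each of the two primes, an element of the other Sylow subgroup with small centralizer. -/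
theorem exists_small_element (Fb U : Subgroup Q) [Fb.Normal] [U.Normal]
    (hab : ∀ a ∈ Fb, ∀ b ∈ Fb, a * b = b * a) (hz : Fb ⊓ Subgroup.center Q = ⊥)
    (hnil : Group.IsNilpotent (Q ⧸ Fb)) {p q : ℕ} [Fact p.Prime] [Fact q.Prime] (hpq : p ≠ q)
    (hprimes : ∀ l : ℕ, l.Prime → l ∣ Nat.card Q → l = p ∨ l = q)
    (hUF : U ≤ Fb) (hU : IsPGroup p U) (R : Sylow q Q) :
    ∃ a ∈ (R : Subgroup Q), Nat.card ↥(U ⊓ Subgroup.centralizer ({a} : Set Q)) ^ 2 ≤ Nat.card U := by
  refine exists_small_centralizer U R (fun a ha b hb => hab a (hUF ha) b (hUF hb)) R.2 ?_ ?_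
  · obtain ⟨m, hm⟩ := IsPGroup.iff_card.1 hU
    rw [hm]
    exact ((Nat.coprime_primes Fact.out Fact.out).2 hpq).pow_left m
  set W := U ⊓ Subgroup.centralizer (R : Set Q) with hW
  by_contra hne
  haveI hWn : W.Normal := ⟨fun w hw g => ⟨‹U.Normal›.conj_mem w hw.1 g,
    Subgroup.mem_centralizer_iff.2 fun r hr => by
      have h1 : g⁻¹ * r * g⁻¹⁻¹ ∈ ((R : Subgroup Q).map (QuotientGroup.mk' Fb)).comap
          (QuotientGroup.mk' Fb) :=
        (Subgroup.Normal.comap (map_sylow_normal Fb hnil R) (QuotientGroup.mk' Fb)).conj_mem r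
          ⟨r, hr, rfl⟩ g⁻¹
      rw [Subgroup.comap_map_eq, QuotientGroup.ker_mk', Subgroup.mem_sup_of_normal_right] at h1
      obtain ⟨r', hr', f, hf, he⟩ := h1
      have h2 : g⁻¹ * r * g * w = w * (g⁻¹ * r * g) := by
        rw [show g⁻¹ * r * g = r' * f by rw [he, inv_inv], mul_assoc, hab f hf w (hUF hw.1),
          ← mul_assoc, Subgroup.mem_centralizer_iff.1 hw.2 r' hr', mul_assoc]
      calc r * (g * w * g⁻¹) = g * (g⁻¹ * r * g * w) * g⁻¹ := by group
        _ = g * (w * (g⁻¹ * r * g)) * g⁻¹ := by rw [h2]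
        _ = g * w * g⁻¹ * r := by group⟩⟩
  obtain ⟨P⟩ : Nonempty (Sylow p Q) := inferInstance
  have hWp : IsPGroup p W := hU.to_le inf_le_left
  have hWP : W ≤ P := by
    obtain ⟨P', hP'⟩ := hWp.exists_le_sylow
    obtain ⟨g, hg⟩ := MulAction.exists_smul_eq Q P' P
    intro w hw
    have h1 : g⁻¹ * w * g⁻¹⁻¹ ∈ (P' : Subgroup Q) := hP' (hWn.conj_mem w hw g⁻¹)
    rw [← hg]
    refine ⟨g⁻¹ * w * g⁻¹⁻¹, h1, ?_⟩
    simp [mul_assoc]
  haveI : Group.IsNilpotent P := P.2.isNilpotent
  have hWne : W.subgroupOf (P : Subgroup Q) ≠ ⊥ := fun h => hne (by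
    rw [Subgroup.subgroupOf_eq_bot] at h
    exact disjoint_self.1 (h.mono_right hWP))
  haveI : (W.subgroupOf (P : Subgroup Q)).Normal := hWn.comap _
  obtain ⟨x, hxW, hx1, hxc⟩ := OddLocal.exists_ne_one_mem_center_of_normal _ hWne
  have hxW' : (x : Q) ∈ W := Subgroup.mem_subgroupOf.1 hxW
  have hcent : (x : Q) ∈ Subgroup.center Q := by
    have htop := eq_top_of_two_sylows hpq hprimes P R (Subgroup.centralizer ({(x : Q)} : Set Q))
      (fun y hy => Subgroup.mem_centralizer_iff.2 fun z hz => by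
        rw [Set.mem_singleton_iff.1 hz]
        exact (congrArg Subtype.val (Subgroup.mem_center_iff.1 hxc ⟨y, hy⟩)).symm)
      (fun y hy => Subgroup.mem_centralizer_iff.2 fun z hz => by
        rw [Set.mem_singleton_iff.1 hz]
        exact (Subgroup.mem_centralizer_iff.1 hxW'.2 y hy).symm)
    exact Subgroup.mem_center_iff.2 fun g => (Subgroup.mem_centralizer_iff.1
      (htop ▸ Subgroup.mem_top g : g ∈ Subgroup.centralizer ({(x : Q)} : Set Q)) _ rfl).symm
  have hx0 : (x : Q) ∈ Fb ⊓ Subgroup.center Q := ⟨hUF hxW'.1, hcent⟩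
  rw [hz, Subgroup.mem_bot] at hx0
  exact hx1 (Subtype.ext hx0)

/-- A product of commuting coprime parts centralizes no more than each part. -/
theorem centralizer_mul_le (Fb U : Subgroup Q) [Fb.Normal] (hab : ∀ a ∈ Fb, ∀ b ∈ Fb, a * b = b * a)
    (hUF : U ≤ Fb) {p q : ℕ} [Fact p.Prime] [Fact q.Prime] (hpq : p ≠ q) {a b : Q}
    (ha : ∃ i, a ^ q ^ i = 1) (hb : ∃ j, b ^ p ^ j = 1)
    (hcomm : (QuotientGroup.mk a : Q ⧸ Fb) * QuotientGroup.mk b =
      QuotientGroup.mk b * QuotientGroup.mk a) :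
    U ⊓ Subgroup.centralizer ({a * b} : Set Q) ≤ U ⊓ Subgroup.centralizer ({a} : Set Q) := by
  obtain ⟨i, hi⟩ := ha
  obtain ⟨j, hj⟩ := hb
  intro u hu
  refine ⟨hu.1, Subgroup.mem_centralizer_iff.2 fun z hz => ?_⟩
  rw [Set.mem_singleton_iff.1 hz]
  have h0 : Commute (a * b) u := Subgroup.mem_centralizer_iff.1 hu.2 _ rfl
  have hbq : (QuotientGroup.mk b : Q ⧸ Fb) ^ p ^ j = 1 := by
    rw [← QuotientGroup.mk_pow, hj, QuotientGroup.mk_one]
  have hf : (a ^ p ^ j)⁻¹ * (a * b) ^ p ^ j ∈ Fb := by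
    rw [← QuotientGroup.eq_one_iff, QuotientGroup.mk_mul, QuotientGroup.mk_inv, QuotientGroup.mk_pow,
      QuotientGroup.mk_pow, QuotientGroup.mk_mul, Commute.mul_pow hcomm, hbq, mul_one, inv_mul_cancel]
  have h1 : Commute (a ^ p ^ j) u := by
    have h2 : Commute ((a * b) ^ p ^ j * ((a ^ p ^ j)⁻¹ * (a * b) ^ p ^ j)⁻¹) u :=
      (h0.pow_left _).mul_left (Commute.inv_left (hab _ hf u (hUF hu.1)))
    simpa [mul_assoc] using h2
  have hcop : (p ^ j).Coprime (orderOf a) :=
    Nat.Coprime.coprime_dvd_right (orderOf_dvd_of_pow_eq_one hi)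
      (((Nat.coprime_primes Fact.out Fact.out).2 hpq).pow j i)
  obtain ⟨m, hm⟩ := exists_pow_eq_self_of_coprime hcop
  rw [← hm]
  exact h1.pow_left m

/-- The `p`-part of a subgroup of an abelian group with small `p`-centralizer. -/
theorem factorization_le_of_small (Fb U : Subgroup Q) {p : ℕ} [Fact p.Prime] {n : ℕ} (hn : n ≠ 0)
    (hcard : Nat.card Fb = n * n) (hUF : U ≤ Fb) (hU : IsPGroup p U)
    (hUmax : ∀ x ∈ Fb, (∃ k, x ^ p ^ k = 1) → x ∈ U) (g : Q)
    (hsmall : Nat.card ↥(U ⊓ Subgroup.centralizer ({g} : Set Q)) ^ 2 ≤ Nat.card U) :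
    (Nat.card ↥(Fb ⊓ Subgroup.centralizer ({g} : Set Q))).factorization p ≤ n.factorization p := by
  have hp : p.Prime := Fact.out
  obtain ⟨S⟩ : Nonempty (Sylow p ↥(Fb ⊓ Subgroup.centralizer ({g} : Set Q))) := inferInstance
  have hle : Nat.card S ≤ Nat.card ↥(U ⊓ Subgroup.centralizer ({g} : Set Q)) := by
    refine Nat.card_le_card_of_injective (fun x => ⟨((x : ↥(Fb ⊓ Subgroup.centralizer ({g} : Set Q))) : Q), hUmax ((x : ↥(Fb ⊓ Subgroup.centralizer ({g} : Set Q))) : Q) (x.1.2).1 ?_, (x.1.2).2⟩)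
      (fun x y h => Subtype.ext (Subtype.ext ?_))
    · obtain ⟨k, hk⟩ := S.2 x
      refine ⟨k, ?_⟩
      have hk' := congrArg (fun z : ↥(S : Subgroup ↥(Fb ⊓ Subgroup.centralizer ({g} : Set Q))) =>
        ((z : ↥(Fb ⊓ Subgroup.centralizer ({g} : Set Q))) : Q)) hk
      simpa using hk'
    · exact congrArg (fun z : ↥(U ⊓ Subgroup.centralizer ({g} : Set Q)) => (z : Q)) h
  rw [S.card_eq_multiplicity] at hle
  obtain ⟨m, hm⟩ := IsPGroup.iff_card.1 hU
  have hm2 : m ≤ 2 * n.factorization p := by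
    have h1 : p ^ m ∣ n * n := hm ▸ hcard ▸ Subgroup.card_dvd_of_le hUF
    have h2 := (hp.pow_dvd_iff_le_factorization (Nat.mul_ne_zero hn hn)).1 h1
    rw [Nat.factorization_mul hn hn, Finsupp.add_apply] at h2
    omega
  have h3 : p ^ ((Nat.card ↥(Fb ⊓ Subgroup.centralizer ({g} : Set Q))).factorization p * 2) ≤
      p ^ (2 * n.factorization p) := by
    rw [pow_mul]
    exact ((Nat.pow_le_pow_left hle 2).trans hsmall).trans
      (hm ▸ Nat.pow_le_pow_right hp.pos hm2)
  have := (Nat.pow_le_pow_iff_right hp.one_lt).1 h3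
  omega

/-- Some element of `Q` has centralizer in the abelian normal subgroup of order dividing `n`. -/
theorem exists_card_centralizer_dvd (Fb : Subgroup Q) [Fb.Normal]
    (hab : ∀ a ∈ Fb, ∀ b ∈ Fb, a * b = b * a) (hz : Fb ⊓ Subgroup.center Q = ⊥)
    (hnil : Group.IsNilpotent (Q ⧸ Fb)) {p q : ℕ} [Fact p.Prime] [Fact q.Prime] (hpq : p ≠ q)
    (hprimes : ∀ l : ℕ, l.Prime → l ∣ Nat.card Q → l = p ∨ l = q) {n : ℕ} (hn : n ≠ 0)
    (hcard : Nat.card Fb = n * n) :
    ∃ g : Q, Nat.card ↥(Fb ⊓ Subgroup.centralizer ({g} : Set Q)) ∣ n := by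
  classical
  let U : ℕ → Subgroup Q := fun l =>
    { carrier := {x | x ∈ Fb ∧ ∃ k, x ^ l ^ k = 1}
      one_mem' := ⟨Fb.one_mem, 0, one_pow _⟩
      mul_mem' := fun {x y} hx hy => by
        obtain ⟨hxF, i, hi⟩ := hx
        obtain ⟨hyF, j, hj⟩ := hy
        refine ⟨Fb.mul_mem hxF hyF, i + j, ?_⟩
        rw [Commute.mul_pow (hab x hxF y hyF), pow_add, pow_mul, hi, one_pow, one_mul,
          mul_comm (l ^ i), pow_mul, hj, one_pow]
      inv_mem' := fun {x} hx => by
        obtain ⟨hxF, i, hi⟩ := hx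
        exact ⟨Fb.inv_mem hxF, i, by rw [inv_pow, hi, inv_one]⟩ }
  haveI hUn : ∀ l, (U l).Normal := fun l => ⟨fun x hx g => by
    obtain ⟨hxF, i, hi⟩ := hx
    exact ⟨‹Fb.Normal›.conj_mem x hxF g, i, by rw [conj_pow, hi]; group⟩⟩
  have hUF : ∀ l, U l ≤ Fb := fun l x hx => hx.1
  have hUp : ∀ l, IsPGroup l (U l) := fun l x => by
    obtain ⟨-, i, hi⟩ := x.2
    exact ⟨i, Subtype.ext (by simpa using hi)⟩
  obtain ⟨P⟩ : Nonempty (Sylow p Q) := inferInstance
  obtain ⟨R⟩ : Nonempty (Sylow q Q) := inferInstance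
  have hprimes' : ∀ l : ℕ, l.Prime → l ∣ Nat.card Q → l = q ∨ l = p :=
    fun l hl hd => (hprimes l hl hd).symm
  obtain ⟨a, ha, hasmall⟩ := exists_small_element Fb (U p) hab hz hnil hpq hprimes (hUF p) (hUp p) R
  obtain ⟨b, hb, hbsmall⟩ :=
    exists_small_element Fb (U q) hab hz hnil hpq.symm hprimes' (hUF q) (hUp q) P
  have hapow : ∃ i, a ^ q ^ i = 1 := by
    obtain ⟨i, hi⟩ := R.2 ⟨a, ha⟩
    exact ⟨i, by simpa using congrArg Subtype.val hi⟩
  have hbpow : ∃ j, b ^ p ^ j = 1 := by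
    obtain ⟨j, hj⟩ := P.2 ⟨b, hb⟩
    exact ⟨j, by simpa using congrArg Subtype.val hj⟩
  have hcomm : (QuotientGroup.mk a : Q ⧸ Fb) * QuotientGroup.mk b =
      QuotientGroup.mk b * QuotientGroup.mk a := by
    refine Subgroup.commute_of_normal_of_disjoint ((R : Subgroup Q).map (QuotientGroup.mk' Fb))
      ((P : Subgroup Q).map (QuotientGroup.mk' Fb)) (map_sylow_normal Fb hnil R)
      (map_sylow_normal Fb hnil P) ?_ _ _ ⟨a, ha, rfl⟩ ⟨b, hb, rfl⟩
    exact IsPGroup.disjoint_of_ne q p hpq.symm _ _ (R.2.map _) (P.2.map _)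
  refine ⟨a * b, ?_⟩
  set C := Fb ⊓ Subgroup.centralizer ({a * b} : Set Q)
  rw [← Nat.factorization_le_iff_dvd Nat.card_pos.ne' hn, Finsupp.le_def]
  intro l
  by_cases hl : l.Prime ∧ l ∣ Nat.card C
  · obtain ⟨hl, hlC⟩ := hl
    rcases hprimes l hl (hlC.trans (Subgroup.card_subgroup_dvd_card C)) with rfl | rfl
    · refine factorization_le_of_small Fb (U l) hn hcard (hUF l) (hUp l)
        (fun x hx hk => ⟨hx, hk⟩) _ (le_trans ?_ hasmall)
      exact Nat.pow_le_pow_left (Subgroup.card_le_of_le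
        (centralizer_mul_le Fb (U l) hab (hUF l) hpq hapow hbpow hcomm)) 2
    · refine factorization_le_of_small Fb (U l) hn hcard (hUF l) (hUp l)
        (fun x hx hk => ⟨hx, hk⟩) _ (le_trans ?_ hbsmall)
      refine Nat.pow_le_pow_left (Subgroup.card_le_of_le ((?_ : U l ⊓ Subgroup.centralizer ({a * b} : Set Q) ≤
          U l ⊓ Subgroup.centralizer ({b * a} : Set Q)).trans
        (centralizer_mul_le Fb (U l) hab (hUF l) hpq.symm hbpow hapow hcomm.symm))) 2
      intro u hu
      refine ⟨hu.1, Subgroup.mem_centralizer_iff.2 fun z hz => ?_⟩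
      rw [Set.mem_singleton_iff.1 hz]
      have h0 : Commute (a * b) u := Subgroup.mem_centralizer_iff.1 hu.2 _ rfl
      obtain ⟨f, hf, hfe⟩ : ∃ f ∈ Fb, b * a = a * b * f :=
        ⟨(a * b)⁻¹ * (b * a), by
          rw [← QuotientGroup.eq, QuotientGroup.mk_mul, QuotientGroup.mk_mul, hcomm], by group⟩
      rw [hfe]
      exact h0.mul_left (hab f hf u (hUF l hu.1))
  · have h0 : (Nat.card C).factorization l = 0 := by
      by_cases hlp : l.Prime
      · exact Nat.factorization_eq_zero_of_not_dvd fun h => hl ⟨hlp, h⟩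
      · exact Nat.factorization_eq_zero_of_not_prime _ hlp
    rw [h0]
    exact Nat.zero_le _

end quotientPart

/-- The degree of a primitive character divides a class size. -/
theorem exists_degree_dvd_class_size {χ : G → ℂ} (hχ : IsIrrCharacter G χ)
    (hprim : ¬ ∃ H : Subgroup G, H ≠ ⊤ ∧ ∃ θ : H → ℂ, IsCharacter H θ ∧ indFun H θ = χ)
    (F : Subgroup G) [F.Normal] (hF : Group.IsNilpotent F) (hnil : Group.IsNilpotent (G ⧸ F))
    {p q : ℕ} (hp : p.Prime) (hq : q.Prime) (hpq : p ≠ q)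
    (hprimes : ∀ l : ℕ, l.Prime → l ∣ Nat.card G → l = p ∨ l = q) :
    ∃ g : G, charDegree χ ∣ (Subgroup.centralizer ({g} : Set G)).index := by
  classical
  haveI := Fact.mk hp
  haveI := Fact.mk hq
  have hdeg := (Blocks.charDegree_eq hχ).1
  obtain ⟨n, ρ, hρ, rfl⟩ := hχ
  haveI := hρ
  have hdegn : charDegree ρ.character = n := by
    have h := hdeg
    rw [Representation.char_one, Module.finrank_fin_fun] at h
    exact_mod_cast h.symm
  have hn : n ≠ 0 := by
    rintro rfl
    have := Chars.irr_apply_one_ne_zero (Chars.isIrrCharacter_of_rep ρ)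
    simp at this
  have hirr : IsIrrCharacter F (fun f : F => ρ.character f) := by
    haveI := hnil
    obtain ⟨H, hFH, ψ, hψ, hind, hres⟩ := Chars2.relative_m F inferInstance
      (noSquareFactor_of_nilpotentQuotient F hnil) (Chars.isIrrCharacter_of_rep ρ)
    have hH : H = ⊤ := by
      by_contra hH
      exact hprim ⟨H, hH, ψ, Chars.isCharacter_of_isIrr hψ, hind⟩
    subst hH
    convert hres using 1
    funext f
    rw [← hind]
    exact Chars.indFun_top_apply
      (Chars.isClassFunction_of_isCharacter (Chars.isCharacter_of_isIrr hψ)) (f : G)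
  have hcomm := commutator_le_scalarSub ρ hprim F hF
  have hsq := sq_eq_index ρ F hcomm hirr
  set Zc := F ⊓ scalarSub ρ with hZc
  set π := QuotientGroup.mk' Zc with hπ
  set Fb := F.map π with hFb
  haveI : Fb.Normal := Subgroup.Normal.map inferInstance _ (QuotientGroup.mk'_surjective Zc)
  have hkerF : Zc ≤ F := inf_le_left
  have hmem : ∀ x : G, π x ∈ Fb → x ∈ F := by
    rintro x ⟨y, hy, hyx⟩
    have h1 : y⁻¹ * x ∈ Zc := QuotientGroup.eq.1 hyx
    simpa using F.mul_mem hy (hkerF h1)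
  have hab : ∀ a ∈ Fb, ∀ b ∈ Fb, a * b = b * a := by
    rintro _ ⟨x, hx, rfl⟩ _ ⟨y, hy, rfl⟩
    rw [← map_mul, ← map_mul, hπ]
    refine QuotientGroup.eq.2 ?_
    rw [show (x * y)⁻¹ * (y * x) = ⁅y⁻¹, x⁻¹⁆ by rw [commutatorElement_def]; group]
    have h := Subgroup.commutator_mem_commutator (F.inv_mem hy) (F.inv_mem hx)
    exact ⟨Subgroup.commutator_le_left F F h, hcomm h⟩
  have hz : Fb ⊓ Subgroup.center (G ⧸ Zc) = ⊥ := by
    rw [eq_bot_iff]
    intro a ha
    obtain ⟨x, hx, rfl⟩ := ha.1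
    have hcong : ∀ g : G, ∃ s ∈ Zc, g * x * g⁻¹ = x * s := by
      intro g
      refine ⟨x⁻¹ * (g * x * g⁻¹), ?_, by group⟩
      refine QuotientGroup.eq.1 ?_
      have := Subgroup.mem_center_iff.1 ha.2 (π g)
      show π x = π (g * x * g⁻¹)
      rw [map_mul, map_mul, this, mul_assoc, ← map_mul, mul_inv_cancel, map_one, mul_one]
    let A : Subgroup G := Subgroup.zpowers x ⊔ Zc
    haveI : A.Normal := by
      constructor
      intro y hy g
      have hA : A ≤ A.comap (MulAut.conj g).toMonoidHom := by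
        refine sup_le (Subgroup.zpowers_le.2 ?_) fun s hs => Subgroup.mem_sup_right
          ((inferInstance : Zc.Normal).conj_mem s hs g)
        obtain ⟨s, hs, he⟩ := hcong g
        show g * x * g⁻¹ ∈ A
        rw [he]
        exact A.mul_mem (Subgroup.mem_sup_left (Subgroup.mem_zpowers x)) (Subgroup.mem_sup_right hs)
      exact hA hy
    have hAab : ∀ a ∈ A, ∀ b ∈ A, ρ a * ρ b = ρ b * ρ a := by
      intro a ha b hb
      rw [Subgroup.mem_sup_of_normal_right] at ha hb
      obtain ⟨u, hu, s, hs, rfl⟩ := ha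
      obtain ⟨v, hv, t, ht, rfl⟩ := hb
      obtain ⟨i, rfl⟩ := hu
      obtain ⟨j, rfl⟩ := hv
      have e1 : Commute (ρ (x ^ i)) (ρ (x ^ j)) :=
        ((Commute.refl x).zpow_zpow i j).map ρ
      have e2 : ∀ g, Commute (ρ s) (ρ g) := fun g => scalar_commute ρ hs.2 g
      have e3 : ∀ g, Commute (ρ t) (ρ g) := fun g => scalar_commute ρ ht.2 g
      simp only [map_mul]
      exact ((e1.mul_right (e3 _).symm).mul_left ((e2 _).mul_right (e2 _))).eq
    have hxs : x ∈ scalarSub ρ :=
      le_scalarSub ρ hprim A hAab (Subgroup.mem_sup_left (Subgroup.mem_zpowers x))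
    rw [Subgroup.mem_bot]
    exact (QuotientGroup.eq_one_iff x).2 ⟨hx, hxs⟩
  have hnilQ : Group.IsNilpotent ((G ⧸ Zc) ⧸ Fb) := by
    haveI := hnil
    let f : G ⧸ F →* (G ⧸ Zc) ⧸ Fb := QuotientGroup.lift F ((QuotientGroup.mk' Fb).comp π)
      (fun x hx => (QuotientGroup.eq_one_iff _).2 ⟨x, hx, rfl⟩)
    refine Group.nilpotent_of_surjective f fun y => ?_
    obtain ⟨z, rfl⟩ := QuotientGroup.mk_surjective y
    obtain ⟨x, rfl⟩ := QuotientGroup.mk_surjective z
    exact ⟨(x : G ⧸ F), rfl⟩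
  have hker : ∀ (H : Subgroup G), Nat.card ↥(H ⊓ Zc) * Nat.card ↥(H.map π) = Nat.card H := by
    intro H
    have h1 := Subgroup.card_eq_card_quotient_mul_card_subgroup (π.comp H.subtype).ker
    rw [Nat.card_congr (QuotientGroup.quotientKerEquivRange (π.comp H.subtype)).toEquiv] at h1
    rw [h1, mul_comm]
    congr 1
    · rw [MonoidHom.range_comp, Subgroup.range_subtype]
    · refine Nat.card_congr
        { toFun := fun x => ⟨⟨x.1, x.2.1⟩, (QuotientGroup.eq_one_iff _).2 x.2.2⟩
          invFun := fun x => ⟨(x.1 : G), x.1.2, (QuotientGroup.eq_one_iff _).1 x.2⟩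
          left_inv := fun x => rfl
          right_inv := fun x => rfl }
  have hcard : Nat.card Fb = n * n := by
    have h := hker F
    rw [inf_eq_right.2 hkerF, ← hsq] at h
    rw [mul_comm] at h
    exact Nat.eq_of_mul_eq_mul_right Nat.card_pos h
  obtain ⟨gb, hgb⟩ := exists_card_centralizer_dvd Fb hab hz hnilQ hpq
    (fun l hl hd => hprimes l hl (hd.trans (Subgroup.card_quotient_dvd_card Zc))) hn hcard
  obtain ⟨g, rfl⟩ := QuotientGroup.mk'_surjective Zc gb
  refine ⟨g, ?_⟩
  rw [hdegn]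
  set H := Subgroup.centralizer ({g} : Set G) with hH
  have hm : Nat.card ↥(F ⊓ H) ∣ Nat.card Zc * n := by
    rw [← hker (F ⊓ H)]
    refine mul_dvd_mul (Subgroup.card_dvd_of_le inf_le_right) ((Subgroup.card_dvd_of_le ?_).trans hgb)
    rintro _ ⟨y, hy, rfl⟩
    refine ⟨⟨y, hy.1, rfl⟩, Subgroup.mem_centralizer_iff.2 fun z hz => ?_⟩
    rw [Set.mem_singleton_iff.1 hz, ← map_mul, ← map_mul,
      Subgroup.mem_centralizer_iff.1 hy.2 g rfl]
  have hi : Nat.card ↥(F ⊓ H) * H.relIndex F = Nat.card F := by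
    rw [← Subgroup.relIndex_bot_left, ← Subgroup.inf_relIndex_right H F, inf_comm H F,
      Subgroup.relIndex_mul_relIndex _ _ _ bot_le inf_le_left, Subgroup.relIndex_bot_left]
  have hn' : n ∣ H.relIndex F := by
    obtain ⟨c, hc⟩ := hm
    have h1 : Nat.card Zc * n * n = H.relIndex F * Nat.card ↥(F ⊓ H) := by
      rw [mul_comm (H.relIndex F), hi, ← hsq]; ring
    refine ⟨c, ?_⟩
    have h2 : (Nat.card ↥(F ⊓ H)) * (H.relIndex F) = Nat.card ↥(F ⊓ H) * (n * c) := by
      rw [mul_comm (Nat.card ↥(F ⊓ H)) (H.relIndex F), ← h1, hc]; ring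
    exact Nat.eq_of_mul_eq_mul_left Nat.card_pos h2
  refine hn'.trans ?_
  have e1 : Nat.card H = Nat.card ↥(F ⊓ H) * F.relIndex H := by
    rw [← Subgroup.relIndex_bot_left, ← Subgroup.inf_relIndex_right F H,
      ← Subgroup.relIndex_bot_left (F ⊓ H),
      Subgroup.relIndex_mul_relIndex _ _ _ bot_le inf_le_right]
  have e2 : Nat.card ↥(H ⊔ F) = Nat.card F * F.relIndex H := by
    rw [← Subgroup.relIndex_sup_right, ← Subgroup.relIndex_bot_left F,
      Subgroup.relIndex_mul_relIndex _ _ _ bot_le le_sup_right, Subgroup.relIndex_bot_left]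
  have e3 := H.card_mul_index
  have e4 := (H ⊔ F).card_mul_index
  refine ⟨(H ⊔ F).index, ?_⟩
  have h5 : Nat.card H * H.index = Nat.card H * (H.relIndex F * (H ⊔ F).index) := by
    rw [e3, ← e4, e2, ← hi, e1]; ring
  exact Nat.eq_of_mul_eq_mul_left Nat.card_pos h5

end Cfsg.Agent.Chars.PrimitiveNil
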