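import Mathlib
import Cfsg.Agent.OddLocal.UniqueSubgroup

/-!
2-groups whose quotient by a maximal subgroup of the centre is generalized quaternion.
-/

set_option autoImplicit false

namespace Cfsg.Agent.Chars

open Subgroup

theorem coatom_index_two {A : Type*} [Group A] [Finite A] (hA : IsPGroup 2 A) {D : Subgroup A}
    (hD : IsCoatom D) : D.index = 2 := by
  have : Fact (Nat.Prime 2) := ⟨Nat.prime_two⟩
  obtain ⟨a, ha⟩ := IsPGroup.iff_card.1 (hA.to_subgroup D)
  obtain ⟨b, hb⟩ := IsPGroup.iff_card.1 hA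
  have hlt : a < b := by
    rw [← Nat.pow_lt_pow_iff_right (by norm_num : 1 < 2), ← ha, ← hb]
    refine lt_of_le_of_ne D.card_le_card_group fun h => hD.1 ?_
    exact Subgroup.eq_top_of_card_eq D h
  obtain ⟨K, hK, hDK⟩ := Sylow.exists_subgroup_card_pow_prime_le (G := A) 2
    (hb ▸ pow_dvd_pow 2 (Nat.succ_le_of_lt hlt) : 2 ^ (a + 1) ∣ Nat.card A) D ha (Nat.le_succ a)
  have hne : D < K := lt_of_le_of_ne hDK fun h => by
    subst h; rw [ha, pow_succ] at hK; have := Nat.two_pow_pos a; omega
  have := hD.2 K hne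
  subst this
  rw [Subgroup.card_top, ← D.card_mul_index, ha, pow_succ] at hK
  exact Nat.eq_of_mul_eq_mul_left (Nat.two_pow_pos a) hK

/-- Generators `r`, `b` of `S` modulo its centre, read in a quaternion quotient by a central
coatom. -/
theorem quat_central_quotient {S : Type*} [Group S] [Finite S] (hS : IsPGroup 2 S)
    (D : Subgroup ↥(Subgroup.center S)) (hD : IsCoatom D)
    [(D.map (Subgroup.center S).subtype).Normal]
    (hna : ¬ IsMulCommutative (S ⧸ D.map (Subgroup.center S).subtype))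
    (hu : ∃! x : S ⧸ D.map (Subgroup.center S).subtype, orderOf x = 2) :
    ∃ (n : ℕ) (r b : S), 1 ≤ n ∧ r * b ≠ b * r ∧
      (∀ g : S, ∃ (i : ℤ) (z : S), z ∈ Subgroup.center S ∧ (g = r ^ i * z ∨ g = b * r ^ i * z)) ∧
      (∀ g : S, g * g ∈ D.map (Subgroup.center S).subtype → g ∈ Subgroup.center S) ∧
      b * r * b⁻¹ * r ∈ Subgroup.center S ∧ b * b ∈ Subgroup.center S ∧
      r ^ (2 ^ n) ∈ Subgroup.center S ∧ r ^ (2 ^ (n - 1)) ∉ Subgroup.center S ∧
      (∀ i : ℤ, r ^ i ∈ Subgroup.center S → ((2 ^ n : ℕ) : ℤ) ∣ i) ∧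
      (∀ i : ℤ, b * r ^ i ∉ Subgroup.center S) := by
  have : Fact (Nat.Prime 2) := ⟨Nat.prime_two⟩
  set D' := D.map (Subgroup.center S).subtype with hD'
  set π := QuotientGroup.mk' D' with hπ
  have hDle : D' ≤ Subgroup.center S := Subgroup.map_subtype_le D
  have hker : ∀ x : S, π x = 1 ↔ x ∈ D' := fun x => QuotientGroup.eq_one_iff x
  have hsurj : Function.Surjective π := QuotientGroup.mk'_surjective D'
  obtain ⟨c, hc, hcu⟩ := hu
  have huni : Cfsg.Agent.OddLocal.UniqueOrderP 2 (S ⧸ D') := by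
    intro x y hx hy hx1
    by_cases hy1 : y = 1
    · subst hy1; exact one_mem _
    · have hx2 : orderOf x = 2 := orderOf_eq_prime hx hx1
      have hy2 : orderOf y = 2 := orderOf_eq_prime hy hy1
      rw [hcu x hx2, ← hcu y hy2]; exact Subgroup.mem_zpowers y
  rcases Cfsg.Agent.OddLocal.isCyclic_or_quaternion (hS.to_quotient D') huni with hcyc | ⟨-, n, ⟨e⟩⟩
  · exact absurd (by exact IsCyclic.isMulCommutative) hna
  haveI : NeZero (2 ^ n) := ⟨pow_ne_zero _ two_ne_zero⟩
  obtain ⟨r, hr⟩ := hsurj (e.symm (QuaternionGroup.a 1))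
  obtain ⟨b, hb⟩ := hsurj (e.symm (QuaternionGroup.xa 0))
  have hr' : e (π r) = QuaternionGroup.a 1 := by rw [hr]; simp
  have hb' : e (π b) = QuaternionGroup.xa 0 := by rw [hb]; simp
  have hzpow : ∀ i : ℤ, e (π (r ^ i)) = QuaternionGroup.a (i : ZMod (2 * 2 ^ n)) := by
    intro i
    have hnat : ∀ k : ℕ, e (π (r ^ k)) = QuaternionGroup.a (k : ZMod (2 * 2 ^ n)) := fun k => by
      rw [map_pow, map_pow, hr', QuaternionGroup.a_one_pow]
    obtain ⟨k, rfl | rfl⟩ := Int.eq_nat_or_neg i
    · simpa using hnat k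
    · rw [zpow_neg, zpow_natCast, map_inv, map_inv, hnat, Int.cast_neg, Int.cast_natCast]
      exact inv_eq_of_mul_eq_one_right (by rw [QuaternionGroup.a_mul_a, add_neg_cancel]; rfl)
  have hn : 1 ≤ n := by
    by_contra hn
    obtain rfl : n = 0 := by omega
    apply hna
    refine ⟨⟨fun x y => e.injective ?_⟩⟩
    rw [map_mul, map_mul]
    generalize e x = u; generalize e y = v
    revert u v; decide
  have hne : e (π (r * b)) ≠ e (π (b * r)) := by
    simp only [map_mul, hr', hb', QuaternionGroup.a_mul_xa, QuaternionGroup.xa_mul_a, ne_eq,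
      QuaternionGroup.xa.injEq]
    intro h
    have h2 : ((2 : ℕ) : ZMod (2 * 2 ^ n)) = 0 := by
      push_cast; linear_combination -h
    rw [ZMod.natCast_eq_zero_iff] at h2
    have := Nat.le_of_dvd (by norm_num) h2
    have : 2 ^ 1 ≤ 2 ^ n := Nat.pow_le_pow_right (by norm_num) hn
    omega
  -- the centre maps onto the subgroup of order two
  obtain ⟨z₀, hz₀D⟩ : ∃ z₀ : ↥(Subgroup.center S), z₀ ∉ D := by
    by_contra h; push Not at h
    exact hD.1 (eq_top_iff.2 fun x _ => h x)
  have hz₀' : (z₀ : S) ∉ D' := fun h => by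
    obtain ⟨w, hw, hwz⟩ := h
    exact hz₀D (Subtype.ext hwz ▸ hw)
  have hcentral : ∀ g : S, (∀ h : S, π (g * h) = π (h * g)) → g ∈ Subgroup.center S := by
    intro g hg
    have hcen : ∀ x : S, (∀ h : S, π (x * h) = π (h * x)) →
        e (π x) = 1 ∨ e (π x) = QuaternionGroup.a ((2 ^ n : ℕ) : ZMod (2 * 2 ^ n)) := by
      intro x hx
      have h1 := congrArg e (hx r)
      have h2 := congrArg e (hx b)
      simp only [map_mul, hr', hb'] at h1 h2
      generalize e (π x) = u at h1 h2 ⊢
      rcases u with i | i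
      · rw [QuaternionGroup.a_mul_xa, QuaternionGroup.xa_mul_a, QuaternionGroup.xa.injEq] at h2
        obtain ⟨k, rfl⟩ := ZMod.natCast_zmod_surjective i
        have hk : ((2 * k : ℕ) : ZMod (2 * 2 ^ n)) = 0 := by
          push_cast; linear_combination -h2
        rw [ZMod.natCast_eq_zero_iff] at hk
        obtain ⟨t, rfl⟩ := Nat.dvd_of_mul_dvd_mul_left (by norm_num : 0 < 2) hk
        rcases Nat.even_or_odd t with ⟨s, rfl⟩ | ⟨s, rfl⟩
        · left
          rw [show 2 ^ n * (s + s) = 2 * 2 ^ n * s by ring, Nat.cast_mul, ZMod.natCast_self,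
            zero_mul]
          rfl
        · right
          congr 1
          rw [show 2 ^ n * (2 * s + 1) = 2 * 2 ^ n * s + 2 ^ n by ring, Nat.cast_add, Nat.cast_mul,
            ZMod.natCast_self, zero_mul, zero_add]
      · exfalso
        rw [QuaternionGroup.xa_mul_a, QuaternionGroup.a_mul_xa, QuaternionGroup.xa.injEq] at h1
        apply hne
        simp only [map_mul, hr', hb', QuaternionGroup.a_mul_xa, QuaternionGroup.xa_mul_a]
        congr 1
        linear_combination -h1
    have hz0 : e (π (z₀ : S)) = QuaternionGroup.a ((2 ^ n : ℕ) : ZMod (2 * 2 ^ n)) := by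
      rcases hcen (z₀ : S) (fun h => by rw [(Subgroup.mem_center_iff.1 z₀.2 h)]) with h | h
      · exact absurd ((hker _).1 (e.injective (by rw [h, map_one]))) hz₀'
      · exact h
    rcases hcen g hg with h | h
    · exact hDle ((hker g).1 (e.injective (by rw [h, map_one])))
    · have : π (g * (z₀ : S)⁻¹) = 1 := by
        rw [map_mul, map_inv, mul_inv_eq_one]
        exact e.injective (h.trans hz0.symm)
      have := Subgroup.mul_mem _ (hDle ((hker _).1 this)) z₀.2
      simpa using this
  refine ⟨n, r, b, hn, fun h => hne (by rw [h]), ?_, ?_, ?_, ?_, ?_, ?_, ?_, ?_⟩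
  · intro g
    rcases hg : e (π g) with i | i
    · obtain ⟨j, rfl⟩ := ZMod.intCast_surjective i
      refine ⟨j, (r ^ j)⁻¹ * g, hDle ((hker _).1 (e.injective ?_)), Or.inl (by group)⟩
      rw [map_mul, map_mul, map_inv, map_inv, hzpow, hg, inv_mul_cancel, map_one]
    · obtain ⟨j, rfl⟩ := ZMod.intCast_surjective i
      refine ⟨j, (b * r ^ j)⁻¹ * g, hDle ((hker _).1 (e.injective ?_)), Or.inr (by group)⟩
      rw [map_mul, map_mul, map_inv, map_inv, map_mul, map_mul, hb', hzpow, hg,
        QuaternionGroup.xa_mul_a, zero_add, inv_mul_cancel, map_one]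
  · intro g hg
    apply hcentral
    intro h
    have h2 : π g ^ 2 = 1 := by rw [sq, ← map_mul, hker]; exact hg
    by_cases h1 : π g = 1
    · rw [map_mul, map_mul, h1, one_mul, mul_one]
    · have hc1 : π g = c := hcu _ (orderOf_eq_prime h2 h1)
      have hcz : π (z₀ : S) = c := by
        refine hcu _ (orderOf_eq_prime ?_ fun h => hz₀' ((hker _).1 h))
        rw [sq, ← map_mul, hker]
        have hidx : D.index = 2 :=
          coatom_index_two (hS.to_subgroup _) hD
        have := (Subgroup.mul_mem_iff_of_index_two hidx).2 (iff_of_false hz₀D hz₀D)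
        exact ⟨_, this, rfl⟩
      rw [map_mul, map_mul, hc1, ← hcz, ← map_mul, ← map_mul,
        Subgroup.mem_center_iff.1 z₀.2 h]
  · refine hDle ((hker _).1 (e.injective ?_))
    simp only [map_mul, map_inv, hr', hb', map_one, QuaternionGroup.xa_mul_a, zero_add]
    rw [inv_eq_of_mul_eq_one_right (b := QuaternionGroup.xa ((2 ^ n : ℕ) : ZMod (2 * 2 ^ n)))
      (by rw [QuaternionGroup.xa_mul_xa]; simp only [QuaternionGroup.one_def, QuaternionGroup.a.injEq]
          rw [sub_zero, ← Nat.cast_add, ← two_mul, ZMod.natCast_self]),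
      QuaternionGroup.xa_mul_xa, QuaternionGroup.a_mul_a, QuaternionGroup.one_def]
    congr 1
    have h2 : ((2 * 2 ^ n : ℕ) : ZMod (2 * 2 ^ n)) = 0 := ZMod.natCast_self _
    push_cast at h2 ⊢
    linear_combination h2
  · apply hcentral
    intro h
    apply e.injective
    simp only [map_mul, hb', QuaternionGroup.xa_mul_xa, add_zero, sub_zero]
    rcases e (π h) with i | i
    · rw [QuaternionGroup.a_mul_a, QuaternionGroup.a_mul_a, add_comm]
    · rw [QuaternionGroup.a_mul_xa, QuaternionGroup.xa_mul_a]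
      congr 1
      have h2 : ((2 * 2 ^ n : ℕ) : ZMod (2 * 2 ^ n)) = 0 := ZMod.natCast_self _
      push_cast at h2 ⊢
      linear_combination -h2
  · apply hcentral
    intro h
    apply e.injective
    simp only [map_mul, map_pow, hr', QuaternionGroup.a_one_pow]
    rcases e (π h) with i | i
    · rw [QuaternionGroup.a_mul_a, QuaternionGroup.a_mul_a, add_comm]
    · rw [QuaternionGroup.a_mul_xa, QuaternionGroup.xa_mul_a]
      congr 1
      have h2 : ((2 * 2 ^ n : ℕ) : ZMod (2 * 2 ^ n)) = 0 := ZMod.natCast_self _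
      push_cast at h2 ⊢
      linear_combination -h2
  · intro h
    have h1 := congrArg (fun x => e (π x)) (Subgroup.mem_center_iff.1 h b)
    simp only [map_mul, map_pow, hr', hb', QuaternionGroup.a_one_pow, QuaternionGroup.a_mul_xa,
      QuaternionGroup.xa_mul_a, QuaternionGroup.xa.injEq] at h1
    have h2 : ((2 * 2 ^ (n - 1) : ℕ) : ZMod (2 * 2 ^ n)) = 0 := by
      push_cast at h1 ⊢; linear_combination h1
    rw [ZMod.natCast_eq_zero_iff, show 2 * 2 ^ (n - 1) = 2 ^ n by
      rw [← pow_succ']; congr 1; omega] at h2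
    have := Nat.le_of_dvd (by positivity) h2
    have : 1 ≤ 2 ^ n := Nat.one_le_two_pow
    omega
  · intro i h
    have h1 := congrArg (fun x => e (π x)) (Subgroup.mem_center_iff.1 h b)
    simp only [map_mul, hb'] at h1
    rw [hzpow, QuaternionGroup.xa_mul_a, QuaternionGroup.a_mul_xa, QuaternionGroup.xa.injEq] at h1
    have h2 : ((2 * i : ℤ) : ZMod (2 * 2 ^ n)) = 0 := by
      push_cast at h1 ⊢; linear_combination h1
    rw [ZMod.intCast_zmod_eq_zero_iff_dvd] at h2
    push_cast at h2
    exact (by simpa using Int.dvd_of_mul_dvd_mul_left (by norm_num : (2 : ℤ) ≠ 0) h2)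
  · intro i h
    apply hne
    have h1 := congrArg (fun x => e (π x)) (Subgroup.mem_center_iff.1 h r)
    simp only [map_mul, hb', hr'] at h1
    rw [hzpow, QuaternionGroup.xa_mul_a, QuaternionGroup.a_mul_xa, QuaternionGroup.xa_mul_a,
      QuaternionGroup.xa.injEq] at h1
    simp only [map_mul, hr', hb', QuaternionGroup.a_mul_xa, QuaternionGroup.xa_mul_a,
      QuaternionGroup.xa.injEq]
    linear_combination h1

end Cfsg.Agent.Chars
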