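import Cfsg.Agent.Chars2.Clifford
import Cfsg.Agent.Chars.Linear
import Cfsg.Agent.Chars.Induced
import Cfsg.Prelude.Def_Blocks

/-!
Real characters above a linear character of a normal subgroup.
-/

set_option autoImplicit false
set_option linter.style.haveILetI false

namespace Cfsg.Agent.Chars.RealPPrime

open scoped ComplexConjugate

variable {G : Type*} [Group G] [Fintype G]

theorem conj_hom_apply {T : Subgroup G} (η : T →* ℂˣ) (t : T) :
    conj (η t : ℂ) = ((η t)⁻¹ : ℂˣ) := by
  rw [← map_inv]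
  exact (char_inv_eq_conj (isCharacter_hom η) t).symm

/-- A real constituent of the character induced from an extension that some element inverts. -/
theorem exists_real_above (M : Subgroup G) [M.Normal] (lam : M →* ℂˣ) (T₂ : Subgroup G)
    (hMT : M ≤ T₂) (hT₂ : T₂ ≤ Chars2.inertiaSub (fun m : M => (lam m : ℂ)))
    (hodd : Odd (T₂.relIndex (Chars2.inertiaSub (fun m : M => (lam m : ℂ)))))
    (η : T₂ →* ℂˣ) (hη : ∀ m : M, η ⟨m, hMT m.2⟩ = lam m)
    (x : G) (hx : ∀ y : G, x⁻¹ * y * x ∈ T₂ ↔ y ∈ T₂)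
    (hinv : ∀ (y : G) (hy : y ∈ T₂), η ⟨x⁻¹ * y * x, (hx y).2 hy⟩ = (η ⟨y, hy⟩)⁻¹) :
    ∃ χ : IrrCharacter G, (∀ g, ((χ : G → ℂ) g).im = 0) ∧
      (∀ [Fintype M], classInner (fun m : M => (χ : G → ℂ) m) (fun m : M => (lam m : ℂ)) ≠ 0) ∧
      (Chars2.inertiaSub (fun m : M => (lam m : ℂ))).index ∣ charDegree (χ : G → ℂ) := by
  classical
  haveI iM : Fintype M := Fintype.ofFinite M
  haveI : Fintype T₂ := Fintype.ofFinite T₂
  haveI : Finite (IrrCharacter G) := irr_finite
  haveI : Fintype (IrrCharacter G) := Fintype.ofFinite _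
  set θ : T₂ → ℂ := fun t => (η t : ℂ) with hθ
  set ζ := indFun T₂ θ with hζ
  -- the induced character is real
  have hext : ∀ z : G, conj (extendByZero T₂ θ z) = extendByZero T₂ θ (x⁻¹ * z * x) := by
    intro z
    by_cases hz : z ∈ T₂
    · rw [extendByZero_of_mem _ _ hz, extendByZero_of_mem _ _ ((hx z).2 hz), hθ]
      exact (conj_hom_apply η ⟨z, hz⟩).trans (congrArg Units.val (hinv z hz).symm)
    · rw [extendByZero_of_not_mem _ _ hz, extendByZero_of_not_mem _ _ (fun h => hz ((hx z).1 h)),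
        map_zero]
  have hreal : ∀ g, conj (ζ g) = ζ g := by
    intro g
    rw [hζ, indFun_apply, map_mul, map_sum, map_inv₀, map_natCast]
    congr 1
    refine Fintype.sum_equiv (Equiv.mulRight x) _ _ fun y => ?_
    rw [hext, Equiv.coe_mulRight, mul_inv_rev]
    simp only [mul_assoc]
  obtain ⟨m, hm, hsum⟩ := exists_eq_sum_nsmul (isCharacter_indFun T₂ (isCharacter_hom η))
  have hlam := isIrrCharacter_hom lam
  have hres : ∀ χ : IrrCharacter G, ∃ a : ℕ,
      classInner (fun k : M => (χ : G → ℂ) k) (fun k : M => (lam k : ℂ)) = a := fun χ =>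
    exists_classInner_eq_nat (isCharacter_restrict (irr_isCharacter χ) M)
      (isCharacter_hom lam)
  choose a ha using hres
  -- constituents lie over `lam`
  have hover : ∀ χ : IrrCharacter G, m χ ≠ 0 → a χ ≠ 0 := by
    intro χ hne h0
    have h1 : classInner (fun t : T₂ => (χ : G → ℂ) t) θ ≠ 0 := by
      have h2 : classInner θ (fun t : T₂ => (χ : G → ℂ) t) = (m χ : ℂ) := by
        rw [← classInner_indFun T₂ θ (isClassFunction_irr χ)]
        exact hm χ
      rw [← classInner_conj_symm, h2, map_natCast]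
      exact_mod_cast hne
    obtain ⟨c, hc, hcs⟩ := exists_eq_sum_nsmul (isCharacter_restrict (irr_isCharacter χ) T₂)
    haveI : Finite (IrrCharacter T₂) := irr_finite
    have he : ∀ φ : IrrCharacter T₂, ∃ e : ℕ,
        classInner (fun k : M => (φ : T₂ → ℂ) ⟨k, hMT k.2⟩) (fun k : M => (lam k : ℂ)) = e :=
      fun φ => exists_classInner_eq_nat
        (isCharacter_comp (irr_isCharacter φ) (Subgroup.inclusion hMT)) (isCharacter_hom lam)
    choose e he using he
    have hr : (fun k : M => (χ : G → ℂ) k) =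
        ∑ φ : IrrCharacter T₂, (c φ : ℂ) • fun k : M => (φ : T₂ → ℂ) ⟨k, hMT k.2⟩ := by
      funext k
      have := congrFun hcs ⟨(k : G), hMT k.2⟩
      simpa [Finset.sum_apply, nsmul_eq_mul] using this
    have h3 := ha χ
    rw [hr, classInner_sum_left] at h3
    simp only [classInner_smul_left, he, h0, Nat.cast_zero] at h3
    have h4 : ∑ φ : IrrCharacter T₂, c φ * e φ = 0 := by exact_mod_cast h3
    let η' : IrrCharacter T₂ := ⟨θ, isIrrCharacter_hom η⟩
    have h5 : e η' = 1 := by
      have h6 : classInner (fun k : M => θ ⟨k, hMT k.2⟩) (fun k : M => (lam k : ℂ)) = 1 := by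
        simp only [hθ, hη]
        exact classInner_self_irr hlam
      exact_mod_cast ((he η').symm.trans h6 : (e η' : ℂ) = 1)
    have h7 := (Finset.sum_eq_zero_iff.1 h4) η' (Finset.mem_univ _)
    rw [h5, mul_one] at h7
    exact h1 (by rw [show classInner (fun t : T₂ => (χ : G → ℂ) t) θ = (c η' : ℂ) from hc η', h7,
      Nat.cast_zero])
  set T := Chars2.inertiaSub (fun m : M => (lam m : ℂ)) with hT
  have hdeg : ∀ χ : IrrCharacter G, m χ ≠ 0 → (χ : G → ℂ) 1 = (T.index : ℂ) * a χ := by
    intro χ hne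
    have h1 : classInner (fun k : M => (χ : G → ℂ) k) (fun k : M => (lam k : ℂ)) ≠ 0 := by
      rw [ha]; exact_mod_cast hover χ hne
    rw [Chars2.clifford_degree χ.2 hlam h1, ha, map_one, Units.val_one, mul_one]
  -- parity
  have hpar : ∑ χ : IrrCharacter G, m χ * a χ = T₂.relIndex T := by
    have h1 : ζ 1 = (T₂.index : ℂ) := by
      rw [hζ, indFun_apply_one, hθ]
      simp
    have h2 : ζ 1 = ((∑ χ : IrrCharacter G, m χ * a χ : ℕ) : ℂ) * (T.index : ℂ) := by
      have h3 : ζ 1 = _ := congrFun hsum 1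
      rw [h3, Finset.sum_apply, Nat.cast_sum, Finset.sum_mul]
      refine Finset.sum_congr (by ext; simp) fun χ _ => ?_
      rw [Pi.smul_apply, nsmul_eq_mul]
      by_cases h : m χ = 0
      · simp [h]
      · rw [hdeg χ h]; push_cast; ring
    rw [h1, ← Subgroup.relIndex_mul_index hT₂] at h2
    have h4 : T₂.relIndex T * T.index = (∑ χ : IrrCharacter G, m χ * a χ) * T.index := by
      exact_mod_cast h2
    exact (Nat.eq_of_mul_eq_mul_right (Nat.pos_of_ne_zero Subgroup.index_ne_zero_of_finite) h4).symm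
  let star : IrrCharacter G → IrrCharacter G := fun χ =>
    ⟨fun g => conj ((χ : G → ℂ) g), isIrrCharacter_star χ.2⟩
  have hstar : ∀ χ, star (star χ) = χ := fun χ =>
    Subtype.ext (funext fun g => Complex.conj_conj _)
  have hms : ∀ χ, m (star χ) = m χ := by
    intro χ
    have h1 : classInner ζ (star χ : G → ℂ) = conj (classInner ζ (χ : G → ℂ)) := by
      simp only [classInner_def, map_mul, map_sum, map_inv₀, map_natCast, hreal]
      rfl
    rw [hm, hm, map_natCast] at h1
    exact_mod_cast h1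
  have hfs : ∀ χ, m (star χ) * a (star χ) = m χ * a χ := by
    intro χ
    by_cases h : m χ = 0
    · rw [hms, h, zero_mul, zero_mul]
    · have h1 := hdeg (star χ) (by rw [hms]; exact h)
      have h2 : ((star χ : G → ℂ)) 1 = (χ : G → ℂ) 1 := irr_apply_one_conj (irr_isCharacter χ)
      rw [h2, hdeg χ h] at h1
      have h3 : T.index * a χ = T.index * a (star χ) := by exact_mod_cast h1
      rw [hms, Nat.eq_of_mul_eq_mul_left (Nat.pos_of_ne_zero Subgroup.index_ne_zero_of_finite) h3]
  obtain ⟨χ, hfix, hne⟩ : ∃ χ, star χ = χ ∧ m χ ≠ 0 := by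
    by_contra hnone
    push Not at hnone
    have h0 : ((∑ χ : IrrCharacter G, m χ * a χ : ℕ) : ZMod 2) = 0 := by
      rw [Nat.cast_sum]
      refine Finset.sum_involution (fun χ _ => star χ) (fun χ _ => ?_) (fun χ _ hne heq => ?_)
        (fun χ _ => Finset.mem_univ _) (fun χ _ => hstar χ)
      · rw [hfs]; exact CharTwo.add_self_eq_zero _
      · rw [hnone χ heq, zero_mul, Nat.cast_zero] at hne
        exact hne rfl
    rw [hpar, ZMod.natCast_eq_zero_iff_even] at h0
    exact Nat.not_even_iff_odd.2 hodd h0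
  refine ⟨χ, fun g => Complex.conj_eq_iff_im.1 (congrFun (congrArg Subtype.val hfix) g),
    fun {i} => ?_, ?_⟩
  · rw [classInner_congr_fintype i iM]
    rw [ha]
    exact_mod_cast hover χ hne
  · refine ⟨a χ, ?_⟩
    rw [charDegree, hdeg χ hne, ← Nat.cast_mul, Complex.natCast_re, Nat.floor_natCast]

end Cfsg.Agent.Chars.RealPPrime
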