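import Cfsg.Agent.Chars.RealPPrimeSylow
import Cfsg.Agent.Chars.Eigen
import Mathlib.GroupTheory.Abelianization.Finite
import Mathlib.GroupTheory.Nilpotent

/-!
Normal subgroups inside the derived subgroup of a Sylow subgroup are central in the odd residual
when all real characters have degree prime to `p`.
-/

set_option autoImplicit false
set_option linter.style.haveILetI false

open scoped commutatorElement

namespace Cfsg.Agent.Chars.RealPPrime

variable {G : Type*} [Group G]

/-- A linear character extends over a complement inside its inertia group. -/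
theorem extend_hom (M S : Subgroup G) [hM : M.Normal] (lam : M →* ℂˣ)
    (hMS : M ⊓ S = ⊥) (hS : S ≤ Chars2.inertiaSub (fun m : M => (lam m : ℂ))) :
    ∃ η : (M ⊔ S : Subgroup G) →* ℂˣ, (∀ m : M, η ⟨m, Subgroup.mem_sup_left m.2⟩ = lam m) ∧
      ∀ (m : M) (s : G) (hs : s ∈ S),
        η ⟨m * s, Subgroup.mul_mem_sup m.2 hs⟩ = lam m := by
  classical
  have hex : ∀ t : (M ⊔ S : Subgroup G), ∃ m : M, (m : G)⁻¹ * (t : G) ∈ S := fun t => by
    have h : (t : G) ∈ ((M ⊔ S : Subgroup G) : Set G) := t.2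
    rw [Subgroup.normal_mul] at h
    obtain ⟨m, hm, s, hs, heq⟩ := Set.mem_mul.1 h
    exact ⟨⟨m, hm⟩, by rw [← heq, inv_mul_cancel_left]; exact hs⟩
  choose c hc using hex
  have hcu : ∀ (t : (M ⊔ S : Subgroup G)) (m : M), (m : G)⁻¹ * (t : G) ∈ S → c t = m := by
    intro t m h
    have h1 : (m : G)⁻¹ * (c t : G) ∈ M ⊓ S := Subgroup.mem_inf.2
      ⟨M.mul_mem (M.inv_mem m.2) (c t).2, by
        have := S.mul_mem h (S.inv_mem (hc t))
        simpa [mul_assoc] using this⟩
    rw [hMS, Subgroup.mem_bot, inv_mul_eq_one] at h1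
    exact Subtype.ext h1.symm
  refine ⟨MonoidHom.mk' (fun t => lam (c t)) fun t u => ?_, fun m => ?_, fun m s hs => ?_⟩
  · have hnM : ((c t : G)⁻¹ * t) * (c u : G) * ((c t : G)⁻¹ * t)⁻¹ ∈ M := hM.conj_mem _ (c u).2 _
    rw [hcu (t * u) (c t * ⟨_, hnM⟩) ?_, map_mul]
    · congr 1
      refine Eq.trans ?_ ((mem_inertia lam _).1
        ((Chars2.inertiaSub (fun m : M => (lam m : ℂ))).inv_mem (hS (hc t))) (c u))
      exact congrArg lam (Subtype.ext (by simp))
    · simp only [Subgroup.coe_mul]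
      convert S.mul_mem (hc t) (hc u) using 1
      group
  · exact congrArg lam (hcu _ m (by simp [S.one_mem]))
  · exact congrArg lam (hcu _ m (by simpa using hs))

/-- Some Sylow `q`-subgroup of `T` is invariant under a given `q`-element normalising `T`. -/
theorem exists_invariant_sylow [Finite G] {q : ℕ} [hq : Fact q.Prime] (T : Subgroup G) (y : G)
    (hy : y ∈ Subgroup.normalizer (T : Set G)) (hyq : ∃ k, y ^ q ^ k = 1) :
    ∃ S : Subgroup G, S ≤ T ∧ IsPGroup q S ∧ ¬ q ∣ S.relIndex T ∧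
      y ∈ Subgroup.normalizer (S : Set G) := by
  obtain ⟨k, hk⟩ := hyq
  set N := Subgroup.normalizer (T : Set G) with hN
  have hTN : T ≤ N := Subgroup.le_normalizer
  haveI : (T.subgroupOf N).Normal := Subgroup.normal_subgroupOf_iff_le_normalizer hTN |>.2 le_rfl
  have hp : IsPGroup q (Subgroup.zpowers (⟨y, hy⟩ : N)) := by
    obtain ⟨i, -, hi⟩ := (Nat.dvd_prime_pow hq.out).1 (orderOf_dvd_of_pow_eq_one hk)
    exact IsPGroup.of_card (n := i) (by rw [Nat.card_zpowers, Subgroup.orderOf_mk, hi])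
  obtain ⟨P, hP⟩ := hp.exists_le_sylow
  refine ⟨(P : Subgroup N).map N.subtype ⊓ T, inf_le_right,
    (P.isPGroup'.map N.subtype).to_le inf_le_left, ?_, ?_⟩
  · rw [Subgroup.inf_relIndex_right, ← Subgroup.relIndex_subgroupOf hTN, Subgroup.subgroupOf,
      Subgroup.comap_map_eq_self_of_injective N.subtype_injective]
    exact fun h => P.not_dvd_index (h.trans (relIndex_dvd_index _ _))
  · have hyP : y ∈ (P : Subgroup N).map N.subtype :=
      ⟨⟨y, hy⟩, hP (Subgroup.mem_zpowers _), rfl⟩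
    refine Subgroup.mem_normalizer_iff.2 fun s => ?_
    simp only [Subgroup.mem_inf]
    refine and_congr ?_ (Subgroup.mem_normalizer_iff.1 hy s)
    exact ⟨fun h => Subgroup.mul_mem _ (Subgroup.mul_mem _ hyP h) (Subgroup.inv_mem _ hyP),
      fun h => by
        have := Subgroup.mul_mem _ (Subgroup.mul_mem _ (Subgroup.inv_mem _ hyP) h) hyP
        simpa [mul_assoc] using this⟩

variable [Finite G]

/-- A character of a `p`-group of degree prime to `p` has a linear constituent. -/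
theorem exists_linear_constituent {p : ℕ} [hp : Fact p.Prime] {P : Subgroup G} [Fintype P]
    (hP : IsPGroup p P) {f : P → ℂ} (hf : IsCharacter P f) {d : ℕ} (hd : f 1 = d) (hpd : ¬ p ∣ d) :
    ∃ μ : P →* ℂˣ, classInner f (fun x => (μ x : ℂ)) ≠ 0 := by
  classical
  by_contra hno
  push Not at hno
  obtain ⟨c, hc⟩ := Chars2.exists_multiplicities hf
  choose e he0 he hdvd using fun φ : IrrCharacter P => irr_degree_dvd_card φ.2
  have h1 := Chars2.apply_eq_sum (isClassFunction_of_isCharacter hf) (1 : P)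
  simp only [hc, he] at h1
  have h2 : d = ∑ φ : IrrCharacter P, c φ * e φ := by
    rw [hd] at h1
    exact_mod_cast h1
  refine hpd (h2 ▸ Finset.dvd_sum fun φ _ => ?_)
  obtain ⟨n, hn⟩ := IsPGroup.iff_card.1 hP
  obtain ⟨i, -, hi⟩ := (Nat.dvd_prime_pow hp.out).1 (hn ▸ hdvd φ)
  rcases Nat.eq_zero_or_pos i with h0 | h0
  · rw [h0, pow_zero] at hi
    obtain ⟨μ, hμ⟩ := exists_hom_of_degree_one (irr_isCharacter φ) (by rw [he φ, hi, Nat.cast_one])
    have := hno μ
    rw [show (fun x : P => (μ x : ℂ)) = (φ : P → ℂ) from hμ.symm, hc] at this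
    rw [Nat.cast_eq_zero.1 this, zero_mul]
    exact dvd_zero p
  · exact (hi ▸ dvd_pow_self p h0.ne').mul_left _

/-- A linear character trivial on none of the elements, inverted by a 2-element, in the situation of
the main theorem. -/
theorem exists_inverted_pgroup {p : ℕ} [hp : Fact p.Prime] (hp2 : p ≠ 2) (M : Subgroup G)
    [hM : M.Normal] (hMp : IsPGroup p M)
    (hind : ∀ g : G, (∃ k, g ^ 2 ^ k = 1) → ∀ c ∈ ⁅M, M⁆, g⁻¹ * c * g = c)
    (hnc : ∃ g : G, (∃ k, g ^ 2 ^ k = 1) ∧ ∃ m ∈ M, g⁻¹ * m * g ≠ m) :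
    ∃ lam : M →* ℂˣ, lam ≠ 1 ∧ ∃ y : G, (∃ k, y ^ 2 ^ k = 1) ∧ ∀ m : M,
      lam ⟨y⁻¹ * m * y, by simpa using hM.conj_mem (m : G) m.2 y⁻¹⟩ = (lam m)⁻¹ := by
  classical
  -- the induced maps on `M`
  let σ : G → M →* M := fun g =>
    { toFun := fun m => ⟨g⁻¹ * m * g, by simpa using hM.conj_mem (m : G) m.2 g⁻¹⟩
      map_one' := Subtype.ext (by simp)
      map_mul' := fun a b => Subtype.ext (by simp [mul_assoc]) }
  obtain ⟨y, hy, m₀, hne, hy2⟩ : ∃ y : G, (∃ k, y ^ 2 ^ k = 1) ∧ ∃ m₀ : M,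
      Abelianization.of (σ y m₀) ≠ Abelianization.of m₀ ∧
      ∀ m : M, Abelianization.of (σ (y * y) m) = Abelianization.of m := by
    by_contra hno
    push Not at hno
    have htriv : ∀ g : G, ∀ j : ℕ, g ^ 2 ^ j = 1 →
        ∀ m : M, Abelianization.of (σ g m) = Abelianization.of m := by
      intro g j
      induction j generalizing g with
      | zero =>
        intro h m
        rw [pow_zero, pow_one] at h
        exact congrArg _ (Subtype.ext (by simp [σ, h]))
      | succ j ih =>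
        intro h m
        by_contra hne
        obtain ⟨m', h'⟩ := hno g ⟨j + 1, h⟩ m hne
        exact h' (ih (g * g) (by rw [← sq, ← pow_mul, ← pow_succ', h]) m')
    obtain ⟨g, ⟨k, hk⟩, m, hm, hgm⟩ := hnc
    refine hgm ?_
    -- `g` stabilises the series `1 ≤ M' ≤ M`
    set c : G := m⁻¹ * (g⁻¹ * m * g) with hc
    have hcm : c ∈ ⁅M, M⁆ := by
      have h1 := htriv g k hk ⟨m, hm⟩
      have h2 : (⟨m, hm⟩ : M)⁻¹ * σ g ⟨m, hm⟩ ∈ commutator M := by
        rw [← Abelianization.ker_of, MonoidHom.mem_ker, map_mul, map_inv, h1, inv_mul_cancel]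
      have h3 := Subgroup.mem_map_of_mem M.subtype h2
      rw [_root_.commutator_def, Subgroup.map_commutator, ← MonoidHom.range_eq_map,
        Subgroup.range_subtype] at h3
      exact h3
    have hfix : g⁻¹ * c * g = c := hind g ⟨k, hk⟩ c hcm
    have hpow : ∀ j : ℕ, (g ^ j)⁻¹ * m * g ^ j = m * c ^ j := by
      intro j
      induction j with
      | zero => simp
      | succ j ih =>
        have hcj : g⁻¹ * c ^ j * g = c ^ j := by
          have := conj_pow (a := g⁻¹) (b := c) (i := j)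
          rw [inv_inv, hfix] at this
          exact this.symm
        calc (g ^ (j + 1))⁻¹ * m * g ^ (j + 1) = g⁻¹ * ((g ^ j)⁻¹ * m * g ^ j) * g := by
              rw [pow_succ]; group
          _ = g⁻¹ * m * g * (g⁻¹ * c ^ j * g) := by rw [ih]; group
          _ = m * c * c ^ j := by rw [hcj, hc]; group
          _ = m * c ^ (j + 1) := by rw [mul_assoc, ← pow_succ']
    have h1 := hpow (2 ^ k)
    rw [hk, inv_one, one_mul, mul_one, left_eq_mul] at h1
    obtain ⟨n, hn⟩ := hMp ⟨c, Subgroup.commutator_le_left M M hcm⟩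
    have hn' : c ^ p ^ n = 1 := by simpa using congrArg Subtype.val hn
    have hc1 : c = 1 := orderOf_eq_one_iff.1 (Nat.eq_one_of_dvd_coprimes
      ((Nat.coprime_primes Nat.prime_two hp.out).2 (Ne.symm hp2) |>.pow k n)
      (orderOf_dvd_of_pow_eq_one h1) (orderOf_dvd_of_pow_eq_one hn'))
    rwa [hc, inv_mul_eq_one, eq_comm] at hc1
  let ψ : M →* Abelianization M := (Abelianization.of.comp (σ y)) * (Abelianization.of)⁻¹
  have hψ : ∀ m : M, ψ m = Abelianization.of (σ y m) * (Abelianization.of m)⁻¹ := fun m => rfl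
  obtain ⟨μ, hμ⟩ := CommGroup.exists_apply_ne_one_of_hasEnoughRootsOfUnity (Abelianization M) ℂ
    (a := ψ m₀) (by rw [hψ, ne_eq, mul_inv_eq_one]; exact hne)
  refine ⟨μ.comp ψ, fun h => hμ (DFunLike.congr_fun h m₀), y, hy, fun m => ?_⟩
  show μ (ψ (σ y m)) = (μ (ψ m))⁻¹
  have hσ : σ y (σ y m) = σ (y * y) m := Subtype.ext (by simp [σ, mul_assoc])
  rw [← map_inv, hψ, hψ, hσ, hy2, mul_inv_rev, inv_inv]

/-- The main theorem. -/
theorem gen_le_centralizer {p : ℕ} [hp : Fact p.Prime] (hp2 : p ≠ 2) (hreal : RealPrimeTo G p)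
    (P : Sylow p G) : ∀ (n : ℕ) (M : Subgroup G), Nat.card M = n → M.Normal →
    M ≤ ⁅(P : Subgroup G), (P : Subgroup G)⁆ →
    ∀ g : G, (∃ k, g ^ 2 ^ k = 1) → ∀ m ∈ M, g⁻¹ * m * g = m := by
  classical
  intro n
  induction n using Nat.strong_induction_on with
  | _ n ih => ?_
  intro M hn hM hMP g hg m hm
  haveI := hM
  haveI := Fact.mk Nat.prime_two
  haveI : Fintype G := Fintype.ofFinite G
  haveI : Fintype M := Fintype.ofFinite M
  haveI : Fintype P := Fintype.ofFinite P
  by_contra hgm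
  have hMle : M ≤ (P : Subgroup G) := hMP.trans (Subgroup.commutator_le.2 fun a ha b hb => by
    rw [commutatorElement_def]
    exact mul_mem (mul_mem (mul_mem ha hb) (inv_mem ha)) (inv_mem hb))
  have hMp : IsPGroup p M := P.isPGroup'.to_le hMle
  have hMne : M ≠ ⊥ := fun h => hgm (by
    obtain rfl := Subgroup.mem_bot.1 (h ▸ hm); simp)
  have hlt : ⁅M, M⁆ < M := by
    refine lt_of_le_of_ne (Subgroup.commutator_le_left M M) fun heq => ?_
    haveI := hMp.isNilpotent
    haveI : Nontrivial M := (Subgroup.nontrivial_iff_ne_bot M).2 hMne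
    refine (Group.IsSolvable.commutator_lt_top_of_nontrivial M).ne ?_
    rw [_root_.commutator_def]
    refine Subgroup.map_injective M.subtype_injective ?_
    rw [Subgroup.map_commutator, ← MonoidHom.range_eq_map, Subgroup.range_subtype, heq]
  have hind := ih _ (hn ▸ Nat.lt_of_le_of_ne (Subgroup.card_le_of_le hlt.le) fun h =>
    hlt.ne (Subgroup.eq_of_le_of_card_ge hlt.le h.ge)) ⁅M, M⁆ rfl
    (Subgroup.commutator_normal M M) (hlt.le.trans hMP)
  obtain ⟨lam, hlam, y, hy, hinv⟩ := exists_inverted_pgroup hp2 M hMp hind ⟨g, hg, m, hm, hgm⟩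
  have hval : ∀ (a b : M), (a : G) = b → lam a = lam b := fun a b h => by rw [Subtype.ext h]
  set T := Chars2.inertiaSub (fun m : M => (lam m : ℂ)) with hT
  have hMT : M ≤ T := Chars2.le_inertiaSub
    (isClassFunction_of_isCharacter (isCharacter_hom lam))
  have hxT : ∀ z : G, y⁻¹ * z * y ∈ T ↔ z ∈ T := by
    intro z
    have hkey : ∀ (a b : M), (a : G) = y⁻¹ * b * y → lam a = (lam b)⁻¹ := fun a b h => by
      rw [← hinv b]; exact hval _ _ h
    rw [mem_inertia, mem_inertia]
    constructor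
    · intro h m
      let m' : M := ⟨y⁻¹ * m * y, by simpa using hM.conj_mem (m : G) m.2 y⁻¹⟩
      have h1 := h m'
      rw [hkey _ ⟨z⁻¹ * m * z, by simpa using hM.conj_mem (m : G) m.2 z⁻¹⟩ (by simp [m']; group),
        hkey m' m rfl, inv_inj] at h1
      exact h1
    · intro h m
      let m' : M := ⟨y * m * y⁻¹, hM.conj_mem (m : G) m.2 y⟩
      rw [hkey _ ⟨z⁻¹ * m' * z, by simpa using hM.conj_mem (m' : G) m'.2 z⁻¹⟩ (by simp [m']; group),
        h m', hkey m m' (by simp [m']; group)]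
  have hyN : y ∈ Subgroup.normalizer (T : Set G) :=
    Subgroup.mem_normalizer_iff''.2 fun z => (hxT z).symm
  obtain ⟨S, hST, hS2, hSi, hyS⟩ := exists_invariant_sylow (q := 2) T y hyN hy
  have hMS : M ⊓ S = ⊥ := by
    obtain ⟨a, ha⟩ := IsPGroup.iff_card.1 hMp
    obtain ⟨b, hb⟩ := IsPGroup.iff_card.1 hS2
    exact Subgroup.inf_eq_bot_of_coprime
      (ha ▸ hb ▸ ((Nat.coprime_primes hp.out Nat.prime_two).2 hp2).pow a b)
  obtain ⟨η, hη, hηs⟩ := extend_hom M S lam hMS hST
  have hle : M ⊔ S ≤ T := sup_le hMT hST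
  have hodd : Odd ((M ⊔ S).relIndex T) := by
    rw [← Nat.not_even_iff_odd, even_iff_two_dvd]
    exact fun h => hSi (h.trans (Subgroup.relIndex_dvd_of_le_left T le_sup_right))
  have hdecomp : ∀ z ∈ M ⊔ S, ∃ a ∈ M, ∃ s ∈ S, a * s = z := fun z hz => by
    have h : z ∈ ((M ⊔ S : Subgroup G) : Set G) := hz
    rw [Subgroup.normal_mul] at h
    exact Set.mem_mul.1 h
  have hyS' := Subgroup.mem_normalizer_iff''.1 hyS
  have hx : ∀ z : G, y⁻¹ * z * y ∈ M ⊔ S ↔ z ∈ M ⊔ S := by
    intro z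
    constructor
    · intro h
      obtain ⟨a, ha, s, hs, he⟩ := hdecomp _ h
      have : z = (y * a * y⁻¹) * (y * s * y⁻¹) := by
        rw [show z = y * (y⁻¹ * z * y) * y⁻¹ by group, ← he]; group
      rw [this]
      refine Subgroup.mul_mem_sup (hM.conj_mem a ha y) ?_
      exact (Subgroup.mem_normalizer_iff.1 hyS s).1 hs
    · intro h
      obtain ⟨a, ha, s, hs, rfl⟩ := hdecomp _ h
      rw [show y⁻¹ * (a * s) * y = (y⁻¹ * a * y) * (y⁻¹ * s * y) by group]
      exact Subgroup.mul_mem_sup (by simpa using hM.conj_mem a ha y⁻¹) ((hyS' s).1 hs)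
  have hinv2 : ∀ (z : G) (hz : z ∈ M ⊔ S),
      η ⟨y⁻¹ * z * y, (hx z).2 hz⟩ = (η ⟨z, hz⟩)⁻¹ := by
    intro z hz
    obtain ⟨a, ha, s, hs, rfl⟩ := hdecomp _ hz
    rw [hηs ⟨a, ha⟩ s hs, ← hinv ⟨a, ha⟩, ← hηs _ (y⁻¹ * s * y) ((hyS' s).1 hs)]
    exact congrArg η (Subtype.ext (by group))
  obtain ⟨χ, hχr, hover, hdvd⟩ :=
    exists_real_above M lam (M ⊔ S) le_sup_left hle hodd η hη y hx hinv2
  have hpd := hreal χ hχr
  obtain ⟨d, hd⟩ := exists_apply_one_eq (irr_isCharacter χ)
  have hd' : charDegree (χ : G → ℂ) = d := by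
    rw [charDegree, hd, Complex.natCast_re, Nat.floor_natCast]
  have hresP : IsCharacter P fun x : P => (χ : G → ℂ) x :=
    isCharacter_restrict (irr_isCharacter χ) P
  obtain ⟨μ, hμ⟩ := exists_linear_constituent P.isPGroup' hresP (d := d)
    (by simpa using hd) (hd' ▸ hpd)
  have hμM : ∀ a : M, μ ⟨a, hMle a.2⟩ = 1 := by
    intro a
    have h1 : (⟨a, hMle a.2⟩ : P) ∈ commutator P := by
      have h2 : (a : G) ∈ (commutator P).map (P : Subgroup G).subtype := by
        rw [_root_.commutator_def, Subgroup.map_commutator, ← MonoidHom.range_eq_map,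
          Subgroup.range_subtype]
        exact hMP a.2
      obtain ⟨b, hb, hbe⟩ := h2
      rwa [show b = (⟨a, hMle a.2⟩ : P) from Subtype.ext hbe] at hb
    exact MonoidHom.mem_ker.1 (Abelianization.commutator_subset_ker μ h1)
  -- the trivial character is a constituent of the restriction to `M`
  haveI : Finite (IrrCharacter P) := irr_finite
  obtain ⟨c, hc, hcs⟩ := exists_eq_sum_nsmul hresP
  have he : ∀ φ : IrrCharacter P, ∃ e : ℕ,
      classInner (fun k : M => (φ : P → ℂ) ⟨k, hMle k.2⟩) (fun _ : M => (1 : ℂ)) = e :=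
    fun φ => exists_classInner_eq_nat
      (isCharacter_comp (irr_isCharacter φ) (Subgroup.inclusion hMle)) isCharacter_one
  choose e he using he
  let μ' : IrrCharacter P := ⟨_, isIrrCharacter_hom μ⟩
  have hcμ : c μ' ≠ 0 := fun h0 => hμ (((classInner_congr_fintype _ _ _ _).trans (hc μ')).trans
    (by rw [h0, Nat.cast_zero]))
  have heμ : e μ' = 1 := by
    have h6 : classInner (fun k : M => (μ ⟨k, hMle k.2⟩ : ℂ)) (fun _ : M => (1 : ℂ)) = 1 := by
      simp only [hμM, Units.val_one]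
      exact classInner_self_irr isIrrCharacter_one
    exact_mod_cast ((he μ').symm.trans h6 : (e μ' : ℂ) = 1)
  have hone : classInner (fun k : M => (χ : G → ℂ) k) (fun _ : M => (1 : ℂ)) ≠ 0 := by
    have hr : (fun k : M => (χ : G → ℂ) k) =
        ∑ φ : IrrCharacter P, (c φ : ℂ) • fun k : M => (φ : P → ℂ) ⟨k, hMle k.2⟩ := by
      funext k
      have := congrFun hcs ⟨(k : G), hMle k.2⟩
      simpa [Finset.sum_apply, nsmul_eq_mul] using this
    rw [hr, classInner_sum_left]
    simp only [classInner_smul_left, he]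
    intro h0
    have h4 : ∑ φ : IrrCharacter P, c φ * e φ = 0 := by exact_mod_cast h0
    have h7 := (Finset.sum_eq_zero_iff.1 h4) μ' (Finset.mem_univ _)
    rw [heμ, mul_one] at h7
    exact hcμ h7
  obtain ⟨z, hz⟩ := Chars2.clifford_constituent χ.2 (isIrrCharacter_hom lam) hover
    isIrrCharacter_one hone
  refine hlam (MonoidHom.ext fun a => ?_)
  have h1 := congrFun hz ⟨z * (a : G) * z⁻¹, hM.conj_mem _ a.2 z⟩
  rw [Chars2.conjFun_apply] at h1
  have h2 : (lam a : ℂ) = 1 := by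
    rw [h1]
    congr 2
    exact Subtype.ext (by simp only [inv_inv]; group)
  exact Units.val_eq_one.1 h2

end Cfsg.Agent.Chars.RealPPrime
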