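import Mathlib.LinearAlgebra.Matrix.Rank
import Mathlib.LinearAlgebra.Matrix.ToLin

/-!
Counting orbits of length invertible in a field, for two permuted bases of the same module.
-/

set_option autoImplicit false

set_option linter.style.haveILetI false

namespace Cfsg.Agent.Chars.RealPPrime

open Matrix

variable {F : Type*} [Field F] {X Y A B : Type*} [Fintype X] [Fintype Y] [Fintype A] [Fintype B]

/-- A pair of permutations preserving two fibrations and two matrices. -/
def Sym (U : Matrix X Y F) (V : Matrix Y X F) (πX : X → A) (πY : Y → B)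
    (σ : Equiv.Perm X) (τ : Equiv.Perm Y) : Prop :=
  (∀ z, πX (σ z) = πX z) ∧ (∀ w, πY (τ w) = πY w) ∧
    (∀ z w, U (σ z) (τ w) = U z w) ∧ (∀ z w, V (τ w) (σ z) = V w z)

open Classical in
/-- The size of a fibre. -/
noncomputable def fibCard (π : X → A) (a : A) : ℕ := (Finset.univ.filter fun x => π x = a).card

open Classical in
theorem rank_fibre_le [DecidableEq X] [DecidableEq Y] (U : Matrix X Y F) (V : Matrix Y X F) (hUV : U * V = 1)
    (πX : X → A) (πY : Y → B) (hA : Function.Surjective πX) (hB : Function.Surjective πY)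
    (hX : ∀ x x', πX x = πX x' → ∃ σ τ, Sym U V πX πY σ τ ∧ σ x = x')
    (hY : ∀ y y', πY y = πY y' → ∃ σ τ, Sym U V πX πY σ τ ∧ τ y = y') :
    Fintype.card {a : A // (fibCard πX a : F) ≠ 0} ≤
      Fintype.card {b : B // (fibCard πY b : F) ≠ 0} := by
  choose sA hsA using hA
  choose sB hsB using hB
  let U1 : Matrix A B F := fun a b => ∑ y with πY y = b, U (sA a) y
  let U2 : Matrix A B F := fun a b => ∑ x with πX x = a, U x (sB b)
  let V1 : Matrix B A F := fun b a => ∑ x with πX x = a, V (sB b) x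
  have hrow : ∀ x a, πX x = a → ∀ b, ∑ y with πY y = b, U x y = U1 a b := by
    intro x a hxa b
    obtain ⟨σ, τ, ⟨-, h2, h3, -⟩, hσ⟩ := hX (sA a) x (by rw [hsA, hxa])
    symm
    refine Finset.sum_equiv τ (fun y => ?_) (fun y _ => ?_)
    · simp only [Finset.mem_filter, Finset.mem_univ, true_and, h2]
    · rw [← hσ, h3]
  have hcolU : ∀ y b, πY y = b → ∀ a, ∑ x with πX x = a, U x y = U2 a b := by
    intro y b hyb a
    obtain ⟨σ, τ, ⟨h1, -, h3, -⟩, hτ⟩ := hY (sB b) y (by rw [hsB, hyb])
    symm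
    refine Finset.sum_equiv σ (fun x => ?_) (fun x _ => ?_)
    · simp only [Finset.mem_filter, Finset.mem_univ, true_and, h1]
    · rw [← hτ, h3]
  have hrowV : ∀ y b, πY y = b → ∀ a, ∑ x with πX x = a, V y x = V1 b a := by
    intro y b hyb a
    obtain ⟨σ, τ, ⟨h1, -, -, h4⟩, hτ⟩ := hY (sB b) y (by rw [hsB, hyb])
    symm
    refine Finset.sum_equiv σ (fun x => ?_) (fun x _ => ?_)
    · simp only [Finset.mem_filter, Finset.mem_univ, true_and, h1]
    · rw [← hτ, h4]
  have hinv : U1 * V1 = 1 := by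
    ext a a'
    calc (U1 * V1) a a' = ∑ b, ∑ y with πY y = b, U (sA a) y * ∑ x with πX x = a', V y x := by
          rw [Matrix.mul_apply]
          refine Finset.sum_congr rfl fun b _ => ?_
          show (∑ y with πY y = b, U (sA a) y) * V1 b a' = _
          rw [Finset.sum_mul]
          exact Finset.sum_congr rfl fun y hy => by rw [hrowV y b (Finset.mem_filter.1 hy).2]
      _ = ∑ y, U (sA a) y * ∑ x with πX x = a', V y x :=
          Finset.sum_fiberwise Finset.univ πY fun y => U (sA a) y * ∑ x with πX x = a', V y x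
      _ = ∑ x with πX x = a', (U * V) (sA a) x := by
          simp only [Matrix.mul_apply, Finset.mul_sum]
          exact Finset.sum_comm
      _ = (1 : Matrix A A F) a a' := by
          rw [hUV]
          simp only [Matrix.one_apply, Finset.sum_ite_eq, Finset.mem_filter, Finset.mem_univ,
            true_and, hsA]
  have hcomm : diagonal (fun a => (fibCard πX a : F)) * U1 =
      U2 * diagonal (fun b => (fibCard πY b : F)) := by
    ext a b
    rw [diagonal_mul, mul_diagonal]
    have h1 : ∑ x with πX x = a, ∑ y with πY y = b, U x y = (fibCard πX a : F) * U1 a b := by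
      rw [Finset.sum_congr rfl fun x hx => hrow x a (Finset.mem_filter.1 hx).2 b, Finset.sum_const,
        nsmul_eq_mul, fibCard]
    have h2 : ∑ y with πY y = b, ∑ x with πX x = a, U x y = (fibCard πY b : F) * U2 a b := by
      rw [Finset.sum_congr rfl fun y hy => hcolU y b (Finset.mem_filter.1 hy).2 a, Finset.sum_const,
        nsmul_eq_mul, fibCard]
    exact h1.symm.trans (Finset.sum_comm.trans (h2.trans (mul_comm _ _)))
  rw [← Matrix.rank_diagonal (fun a => (fibCard πX a : F)),
    ← Matrix.rank_diagonal (fun b => (fibCard πY b : F))]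
  calc (diagonal fun a => (fibCard πX a : F)).rank
      = (diagonal (fun a => (fibCard πX a : F)) * U1 * V1).rank := by
        rw [Matrix.mul_assoc, hinv, Matrix.mul_one]
    _ ≤ (diagonal (fun a => (fibCard πX a : F)) * U1).rank := Matrix.rank_mul_le_left _ _
    _ ≤ _ := by rw [hcomm]; exact Matrix.rank_mul_le_right _ _

open Classical in
theorem card_fibre_eq [DecidableEq X] [DecidableEq Y] (U : Matrix X Y F) (V : Matrix Y X F) (hUV : U * V = 1) (hVU : V * U = 1)
    (πX : X → A) (πY : Y → B) (hA : Function.Surjective πX) (hB : Function.Surjective πY)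
    (hX : ∀ x x', πX x = πX x' → ∃ σ τ, Sym U V πX πY σ τ ∧ σ x = x')
    (hY : ∀ y y', πY y = πY y' → ∃ σ τ, Sym U V πX πY σ τ ∧ τ y = y') :
    Fintype.card {a : A // (fibCard πX a : F) ≠ 0} =
      Fintype.card {b : B // (fibCard πY b : F) ≠ 0} := by
  refine le_antisymm (rank_fibre_le U V hUV πX πY hA hB hX hY)
    (rank_fibre_le V U hVU πY πX hB hA (fun y y' h => ?_) (fun x x' h => ?_))
  · obtain ⟨σ, τ, ⟨h1, h2, h3, h4⟩, hτ⟩ := hY y y' h
    exact ⟨τ, σ, ⟨h2, h1, fun w z => h4 z w, fun w z => h3 z w⟩, hτ⟩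
  · obtain ⟨σ, τ, ⟨h1, h2, h3, h4⟩, hσ⟩ := hX x x' h
    exact ⟨τ, σ, ⟨h2, h1, fun w z => h4 z w, fun w z => h3 z w⟩, hσ⟩

section Orbits

variable {G : Type*} [Group G] {Z : Type*} [Fintype Z] (e : G →* Equiv.Perm Z) (j : Equiv.Perm Z)

/-- Orbits. -/
def rel0 : Setoid Z where
  r x x' := ∃ g, e g x = x'
  iseqv :=
    { refl := fun x => ⟨1, by simp⟩
      symm := fun {x x'} ⟨g, hg⟩ => ⟨g⁻¹, by rw [← hg]; simp⟩
      trans := fun {x y z} ⟨g, hg⟩ ⟨h, hh⟩ => ⟨h * g, by rw [← hh, ← hg]; simp⟩ }

variable {e j}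
variable (hj2 : ∀ x, j (j x) = x) (hcomm : ∀ g x, j (e g x) = e g (j x))

/-- Orbits of the group extended by the involution `j`. -/
def rel1 (hj2 : ∀ x, j (j x) = x) (hcomm : ∀ g x, j (e g x) = e g (j x)) : Setoid Z where
  r x x' := ∃ g, e g x = x' ∨ e g (j x) = x'
  iseqv :=
    { refl := fun x => ⟨1, Or.inl (by simp)⟩
      symm := fun {x x'} ⟨g, hg⟩ => by
        refine ⟨g⁻¹, ?_⟩
        rcases hg with hg | hg
        · left; rw [← hg]; simp
        · right; rw [← hg, hcomm, hj2]; simp
      trans := fun {x y z} ⟨g, hg⟩ ⟨h, hh⟩ => by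
        refine ⟨h * g, ?_⟩
        rcases hg with hg | hg <;> rcases hh with hh | hh
        · left; rw [← hh, ← hg]; simp
        · right; rw [← hh, ← hg, hcomm]; simp
        · right; rw [← hh, ← hg]; simp
        · left; rw [← hh, ← hg, hcomm, hj2]; simp }

/-- The involution on orbits. -/
def jmap : Quotient (rel0 e) → Quotient (rel0 e) :=
  Quotient.map j (fun x x' ⟨g, hg⟩ => ⟨g, by rw [← hcomm, hg]⟩)

open Classical in
theorem fibCard_jmap (a : Quotient (rel0 e)) :
    fibCard (Quotient.mk (rel0 e)) (jmap hcomm a) = fibCard (Quotient.mk (rel0 e)) a := by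
  refine (Finset.card_equiv j fun x => ?_).symm
  simp only [Finset.mem_filter, Finset.mem_univ, true_and]
  induction a using Quotient.inductionOn with | h a => ?_
  show _ ↔ Quotient.mk (rel0 e) (j x) = Quotient.mk (rel0 e) (j a)
  rw [Quotient.eq, Quotient.eq]
  exact ⟨fun ⟨g, hg⟩ => ⟨g, by rw [← hcomm, hg]⟩,
    fun ⟨g, hg⟩ => ⟨g, by rw [← hcomm] at hg; exact j.injective hg⟩⟩

open Classical in
/-- Counting orbits of nonzero length. -/
theorem cnt_zero_add_real (h2 : (2 : F) ≠ 0) :
    Nat.card {a : Quotient (rel0 e) // (fibCard (Quotient.mk (rel0 e)) a : F) ≠ 0} +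
      Nat.card {a : Quotient (rel0 e) //
        (fibCard (Quotient.mk (rel0 e)) a : F) ≠ 0 ∧ jmap hcomm a = a} =
    2 * Nat.card {b : Quotient (rel1 hj2 hcomm) //
        (fibCard (Quotient.mk (rel1 hj2 hcomm)) b : F) ≠ 0} := by
  let q : Quotient (rel0 e) → Quotient (rel1 hj2 hcomm) :=
    Quotient.map id (fun x x' ⟨g, hg⟩ => ⟨g, Or.inl hg⟩)
  have hq : ∀ a a', q a' = q a ↔ a' = a ∨ a' = jmap hcomm a := by
    intro a a'
    induction a using Quotient.inductionOn with | h x => ?_
    induction a' using Quotient.inductionOn with | h x' => ?_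
    show Quotient.mk (rel1 hj2 hcomm) x' = Quotient.mk (rel1 hj2 hcomm) x ↔
      Quotient.mk (rel0 e) x' = Quotient.mk (rel0 e) x ∨
      Quotient.mk (rel0 e) x' = Quotient.mk (rel0 e) (j x)
    rw [eq_comm, eq_comm (a := Quotient.mk (rel0 e) x'),
      eq_comm (a := Quotient.mk (rel0 e) x'), Quotient.eq, Quotient.eq, Quotient.eq]
    exact exists_or
  have hsize : ∀ a, fibCard (Quotient.mk (rel1 hj2 hcomm)) (q a) =
      if jmap hcomm a = a then fibCard (Quotient.mk (rel0 e)) a
      else 2 * fibCard (Quotient.mk (rel0 e)) a := by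
    intro a
    have e1 : (Finset.univ.filter fun x => Quotient.mk (rel1 hj2 hcomm) x = q a) =
        (Finset.univ.filter fun x => Quotient.mk (rel0 e) x = a) ∪
          (Finset.univ.filter fun x => Quotient.mk (rel0 e) x = jmap hcomm a) := by
      ext x
      simp only [Finset.mem_filter, Finset.mem_univ, true_and, Finset.mem_union]
      exact hq a (Quotient.mk (rel0 e) x)
    have e2 : fibCard (Quotient.mk (rel1 hj2 hcomm)) (q a) =
        ((Finset.univ.filter fun x => Quotient.mk (rel0 e) x = a) ∪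
          (Finset.univ.filter fun x => Quotient.mk (rel0 e) x = jmap hcomm a)).card := by
      rw [fibCard]; convert congrArg Finset.card e1 using 2 <;> congr!
    have h3 : ∀ c, (Finset.univ.filter fun x => Quotient.mk (rel0 e) x = c).card =
        fibCard (Quotient.mk (rel0 e)) c := fun c => by rw [fibCard]; congr!
    rw [e2]
    split_ifs with h
    · rw [h, Finset.union_self, h3]
    · rw [Finset.card_union_of_disjoint]
      · rw [h3, h3, fibCard_jmap]; omega
      · rw [Finset.disjoint_filter]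
        intro x _ h1 h2'
        exact h (h2'.symm.trans h1)
  have hnz : ∀ a, (fibCard (Quotient.mk (rel1 hj2 hcomm)) (q a) : F) ≠ 0 ↔
      (fibCard (Quotient.mk (rel0 e)) a : F) ≠ 0 := by
    intro a
    rw [hsize]
    split_ifs with h
    · rfl
    · rw [Nat.cast_mul, mul_ne_zero_iff]
      exact ⟨fun h => h.2, fun h => ⟨by exact_mod_cast h2, h⟩⟩
  haveI : Fintype (Quotient (rel0 e)) := Fintype.ofFinite _
  haveI : Fintype (Quotient (rel1 hj2 hcomm)) := Fintype.ofFinite _
  simp only [Nat.card_eq_fintype_card, Fintype.card_subtype]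
  set sA := Finset.univ.filter fun a : Quotient (rel0 e) =>
    (fibCard (Quotient.mk (rel0 e)) a : F) ≠ 0 with hsA
  set sB := Finset.univ.filter fun b : Quotient (rel1 hj2 hcomm) =>
    (fibCard (Quotient.mk (rel1 hj2 hcomm)) b : F) ≠ 0 with hsB
  have h1 : sA.card + (Finset.univ.filter fun a : Quotient (rel0 e) =>
      (fibCard (Quotient.mk (rel0 e)) a : F) ≠ 0 ∧ jmap hcomm a = a).card =
      ∑ a ∈ sA, (1 + if jmap hcomm a = a then 1 else 0) := by
    rw [Finset.sum_add_distrib, ← Finset.card_eq_sum_ones, Finset.sum_boole, Nat.cast_id, hsA,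
      Finset.filter_filter]
  rw [h1, ← Finset.sum_fiberwise_of_maps_to (t := sB) (g := q) (fun a ha => by
    rw [hsB, Finset.mem_filter]
    exact ⟨Finset.mem_univ _, (hnz a).2 (Finset.mem_filter.1 ha).2⟩),
    mul_comm, ← smul_eq_mul, ← Finset.sum_const]
  refine Finset.sum_congr rfl fun b hb => ?_
  obtain ⟨x, rfl⟩ := Quotient.mk_surjective b
  set a := Quotient.mk (rel0 e) x with ha
  have hab : Quotient.mk (rel1 hj2 hcomm) x = q a := rfl
  rw [hab] at hb ⊢
  have hfib : sA.filter (fun a' => q a' = q a) = {a, jmap hcomm a} := by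
    ext a'
    simp only [Finset.mem_filter, Finset.mem_insert, Finset.mem_singleton]
    refine ⟨fun h => (hq a a').1 h.2, fun h => ⟨?_, (hq a a').2 h⟩⟩
    rw [hsA, Finset.mem_filter]
    refine ⟨Finset.mem_univ _, (hnz a').1 ?_⟩
    rw [(hq a a').2 h]
    exact (Finset.mem_filter.1 hb).2
  have hjj : jmap hcomm (jmap hcomm a) = a := congrArg (Quotient.mk (rel0 e)) (hj2 x)
  rw [hfib]
  by_cases h : jmap hcomm a = a
  · rw [h, Finset.pair_eq_singleton, Finset.sum_singleton, if_pos h]
  · rw [Finset.sum_pair (Ne.symm h), if_neg h, if_neg (fun h' => h (by rw [hjj] at h'; exact h'.symm))]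

end Orbits

end Cfsg.Agent.Chars.RealPPrime
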