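import Cfsg.Agent.Chars.RealPPrimeSylow
import Cfsg.Agent.Chars.RealPPrimeOrbits
import Cfsg.Agent.DegreeGraph.Permutation
import Cfsg.Agent.DegreeGraph.AbelianNormal

/-!
Real classes meet the normalizer of a Sylow subgroup when all real characters have degree prime to
`p`.
-/

set_option autoImplicit false
set_option linter.style.haveILetI false

namespace Cfsg.Agent.Chars.RealPPrime

open DegreeGraph
open scoped ComplexConjugate

variable {G : Type*} [Group G] (K : Subgroup G) [hK : K.Normal]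

/-- The action on characters. -/
noncomputable def eX : G →* Equiv.Perm (IrrCharacter K) := irrPerm.comp MulAut.conjNormal

/-- The action on classes. -/
noncomputable def eY : G →* Equiv.Perm (ConjClasses K) := clsPerm.comp MulAut.conjNormal

theorem eX_apply (g : G) (θ : IrrCharacter K) (k : K) :
    (eX K g θ : K → ℂ) k = (θ : K → ℂ) ((MulAut.conjNormal g).symm k) := rfl

theorem eY_mk (g : G) (k : K) : eY K g (ConjClasses.mk k) = ConjClasses.mk (MulAut.conjNormal g k) :=
  rfl

theorem clsInv_clsInv (C : ConjClasses K) : clsInv (clsInv C) = C := by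
  induction C using Quotient.inductionOn with | h k => ?_
  show ConjClasses.mk k⁻¹⁻¹ = ConjClasses.mk k
  rw [inv_inv]

theorem eY_comm (g : G) (C : ConjClasses K) : clsInv (eY K g C) = eY K g (clsInv C) :=
  DFunLike.congr_fun (clsInv_comm (MulAut.conjNormal g)) C

variable [Finite G]

theorem irrStar_irrStar (θ : IrrCharacter K) : irrStar (irrStar θ) = θ :=
  Subtype.ext (funext fun _ => Complex.conj_conj _)

theorem eX_comm (g : G) (θ : IrrCharacter K) : irrStar (eX K g θ) = eX K g (irrStar θ) := rfl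

/-- An orbit invariant under conjugation consists of fixed points. -/
theorem fixed_of_orbit {Z : Type*} (e : G →* Equiv.Perm Z) (j : Equiv.Perm Z) {m : ℕ}
    (hm : Odd m) (hpow : ∀ g : G, e g ^ m = 1) (hj2 : ∀ x, j (j x) = x)
    (hcomm : ∀ g x, j (e g x) = e g (j x)) (x : Z) :
    (∃ g, e g (j x) = x) ↔ j x = x := by
  refine ⟨fun ⟨g, hg⟩ => ?_, fun h => ⟨1, by simp [h]⟩⟩
  exact ((mul_apply_eq_iff (σ := e g) (τ := j) (Equiv.ext (hcomm g)) hj2 hm (hpow g) x).1 hg).2

theorem eX_pow (hodd : Odd K.index) (g : G) : eX K g ^ K.index = 1 := by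
  rw [← map_pow]
  refine Equiv.ext fun θ => Subtype.ext (funext fun k => ?_)
  rw [eX_apply, Equiv.Perm.one_apply]
  refine Blocks.isClassFunction_eq (Chars.isClassFunction_irr θ)
    (isConj_iff.2 ⟨(⟨g ^ K.index, K.pow_index_mem g⟩ : K)⁻¹, Subtype.ext ?_⟩)
  show (g ^ K.index)⁻¹ * (k : G) * (g ^ K.index)⁻¹⁻¹ =
    (((MulAut.conjNormal (g ^ K.index)).symm k : K) : G)
  rw [MulAut.conjNormal_symm_apply, inv_inv]

theorem eY_pow (g : G) : eY K g ^ K.index = 1 := by
  rw [← map_pow]
  refine Equiv.ext fun C => ?_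
  induction C using Quotient.inductionOn with | h k => ?_
  show ConjClasses.mk (MulAut.conjNormal (g ^ K.index) k) = ConjClasses.mk k
  rw [ConjClasses.mk_eq_mk_iff_isConj]
  exact (isConj_iff.2 ⟨(⟨g ^ K.index, K.pow_index_mem g⟩ : K),
    Subtype.ext (MulAut.conjNormal_apply _ k).symm⟩).symm

section Matrices

variable {F : Type*} [Field F] (ρ : AlgInt →+* F)

open Classical in
/-- The number of elements of a class. -/
noncomputable def clsSize [Fintype K] (C : ConjClasses K) : ℕ :=
  (Finset.univ.filter fun k : K => ConjClasses.mk k = C).card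

/-- An algebraic integer of value a character value. -/
noncomputable def valInt (θ : IrrCharacter K) (k : K) : AlgInt :=
  ⟨(θ : K → ℂ) k, Chars.isIntegral_of_isCharacter (Chars.irr_isCharacter θ) k⟩

theorem valInt_coe (θ : IrrCharacter K) (k : K) : (valInt K θ k : ℂ) = (θ : K → ℂ) k := rfl

/-- The character table. -/
noncomputable def tabU : Matrix (IrrCharacter K) (ConjClasses K) F := fun θ C =>
  ρ (valInt K θ (Blocks.clsRep C))

/-- The inverse of the character table. -/
noncomputable def tabV [Fintype K] : Matrix (ConjClasses K) (IrrCharacter K) F := fun C θ =>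
  ρ (valInt K θ (Blocks.clsRep C)⁻¹) * ((clsSize K C : F) / (Nat.card K : F))

variable {K ρ}

theorem tabU_mk (θ : IrrCharacter K) (k : K) :
    tabU K ρ θ (ConjClasses.mk k) = ρ (valInt K θ k) :=
  congrArg ρ (Subtype.ext (apply_clsRep θ k))

theorem tabV_mk [Fintype K] (θ : IrrCharacter K) (k : K) :
    tabV K ρ (ConjClasses.mk k) θ =
      ρ (valInt K θ k⁻¹) * ((clsSize K (ConjClasses.mk k) : F) / (Nat.card K : F)) := by
  unfold tabV
  congr 2
  apply Subtype.ext
  rw [valInt_coe, valInt_coe]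
  exact Blocks.isClassFunction_eq (Chars.isClassFunction_irr θ) (by
    obtain ⟨c, hc⟩ := isConj_iff.1 (ConjClasses.mk_eq_mk_iff_isConj.1
      (Blocks.mk_clsRep (ConjClasses.mk k)))
    generalize Blocks.clsRep (ConjClasses.mk k) = r at hc ⊢
    subst hc
    exact isConj_iff.2 ⟨c⁻¹, by group⟩)

theorem clsSize_eq [Fintype K] (f : K ≃ K) {g : ConjClasses K → ConjClasses K}
    (hg : ∀ k, ConjClasses.mk (f k) = g (ConjClasses.mk k)) (hinj : Function.Injective g)
    (C : ConjClasses K) : clsSize K (g C) = clsSize K C := by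
  classical
  refine (Finset.card_equiv f fun k => ?_).symm
  simp only [Finset.mem_filter, Finset.mem_univ, true_and, hg]
  exact hinj.eq_iff.symm

theorem tabV_tabU [Fintype K] [Fintype (IrrCharacter K)] [DecidableEq (ConjClasses K)]
    (hK0 : (Nat.card K : F) ≠ 0) : tabV K ρ * tabU K ρ = 1 := by
  classical
  ext C C'
  obtain ⟨k, rfl⟩ := ConjClasses.mk_surjective C
  obtain ⟨k', rfl⟩ := ConjClasses.mk_surjective C'
  rw [Matrix.mul_apply]
  simp only [tabV_mk, tabU_mk]
  rw [Finset.sum_congr rfl (g := fun θ => ρ (valInt K θ k' * valInt K θ k⁻¹) *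
    ((clsSize K (ConjClasses.mk k) : F) / (Nat.card K : F))) (fun θ _ => by rw [map_mul]; ring),
    ← Finset.sum_mul, ← map_sum]
  have hsum : ∑ θ : IrrCharacter K, valInt K θ k' * valInt K θ k⁻¹ =
      if IsConj k' k then (Nat.card (Subgroup.centralizer ({k'} : Set K)) : AlgInt) else 0 := by
    apply Subtype.ext
    push_cast
    have h1 : ((if IsConj k' k then (Nat.card (Subgroup.centralizer ({k'} : Set K)) : AlgInt)
        else 0 : AlgInt) : ℂ) =
        if IsConj k' k then (Nat.card (Subgroup.centralizer ({k'} : Set K)) : ℂ) else 0 := by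
      split_ifs <;> simp
    rw [h1, ← Chars.column_orth k' k]
    refine Finset.sum_congr (by ext; simp) fun θ _ => ?_
    rw [valInt_coe, valInt_coe, Chars.char_inv_eq_conj (Chars.irr_isCharacter θ)]
  rw [hsum, Matrix.one_apply]
  by_cases h : IsConj k' k
  · have hk : ConjClasses.mk k = ConjClasses.mk k' :=
      (ConjClasses.mk_eq_mk_iff_isConj.2 h).symm
    rw [if_pos h, if_pos hk, map_natCast, mul_div_assoc', div_eq_one_iff_eq hK0, hk,
      ← Nat.cast_mul]
    congr 1
    have h2 : clsSize K (ConjClasses.mk k') = (Subgroup.centralizer ({k'} : Set K)).index := by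
      rw [clsSize, ← Chars.card_filter_isConj]
      congr 1
      ext x
      simp only [Finset.mem_filter, Finset.mem_univ, true_and, ConjClasses.mk_eq_mk_iff_isConj]
      exact isConj_comm
    rw [h2, Subgroup.card_mul_index]
  · rw [if_neg h, map_zero, zero_mul,
      if_neg (fun hk => h (ConjClasses.mk_eq_mk_iff_isConj.1 hk).symm)]

theorem tabU_eX (g : G) (θ : IrrCharacter K) (C : ConjClasses K) :
    tabU K ρ (eX K g θ) (eY K g C) = tabU K ρ θ C := by
  obtain ⟨k, rfl⟩ := ConjClasses.mk_surjective C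
  rw [eY_mk, tabU_mk, tabU_mk]
  exact congrArg ρ (Subtype.ext (by rw [valInt_coe, valInt_coe, eX_apply, MulEquiv.symm_apply_apply]))

theorem tabV_eX [Fintype K] (g : G) (θ : IrrCharacter K) (C : ConjClasses K) :
    tabV K ρ (eY K g C) (eX K g θ) = tabV K ρ C θ := by
  obtain ⟨k, rfl⟩ := ConjClasses.mk_surjective C
  have hs : clsSize K (eY K g (ConjClasses.mk k)) = clsSize K (ConjClasses.mk k) :=
    clsSize_eq (MulAut.conjNormal g).toEquiv (fun _ => rfl) (eY K g).injective _
  rw [eY_mk] at hs ⊢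
  rw [tabV_mk, tabV_mk, hs]
  congr 2
  exact Subtype.ext (by rw [valInt_coe, valInt_coe, eX_apply, ← map_inv, MulEquiv.symm_apply_apply])

theorem tabU_star (θ : IrrCharacter K) (C : ConjClasses K) :
    tabU K ρ (irrStar θ) (clsInv C) = tabU K ρ θ C := by
  obtain ⟨k, rfl⟩ := ConjClasses.mk_surjective C
  rw [clsInv_mk, tabU_mk, tabU_mk]
  exact congrArg ρ (Subtype.ext (by rw [valInt_coe, valInt_coe, irrStar_apply, inv_inv]))

theorem tabV_star [Fintype K] (θ : IrrCharacter K) (C : ConjClasses K) :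
    tabV K ρ (clsInv C) (irrStar θ) = tabV K ρ C θ := by
  obtain ⟨k, rfl⟩ := ConjClasses.mk_surjective C
  have hs : clsSize K (clsInv (ConjClasses.mk k)) = clsSize K (ConjClasses.mk k) :=
    clsSize_eq (Equiv.inv K) (fun _ => rfl) clsInv.injective _
  rw [clsInv_mk] at hs ⊢
  rw [tabV_mk, tabV_mk, hs]
  congr 2
  exact Subtype.ext (by rw [valInt_coe, valInt_coe, irrStar_apply, inv_inv])

end Matrices

open Classical in
/-- As many real orbits of length nonzero in `F` on characters as on classes. -/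
theorem card_real_orbits_eq {F : Type*} [Field F] (ρ : AlgInt →+* F)
    (hK0 : (Nat.card K : F) ≠ 0) (h2 : (2 : F) ≠ 0) [Fintype (IrrCharacter K)]
    [Fintype (ConjClasses K)] :
    Nat.card {a : Quotient (rel0 (eX K)) //
        (fibCard (Quotient.mk (rel0 (eX K))) a : F) ≠ 0 ∧ jmap (eX_comm K) a = a} =
      Nat.card {b : Quotient (rel0 (eY K)) //
        (fibCard (Quotient.mk (rel0 (eY K))) b : F) ≠ 0 ∧ jmap (eY_comm K) b = b} := by
  haveI : Fintype G := Fintype.ofFinite G
  haveI : Fintype K := Fintype.ofFinite K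
  haveI : Fintype (Quotient (rel0 (eX K))) := Fintype.ofFinite _
  haveI : Fintype (Quotient (rel0 (eY K))) := Fintype.ofFinite _
  haveI : Fintype (Quotient (rel1 (irrStar_irrStar K) (eX_comm K))) := Fintype.ofFinite _
  haveI : Fintype (Quotient (rel1 (clsInv_clsInv K) (eY_comm K))) := Fintype.ofFinite _
  have hcard : Nat.card (IrrCharacter K) = Nat.card (ConjClasses K) :=
    Chars.card_irr_eq_card_conjClasses
  obtain ⟨eq⟩ : Nonempty (IrrCharacter K ≃ ConjClasses K) :=
    Fintype.card_eq.1 (by rwa [← Nat.card_eq_fintype_card, ← Nat.card_eq_fintype_card])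
  have hVU : tabV K ρ * tabU K ρ = 1 := tabV_tabU hK0
  have hUV : tabU K ρ * tabV K ρ = 1 := (Matrix.mul_eq_one_comm_of_equiv eq.symm).1 hVU
  have sym0 : ∀ g : G, Sym (tabU K ρ) (tabV K ρ) (Quotient.mk (rel0 (eX K)))
      (Quotient.mk (rel0 (eY K))) (eX K g) (eY K g) := fun g =>
    ⟨fun z => (Quotient.sound (s := rel0 (eX K)) ⟨g, rfl⟩).symm,
      fun w => (Quotient.sound (s := rel0 (eY K)) ⟨g, rfl⟩).symm,
      tabU_eX g, fun z w => tabV_eX g z w⟩
  have h0 := card_fibre_eq (tabU K ρ) (tabV K ρ) hUV hVU (Quotient.mk (rel0 (eX K)))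
    (Quotient.mk (rel0 (eY K))) Quotient.mk_surjective
    Quotient.mk_surjective
    (fun x x' h => by
      obtain ⟨g, hg⟩ := Quotient.exact h
      exact ⟨eX K g, eY K g, sym0 g, hg⟩)
    (fun y y' h => by
      obtain ⟨g, hg⟩ := Quotient.exact h
      exact ⟨eX K g, eY K g, sym0 g, hg⟩)
  have sym1 : ∀ g : G, Sym (tabU K ρ) (tabV K ρ)
      (Quotient.mk (rel1 (irrStar_irrStar K) (eX_comm K)))
      (Quotient.mk (rel1 (clsInv_clsInv K) (eY_comm K))) (eX K g) (eY K g) := fun g =>
    ⟨fun z => (Quotient.sound (s := rel1 (irrStar_irrStar K) (eX_comm K)) ⟨g, Or.inl rfl⟩).symm,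
      fun w => (Quotient.sound (s := rel1 (clsInv_clsInv K) (eY_comm K)) ⟨g, Or.inl rfl⟩).symm,
      tabU_eX g, fun z w => tabV_eX g z w⟩
  have sym2 : ∀ g : G, Sym (tabU K ρ) (tabV K ρ)
      (Quotient.mk (rel1 (irrStar_irrStar K) (eX_comm K)))
      (Quotient.mk (rel1 (clsInv_clsInv K) (eY_comm K)))
      (eX K g * irrStar) (eY K g * clsInv) := fun g =>
    ⟨fun z => (Quotient.sound (s := rel1 (irrStar_irrStar K) (eX_comm K)) ⟨g, Or.inr rfl⟩).symm,
      fun w => (Quotient.sound (s := rel1 (clsInv_clsInv K) (eY_comm K)) ⟨g, Or.inr rfl⟩).symm,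
      fun z w => (tabU_eX g _ _).trans (tabU_star z w),
      fun z w => (tabV_eX g _ _).trans (tabV_star z w)⟩
  have h1 := card_fibre_eq (tabU K ρ) (tabV K ρ) hUV hVU
    (Quotient.mk (rel1 (irrStar_irrStar K) (eX_comm K)))
    (Quotient.mk (rel1 (clsInv_clsInv K) (eY_comm K))) Quotient.mk_surjective
    Quotient.mk_surjective
    (fun x x' h => by
      obtain ⟨g, hg | hg⟩ := Quotient.exact h
      · exact ⟨eX K g, eY K g, sym1 g, hg⟩
      · exact ⟨_, _, sym2 g, hg⟩)
    (fun y y' h => by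
      obtain ⟨g, hg | hg⟩ := Quotient.exact h
      · exact ⟨eX K g, eY K g, sym1 g, hg⟩
      · exact ⟨_, _, sym2 g, hg⟩)
  rw [← Nat.card_eq_fintype_card, ← Nat.card_eq_fintype_card] at h0 h1
  have hX := cnt_zero_add_real (F := F) (irrStar_irrStar K) (eX_comm K) h2
  have hY := cnt_zero_add_real (F := F) (clsInv_clsInv K) (eY_comm K) h2
  omega

/-- A real character of a normal subgroup of odd index lies under a real character of the group. -/
theorem exists_real_above_real [Fintype G] [Fintype K] (hodd : Odd K.index) (θ : IrrCharacter K)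
    (hθ : ∀ k, ((θ : K → ℂ) k).im = 0) :
    ∃ χ : IrrCharacter G, (∀ g, ((χ : G → ℂ) g).im = 0) ∧
      (Chars2.inertiaSub (θ : K → ℂ)).index ∣ charDegree (χ : G → ℂ) := by
  classical
  set T := Chars2.inertiaSub (θ : K → ℂ) with hT
  have hKT : K ≤ T := Chars2.le_inertiaSub (isClassFunction_irr θ)
  obtain ⟨m, hm, hsum⟩ := exists_eq_sum_nsmul
    (isCharacter_indFun K (irr_isCharacter θ))
  have hmr : ∀ χ : IrrCharacter G, classInner (fun k : K => (χ : G → ℂ) k) (θ : K → ℂ) = m χ :=
    fun χ => by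
      have h1 := hm χ
      rw [classInner_indFun K _ (isClassFunction_irr χ), ← classInner_conj_symm] at h1
      have h2 := congrArg conj h1
      rwa [Complex.conj_conj, map_natCast] at h2
  obtain ⟨d, hd0, hd⟩ := exists_irr_apply_one_eq θ.2
  have hdeg : ∀ χ : IrrCharacter G, m χ ≠ 0 → (χ : G → ℂ) 1 = ((T.index * m χ * d : ℕ) : ℂ) := by
    intro χ hne
    rw [Chars2.clifford_degree χ.2 θ.2 (by rw [hmr]; exact_mod_cast hne), hmr, hd, ← hT]
    push_cast; ring
  have hreal : ∀ g, conj (indFun K (θ : K → ℂ) g) = indFun K (θ : K → ℂ) g := by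
    intro g
    rw [indFun_apply, map_mul, map_sum, map_inv₀, map_natCast]
    congr 1
    refine Finset.sum_congr rfl fun x _ => ?_
    rw [extendByZero_eq_ite]
    split_ifs with h
    · exact Complex.conj_eq_iff_im.2 (hθ _)
    · exact map_zero _
  have hms : ∀ χ, m (irrStar χ) = m χ := by
    intro χ
    have h1 : classInner (indFun K (θ : K → ℂ)) (irrStar χ : G → ℂ) =
        conj (classInner (indFun K (θ : K → ℂ)) (χ : G → ℂ)) := by
      simp only [classInner_def, map_mul, map_sum, map_inv₀, map_natCast, hreal]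
      rfl
    rw [hm, hm, map_natCast] at h1
    exact_mod_cast h1
  have hpar : ∑ χ : IrrCharacter G, m χ ^ 2 = K.relIndex T := by
    have h1 : indFun K (θ : K → ℂ) 1 = ((K.index * d : ℕ) : ℂ) := by
      rw [indFun_apply_one, hd]; push_cast; ring
    have h2 : indFun K (θ : K → ℂ) 1 =
        (((∑ χ : IrrCharacter G, m χ ^ 2) * (T.index * d) : ℕ) : ℂ) := by
      rw [congrFun hsum 1, Finset.sum_apply, Finset.sum_mul, Nat.cast_sum]
      refine Finset.sum_congr (by ext; simp) fun χ _ => ?_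
      rw [Pi.smul_apply, nsmul_eq_mul]
      by_cases h : m χ = 0
      · simp [h]
      · rw [hdeg χ h]; push_cast; ring
    rw [h1, ← Subgroup.relIndex_mul_index hKT] at h2
    have h4 : K.relIndex T * (T.index * d) = (∑ χ : IrrCharacter G, m χ ^ 2) * (T.index * d) := by
      rw [← mul_assoc]; exact_mod_cast h2
    exact (Nat.eq_of_mul_eq_mul_right (Nat.mul_pos
      (Nat.pos_of_ne_zero Subgroup.index_ne_zero_of_finite) hd0) h4).symm
  obtain ⟨χ, hfix, hne⟩ : ∃ χ : IrrCharacter G, irrStar χ = χ ∧ m χ ≠ 0 := by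
    by_contra hnone
    push Not at hnone
    have h0 : ((∑ χ : IrrCharacter G, m χ ^ 2 : ℕ) : ZMod 2) = 0 := by
      rw [Nat.cast_sum]
      refine Finset.sum_involution (fun χ _ => irrStar χ) (fun χ _ => ?_) (fun χ _ hne heq => ?_)
        (fun χ _ => Finset.mem_univ _) (fun χ _ => Subtype.ext (funext fun _ => Complex.conj_conj _))
      · rw [hms]; exact CharTwo.add_self_eq_zero _
      · exact hne (by rw [hnone χ heq]; simp)
    rw [hpar, ZMod.natCast_eq_zero_iff_even] at h0
    refine Nat.not_even_iff_odd.2 (hodd.of_dvd_nat ?_) h0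
    exact ⟨T.index, (Subgroup.relIndex_mul_index hKT).symm⟩
  refine ⟨χ, (irrStar_eq_iff χ).1 hfix, ⟨m χ * d, ?_⟩⟩
  rw [charDegree, hdeg χ hne, Complex.natCast_re, Nat.floor_natCast, mul_assoc]

omit hK in
theorem natCast_ne_zero_iff {p : ℕ} (hp : p.Prime) {F : Type*} [Field F] (h : (p : F) = 0) (n : ℕ) :
    (n : F) ≠ 0 ↔ ¬ p ∣ n := by
  haveI : CharP F p := (CharP.charP_iff_prime_eq_zero hp).2 h
  exact (CharP.cast_eq_zero_iff F p n).not

/-- The case in which the subgroup has order prime to `p`. -/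
theorem exists_conj_centralizer {p : ℕ} [hp : Fact p.Prime] (hp2 : p ≠ 2) (hreal : RealPrimeTo G p)
    (hodd : Odd K.index) (hpK : ¬ p ∣ Nat.card K) (P : Sylow p G) (x : K) (hx : IsConj x x⁻¹) :
    ∃ y : G, y ∈ Subgroup.centralizer ((P : Subgroup G) : Set G) ∧ IsConj (x : G) y := by
  classical
  haveI : Fintype G := Fintype.ofFinite G
  haveI : Fintype K := Fintype.ofFinite K
  haveI : Finite (IrrCharacter K) := irr_finite
  haveI : Fintype (IrrCharacter K) := Fintype.ofFinite _
  haveI : Fintype (ConjClasses K) := Fintype.ofFinite _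
  obtain ⟨M, hMmax, hpM⟩ := DegreeGraph.exists_isMaximal_mem p
  haveI := hMmax
  letI : Field (AlgInt ⧸ M) := Ideal.Quotient.field M
  have hp0 : ((p : ℕ) : AlgInt ⧸ M) = 0 := by
    rw [← map_natCast (Ideal.Quotient.mk M)]
    exact Ideal.Quotient.eq_zero_iff_mem.2 hpM
  have hne := natCast_ne_zero_iff hp.out hp0
  have hp2' : ¬ p ∣ 2 := fun h => hp2 ((Nat.prime_dvd_prime_iff_eq hp.out Nat.prime_two).1 h)
  have hF := card_real_orbits_eq K (Ideal.Quotient.mk M) ((hne _).2 hpK)
    (by exact_mod_cast (hne 2).2 hp2')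
  have hC := card_real_orbits_eq K (AlgInt.val.toRingHom)
    (by exact_mod_cast Nat.card_pos.ne') two_ne_zero
  -- real characters have orbits of length prime to `p`
  have hXall : ∀ a : Quotient (rel0 (eX K)), jmap (eX_comm K) a = a →
      (fibCard (Quotient.mk (rel0 (eX K))) a : AlgInt ⧸ M) ≠ 0 := by
    intro a ha
    obtain ⟨θ, rfl⟩ := Quotient.mk_surjective a
    have hθ : irrStar θ = θ :=
      (fixed_of_orbit (eX K) irrStar hodd (eX_pow K hodd) (irrStar_irrStar K) (eX_comm K) θ).1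
        (Quotient.exact ha)
    obtain ⟨χ, hχ, hdvd⟩ := exists_real_above_real K hodd θ ((irrStar_eq_iff θ).1 hθ)
    have hcard : fibCard (Quotient.mk (rel0 (eX K))) (Quotient.mk _ θ) =
        (Chars2.inertiaSub (θ : K → ℂ)).index := by
      rw [← Chars2.card_orbitFinset θ.2, fibCard]
      congr 1
      ext φ
      simp only [Finset.mem_filter, Finset.mem_univ, true_and, Chars2.mem_orbitFinset θ.2]
      rw [eq_comm, Quotient.eq]
      refine exists_congr fun g => ?_
      rw [Subtype.ext_iff]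
      have e : (eX K g θ : K → ℂ) = Chars2.conjFun (θ : K → ℂ) g := by
        funext k
        simp only [eX_apply, Chars2.conjFun, map_inv]
        rfl
      rw [e]
    rw [hne, hcard]
    exact fun h => hreal χ hχ (h.trans hdvd)
  -- hence so do real classes
  have hYall : ∀ b : Quotient (rel0 (eY K)), jmap (eY_comm K) b = b →
      (fibCard (Quotient.mk (rel0 (eY K))) b : AlgInt ⧸ M) ≠ 0 := by
    have hle : Nat.card {a : Quotient (rel0 (eX K)) //
          (fibCard (Quotient.mk (rel0 (eX K))) a : ℂ) ≠ 0 ∧ jmap (eX_comm K) a = a} ≤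
        Nat.card {a : Quotient (rel0 (eX K)) //
          (fibCard (Quotient.mk (rel0 (eX K))) a : AlgInt ⧸ M) ≠ 0 ∧ jmap (eX_comm K) a = a} :=
      Nat.card_le_card_of_injective (fun a => ⟨a.1, hXall a.1 a.2.2, a.2.2⟩)
        fun a b h => Subtype.ext (by simpa using congrArg Subtype.val h)
    rw [hC, hF] at hle
    intro b hb
    let ι : {b : Quotient (rel0 (eY K)) //
        (fibCard (Quotient.mk (rel0 (eY K))) b : AlgInt ⧸ M) ≠ 0 ∧ jmap (eY_comm K) b = b} →
        {b : Quotient (rel0 (eY K)) //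
          (fibCard (Quotient.mk (rel0 (eY K))) b : ℂ) ≠ 0 ∧ jmap (eY_comm K) b = b} :=
      fun b => ⟨b.1, by
        obtain ⟨z, hz⟩ := Quotient.mk_surjective b.1
        refine ⟨?_, b.2.2⟩
        rw [← hz]
        exact_mod_cast (Finset.card_pos.2 ⟨z, by simp⟩).ne'⟩
    have hinj : Function.Injective ι := fun a b h =>
      Subtype.ext (show a.1 = b.1 from congrArg (fun c => c.1) h)
    have hbij := (Nat.bijective_iff_injective_and_card ι).2
      ⟨hinj, le_antisymm (Nat.card_le_card_of_injective ι hinj) hle⟩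
    obtain ⟨⟨b', hb', hb''⟩, he⟩ := hbij.2 ⟨b, by
      obtain ⟨z, rfl⟩ := Quotient.mk_surjective b
      exact_mod_cast (Finset.card_pos.2 ⟨z, by simp⟩).ne', hb⟩
    rw [← show b' = b from congrArg Subtype.val he]
    exact hb'
  -- the orbit of the class of `x`
  have hfix : jmap (eY_comm K) (Quotient.mk (rel0 (eY K)) (ConjClasses.mk x)) =
      Quotient.mk (rel0 (eY K)) (ConjClasses.mk x) := by
    refine congrArg (Quotient.mk (rel0 (eY K))) ?_
    exact (clsInv_mk_eq_iff x).2 hx
  have horb := (hne _).1 (hYall _ hfix)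
  letI act : MulAction G (ConjClasses K) := MulAction.compHom _ (eY K)
  set S := MulAction.stabilizer G (ConjClasses.mk x) with hS
  have hSi : S.index = fibCard (Quotient.mk (rel0 (eY K)))
      (Quotient.mk (rel0 (eY K)) (ConjClasses.mk x)) := by
    rw [hS, MulAction.index_stabilizer, ← Nat.card_coe_set_eq, fibCard, ← Nat.card_eq_finsetCard]
    refine Nat.card_congr (Equiv.subtypeEquivRight fun C => ?_)
    simp only [Finset.mem_filter, Finset.mem_univ, true_and]
    rw [eq_comm, Quotient.eq]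
    rfl
  set Cx := Subgroup.centralizer ({(x : G)} : Set G) with hCx
  have hSle : S ≤ K ⊔ Cx := by
    intro g hg
    rw [hS, MulAction.mem_stabilizer_iff] at hg
    change eY K g (ConjClasses.mk x) = _ at hg
    rw [eY_mk, ConjClasses.mk_eq_mk_iff_isConj] at hg
    obtain ⟨k, hk⟩ := isConj_iff.1 hg
    have hk' := congrArg Subtype.val hk
    simp only [Subgroup.coe_mul, Subgroup.coe_inv, MulAut.conjNormal_apply] at hk'
    have h1 : (k : G) * g ∈ Cx := by
      rw [hCx, Subgroup.mem_centralizer_singleton_iff]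
      calc (k : G) * g * x = ((k : G) * (g * x * g⁻¹) * (k : G)⁻¹) * ((k : G) * g) := by group
        _ = x * ((k : G) * g) := by rw [hk']
    rw [show g = (k : G)⁻¹ * ((k : G) * g) by group]
    exact Subgroup.mul_mem_sup (K.inv_mem k.2) h1
  have hCi : ¬ p ∣ Cx.index := by
    rw [← Subgroup.relIndex_mul_index (le_sup_right : Cx ≤ K ⊔ Cx)]
    refine hp.out.not_dvd_mul ?_ fun h => horb (hSi ▸ h.trans (Subgroup.index_dvd_of_le hSle))
    have e : ∀ {A B : Subgroup G}, A ≤ B → Nat.card A * A.relIndex B = Nat.card B := fun {A B} hAB => by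
      rw [← Subgroup.relIndex_bot_left, Subgroup.relIndex_mul_relIndex _ _ _ bot_le hAB,
        Subgroup.relIndex_bot_left]
    have h1 := e (inf_le_right : K ⊓ Cx ≤ Cx)
    have h4 := e (le_sup_right : Cx ≤ K ⊔ Cx)
    have h5 := e (le_sup_left : K ≤ K ⊔ Cx)
    rw [Subgroup.inf_relIndex_right] at h1
    rw [sup_comm K Cx, Subgroup.relIndex_sup_right, ← sup_comm K Cx] at h5
    refine fun h => hpK (h.trans ⟨Nat.card (K ⊓ Cx : Subgroup G), ?_⟩)
    refine Nat.eq_of_mul_eq_mul_right (Nat.pos_of_ne_zero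
      (show K.relIndex Cx ≠ 0 from Subgroup.index_ne_zero_of_finite)) ?_
    rw [h5, ← h4, ← h1]
    ring
  obtain ⟨R⟩ : Nonempty (Sylow p Cx) := inferInstance
  let R' : Sylow p G := (R.isPGroup'.map Cx.subtype).toSylow (by
    rw [Subgroup.index_map_subtype]
    exact hp.out.not_dvd_mul R.not_dvd_index hCi)
  obtain ⟨g, hg⟩ := MulAction.exists_smul_eq G R' P
  refine ⟨g * x * g⁻¹, Subgroup.mem_centralizer_iff.2 fun r hr => ?_, isConj_iff.2 ⟨g, rfl⟩⟩
  rw [← hg, Sylow.coe_subgroup_smul] at hr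
  obtain ⟨r', hr', rfl⟩ := Subgroup.mem_smul_pointwise_iff_exists _ _ _ |>.1 hr
  have hc : r' * x = x * r' := Subgroup.mem_centralizer_singleton_iff.1
    (Subgroup.map_subtype_le _ hr' : r' ∈ Cx)
  simp only [MulAut.smul_def, MulAut.conj_apply]
  calc g * r' * g⁻¹ * (g * x * g⁻¹) = g * (r' * x) * g⁻¹ := by group
    _ = g * x * g⁻¹ * (g * r' * g⁻¹) := by rw [hc]; group

omit hK in
/-- Real classes meet the normalizer of a Sylow subgroup. -/
theorem exists_conj_normalizer {p : ℕ} [hp : Fact p.Prime] (hsolv : Group.IsSolvable (gen G p))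
    (hreal : RealPrimeTo G p) (P : Sylow p G) (x : G) (hx : IsConj x x⁻¹) :
    ∃ y ∈ Subgroup.normalizer ((P : Subgroup G) : Set G), IsConj x y := by
  classical
  haveI := Fact.mk Nat.prime_two
  obtain ⟨Q, hQn, hQp, hQle, hQi⟩ := exists_normal_pSub p _ G rfl hsolv hreal (gen G 2)
    (gen_normal 2) le_rfl ⟨0, (Subgroup.relIndex_self _).trans (pow_zero p).symm⟩
  haveI := hQn
  let f := QuotientGroup.mk' Q
  have hf : Function.Surjective f := QuotientGroup.mk'_surjective Q
  let P' : Sylow p (G ⧸ Q) := P.mapSurjective hf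
  have hQP : Q ≤ (P : Subgroup G) := by
    obtain ⟨R, hR⟩ := hQp.exists_le_sylow
    obtain ⟨g, hg⟩ := MulAction.exists_smul_eq G R P
    intro z hz
    rw [← hg, Sylow.coe_subgroup_smul]
    refine (Subgroup.mem_smul_pointwise_iff_exists _ _ _).2
      ⟨g⁻¹ * z * g, hR (by simpa using hQn.conj_mem z hz g⁻¹), by simp; group⟩
  set K' := gen (G ⧸ Q) 2 with hK'
  have hodd : Odd K'.index := by
    rw [← Nat.not_even_iff_odd, even_iff_two_dvd]
    exact gen_not_dvd_index 2
  have hpK : ¬ p ∣ Nat.card K' := by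
    rw [hK', ← map_gen 2 f hf, ← Subgroup.relIndex_bot_left, ← Subgroup.relIndex_comap,
      MonoidHom.comap_bot, QuotientGroup.ker_mk']
    exact hQi
  -- real elements lie in `K'` and are real there
  obtain ⟨c, hc⟩ := isConj_iff.1 (f.map_isConj hx)
  rw [map_inv] at hc
  obtain ⟨k, hk⟩ := hodd
  have hodd : Odd K'.index := ⟨k, hk⟩
  have hsw : SemiconjBy c (f x) (f x)⁻¹ := by
    show c * f x = (f x)⁻¹ * c
    rw [← hc, inv_mul_cancel_right]
  have hsw2 : SemiconjBy (c * c) (f x) (f x) := by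
    have h1 : SemiconjBy c (f x)⁻¹ (f x) := by simpa using hsw.inv_right
    exact h1.mul_left hsw
  have hd : SemiconjBy (c ^ K'.index) (f x) (f x)⁻¹ := by
    rw [hk, pow_succ', pow_mul, sq]
    exact hsw.mul_left (Commute.pow_left hsw2 k)
  have hdN : c ^ K'.index ∈ K' := K'.pow_index_mem c
  have hxN : f x ∈ K' := by
    have hgg : f x * f x ∈ K' := by
      have h1 : c ^ K'.index * f x * (c ^ K'.index)⁻¹ * (f x)⁻¹ ∈ K' := by
        have := K'.mul_mem hdN ((gen_normal 2 : K'.Normal).conj_mem _ (K'.inv_mem hdN) (f x))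
        simpa [mul_assoc] using this
      rw [hd.eq, mul_inv_cancel_right] at h1
      have := K'.inv_mem h1
      simpa [mul_inv_rev] using this
    have h1 : (f x) ^ K'.index ∈ K' := K'.pow_index_mem _
    rw [hk, pow_succ, pow_mul, sq] at h1
    exact (K'.mul_mem_cancel_left (K'.pow_mem hgg k)).1 h1
  have hxK : IsConj (⟨f x, hxN⟩ : K') (⟨f x, hxN⟩ : K')⁻¹ :=
    isConj_iff.2 ⟨⟨_, hdN⟩, Subtype.ext (by
      show c ^ K'.index * f x * (c ^ K'.index)⁻¹ = (f x)⁻¹
      rw [hd.eq, mul_inv_cancel_right])⟩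
  obtain ⟨y', hy', hconj⟩ : ∃ y' ∈ Subgroup.normalizer ((P' : Subgroup (G ⧸ Q)) : Set (G ⧸ Q)),
      IsConj (f x) y' := by
    by_cases hp2 : p = 2
    · have hbot : K' = ⊥ := by
        subst hp2
        rw [hK', gen, Subgroup.closure_eq_bot_iff]
        rintro z ⟨j, hj⟩
        by_contra hz
        rcases Nat.eq_zero_or_pos j with h0 | h0
        · rw [h0, pow_zero, orderOf_eq_one_iff] at hj; exact hz hj
        · refine hpK ((dvd_pow_self 2 h0.ne').trans ?_)
          rw [← hj, ← Subgroup.orderOf_mk z (Subgroup.subset_closure ⟨j, hj⟩ : z ∈ gen (G ⧸ Q) 2)]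
          exact orderOf_dvd_natCard _
      have h1 : f x = 1 := Subgroup.mem_bot.1 (hbot ▸ hxN)
      exact ⟨1, Subgroup.one_mem _, h1 ▸ IsConj.refl _⟩
    · obtain ⟨y, hy, hconj⟩ := exists_conj_centralizer K' hp2 (hreal.of_surjective f hf) hodd hpK P'
        ⟨f x, hxN⟩ hxK
      exact ⟨y, Subgroup.centralizer_le_normalizer _ hy, hconj⟩
  obtain ⟨g', hg'⟩ := isConj_iff.1 hconj
  obtain ⟨g, rfl⟩ := hf g'
  refine ⟨g * x * g⁻¹, ?_, isConj_iff.2 ⟨g, rfl⟩⟩
  have hy : f (g * x * g⁻¹) ∈ Subgroup.normalizer ((P' : Subgroup (G ⧸ Q)) : Set (G ⧸ Q)) := by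
    rw [map_mul, map_mul, map_inv, hg']; exact hy'
  have hcm : (P : Subgroup G) = ((P' : Subgroup (G ⧸ Q))).comap f := by
    rw [show (P' : Subgroup (G ⧸ Q)) = (P : Subgroup G).map f from rfl, Subgroup.comap_map_eq,
      QuotientGroup.ker_mk', sup_eq_left.2 hQP]
  refine Subgroup.mem_normalizer_iff.2 fun h => ?_
  rw [hcm, Subgroup.mem_comap, Subgroup.mem_comap]
  have := Subgroup.mem_normalizer_iff.1 hy (f h)
  simpa only [map_mul, map_inv] using this

end Cfsg.Agent.Chars.RealPPrime
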