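import Cfsg.Agent.Chars.RealPPrimeSylow
import Cfsg.Agent.Chars2.Correspondence
import Cfsg.Agent.Chars2.OddIndexFixed
import Cfsg.Agent.S4914

/-!
A bijection between the real characters and the real characters of degree prime to `p` of the
normalizer of a Sylow `p`-subgroup.
-/

set_option autoImplicit false
set_option linter.style.haveILetI false
set_option linter.unusedSectionVars false

namespace Cfsg.Agent.Chars.RealMcKay

open Cfsg
open scoped ComplexConjugate

/-- A real valued function. -/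
def RealFun {H : Type*} (f : H → ℂ) : Prop := ∀ h, (f h).im = 0

/-- The degree of a character from its value at one. -/
theorem charDegree_of_eq {H : Type*} [Group H] {f : H → ℂ} {n : ℕ} (h : f 1 = (n : ℂ)) :
    charDegree f = n := by
  rw [charDegree, h, Complex.natCast_re, Nat.floor_natCast]

theorem apply_one_eq {H : Type*} [Group H] [Fintype H] (χ : IrrCharacter H) :
    (χ : H → ℂ) 1 = (charDegree (χ : H → ℂ) : ℂ) := by
  obtain ⟨d, -, hd⟩ := exists_irr_apply_one_eq χ.2
  rw [charDegree_of_eq hd, hd]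

/-- The conjugate character. -/
noncomputable def starIrr {H : Type*} [Group H] [Finite H] (χ : IrrCharacter H) : IrrCharacter H :=
  ⟨fun h => conj ((χ : H → ℂ) h), isIrrCharacter_star χ.2⟩

theorem starIrr_eq_self {H : Type*} [Group H] [Finite H] (χ : IrrCharacter H) :
    starIrr χ = χ ↔ RealFun (χ : H → ℂ) :=
  ⟨fun h k => Complex.conj_eq_iff_im.1 (congrFun (congrArg Subtype.val h) k),
    fun h => Subtype.ext (funext fun k => Complex.conj_eq_iff_im.2 (h k))⟩

section lift

variable {G : Type*} [Group G] [Fintype G] (K : Subgroup G) [hK : K.Normal] [Fintype K]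

/-- A conjugate character, as an irreducible character. -/
noncomputable def conjIrr (θ : IrrCharacter K) (g : G) : IrrCharacter K :=
  ⟨Chars2.conjFun (θ : K → ℂ) g, Chars2.conjFun_isIrr θ.2 g⟩

theorem conjIrr_conjIrr (θ : IrrCharacter K) (g h : G) :
    conjIrr K (conjIrr K θ g) h = conjIrr K θ (h * g) :=
  Subtype.ext (Chars2.conjFun_conjFun K _ g h)

theorem conjIrr_one (θ : IrrCharacter K) : conjIrr K θ 1 = θ :=
  Subtype.ext (Chars2.conjFun_one _)

theorem conjIrr_eq_self {K : Subgroup G} [K.Normal] [Fintype K] {θ : IrrCharacter K} {g : G} :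
    conjIrr K θ g = θ ↔ g ∈ Chars2.inertiaSub (θ : K → ℂ) := Subtype.ext_iff

theorem starIrr_conjIrr (θ : IrrCharacter K) (g : G) :
    starIrr (conjIrr K θ g) = conjIrr K (starIrr θ) g := rfl

theorem real_conjIrr {θ : IrrCharacter K} (h : RealFun (θ : K → ℂ)) (g : G) :
    RealFun (conjIrr K θ g : K → ℂ) := fun k => h _

/-- `χ` lies over `θ`. -/
def Over (χ : IrrCharacter G) (θ : IrrCharacter K) : Prop :=
  classInner (fun k : K => (χ : G → ℂ) k) (θ : K → ℂ) ≠ 0

theorem over_conjIrr {χ : IrrCharacter G} {θ : IrrCharacter K} (h : Over K χ θ) (g : G) :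
    Over K χ (conjIrr K θ g) := by
  rw [Over, conjIrr, Chars2.classInner_restrict_conjFun (isClassFunction_irr χ)]
  exact h

theorem exists_conjIrr {χ : IrrCharacter G} {θ θ' : IrrCharacter K} (h : Over K χ θ)
    (h' : Over K χ θ') : ∃ g, θ' = conjIrr K θ g := by
  obtain ⟨g, hg⟩ := Chars2.clifford_constituent χ.2 θ.2 h θ'.2 h'
  exact ⟨g, Subtype.ext hg⟩

theorem classInner_conj_both {H : Type*} [Group H] [Fintype H] (f g : H → ℂ) :
    classInner (fun h => conj (f h)) (fun h => conj (g h)) = conj (classInner f g) := by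
  simp [classInner_def, map_sum]

theorem over_starIrr {χ : IrrCharacter G} {θ : IrrCharacter K} (hr : RealFun (χ : G → ℂ))
    (h : Over K χ θ) : Over K χ (starIrr θ) := by
  intro h0
  refine h ?_
  have h1 := classInner_conj_both (fun k : K => (χ : G → ℂ) k) (θ : K → ℂ)
  have e : (fun k : K => conj ((χ : G → ℂ) k)) = fun k : K => (χ : G → ℂ) k :=
    funext fun k => Complex.conj_eq_iff_im.2 (hr k)
  rw [e] at h1
  have h2 : conj (classInner (fun k : K => (χ : G → ℂ) k) (θ : K → ℂ)) = 0 := h1.symm.trans h0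
  simpa using h2

/-- A real character lies over a real character of a normal subgroup of odd index. -/
theorem exists_real_below (hodd : Odd K.index) (χ : IrrCharacter G) (hr : RealFun (χ : G → ℂ)) :
    ∃ θ : IrrCharacter K, RealFun (θ : K → ℂ) ∧ Over K χ θ := by
  classical
  obtain ⟨θ₀, h0⟩ : ∃ θ : IrrCharacter K, Over K χ θ := by
    by_contra hc
    simp only [Over, not_exists, not_not] at hc
    have h1 := Chars2.apply_eq_sum
      (isClassFunction_of_isCharacter (isCharacter_restrict (irr_isCharacter χ) K)) 1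
    simp only [hc, zero_mul, Finset.sum_const_zero, OneMemClass.coe_one] at h1
    exact irr_apply_one_ne_zero χ.2 h1
  by_contra hc
  push Not at hc
  have hmem : ∀ θ, θ ∈ Chars2.orbitFinset (G := G) θ₀.2 ↔ Over K χ θ := by
    intro θ
    rw [Chars2.mem_orbitFinset]
    constructor
    · rintro ⟨g, hg⟩
      rw [show θ = conjIrr K θ₀ g from Subtype.ext hg.symm]
      exact over_conjIrr K h0 g
    · intro h
      obtain ⟨g, hg⟩ := exists_conjIrr K h0 h
      exact ⟨g, (congrArg Subtype.val hg).symm⟩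
  have heven : ((Chars2.orbitFinset (G := G) θ₀.2).card : ZMod 2) = 0 := by
    rw [Finset.cast_card]
    refine Finset.sum_involution (fun θ _ => starIrr θ)
      (fun θ _ => CharTwo.add_self_eq_zero _) (fun θ hθ _ heq => ?_)
      (fun θ hθ => (hmem _).2 (over_starIrr K hr ((hmem _).1 hθ)))
      (fun θ _ => Subtype.ext (funext fun _ => Complex.conj_conj _))
    exact hc θ ((starIrr_eq_self θ).1 heq) ((hmem _).1 hθ)
  rw [Chars2.card_orbitFinset θ₀.2, ZMod.natCast_eq_zero_iff_even] at heven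
  refine Nat.not_even_iff_odd.2 (hodd.of_dvd_nat ?_) heven
  exact Subgroup.index_dvd_of_le (Chars2.le_inertiaSub (isClassFunction_irr θ₀))

theorem pred_card_coprime : Nat.Coprime (Nat.card G - 1) (Nat.card G) := by
  have h : 1 ≤ Nat.card G := Nat.card_pos
  have := (Nat.coprime_self_add_right (m := Nat.card G - 1) (n := 1)).2 (Nat.coprime_one_right _)
  rwa [Nat.sub_add_cancel h] at this

theorem pow_pred_card (g : G) : g ^ (Nat.card G - 1) = g⁻¹ := by
  refine eq_inv_of_mul_eq_one_left ?_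
  rw [← pow_succ, Nat.sub_add_cancel Nat.card_pos, pow_card_eq_one']

theorem fixed_iff_real (χ : IrrCharacter G) :
    (∀ g : G, (χ : G → ℂ) (g ^ (Nat.card G - 1)) = (χ : G → ℂ) g) ↔ RealFun (χ : G → ℂ) := by
  refine forall_congr' fun g => ?_
  rw [pow_pred_card, char_inv_eq_conj (irr_isCharacter χ), Complex.conj_eq_iff_im]

/-- The real character over a real character of a normal subgroup of odd index. -/
theorem exists_lift (hodd : Odd K.index) (θ : IrrCharacter K) (hθ : RealFun (θ : K → ℂ)) :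
    ∃ χ : IrrCharacter G, RealFun (χ : G → ℂ) ∧ Over K χ θ ∧
      charDegree (χ : G → ℂ) = (Chars2.inertiaSub (θ : K → ℂ)).index * charDegree (θ : K → ℂ) ∧
      ∀ χ' : IrrCharacter G, RealFun (χ' : G → ℂ) → Over K χ' θ → χ' = χ := by
  classical
  have hθk : ∀ n : K, (θ : K → ℂ) (n ^ (Nat.card G - 1)) = (θ : K → ℂ) n := by
    intro n
    rw [show n ^ (Nat.card G - 1) = n⁻¹ from Subtype.ext (by
        rw [SubgroupClass.coe_pow, InvMemClass.coe_inv]; exact pow_pred_card _),
      char_inv_eq_conj (irr_isCharacter θ)]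
    exact Complex.conj_eq_iff_im.2 (hθ n)
  obtain ⟨χ, ⟨hover, hfix, -⟩, huniq⟩ := Chars2.existsUnique_fixed_over K hodd
    (pred_card_coprime (G := G)) (fun g _ => pow_pred_card g) θ hθk
  refine ⟨χ, (fixed_iff_real χ).1 hfix, hover, ?_,
    fun χ' hr h => huniq χ' h ((fixed_iff_real χ').2 hr)⟩
  set T := Chars2.inertiaSub (θ : K → ℂ) with hT
  haveI : Fintype T := Fintype.ofFinite T
  have hKT : K ≤ T := Chars2.le_inertiaSub (isClassFunction_irr θ)
  haveI : Fintype (K.subgroupOf T) := Fintype.ofFinite _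
  let e : K.subgroupOf T ≃* K := Subgroup.subgroupOfEquivOfLe hKT
  let θT : IrrCharacter (K.subgroupOf T) :=
    ⟨fun k => (θ : K → ℂ) (e k), isIrrCharacter_comp_equiv θ.2 e⟩
  have hoddT : Odd (K.subgroupOf T).index :=
    hodd.of_dvd_nat ⟨T.index, (Subgroup.relIndex_mul_index hKT).symm⟩
  obtain ⟨ψ, ⟨-, hψk, hψext⟩, -⟩ := Chars2.existsUnique_fixed_over (K.subgroupOf T) hoddT
    (pred_card_coprime (G := T)) (fun g _ => pow_pred_card g) θT (fun n => by
      show (θ : K → ℂ) (e (n ^ (Nat.card T - 1))) = (θ : K → ℂ) (e n)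
      rw [show n ^ (Nat.card T - 1) = n⁻¹ from Subtype.ext (by
          rw [SubgroupClass.coe_pow, InvMemClass.coe_inv]; exact pow_pred_card _),
        map_inv, char_inv_eq_conj (irr_isCharacter θ)]
      exact Complex.conj_eq_iff_im.2 (hθ _))
  have hext : Chars2.resSub K T hKT (ψ : T → ℂ) = (θ : K → ℂ) := by
    funext k
    have h := hψext (fun t n => by
      have h1 := congrFun (Chars2.mem_inertiaSub.1
        ((inv_mem t.2) : (t : G)⁻¹ ∈ T)) (e n)
      rw [Chars2.conjFun_apply] at h1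
      show (θ : K → ℂ) (e _) = (θ : K → ℂ) (e n)
      rw [← h1]
      refine congrArg (θ : K → ℂ) (Subtype.ext ?_)
      simp only [inv_inv]
      rfl) (e.symm k)
    refine Eq.trans ?_ (h.trans (congrArg (θ : K → ℂ) (e.apply_symm_apply k)))
    rfl
  have h2 : classInner (Chars2.resSub K T hKT (ψ : T → ℂ)) (θ : K → ℂ) = 1 := by
    rw [hext]; exact classInner_self_irr θ.2
  have hirr := Chars2.isIrr_indFun_of_inertia hKT θ.2 hT ψ.2 (h2 ▸ one_ne_zero)
  have hψr : ∀ t : T, conj ((ψ : T → ℂ) t) = (ψ : T → ℂ) t := fun t =>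
    Complex.conj_eq_iff_im.2 ((fixed_iff_real ψ).1 hψk t)
  have hindr : RealFun (indFun T (ψ : T → ℂ)) := by
    intro g
    rw [← Complex.conj_eq_iff_im, indFun_apply, map_mul, map_sum, map_inv₀, map_natCast]
    congr 1
    refine Finset.sum_congr rfl fun x _ => ?_
    rw [extendByZero_eq_ite]
    split_ifs with h
    · exact hψr _
    · exact map_zero _
  have h1 : classInner (fun t : T => indFun T (ψ : T → ℂ) t) (ψ : T → ℂ) ≠ 0 := by
    have h := classInner_indFun T (ψ : T → ℂ)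
      (isClassFunction_of_isCharacter (isCharacter_of_isIrr hirr))
    rw [classInner_self_irr hirr] at h
    rw [← classInner_conj_symm, ← h, map_one]
    exact one_ne_zero
  obtain ⟨-, hmult, -⟩ := Chars2.clifford_correspondence hKT θ.2 hT hirr ψ.2 h1 (h2 ▸ one_ne_zero)
  have heq : (⟨indFun T (ψ : T → ℂ), hirr⟩ : IrrCharacter G) = χ := by
    refine huniq _ ?_ ((fixed_iff_real _).2 hindr)
    show classInner (fun k : K => indFun T (ψ : T → ℂ) k) (θ : K → ℂ) ≠ 0
    rw [← hmult, h2]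
    exact one_ne_zero
  rw [← heq]
  refine charDegree_of_eq ?_
  show indFun T (ψ : T → ℂ) 1 = _
  rw [indFun_apply_one, Nat.cast_mul]
  congr 1
  have h := congrFun hext 1
  rw [← apply_one_eq, ← h]
  rfl

end lift

section main

variable {G : Type*} [Group G] [Finite G] {p : ℕ} [hp : Fact p.Prime]

/-- A Sylow subgroup of a subgroup of index prime to `p` is a conjugate. -/
theorem exists_conj_le (P : Sylow p G) {T : Subgroup G} (hT : ¬ p ∣ T.index) :
    ∃ g : G, ∀ x ∈ (P : Subgroup G), g⁻¹ * x * g ∈ T := by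
  obtain ⟨R⟩ : Nonempty (Sylow p T) := inferInstance
  let R' : Sylow p G := (R.isPGroup'.map T.subtype).toSylow (by
    rw [Subgroup.index_map_subtype]
    exact hp.out.not_dvd_mul R.not_dvd_index hT)
  obtain ⟨g, hg⟩ := MulAction.exists_smul_eq G R' P
  refine ⟨g, fun x hx => ?_⟩
  rw [← hg, Sylow.coe_subgroup_smul] at hx
  obtain ⟨r, hr, rfl⟩ := (Subgroup.mem_smul_pointwise_iff_exists _ _ _).1 hx
  simp only [MulAut.smul_def, MulAut.conj_apply]
  rw [show g⁻¹ * (g * r * g⁻¹) * g = r by group]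
  exact Subgroup.map_subtype_le _ hr

/-- Indices modulo `p` of a subgroup containing a Sylow subgroup. -/
theorem index_modEq (P : Sylow p G) {T : Subgroup G} (hPT : (P : Subgroup G) ≤ T) :
    ((T.subgroupOf (Subgroup.normalizer ((P : Subgroup G) : Set G))).index : ZMod p) =
      (T.index : ZMod p) := by
  set N := Subgroup.normalizer ((P : Subgroup G) : Set G) with hN
  have hNi : (N.index : ZMod p) = 1 := by
    rw [show N.index = Nat.card (Sylow p G) from (Sylow.card_eq_index_normalizer P).symm,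
      ← Nat.cast_one, ZMod.natCast_eq_natCast_iff]
    exact card_sylow_modEq_one p G
  have hTi : ((N.subgroupOf T).index : ZMod p) = 1 := by
    have h : (N.subgroupOf T) =
        Subgroup.normalizer ((P.subtype hPT : Subgroup T) : Set T) :=
      Subgroup.subgroupOf_normalizer_eq hPT
    rw [h, show (Subgroup.normalizer ((P.subtype hPT : Subgroup T) : Set T)).index =
        Nat.card (Sylow p T) from (Sylow.card_eq_index_normalizer _).symm,
      ← Nat.cast_one, ZMod.natCast_eq_natCast_iff]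
    exact card_sylow_modEq_one p T
  have h1 := Subgroup.relIndex_mul_index (inf_le_right : T ⊓ N ≤ N)
  have h2 := Subgroup.relIndex_mul_index (inf_le_left : T ⊓ N ≤ T)
  rw [Subgroup.inf_relIndex_right] at h1
  rw [Subgroup.inf_relIndex_left, ← h1] at h2
  have h3 := congrArg (fun n : ℕ => (n : ZMod p)) h2
  simp only [Nat.cast_mul, Subgroup.relIndex] at h3
  rw [hTi, hNi, one_mul, mul_one] at h3
  exact h3.symm

/-- Invariance under the Sylow subgroup, in the group. -/
def PInv (P : Sylow p G) {K : Subgroup G} [K.Normal] (θ : IrrCharacter K) : Prop :=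
  (P : Subgroup G) ≤ Chars2.inertiaSub (θ : K → ℂ)

/-- Invariance under the Sylow subgroup, in the normalizer. -/
def PInv' (P : Sylow p G) {K : Subgroup G} [K.Normal]
    (η : IrrCharacter (K.subgroupOf (Subgroup.normalizer ((P : Subgroup G) : Set G)))) : Prop :=
  (P : Subgroup G).subgroupOf (Subgroup.normalizer ((P : Subgroup G) : Set G)) ≤
    Chars2.inertiaSub (η : K.subgroupOf (Subgroup.normalizer ((P : Subgroup G) : Set G)) → ℂ)

/-- The restriction to the normalizer. -/
def resN (P : Sylow p G) {K : Subgroup G} (f : K → ℂ) :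
    K.subgroupOf (Subgroup.normalizer ((P : Subgroup G) : Set G)) → ℂ :=
  fun m => f ⟨((m : Subgroup.normalizer ((P : Subgroup G) : Set G)) : G),
    Subgroup.mem_subgroupOf.1 m.2⟩

open Classical in
/-- The correspondence between invariant characters. -/
theorem exists_correspondence [Fintype G] (P : Sylow p G) (Q K : Subgroup G) [hKn : K.Normal]
    [Fintype K] [Fintype (Subgroup.normalizer ((P : Subgroup G) : Set G))]
    [Fintype (K.subgroupOf (Subgroup.normalizer ((P : Subgroup G) : Set G)))]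
    (hQn : Q.Normal) (hQp : IsPGroup p Q) (hQK : Q ≤ K) (hQi : ¬ p ∣ Q.relIndex K) :
    ∃ F : {θ : IrrCharacter K // PInv P θ} →
        {η : IrrCharacter (K.subgroupOf (Subgroup.normalizer ((P : Subgroup G) : Set G))) //
          PInv' P η},
      Function.Bijective F ∧
      (∀ θ, (charDegree (F θ).1.1 : ZMod p) = (charDegree (θ.1 : K → ℂ) : ZMod p) ∨
        (charDegree (F θ).1.1 : ZMod p) = -(charDegree (θ.1 : K → ℂ) : ZMod p)) ∧
      ∀ (θ : {θ : IrrCharacter K // PInv P θ}) η, η = F θ ↔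
        ∃ m : ℕ, classInner (resN P (θ.1 : K → ℂ)) η.1.1 = (m : ℂ) ∧ ¬ p ∣ m := by
  let N := Subgroup.normalizer ((P : Subgroup G) : Set G)
  let M := K.subgroupOf N
  -- the fixed points modulo `Q`
  have hQP : Q ≤ (P : Subgroup G) := by
    obtain ⟨R, hR⟩ := hQp.exists_le_sylow
    obtain ⟨g, hg⟩ := MulAction.exists_smul_eq G R P
    intro z hz
    rw [← hg, Sylow.coe_subgroup_smul]
    refine (Subgroup.mem_smul_pointwise_iff_exists _ _ _).2
      ⟨g⁻¹ * z * g, hR (by simpa using hQn.conj_mem z hz g⁻¹), by simp; group⟩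
  have hKP : ∀ z ∈ K, z ∈ (P : Subgroup G) → z ∈ Q := by
    intro z hzK hzP
    obtain ⟨i, hi⟩ := P.isPGroup' ⟨z, hzP⟩
    have hz : z ^ p ^ i = 1 := congrArg Subtype.val hi
    haveI : (Q.subgroupOf K).Normal := hQn.subgroupOf K
    have h1 := RealPPrime.mem_of_coprime_index (Q.subgroupOf K) (g := (⟨z, hzK⟩ : K))
      (m := p ^ i) (Subtype.ext (by simpa using hz))
      (Nat.Coprime.pow_left _ (hp.out.coprime_iff_not_dvd.2 hQi))
    exact h1
  have hC : ∀ k : G, k ∈ K ⊓ N ↔
      (k ∈ K ∧ ∀ x ∈ (P : Subgroup G), x * k * x⁻¹ * k⁻¹ ∈ Q) := by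
    intro k
    refine ⟨fun h => ⟨h.1, fun x hx => ?_⟩, fun h => ⟨h.1, ?_⟩⟩
    · refine hKP _ (K.mul_mem (hKn.conj_mem k h.1 x) (K.inv_mem h.1)) ?_
      rw [show x * k * x⁻¹ * k⁻¹ = x * (k * x⁻¹ * k⁻¹) by group]
      exact (P : Subgroup G).mul_mem hx
        ((Subgroup.mem_normalizer_iff.1 h.2 x⁻¹).1 ((P : Subgroup G).inv_mem hx))
    · have hle : ∀ x ∈ (P : Subgroup G), k * x * k⁻¹ ∈ (P : Subgroup G) := by
        intro x hx
        have h1 := (P : Subgroup G).mul_mem ((P : Subgroup G).inv_mem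
          ((P : Subgroup G).inv_mem ((P : Subgroup G).inv_mem hx)))
          (hQP (h.2 x⁻¹ ((P : Subgroup G).inv_mem hx)))
        have h2 := (P : Subgroup G).inv_mem h1
        rw [show k * x * k⁻¹ = x * (x⁻¹ * k * x⁻¹⁻¹ * k⁻¹) by group]
        exact (P : Subgroup G).mul_mem hx (hQP (h.2 x⁻¹ ((P : Subgroup G).inv_mem hx)))
      exact Subgroup.mem_normalizer_iff_map_conj_eq.2
        (Subgroup.eq_of_le_of_card_ge (fun y ⟨x, hx, e⟩ => e ▸ hle x hx)
          (Nat.card_congr ((P : Subgroup G).equivMapOfInjective _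
            (MulAut.conj k).injective).toEquiv).le)
  obtain ⟨F₀, hF₀, hF₀χ⟩ := S4914.result p (P : Subgroup G) K Q (K ⊓ N) P.isPGroup'
    (by rw [Subgroup.normalizer_eq_top (H := K)]; exact le_top) hQK
    (fun k _ q hq => hQn.conj_mem q hq k) (IsPGroup.iff_card.1 hQp) hQi inf_le_left hC
  haveI : Fintype (K ⊓ N : Subgroup G) := Fintype.ofFinite _
  let e : M ≃* (K ⊓ N : Subgroup G) :=
    { toFun := fun m => ⟨((m : N) : G), Subgroup.mem_subgroupOf.1 m.2, (m : N).2⟩
      invFun := fun c => ⟨⟨(c : G), c.2.2⟩, Subgroup.mem_subgroupOf.2 c.2.1⟩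
      left_inv := fun m => rfl
      right_inv := fun c => rfl
      map_mul' := fun a b => rfl }
  -- invariant characters
  let PI : IrrCharacter K → Prop := PInv P
  let PI' : IrrCharacter M → Prop := PInv' P
  let mu : IrrCharacter K → IrrCharacter M → ℂ := fun θ η =>
    classInner (fun m : M => (θ : K → ℂ) ⟨((m : N) : G), Subgroup.mem_subgroupOf.1 m.2⟩)
      (η : M → ℂ)
  let R : IrrCharacter K → IrrCharacter M → Prop := fun θ η =>
    ∃ m : ℕ, mu θ η = (m : ℂ) ∧ ¬ p ∣ m
  let e1 : {θ : IrrCharacter K // PI θ} ≃ {θ : IrrCharacter K // ∀ x ∈ (P : Subgroup G),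
      ∀ k k' : K, (k' : G) = x * (k : G) * x⁻¹ → (θ : K → ℂ) k' = (θ : K → ℂ) k} :=
    Equiv.subtypeEquivRight fun θ => by
      constructor
      · intro h x hx k k' hk
        have h1 := congrFun (Chars2.mem_inertiaSub.1 (h ((P : Subgroup G).inv_mem hx))) k
        rw [Chars2.conjFun_apply] at h1
        rw [← h1]
        exact congrArg (θ : K → ℂ) (Subtype.ext (by simp [hk]))
      · intro h x hx
        refine Chars2.mem_inertiaSub.2 (funext fun k => ?_)
        rw [Chars2.conjFun_apply]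
        exact h x⁻¹ ((P : Subgroup G).inv_mem hx) k _ rfl
  let e2 : {η : IrrCharacter M // PI' η} ≃ {ξ : IrrCharacter (K ⊓ N : Subgroup G) //
      ∀ x ∈ (P : Subgroup G), ∀ k k' : (K ⊓ N : Subgroup G), (k' : G) = x * (k : G) * x⁻¹ →
        (ξ : (K ⊓ N : Subgroup G) → ℂ) k' = (ξ : (K ⊓ N : Subgroup G) → ℂ) k} :=
    (irrEquiv e.symm).subtypeEquiv fun η => by
      constructor
      · intro h x hx k k' hk
        have hxN : x ∈ N := Subgroup.le_normalizer hx
        have h1 := congrFun (Chars2.mem_inertiaSub.1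
          (h (show (⟨x, hxN⟩⁻¹ : N) ∈ (P : Subgroup G).subgroupOf N from
            (P : Subgroup G).inv_mem hx))) (e.symm k)
        rw [Chars2.conjFun_apply] at h1
        simp only [irrEquiv_apply]
        rw [← h1]
        refine congrArg (η : M → ℂ) (Subtype.ext (Subtype.ext ?_))
        simp only [inv_inv]
        exact hk
      · intro h x hx
        refine Chars2.mem_inertiaSub.2 (funext fun m => ?_)
        rw [Chars2.conjFun_apply]
        exact h (x : G)⁻¹ ((P : Subgroup G).inv_mem hx) (e m)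
          (e ⟨x⁻¹ * m * x⁻¹⁻¹, Subgroup.Normal.conj_mem inferInstance _ m.2 _⟩) rfl
  have hmu : ∀ (θ : IrrCharacter K) (η : IrrCharacter M), mu θ η =
      (Nat.card (K ⊓ N : Subgroup G) : ℂ)⁻¹ * ∑ᶠ c : (K ⊓ N : Subgroup G),
        (θ : K → ℂ) (Subgroup.inclusion inf_le_left c) * conj ((η : M → ℂ) (e.symm c)) := by
    intro θ η
    rw [finsum_eq_sum_of_fintype, ← Nat.card_congr e.toEquiv]
    simp only [mu, classInner_def]
    congr 1
    exact Fintype.sum_equiv e.toEquiv _ _ fun m => rfl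
  let F : {θ : IrrCharacter K // PI θ} → {η : IrrCharacter M // PI' η} :=
    fun θ => e2.symm (F₀ (e1 θ))
  have hFb : Function.Bijective F := (e2.symm.bijective.comp hF₀).comp e1.bijective
  have hFR : ∀ (θ : {θ : IrrCharacter K // PI θ}) (η : {η : IrrCharacter M // PI' η}),
      R θ.1 η.1 ↔ η = F θ := by
    intro θ η
    obtain ⟨m, hm, h1, h2⟩ := (hF₀χ (e1 θ)).1 (e2 η)
    have hm' : mu θ.1 η.1 = (m : ℂ) := (hmu _ _).trans hm
    constructor
    · rintro ⟨m', hm'', hndvd⟩
      have : m' = m := Nat.cast_injective (R := ℂ) (hm''.symm.trans hm')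
      by_contra hne
      exact hndvd (this ▸ h2 fun h => hne (by
        rw [← Equiv.symm_apply_apply e2 η, h]))
    · intro h
      refine ⟨m, hm', fun hd => ?_⟩
      have h0 : (m : ZMod p) = 0 := (ZMod.natCast_eq_zero_iff _ _).2 hd
      rcases h1 (by rw [h]; exact Equiv.apply_symm_apply _ _) with h' | h'
      · exact one_ne_zero (h'.symm.trans h0)
      · exact one_ne_zero (neg_eq_zero.1 (h'.symm.trans h0))
  have hFdeg : ∀ θ, (charDegree ((F θ).1 : M → ℂ) : ZMod p) = (charDegree (θ.1 : K → ℂ) : ZMod p) ∨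
      (charDegree ((F θ).1 : M → ℂ) : ZMod p) = -(charDegree (θ.1 : K → ℂ) : ZMod p) := by
    intro θ
    have h := (hF₀χ (e1 θ)).2
    have he : charDegree ((F θ).1 : M → ℂ) =
        charDegree ((F₀ (e1 θ)).1 : (K ⊓ N : Subgroup G) → ℂ) := by
      refine congrArg (fun z : ℂ => ⌊z.re⌋₊) ?_
      show ((F₀ (e1 θ)).1 : (K ⊓ N : Subgroup G) → ℂ) (e 1) = _
      rw [map_one]
    rw [he]
    exact h
  exact ⟨F, hFb, hFdeg, fun θ η => (hFR θ η).symm⟩

open Classical in
/-- Equivariance. -/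
theorem correspondence_equivariant [Fintype G] (P : Sylow p G) (K : Subgroup G) [K.Normal]
    [Fintype K] [Fintype (Subgroup.normalizer ((P : Subgroup G) : Set G))]
    [Fintype (K.subgroupOf (Subgroup.normalizer ((P : Subgroup G) : Set G)))]
    (F : {θ : IrrCharacter K // PInv P θ} →
        {η : IrrCharacter (K.subgroupOf (Subgroup.normalizer ((P : Subgroup G) : Set G))) //
          PInv' P η})
    (hFb : Function.Bijective F)
    (hFR : ∀ (θ : {θ : IrrCharacter K // PInv P θ}) η, η = F θ ↔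
        ∃ m : ℕ, classInner (resN P (θ.1 : K → ℂ)) η.1.1 = (m : ℂ) ∧ ¬ p ∣ m) :
    (∀ (θ θ' : {θ : IrrCharacter K // PInv P θ})
        (n : Subgroup.normalizer ((P : Subgroup G) : Set G)),
        θ'.1 = conjIrr K θ.1 (n : G) ↔ (F θ').1 = conjIrr _ (F θ).1 n) ∧
      ∀ θ : {θ : IrrCharacter K // PInv P θ},
        RealFun (θ.1 : K → ℂ) ↔ RealFun (F θ).1.1 := by
  let N := Subgroup.normalizer ((P : Subgroup G) : Set G)
  let M := K.subgroupOf N
  let PI : IrrCharacter K → Prop := PInv P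
  let PI' : IrrCharacter M → Prop := PInv' P
  -- equivariance
  have hPIc : ∀ (θ : IrrCharacter K) (n : N), PI θ → PI (conjIrr K θ n) := by
    intro θ n h x hx
    rw [← conjIrr_eq_self, conjIrr_conjIrr, show x * (n : G) = n * ((n : G)⁻¹ * x * n) by group,
      ← conjIrr_conjIrr, conjIrr_eq_self.2 (h ?_)]
    exact (Subgroup.mem_normalizer_iff''.1 n.2 x).1 hx
  have hPIc' : ∀ (η : IrrCharacter M) (n : N), PI' η → PI' (conjIrr M η n) := by
    intro η n h x hx
    rw [← conjIrr_eq_self, conjIrr_conjIrr, show x * n = n * (n⁻¹ * x * n) by group,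
      ← conjIrr_conjIrr, conjIrr_eq_self.2 (h ?_)]
    exact (Subgroup.mem_normalizer_iff''.1 n.2 (x : G)).1 hx
  have hPIs : ∀ θ, PI θ → PI (starIrr θ) := by
    intro θ h x hx
    rw [← conjIrr_eq_self, ← starIrr_conjIrr, conjIrr_eq_self.2 (h hx)]
  have hPIs' : ∀ η, PI' η → PI' (starIrr η) := by
    intro η h x hx
    rw [← conjIrr_eq_self, ← starIrr_conjIrr, conjIrr_eq_self.2 (h hx)]
  have hRc : ∀ (θ : IrrCharacter K) (η : IrrCharacter M) (n : N),
      classInner (resN P (conjIrr K θ (n : G) : K → ℂ)) (conjIrr M η n : M → ℂ) =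
        classInner (resN P (θ : K → ℂ)) (η : M → ℂ) := fun θ η n =>
    Chars2.classInner_comp_mulEquiv (MulAut.conjNormal n⁻¹ : MulAut M) (resN P (θ : K → ℂ))
      (η : M → ℂ)
  have hRs : ∀ (θ : IrrCharacter K) (η : IrrCharacter M),
      classInner (resN P (starIrr θ : K → ℂ)) (starIrr η : M → ℂ) =
        conj (classInner (resN P (θ : K → ℂ)) (η : M → ℂ)) := fun θ η =>
    classInner_conj_both (resN P (θ : K → ℂ)) (η : M → ℂ)
  have hFc : ∀ (θ θ' : {θ : IrrCharacter K // PI θ}) (n : N),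
      θ'.1 = conjIrr K θ.1 n ↔ (F θ').1 = conjIrr M (F θ).1 n := by
    intro θ θ' n
    have key : F ⟨conjIrr K θ.1 n, hPIc _ n θ.2⟩ = ⟨conjIrr M (F θ).1 n, hPIc' _ n (F θ).2⟩ :=
      ((hFR _ _).2 (by
        obtain ⟨m, hm, hd⟩ := (hFR θ _).1 rfl
        exact ⟨m, (hRc θ.1 (F θ).1 n).trans hm, hd⟩)).symm
    constructor
    · intro h
      rw [show θ' = ⟨conjIrr K θ.1 n, hPIc _ n θ.2⟩ from Subtype.ext h, key]
    · intro h
      have : F θ' = F ⟨conjIrr K θ.1 n, hPIc _ n θ.2⟩ := by rw [key]; exact Subtype.ext h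
      exact congrArg Subtype.val (hFb.1 this)
  have hFr : ∀ θ : {θ : IrrCharacter K // PI θ},
      RealFun (θ.1 : K → ℂ) ↔ RealFun ((F θ).1 : M → ℂ) := by
    intro θ
    rw [← starIrr_eq_self, ← starIrr_eq_self]
    have key : F ⟨starIrr θ.1, hPIs _ θ.2⟩ = ⟨starIrr (F θ).1, hPIs' _ (F θ).2⟩ :=
      ((hFR _ _).2 (by
        obtain ⟨m, hm, hd⟩ := (hFR θ _).1 rfl
        exact ⟨m, (hRs θ.1 (F θ).1).trans (by rw [hm, map_natCast]), hd⟩)).symm
    constructor
    · intro h
      rw [show (⟨starIrr θ.1, hPIs _ θ.2⟩ : {θ : IrrCharacter K // PI θ}) = θ from Subtype.ext h]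
        at key
      exact (congrArg Subtype.val key).symm
    · intro h
      exact congrArg Subtype.val (hFb.1 (key.trans (Subtype.ext h)))
  exact ⟨hFc, hFr⟩

/-- The bijection. -/
theorem exists_bijection (hsolv : Group.IsSolvable (RealPPrime.gen G p))
    (hreal : RealPPrime.RealPrimeTo G p) (P : Sylow p G) :
    ∃ f : {χ : IrrCharacter G // RealFun (χ : G → ℂ)} →
        {ξ : IrrCharacter (Subgroup.normalizer ((P : Subgroup G) : Set G)) //
          RealFun (ξ : Subgroup.normalizer ((P : Subgroup G) : Set G) → ℂ) ∧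
          ¬ p ∣ charDegree (ξ : Subgroup.normalizer ((P : Subgroup G) : Set G) → ℂ)},
      Function.Bijective f ∧ ∀ χ,
        ((charDegree ((f χ).1 : Subgroup.normalizer ((P : Subgroup G) : Set G) → ℂ) : ZMod p) =
            (charDegree (χ.1 : G → ℂ) : ZMod p) ∨
          (charDegree ((f χ).1 : Subgroup.normalizer ((P : Subgroup G) : Set G) → ℂ) : ZMod p) =
            -(charDegree (χ.1 : G → ℂ) : ZMod p)) := by
  classical
  haveI := Fact.mk Nat.prime_two
  haveI : Fintype G := Fintype.ofFinite G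
  set N := Subgroup.normalizer ((P : Subgroup G) : Set G) with hN
  haveI : Fintype N := Fintype.ofFinite N
  set K := RealPPrime.gen G 2 with hKdef
  haveI : Fintype K := Fintype.ofFinite K
  have hoddK : Odd K.index := by
    rw [← Nat.not_even_iff_odd, even_iff_two_dvd]
    exact RealPPrime.gen_not_dvd_index 2
  let M := K.subgroupOf N
  haveI : Fintype M := Fintype.ofFinite M
  have hoddM : Odd M.index := hoddK.of_dvd_nat (Subgroup.relIndex_dvd_index_of_normal K N)
  obtain ⟨Q, hQn, hQp, hQK, hQi⟩ := RealPPrime.exists_normal_pSub p _ G rfl hsolv hreal K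
    (RealPPrime.gen_normal 2) le_rfl ⟨0, (Subgroup.relIndex_self _).trans (pow_zero p).symm⟩
  obtain ⟨F, hFb, hFdeg, hFR⟩ := exists_correspondence P Q K hQn hQp hQK hQi
  obtain ⟨hFc, hFr⟩ := correspondence_equivariant P K F hFb hFR
  -- the choice of constituents
  have hG : ∀ χ : {χ : IrrCharacter G // RealFun (χ : G → ℂ)},
      ∃ θ : {θ : IrrCharacter K // PInv P θ}, RealFun (θ.1 : K → ℂ) ∧ Over K χ.1 θ.1 := by
    intro χ
    obtain ⟨θ, hθr, hover⟩ := exists_real_below K hoddK χ.1 χ.2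
    obtain ⟨χ', -, -, hdeg, huniq⟩ := exists_lift K hoddK θ hθr
    have hχ := huniq χ.1 χ.2 hover
    have hi : ¬ p ∣ (Chars2.inertiaSub (θ : K → ℂ)).index := fun h => hreal χ.1 χ.2 (by
      rw [hχ, hdeg]; exact h.mul_right _)
    obtain ⟨g, hg⟩ := exists_conj_le P hi
    refine ⟨⟨conjIrr K θ g, fun x hx => ?_⟩, real_conjIrr K hθr g, over_conjIrr K hover g⟩
    rw [← conjIrr_eq_self, conjIrr_conjIrr, show x * g = g * (g⁻¹ * x * g) by group,
      ← conjIrr_conjIrr, conjIrr_eq_self.2 (hg x hx)]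
  choose sel hselr hselo using hG
  -- two invariant constituents are conjugate in the normalizer
  have hconj : ∀ (χ : IrrCharacter G) (θ θ' : {θ : IrrCharacter K // PInv P θ}),
      Over K χ θ.1 → Over K χ θ'.1 → ∃ n : N, θ'.1 = conjIrr K θ.1 n := by
    intro χ θ θ' h h'
    obtain ⟨g, hg⟩ := exists_conjIrr K h h'
    set T := Chars2.inertiaSub (θ.1 : K → ℂ) with hT
    have h1 : ((g⁻¹ • P : Sylow p G) : Subgroup G) ≤ T := by
      intro y hy
      rw [Sylow.coe_subgroup_smul] at hy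
      obtain ⟨x, hx, rfl⟩ := (Subgroup.mem_smul_pointwise_iff_exists _ _ _).1 hy
      simp only [MulAut.smul_def, MulAut.conj_apply, inv_inv]
      have h2 := conjIrr_eq_self.2 (θ'.2 hx)
      rw [hg, conjIrr_conjIrr] at h2
      rw [← conjIrr_eq_self, mul_assoc, ← conjIrr_conjIrr, h2, conjIrr_conjIrr, inv_mul_cancel,
        conjIrr_one]
    have hθP : (P : Subgroup G) ≤ T := θ.2
    obtain ⟨t, ht⟩ := MulAction.exists_smul_eq T (P.subtype hθP) ((g⁻¹ • P : Sylow p G).subtype h1)
    rw [Sylow.smul_subtype] at ht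
    have h3 : ((t : G) • P : Sylow p G) = g⁻¹ • P := Sylow.subtype_injective ht
    have h4 : g * (t : G) ∈ N := by
      rw [hN]
      refine Sylow.smul_eq_iff_mem_normalizer.1 ?_
      rw [mul_smul, h3, smul_inv_smul]
    refine ⟨⟨g * t, h4⟩, ?_⟩
    rw [hg, ← conjIrr_conjIrr, conjIrr_eq_self.2 t.2]
  -- characters of the normalizer
  have hlift : ∀ χ : {χ : IrrCharacter G // RealFun (χ : G → ℂ)}, ∃ ξ : IrrCharacter N,
      RealFun (ξ : N → ℂ) ∧ Over M ξ (F (sel χ)).1 ∧
      charDegree (ξ : N → ℂ) = (Chars2.inertiaSub ((F (sel χ)).1 : M → ℂ)).index *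
        charDegree ((F (sel χ)).1 : M → ℂ) ∧
      ∀ ξ' : IrrCharacter N, RealFun (ξ' : N → ℂ) → Over M ξ' (F (sel χ)).1 → ξ' = ξ :=
    fun χ => exists_lift M hoddM _ ((hFr _).1 (hselr χ))
  choose out houtr houto houtdeg houtu using hlift
  have hdeg : ∀ χ : {χ : IrrCharacter G // RealFun (χ : G → ℂ)},
      (charDegree (out χ : N → ℂ) : ZMod p) = (charDegree (χ.1 : G → ℂ) : ZMod p) ∨
        (charDegree (out χ : N → ℂ) : ZMod p) = -(charDegree (χ.1 : G → ℂ) : ZMod p) := by
    intro χ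
    obtain ⟨χ', -, -, hd, hu⟩ := exists_lift K hoddK _ (hselr χ)
    rw [houtdeg, hu χ.1 χ.2 (hselo χ), hd]
    have hT : Chars2.inertiaSub ((F (sel χ)).1 : M → ℂ) =
        (Chars2.inertiaSub ((sel χ).1 : K → ℂ)).subgroupOf N := by
      ext n
      rw [Subgroup.mem_subgroupOf, ← conjIrr_eq_self, ← conjIrr_eq_self]
      exact ⟨fun h => ((hFc (sel χ) (sel χ) n).2 h.symm).symm,
        fun h => ((hFc (sel χ) (sel χ) n).1 h.symm).symm⟩
    rw [hT, Nat.cast_mul, Nat.cast_mul, index_modEq P (sel χ).2]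
    rcases hFdeg (sel χ) with h | h
    · left; rw [h]
    · right; rw [h, mul_neg]
  have hndvd : ∀ χ : {χ : IrrCharacter G // RealFun (χ : G → ℂ)},
      ¬ p ∣ charDegree (out χ : N → ℂ) := by
    intro χ hd
    refine hreal χ.1 χ.2 ((ZMod.natCast_eq_zero_iff _ _).1 ?_)
    have h0 := (ZMod.natCast_eq_zero_iff _ p).2 hd
    rcases hdeg χ with h | h
    · rwa [h] at h0
    · rwa [h, neg_eq_zero] at h0
  refine ⟨fun χ => ⟨out χ, houtr χ, hndvd χ⟩, ⟨fun χ χ' hχ => ?_, fun ξ => ?_⟩, hdeg⟩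
  · have hout : out χ = out χ' := congrArg Subtype.val hχ
    obtain ⟨n, hn⟩ := exists_conjIrr M (houto χ) (hout ▸ houto χ')
    have h2 := (hFc (sel χ) (sel χ') n).2 hn
    have h3 : Over K χ'.1 (sel χ).1 := by
      have := over_conjIrr K (hselo χ') ((n : G)⁻¹)
      rwa [h2, conjIrr_conjIrr, inv_mul_cancel, conjIrr_one] at this
    obtain ⟨χ₀, -, -, -, hu⟩ := exists_lift K hoddK _ (hselr χ)
    exact Subtype.ext ((hu χ.1 χ.2 (hselo χ)).trans (hu χ'.1 χ'.2 h3).symm)
  · obtain ⟨η, hηr, hηo⟩ := exists_real_below M hoddM ξ.1 ξ.2.1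
    obtain ⟨ξ', -, -, hd, hu⟩ := exists_lift M hoddM η hηr
    have hi : ¬ p ∣ (Chars2.inertiaSub (η : M → ℂ)).index := fun h => ξ.2.2 (by
      rw [hu ξ.1 ξ.2.1 hηo, hd]; exact h.mul_right _)
    have hη : PInv' P η := by
      obtain ⟨g, hg⟩ := exists_conj_le (P.subtype Subgroup.le_normalizer) hi
      intro x hx
      have h1 : g * x * g⁻¹ ∈ (P : Subgroup G).subgroupOf N :=
        (Subgroup.mem_normalizer_iff.1 g.2 (x : G)).1 hx
      have h2 := hg _ h1
      rwa [show g⁻¹ * (g * x * g⁻¹) * g = x by group] at h2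
    obtain ⟨θ, hθ⟩ := hFb.2 ⟨η, hη⟩
    have hθr : RealFun (θ.1 : K → ℂ) := (hFr θ).2 (by rw [hθ]; exact hηr)
    obtain ⟨χ, hχr, hχo, -, -⟩ := exists_lift K hoddK θ.1 hθr
    refine ⟨⟨χ, hχr⟩, Subtype.ext (houtu ⟨χ, hχr⟩ ξ.1 ξ.2.1 ?_).symm⟩
    obtain ⟨n, hn⟩ := hconj χ θ (sel ⟨χ, hχr⟩) hχo (hselo ⟨χ, hχr⟩)
    rw [(hFc θ (sel ⟨χ, hχr⟩) n).1 hn, hθ]
    exact over_conjIrr M hηo n

end main

end Cfsg.Agent.Chars.RealMcKay
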