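import Cfsg.Agent.Chars.RealPPrime
import Mathlib.GroupTheory.Complement
import Mathlib.GroupTheory.Sylow
import Mathlib.GroupTheory.PGroup
import Mathlib.GroupTheory.Solvable
import Mathlib.GroupTheory.FiniteAbelian.Duality

/-!
Finite groups all of whose real characters have degree prime to `p`, when the `p`-elements generate a
solvable subgroup: the Sylow subgroups above the odd residual are normal.
-/

set_option autoImplicit false
set_option linter.style.haveILetI false

open scoped commutatorElement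

namespace Cfsg.Agent.Chars.RealPPrime

universe u

/-- The subgroup generated by the `q`-elements. -/
def gen (G : Type*) [Group G] (q : ℕ) : Subgroup G :=
  Subgroup.closure {g : G | ∃ k : ℕ, orderOf g = q ^ k}

variable {G : Type*} [Group G]

instance gen_normal (q : ℕ) : (gen G q).Normal := by
  refine ⟨fun n hn g => ?_⟩
  induction hn using Subgroup.closure_induction with
  | mem x hx =>
    refine Subgroup.subset_closure ?_
    obtain ⟨k, hk⟩ := hx
    exact ⟨k, (MulEquiv.orderOf_eq (MulAut.conj g) x).trans hk⟩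
  | one => simpa using (gen G q).one_mem
  | mul x y _ _ hx hy =>
    have := (gen G q).mul_mem hx hy
    simpa [mul_assoc] using this
  | inv x _ hx =>
    have := (gen G q).inv_mem hx
    simpa [mul_assoc] using this

theorem mem_gen {q : ℕ} (hq : q.Prime) {g : G} {k : ℕ} (h : g ^ q ^ k = 1) : g ∈ gen G q := by
  obtain ⟨i, _, hi⟩ := (Nat.dvd_prime_pow hq).1 (orderOf_dvd_of_pow_eq_one h)
  exact Subgroup.subset_closure ⟨i, hi⟩

theorem le_gen {q : ℕ} (hq : q.Prime) {P : Subgroup G} (hP : IsPGroup q P) : P ≤ gen G q := by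
  intro x hx
  obtain ⟨k, hk⟩ := hP ⟨x, hx⟩
  exact mem_gen hq (k := k) (by simpa using congrArg Subtype.val hk)

theorem gen_not_dvd_index [Finite G] (q : ℕ) [Fact q.Prime] : ¬ q ∣ (gen G q).index := by
  obtain ⟨P⟩ : Nonempty (Sylow q G) := inferInstance
  exact fun h => P.not_dvd_index (h.trans (Subgroup.index_dvd_of_le (le_gen Fact.out P.isPGroup')))

/-- A normal subgroup contains the elements of order prime to its index. -/
theorem mem_of_coprime_index (N : Subgroup G) [N.Normal] {g : G} {m : ℕ} (hg : g ^ m = 1)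
    (h : m.Coprime N.index) : g ∈ N := by
  have h1 := N.pow_index_mem g
  rw [← QuotientGroup.eq_one_iff] at h1 ⊢
  refine orderOf_eq_one_iff.1 (Nat.eq_one_of_dvd_coprimes h
    (orderOf_dvd_of_pow_eq_one ?_) (orderOf_dvd_of_pow_eq_one ?_))
  · rw [← QuotientGroup.mk_pow, hg, QuotientGroup.mk_one]
  · rw [← QuotientGroup.mk_pow, h1]

theorem map_gen {H : Type*} [Group H] [Finite G] [Finite H] (q : ℕ) [hq : Fact q.Prime] (f : G →* H)
    (hf : Function.Surjective f) : (gen G q).map f = gen H q := by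
  apply le_antisymm
  · rw [gen, MonoidHom.map_closure, Subgroup.closure_le]
    rintro _ ⟨g, ⟨k, hk⟩, rfl⟩
    exact mem_gen hq.out (k := k) (by rw [← map_pow, ← hk, pow_orderOf_eq_one, map_one])
  · haveI : ((gen G q).map f).Normal := Subgroup.Normal.map (gen_normal q) f hf
    rw [gen, Subgroup.closure_le]
    rintro g ⟨k, hk⟩
    refine mem_of_coprime_index _ (m := q ^ k) (hk ▸ pow_orderOf_eq_one g) (Nat.Coprime.pow_left _ ?_)
    exact (Nat.Prime.coprime_iff_not_dvd hq.out).2 fun h =>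
      gen_not_dvd_index (G := G) q (h.trans (Subgroup.index_map_dvd _ hf))

/-- The hypothesis on real characters. -/
def RealPrimeTo (G : Type*) [Group G] (p : ℕ) : Prop :=
  ∀ χ : IrrCharacter G, (∀ g : G, ((χ : G → ℂ) g).im = 0) → ¬ p ∣ charDegree (χ : G → ℂ)

theorem RealPrimeTo.of_surjective {H : Type*} [Group H] {p : ℕ} (h : RealPrimeTo G p) (f : G →* H)
    (hf : Function.Surjective f) : RealPrimeTo H p := by
  intro χ hχ
  have := h ⟨_, isIrrCharacter_comp_surjective χ.2 f hf⟩ (fun g => hχ (f g))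
  simpa [charDegree] using this

/-- For a normal subgroup, relative indices against an arbitrary subgroup divide its index. -/
theorem relIndex_dvd_index [Finite G] (T H : Subgroup G) [H.Normal] : T.relIndex H ∣ T.index := by
  have e : ∀ {A B : Subgroup G}, A ≤ B → Nat.card A * A.relIndex B = Nat.card B := fun {A B} hAB => by
    rw [← Subgroup.relIndex_bot_left, Subgroup.relIndex_mul_relIndex _ _ _ bot_le hAB,
      Subgroup.relIndex_bot_left]
  have h1 := e (inf_le_right : T ⊓ H ≤ H)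
  have h2 := e (inf_le_left : T ⊓ H ≤ T)
  have h3 := e (le_sup_right : H ≤ T ⊔ H)
  have h4 := e (le_sup_left : T ≤ T ⊔ H)
  rw [Subgroup.inf_relIndex_right] at h1
  rw [Subgroup.inf_relIndex_left] at h2
  rw [Subgroup.relIndex_sup_right, ← h1, mul_right_comm, h2, ← h4] at h3
  rw [Nat.eq_of_mul_eq_mul_left Nat.card_pos h3,
    ← Subgroup.relIndex_mul_index (le_sup_left : T ≤ T ⊔ H)]
  exact dvd_mul_right _ _


/-- A nontrivial linear character of a complemented abelian subgroup inverted by some element. -/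
theorem exists_inverted [Finite G] (M N : Subgroup G) [hM : M.Normal]
    (hab : ∀ a ∈ M, ∀ b ∈ M, a * b = b * a)
    (hMN : M ⊓ N = ⊥) (hsup : ∀ g : G, ∃ m ∈ M, ∃ n ∈ N, g = m * n)
    (hmin : ∀ S : Subgroup G, S.Normal → S ≤ M → S ≠ ⊥ → S = M) (hMne : M ≠ ⊥)
    (hMK : M ≤ gen G 2) :
    ∃ lam : M →* ℂˣ, lam ≠ 1 ∧ ∃ x ∈ N, ∀ m : M,
      lam ⟨x⁻¹ * m * x, by simpa using hM.conj_mem (m : G) m.2 x⁻¹⟩ = (lam m)⁻¹ := by
  classical
  letI : CommGroup M := { mul_comm := fun a b => Subtype.ext (hab a a.2 b b.2) }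
  haveI : Fintype M := Fintype.ofFinite M
  by_cases hinvol : ∃ m ∈ M, m ≠ (1 : G) ∧ m ^ 2 = 1
  · obtain ⟨m₀, hm₀, hne, hsq⟩ := hinvol
    let S : Subgroup G :=
      { carrier := {m | m ∈ M ∧ m ^ 2 = 1}
        one_mem' := ⟨M.one_mem, one_pow 2⟩
        mul_mem' := fun {a b} ha hb => ⟨M.mul_mem ha.1 hb.1, by
          rw [Commute.mul_pow (hab a ha.1 b hb.1), ha.2, hb.2, one_mul]⟩
        inv_mem' := fun {a} ha => ⟨M.inv_mem ha.1, by rw [inv_pow, ha.2, inv_one]⟩ }
    have hSn : S.Normal := ⟨fun a ha g => ⟨hM.conj_mem a ha.1 g, by rw [conj_pow, ha.2]; simp⟩⟩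
    have hS : S = M := hmin S hSn (fun a ha => ha.1) fun h => hne
      (Subgroup.mem_bot.1 (h ▸ (⟨hm₀, hsq⟩ : m₀ ∈ S)))
    obtain ⟨lam, hlam⟩ := CommGroup.exists_apply_ne_one_of_hasEnoughRootsOfUnity M ℂ
      (a := (⟨m₀, hm₀⟩ : M)) (by simpa [Subtype.ext_iff] using hne)
    refine ⟨lam, fun h => hlam (by rw [h]; rfl), 1, N.one_mem, fun m => ?_⟩
    have hm : m ^ 2 = 1 := Subtype.ext (hS.symm ▸ m.2 : (m : G) ∈ S).2
    rw [show (⟨(1 : G)⁻¹ * m * 1, by simp⟩ : M) = m from Subtype.ext (by simp),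
      eq_inv_iff_mul_eq_one, ← map_mul, ← sq, hm, map_one]
  · push Not at hinvol
    -- some 2-element of `K` moves `M`
    obtain ⟨y, hy, hy2⟩ : ∃ y : G, (∃ m ∈ M, y⁻¹ * m * y ≠ m) ∧
        ∀ m ∈ M, (y * y)⁻¹ * m * (y * y) = m := by
      by_contra hno
      push Not at hno
      have hcent : ∀ g : G, ∀ j : ℕ, g ^ 2 ^ j = 1 → ∀ m ∈ M, g⁻¹ * m * g = m := by
        intro g j
        induction j generalizing g with
        | zero => intro h m _; rw [pow_zero, pow_one] at h; simp [h]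
        | succ j ih =>
          intro h m hm
          by_contra hne
          obtain ⟨m', hm', h'⟩ := hno g ⟨m, hm, hne⟩
          exact h' (ih (g * g) (by rw [← sq, ← pow_mul, ← pow_succ', h]) m' hm')
      have hle : gen G 2 ≤ N := by
        rw [gen, Subgroup.closure_le]
        rintro g ⟨k, hk⟩
        obtain ⟨m, hm, n, hn, rfl⟩ := hsup g
        have hg : (m * n) ^ 2 ^ k = 1 := hk ▸ pow_orderOf_eq_one _
        have hc : Commute m n := by
          have h1 := hcent _ k hg m hm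
          show m * n = n * m
          rw [mul_inv_rev, show n⁻¹ * m⁻¹ * m * (m * n) = n⁻¹ * m * n by group] at h1
          calc m * n = n * (n⁻¹ * m * n) := by group
            _ = n * m := by rw [h1]
        rw [hc.mul_pow] at hg
        have h1 : m ^ 2 ^ k = 1 := Subgroup.mem_bot.1 (hMN ▸ Subgroup.mem_inf.2 ⟨M.pow_mem hm _,
          eq_inv_of_mul_eq_one_left hg ▸ N.inv_mem (N.pow_mem hn _)⟩)
        have h2 : ∀ j : ℕ, ∀ a ∈ M, a ^ 2 ^ j = 1 → a = 1 := by
          intro j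
          induction j with
          | zero => intro a _ ha; simpa using ha
          | succ j ih =>
            intro a ha h
            rw [pow_succ', pow_mul] at h
            have h3 := ih (a ^ 2) (M.pow_mem ha 2) h
            by_contra hne
            exact hinvol a ha hne h3
        rw [h2 k m hm h1, one_mul]
        exact hn
      exact hMne (eq_bot_iff.2 (hMN ▸ le_inf le_rfl (hMK.trans hle)))
    obtain ⟨m₀, hm₀, hne⟩ := hy
    obtain ⟨c, hc, x, hx, rfl⟩ := hsup y
    have hact : ∀ m ∈ M, (c * x)⁻¹ * m * (c * x) = x⁻¹ * m * x := by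
      intro m hm
      have := hab m hm c hc
      calc (c * x)⁻¹ * m * (c * x) = x⁻¹ * (c⁻¹ * (m * c)) * x := by group
        _ = x⁻¹ * m * x := by rw [this]; group
    let σ : M →* M :=
      { toFun := fun m => ⟨x⁻¹ * m * x, by simpa using hM.conj_mem (m : G) m.2 x⁻¹⟩
        map_one' := Subtype.ext (by simp)
        map_mul' := fun a b => Subtype.ext (by simp [mul_assoc]) }
    have hσ2 : ∀ m : M, σ (σ m) = m := by
      intro m
      apply Subtype.ext
      have hm1 : x⁻¹ * (m : G) * x ∈ M := (σ m).2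
      show x⁻¹ * (x⁻¹ * (m : G) * x) * x = m
      rw [← hact _ hm1, ← hact _ m.2]
      have := hy2 m m.2
      rw [mul_inv_rev] at this
      simpa [mul_assoc] using this
    let ψ : M →* M := σ * (MonoidHom.id M)⁻¹
    have hψ : ∀ m : M, ψ m = σ m * m⁻¹ := fun m => rfl
    have hψne : ψ ⟨m₀, hm₀⟩ ≠ 1 := by
      rw [hψ, ne_eq, mul_inv_eq_one]
      exact fun h => hne ((hact m₀ hm₀).trans (congrArg Subtype.val h))
    obtain ⟨μ, hμ⟩ := CommGroup.exists_apply_ne_one_of_hasEnoughRootsOfUnity M ℂ hψne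
    refine ⟨μ.comp ψ, fun h => hμ (DFunLike.congr_fun h ⟨m₀, hm₀⟩), x, hx, fun m => ?_⟩
    show μ (ψ (σ m)) = (μ (ψ m))⁻¹
    rw [← map_inv, hψ, hψ, hσ2]
    congr 1
    rw [mul_inv_rev, inv_inv]

theorem mem_inertia {M : Subgroup G} [hM : M.Normal] (lam : M →* ℂˣ) (g : G) :
    g ∈ Chars2.inertiaSub (fun m : M => (lam m : ℂ)) ↔
      ∀ m : M, lam ⟨g⁻¹ * m * g, by simpa using hM.conj_mem (m : G) m.2 g⁻¹⟩ = lam m := by
  rw [Chars2.mem_inertiaSub, funext_iff]
  refine forall_congr' fun m => ?_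
  rw [Chars2.conjFun_apply, Units.val_inj]
  simp only [inv_inv]

/-- The complemented core of the induction. -/
theorem core_case [Finite G] {p : ℕ} [hp : Fact p.Prime] (hreal : RealPrimeTo G p)
    (M N H : Subgroup G) [hM : M.Normal] [H.Normal]
    (hab : ∀ a ∈ M, ∀ b ∈ M, a * b = b * a)
    (hMN : M ⊓ N = ⊥) (hsup : ∀ g : G, ∃ m ∈ M, ∃ n ∈ N, g = m * n)
    (hmin : ∀ S : Subgroup G, S.Normal → S ≤ M → S ≠ ⊥ → S = M) (hMne : M ≠ ⊥)
    (hMK : M ≤ gen G 2) (hHM : ∃ a, M.relIndex H = p ^ a) (hnc : ⁅M, H⁆ ≠ ⊥) :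
    False := by
  classical
  haveI : Fintype G := Fintype.ofFinite G
  obtain ⟨lam, hlam, x, hxN, hxinv⟩ := exists_inverted M N hab hMN hsup hmin hMne hMK
  have hex : ∀ g : G, ∃ m : M, (m : G)⁻¹ * g ∈ N := fun g => by
    obtain ⟨m, hm, n, hn, rfl⟩ := hsup g
    exact ⟨⟨m, hm⟩, by simpa using hn⟩
  choose c hc using hex
  have hcu : ∀ (g : G) (m : M), (m : G)⁻¹ * g ∈ N → c g = m := by
    intro g m h
    have h1 : (m : G)⁻¹ * (c g : G) ∈ M ⊓ N := Subgroup.mem_inf.2
      ⟨M.mul_mem (M.inv_mem m.2) (c g).2, by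
        have := N.mul_mem h (N.inv_mem (hc g))
        simpa [mul_assoc] using this⟩
    rw [hMN, Subgroup.mem_bot, inv_mul_eq_one] at h1
    exact Subtype.ext h1.symm
  have hval : ∀ (a b : M), (a : G) = b → lam a = lam b := fun a b h => by rw [Subtype.ext h]
  set T := Chars2.inertiaSub (fun m : M => (lam m : ℂ)) with hT
  have hMT : M ≤ T := Chars2.le_inertiaSub
    (isClassFunction_of_isCharacter (isCharacter_hom lam))
  let η : T →* ℂˣ := MonoidHom.mk' (fun t => lam (c (t : G))) fun t u => by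
    have hnM : ((c t : G)⁻¹ * t) * (c u : G) * ((c t : G)⁻¹ * t)⁻¹ ∈ M := hM.conj_mem _ (c u).2 _
    rw [Subgroup.coe_mul, hcu ((t : G) * u) (c t * ⟨_, hnM⟩) ?_, map_mul]
    · congr 1
      have hn : (c t : G)⁻¹ * t ∈ T := T.mul_mem (T.inv_mem (hMT (c t).2)) t.2
      refine Eq.trans ?_ ((mem_inertia lam _).1 (T.inv_mem hn) (c u))
      exact hval _ _ (by simp)
    · simp only [Subgroup.coe_mul]
      convert N.mul_mem (hc (t : G)) (hc (u : G)) using 1
      group
  have hη : ∀ m : M, η ⟨m, hMT m.2⟩ = lam m := fun m =>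
    congrArg lam (hcu (m : G) m (by simp [N.one_mem]))
  have hx : ∀ y : G, x⁻¹ * y * x ∈ T ↔ y ∈ T := by
    intro y
    have hkey : ∀ (a b : M), (a : G) = x⁻¹ * b * x → lam a = (lam b)⁻¹ := fun a b h => by
      rw [← hxinv b]; exact hval _ _ h
    rw [mem_inertia, mem_inertia]
    constructor
    · intro h m
      let m' : M := ⟨x⁻¹ * m * x, by simpa using hM.conj_mem (m : G) m.2 x⁻¹⟩
      have h1 := h m'
      rw [hkey _ ⟨y⁻¹ * m * y, by simpa using hM.conj_mem (m : G) m.2 y⁻¹⟩ (by simp [m']; group),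
        hkey m' m rfl, inv_inj] at h1
      exact h1
    · intro h m
      let m' : M := ⟨x * m * x⁻¹, hM.conj_mem (m : G) m.2 x⟩
      rw [hkey _ ⟨y⁻¹ * m' * y, by simpa using hM.conj_mem (m' : G) m'.2 y⁻¹⟩ (by simp [m']; group),
        h m', hkey m m' (by simp [m']; group)]
  have hinv : ∀ (y : G) (hy : y ∈ T),
      η ⟨x⁻¹ * y * x, (hx y).2 hy⟩ = (η ⟨y, hy⟩)⁻¹ := by
    intro y hy
    show lam (c (x⁻¹ * y * x)) = (lam (c y))⁻¹
    rw [← hxinv (c y)]
    refine congrArg lam (hcu _ _ ?_)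
    have := N.mul_mem (N.mul_mem (N.inv_mem hxN) (hc y)) hxN
    simpa [mul_assoc] using this
  obtain ⟨χ, hχr, -, hdvd⟩ := exists_real_above M lam T hMT le_rfl
    (by rw [Subgroup.relIndex_self]; exact odd_one) η hη x hx hinv
  have hpT : ¬ p ∣ T.index := fun h => hreal χ hχr (h.trans hdvd)
  have hHT : H ≤ T := by
    obtain ⟨a, ha⟩ := hHM
    obtain ⟨b, -, hb⟩ :=
      (Nat.dvd_prime_pow hp.out).1 (ha ▸ Subgroup.relIndex_dvd_of_le_left H hMT)
    rw [← Subgroup.relIndex_eq_one]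
    rcases Nat.eq_zero_or_pos b with h0 | h0
    · rw [hb, h0, pow_zero]
    · exact absurd ((dvd_pow_self p h0.ne').trans (hb ▸ relIndex_dvd_index T H)) hpT
  have hle : ⁅M, H⁆ ≤ M := Subgroup.commutator_le_left M H
  have heq := hmin ⁅M, H⁆ (Subgroup.commutator_normal M H) hle hnc
  let D : Subgroup G := lam.ker.map M.subtype
  have hD : ⁅M, H⁆ ≤ D := Subgroup.commutator_le.2 fun m hm h hh => by
    have hmem : ⁅m, h⁆ ∈ M := hle (Subgroup.commutator_mem_commutator hm hh)
    refine ⟨⟨_, hmem⟩, ?_, rfl⟩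
    have h1 : h * m⁻¹ * h⁻¹ ∈ M := hM.conj_mem _ (M.inv_mem hm) h
    have h2 : lam ⟨_, h1⟩ = (lam ⟨m, hm⟩)⁻¹ := by
      rw [← map_inv, ← (mem_inertia lam _).1 (T.inv_mem (hHT hh)) ((⟨m, hm⟩ : M)⁻¹)]
      exact hval _ _ (by simp)
    show lam _ = 1
    rw [hval _ (⟨m, hm⟩ * ⟨_, h1⟩) (by simp [commutatorElement_def, mul_assoc]), map_mul, h2,
      mul_inv_cancel]
  refine hlam (MonoidHom.ext fun m => ?_)
  have hm' : (m : G) ∈ ⁅M, H⁆ := by rw [heq]; exact m.2
  obtain ⟨a, ha, hae⟩ := hD hm'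
  rw [hval m a hae.symm, MonoidHom.mem_ker.1 ha, MonoidHom.one_apply]

/-- The induction. -/
theorem exists_normal_pSub (p : ℕ) [hp : Fact p.Prime] : ∀ (n : ℕ) (G : Type u) [Group G] [Finite G],
    Nat.card G = n → Group.IsSolvable (gen G p) → RealPrimeTo G p →
    ∀ U : Subgroup G, U.Normal → gen G 2 ≤ U → (∃ a, (gen G 2).relIndex U = p ^ a) →
    ∃ Q : Subgroup G, Q.Normal ∧ IsPGroup p Q ∧ Q ≤ U ∧ ¬ p ∣ Q.relIndex U := by
  intro n
  induction n using Nat.strong_induction_on with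
  | _ n ih => ?_
  intro G _ _ hn hsolv hreal U hU hKU ⟨e, he⟩
  haveI := Fact.mk Nat.prime_two
  by_cases hK : gen G 2 = ⊥
  · rw [hK, Subgroup.relIndex_bot_left] at he
    exact ⟨U, hU, IsPGroup.of_card he, le_rfl, by
      rw [Subgroup.relIndex_self]; exact hp.out.not_dvd_one⟩
  -- choose a minimal normal subgroup inside the odd residual
  obtain ⟨M, hMn, hMK, hMne, hMmin, hcase⟩ : ∃ M : Subgroup G, M.Normal ∧ M ≤ gen G 2 ∧ M ≠ ⊥ ∧
      (∀ S : Subgroup G, S.Normal → S ≤ M → S ≠ ⊥ → S = M) ∧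
      (IsPGroup p M ∨ ∀ S : Subgroup G, S.Normal → S ≤ gen G 2 → IsPGroup p S → S = ⊥) := by
    have hmk : ∀ P : Subgroup G → Prop, (∃ S, P S) → ∃ M, P M ∧ ∀ S, P S → S ≤ M → S = M := by
      intro P hP
      obtain ⟨M, hM, hmin⟩ := Set.exists_min_image {S | P S} (fun S => Nat.card S)
        (Set.toFinite _) hP
      exact ⟨M, hM, fun S hS hle => Subgroup.eq_of_le_of_card_ge hle (hmin S hS)⟩
    by_cases h : ∃ S : Subgroup G, S.Normal ∧ S ≤ gen G 2 ∧ IsPGroup p S ∧ S ≠ ⊥
    · obtain ⟨M, ⟨h1, h2, h3, h4⟩, hmin⟩ := hmk _ h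
      exact ⟨M, h1, h2, h4, fun S hS hle hne =>
        hmin S ⟨hS, hle.trans h2, h3.to_le hle, hne⟩ hle, Or.inl h3⟩
    · obtain ⟨M, ⟨h1, h2, h4⟩, hmin⟩ := hmk (fun S => S.Normal ∧ S ≤ gen G 2 ∧ S ≠ ⊥)
        ⟨_, gen_normal 2, le_rfl, hK⟩
      push Not at h
      exact ⟨M, h1, h2, h4, fun S hS hle hne => hmin S ⟨hS, hle.trans h2, hne⟩ hle,
        Or.inr fun S hS hle hp => h S hS hle hp⟩
  haveI := hMn
  have cardmul : ∀ {A B : Subgroup G}, A ≤ B → Nat.card A * A.relIndex B = Nat.card B := fun {A B} hAB => by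
    rw [← Subgroup.relIndex_bot_left, Subgroup.relIndex_mul_relIndex _ _ _ bot_le hAB,
      Subgroup.relIndex_bot_left]
  -- pass to the quotient
  let f := QuotientGroup.mk' M
  have hf : Function.Surjective f := QuotientGroup.mk'_surjective M
  have hlt : Nat.card (G ⧸ M) < n := by
    rw [← hn, Subgroup.card_eq_card_quotient_mul_card_subgroup M]
    exact lt_mul_of_one_lt_right Nat.card_pos
      ((Subgroup.one_lt_card_iff_ne_bot _).2 hMne)
  have hsolv' : Group.IsSolvable (gen (G ⧸ M) p) := by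
    rw [← map_gen p f hf]
    haveI := hsolv
    exact Group.isSolvable_of_surjective (f.subgroupMap_surjective (gen G p))
  obtain ⟨Q', hQn, hQp, hQle, hQi⟩ := ih _ hlt (G ⧸ M) rfl hsolv' (hreal.of_surjective f hf)
    (U.map f) (hU.map f hf) (map_gen 2 f hf ▸ Subgroup.map_mono hKU) ⟨e, by
      rw [← map_gen 2 f hf, Subgroup.relIndex_map_map, QuotientGroup.ker_mk',
        sup_eq_left.2 hMK, sup_eq_left.2 (hMK.trans hKU), he]⟩
  set H := Q'.comap f with hH
  haveI hHn : H.Normal := hQn.comap f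
  have hMH : M ≤ H := (QuotientGroup.ker_mk' M).symm.le.trans (Subgroup.ker_le_comap f Q')
  have hHU : H ≤ U := (Subgroup.comap_mono hQle).trans (by
    rw [Subgroup.comap_map_eq, QuotientGroup.ker_mk', sup_eq_left.2 (hMK.trans hKU)])
  obtain ⟨a, ha⟩ : ∃ a, M.relIndex H = p ^ a := by
    obtain ⟨a, ha⟩ := IsPGroup.iff_card.1 hQp
    refine ⟨a, ?_⟩
    have h1 : M = (⊥ : Subgroup (G ⧸ M)).comap f := by
      rw [MonoidHom.comap_bot, QuotientGroup.ker_mk']
    conv_lhs => rw [h1, hH, Subgroup.relIndex_comap, Subgroup.map_comap_eq_self_of_surjective hf,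
      Subgroup.relIndex_bot_left]
    exact ha
  have hHUi : ¬ p ∣ H.relIndex U := by rwa [hH, Subgroup.relIndex_comap]
  rcases hcase with hMp | hno
  · obtain ⟨b, hb⟩ := IsPGroup.iff_card.1 hMp
    exact ⟨H, hHn, IsPGroup.of_card (n := b + a) (by rw [← cardmul hMH, hb, ha, pow_add]), hHU, hHUi⟩
  -- `M` has order prime to `p`
  have hML : M ⊓ gen G p = ⊥ ∨ M ≤ gen G p := by
    by_cases h : M ⊓ gen G p = ⊥
    · exact Or.inl h
    · exact Or.inr (inf_eq_left.1 (hMmin _ inferInstance inf_le_left h))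
  have hMab : M ≤ gen G p → ∀ a ∈ M, ∀ b ∈ M, a * b = b * a := by
    intro hle a ha b hb
    have hne : ⁅M, M⁆ ≠ M := by
      intro heq
      haveI := hsolv
      haveI : Group.IsSolvable M := Group.isSolvable_of_isSolvable_injective (Subgroup.inclusion_injective hle)
      haveI : Nontrivial M := (Subgroup.nontrivial_iff_ne_bot M).2 hMne
      refine (Group.IsSolvable.commutator_lt_top_of_nontrivial M).ne ?_
      rw [_root_.commutator_def]
      refine Subgroup.map_injective M.subtype_injective ?_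
      rw [Subgroup.map_commutator, ← MonoidHom.range_eq_map, Subgroup.range_subtype, heq]
    have hb' : ⁅M, M⁆ = ⊥ := by
      by_contra h
      exact hne (hMmin _ (Subgroup.commutator_normal M M) (Subgroup.commutator_le_left M M) h)
    have := Subgroup.mem_bot.1 (hb' ▸ Subgroup.commutator_mem_commutator ha hb)
    exact commutatorElement_eq_one_iff_mul_comm.1 this
  have hpM : ¬ p ∣ Nat.card M := by
    intro h
    obtain ⟨⟨g, hgM⟩, hg⟩ := exists_prime_orderOf_dvd_card' p h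
    rw [Subgroup.orderOf_mk] at hg
    have hgL : g ∈ gen G p := Subgroup.subset_closure ⟨1, by rw [pow_one]; exact hg⟩
    have hg1 : g ≠ 1 := fun h => hp.out.ne_one (by rw [← hg, h, orderOf_one])
    rcases hML with h' | h'
    · exact hg1 (Subgroup.mem_bot.1 (h' ▸ Subgroup.mem_inf.2 ⟨hgM, hgL⟩))
    · have hab := hMab h'
      let S : Subgroup G :=
        { carrier := {m | m ∈ M ∧ m ^ p = 1}
          one_mem' := ⟨M.one_mem, one_pow p⟩
          mul_mem' := fun {a b} ha hb => ⟨M.mul_mem ha.1 hb.1, by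
            rw [Commute.mul_pow (hab a ha.1 b hb.1), ha.2, hb.2, one_mul]⟩
          inv_mem' := fun {a} ha => ⟨M.inv_mem ha.1, by rw [inv_pow, ha.2, inv_one]⟩ }
      have hSn : S.Normal := ⟨fun a ha g => ⟨hMn.conj_mem a ha.1 g, by rw [conj_pow, ha.2]; simp⟩⟩
      have hSp : IsPGroup p S := fun s => ⟨1, Subtype.ext (by simpa using s.2.2)⟩
      exact hg1 (Subgroup.mem_bot.1
        (hno S hSn (fun a ha => hMK ha.1) hSp ▸ (⟨hgM, hg ▸ pow_orderOf_eq_one g⟩ : g ∈ S)))
  -- a Sylow subgroup of `H`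
  obtain ⟨P⟩ : Nonempty (Sylow p H) := inferInstance
  set R := (P : Subgroup H).map H.subtype with hR
  have hRH : R ≤ H := Subgroup.map_subtype_le _
  have hRp : IsPGroup p R := P.isPGroup'.map H.subtype
  have hRi : ¬ p ∣ R.relIndex H := by
    rw [Subgroup.relIndex, hR, Subgroup.subgroupOf,
      Subgroup.comap_map_eq_self_of_injective H.subtype_injective]
    exact P.not_dvd_index
  have hdisj : M ⊓ R = ⊥ := by
    obtain ⟨k, hk⟩ := IsPGroup.iff_card.1 hRp
    exact Subgroup.inf_eq_bot_of_coprime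
      (hk ▸ (Nat.Coprime.pow_left k ((Nat.Prime.coprime_iff_not_dvd hp.out).2 hpM)).symm)
  have hMR : M ⊔ R = H := by
    refine le_antisymm (sup_le hMH hRH) ?_
    rw [← Subgroup.relIndex_eq_one]
    have h1 : (M ⊔ R).relIndex H ∣ p ^ a := ha ▸ Subgroup.relIndex_dvd_of_le_left H le_sup_left
    obtain ⟨b, -, hb⟩ := (Nat.dvd_prime_pow hp.out).1 h1
    rcases Nat.eq_zero_or_pos b with h0 | h0
    · rw [hb, h0, pow_zero]
    · exact absurd ((dvd_pow_self p h0.ne').trans
        (hb ▸ Subgroup.relIndex_dvd_of_le_left H le_sup_right)) hRi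
  by_cases hcen : ∀ r ∈ R, ∀ m ∈ M, m * r = r * m
  · -- `R` is the set of `p`-elements of `H`
    haveI hRn : (R.subgroupOf H).Normal := by
      refine Subgroup.normal_subgroupOf_iff_le_normalizer hRH |>.2 ?_
      rw [← hMR]
      refine sup_le (fun m hm => Subgroup.mem_normalizer_iff.2 fun r => ?_) Subgroup.le_normalizer
      constructor
      · intro hr; rw [hcen r hr m hm, mul_inv_cancel_right]; exact hr
      · intro hr
        have h1 := hcen _ hr m⁻¹ (M.inv_mem hm)
        have h2 : r = m⁻¹ * (m * r * m⁻¹) * m := by group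
        rw [h2, h1]; simpa [mul_assoc] using hr
    have hmem : ∀ g ∈ H, ∀ k : ℕ, g ^ p ^ k = 1 → g ∈ R := by
      intro g hg k hk
      have := mem_of_coprime_index (R.subgroupOf H) (g := ⟨g, hg⟩) (m := p ^ k)
        (Subtype.ext (by simpa using hk))
        (Nat.Coprime.pow_left _ ((Nat.Prime.coprime_iff_not_dvd hp.out).2 hRi))
      exact Subgroup.mem_subgroupOf.1 this
    refine ⟨R, ⟨fun r hr g => ?_⟩, hRp, hRH.trans hHU, ?_⟩
    · obtain ⟨k, hk⟩ := hRp ⟨r, hr⟩
      refine hmem _ (hHn.conj_mem r (hRH hr) g) k ?_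
      rw [conj_pow, show r ^ p ^ k = 1 by simpa using congrArg Subtype.val hk]
      simp
    · rw [← Subgroup.relIndex_mul_relIndex R H U hRH hHU]
      exact hp.out.not_dvd_mul hRi hHUi
  exfalso
  have hle : M ≤ gen G p := by
    refine hML.resolve_left fun h => hcen fun r hr m hm => ?_
    exact Subgroup.commute_of_normal_of_disjoint M (gen G p) hMn (gen_normal p) (disjoint_iff.2 h)
      m r hm (le_gen hp.out hRp hr)
  have hab := hMab hle
  set N := Subgroup.normalizer (R : Set G) with hN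
  have hsupN : N ⊔ M = ⊤ := by
    rw [eq_top_iff, ← Sylow.normalizer_sup_eq_top (N := H) P, ← hR, ← hN, ← hMR]
    exact sup_le le_sup_left (sup_le le_sup_right ((Subgroup.le_normalizer).trans le_sup_left))
  have hsup : ∀ g : G, ∃ m ∈ M, ∃ n ∈ N, g = m * n := by
    intro g
    have : g ∈ ((M ⊔ N : Subgroup G) : Set G) := by rw [sup_comm, hsupN]; trivial
    rw [Subgroup.normal_mul] at this
    obtain ⟨m, hm, n, hn, rfl⟩ := Set.mem_mul.1 this
    exact ⟨m, hm, n, hn, rfl⟩
  have hC : (M ⊓ Subgroup.centralizer (R : Set G)).Normal := by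
    refine ⟨fun c hc g => ?_⟩
    obtain ⟨m, hm, n, hn, rfl⟩ := hsup g
    have h1 : n * c * n⁻¹ ∈ M ⊓ Subgroup.centralizer (R : Set G) := by
      refine Subgroup.mem_inf.2 ⟨hMn.conj_mem c hc.1 n, Subgroup.mem_centralizer_iff.2 fun r hr => ?_⟩
      have hr' : n⁻¹ * r * n ∈ R := (Subgroup.mem_normalizer_iff''.1 hn r).1 hr
      have h2 := Subgroup.mem_centralizer_iff.1 hc.2 _ hr'
      calc r * (n * c * n⁻¹) = n * ((n⁻¹ * r * n) * c) * n⁻¹ := by group
        _ = n * c * n⁻¹ * r := by rw [h2]; group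
    have h3 : m * n * c * (m * n)⁻¹ = n * c * n⁻¹ := by
      calc m * n * c * (m * n)⁻¹ = m * (n * c * n⁻¹) * m⁻¹ := by group
        _ = n * c * n⁻¹ := by rw [hab m hm _ h1.1, mul_inv_cancel_right]
    rw [h3]; exact h1
  have hMN : M ⊓ N = ⊥ := by
    have hbot : M ⊓ Subgroup.centralizer (R : Set G) = ⊥ := by
      by_contra h
      have := hMmin _ hC inf_le_left h
      exact hcen fun r hr m hm =>
        (Subgroup.mem_centralizer_iff.1 (inf_eq_left.1 this hm) r hr).symm
    rw [eq_bot_iff, ← hbot]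
    rintro m ⟨hm, hn⟩
    refine ⟨hm, Subgroup.mem_centralizer_iff.2 fun r hr => ?_⟩
    have h1 : m * r * m⁻¹ * r⁻¹ ∈ M ⊓ R := Subgroup.mem_inf.2 ⟨by
      have := M.mul_mem hm (hMn.conj_mem _ (M.inv_mem hm) r)
      simpa [mul_assoc] using this,
      R.mul_mem ((Subgroup.mem_normalizer_iff.1 hn r).1 hr) (R.inv_mem hr)⟩
    rw [hdisj, Subgroup.mem_bot, mul_inv_eq_one, mul_inv_eq_iff_eq_mul] at h1
    exact h1.symm
  refine core_case hreal M N H hab hMN hsup hMmin hMne hMK ⟨a, ha⟩ fun hbot => hcen fun r hr m hm =>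
    commutatorElement_eq_one_iff_mul_comm.1
      (Subgroup.mem_bot.1 (hbot ▸ Subgroup.commutator_mem_commutator hm (hRH hr)))

/-- The Sylow subgroups above the odd residual are normal. -/
theorem sylow_normal [Finite G] (p : ℕ) [hp : Fact p.Prime] (hsolv : Group.IsSolvable (gen G p))
    (hreal : RealPrimeTo G p) (U : Subgroup G) (hU : U.Normal) (hKU : gen G 2 ≤ U)
    (hUp : ∃ a, (gen G 2).relIndex U = p ^ a) (Q : Sylow p U) : (Q : Subgroup U).Normal := by
  obtain ⟨Q₀, hn, hQp, hle, hi⟩ := exists_normal_pSub p _ G rfl hsolv hreal U hU hKU hUp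
  haveI : (Q₀.subgroupOf U).Normal := hn.subgroupOf U
  have hp0 : IsPGroup p (Q₀.subgroupOf U) := hQp.of_equiv (Subgroup.subgroupOfEquivOfLe hle).symm
  let Q₁ : Sylow p U := hp0.toSylow hi
  obtain ⟨g, hg⟩ := MulAction.exists_smul_eq U Q₁ Q
  have : (Q₁ : Subgroup U).Normal := ‹(Q₀.subgroupOf U).Normal›
  rw [← hg, Sylow.smul_eq_of_normal]
  exact this

end Cfsg.Agent.Chars.RealPPrime
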