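import Mathlib
import Cfsg.Agent.Linear.Card

/-!
An element of order three of `SL₂(5)` inside `Sp₄(3)`.
-/

set_option autoImplicit false

namespace Cfsg.Agent.Chars

open Matrix Subgroup

theorem zmod3_pow_five : ∀ j : ZMod 3, 1 = j ^ 5 → j = 1 := by decide

theorem sl25_conj_generate {K : Type*} [Field K] [Fintype K] (hK : Fintype.card K = 5)
    (x : SpecialLinearGroup (Fin 2) K) (hx : orderOf x = 3) :
    ∃ g : SpecialLinearGroup (Fin 2) K, (-1 : SpecialLinearGroup (Fin 2) K) ∈
      Subgroup.closure {x, g * x * g⁻¹} := by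
  classical
  haveI : Fact (Nat.Prime 3) := ⟨by norm_num⟩
  haveI : Fact (Nat.Prime 5) := ⟨by norm_num⟩
  have hchar : CharP K 5 := charP_of_card_eq_prime (by rw [hK])
  have h2 : (2 : K) ≠ 0 := by
    have := (CharP.cast_eq_zero_iff K 5 2).not.2 (by norm_num); simpa using this
  by_cases hall : ∀ g : SpecialLinearGroup (Fin 2) K, g * x * g⁻¹ ∈ Subgroup.zpowers x
  · exfalso
    have hfix : ∀ g : SpecialLinearGroup (Fin 2) K, g ^ 5 = 1 → g * x = x * g := by
      intro g hg
      obtain ⟨i, hi⟩ := Subgroup.mem_zpowers_iff.1 (hall g)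
      have hk : ∀ k : ℕ, g ^ k * x * (g ^ k)⁻¹ = x ^ (i ^ k) := by
        intro k
        induction k with
        | zero => simp
        | succ k ih =>
          rw [pow_succ', show g * g ^ k * x * (g * g ^ k)⁻¹ = g * (g ^ k * x * (g ^ k)⁻¹) * g⁻¹ by group,
            ih, ← conj_zpow, ← hi, ← _root_.zpow_mul, ← pow_succ']
      have h5 := hk 5
      rw [hg, one_mul, inv_one, mul_one] at h5
      have h5' : x ^ (1 : ℤ) = x ^ (i ^ 5) := by rw [zpow_one]; exact h5
      rw [zpow_eq_zpow_iff_modEq, hx] at h5'
      have hi3 : i ≡ 1 [ZMOD ((3 : ℕ) : ℤ)] := by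
        rw [← ZMod.intCast_eq_intCast_iff] at h5' ⊢
        push_cast at h5' ⊢
        exact zmod3_pow_five _ h5'
      have hxi : x ^ i = x := by
        conv_rhs => rw [← zpow_one x]
        rw [zpow_eq_zpow_iff_modEq, hx]; exact hi3
      rw [← mul_inv_eq_iff_eq_mul, ← hi, hxi]
    let E : SpecialLinearGroup (Fin 2) K := ⟨!![1, 1; 0, 1], by simp [Matrix.det_fin_two]⟩
    let F' : SpecialLinearGroup (Fin 2) K := ⟨!![1, 0; 1, 1], by simp [Matrix.det_fin_two]⟩
    have h5 : (5 : K) = 0 := by exact_mod_cast CharP.cast_eq_zero K 5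
    have hE : E ^ 5 = 1 := by
      apply Subtype.ext
      rw [Matrix.SpecialLinearGroup.coe_pow]
      ext i j
      fin_cases i <;> fin_cases j <;>
        simp [E, pow_succ, Matrix.mul_apply, Fin.sum_univ_two] <;> linear_combination h5
    have hF : F' ^ 5 = 1 := by
      apply Subtype.ext
      rw [Matrix.SpecialLinearGroup.coe_pow]
      ext i j
      fin_cases i <;> fin_cases j <;>
        simp [F', pow_succ, Matrix.mul_apply, Fin.sum_univ_two] <;> linear_combination h5
    have e1 := congrArg (fun A : SpecialLinearGroup (Fin 2) K => (A : Matrix (Fin 2) (Fin 2) K)) (hfix E hE)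
    have e2 := congrArg (fun A : SpecialLinearGroup (Fin 2) K => (A : Matrix (Fin 2) (Fin 2) K)) (hfix F' hF)
    simp only [Matrix.SpecialLinearGroup.coe_mul] at e1 e2
    have a00 := congrArg (fun A : Matrix (Fin 2) (Fin 2) K => A 0 0) e1
    have a01 := congrArg (fun A : Matrix (Fin 2) (Fin 2) K => A 0 1) e1
    have b11 := congrArg (fun A : Matrix (Fin 2) (Fin 2) K => A 1 1) e2
    simp [E, F', Matrix.SpecialLinearGroup.coe_mul, Matrix.mul_apply, Fin.sum_univ_two] at a00 a01 b11
    have hd := x.2
    rw [Matrix.det_fin_two] at hd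
    have hx2 : x ^ 2 = 1 := by
      apply Subtype.ext
      ext i j
      fin_cases i <;> fin_cases j <;> simp [pow_two, Matrix.mul_apply, Fin.sum_univ_two] <;> grind
    have := orderOf_dvd_of_pow_eq_one hx2
    rw [hx] at this; norm_num at this
  · push Not at hall
    obtain ⟨g, hg⟩ := hall
    refine ⟨g, ?_⟩
    set y := g * x * g⁻¹ with hy
    set H := Subgroup.closure ({x, y} : Set (SpecialLinearGroup (Fin 2) K)) with hH
    have hxH : x ∈ H := Subgroup.subset_closure (Set.mem_insert _ _)
    have hyH : y ∈ H := Subgroup.subset_closure (Set.mem_insert_of_mem _ rfl)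
    have heven : 2 ∣ Nat.card H := by
      by_contra hodd
      have hdvd : Nat.card H ∣ 120 := by
        have := Subgroup.card_subgroup_dvd_card H
        rw [Cfsg.Agent.Linear.card_SL_two, hK] at this; simpa using this
      have h15 : Nat.card H ∣ 15 := by
        have hco : Nat.Coprime (Nat.card H) 8 :=
          (Nat.Coprime.pow_right 3 ((Nat.prime_two.coprime_iff_not_dvd.2 hodd).symm) :)
        exact hco.dvd_of_dvd_mul_right (show Nat.card H ∣ 15 * 8 from hdvd)
      have hxo : orderOf (⟨x, hxH⟩ : H) = 3 := by rw [Subgroup.orderOf_mk, hx]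
      have hyo : orderOf (⟨y, hyH⟩ : H) = 3 := by
        rw [Subgroup.orderOf_mk, hy, ← MulAut.conj_apply, MulEquiv.orderOf_eq, hx]
      have h3 : 3 ∣ Nat.card H := hxo ▸ orderOf_dvd_natCard _
      have hp : IsPGroup 3 (Subgroup.zpowers (⟨x, hxH⟩ : H)) :=
        IsPGroup.of_card (n := 1) (by rw [Nat.card_zpowers, hxo, pow_one])
      have hp' : IsPGroup 3 (Subgroup.zpowers (⟨y, hyH⟩ : H)) :=
        IsPGroup.of_card (n := 1) (by rw [Nat.card_zpowers, hyo, pow_one])
      obtain ⟨P, hP⟩ := hp.exists_le_sylow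
      obtain ⟨P', hP'⟩ := hp'.exists_le_sylow
      have hcardP : Nat.card (P : Subgroup H) = 3 := by
        rw [P.card_eq_multiplicity]
        have hle : (Nat.card H).factorization 3 ≤ 1 := by
          refine ((Nat.factorization_le_iff_dvd (Nat.card_pos.ne') (by norm_num)).2 h15 3).trans ?_
          rw [show (15 : ℕ) = 3 * 5 by norm_num, Nat.factorization_mul (by norm_num) (by norm_num)]
          rw [Finsupp.add_apply, Nat.Prime.factorization_self (by norm_num),
            Nat.factorization_eq_zero_of_not_dvd (by norm_num : ¬ 3 ∣ 5)]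
        have hge : 1 ≤ (Nat.card H).factorization 3 :=
          (Nat.Prime.dvd_iff_one_le_factorization (by norm_num) Nat.card_pos.ne').1 h3
        rw [le_antisymm hle hge, pow_one]
      have hn1 : Nat.card (Sylow 3 H) = 1 := by
        have h1 := card_sylow_modEq_one 3 H
        have h2 : Nat.card (Sylow 3 H) ∣ 5 := by
          refine P.card_dvd_index.trans ?_
          have h := (P : Subgroup H).card_mul_index
          rw [hcardP] at h
          exact Nat.dvd_of_mul_dvd_mul_left (by norm_num : 0 < 3) (h.symm ▸ h15)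
        rcases (Nat.dvd_prime (by norm_num)).1 h2 with h | h
        · exact h
        · rw [h] at h1; exact absurd h1 (by decide)
      haveI : Subsingleton (Sylow 3 H) := (Nat.card_eq_one_iff_unique.1 hn1).1
      have heq : Subgroup.zpowers (⟨x, hxH⟩ : H) = (P : Subgroup H) :=
        Subgroup.eq_of_le_of_card_ge hP (by rw [hcardP, Nat.card_zpowers, hxo])
      have hymem : (⟨y, hyH⟩ : H) ∈ Subgroup.zpowers (⟨x, hxH⟩ : H) := by
        rw [heq, Subsingleton.elim P P']; exact hP' (Subgroup.mem_zpowers _)
      obtain ⟨k, hk⟩ := hymem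
      exact hg ⟨k, by simpa using congrArg Subtype.val hk⟩
    obtain ⟨⟨t, ht⟩, ht2⟩ := exists_prime_orderOf_dvd_card' (G := H) 2 heven
    rw [Subgroup.orderOf_mk] at ht2
    suffices t = -1 by rwa [← this]
    have htt : t * t = 1 := by have := pow_orderOf_eq_one t; rwa [ht2, sq] at this
    have htne : t ≠ 1 := fun h => by rw [h, orderOf_one] at ht2; norm_num at ht2
    have hm := congrArg (fun A : SpecialLinearGroup (Fin 2) K => (A : Matrix (Fin 2) (Fin 2) K)) htt
    have hd := t.2
    rw [Matrix.det_fin_two] at hd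
    have c00 := congrArg (fun A : Matrix (Fin 2) (Fin 2) K => A 0 0) hm
    have c01 := congrArg (fun A : Matrix (Fin 2) (Fin 2) K => A 0 1) hm
    have c10 := congrArg (fun A : Matrix (Fin 2) (Fin 2) K => A 1 0) hm
    have c11 := congrArg (fun A : Matrix (Fin 2) (Fin 2) K => A 1 1) hm
    simp [Matrix.mul_apply, Fin.sum_univ_two] at c00 c01 c10 c11
    set a := (t : Matrix (Fin 2) (Fin 2) K) 0 0 with ha
    set b := (t : Matrix (Fin 2) (Fin 2) K) 0 1 with hb
    set c := (t : Matrix (Fin 2) (Fin 2) K) 1 0 with hc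
    set d := (t : Matrix (Fin 2) (Fin 2) K) 1 1 with hd'
    have htr : a + d ≠ 0 := fun h => h2 (by
      have : (2 : K) * 2 = 0 := by linear_combination -2 * hd - c00 - c11 + (a + d) * h
      simpa using this)
    have hb0 : b = 0 := by
      have : b * (a + d) = 0 := by linear_combination c01
      simpa [htr] using this
    have hc0 : c = 0 := by
      have : c * (a + d) = 0 := by linear_combination c10
      simpa [htr] using this
    have ha1 : a * a = 1 := by rw [hb0] at c00; linear_combination c00
    have had : a = d := by linear_combination (-a) * hd + d * ha1 + (-a) * c * hb0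
    rcases mul_self_eq_one_iff.1 ha1 with h | h
    · exfalso; apply htne
      apply Subtype.ext
      ext i j
      fin_cases i <;> fin_cases j <;> simp [← ha, ← hb, ← hc, ← hd', h, hb0, hc0, ← had]
    · apply Subtype.ext
      ext i j
      fin_cases i <;> fin_cases j <;> simp [← ha, ← hb, ← hc, ← hd', h, hb0, hc0, ← had]

end Cfsg.Agent.Chars
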