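import Cfsg.Agent.Chars.SzBinaryCount
import Cfsg.Agent.Chars.Eigen

/-!
Non-commuting pairs of torus elements with product in the same cyclic subgroup class.
-/

set_option autoImplicit false
set_option linter.style.haveILetI false
set_option linter.unusedSectionVars false

namespace Cfsg.Agent.Chars.SzD

open Cfsg Cfsg.Agent Cfsg.Agent.Suzuki Cfsg.Agent.Chars.SzTorus
open scoped ComplexConjugate

/-- A conjugate of a power. -/
def PowConj {G : Type*} [Group G] (x e : G) : Prop := ∃ c : G, ∃ n : ℕ, e = c * x ^ n * c⁻¹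

/-- Two non-commuting conjugates of powers with product another one. -/
def NonCommPair {G : Type*} [Group G] (x : G) : Prop :=
  ∃ a b : G, PowConj x a ∧ PowConj x b ∧ PowConj x (a * b) ∧ a * b ≠ b * a

theorem powConj_conj {G : Type*} [Group G] {x e : G} (s : G) (he : PowConj (s * x * s⁻¹) e) :
    PowConj x e := by
  obtain ⟨c, n, rfl⟩ := he
  exact ⟨c * s, n, by rw [conj_pow]; group⟩

theorem nonCommPair_conj {G : Type*} [Group G] {x : G} (s : G) (hp : NonCommPair (s * x * s⁻¹)) :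
    NonCommPair x := by
  obtain ⟨a, b, ha, hb, hab, hne⟩ := hp
  exact ⟨a, b, powConj_conj s ha, powConj_conj s hb, powConj_conj s hab, hne⟩

open scoped Classical in
theorem count_le {G : Type*} [Group G] [Fintype G] {K : Subgroup G} {n : ℕ} (hK : TorusHyp K n) {x : G}
    (hxK : x ∈ K) (hx1 : x ≠ 1)
    (hcomm : ∀ a b : G, IsConj x a → IsConj x b → IsConj (a * b) x → a * b = b * a) :
    ∀ a : G, IsConj x a → (Finset.univ.filter fun b => IsConj x b ∧ IsConj (a * b) x).card ≤ 4 := by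
  set N := Subgroup.normalizer (K : Set G) with hN
  intro a ha
  obtain ⟨c, hc⟩ := isConj_iff.1 ha
  set S := Finset.univ.filter (fun b => IsConj x b ∧ IsConj (a * b) x) with hS
  have hmem : ∀ b : S, ∃ v ∈ N, v * x * v⁻¹ = c⁻¹ * b.1 * c := by
    rintro ⟨b, hb⟩
    obtain ⟨-, hb1, hb2⟩ := Finset.mem_filter.1 hb
    obtain ⟨d, hd⟩ := isConj_iff.1 hb1
    have hcm := hcomm a b ha hb1 hb2
    have hbK : c⁻¹ * b * c ∈ K := by
      rw [hK.mem_iff hxK hx1]
      have hx' : x = c⁻¹ * a * c := by rw [← hc]; group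
      rw [hx']
      calc c⁻¹ * b * c * (c⁻¹ * a * c) = c⁻¹ * (b * a) * c := by group
        _ = _ := by rw [← hcm]; group
    refine ⟨c⁻¹ * d, hK.ti (c⁻¹ * d) x hxK hx1 ?_, ?_⟩
    · rw [show c⁻¹ * d * x * (c⁻¹ * d)⁻¹ = c⁻¹ * b * c by rw [← hd]; group]; exact hbK
    · subst hd; group
  choose v hvN hv using hmem
  let φ : S × K → N := fun p => ⟨v p.1 * p.2.1, mul_mem (hvN p.1) (Subgroup.le_normalizer p.2.2)⟩
  have hφ : Function.Injective φ := by
    rintro ⟨b, k⟩ ⟨b', k'⟩ e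
    have e1 : v b * k.1 = v b' * k'.1 := congrArg Subtype.val e
    have hkx : ∀ j : K, j.1 * x * j.1⁻¹ = x := fun j => by
      rw [hK.comm j.1 j.2 x hxK, mul_inv_cancel_right]
    have e2 : c⁻¹ * b.1 * c = c⁻¹ * b'.1 * c := by
      rw [← hv b, ← hv b']
      calc v b * x * (v b)⁻¹ = v b * (k.1 * x * k.1⁻¹) * (v b)⁻¹ := by rw [hkx]
        _ = (v b * k.1) * x * (v b * k.1)⁻¹ := by group
        _ = (v b' * k'.1) * x * (v b' * k'.1)⁻¹ := by rw [e1]
        _ = v b' * (k'.1 * x * k'.1⁻¹) * (v b')⁻¹ := by group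
        _ = _ := by rw [hkx]
    have eb : b = b' := Subtype.ext (mul_left_cancel (mul_right_cancel e2))
    subst eb
    exact Prod.ext rfl (Subtype.ext (mul_left_cancel e1))
  have h1 := Nat.card_le_card_of_injective φ hφ
  rw [Nat.card_prod, Nat.card_eq_fintype_card, Fintype.card_coe, hN, hK.card, hK.norm] at h1
  exact Nat.le_of_mul_le_mul_right h1 (by omega)

variable {F : Type*} [Field F] {m : ℕ} (h : Ctx F m)
include h

variable [Fintype (Cfsg.Sz F m)] [Fintype F] [Fintype Fˣ]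

theorem pair_split {k : Fˣ} (hk : k ≠ 1) : NonCommPair (hEl h k) := by
  have hk2 : k * k ≠ 1 := fun e => hk (Units.ext (h.sq_injective (by
    show (k : F) ^ 2 = ((1 : Fˣ) : F) ^ 2
    rw [sq, Units.val_one, one_pow, ← Units.val_mul, e, Units.val_one])))
  set u := uEl h 1 0 with hu
  have hform : ∃ a b : F, hEl h k * (u * hEl h k * u⁻¹) = uEl h a b * hEl h (k * k) := by
    rw [show hEl h k * (u * hEl h k * u⁻¹) =
      (hEl h k * u * (hEl h k)⁻¹) * ((hEl h k * hEl h k) * u⁻¹ * (hEl h k * hEl h k)⁻¹) *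
        (hEl h k * hEl h k) by group, ← hEl_mul, hu, uEl_inv, hEl_conj, hEl_conj, uEl_mul]
    exact ⟨_, _, rfl⟩
  obtain ⟨a, b, hab⟩ := hform
  obtain ⟨t, ht⟩ := uh_conj h a b hk2
  refine ⟨hEl h k, u * hEl h k * u⁻¹, ⟨1, 1, by simp⟩, ⟨u, 1, by rw [pow_one]⟩, ⟨t⁻¹, 2, ?_⟩, ?_⟩
  · rw [hab, sq, ← hEl_mul]; conv_rhs => rw [← ht]
    group
  intro hc
  obtain ⟨l, hl⟩ := comm_hEl h hk hc.symm
  have f0 : (u * hEl h k * u⁻¹) • pt m (0 : F) 0 = pt m 0 0 := by rw [hl, hEl_smul_zero]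
  have finf : (u * hEl h k * u⁻¹) • inf' F m = inf' F m := by rw [hl, hEl_smul_inf]
  have f1 : (u * hEl h k * u⁻¹) • (u • pt m (0 : F) 0) = u • pt m 0 0 := by
    rw [mul_smul, mul_smul, inv_smul_smul, hEl_smul_zero]
  rw [hu, uEl_smul_zero] at f1
  have := three_fixed h (pt_ne_inf (0 : F) 0).symm (fun e => zero_ne_one (pt_inj e).1)
    (pt_ne_inf (1 : F) 0).symm finf f0 f1
  rw [conj_eq_one_iff, ← hEl_one h] at this
  exact hk (hEl_inj h this)

variable {Kp Km : Subgroup (Cfsg.Sz F m)} (T : Tori Kp Km)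
include T

open scoped Classical in
theorem pair_torus {x : Cfsg.Sz F m} (hx : x ∈ Kp ∨ x ∈ Km) (hx1 : x ≠ 1) : NonCommPair x := by
  obtain ⟨K, n, hK, hxK, hn⟩ : ∃ K n, TorusHyp K n ∧ x ∈ K ∧ (n = np m ∨ n = nm m) := by
    rcases hx with e | e
    · exact ⟨Kp, np m, T.hp, e, Or.inl rfl⟩
    · exact ⟨Km, nm m, T.hm, e, Or.inr rfl⟩
  by_contra hne
  have hcomm : ∀ a b : Cfsg.Sz F m, IsConj x a → IsConj x b → IsConj (a * b) x → a * b = b * a := by
    intro a b ha hb hab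
    by_contra hc
    obtain ⟨c, hc1⟩ := isConj_iff.1 ha
    obtain ⟨d, hd1⟩ := isConj_iff.1 hb
    obtain ⟨e, he1⟩ := isConj_iff.1 hab
    exact hne ⟨a, b, ⟨c, 1, by rw [pow_one, hc1]⟩, ⟨d, 1, by rw [pow_one, hd1]⟩,
      ⟨e⁻¹, 1, by rw [pow_one, ← he1]; group⟩, hc⟩
  have hcount := count_le hK hxK hx1 hcomm
  have hsum := sum_le_of_commuting x x 4 hcount
  have hz : Subgroup.centralizer ({x} : Set (Cfsg.Sz F m)) = K := hK.cent x hxK hx1
  rw [hz, hK.card] at hsum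
  have hcl : (Finset.univ.filter (IsConj x)).card * (4 * n + 1) = Nat.card (Cfsg.Sz F m) := by
    rw [show (Finset.univ.filter (IsConj x)).card = (Subgroup.centralizer ({x} : Set (Cfsg.Sz F m))).index by
      convert card_filter_isConj x, hz, ← hK.card, Subgroup.index_mul_card]
  have hS := torus_margin h T hx hx1 hx hx1
  set C := (Finset.univ.filter (IsConj x)).card
  have h1 : (C : ℝ) ≤ ((100 * (4 * n + 1) : ℕ) : ℝ) := by
    have h25 := mul_le_mul_of_nonneg_left hS (Nat.cast_nonneg (α := ℝ) C)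
    have hsum' : (C : ℝ) * (∑ χ : IrrCharacter (Cfsg.Sz F m), (χ : Cfsg.Sz F m → ℂ) x ^ 2 *
        conj ((χ : Cfsg.Sz F m → ℂ) x) / (χ : Cfsg.Sz F m → ℂ) 1).re ≤
        ((4 : ℕ) : ℝ) * ((4 * n + 1 : ℕ) : ℝ) := by
      convert hsum using 4; congr!
    push_cast at hsum' ⊢
    linarith
  have h2 : C ≤ 100 * (4 * n + 1) := by exact_mod_cast h1
  have h3 : Nat.card (Cfsg.Sz F m) ≤ 100 * (4 * n + 1) * (4 * n + 1) := by
    rw [← hcl]; exact Nat.mul_le_mul_right _ h2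
  rw [card_sz h, show 2 ^ (2 * m + 1) = qq m from rfl] at h3
  obtain ⟨y, hy1, -, -, -, hqy, hpy, hmy⟩ := arith_y h.one_le
  have hn4 : (4 * (n : ℤ) + 1) ≤ 8 * y ^ 2 + 4 * y + 1 := by
    rcases hn with rfl | rfl
    · rw [hpy]; nlinarith
    · rw [hmy]; nlinarith
  set A : ℤ := 4 * (n : ℤ) + 1
  have h4 : (8 * y ^ 2) ^ 2 * ((8 * y ^ 2) ^ 2 + 1) * (8 * y ^ 2 - 1) ≤ 100 * A * A := by
    rw [← hqy]
    have hq1 : 1 ≤ qq m := Nat.one_le_two_pow
    have := (Nat.cast_le (α := ℤ)).2 h3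
    rw [Nat.cast_mul, Nat.cast_mul, Nat.cast_sub hq1, Nat.cast_pow, Nat.cast_add, Nat.cast_pow,
      Nat.cast_one] at this
    push_cast at this ⊢
    linarith
  have hA : A * A ≤ (8 * y ^ 2 + 4 * y + 1) * (8 * y ^ 2 + 4 * y + 1) :=
    mul_le_mul hn4 hn4 (by positivity) (by positivity)
  have h5 : (8 * y ^ 2 + 4 * y + 1) ≤ 13 * y ^ 2 := by nlinarith
  have h6 := mul_le_mul h5 h5 (by positivity) (by positivity)
  have h7 : 7 ≤ 8 * y ^ 2 - 1 := by nlinarith
  have h8 : 65 ≤ (8 * y ^ 2) ^ 2 + 1 := by nlinarith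
  have h9 := mul_le_mul h8 h7 (by norm_num) (by positivity)
  have h10 := mul_le_mul_of_nonneg_left h9 (show 0 ≤ (8 * y ^ 2) ^ 2 by positivity)
  have h11 : 0 < y ^ 2 * y ^ 2 := by positivity
  linarith

omit T in
/-- Every non-trivial element of odd order has such a pair. -/
theorem pair_odd {x : Cfsg.Sz F m} (hx1 : x ≠ 1) (hodd : Odd (orderOf x)) : NonCommPair x := by
  obtain ⟨Kp, Km, T⟩ := exists_tori' h
  obtain ⟨e, he, hrep⟩ := exists_rep h T hx1
  obtain ⟨s, hs⟩ := isConj_iff.1 he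
  refine nonCommPair_conj s ?_
  rw [hs]
  have hbad : e ^ 4 ≠ 1 := by
    intro h4
    have ho : orderOf e = orderOf x := by rw [← hs]; exact MulEquiv.orderOf_eq (MulAut.conj s) x
    exact hx1 (orderOf_eq_one_iff.1 (Nat.eq_one_of_dvd_coprimes
      ((Nat.coprime_two_right.2 hodd).pow_right 2) dvd_rfl (ho ▸ orderOf_dvd_of_pow_eq_one h4)))
  rcases hrep with rfl | hy | ⟨k, hk, rfl⟩ | ⟨hk, hk1⟩
  · exact absurd (uEl_pow_four h 0 1) hbad
  · rcases hy with rfl | rfl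
    · exact absurd (uEl_pow_four h 1 0) hbad
    · exact absurd (by rw [inv_pow, show yEl h ^ 4 = 1 from uEl_pow_four h 1 0, inv_one]) hbad
  · exact pair_split h hk
  · exact pair_torus h T hk hk1

end Cfsg.Agent.Chars.SzD
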