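import Cfsg.Agent.Chars.SzBinaryLocal
import Cfsg.Agent.Chars.SzBinaryPairs

/-!
The binary actions of the Suzuki groups.
-/

set_option autoImplicit false
set_option linter.style.haveILetI false
set_option linter.unusedSectionVars false

namespace Cfsg.Agent.Chars.SzBinary

open Cfsg Cfsg.Agent Cfsg.Agent.Suzuki Cfsg.Agent.KnownA.SzSubgroups Cfsg.Agent.KnownA.SzMembers

variable {F : Type*} [Field F] {m : ℕ} (h : Ctx F m)
include h

local notation "Gr" => Cfsg.Sz F m

/-- The subgroup consists of one and the involutions at the point. -/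
def CenterAt (H : Subgroup Gr) (p : Cfsg.suzukiOvoid F m) : Prop :=
  ∀ g : Gr, g ∈ H ↔ g * g = 1 ∧ g • p = p

theorem odd_four {e : Gr} (hodd : Odd (orderOf e)) (he : e ^ 4 = 1) : e = 1 :=
  orderOf_eq_one_iff.1 (Nat.eq_one_of_dvd_coprimes
    ((Nat.coprime_two_right.2 hodd).pow_right 2) dvd_rfl (orderOf_dvd_of_pow_eq_one he))

theorem conj_sq {t e : Gr} (he : e * e = 1) : t * e * t⁻¹ * (t * e * t⁻¹) = 1 := by
  calc _ = t * (e * e) * t⁻¹ := by group
    _ = 1 := by rw [he]; group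

/-- The centre of a Sylow two-subgroup. -/
theorem center_char (P : Sylow 2 Gr) :
    ∃ p, CenterAt ((Subgroup.center (P : Subgroup Gr)).map (P : Subgroup Gr).subtype) p ∧
      ∀ e ∈ (P : Subgroup Gr), e • p = p := by
  obtain ⟨t, ht⟩ := sylow_point h P
  have hfix : ∀ e ∈ (P : Subgroup Gr), e • (t • inf' F m) = t • inf' F m := by
    intro e he
    obtain ⟨a, b, hab⟩ := (ht e).1 he
    have := uEl_smul_inf h a b
    rw [← hab, mul_smul, mul_smul, inv_smul_eq_iff] at this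
    exact this
  refine ⟨t • inf' F m, fun g => ?_, hfix⟩
  constructor
  · rintro ⟨⟨g, hgP⟩, hc, rfl⟩
    obtain ⟨a, b, hab⟩ := (ht g).1 hgP
    have hcomm : ∀ c d : F, uEl h a b * uEl h c d = uEl h c d * uEl h a b := by
      intro c d
      have hu : t * uEl h c d * t⁻¹ ∈ (P : Subgroup Gr) := (ht _).2 ⟨c, d, by group⟩
      have e : t * uEl h c d * t⁻¹ * g = g * (t * uEl h c d * t⁻¹) :=
        congrArg Subtype.val (Subgroup.mem_center_iff.1 hc ⟨_, hu⟩)
      rw [show g = t * uEl h a b * t⁻¹ by rw [← hab]; group] at e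
      calc uEl h a b * uEl h c d = t⁻¹ * (t * uEl h a b * t⁻¹ * (t * uEl h c d * t⁻¹)) * t := by group
        _ = _ := by rw [← e]; group
    have hmem : (⟨uEl h a b, uEl_mem h a b⟩ : uGrp h) ∈ Subgroup.center (uGrp h) := by
      rw [Subgroup.mem_center_iff]
      rintro ⟨u, c, d, rfl⟩
      exact Subtype.ext (hcomm c d).symm
    obtain ⟨b', hb'⟩ := (mem_center_uGrp h _).1 hmem
    refine ⟨?_, hfix g hgP⟩
    show g * g = 1
    obtain ⟨rfl, -⟩ := uEl_inj h hb'
    rw [show g = t * uEl h 0 b * t⁻¹ by rw [← hab]; group]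
    exact conj_sq h (by rw [uEl_sq, mul_zero, uEl_zero])
  · rintro ⟨hg, hgp⟩
    have h1 : t⁻¹ * g * t * (t⁻¹ * g * t) = 1 := by
      have := conj_sq h (t := t⁻¹) hg
      rwa [inv_inv] at this
    obtain ⟨b, hb⟩ := inv_form h h1 (by rw [mul_smul, mul_smul, hgp, inv_smul_smul])
    have hgP : g ∈ (P : Subgroup Gr) := (ht g).2 ⟨0, b, hb⟩
    refine ⟨⟨g, hgP⟩, ?_, rfl⟩
    rw [SetLike.mem_coe, Subgroup.mem_center_iff]
    rintro ⟨u, hu⟩
    apply Subtype.ext
    show u * g = g * u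
    obtain ⟨c, d, hcd⟩ := (ht u).1 hu
    rw [show u = t * uEl h c d * t⁻¹ by rw [← hcd]; group, show g = t * uEl h 0 b * t⁻¹ by rw [← hb]; group]
    have : uEl h c d * uEl h 0 b = uEl h 0 b * uEl h c d := by
      rw [uEl_mul, uEl_mul]
      congr 1 <;> simp [th_zero, add_comm]
    calc t * uEl h c d * t⁻¹ * (t * uEl h 0 b * t⁻¹) = t * (uEl h c d * uEl h 0 b) * t⁻¹ := by group
      _ = _ := by rw [this]; group

/-- Conjugate involutions with nested stabilisers have equal ones. -/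
theorem rSub_eq_of_mem {H : Subgroup Gr} {x y : Gr} (hx1 : x ≠ 1) (hx : x * x = 1)
    (hy1 : y ≠ 1) (hy : y * y = 1) (hyx : y ∈ rSub H x) : rSub H y = rSub H x := by
  have := finite_sz h
  have ho : orderOf x = orderOf y := by
    rw [orderOf_eq_prime (p := 2) (by rw [sq, hx]) hx1, orderOf_eq_prime (p := 2) (by rw [sq, hy]) hy1]
  obtain ⟨c, hc⟩ := two_element_conj h hx1 (inv_pow_four h hx) ho
  have hyi : y⁻¹ = y := inv_eq_of_mul_eq_one_right hy
  rw [hyi, or_self] at hc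
  refine Subgroup.eq_of_le_of_card_ge (rSub_mono hyx) ?_
  exact Nat.card_le_card_of_injective
    (fun g : rSub H x => (⟨c * g.1 * c⁻¹, hc ▸ rSub_conj c g.2⟩ : rSub H y))
    (fun g g' e => Subtype.ext (mul_left_cancel (mul_right_cancel (congrArg Subtype.val e))))

/-- The action on the cosets of the centre of a Sylow two-subgroup is binary. -/
theorem bin_center {H : Subgroup Gr} {p : Cfsg.suzukiOvoid F m} (hH : CenterAt H p) : Bin H := by
  have hat : ∀ e t, At H e t ↔ e * e = 1 ∧ e • (t • p) = t • p := by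
    intro e t
    rw [At, hH, mul_smul, mul_smul, inv_smul_eq_iff]
    refine and_congr_left fun _ => ⟨fun e1 => ?_, fun e1 => ?_⟩
    · have := conj_sq h (t := t) e1
      simpa [mul_assoc] using this
    · have := conj_sq h (t := t⁻¹) e1
      simpa [mul_assoc] using this
  refine bin_of_product H ?_ ?_
  · intro t₁ t₂ t₃ a b ha hb hab a1 b1 ab1 c hc
    rw [hat] at ha hb hab hc ⊢
    refine ⟨hc.1, ?_⟩
    have hbi : b⁻¹ = b := inv_eq_of_mul_eq_one_right hb.1
    have hai : a⁻¹ = a := inv_eq_of_mul_eq_one_right ha.1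
    have hcomm : b * a = a * b := by
      have := inv_eq_of_mul_eq_one_right hab.1
      rwa [mul_inv_rev, hbi, hai] at this
    obtain ⟨q, hq, hu⟩ := two_point h b1 (inv_pow_four h hb.1)
    have e : t₁ • p = t₂ • p := by
      rw [hu _ (fix_of_comm h a1 ha.1 hcomm ha.2), hu _ hb.2]
    rw [← e]
    exact hc.2
  · intro t₁ t₂ a ha ha' a1 c hc
    rw [hat] at ha ha' hc ⊢
    refine ⟨hc.1, ?_⟩
    obtain ⟨q, hq, hu⟩ := two_point h a1 (inv_pow_four h ha.1)
    rw [hu _ ha'.2, ← hu _ ha.2]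
    exact hc.2

/-- The case of an elementary abelian point stabiliser. -/
theorem not_bin_elementary {H : Subgroup Gr} (hne : H ≠ ⊥) (hsq : ∀ g ∈ H, g * g = 1)
    (hnc : ∀ p, ¬ CenterAt H p) : ¬ Bin H := by
  have := finite_sz h
  obtain ⟨x, hxH, hx1⟩ := (show ∃ g, g ∈ H ∧ g ≠ 1 by
    obtain ⟨⟨g, hg⟩, hg1⟩ := Subgroup.ne_bot_iff_exists_ne_one.1 hne
    exact ⟨g, hg, fun e => hg1 (Subtype.ext e)⟩)
  have hx := hsq x hxH
  obtain ⟨p, hxp, -⟩ := two_point h hx1 (inv_pow_four h hx)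
  have hcomm : ∀ g ∈ H, g * x = x * g := by
    intro g hg
    have := inv_eq_of_mul_eq_one_right (hsq _ (H.mul_mem hg hxH))
    rw [mul_inv_rev, inv_eq_of_mul_eq_one_right hx, inv_eq_of_mul_eq_one_right (hsq g hg)] at this
    exact this.symm
  have hHp : ∀ g ∈ H, g • p = p := fun g hg => fix_of_comm h hx1 hx (hcomm g hg) hxp
  obtain ⟨z, hzz, hzp, hzH⟩ : ∃ z : Gr, z * z = 1 ∧ z • p = p ∧ z ∉ H := by
    by_contra hc
    refine hnc p fun g => ⟨fun hg => ⟨hsq g hg, hHp g hg⟩, fun hg => ?_⟩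
    by_contra hgH
    exact hc ⟨g, hg.1, hg.2, hgH⟩
  have hz1 : z ≠ 1 := fun e => hzH (e ▸ H.one_mem)
  have hxt : At H x 1 := by simpa [At] using hxH
  have hR : ∀ g ∈ rSub H x, g ∈ H := fun g hg => by simpa [At] using hg 1 hxt
  set y := x * z with hy
  have hzx : z * x = x * z := comm_of_fix h hzz hx hzp hxp
  have hyy : y * y = 1 := by
    calc y * y = x * (z * x) * z := by rw [hy]; group
      _ = (x * x) * (z * z) := by rw [hzx]; group
      _ = 1 := by rw [hx, hzz, one_mul]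
  have hy1 : y ≠ 1 := fun e => hzH (by
    rw [eq_inv_of_mul_eq_one_right (a := x) e]; exact H.inv_mem hxH)
  have ho : ∀ e : Gr, e * e = 1 → e ≠ 1 → orderOf x = orderOf e := fun e he he1 => by
    rw [orderOf_eq_prime (p := 2) (by rw [sq, hx]) hx1, orderOf_eq_prime (p := 2) (by rw [sq, he]) he1]
  obtain ⟨tz, htz⟩ := at_of_orderOf h hx1 (inv_pow_four h hx) (ho z hzz hz1) hxH
  obtain ⟨ty, hty⟩ := at_of_orderOf h hx1 (inv_pow_four h hx) (ho y hyy hy1) hxH
  have hxy : x * y = z := by rw [hy, ← mul_assoc, hx, one_mul]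
  refine not_bin H x y fun g hg hg' => ?_
  rw [hxy] at hg'
  have hg1 : g = 1 := by
    by_contra hg1
    have e1 := rSub_eq_of_mem h hx1 hx hg1 (hsq g (hR g hg)) hg
    have e2 := rSub_eq_of_mem h hz1 hzz hg1 (hsq g (hR g hg)) hg'
    refine hzH (hR z ?_)
    rw [← e1, e2]
    exact mem_rSub_self H z
  subst hg1
  have hex : ∃ t, At H y t ∧ ¬ At H x t := by
    by_contra hc
    push Not at hc
    have hxy' : x ∈ rSub H y := fun t ht => hc t ht
    have e := rSub_eq_of_mem h hy1 hyy hx1 hx hxy'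
    refine hzH (hR z ?_)
    rw [← hxy]
    exact mul_mem (mem_rSub_self H x) (e ▸ mem_rSub_self H y)
  obtain ⟨t, h1, h2⟩ := hex
  exact ⟨t, h1, h2, by rwa [mul_one, inv_eq_of_mul_eq_one_right hx]⟩

/-- The explicit triple. -/
theorem triple_identity :
    wEl h * ((uEl h 1 0)⁻¹ * (uEl h 0 1 * (wEl h * uEl h 1 0 * wEl h)) * uEl h 1 0) * wEl h =
      uEl h 1 1 := by
  rw [uEl_inv]
  refine Subtype.ext (sl_ext ?_)
  simp only [uEl, wEl]
  show (wMat (F := F)).1 * ((uMat m (1:F) (0 + th m 1 * 1)).1 * ((uMat m (0:F) 1).1 * ((wMat (F := F)).1 * (uMat m (1:F) 0).1 * (wMat (F := F)).1)) * (uMat m (1:F) 0).1) * (wMat (F := F)).1 = (uMat m (1:F) 1).1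
  simp only [uMat, wMat]
  ext i j
  fin_cases i <;> fin_cases j <;>
    simp [Matrix.mul_apply, Fin.sum_univ_four, ovf, th_zero, th_one, h.add_self]

/-- The case of an element of order four. -/
theorem not_bin_four [Fintype F] {H : Subgroup Gr} (hH : H ≠ ⊤) {e : Gr} (heH : e ∈ H)
    (he : orderOf e = 4) : ¬ Bin H := by
  have := finite_sz h
  set x := uEl h 0 1 with hx
  set z := wEl h * uEl h 1 0 * wEl h with hz
  set y := x * z with hy
  obtain ⟨hx1, hxx, hxinf, -⟩ := Cfsg.Agent.KnownA.SzMaximal.uEl_involution h (one_ne_zero (α := F))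
  have hwi : (wEl h)⁻¹ = wEl h := inv_eq_of_mul_eq_one_right (wEl_sq h)
  have hord : ∀ b : F, orderOf (uEl h 1 b) = 4 := fun b => by
    haveI : Fact (Nat.Prime 2) := ⟨Nat.prime_two⟩
    refine (orderOf_eq_prime_pow (p := 2) (n := 1) ?_ (by
      simpa using uEl_pow_four h 1 b)).trans (by norm_num)
    rw [pow_one, sq, uEl_sq, ← uEl_zero h]
    intro e
    have := (uEl_inj h e).2
    rw [mul_one] at this
    exact one_ne_zero (α := F) (h.th_eq_zero.1 this)
  have hzord : orderOf z = 4 := by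
    rw [hz]; refine Eq.trans ?_ (hord 0)
    have := MulEquiv.orderOf_eq (MulAut.conj (wEl h)) (uEl h 1 0)
    rwa [MulAut.conj_apply, hwi] at this
  have hid := triple_identity h
  rw [← hx, ← hz, ← hy] at hid
  have hyconj : y = uEl h 1 0 * wEl h * uEl h 1 1 * (uEl h 1 0 * wEl h)⁻¹ := by
    rw [← hid, mul_inv_rev, hwi]
    calc y = uEl h 1 0 * ((wEl h * wEl h) * ((uEl h 1 0)⁻¹ * y * uEl h 1 0) * (wEl h * wEl h)) *
        (uEl h 1 0)⁻¹ := by rw [wEl_sq]; group
      _ = _ := by simp only [mul_assoc]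
  have hyord : orderOf y = 4 := by
    rw [hyconj]; refine Eq.trans ?_ (hord 1)
    exact MulEquiv.orderOf_eq (MulAut.conj (uEl h 1 0 * wEl h)) (uEl h 1 1)
  set B : Cfsg.suzukiOvoid F m := pt m 1 0 with hB
  have hyB : y • B = B := by
    have e1 : (uEl h 1 0 * wEl h) • inf' F m = B := by
      rw [mul_smul, wEl_smul_inf, uEl_smul_zero]
    rw [hyconj, ← e1, mul_smul, mul_smul, inv_smul_smul, uEl_smul_inf]
  have hzC : z • pt m (0 : F) 0 = pt m 0 0 := by
    rw [hz, mul_smul, mul_smul, wEl_smul_zero, uEl_smul_inf, wEl_smul_inf]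
  have hxB : x • B = pt m 1 1 := by
    rw [hx, hB, uEl_smul_pt]; simp [th_zero]
  have hxB' : x • B ≠ B := by
    rw [hxB]; exact fun e => one_ne_zero (pt_inj e).2
  have ne1 : ∀ g : Gr, orderOf g = 4 → g ≠ 1 := fun g hg e => by rw [e, orderOf_one] at hg; omega
  have p4 : ∀ g : Gr, orderOf g = 4 → g ^ 4 = 1 := fun g hg => orderOf_dvd_iff_pow_eq_one.1 (dvd_of_eq hg)
  have h2H : e * e ∈ H := H.mul_mem heH heH
  have he2 : e * e ≠ 1 := fun e' => by
    have := orderOf_le_of_pow_eq_one two_pos (show e ^ 2 = 1 by rw [sq, e']); omega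
  have he22 : e * e * (e * e) = 1 := by
    have := p4 e he
    rw [← this]; simp [pow_succ, mul_assoc]
  obtain ⟨tx, htx⟩ := at_of_orderOf h he2 (inv_pow_four h he22) (e' := x) (by
    rw [orderOf_eq_prime (p := 2) (by rw [sq, he22]) he2, orderOf_eq_prime (p := 2) (by rw [sq, hxx]) hx1]) h2H
  obtain ⟨ty, hty⟩ := at_of_orderOf h (ne1 e he) (p4 e he) (he.trans hyord.symm) heH
  obtain ⟨tz, htz⟩ := at_of_orderOf h (ne1 e he) (p4 e he) (he.trans hzord.symm) heH
  have hxy : x * y = z := by rw [hy, ← mul_assoc, hxx, one_mul]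
  refine not_bin H x y fun g hg hg' => ?_
  rw [hxy] at hg'
  have hgC : g • pt m (0 : F) 0 = pt m 0 0 := rSub_le_stab h hH (ne1 z hzord) (p4 z hzord) htz hzC hg'
  by_cases hU : ∃ t, ∀ a b : F, At H (uEl h a b) t
  · obtain ⟨t0, ht0⟩ := hU
    let M := H.map (MulAut.conj t0).toMonoidHom
    have hM : M ≠ ⊤ := fun e' => hH (Subgroup.map_injective (MulAut.conj t0).injective
      (e'.trans (Subgroup.map_top_of_surjective _ (MulAut.conj t0).surjective).symm))
    have hle := le_stab_of_center h hM (fun b => ⟨t0⁻¹ * uEl h 0 b * t0, ht0 0 b, by simp [mul_assoc]⟩)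
    have hHp : ∀ k ∈ H, k • (t0⁻¹ • inf' F m) = t0⁻¹ • inf' F m := by
      intro k hk
      have := MulAction.mem_stabilizer_iff.1 (hle ⟨k, hk, rfl⟩)
      simp only [MulEquiv.coe_toMonoidHom, MulAut.conj_apply, mul_smul] at this
      exact eq_inv_smul_iff.2 this
    have hat : ∀ k t, At H k t → k • ((t * t0⁻¹) • inf' F m) = (t * t0⁻¹) • inf' F m := by
      intro k t hk
      have := hHp _ hk
      rw [mul_smul, mul_smul, inv_smul_eq_iff] at this
      rwa [mul_smul t]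
    obtain ⟨q, hq, hqu⟩ := two_point h (ne1 y hyord) (p4 y hyord)
    have htB : (ty * t0⁻¹) • inf' F m = B := (hqu _ (hat y ty hty)).trans (hqu B hyB).symm
    refine ⟨ty, hty, fun ha => hxB' ?_, fun ha => ?_⟩
    · rw [← htB]; exact hat x ty ha
    have hgB := hat _ ty ha
    rw [htB, mul_smul, inv_smul_eq_iff, hxB] at hgB
    have hgi := rSub_le_stab h hH hx1 (inv_pow_four h hxx) htx hxinf hg
    obtain ⟨k, rfl⟩ := fix_two h hgi hgC
    rw [hB, hEl_smul_pt, mul_zero] at hgB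
    exact one_ne_zero (pt_inj hgB).2.symm
  · have hg1 : g = 1 := rSub_involution h hH hU hx1 hxx htx hg hxinf (pt_ne_inf 0 0).symm hgC
    subst hg1
    have hex : ∃ t, At H y t ∧ ¬ At H x t := by
      by_contra hc
      push Not at hc
      exact hxB' (rSub_le_stab h hH (ne1 y hyord) (p4 y hyord) hty hyB (show x ∈ rSub H y from hc))
    obtain ⟨t, h1, h2⟩ := hex
    refine ⟨t, h1, h2, fun h3 => h2 ?_⟩
    rw [mul_one] at h3
    simpa using at_inv h3

/-- An involution fixing a point and inverting an element fixing it. -/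
theorem invert_fix {t r : Gr} (ht : t * t = 1) (hinv : t * r * t⁻¹ = r⁻¹) {p : Cfsg.suzukiOvoid F m}
    (htp : t • p = p) (hrp : r • p = p) : r ^ 4 = 1 := by
  have hc := comm_of_fix h ht (b := r * t * r⁻¹) (conj_sq h ht) htp
    (by rw [mul_smul, mul_smul, show r⁻¹ • p = p from inv_smul_eq_iff.2 hrp.symm, htp, hrp])
  have htu : t * r = r⁻¹ * t := by rw [← hinv]; group
  have e1 : t * (r * t * r⁻¹) = r⁻¹ * r⁻¹ := by
    rw [← mul_assoc t, ← mul_assoc t, htu, mul_assoc r⁻¹ t t, ht, mul_one]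
  have e2 : r * t * r⁻¹ * t = r * r := by
    rw [mul_assoc r, mul_assoc r, show t * r⁻¹ * t = r from ?_]
    rw [mul_assoc, ← htu, ← mul_assoc, ht, one_mul]
  rw [e1, e2] at hc
  calc r ^ 4 = (r * r) * (r * r) := by simp [pow_succ, mul_assoc]
    _ = (r * r) * (r⁻¹ * r⁻¹) := by rw [hc]
    _ = 1 := by group

/-- The case of involutions and odd elements without elements of order four. -/
theorem not_bin_mixed [Fintype F] [Fintype Gr] [Fintype Fˣ] {H : Subgroup Gr} (hH : H ≠ ⊤)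
    (hno4 : ∀ g ∈ H, g ^ 4 = 1 → g * g = 1) {k0 : Gr} (hk : k0 ∈ H) (hk1 : k0 ≠ 1)
    (hodd : Odd (orderOf k0)) {e0 : Gr} (he0 : e0 ∈ H) (he01 : e0 ≠ 1) (he0s : e0 * e0 = 1) :
    ¬ Bin H := by
  have := finite_sz h
  have hk2 : k0 * k0 ≠ 1 := fun e => hk1 (odd_four h hodd (inv_pow_four h e))
  have he0o : orderOf e0 = 2 := orderOf_eq_prime (by rw [sq, he0s]) he01
  have hNoU : ¬ ∃ t, ∀ a b : F, At H (uEl h a b) t := by
    rintro ⟨t, ht⟩
    have h1 := hno4 _ (ht 1 0) (by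
      rw [show t⁻¹ * uEl h 1 0 * t = t⁻¹ * uEl h 1 0 * t⁻¹⁻¹ by rw [inv_inv], conj_pow,
        uEl_pow_four, mul_one, mul_inv_cancel])
    have h2 : uEl h (1 : F) 0 * uEl h 1 0 = 1 := by
      calc _ = t * (t⁻¹ * uEl h 1 0 * t * (t⁻¹ * uEl h 1 0 * t)) * t⁻¹ := by group
        _ = 1 := by rw [h1]; group
    rw [uEl_sq, ← uEl_zero h] at h2
    have h3 := (uEl_inj h h2).2
    rw [mul_one] at h3
    exact one_ne_zero (α := F) (h.th_eq_zero.1 h3)
  have hk0t : At H k0 1 := by simpa [At] using hk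
  obtain ⟨U, hkU, hU, hkc, w0, hw0, hw0o⟩ := exists_torus h hk1 hodd
  have hsq2 : ∀ g : Gr, orderOf g = 2 → g * g = 1 ∧ g ≠ 1 := fun g hg =>
    ⟨by rw [← sq, ← hg, pow_orderOf_eq_one], fun e => by rw [e, orderOf_one] at hg; omega⟩
  by_cases halpha : ∃ w t, w ∈ Subgroup.normalizer (U : Set Gr) ∧ orderOf w = 2 ∧ At H k0 t ∧ ¬ At H w t
  · obtain ⟨w, t, hwN, hwo, htk, htw⟩ := halpha
    obtain ⟨hww, hw1⟩ := hsq2 w hwo
    have hinv := inverts h hU hkc hwN hwo hkU
    have hwi : w⁻¹ = w := inv_eq_of_mul_eq_one_right hww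
    rw [hwi] at hinv
    have hzz : w * k0 * (w * k0) = 1 := by
      rw [← mul_assoc, hinv, inv_mul_cancel]
    have hz1 : w * k0 ≠ 1 := fun e => hk2 (by
      rw [eq_inv_of_mul_eq_one_right (a := w) e, hwi, hww])
    obtain ⟨tw, htw'⟩ := at_of_orderOf h he01 (inv_pow_four h he0s) (he0o.trans hwo.symm) he0
    obtain ⟨tz, htz⟩ := at_of_orderOf h he01 (inv_pow_four h he0s)
      (he0o.trans (orderOf_eq_prime (by rw [sq, hzz]) hz1).symm) he0
    obtain ⟨p, hp, -⟩ := two_point h hw1 (inv_pow_four h hww)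
    obtain ⟨q, hq, -⟩ := two_point h hz1 (inv_pow_four h hzz)
    have hpq : p ≠ q := by
      rintro rfl
      have hc := comm_of_fix h hww hzz hp hq
      rw [← mul_assoc, hww, one_mul, mul_assoc] at hc
      refine hk2 ?_
      have e : w * k0 * w = k0 := by rw [mul_assoc]; exact hc.symm
      rw [hinv] at e
      calc k0 * k0 = k0⁻¹ * k0 := by rw [e]
        _ = 1 := inv_mul_cancel k0
    refine not_bin H w k0 fun g hg hg' => ?_
    have hgq := rSub_le_stab h hH hz1 (inv_pow_four h hzz) htz hq hg'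
    obtain rfl := rSub_involution h hH hNoU hw1 hww htw' hg hp hpq hgq
    exact ⟨t, htk, htw, by rwa [mul_one, hwi]⟩
  push Not at halpha
  have hNH : ∀ w ∈ Subgroup.normalizer (U : Set Gr), orderOf w = 2 → w ∈ H := fun w hw hwo => by
    simpa [At] using halpha w 1 hw hwo hk0t
  have hUH : U ≤ H := by
    intro u hu
    have hconj : ∀ v ∈ U, v * v ∈ H := by
      intro v hv
      have h1 := hNH _ (mul_mem (mul_mem (Subgroup.le_normalizer hv) hw0)
        (inv_mem (Subgroup.le_normalizer hv))) ((MulEquiv.orderOf_eq (MulAut.conj v) w0).trans hw0o)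
      have h2 := H.mul_mem h1 (hNH w0 hw0 hw0o)
      have hinv := inverts h hU hkc hw0 hw0o (U.inv_mem hv)
      have hwi : w0⁻¹ = w0 := inv_eq_of_mul_eq_one_right (hsq2 w0 hw0o).1
      rw [hwi, inv_inv] at hinv
      rwa [show v * w0 * v⁻¹ * w0 = v * (w0 * v⁻¹ * w0) by group, hinv] at h2
    obtain ⟨j, hj⟩ := (k_facts h hkc).2.1
    have : u ^ (j + 1) * u ^ (j + 1) = u := by
      rw [← pow_add, show j + 1 + (j + 1) = Nat.card U + 1 by omega, pow_succ,
        show u ^ Nat.card U = 1 from congrArg Subtype.val (pow_card_eq_one' (x := (⟨u, hu⟩ : U))), one_mul]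
    exact this ▸ hconj _ (U.pow_mem hu _)
  have hHN : H ≤ Subgroup.normalizer (U : Set Gr) :=
    le_torus_normalizer h hH hU hkc hUH (hNH w0 hw0 hw0o) hw0 hw0o
  have hoddU : ∀ k ∈ H, Odd (orderOf k) → k ∈ U := fun k hkH hko => odd_mem h hU hkc (hHN hkH) hko
  obtain ⟨u, v, huv⟩ := SzD.covering h (x := k0) (g := e0) (by
    obtain ⟨j, hj⟩ := hodd
    have : orderOf k0 ≠ 1 := fun e => hk1 (orderOf_eq_one_iff.1 e)
    omega) he01
  set x := (u * k0 * u⁻¹)⁻¹ with hx
  have hxy : x * e0 = v * k0 * v⁻¹ := by rw [hx, huv, inv_mul_cancel_left]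
  have hxu : At H x u := at_inv (by simpa [At, mul_assoc] using hk)
  have hzv : At H (v * k0 * v⁻¹) v := by simpa [At, mul_assoc] using hk
  have ho : ∀ c e : Gr, orderOf (c * e * c⁻¹) = orderOf e := fun c e => MulEquiv.orderOf_eq (MulAut.conj c) e
  have hxo : Odd (orderOf x) := by rw [hx, orderOf_inv, ho]; exact hodd
  have hzo : Odd (orderOf (v * k0 * v⁻¹)) := by rw [ho]; exact hodd
  have hx1 : x ≠ 1 := by rw [hx, inv_ne_one]; exact fun e => hk1 (conj_eq_one_iff.1 e)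
  have hz1 : v * k0 * v⁻¹ ≠ 1 := fun e => hk1 (conj_eq_one_iff.1 e)
  have hdisj : ∀ t, At H e0 t → ¬ At H x t := by
    intro t hy ha
    have hz := at_mul ha hy
    rw [hxy] at hz
    have hxU := hoddU _ ha (by
      have := ho t⁻¹ x; rw [inv_inv] at this; rwa [this])
    have hzU := hoddU _ hz (by
      have := ho t⁻¹ (v * k0 * v⁻¹); rw [inv_inv] at this; rwa [this])
    have hyU : t⁻¹ * e0 * t ∈ U := by
      have := U.mul_mem (U.inv_mem hxU) hzU
      rwa [show (t⁻¹ * x * t)⁻¹ * (t⁻¹ * (v * k0 * v⁻¹) * t) = t⁻¹ * e0 * t by rw [← hxy]; group] at this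
    refine not_mem_cyc h hkc (x := t⁻¹ * e0 * t) ?_ ?_ hyU
    · intro e; exact he01 (by rw [show e0 = t * (t⁻¹ * e0 * t) * t⁻¹ by group, e]; group)
    · have := conj_sq h (t := t⁻¹) he0s
      rw [inv_inv] at this
      exact inv_pow_four h this
  have he0t : At H e0 1 := by simpa [At] using he0
  obtain ⟨Ux, hxUx, hUx, hkx, -⟩ := exists_torus h hx1 hxo
  obtain ⟨Uz, hzUz, hUz, hkz, -⟩ := exists_torus h hz1 hzo
  have hne : ∀ (V : Subgroup Gr) (_ : IsCyclic ↥V) (hkV : Nat.card ↥V ∈ ({2 ^ (2 * m + 1) - 1,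
      2 ^ (2 * m + 1) + 2 ^ (m + 1) + 1, 2 ^ (2 * m + 1) - 2 ^ (m + 1) + 1} : Set ℕ)),
      ¬ (x ∈ V ∧ v * k0 * v⁻¹ ∈ V) := by
    rintro V - hkV ⟨ha, hb⟩
    refine not_mem_cyc h hkV he01 (inv_pow_four h he0s) ?_
    have := V.mul_mem (V.inv_mem ha) hb
    rwa [← hxy, inv_mul_cancel_left] at this
  refine not_bin H x e0 fun g hg hg' => ?_
  rw [hxy] at hg'
  by_contra hc
  push Not at hc
  have hr : x⁻¹ * g ∈ rSub H e0 := fun t ht => hc t ht (hdisj t ht)
  set r := x⁻¹ * g with hrdef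
  have hgr : g = x * r := by rw [hrdef, mul_inv_cancel_left]
  have hrH : r ∈ H := by simpa [At] using hr 1 he0t
  obtain ⟨p, hp, -⟩ := two_point h he01 (inv_pow_four h he0s)
  have hrp := rSub_le_stab h hH he01 (inv_pow_four h he0s) he0t hp hr
  have hrr : r * r = 1 := by
    rcases pow_four_or_odd h r with h4 | ho'
    · exact hno4 r hrH h4
    · have := odd_four h ho' (invert_fix h he0s (inverts h hU hkc (hHN he0) he0o (hoddU r hrH ho')) hp hrp)
      rw [this, one_mul]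
  by_cases hr1 : r = 1
  · rw [hr1, mul_one] at hgr
    rw [hgr] at hg'
    exact hne Uz hUz hkz ⟨odd_mem h hUz hkz (rSub_le_normalizer h hH hz1 hzo hzv hzUz hUz hkz hg') hxo, hzUz⟩
  have hre : r = e0 := by
    have hro : orderOf r = 2 := orderOf_eq_prime (by rw [sq, hrr]) hr1
    have i1 := inverts h hU hkc (hHN hrH) hro hkU
    have i2 := inverts h hU hkc (hHN he0) he0o hkU
    have hmem : r * e0 ∈ U := cent_le h (Or.inr ⟨hU, hkc⟩) hkU hk1 (by
      rw [Subgroup.mem_centralizer_singleton_iff]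
      have e : r * e0 * k0 * (r * e0)⁻¹ = k0 := by
        calc r * e0 * k0 * (r * e0)⁻¹ = r * (e0 * k0 * e0⁻¹) * r⁻¹ := by group
          _ = (r * k0 * r⁻¹)⁻¹ := by rw [i2]; group
          _ = k0 := by rw [i1, inv_inv]
      exact mul_inv_eq_iff_eq_mul.1 e)
    have hcomm := comm_of_fix h hrr he0s hrp hp
    have h1 : r * e0 = 1 := by
      by_contra hne1
      refine not_mem_cyc h hkc hne1 (inv_pow_four h ?_) hmem
      calc r * e0 * (r * e0) = r * (e0 * r) * e0 := by group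
        _ = r * r * (e0 * e0) := by rw [← hcomm]; group
        _ = 1 := by rw [hrr, he0s, one_mul]
    rw [eq_inv_of_mul_eq_one_left h1, inv_eq_of_mul_eq_one_right he0s]
  rw [hre, hxy] at hgr
  rw [hgr] at hg
  exact hne Ux hUx hkx ⟨hxUx, odd_mem h hUx hkx (rSub_le_normalizer h hH hx1 hxo hxu hxUx hUx hkx hg) hzo⟩

/-- The case of odd order. -/
theorem not_bin_odd [Fintype F] [Fintype Gr] [Fintype Fˣ] {H : Subgroup Gr} (hH : H ≠ ⊤)
    (hodd : ∀ g ∈ H, Odd (orderOf g)) {k0 : Gr} (hk : k0 ∈ H) (hk1 : k0 ≠ 1) : ¬ Bin H := by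
  have := finite_sz h
  obtain ⟨x, y, ⟨cx, nx, hx⟩, ⟨cy, ny, hy⟩, ⟨cz, nz, hz⟩, hne⟩ := SzD.pair_odd h hk1 (hodd k0 hk)
  have hat : ∀ c : Gr, ∀ n : ℕ, At H (c * k0 ^ n * c⁻¹) c := fun c n => by
    simpa [At, mul_assoc] using H.pow_mem hk n
  have hox : ∀ e t : Gr, At H e t → Odd (orderOf e) := fun e t he => by
    have := MulEquiv.orderOf_eq (MulAut.conj t⁻¹) e
    rw [MulAut.conj_apply, inv_inv] at this
    exact this ▸ hodd _ he
  have hxt : At H x cx := hx ▸ hat cx nx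
  have hyt : At H y cy := hy ▸ hat cy ny
  have hzt : At H (x * y) cz := hz ▸ hat cz nz
  have hx1 : x ≠ 1 := fun e => hne (by rw [e, one_mul, mul_one])
  have hy1 : y ≠ 1 := fun e => hne (by rw [e, one_mul, mul_one])
  have hz1 : x * y ≠ 1 := fun e => hne (by rw [e, eq_inv_of_mul_eq_one_right e, inv_mul_cancel])
  have hcomm : ∀ (V : Subgroup Gr), IsCyclic ↥V → ∀ a ∈ V, ∀ b ∈ V, a * b = b * a := by
    intro V hV a ha b hb
    let := hV.commGroup
    exact congrArg Subtype.val (mul_comm (⟨a, ha⟩ : ↥V) ⟨b, hb⟩)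
  obtain ⟨Ux, hxUx, hUx, hkx, -⟩ := exists_torus h hx1 (hox x cx hxt)
  obtain ⟨Uz, hzUz, hUz, hkz, -⟩ := exists_torus h hz1 (hox _ cz hzt)
  obtain ⟨Uy, hyUy, hUy, hky, -⟩ := exists_torus h hy1 (hox y cy hyt)
  refine not_bin H x y fun g hg hg' => ?_
  have hgo : Odd (orderOf g) := hox g cx (hg cx hxt)
  have hgx := odd_mem h hUx hkx (rSub_le_normalizer h hH hx1 (hox x cx hxt) hxt hxUx hUx hkx hg) hgo
  have hgz := odd_mem h hUz hkz (rSub_le_normalizer h hH hz1 (hox _ cz hzt) hzt hzUz hUz hkz hg') hgo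
  have hg1 : g = 1 := by
    by_contra hg1
    obtain rfl := fam_unique h (Or.inr ⟨hUx, hkx⟩) (Or.inr ⟨hUz, hkz⟩) hgx hgz hg1
    have hyU : y ∈ Ux := by simpa using Ux.mul_mem (Ux.inv_mem hxUx) hzUz
    exact hne (hcomm Ux hUx x hxUx y hyU)
  subst hg1
  have hex : ∃ t, At H y t ∧ ¬ At H x t := by
    by_contra hc
    push Not at hc
    have := odd_mem h hUy hky (rSub_le_normalizer h hH hy1 (hox y cy hyt) hyt hyUy hUy hky
      (show x ∈ rSub H y from hc)) (hox x cx hxt)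
    exact hne (hcomm Uy hUy x this y hyUy)
  obtain ⟨t, h1, h2⟩ := hex
  exact ⟨t, h1, h2, fun h3 => h2 (by rw [mul_one] at h3; simpa using at_inv h3)⟩

/-- The binary actions of a Suzuki group. -/
theorem main [Fintype F] (H : Subgroup Gr) (hH : H ≠ ⊤) :
    Bin H ↔ H = ⊥ ∨ ∃ P : Sylow 2 Gr, H = (Subgroup.center (P : Subgroup Gr)).map (P : Subgroup Gr).subtype := by
  classical
  have := finite_sz h
  let := Fintype.ofFinite Gr
  let := Fintype.ofFinite Fˣ
  constructor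
  · intro hb
    by_contra hc
    push Not at hc
    obtain ⟨hne, hnc⟩ := hc
    by_cases h4 : ∃ g ∈ H, g ^ 4 = 1 ∧ g * g ≠ 1
    · obtain ⟨g, hg, hg4, hg2⟩ := h4
      haveI : Fact (Nat.Prime 2) := ⟨Nat.prime_two⟩
      exact not_bin_four h hH hg ((orderOf_eq_prime_pow (p := 2) (n := 1)
        (by rw [pow_one, sq]; exact hg2) (by simpa using hg4)).trans (by norm_num)) hb
    push Not at h4
    by_cases hall : ∀ g ∈ H, g * g = 1
    · refine not_bin_elementary h hne hall (fun p hp => ?_) hb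
      obtain ⟨x, hxH, hx1⟩ := (show ∃ g, g ∈ H ∧ g ≠ 1 by
        obtain ⟨⟨g, hg⟩, hg1⟩ := Subgroup.ne_bot_iff_exists_ne_one.1 hne
        exact ⟨g, hg, fun e => hg1 (Subtype.ext e)⟩)
      have hpg : IsPGroup 2 (Subgroup.zpowers x) :=
        IsPGroup.of_card (n := 1) (by rw [Nat.card_zpowers, pow_one]; exact orderOf_eq_prime (by rw [sq, hall x hxH]) hx1)
      obtain ⟨P, hP⟩ := hpg.exists_le_sylow
      obtain ⟨q, hq, hqfix⟩ := center_char h P
      obtain ⟨r, -, hu⟩ := two_point h hx1 (inv_pow_four h (hall x hxH))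
      have hpq : p = q := (hu p ((hp x).1 hxH).2).trans
        (hu q (hqfix x (hP (Subgroup.mem_zpowers x)))).symm
      refine hnc P (SetLike.ext fun g => ?_)
      rw [hp g, hpq]
      exact (hq g).symm
    push Not at hall
    obtain ⟨k0, hk, hk2⟩ := hall
    have hkodd : Odd (orderOf k0) := (pow_four_or_odd h k0).resolve_left (fun e => hk2 (h4 k0 hk e))
    have hk1 : k0 ≠ 1 := fun e => hk2 (by rw [e, one_mul])
    by_cases hinv : ∃ g ∈ H, g ≠ 1 ∧ g * g = 1
    · obtain ⟨e0, he0, he01, he0s⟩ := hinv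
      exact not_bin_mixed h hH h4 hk hk1 hkodd he0 he01 he0s hb
    push Not at hinv
    refine not_bin_odd h hH (fun g hg => ?_) hk hk1 hb
    rcases pow_four_or_odd h g with e | e
    · by_cases hg1 : g = 1
      · rw [hg1, orderOf_one]; exact odd_one
      · exact absurd (h4 g hg e) (hinv g hg hg1)
    · exact e
  · rintro (rfl | ⟨P, rfl⟩)
    · exact bin_of_product ⊥ (fun t₁ _ _ a _ ha _ _ a1 _ _ => absurd ((conj_eq_one_iff (a := t₁⁻¹)).1 (by simpa [At] using ha)) a1)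
        (fun t₁ _ a ha _ a1 => absurd ((conj_eq_one_iff (a := t₁⁻¹)).1 (by simpa [At] using ha)) a1)
    · obtain ⟨p, hp, -⟩ := center_char h P
      exact bin_center h hp

end Cfsg.Agent.Chars.SzBinary
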