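import Cfsg.Agent.Chars.SzCovering

/-!
A lower bound for class sums of torus elements in a Suzuki group, and a count of decompositions.
-/

set_option autoImplicit false
set_option linter.style.haveILetI false
set_option linter.unusedSectionVars false

namespace Cfsg.Agent.Chars.SzD

open Cfsg Cfsg.Agent Cfsg.Agent.Suzuki Cfsg.Agent.Chars.SzTorus
open scoped ComplexConjugate

section count

open scoped Classical in
/-- If all decompositions commute then the class sum is small. -/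
theorem sum_le_of_commuting {G : Type*} [Group G] [Fintype G] (x g : G) (c : ℕ)
    (hc : ∀ a : G, IsConj x a → (Finset.univ.filter fun b : G =>
      IsConj x b ∧ IsConj (a * b) g).card ≤ c) :
    ((Finset.univ.filter (IsConj x)).card : ℝ) *
        (∑ χ : IrrCharacter G, (χ : G → ℂ) x ^ 2 * conj ((χ : G → ℂ) g) / (χ : G → ℂ) 1).re ≤
      (c : ℝ) * (Nat.card (Subgroup.centralizer ({g} : Set G)) : ℝ) := by
  set C := Finset.univ.filter (IsConj x) with hCdef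
  set P := Finset.univ.filter (fun p : G × G => IsConj x p.1 ∧ IsConj x p.2) with hP
  set z := Nat.card (Subgroup.centralizer ({g} : Set G)) with hz
  set S := ∑ χ : IrrCharacter G, (χ : G → ℂ) x ^ 2 * conj ((χ : G → ℂ) g) / (χ : G → ℂ) 1 with hS
  set Q := P.filter (fun p : G × G => IsConj (p.1 * p.2) g) with hQ
  have h0 : (C.card : ℂ) ^ 2 * S = (Q.card : ℂ) * (z : ℂ) := by
    have e1 : ∑ χ : IrrCharacter G, (∑ p ∈ P, (χ : G → ℂ) (p.1 * p.2)) * conj ((χ : G → ℂ) g) =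
        (Q.card : ℂ) * (z : ℂ) := by
      simp only [Finset.sum_mul]
      rw [Finset.sum_comm, hQ, Finset.card_filter, Nat.cast_sum, Finset.sum_mul]
      refine Finset.sum_congr rfl fun p _ => ?_
      rw [column_orth, Nat.cast_ite, ite_mul, Nat.cast_one, one_mul, Nat.cast_zero, zero_mul]
      split_ifs with hp 
      swap
      · rfl
      obtain ⟨t, ht⟩ := isConj_iff.1 hp
      rw [hz, ← ht]
      refine congrArg Nat.cast (Nat.card_congr ?_)
      exact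
        { toFun := fun u => ⟨t * u.1 * t⁻¹, Subgroup.mem_centralizer_singleton_iff.2 (by
            have e := Subgroup.mem_centralizer_singleton_iff.1 u.2
            calc t * u.1 * t⁻¹ * (t * (p.1 * p.2) * t⁻¹) = t * (u.1 * (p.1 * p.2)) * t⁻¹ := by group
              _ = _ := by rw [e]; group)⟩
          invFun := fun u => ⟨t⁻¹ * u.1 * t, Subgroup.mem_centralizer_singleton_iff.2 (by
            have e := Subgroup.mem_centralizer_singleton_iff.1 u.2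
            calc t⁻¹ * u.1 * t * (p.1 * p.2) = t⁻¹ * (u.1 * (t * (p.1 * p.2) * t⁻¹)) * t := by group
              _ = _ := by rw [e]; group)⟩
          left_inv := fun u => Subtype.ext (by group)
          right_inv := fun u => Subtype.ext (by group) }
    rw [hS, Finset.mul_sum, ← e1]
    refine Finset.sum_congr rfl fun χ _ => ?_
    have e := Chars2.sum_class_class χ.2 x x
    have h1 := irr_apply_one_ne_zero χ.2
    rw [mul_div_assoc', div_eq_iff h1,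
      mul_right_comm (∑ p ∈ P, (χ : G → ℂ) (p.1 * p.2)) (conj ((χ : G → ℂ) g)),
      show (∑ p ∈ P, (χ : G → ℂ) (p.1 * p.2)) * (χ : G → ℂ) 1 =
        (C.card : ℂ) * (C.card : ℂ) * (χ : G → ℂ) x * (χ : G → ℂ) x by
          convert e using 3 <;> congr!]
    ring
  have hle : Q.card ≤ C.card * c := by
    have hsub : Q ⊆ C.biUnion fun a => (Finset.univ.filter fun b : G =>
        IsConj x b ∧ IsConj (a * b) g).image fun b => (a, b) := by
      intro p hp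
      simp only [hQ, hP, Finset.mem_filter, Finset.mem_univ, true_and] at hp
      simp only [Finset.mem_biUnion, Finset.mem_image, hCdef, Finset.mem_filter, Finset.mem_univ, true_and]
      exact ⟨p.1, hp.1.1, p.2, ⟨hp.1.2, hp.2⟩, rfl⟩
    refine (Finset.card_le_card hsub).trans ?_
    refine Finset.card_biUnion_le_card_mul _ _ _ fun a ha => ?_
    exact Finset.card_image_le.trans (hc a (Finset.mem_filter.1 ha).2)
  have hC : (0 : ℝ) < (C.card : ℝ) :=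
    Nat.cast_pos.2 (Finset.card_pos.2 ⟨x, Finset.mem_filter.2 ⟨Finset.mem_univ _, IsConj.refl x⟩⟩)
  have h1 := congrArg Complex.re h0
  rw [← Nat.cast_pow, ← Nat.cast_mul] at h1
  simp only [Complex.mul_re, Complex.natCast_re, Complex.natCast_im, zero_mul, sub_zero] at h1
  refine le_of_mul_le_mul_left ?_ hC
  rw [← mul_assoc, ← mul_assoc, ← sq]
  push_cast at h1
  rw [h1]
  exact mul_le_mul_of_nonneg_right (by exact_mod_cast hle) (Nat.cast_nonneg _)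

end count

variable {F : Type*} [Field F] {m : ℕ} (h : Ctx F m)
include h

variable [Fintype (Cfsg.Sz F m)] [Fintype F] [Fintype Fˣ]

/-- The margin in the torus inequality. -/
theorem ineq_margin :
    1 / (qq m : ℝ) ^ 2 + 2 / (((qq m : ℝ) - 1) * ((2 ^ m : ℕ) : ℝ)) +
        (((4 * np m + 1 : ℕ) : ℝ) - 4) * (((2 ^ (m + 1) : ℕ) : ℝ) - 1) /
          (((qq m : ℝ) - 1) * ((4 * nm m + 1 : ℕ) : ℝ)) ≤ 24 / 25 := by
  obtain ⟨y, hy1, -, -, h2m, hqy, hpy, hmy⟩ := arith_y h.one_le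
  have hq : (qq m : ℝ) = 8 * (y : ℝ) ^ 2 := by exact_mod_cast hqy
  have h2 : ((2 ^ m : ℕ) : ℝ) = 2 * (y : ℝ) := by exact_mod_cast h2m
  have h3 : ((2 ^ (m + 1) : ℕ) : ℝ) = 4 * (y : ℝ) := by
    rw [pow_succ, Nat.cast_mul, h2]; push_cast; ring
  have h4 : ((4 * np m + 1 : ℕ) : ℝ) = 8 * (y : ℝ) ^ 2 + 4 * y + 1 := by
    have : ((4 * np m + 1 : ℕ) : ℤ) = 8 * y ^ 2 + 4 * y + 1 := by
      rw [Nat.cast_add, Nat.cast_mul, hpy]; push_cast; ring
    exact_mod_cast this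
  have h5 : ((4 * nm m + 1 : ℕ) : ℝ) = 8 * (y : ℝ) ^ 2 - 4 * y + 1 := by
    have : ((4 * nm m + 1 : ℕ) : ℤ) = 8 * y ^ 2 - 4 * y + 1 := by
      rw [Nat.cast_add, Nat.cast_mul, hmy]; push_cast; ring
    exact_mod_cast this
  rw [hq, h2, h3, h4, h5]
  have hy : (1 : ℝ) ≤ (y : ℝ) := by exact_mod_cast hy1
  clear hq h2 h3 h4 h5
  generalize (y : ℝ) = t at hy ⊢
  obtain ⟨s, hs, rfl⟩ : ∃ s : ℝ, 0 ≤ s ∧ t = s + 1 := ⟨t - 1, by linarith, by ring⟩
  have hq1 : 0 < 8 * (s + 1) ^ 2 - 1 := by nlinarith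
  have hm0 : 0 < 8 * (s + 1) ^ 2 - 4 * (s + 1) + 1 := by nlinarith
  have hp0 : 0 < 8 * (s + 1) ^ 2 + 4 * (s + 1) + 1 := by nlinarith
  have t1 : 1 / (8 * (s + 1) ^ 2) ^ 2 ≤ 1 / 64 := by
    refine one_div_le_one_div_of_le (by norm_num) ?_
    nlinarith [one_le_pow₀ (n := 4) (show (1 : ℝ) ≤ s + 1 by linarith)]
  have t2 : 2 / ((8 * (s + 1) ^ 2 - 1) * (2 * (s + 1))) ≤ 1 / 7 := by
    rw [div_le_div_iff₀ (mul_pos hq1 (by linarith)) (by norm_num)]
    nlinarith [pow_nonneg hs 3]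
  have t3 : (8 * (s + 1) ^ 2 + 4 * (s + 1) + 1 - 4) * (4 * (s + 1) - 1) /
      ((8 * (s + 1) ^ 2 - 1) * (8 * (s + 1) ^ 2 - 4 * (s + 1) + 1)) ≤ 4 / 5 := by
    rw [div_le_div_iff₀ (mul_pos hq1 hm0) (by norm_num)]
    nlinarith [pow_nonneg hs 3, pow_nonneg hs 4]
  linarith

variable {Kp Km : Subgroup (Cfsg.Sz F m)} (T : Tori Kp Km)
include T

/-- The class sum of torus elements is bounded away from zero. -/
theorem torus_margin {x g : Cfsg.Sz F m} (hx : x ∈ Kp ∨ x ∈ Km) (hx1 : x ≠ 1)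
    (hg : g ∈ Kp ∨ g ∈ Km) (hg1 : g ≠ 1) :
    1 / 25 ≤ (∑ χ : IrrCharacter (Cfsg.Sz F m), (χ : Cfsg.Sz F m → ℂ) x ^ 2 *
      conj ((χ : Cfsg.Sz F m → ℂ) g) / (χ : Cfsg.Sz F m → ℂ) 1).re := by
  obtain ⟨-, -, -, -, -, -, i7⟩ := ineq_torus h
  have i3 := ineq_margin h
  obtain ⟨-, -, -, -, -, h8, -, hlt⟩ := arith h.one_le
  have hq1 : (0 : ℝ) < (qq m : ℝ) - 1 := by
    have : (8 : ℝ) ≤ (qq m : ℝ) := by exact_mod_cast h8
    linarith
  have fx := fpf_of_mem h T hx hx1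
  have hlast : ∀ {e : Cfsg.Sz F m}, (e ∈ Kp ∨ e ∈ Km) → e ≠ 1 →
      ∑ χ ∈ eSet h Kp Km, Complex.normSq ((χ : Cfsg.Sz F m → ℂ) e) ≤ ((4 * np m + 1 : ℕ) : ℝ) - 4 := by
    intro e he he1
    rcases he with he | he
    · rw [sum_eSet_normSq h T T.hp (Or.inl rfl) he he1]
    · rw [sum_eSet_normSq h T T.hm (Or.inr rfl) he he1]
      exact sub_le_sub_right (by exact_mod_cast (by omega : 4 * nm m + 1 ≤ 4 * np m + 1)) _
  have hsqN : ∀ χ ∈ nSet h Kp Km, (χ : Cfsg.Sz F m → ℂ) x ^ 2 = 1 := by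
    intro χ hχ
    obtain ⟨w, hw, ew⟩ := n_torus h T hχ hx hx1
    rw [ew]; rcases hw with rfl | rfl <;> simp
  rw [sum_split h T, Finset.sum_eq_zero (s := pSet h) (fun χ hχ => by
      obtain ⟨μ, hμ⟩ := mem_pSet h hχ
      rw [hμ, ps_fpf h μ fx]; simp), st_fpf h fx]
  simp only [oneG, one_pow, map_one, mul_one, div_one, neg_one_sq, one_mul, add_zero, Complex.add_re,
    Complex.one_re, Complex.re_sum]
  have hden : ∀ X : ℕ, (((qq m - 1) * X : ℕ) : ℝ) = ((qq m : ℝ) - 1) * (X : ℝ) := fun X => by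
    rw [Nat.cast_mul, Nat.cast_sub (by omega : 1 ≤ qq m), Nat.cast_one]
  have fg := fpf_of_mem h T hg hg1
  rw [st_fpf h fg, st_one h]
  have hst : (conj (-1 : ℂ) / (qq m : ℂ) ^ 2).re = -(1 / (qq m : ℝ) ^ 2) := by
    rw [show (qq m : ℂ) ^ 2 = ((qq m ^ 2 : ℕ) : ℂ) by simp [qq], Complex.div_natCast_re]
    simp [qq, neg_div]
  rw [hst]
  have hN : ∀ χ ∈ nSet h Kp Km, -(1 / (((qq m : ℝ) - 1) * ((2 ^ m : ℕ) : ℝ))) ≤
      ((χ : Cfsg.Sz F m → ℂ) x ^ 2 *
      conj ((χ : Cfsg.Sz F m → ℂ) g) / (χ : Cfsg.Sz F m → ℂ) 1).re := by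
    intro χ hχ
    obtain ⟨v, hv, ev⟩ := n_torus h T hχ hx hx1
    obtain ⟨w, hw, ew⟩ := n_torus h T hχ hg hg1
    rw [(mem_nSet h T hχ).one]
    refine le_trans (le_of_eq ?_) (term_ge (s := 1) (t := 1) ?_ ?_ zero_le_one)
    · rw [hden, one_mul]
    · rw [ev]; rcases hv with rfl | rfl <;> simp
    · rw [ew]; rcases hw with rfl | rfl <;> simp
  have hE : ∀ χ ∈ eSet h Kp Km, -(Complex.normSq ((χ : Cfsg.Sz F m → ℂ) x) *
      ((((2 ^ (m + 1) : ℕ) : ℝ) - 1) / (((qq m : ℝ) - 1) * ((4 * nm m + 1 : ℕ) : ℝ)))) ≤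
      ((χ : Cfsg.Sz F m → ℂ) x ^ 2 *
      conj ((χ : Cfsg.Sz F m → ℂ) g) / (χ : Cfsg.Sz F m → ℂ) 1).re := by
    intro χ hχ
    obtain ⟨a, ha, e1, -⟩ := degE h T hχ
    have hr1 : (0 : ℝ) ≤ ((2 ^ (m + 1) : ℕ) : ℝ) - 1 := by
      rw [sub_nonneg]; exact_mod_cast Nat.one_le_two_pow
    have hn : ‖(χ : Cfsg.Sz F m → ℂ) g‖ ≤ ((2 ^ (m + 1) : ℕ) : ℝ) - 1 := by
      rw [← pow_le_pow_iff_left₀ (norm_nonneg _) hr1 two_ne_zero, Complex.sq_norm]
      exact le_trans (Finset.single_le_sum (f := fun ψ : IrrCharacter (Cfsg.Sz F m) =>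
        Complex.normSq ((ψ : Cfsg.Sz F m → ℂ) g)) (fun ψ _ => Complex.normSq_nonneg _) hχ)
        ((hlast hg hg1).trans i7)
    rw [e1]
    refine le_trans ?_ (term_ge le_rfl hn hr1)
    rw [hden, mul_div_assoc', neg_le_neg_iff]
    refine div_le_div_of_nonneg_left (mul_nonneg (Complex.normSq_nonneg _) hr1) (by positivity)
      (mul_le_mul_of_nonneg_left ?_ hq1.le)
    rcases ha with rfl | rfl
    · exact le_refl _
    · exact_mod_cast (by omega : 4 * nm m + 1 ≤ 4 * np m + 1)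
  have hsn := Finset.sum_le_sum hN
  rw [Finset.sum_const, card_nSet h T, nsmul_eq_mul] at hsn
  have hs := Finset.sum_le_sum hE
  rw [Finset.sum_neg_distrib, ← Finset.sum_mul] at hs
  have hr1 : (0 : ℝ) ≤ ((2 ^ (m + 1) : ℕ) : ℝ) - 1 := by
    rw [sub_nonneg]; exact_mod_cast Nat.one_le_two_pow
  have h2 := mul_le_mul_of_nonneg_right (hlast hx hx1)
    (show 0 ≤ (((2 ^ (m + 1) : ℕ) : ℝ) - 1) / (((qq m : ℝ) - 1) * ((4 * nm m + 1 : ℕ) : ℝ)) from
      div_nonneg hr1 (by positivity))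
  rw [mul_div_assoc (((4 * np m + 1 : ℕ) : ℝ) - 4)] at i3
  have e2 : ((2 : ℕ) : ℝ) * -(1 / (((qq m : ℝ) - 1) * ((2 ^ m : ℕ) : ℝ))) =
      -(2 / (((qq m : ℝ) - 1) * ((2 ^ m : ℕ) : ℝ))) := by push_cast; ring
  rw [e2] at hsn
  linarith


end Cfsg.Agent.Chars.SzD
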