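import Cfsg.Agent.Chars.SzBinaryCrit
import Cfsg.Agent.KnownA.Suz.Cases
import Cfsg.Agent.KnownA.Suz.SubgroupStatements
import Cfsg.Agent.Chars.SzClasses

/-!
Local facts about the pointwise stabilisers attached to elements of a Suzuki group.
-/

set_option autoImplicit false
set_option linter.style.haveILetI false
set_option linter.unusedSectionVars false

namespace Cfsg.Agent.Chars.SzBinary

open Cfsg Cfsg.Agent Cfsg.Agent.Suzuki Cfsg.Agent.KnownA.SzSubgroups Cfsg.Agent.KnownA.SzMembers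

variable {F : Type*} [Field F] {m : ℕ} (h : Ctx F m)
include h

local notation "Gr" => Cfsg.Sz F m

theorem sz_facts : Finite Gr ∧ IsSimpleGroup Gr := ⟨finite_sz h, Suzuki.simple h⟩

/-- An element with fourth power one fixing infinity is unipotent. -/
theorem uEl_form {e : Gr} (he : e ^ 4 = 1) (hinf : e • inf' F m = inf' F m) :
    ∃ a b : F, e = uEl h a b := by
  obtain ⟨a, b, k, rfl⟩ := fix_inf h hinf
  refine ⟨a, b, ?_⟩
  suffices k = 1 by rw [this, hEl_one, mul_one]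
  by_contra hk
  obtain ⟨t, ht⟩ := SzD.uh_conj h a b hk
  have h4 : hEl h k ^ 4 = 1 := by rw [← ht, conj_pow, he, mul_one, mul_inv_cancel]
  have hk4 : k ^ 4 = 1 := by
    apply hEl_inj h
    rw [hEl_one, ← h4]
    simp only [pow_succ, pow_zero, one_mul, hEl_mul]
  refine hk (Units.ext ?_)
  have e4 : ((k : F) ^ 2) ^ 2 = (1 : F) ^ 2 := by
    rw [← pow_mul, one_pow]
    exact congrArg Units.val hk4
  exact h.sq_injective (show (k : F) ^ 2 = ((1 : Fˣ) : F) ^ 2 by
    rw [h.sq_injective e4, Units.val_one, one_pow])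

theorem inv_pow_four {e : Gr} (he : e * e = 1) : e ^ 4 = 1 := by
  calc e ^ 4 = e * e * (e * e) := by simp [pow_succ, mul_assoc]
    _ = 1 := by rw [he, one_mul]

/-- An involution fixing infinity is central in the unipotent group. -/
theorem inv_form {e : Gr} (he : e * e = 1) (hinf : e • inf' F m = inf' F m) :
    ∃ b : F, e = uEl h 0 b := by
  obtain ⟨a, b, rfl⟩ := uEl_form h (inv_pow_four h he) hinf
  rw [uEl_sq, ← uEl_zero h] at he
  rcases mul_eq_zero.1 (uEl_inj h he).2 with ha | ha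
  · exact ⟨b, by rw [h.th_eq_zero.1 ha]⟩
  · exact ⟨b, by rw [ha]⟩

/-- An element of two-power order fixes exactly one point. -/
theorem two_point {e : Gr} (he1 : e ≠ 1) (he : e ^ 4 = 1) :
    ∃ p : Cfsg.suzukiOvoid F m, e • p = p ∧ ∀ r, e • r = r → r = p := by
  obtain ⟨U, ⟨hU, heU⟩, -⟩ := partition h he1
  obtain ⟨P, rfl⟩ := sylow_of_two_element h hU heU he1 he
  obtain ⟨t, ht⟩ := sylow_point h P
  obtain ⟨a, b, hab⟩ := (ht e).1 heU
  have hne : ¬(a = 0 ∧ b = 0) := by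
    rintro ⟨rfl, rfl⟩
    rw [uEl_zero] at hab
    exact he1 (by rw [show e = t * (t⁻¹ * e * t) * t⁻¹ by group, hab]; group)
  refine ⟨t • inf' F m, ?_, fun r hr => ?_⟩
  · rw [show e = t * uEl h a b * t⁻¹ by rw [← hab]; group, mul_smul, mul_smul, inv_smul_smul, uEl_smul_inf]
  · have : uEl h a b • (t⁻¹ • r) = t⁻¹ • r := by rw [← hab, mul_smul, mul_smul, smul_inv_smul, hr]
    exact (inv_smul_eq_iff.1 (Cfsg.Agent.KnownA.SzMaximal.uEl_fix h hne this))

theorem smul_conj_fix (t e : Gr) (r : Cfsg.suzukiOvoid F m) :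
    (t * e * t⁻¹) • (t • r) = t • r ↔ e • r = r := by
  rw [mul_smul, mul_smul, inv_smul_smul, smul_left_cancel_iff]

/-- Involutions fixing a common point commute. -/
theorem comm_of_fix {a b : Gr} (ha : a * a = 1) (hb : b * b = 1) {p : Cfsg.suzukiOvoid F m}
    (hap : a • p = p) (hbp : b • p = p) : a * b = b * a := by
  obtain ⟨t, rfl⟩ := exists_smul_inf h p
  have fix : ∀ e : Gr, e • (t • inf' F m) = t • inf' F m → (t⁻¹ * e * t) • inf' F m = inf' F m :=
    fun e he => by rw [mul_smul, mul_smul, he, inv_smul_smul]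
  have sq1 : ∀ e : Gr, e * e = 1 → t⁻¹ * e * t * (t⁻¹ * e * t) = 1 := fun e he => by
    calc _ = t⁻¹ * (e * e) * t := by group
      _ = 1 := by rw [he]; group
  obtain ⟨c, hc⟩ := inv_form h (sq1 a ha) (fix a hap)
  obtain ⟨d, hd⟩ := inv_form h (sq1 b hb) (fix b hbp)
  have e : t⁻¹ * a * t * (t⁻¹ * b * t) = t⁻¹ * b * t * (t⁻¹ * a * t) := by
    rw [hc, hd, uEl_mul, uEl_mul]
    congr 1
    simp only [mul_zero, zero_mul, add_zero]
    ring
  calc a * b = t * (t⁻¹ * a * t * (t⁻¹ * b * t)) * t⁻¹ := by group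
    _ = b * a := by rw [e]; group

/-- Commuting involutions fix a common point. -/
theorem fix_of_comm {a b : Gr} (ha1 : a ≠ 1) (ha : a * a = 1) (hc : b * a = a * b)
    {p : Cfsg.suzukiOvoid F m} (hap : a • p = p) : b • p = p := by
  obtain ⟨q, hq, hu⟩ := two_point h ha1 (inv_pow_four h ha)
  obtain rfl := hu p hap
  exact Cfsg.Agent.KnownA.SzMaximal.smul_fix_of_commute h hq hu hc

/-- Every element has two-power or odd order. -/
theorem pow_four_or_odd (g : Gr) : g ^ 4 = 1 ∨ Odd (orderOf g) := by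
  by_cases hg : g = 1
  · left; rw [hg, one_pow]
  obtain ⟨U, ⟨hU, hgU⟩, -⟩ := partition h hg
  rcases hU with ⟨P, rfl⟩ | ⟨hc, hk⟩
  · exact Or.inl (pow_four_of_mem h P hgU)
  · exact Or.inr ((k_facts h hk).2.1.of_dvd_nat (Subgroup.orderOf_dvd_natCard U hgU))

/-- Elements of two-power order and equal order are conjugate into the same subgroups. -/
theorem at_of_orderOf {H : Subgroup Gr} {e e' : Gr} (he1 : e ≠ 1) (he : e ^ 4 = 1)
    (ho : orderOf e = orderOf e') (heH : e ∈ H) : ∃ t, At H e' t := by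
  obtain ⟨g, hg | hg⟩ := two_element_conj h he1 he ho
  · exact ⟨g, by rw [At, ← hg]; simpa [mul_assoc] using heH⟩
  · refine ⟨g, ?_⟩
    rw [At, ← inv_inv e', ← hg]
    simpa [mul_assoc] using H.inv_mem heH

/-- The orders of elements of a smaller Suzuki group. -/
theorem orderOf_le (g : Gr) : orderOf g ≤ 2 ^ (2 * m + 1) + 2 ^ (m + 1) + 1 := by
  have h8 : 8 ≤ 2 ^ (2 * m + 1) := by have := h.eight_le; rwa [h.card] at this
  have hp1 := Nat.one_le_two_pow (n := m)
  have hp2 := Nat.one_le_two_pow (n := 2 * m)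
  by_cases hg : g = 1
  · rw [hg, orderOf_one]; omega
  obtain ⟨U, ⟨hU, hgU⟩, -⟩ := partition h hg
  rcases hU with ⟨P, rfl⟩ | ⟨hc, hk⟩
  · have := orderOf_le_of_pow_eq_one (by norm_num) (pow_four_of_mem h P hgU)
    omega
  · have hpos := (k_facts h hk).1
    have := Nat.le_of_dvd (by omega) (Subgroup.orderOf_dvd_natCard U hgU)
    simp only [Set.mem_insert_iff, Set.mem_singleton_iff] at hk
    rcases hk with e | e | e <;> omega

/-- A subfield subgroup is small. -/
theorem subfield_bounds {K : Type} [Field K] [Fintype K] {k : ℕ} (hk : 1 ≤ k) (hkm : k < m)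
    (hK : Fintype.card K = 2 ^ (2 * k + 1)) (hd : 2 * k + 1 ∣ 2 * m + 1)
    {S : Subgroup Gr} (e : ↥S ≃* ↥(Cfsg.Sz K k)) :
    ¬ 2 ^ (2 * m + 1) ∣ Nat.card S ∧
      ∀ g ∈ S, orderOf g < 2 ^ (2 * m + 1) - 2 ^ (m + 1) + 1 := by
  have hctx : Ctx K k := ⟨hk, by rw [Nat.card_eq_fintype_card, hK]⟩
  obtain ⟨c, hc⟩ := hd
  have hc3 : 3 ≤ c := by
    by_contra hlt
    interval_cases c <;> omega
  have h3 : 3 * (2 * k + 1) ≤ 2 * m + 1 := by nlinarith
  constructor
  · intro hdvd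
    rw [Nat.card_congr e.toEquiv, card_sz hctx] at hdvd
    have hodd : Odd (((2 ^ (2 * k + 1)) ^ 2 + 1) * (2 ^ (2 * k + 1) - 1)) := by
      have h2 : Even (2 ^ (2 * k + 1)) := by rw [pow_succ]; exact Even.mul_left even_two _
      refine Nat.odd_mul.2 ⟨?_, ?_⟩
      · exact (h2.pow_of_ne_zero two_ne_zero).add_one
      · exact Nat.Even.sub_odd (Nat.one_le_two_pow) h2 odd_one
    rw [mul_assoc] at hdvd
    have h1 := Nat.Coprime.dvd_of_dvd_mul_right (Nat.Coprime.pow_left _ (Nat.coprime_two_left.2 hodd)) hdvd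
    rw [← pow_mul] at h1
    have := (Nat.pow_dvd_pow_iff_le_right (by norm_num : 1 < 2)).1 h1
    omega
  · intro g hg
    have h1 := orderOf_le hctx (e ⟨g, hg⟩)
    rw [MulEquiv.orderOf_eq, Subgroup.orderOf_mk] at h1
    have hp1 := Nat.one_le_two_pow (n := m)
    have hp2 := Nat.one_le_two_pow (n := k)
    have hp3 := Nat.one_le_two_pow (n := 2 * k)
    have h2 : 2 ^ (k + 1) ≤ 2 ^ (2 * k + 1) := Nat.pow_le_pow_right two_pos (by omega)
    have h4 : 2 ^ (2 * k + 2) ≤ 2 ^ (2 * m - 1) := Nat.pow_le_pow_right two_pos (by omega)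
    have h5 : 2 ^ (2 * k + 2) = 2 * 2 ^ (2 * k + 1) := by rw [pow_succ]; ring
    have h6 : 2 ^ (m + 1) ≤ 2 ^ (2 * m) := Nat.pow_le_pow_right two_pos (by omega)
    have h7 : 2 ^ (2 * m + 1) = 2 * 2 ^ (2 * m) := by rw [pow_succ]; ring
    have h8 : 2 ^ (2 * m) = 2 * 2 ^ (2 * m - 1) := by
      rw [← pow_succ']; congr 1; omega
    omega

/-- A proper subgroup containing the central involutions fixes infinity. -/
theorem le_stab_of_center [Fintype F] {M : Subgroup Gr} (hM : M ≠ ⊤) (hz : ∀ b : F, uEl h 0 b ∈ M) :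
    M ≤ MulAction.stabilizer Gr (inf' F m) := by
  have := finite_sz h
  rcases Cfsg.Agent.KnownA.SzMaximal.subgroups_statement h.one_le
    (by rw [← Nat.card_eq_fintype_card, h.card]) M hM with ⟨P, hle⟩ | ⟨U, hU, hk, hle⟩ |
    ⟨K, _, _, k, hk1, hkm, hK, hd, S, ⟨e⟩, hle⟩
  · obtain ⟨t, ht⟩ := sylow_point h P
    rw [normalizer_sylow h ht] at hle
    obtain ⟨-, -, -, hu⟩ := Cfsg.Agent.KnownA.SzMaximal.uEl_involution h (one_ne_zero (α := F))
    rwa [hu _ (MulAction.mem_stabilizer_iff.1 (hle (hz 1)))] at hle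
  · exfalso
    obtain ⟨hodd, hpos⟩ : Odd (Nat.card U) ∧ 0 < Nat.card U := ⟨(k_facts h hk).2.1, Nat.card_pos⟩
    let Z : Subgroup Gr :=
      { carrier := Set.range fun b : F => uEl h 0 b
        mul_mem' := by
          rintro _ _ ⟨b, rfl⟩ ⟨c, rfl⟩
          exact ⟨b + c, by rw [uEl_mul]; congr 1 <;> simp [th_zero, add_comm]⟩
        one_mem' := ⟨0, uEl_zero h⟩
        inv_mem' := by
          rintro _ ⟨b, rfl⟩
          exact ⟨b, by rw [uEl_inv]; congr 1; simp⟩ }
    have hcard : Nat.card Z = 2 ^ (2 * m + 1) := by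
      rw [← h.card]
      exact (Nat.card_congr (Equiv.ofInjective (fun b : F => uEl h 0 b)
        (fun b c e => (uEl_inj h e).2))).symm
    have hdvd : 2 ^ (2 * m + 1) ∣ Nat.card (Subgroup.normalizer (U : Set Gr)) := by
      rw [← hcard]
      refine Subgroup.card_dvd_of_le ?_
      rintro _ ⟨b, rfl⟩
      exact hle (hz b)
    obtain ⟨e, he4, he⟩ : ∃ e, e ∣ 4 ∧ Nat.card (Subgroup.normalizer (U : Set Gr)) = e * Nat.card U := by
      rcases Set.mem_insert_iff.1 hk with e | e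
      · exact ⟨2, by norm_num, (card_normalizer_cyc h hU).1 e⟩
      · exact ⟨4, dvd_rfl, (card_normalizer_cyc h hU).2 e⟩
    rw [he] at hdvd
    have h1 := Nat.le_of_dvd (by norm_num)
      ((Nat.Coprime.dvd_of_dvd_mul_right (Nat.Coprime.pow_left _ (Nat.coprime_two_left.2 hodd)) hdvd).trans he4)
    have h8 := h.eight_le
    rw [h.card] at h8
    omega
  · exfalso
    refine (subfield_bounds h hk1 hkm hK hd e).1 ?_
    let f : F → S := fun b => ⟨uEl h 0 b, hle (hz b)⟩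
    let Z : Subgroup S :=
      { carrier := Set.range f
        mul_mem' := by
          rintro _ _ ⟨b, rfl⟩ ⟨c, rfl⟩
          exact ⟨b + c, Subtype.ext (by simp [f, uEl_mul, th_zero, add_comm])⟩
        one_mem' := ⟨0, Subtype.ext (uEl_zero h)⟩
        inv_mem' := by
          rintro _ ⟨b, rfl⟩
          exact ⟨b, Subtype.ext (by simp [f, uEl_inv])⟩ }
    have hcard : Nat.card Z = 2 ^ (2 * m + 1) := by
      rw [← h.card]
      exact (Nat.card_congr (Equiv.ofInjective f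
        (fun b c e => (uEl_inj h (congrArg Subtype.val e)).2))).symm
    rw [← hcard]
    exact Subgroup.card_subgroup_dvd_card Z

/-- The stabiliser of the points fixed by an element of two-power order fixes its point. -/
theorem rSub_le_stab [Fintype F] {H : Subgroup Gr} (hH : H ≠ ⊤) {e : Gr} (he1 : e ≠ 1) (he : e ^ 4 = 1)
    {t : Gr} (ht : At H e t) {p : Cfsg.suzukiOvoid F m} (hp : e • p = p) {g : Gr} (hg : g ∈ rSub H e) :
    g • p = p := by
  have := Suzuki.simple h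
  obtain ⟨s, rfl⟩ := exists_smul_inf h p
  set e' := s⁻¹ * e * s with he'
  have he'1 : e' ≠ 1 := fun e0 => he1 (by
    rw [show e = s * e' * s⁻¹ by rw [he']; group, e0]; group)
  have he'4 : e' ^ 4 = 1 := by
    have := conj_pow (a := s⁻¹) (b := e) (i := 4)
    rw [inv_inv] at this
    rw [he', this, he]; group
  have hfix : e' • inf' F m = inf' F m := by rw [he', mul_smul, mul_smul, hp, inv_smul_smul]
  obtain ⟨a, b, hab⟩ := uEl_form h he'4 hfix
  have ht' : At H e' (s⁻¹ * t) := by simpa using at_conj s⁻¹ ht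
  let C : Subgroup Gr := Subgroup.closure (Set.range fun c : F => uEl h 0 c)
  have hC : ∀ c ∈ C, c * e' * c⁻¹ ∈ Subgroup.zpowers e' := by
    intro c hc
    have hle : C ≤ Subgroup.centralizer {e'} := by
      rw [Subgroup.closure_le]
      rintro _ ⟨d, rfl⟩
      rw [SetLike.mem_coe, Subgroup.mem_centralizer_singleton_iff, hab, uEl_mul, uEl_mul]
      congr 1 <;> simp [th_zero, add_comm]
    rw [Subgroup.mem_centralizer_singleton_iff.1 (hle hc)]
    simp
  have hM := le_stab_of_center h (sup_ne_top hH he'1 ht' hC) (fun c =>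
    Subgroup.mem_sup_right (Subgroup.subset_closure ⟨c, rfl⟩))
  have hg' : s⁻¹ * g * s ∈ rSub H e' := by
    have := rSub_conj s⁻¹ hg
    simpa using this
  have := MulAction.mem_stabilizer_iff.1 (hM (Subgroup.mem_sup_left hg'))
  rwa [mul_smul, mul_smul, inv_smul_eq_iff] at this

/-- If no conjugate contains a Sylow two-subgroup, the stabiliser at an involution moves all other points. -/
theorem rSub_involution [Fintype F] {H : Subgroup Gr} (hH : H ≠ ⊤)
    (hU : ¬ ∃ t, ∀ a b : F, At H (uEl h a b) t) {w : Gr} (hw1 : w ≠ 1) (hw : w * w = 1)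
    {t : Gr} (ht : At H w t) {g : Gr} (hg : g ∈ rSub H w) {p q : Cfsg.suzukiOvoid F m}
    (hp : w • p = p) (hpq : p ≠ q) (hgq : g • q = q) : g = 1 := by
  have := h.finite
  have hgp := rSub_le_stab h hH hw1 (inv_pow_four h hw) ht hp hg
  obtain ⟨s, s1, s2⟩ := to_base h hpq
  have hgi : (s * g * s⁻¹) • inf' F m = inf' F m := by rw [← s1, smul_conj_fix h]; exact hgp
  have hgz : (s * g * s⁻¹) • pt m (0 : F) 0 = pt m 0 0 := by rw [← s2, smul_conj_fix h]; exact hgq
  obtain ⟨k, hk⟩ := fix_two h hgi hgz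
  by_cases hk1 : k = 1
  · rw [hk1, hEl_one] at hk
    rwa [conj_eq_one_iff] at hk
  exfalso
  apply hU
  have hw' : s * w * s⁻¹ * (s * w * s⁻¹) = 1 := by
    calc _ = s * (w * w) * s⁻¹ := by group
      _ = 1 := by rw [hw]; group
  obtain ⟨b0, hb0⟩ := inv_form h hw' (by rw [← s1, smul_conj_fix h]; exact hp)
  have hgR : hEl h k ∈ rSub H (uEl h 0 b0) := by rw [← hk, ← hb0]; exact rSub_conj s hg
  have hcen : ∀ a b : F, uEl h a b * uEl h 0 b0 * (uEl h a b)⁻¹ = uEl h 0 b0 := by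
    intro a b
    rw [mul_inv_eq_iff_eq_mul, uEl_mul, uEl_mul]
    congr 1 <;> simp [th_zero, add_comm]
  let φ : F × F → Gr := fun u => uEl h u.1 u.2 * hEl h k * (uEl h u.1 u.2)⁻¹ * (hEl h k)⁻¹
  have hφmem : ∀ u, φ u ∈ rSub H (uEl h 0 b0) := fun u => by
    refine mul_mem (conj_mem_rSub ?_ hgR) (inv_mem hgR)
    rw [hcen]
    exact Subgroup.mem_zpowers _
  have hφinj : Function.Injective φ := by
    intro u v e
    have e1 := mul_right_cancel e
    have hcomm : (uEl h v.1 v.2)⁻¹ * uEl h u.1 u.2 * hEl h k =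
        hEl h k * ((uEl h v.1 v.2)⁻¹ * uEl h u.1 u.2) := by
      calc _ = (uEl h v.1 v.2)⁻¹ * (uEl h u.1 u.2 * hEl h k * (uEl h u.1 u.2)⁻¹) * uEl h u.1 u.2 := by group
        _ = _ := by rw [e1]; group
    obtain ⟨l, hl⟩ := comm_hEl h hk1 hcomm
    have hprod : (uEl h v.1 v.2)⁻¹ * uEl h u.1 u.2 = 1 := by
      have hz : hEl h l • pt m (0 : F) 0 = pt m 0 0 := hEl_smul_zero h l
      rw [uEl_inv, uEl_mul] at hl ⊢
      rw [← hl, uEl_smul_zero] at hz
      obtain ⟨c1, c2⟩ := pt_inj hz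
      rw [c1, c2, uEl_zero]
    obtain ⟨c1, c2⟩ := uEl_inj h (inv_mul_eq_one.1 hprod)
    exact (Prod.ext c1 c2).symm
  have hφU : ∀ u, ∃ v : F × F, φ u = uEl h v.1 v.2 := by
    intro u
    have e : φ u = uEl h u.1 u.2 * (hEl h k * (uEl h u.1 u.2)⁻¹ * (hEl h k)⁻¹) := by
      simp only [φ, mul_assoc]
    rw [e, uEl_inv, hEl_conj, uEl_mul]
    exact ⟨(_, _), rfl⟩
  choose ψ hψ using hφU
  have hψs : Function.Surjective ψ := Finite.surjective_of_injective fun u v e => hφinj (by rw [hψ, hψ, e])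
  refine ⟨s * t, fun a b => ?_⟩
  obtain ⟨u, hu⟩ := hψs (a, b)
  have hmem := hφmem u
  rw [hψ, hu] at hmem
  refine hmem (s * t) ?_
  rw [← hb0]
  exact at_conj s ht

/-- The cyclic members are the only overgroups of a torus with an inverting involution. -/
theorem le_torus_normalizer [Fintype F] {M U : Subgroup Gr} (hM : M ≠ ⊤) (hU : IsCyclic ↥U)
    (hk : Nat.card ↥U ∈ ({2 ^ (2 * m + 1) - 1, 2 ^ (2 * m + 1) + 2 ^ (m + 1) + 1,
      2 ^ (2 * m + 1) - 2 ^ (m + 1) + 1} : Set ℕ))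
    (hUM : U ≤ M) {t : Gr} (htM : t ∈ M) (ht : t ∈ Subgroup.normalizer (U : Set Gr)) (ho : orderOf t = 2) :
    M ≤ Subgroup.normalizer (U : Set Gr) := by
  have := finite_sz h
  have hk0 := (k_facts h hk).1
  obtain ⟨⟨u, huU⟩, hgen⟩ := hU.exists_generator
  have hord : orderOf u = Nat.card U := by
    rw [← Subgroup.orderOf_mk u huU, ← Nat.card_zpowers, (Subgroup.eq_top_iff' _).2 hgen, Subgroup.card_top]
  have hu1 : u ≠ 1 := fun e => by rw [e, orderOf_one] at hord; omega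
  have hodd : Odd (orderOf u) := hord ▸ (k_facts h hk).2.1
  rcases Cfsg.Agent.KnownA.SzMaximal.subgroups_statement h.one_le
    (by rw [← Nat.card_eq_fintype_card, h.card]) M hM with ⟨P, hle⟩ | ⟨V, hV, hkV, hle⟩ |
    ⟨K, _, _, k, hk1, hkm, hK, hd, S, ⟨e⟩, hle⟩
  · exfalso
    obtain ⟨s, hs⟩ := sylow_point h P
    rw [normalizer_sylow h hs] at hle
    have hinv := inverts h hU hk ht ho huU
    have ht2 : t * t = 1 := by rw [← pow_two, ← ho, pow_orderOf_eq_one]
    have hc := comm_of_fix h ht2 (b := u * t * u⁻¹) (by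
        calc u * t * u⁻¹ * (u * t * u⁻¹) = u * (t * t) * u⁻¹ := by group
          _ = 1 := by rw [ht2]; group)
      (MulAction.mem_stabilizer_iff.1 (hle htM))
      (MulAction.mem_stabilizer_iff.1 (hle (M.mul_mem (M.mul_mem (hUM huU) htM) (M.inv_mem (hUM huU)))))
    have htu : t * u = u⁻¹ * t := by rw [← hinv]; group
    have hti : t⁻¹ = t := inv_eq_of_mul_eq_one_right ht2
    have hsq : (u * u) * (u * u) = 1 := by
      have e1 : t * (u * t * u⁻¹) = u⁻¹ * u⁻¹ := by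
        rw [← mul_assoc t, ← mul_assoc t, htu, mul_assoc u⁻¹ t t, ht2, mul_one]
      have e2 : u * t * u⁻¹ * t = u * u := by
        rw [mul_assoc u, mul_assoc u, show t * u⁻¹ * t = u from ?_]
        rw [mul_assoc, ← htu, ← mul_assoc, ht2, one_mul]
      rw [e1, e2] at hc
      calc (u * u) * (u * u) = (u * u) * (u⁻¹ * u⁻¹) := by rw [hc]
        _ = 1 := by group
    refine hu1 (orderOf_eq_one_iff.1 (Nat.eq_one_of_dvd_coprimes
      ((Nat.coprime_two_right.2 hodd).pow_right 2) dvd_rfl (orderOf_dvd_of_pow_eq_one ?_)))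
    rw [← hsq]; simp [pow_succ, mul_assoc]
  · have huV : u ∈ V := odd_mem h hV hkV (hle (hUM huU)) hodd
    rwa [fam_unique h (Or.inr ⟨hU, hk⟩) (Or.inr ⟨hV, hkV⟩) huU huV hu1]
  · exfalso
    have hlt := (subfield_bounds h hk1 hkm hK hd e).2 u (hle (hUM huU))
    rw [hord] at hlt
    simp only [Set.mem_insert_iff, Set.mem_singleton_iff] at hk
    have hp1 := Nat.one_le_two_pow (n := m)
    rcases hk with e | e | e <;> rw [e] at hlt
    · have : 2 ≤ 2 ^ (m + 1) := Nat.le_self_pow (by omega) 2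
      omega
    · omega
    · omega

/-- The cyclic member through an element of odd order. -/
theorem exists_torus {x : Gr} (hx1 : x ≠ 1) (hodd : Odd (orderOf x)) :
    ∃ U : Subgroup Gr, x ∈ U ∧ IsCyclic ↥U ∧ Nat.card ↥U ∈ ({2 ^ (2 * m + 1) - 1,
      2 ^ (2 * m + 1) + 2 ^ (m + 1) + 1, 2 ^ (2 * m + 1) - 2 ^ (m + 1) + 1} : Set ℕ) ∧
      ∃ w ∈ Subgroup.normalizer (U : Set Gr), orderOf w = 2 := by
  have := finite_sz h
  obtain ⟨U, ⟨hU, hxU⟩, -⟩ := partition h hx1
  rcases hU with ⟨P, rfl⟩ | ⟨hc, hk⟩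
  · exact absurd (orderOf_eq_one_iff.1 (Nat.eq_one_of_dvd_coprimes
      ((Nat.coprime_two_right.2 hodd).pow_right 2) dvd_rfl
      (orderOf_dvd_of_pow_eq_one (pow_four_of_mem h P hxU)))) hx1
  refine ⟨U, hxU, hc, hk, ?_⟩
  have h2 : 2 ∣ Nat.card (Subgroup.normalizer (U : Set Gr)) := by
    rcases Set.mem_insert_iff.1 hk with e | e
    · rw [(card_normalizer_cyc h hc).1 e]; exact dvd_mul_right _ _
    · rw [(card_normalizer_cyc h hc).2 e]; exact Dvd.dvd.mul_right (by norm_num) _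
  have : Fact (Nat.Prime 2) := ⟨Nat.prime_two⟩
  obtain ⟨w, hw⟩ := exists_prime_orderOf_dvd_card' 2 h2
  exact ⟨w, w.2, by rw [Subgroup.orderOf_coe]; exact hw⟩

/-- The stabiliser at an element of odd order lies in the torus normaliser. -/
theorem rSub_le_normalizer [Fintype F] {H : Subgroup Gr} (hH : H ≠ ⊤) {x : Gr} (hx1 : x ≠ 1)
    (hodd : Odd (orderOf x)) {t : Gr} (ht : At H x t) {U : Subgroup Gr} (hxU : x ∈ U)
    (hU : IsCyclic ↥U) (hk : Nat.card ↥U ∈ ({2 ^ (2 * m + 1) - 1,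
      2 ^ (2 * m + 1) + 2 ^ (m + 1) + 1, 2 ^ (2 * m + 1) - 2 ^ (m + 1) + 1} : Set ℕ)) :
    rSub H x ≤ Subgroup.normalizer (U : Set Gr) := by
  have := finite_sz h
  have := Suzuki.simple h
  obtain ⟨V, hxV, hV, hkV, w, hw, hwo⟩ := exists_torus h hx1 hodd
  obtain rfl := fam_unique h (Or.inr ⟨hU, hk⟩) (Or.inr ⟨hV, hkV⟩) hxU hxV hx1
  have hC : ∀ c ∈ Subgroup.normalizer (U : Set Gr), c * x * c⁻¹ ∈ Subgroup.zpowers x := by
    intro c hc
    have hcx : c * x * c⁻¹ ∈ U := (Subgroup.mem_normalizer_iff.1 hc x).1 hxU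
    have he : orderOf (⟨c * x * c⁻¹, hcx⟩ : U) = orderOf (⟨x, hxU⟩ : U) := by
      rw [← Subgroup.orderOf_coe, ← Subgroup.orderOf_coe (⟨x, hxU⟩ : U)]
      exact MulEquiv.orderOf_eq (MulAut.conj c) x
    have hmem : (⟨c * x * c⁻¹, hcx⟩ : U) ∈ Subgroup.zpowers (⟨x, hxU⟩ : U) := by
      rw [← zpowers_eq_of_orderOf he]; exact Subgroup.mem_zpowers _
    obtain ⟨n, hn⟩ := Subgroup.mem_zpowers_iff.1 hmem
    exact Subgroup.mem_zpowers_iff.2 ⟨n, by simpa using congrArg Subtype.val hn⟩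
  exact le_sup_left.trans (le_torus_normalizer h (sup_ne_top hH hx1 ht hC) hU hk
    (Subgroup.le_normalizer.trans le_sup_right) (Subgroup.mem_sup_right hw) hw hwo)

end Cfsg.Agent.Chars.SzBinary
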