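import Cfsg.Agent.Chars.ThreeDegMain
import Mathlib.GroupTheory.Nilpotent
import Mathlib.GroupTheory.GroupAction.Quotient
import Mathlib.LinearAlgebra.Determinant

/-!
Solvable groups with three coprime degrees have derived length at most three.
-/

set_option autoImplicit false
set_option linter.style.haveILetI false
set_option linter.unusedSectionVars false

open Cfsg Cfsg.Agent
open scoped ComplexConjugate commutatorElement

namespace Cfsg.Agent.Chars.ThreeDeg

universe u

/-- A group all of whose nontrivial normal subgroups contain the derived group, which is abelian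
and not central: outside the derived group nothing fixes a nontrivial element of it. -/
theorem fixedPointFree {Q : Type u} [Group Q]
    (hmin : ∀ M : Subgroup Q, M.Normal → M ≠ ⊥ → commutator Q ≤ M)
    (hab : ∀ a ∈ commutator Q, ∀ b ∈ commutator Q, a * b = b * a)
    [Finite Q] (hnc : ¬ commutator Q ≤ Subgroup.center Q) :
    ∀ x : Q, x ∉ commutator Q → ∀ a ∈ commutator Q, x * a = a * x → a = 1 := by
  classical
  set N := commutator Q with hN
  have hNn : N.Normal := inferInstance
  have hcomm : ∀ x y : Q, ⁅x, y⁆ ∈ N := fun x y =>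
    Subgroup.commutator_mem_commutator (Subgroup.mem_top x) (Subgroup.mem_top y)
  -- elements of the centralizer of `N` see conjugates of `x` as `x` itself
  have key : ∀ x : Q, ∀ M : Subgroup Q, M.Normal → (∀ l ∈ M, ∀ a ∈ N, l * a = a * l) →
      (M ⊓ Subgroup.centralizer {x}).Normal := by
    intro x M hM hMc
    refine ⟨fun l hl g => ⟨hM.conj_mem l hl.1 g, Subgroup.mem_centralizer_singleton_iff.2 ?_⟩⟩
    have h2 := hMc _ hl.1 _ (hcomm g⁻¹ x)
    have h1 : l * x = x * l := Subgroup.mem_centralizer_singleton_iff.1 hl.2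
    have h3 : l * (g⁻¹ * x * g) = g⁻¹ * x * g * l := by
      calc l * (g⁻¹ * x * g) = (l * ⁅g⁻¹, x⁆) * x := by rw [commutatorElement_def]; group
        _ = ⁅g⁻¹, x⁆ * (l * x) := by rw [h2, mul_assoc]
        _ = ⁅g⁻¹, x⁆ * (x * l) := by rw [h1]
        _ = g⁻¹ * x * g * l := by rw [commutatorElement_def]; group
    calc g * l * g⁻¹ * x = g * (l * (g⁻¹ * x * g)) * g⁻¹ := by group
      _ = g * (g⁻¹ * x * g * l) * g⁻¹ := by rw [h3]
      _ = x * (g * l * g⁻¹) := by group
  have hfix : ∀ x : Q, (¬ ∀ a ∈ N, x * a = a * x) → ∀ a ∈ N, x * a = a * x → a = 1 := by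
    intro x hx a ha hxa
    by_contra hne
    have hle := hmin _ (key x N hNn fun l hl b hb => hab l hl b hb) fun h0 => hne (by
      have h1 : a ∈ N ⊓ Subgroup.centralizer {x} :=
        ⟨ha, Subgroup.mem_centralizer_singleton_iff.2 hxa.symm⟩
      rw [h0, Subgroup.mem_bot] at h1
      exact h1)
    exact hx fun b hb => (Subgroup.mem_centralizer_singleton_iff.1 (hle hb).2).symm
  obtain ⟨x₀, hx₀⟩ : ∃ x : Q, ¬ ∀ a ∈ N, x * a = a * x := by
    by_contra hall
    push Not at hall
    exact hnc fun a ha => Subgroup.mem_center_iff.2 fun g => hall g a ha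
  intro x hx
  refine hfix x fun hxC => hx ?_
  -- `a ↦ ⁅a, x₀⁆` is onto `N`
  let f : N → N := fun a => ⟨⁅(a : Q), x₀⁆, hcomm _ _⟩
  have hinj : Function.Injective f := by
    rintro ⟨a, ha⟩ ⟨b, hb⟩ he
    have he' : ⁅a, x₀⁆ = ⁅b, x₀⁆ := congrArg Subtype.val he
    have h1 : x₀ * (b⁻¹ * a) = (b⁻¹ * a) * x₀ := by
      rw [commutatorElement_def, commutatorElement_def] at he'
      have h2 : a * x₀ * a⁻¹ = b * x₀ * b⁻¹ := mul_right_cancel he'
      calc x₀ * (b⁻¹ * a) = b⁻¹ * (b * x₀ * b⁻¹) * a := by group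
        _ = b⁻¹ * (a * x₀ * a⁻¹) * a := by rw [h2]
        _ = (b⁻¹ * a) * x₀ := by group
    have h3 := hfix x₀ hx₀ _ (N.mul_mem (N.inv_mem hb) ha) h1
    exact Subtype.ext (inv_mul_eq_one.1 h3).symm
  obtain ⟨⟨a, ha⟩, hae⟩ := (Finite.injective_iff_surjective.1 hinj) ⟨⁅x, x₀⁆, hcomm _ _⟩
  have hae' : ⁅a, x₀⁆ = ⁅x, x₀⁆ := congrArg Subtype.val hae
  let C : Subgroup Q := Subgroup.centralizer (N : Set Q)
  have hCc : ∀ l ∈ C, ∀ b ∈ N, l * b = b * l := fun l hl b hb =>
    (Subgroup.mem_centralizer_iff.1 hl b hb).symm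
  have hxC' : x ∈ C := Subgroup.mem_centralizer_iff.2 fun b hb => (hxC b hb).symm
  have haC : a ∈ C := Subgroup.mem_centralizer_iff.2 fun b hb => hab b hb a ha
  have h1 : a⁻¹ * x ∈ C ⊓ Subgroup.centralizer {x₀} := by
    refine ⟨C.mul_mem (C.inv_mem haC) hxC', Subgroup.mem_centralizer_singleton_iff.2 ?_⟩
    rw [commutatorElement_def, commutatorElement_def] at hae'
    have h2 : a * x₀ * a⁻¹ = x * x₀ * x⁻¹ := mul_right_cancel hae'
    calc a⁻¹ * x * x₀ = a⁻¹ * (x * x₀ * x⁻¹) * x := by group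
      _ = a⁻¹ * (a * x₀ * a⁻¹) * x := by rw [h2]
      _ = x₀ * (a⁻¹ * x) := by group
  haveI : C.Normal := inferInstance
  by_cases h0 : C ⊓ Subgroup.centralizer {x₀} = ⊥
  · rw [h0, Subgroup.mem_bot, inv_mul_eq_one] at h1
    exact h1 ▸ ha
  · have hle := hmin _ (key x₀ C inferInstance hCc) h0
    exact absurd (fun b hb => (Subgroup.mem_centralizer_singleton_iff.1 (hle hb).2).symm) hx₀

variable {G : Type u} [Group G] [Fintype G]

/-- The nilpotent quotient is impossible. -/
theorem no_class_two_quotient {m n : ℕ} (h : Setup G m n)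
    (hm : ∃ χ : IrrCharacter G, charDegree (χ : G → ℂ) = m)
    (hn : ∃ χ : IrrCharacter G, charDegree (χ : G → ℂ) = n)
    (K : Subgroup G) [K.Normal] (hK : ¬ commutator G ≤ K)
    (hKmax : ∀ M : Subgroup G, M.Normal → K < M → commutator G ≤ M)
    (hnil : ⁅commutator G, (⊤ : Subgroup G)⁆ ≤ K) : False := by
  classical
  set π := QuotientGroup.mk' K
  have hπ : Function.Surjective π := QuotientGroup.mk'_surjective K
  have hcQ : commutator (G ⧸ K) = (commutator G).map π := by
    rw [commutator_def, commutator_def, Subgroup.map_commutator,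
      Subgroup.map_top_of_surjective π hπ]
  haveI : Group.IsNilpotent (G ⧸ K) := by
    refine Subgroup.isNilpotent_of_ker_le_center (Abelianization.of : G ⧸ K →* Abelianization (G ⧸ K)) ?_
    rw [Abelianization.ker_of, hcQ, Subgroup.map_le_iff_le_comap]
    intro a ha
    refine Subgroup.mem_comap.2 (Subgroup.mem_center_iff.2 fun g => ?_)
    obtain ⟨g, rfl⟩ := hπ g
    refine (commutatorElement_eq_one_iff_mul_comm.1 ?_).symm
    rw [← map_commutatorElement]
    exact (QuotientGroup.eq_one_iff _).2 (hnil (Subgroup.commutator_mem_commutator ha (Subgroup.mem_top g)))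
  have hne : commutator (G ⧸ K) ≠ ⊥ := by
    rw [hcQ, Ne, Subgroup.map_eq_bot_iff, QuotientGroup.ker_mk']
    exact hK
  have hmin : ∀ M : Subgroup (G ⧸ K), M.Normal → M ≠ ⊥ → commutator (G ⧸ K) ≤ M := by
    intro M hM hM0
    haveI := hM
    have hlt : K < M.comap π := by
      refine lt_of_le_of_ne (fun x hx => ?_) fun e => hM0 ?_
      · rw [Subgroup.mem_comap, QuotientGroup.mk'_apply, (QuotientGroup.eq_one_iff x).2 hx]
        exact M.one_mem
      · rw [← Subgroup.map_comap_eq_self_of_surjective hπ M, ← e, QuotientGroup.map_mk'_self]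
    rw [hcQ, Subgroup.map_le_iff_le_comap]
    exact hKmax _ inferInstance hlt
  -- the quotient is a group of prime power order
  have huniq : ∀ {p q : ℕ}, p.Prime → q.Prime → p ∣ Nat.card (G ⧸ K) → q ∣ Nat.card (G ⧸ K) →
      p = q := by
    intro p q hp hq hpd hqd
    by_contra hpq
    haveI := Fact.mk hp
    haveI := Fact.mk hq
    obtain ⟨P⟩ : Nonempty (Sylow p (G ⧸ K)) := inferInstance
    obtain ⟨R⟩ : Nonempty (Sylow q (G ⧸ K)) := inferInstance
    have hPn : (P : Subgroup (G ⧸ K)).Normal :=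
      P.normal_of_normalizerCondition Group.normalizerCondition_of_isNilpotent
    have hRn : (R : Subgroup (G ⧸ K)).Normal :=
      R.normal_of_normalizerCondition Group.normalizerCondition_of_isNilpotent
    refine hne (le_bot_iff.1 ?_)
    have h1 := le_inf (hmin _ hPn (P.ne_bot_of_dvd_card hpd)) (hmin _ hRn (R.ne_bot_of_dvd_card hqd))
    rwa [(IsPGroup.disjoint_of_ne p q hpq _ _ P.isPGroup' R.isPGroup').eq_bot] at h1
  haveI : Nontrivial (G ⧸ K) := by
    by_contra h0
    rw [not_nontrivial_iff_subsingleton] at h0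
    exact hne (Subsingleton.elim _ _)
  obtain ⟨p, hp, hpd⟩ := Nat.exists_prime_and_dvd (Finite.one_lt_card (α := G ⧸ K)).ne'
  haveI := Fact.mk hp
  have hcard : Nat.card (G ⧸ K) = p ^ (Nat.card (G ⧸ K)).primeFactorsList.length :=
    Nat.eq_prime_pow_of_unique_prime_dvd Nat.card_pos.ne' fun {d} hd hdd => huniq hd hp hdd hpd
  generalize (Nat.card (G ⧸ K)).primeFactorsList.length = k at hcard
  obtain ⟨θ, hθ⟩ : ∃ θ : IrrCharacter (G ⧸ K), charDegree (θ : G ⧸ K → ℂ) ≠ 1 := by
    by_contra hall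
    push Not at hall
    refine hne (le_bot_iff.1 ?_)
    rw [commutator_def, Subgroup.commutator_le]
    intro x _ y _
    rw [Subgroup.mem_bot, commutatorElement_eq_one_iff_mul_comm]
    exact Chars2.comm_of_degree_one hall x y
  haveI : Fintype (G ⧸ K) := Fintype.ofFinite _
  have hpθ : p ∣ charDegree (θ : G ⧸ K → ℂ) := by
    obtain ⟨d, -, hd, hdd⟩ := irr_degree_dvd_card θ.2
    rw [deg_eq] at hd
    have hd' : charDegree (θ : G ⧸ K → ℂ) = d := by exact_mod_cast hd
    obtain ⟨j, -, hj⟩ := (Nat.dvd_prime_pow hp).1 (hcard ▸ hdd)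
    rcases j with _ | j
    · exact absurd (hd'.trans hj) hθ
    · rw [hd', hj]; exact dvd_pow_self p (Nat.succ_ne_zero j)
  -- a character of the other degree
  obtain ⟨χ, g, hχ, hg1, hcop, hfg⟩ : ∃ (χ : IrrCharacter G) (g : ℕ),
      charDegree (χ : G → ℂ) = g ∧ 1 < g ∧ (charDegree (θ : G ⧸ K → ℂ)).Coprime g ∧
        ∀ η : IrrCharacter G, charDegree (η : G → ℂ) ≠ charDegree (θ : G ⧸ K → ℂ) * g := by
    have hne1 : m ≠ n := fun e => by
      have := h.cop
      rw [e, Nat.coprime_self] at this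
      have := h.n_gt
      omega
    have hmn : ∀ η : IrrCharacter G, charDegree (η : G → ℂ) ≠ m * n := by
      intro η he
      have h1 := h.m_gt
      have h2 := h.n_gt
      have h3 : m < m * n := lt_mul_of_one_lt_right (by omega) h2
      have h4 : n < m * n := lt_mul_of_one_lt_left (by omega) h1
      rcases h.cd η with e | e | e <;> rw [he] at e <;> omega
    rcases quotient_degree K (P := fun d => d = 1 ∨ d = m ∨ d = n) h.cd θ with e | e | e
    · exact absurd e hθ
    · obtain ⟨χ, hχ⟩ := hn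
      exact ⟨χ, n, hχ, h.n_gt, e ▸ h.cop, e ▸ hmn⟩
    · obtain ⟨χ, hχ⟩ := hm
      exact ⟨χ, m, hχ, h.m_gt, e ▸ h.cop.symm, e ▸ fun η => (mul_comm m n) ▸ hmn η⟩
  have hpg : ¬ p ∣ charDegree (χ : G → ℂ) := fun hd =>
    hp.not_dvd_one (hcop ▸ Nat.dvd_gcd hpθ (hχ ▸ hd))
  have hres := restrict_pPrime (p := p) χ.2 hpg
  have hle : pResidual p G ≤ K := (Subgroup.closure_le _).2 fun x hx => by
    rw [SetLike.mem_coe, ← QuotientGroup.eq_one_iff, ← orderOf_eq_one_iff]
    refine Nat.eq_one_of_dvd_coprimes (hx.symm.pow_left k) ?_ (orderOf_map_dvd π x)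
    exact hcard ▸ orderOf_dvd_natCard (x : G ⧸ K)
  set N := pResidual p G with hNdef
  haveI : Fintype N := Fintype.ofFinite _
  have hg' := Chars2.gallagher (N := N) (φ := 1) (ϑ := fun x : N => (χ : G → ℂ) x)
    isIrrCharacter_one (Chars2.inertiaSub_eq_top fun g n => rfl) hres.2
    (by rw [one_mul]; exact hres.1) χ.2 fun _ => rfl
  set β : G → ℂ := fun x => (θ : G ⧸ K → ℂ) (π x) with hβ
  have hβi : IsIrrCharacter G β := isIrrCharacter_comp_surjective θ.2 π hπ
  have hβm : classInner (indFun N (1 : N → ℂ)) β ≠ 0 := by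
    rw [classInner_indFun N 1 (isClassFunction_of_isCharacter (isCharacter_of_isIrr hβi)),
      show (fun x : N => β x) = (θ : G ⧸ K → ℂ) 1 • (1 : N → ℂ) by
        funext x
        rw [hβ, Pi.smul_apply, Pi.one_apply, smul_eq_mul, mul_one]
        refine congrArg (θ : G ⧸ K → ℂ) ?_
        exact (QuotientGroup.eq_one_iff (x : G)).2 (hle x.2),
      classInner_smul_right, show classInner (1 : N → ℂ) (1 : N → ℂ) = 1 from
        classInner_self_irr isIrrCharacter_one, mul_one]
    simpa using irr_apply_one_ne_zero θ.2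
  obtain ⟨hirr, -⟩ := hg'.mapsTo (show β ∈ {β : G → ℂ | IsIrrCharacter G β ∧
    classInner (indFun N (1 : N → ℂ)) β ≠ 0} from ⟨hβi, hβm⟩)
  refine hfg ⟨_, hirr⟩ ?_
  have h1 : (β * (χ : G → ℂ)) 1 =
      ((charDegree (θ : G ⧸ K → ℂ) * g : ℕ) : ℂ) := by
    show (θ : G ⧸ K → ℂ) (π 1) * (χ : G → ℂ) 1 = _
    rw [map_one, deg_eq, deg_eq, hχ, Nat.cast_mul]
  exact_mod_cast (Blocks.charDegree_eq hirr).1.symm.trans h1

/-- The linear characters of `N` trivial on `K`. -/
def homsOver (N K : Subgroup G) : Subgroup (N →* ℂˣ) where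
  carrier := {η | ∀ a : N, (a : G) ∈ K → η a = 1}
  one_mem' := fun a _ => rfl
  mul_mem' := fun {η η'} h h' a ha => by rw [MonoidHom.mul_apply, h a ha, h' a ha, mul_one]
  inv_mem' := fun {η} h a ha => by rw [MonoidHom.inv_apply, h a ha, inv_one]

/-- Nontrivial linear characters of a fixed-point-free section are fixed by it only. -/
theorem stab_eq_of_fpf (N K : Subgroup G) [N.Normal] [K.Normal] (hGN : commutator G ≤ N)
    (hab : ∀ a ∈ N, ∀ b ∈ N, ⁅a, b⁆ ∈ K)
    (hfpf : ∀ x : G, x ∉ N → ∀ a ∈ N, ⁅x, a⁆ ∈ K → a ∈ K)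
    (η : N →* ℂˣ) (hη : η ∈ homsOver N K) (hne : η ≠ 1) : TwoDeg.stab N η = N := by
  classical
  haveI : Fintype N := Fintype.ofFinite _
  refine le_antisymm (fun g hg => ?_) (TwoDeg.le_stab η)
  by_contra hgN
  apply hne
  let π := QuotientGroup.mk' K
  let Nb := N.map π
  have hcm : ∀ a ∈ N, ⁅g, a⁆ ∈ N := fun a ha => hGN
    (Subgroup.commutator_mem_commutator (Subgroup.mem_top g) (Subgroup.mem_top a))
  let f : Nb → Nb := fun y => ⟨⁅π g, (y : G ⧸ K)⁆, by
    obtain ⟨a, ha, hae⟩ := y.2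
    exact ⟨⁅g, a⁆, hcm a ha, by rw [map_commutatorElement, hae]⟩⟩
  have hinj : Function.Injective f := by
    rintro ⟨_, a, ha, rfl⟩ ⟨_, b, hb, rfl⟩ he
    have he' : ⁅π g, π a⁆ = ⁅π g, π b⁆ := congrArg Subtype.val he
    have hcab : π a * π b⁻¹ = π b⁻¹ * π a := by
      rw [← commutatorElement_eq_one_iff_mul_comm, ← map_commutatorElement]
      exact (QuotientGroup.eq_one_iff _).2 (hab a ha _ (N.inv_mem hb))
    have h1 : π (g * (b⁻¹ * a) * g⁻¹ * (b⁻¹ * a)⁻¹) = 1 := by
      simp only [commutatorElement_def] at he'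
      have h2 : π g * π a * (π g)⁻¹ = π g * π b * (π g)⁻¹ * ((π b)⁻¹ * π a) := by
        rw [← mul_assoc (π g * π b * (π g)⁻¹), ← he', inv_mul_cancel_right]
      simp only [map_mul, map_inv]
      rw [show π g * ((π b)⁻¹ * π a) * (π g)⁻¹ =
        (π g * π b * (π g)⁻¹)⁻¹ * (π g * π a * (π g)⁻¹) by group, h2]
      group
    have h3 := hfpf g hgN _ (N.mul_mem (N.inv_mem hb) ha)
      ((QuotientGroup.eq_one_iff _).1 (by simpa [commutatorElement_def, π] using h1))
    exact Subtype.ext ((QuotientGroup.eq (s := K)).2 h3).symm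
  refine MonoidHom.ext fun c => ?_
  obtain ⟨⟨_, a, ha, rfl⟩, hae⟩ := Finite.injective_iff_surjective.1 hinj ⟨π c, _, c.2, rfl⟩
  have hae' : π ⁅g, a⁆ = π c := by
    rw [map_commutatorElement]; exact congrArg Subtype.val hae
  have hk : (⁅g, a⁆)⁻¹ * (c : G) ∈ K := QuotientGroup.eq.1 hae'
  have h1 : η ((⟨_, hcm a ha⟩ : N)⁻¹ * c) = 1 := hη _ hk
  rw [map_mul, map_inv, inv_mul_eq_one] at h1
  rw [← h1, MonoidHom.one_apply]
  have h2 : (⟨_, hcm a ha⟩ : N) =
      ⟨g * a * g⁻¹, Subgroup.Normal.conj_mem inferInstance a ha g⟩ * (⟨a, ha⟩ : N)⁻¹ :=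
    Subtype.ext (commutatorElement_def g a)
  rw [h2, map_mul, map_inv, TwoDeg.mem_stab.1 hg ⟨a, ha⟩, mul_inv_cancel]

/-- A fixed-point-free section has a nontrivial linear character. -/
theorem exists_homOver (N K : Subgroup G) [N.Normal] [K.Normal]
    (hab : ∀ a ∈ N, ∀ b ∈ N, ⁅a, b⁆ ∈ K) (hNK : ¬ N ≤ K) :
    ∃ η : N →* ℂˣ, η ∈ homsOver N K ∧ η ≠ 1 := by
  classical
  obtain ⟨a, ha, haK⟩ := SetLike.not_le_iff_exists.1 hNK
  set π := QuotientGroup.mk' K
  have hcomm : ∀ x y : N.map π, x * y = y * x := by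
    rintro ⟨_, x, hx, rfl⟩ ⟨_, y, hy, rfl⟩
    refine Subtype.ext ?_
    show π x * π y = π y * π x
    rw [← commutatorElement_eq_one_iff_mul_comm, ← map_commutatorElement]
    exact (QuotientGroup.eq_one_iff _).2 (hab x hx y hy)
  obtain ⟨φ, hφ⟩ : ∃ φ : N.map π →* ℂˣ, φ ⟨π a, a, ha, rfl⟩ ≠ 1 := by
    by_contra hall
    push Not at hall
    exact haK ((QuotientGroup.eq_one_iff a).1
      (congrArg Subtype.val (TwoDeg.eq_one_of_forall_hom hcomm hall)))
  refine ⟨φ.comp (π.subgroupMap N), fun b hb => ?_, fun he => hφ ?_⟩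
  · rw [MonoidHom.comp_apply, show π.subgroupMap N b = 1 from
      Subtype.ext ((QuotientGroup.eq_one_iff _).2 hb), map_one]
  · exact DFunLike.congr_fun he ⟨a, ha⟩

/-- The index of a fixed-point-free section is a degree. -/
theorem index_mem_degrees (N K : Subgroup G) [N.Normal] [K.Normal]
    (hab : ∀ a ∈ N, ∀ b ∈ N, ⁅a, b⁆ ∈ K) (hNK : ¬ N ≤ K) (hGN : commutator G ≤ N)
    (hfpf : ∀ x : G, x ∉ N → ∀ a ∈ N, ⁅x, a⁆ ∈ K → a ∈ K) :
    ∃ χ : IrrCharacter G, charDegree (χ : G → ℂ) = N.index := by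
  classical
  haveI : Fintype N := Fintype.ofFinite _
  obtain ⟨η, hηM, hη1⟩ := exists_homOver N K hab hNK
  have hs : N = Chars2.inertiaSub (fun a : N => (η a : ℂ)) :=
    (stab_eq_of_fpf N K hGN hab hfpf η hηM hη1).symm
  have hirr := Chars2.isIrr_indFun_of_inertia (le_refl N) (isIrrCharacter_hom η) hs
    (isIrrCharacter_hom η) (by
      rw [show Chars2.resSub N N le_rfl (fun a : N => (η a : ℂ)) = fun a : N => (η a : ℂ) from rfl,
        classInner_self_irr (isIrrCharacter_hom η)]
      exact one_ne_zero)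
  refine ⟨⟨_, hirr⟩, ?_⟩
  have h1 : indFun N (fun a : N => (η a : ℂ)) 1 = ((N.index : ℕ) : ℂ) := by
    rw [indFun_apply_one, map_one, Units.val_one, mul_one]
  exact_mod_cast (Blocks.charDegree_eq hirr).1.symm.trans h1

/-- The Frobenius quotient: the derived length is at most three. -/
theorem derived_three_frobenius {m n : ℕ} (h : Setup G m n) (N K : Subgroup G) [N.Normal] [K.Normal]
    (hGN : commutator G ≤ N) (hab : ∀ a ∈ N, ∀ b ∈ N, ⁅a, b⁆ ∈ K) (hNK : ¬ N ≤ K)
    (hfpf : ∀ x : G, x ∉ N → ∀ a ∈ N, ⁅x, a⁆ ∈ K → a ∈ K)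
    (hidx : N.index = m) : derivedSeries G 3 = ⊥ := by
  classical
  haveI : Fintype N := Fintype.ofFinite _
  haveI : Finite (N →* ℂˣ) :=
    Finite.of_injective (fun η : N →* ℂˣ => (⟨_, isIrrCharacter_hom η⟩ : IrrCharacter N))
      (fun η η' he => MonoidHom.ext fun x => Units.ext (congrFun (congrArg Subtype.val he) x))
  set M := homsOver N K with hMdef
  have hconj : ∀ (g : G) (η : N →* ℂˣ), η ∈ M →
      η.comp (MulAut.conjNormal g).toMonoidHom ∈ M := fun g η hη a ha =>
    hη _ (by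
      simp only [MulEquiv.coe_toMonoidHom, MulAut.conjNormal_apply]
      exact Subgroup.Normal.conj_mem inferInstance _ ha g)
  have hstab : ∀ η : N →* ℂˣ, η ∈ M → η ≠ 1 → TwoDeg.stab N η = N :=
    fun η hη hne => stab_eq_of_fpf N K hGN hab hfpf η hη hne
  obtain ⟨η₀, hη₀M, hη₀⟩ := exists_homOver N K hab hNK
  -- the orbits
  let X := {η : N →* ℂˣ // η ∈ M ∧ η ≠ 1}
  letI : MulAction G X :=
    { smul := fun g η => ⟨η.1.comp (MulAut.conjNormal g⁻¹).toMonoidHom, hconj g⁻¹ η.1 η.2.1,
        fun he => η.2.2 (MonoidHom.ext fun a => by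
          have := DFunLike.congr_fun he (MulAut.conjNormal g a)
          rw [MonoidHom.comp_apply, MulEquiv.coe_toMonoidHom, ← MulAut.mul_apply, ← map_mul,
            inv_mul_cancel, map_one, MulAut.one_apply] at this
          exact this)⟩
      one_smul := fun η => Subtype.ext (MonoidHom.ext fun a => by
        show η.1 (MulAut.conjNormal (1 : G)⁻¹ a) = η.1 a
        rw [inv_one, map_one, MulAut.one_apply])
      mul_smul := fun g g' η => Subtype.ext (MonoidHom.ext fun a => by
        show η.1 (MulAut.conjNormal (g * g')⁻¹ a) =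
          η.1 (MulAut.conjNormal g'⁻¹ (MulAut.conjNormal g⁻¹ a))
        rw [mul_inv_rev, map_mul, MulAut.mul_apply]) }
  have hX : m ∣ Nat.card X := by
    rw [Nat.card_congr (MulAction.selfEquivSigmaOrbitsQuotientStabilizer G X)]
    haveI : Fintype (Quotient (MulAction.orbitRel G X)) := Fintype.ofFinite _
    rw [Nat.card_sigma]
    refine Finset.dvd_sum fun q _ => ?_
    rw [← Subgroup.index_eq_card, ← hidx]
    suffices hs : ∀ η : X, MulAction.stabilizer G η = N by rw [hs]
    intro η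
    ext g
    rw [MulAction.mem_stabilizer_iff, ← N.inv_mem_iff (x := g), ← SetLike.ext_iff.1
      (hstab η.1 η.2.1 η.2.2) g⁻¹, TwoDeg.mem_stab, Subtype.ext_iff]
    show η.1.comp (MulAut.conjNormal g⁻¹).toMonoidHom = η.1 ↔ _
    rw [MonoidHom.ext_iff]
    refine forall_congr' fun a => ?_
    rw [MonoidHom.comp_apply, MulEquiv.coe_toMonoidHom]
    rw [show MulAut.conjNormal g⁻¹ a =
      (⟨g⁻¹ * a * g⁻¹⁻¹, Subgroup.Normal.conj_mem inferInstance _ a.2 g⁻¹⟩ : N) from
        Subtype.ext (MulAut.conjNormal_apply _ _)]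
  have hMX : Nat.card M = Nat.card X + 1 := by
    rw [← Finite.card_option]
    refine Nat.card_congr
      { toFun := fun η => if he : η.1 = 1 then none else some ⟨η.1, η.2, he⟩
        invFun := fun o => o.elim 1 fun x => ⟨x.1, x.2.1⟩
        left_inv := fun η => ?_
        right_inv := fun o => ?_ }
    · by_cases he : η.1 = 1
      · simp only [he, dite_true, Option.elim]; exact Subtype.ext he.symm
      · simp only [he, dite_false, Option.elim]
    · rcases o with _ | x
      · simp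
      · simp [x.2.2]
  haveI : Nonempty X := ⟨⟨η₀, hη₀M, hη₀⟩⟩
  have hlt : m < Nat.card M := by
    have := Nat.le_of_dvd Nat.card_pos hX
    omega
  have hmM : m.Coprime (Nat.card M) := by
    obtain ⟨c, hc⟩ := hX
    rw [hMX, hc]
    simp
  -- characters of degree prime to the number of linear characters
  have htwist : ∀ ψ : IrrCharacter N, (charDegree (ψ : N → ℂ)).Coprime (Nat.card M) →
      ∃ χ : IrrCharacter G, charDegree (χ : G → ℂ) = m * charDegree (ψ : N → ℂ) := by
    intro ψ hcopψ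
    obtain ⟨d, ρ, hρ, hρe⟩ := ψ.2
    haveI := hρ
    have hd : charDegree (ψ : N → ℂ) = d := by
      have h5 : (ψ : N → ℂ) 1 = (d : ℂ) := by
        rw [← hρe, Representation.char_one, Module.finrank_fin_fun]
      exact Nat.cast_inj.1 ((deg_eq ψ).symm.trans h5)
    set δ := Chars2.detHom ρ with hδ
    obtain ⟨μ, hμ⟩ : ∃ μ : M, TwoDeg.stab N (δ * (μ : N →* ℂˣ)) = N := by
      by_contra hall
      push Not at hall
      have hg : ∀ μ : M, ∃ g, g ∈ TwoDeg.stab N (δ * (μ : N →* ℂˣ)) ∧ g ∉ N := fun μ => by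
        by_contra hno
        push Not at hno
        exact hall μ (le_antisymm hno (TwoDeg.le_stab _))
      choose g hg hgN using hg
      have hinj : Function.Injective fun μ : M => ((g μ : G) : G ⧸ N) := by
        intro μ μ' he
        by_contra hne
        have hmem : g μ ∈ TwoDeg.stab N (δ * (μ' : N →* ℂˣ)) := by
          have h1 := Subgroup.mul_mem _ (hg μ')
            (TwoDeg.le_stab (δ * (μ' : N →* ℂˣ)) (QuotientGroup.eq.1 (Eq.symm he)))
          rwa [mul_inv_cancel_left] at h1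
        have hq : g μ ∈ TwoDeg.stab N ((μ : N →* ℂˣ) * (μ' : N →* ℂˣ)⁻¹) := by
          rw [TwoDeg.mem_stab]
          intro a
          have h1 := TwoDeg.mem_stab.1 (hg μ) a
          have h2 := TwoDeg.mem_stab.1 hmem a
          simp only [MonoidHom.mul_apply, MonoidHom.inv_apply] at h1 h2 ⊢
          have h3 := congrArg₂ (fun A B : ℂˣ => A / B) h1 h2
          rw [mul_div_mul_left_eq_div, mul_div_mul_left_eq_div, div_eq_mul_inv, div_eq_mul_inv] at h3
          exact h3
        rw [hstab _ (M.mul_mem μ.2 (M.inv_mem μ'.2))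
          (fun e => hne (Subtype.ext (mul_inv_eq_one.1 e)))] at hq
        exact hgN μ hq
      have := Nat.card_le_card_of_injective _ hinj
      rw [← Subgroup.index_eq_card, hidx] at this
      omega
    have hc' : (Nat.card M).Coprime d := by rw [← hd]; exact hcopψ.symm
    obtain ⟨η, hη⟩ := (powCoprime hc').surjective μ
    rw [powCoprime_apply] at hη
    -- the twisted representation
    let σ : Representation ℂ N (Fin d → ℂ) :=
      { toFun := fun x => ((η : N →* ℂˣ) x : ℂ) • ρ x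
        map_one' := by rw [map_one, map_one, Units.val_one, one_smul]
        map_mul' := fun x y => by rw [map_mul, map_mul, Units.val_mul, smul_mul_smul_comm] }
    have hσc : σ.character = fun x => ((η : N →* ℂˣ) x : ℂ) * (ψ : N → ℂ) x := funext fun x => by
      rw [← hρe]
      show LinearMap.trace ℂ _ (σ x) = _
      rw [show σ x = ((η : N →* ℂˣ) x : ℂ) • ρ x from rfl, map_smul, smul_eq_mul]
      rfl
    have hψη : IsIrrCharacter N fun x => ((η : N →* ℂˣ) x : ℂ) * (ψ : N → ℂ) x :=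
      isIrrCharacter_mul_hom ψ.2 _
    haveI hσi : σ.IsIrreducible := isIrreducible_of_character σ (hσc ▸ hψη)
    have hdet : ∀ x : N, Chars2.detHom σ x = (δ * (μ : N →* ℂˣ)) x := by
      intro x
      refine Units.ext ?_
      rw [MonoidHom.mul_apply, Units.val_mul, hδ, Chars2.detHom_apply, Chars2.detHom_apply, ← hη,
        SubmonoidClass.coe_pow, MonoidHom.pow_apply, Units.val_pow_eq_pow_val,
        show σ x = ((η : N →* ℂˣ) x : ℂ) • ρ x from rfl, LinearMap.det_smul,
        Module.finrank_fin_fun, mul_comm]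
    have hinert : N = Chars2.inertiaSub σ.character := by
      refine le_antisymm
        (Chars2.le_inertiaSub (isClassFunction_of_isCharacter (isCharacter_of_rep σ))) ?_
      intro g hg
      rw [← hμ]
      have hg' : g⁻¹ ∈ Chars2.inertiaSub σ.character := Subgroup.inv_mem _ hg
      rw [Chars2.mem_inertiaSub, funext_iff] at hg'
      obtain ⟨e⟩ := Chars2.equiv_of_character_eq σ
        (σ.comp (MulAut.conjNormal (H := N) g).toMonoidHom) (funext fun k => by
          have h1 := hg' k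
          rw [Chars2.conjFun] at h1
          rw [inv_inv] at h1
          exact h1.symm)
      rw [TwoDeg.mem_stab]
      intro a
      rw [← hdet, ← hdet]
      refine Units.ext ?_
      rw [Chars2.detHom_apply, Chars2.detHom_apply]
      have h := e.conj_apply_self a
      simp only [MonoidHom.coe_comp, MulEquiv.coe_toMonoidHom, Function.comp_apply] at h
      rw [show (⟨g * a * g⁻¹, Subgroup.Normal.conj_mem inferInstance _ a.2 g⟩ : N) =
        MulAut.conjNormal g a from Subtype.ext (MulAut.conjNormal_apply g a).symm, ← h]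
      rw [LinearEquiv.conj_apply, LinearMap.comp_assoc]
      exact LinearMap.det_conj _ _
    have hirr := Chars2.isIrr_indFun_of_inertia (le_refl N) (hσc ▸ hψη) hinert (hσc ▸ hψη) (by
      rw [show Chars2.resSub N N le_rfl σ.character = σ.character from rfl,
        classInner_self_irr (hσc ▸ hψη)]
      exact one_ne_zero)
    refine ⟨⟨_, hirr⟩, ?_⟩
    have h1 : indFun N σ.character 1 = ((m * d : ℕ) : ℂ) := by
      rw [indFun_apply_one, hidx, Representation.char_one, Module.finrank_fin_fun, Nat.cast_mul]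
    rw [hd]
    exact_mod_cast (Blocks.charDegree_eq hirr).1.symm.trans h1
  have hN2 : derivedSeries N 2 = ⊥ := by
    refine two_degrees (m := n) fun ψ => ?_
    by_contra hno
    push Not at hno
    obtain ⟨χ, t, ht, hχ⟩ := exists_ratio N ψ
    have hnc : ¬ (charDegree (ψ : N → ℂ)).Coprime (Nat.card M) := fun hc => by
      obtain ⟨χ', hχ'⟩ := htwist ψ hc
      rcases h.cd χ' with e | e | e <;> rw [hχ'] at e
      · have := h.m_gt
        rw [Nat.eq_one_of_mul_eq_one_right e] at this
        omega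
      · exact hno.1 ((Nat.mul_eq_left (by have := h.m_gt; omega)).1 e)
      · have h1 : m ∣ m.gcd n := Nat.dvd_gcd dvd_rfl (e ▸ dvd_mul_right m _)
        rw [h.cop] at h1
        have := h.m_gt
        have := Nat.le_of_dvd one_pos h1
        omega
    rcases h.cd χ with e | e | e <;> rw [hχ] at e
    · exact hno.1 (Nat.eq_one_of_mul_eq_one_right e)
    · exact hnc (hmM.coprime_dvd_left (e ▸ dvd_mul_right _ t))
    · have : t = 1 := Nat.eq_one_of_dvd_coprimes h.cop (hidx ▸ ht) (e ▸ dvd_mul_left t _)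
      rw [this, mul_one] at e
      exact hno.2 e
  rw [← le_bot_iff]
  refine (derived_le_map N 1 (by rwa [derivedSeries_one]) 2).trans (le_of_eq ?_)
  rw [hN2, Subgroup.map_bot]

end Cfsg.Agent.Chars.ThreeDeg
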