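import Cfsg.Agent.Chars.Linear
import Cfsg.Agent.Chars.Induced
import Cfsg.Agent.Chars2.RelativeM
import Cfsg.Agent.S0859
import Mathlib.GroupTheory.PGroup

/-!
Groups with an abelian normal subgroup of prime power index are monomial, and Taketa's bound for
monomial groups in terms of the number of degrees.
-/

set_option autoImplicit false
set_option linter.style.haveILetI false
set_option linter.unusedSectionVars false

open Cfsg Cfsg.Agent
open scoped commutatorElement

namespace Cfsg.Agent.Chars.ThreeDeg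

universe u

/-- Chief factors above a normal subgroup with `p`-quotient have prime order. -/
theorem noSquareFactor_of_pQuotient {G : Type u} [Group G] [Finite G] (N : Subgroup G) [N.Normal]
    {p : ℕ} [Fact p.Prime] {k : ℕ} (hk : N.index = p ^ k) : Chars2.NoSquareFactor N := by
  intro H K L hNL hLK hKH hK hL hmin hsq
  let K' : Subgroup H := K.subgroupOf H
  let L' : Subgroup H := L.subgroupOf H
  have hLH : L ≤ H := hLK.le.trans hKH
  haveI : L'.Normal := ⟨fun x hx g => Subgroup.mem_subgroupOf.2 (by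
    simpa using hL g g.2 x (Subgroup.mem_subgroupOf.1 hx))⟩
  haveI : K'.Normal := ⟨fun x hx g => Subgroup.mem_subgroupOf.2 (by
    simpa using hK g g.2 x (Subgroup.mem_subgroupOf.1 hx))⟩
  have hQ : IsPGroup p (H ⧸ L') := by
    have h1 : L'.index ∣ p ^ k := by
      refine hk ▸ dvd_trans ?_ (Subgroup.index_dvd_of_le hNL)
      exact ⟨H.index, (Subgroup.relIndex_mul_index hLH).symm⟩
    obtain ⟨j, -, hj⟩ := (Nat.dvd_prime_pow (Fact.out)).1 h1
    exact IsPGroup.of_card (n := j) (by rw [← Subgroup.index_eq_card, hj])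
  set M := K'.map (QuotientGroup.mk' L') with hM
  haveI : M.Normal := Subgroup.Normal.map inferInstance _ (QuotientGroup.mk'_surjective L')
  have hMne : M ≠ ⊥ := fun h => by
    rw [hM, Subgroup.map_eq_bot_iff, QuotientGroup.ker_mk'] at h
    exact hLK.not_ge fun x hx => Subgroup.mem_subgroupOf.1
      (h (show (⟨x, hKH hx⟩ : H) ∈ K' from hx))
  haveI : Nontrivial M := (Subgroup.nontrivial_iff_ne_bot M).2 hMne
  haveI := hQ.isNilpotent
  have hmeet : M ⊓ Subgroup.center (H ⧸ L') ≠ ⊥ := by
    letI : MulAction (ConjAct (H ⧸ L')) M := inferInstance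
    have hPc : IsPGroup p (ConjAct (H ⧸ L')) := hQ.of_equiv ConjAct.toConjAct
    have hdvd : p ∣ Nat.card M := by
      obtain ⟨n, hn0, hn⟩ := (hQ.to_subgroup M).nontrivial_iff_card.1 inferInstance
      rw [hn]; exact dvd_pow_self p hn0.ne'
    obtain ⟨b, hb, hb1⟩ := hPc.exists_fixed_point_of_prime_dvd_card_of_fixed_point M hdvd
      (a := (1 : M)) (fun g => Subtype.ext (by
        show ConjAct.ofConjAct g * 1 * (ConjAct.ofConjAct g)⁻¹ = 1
        simp))
    intro hbot
    refine hb1 (Subtype.ext ?_).symm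
    have hmem : (b : H ⧸ L') ∈ M ⊓ Subgroup.center (H ⧸ L') := by
      refine ⟨b.2, Subgroup.mem_center_iff.2 fun g => ?_⟩
      have h2 := congrArg Subtype.val (hb (ConjAct.toConjAct g))
      exact mul_inv_eq_iff_eq_mul.1 h2
    rw [hbot, Subgroup.mem_bot] at hmem
    exact hmem
  haveI : Nontrivial ↥(M ⊓ Subgroup.center (H ⧸ L')) := (Subgroup.nontrivial_iff_ne_bot _).2 hmeet
  obtain ⟨z, hz⟩ := exists_prime_orderOf_dvd_card' p (show p ∣ Nat.card ↥(M ⊓ Subgroup.center (H ⧸ L')) by
    obtain ⟨n, hn0, hn⟩ := (hQ.to_subgroup (M ⊓ Subgroup.center (H ⧸ L'))).nontrivial_iff_card.1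
      inferInstance
    rw [hn]; exact dvd_pow_self p hn0.ne')
  set Z := Subgroup.zpowers (z : H ⧸ L') with hZ
  have hZc : Z ≤ Subgroup.center (H ⧸ L') := Subgroup.zpowers_le.2 z.2.2
  have hZM : Z ≤ M := Subgroup.zpowers_le.2 z.2.1
  haveI : Z.Normal := ⟨fun x hx g => by
    rwa [Subgroup.mem_center_iff.1 (hZc hx) g, mul_inv_cancel_right]⟩
  have hZcard : Nat.card Z = p := by rw [hZ, Nat.card_zpowers, show orderOf (z : H ⧸ L') = orderOf z from orderOf_injective (Subgroup.subtype _) (Subgroup.subtype_injective _) z, hz]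
  set W := Z.comap (QuotientGroup.mk' L') with hW
  have hWK : W ≤ K' := fun x hx => by
    obtain ⟨y, hy, hyx⟩ := hZM hx
    have h1 : y⁻¹ * x ∈ L' := QuotientGroup.eq.1 hyx
    have h2 : y⁻¹ * x ∈ K' := Subgroup.comap_mono hLK.le h1
    simpa using K'.mul_mem hy h2
  have hLW : L' ≤ W := fun x hx => by
    rw [hW, Subgroup.mem_comap, QuotientGroup.mk'_apply, (QuotientGroup.eq_one_iff x).2 hx]
    exact Z.one_mem
  rcases hmin (W.map H.subtype)
      (fun l hl => ⟨⟨l, hLH hl⟩, hLW (Subgroup.mem_subgroupOf.2 hl), rfl⟩)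
      (fun x hx => by obtain ⟨y, hy, rfl⟩ := hx; exact Subgroup.mem_subgroupOf.1 (hWK hy))
      (fun h hh m hm => by
        obtain ⟨y, hy, rfl⟩ := hm
        refine ⟨⟨h, hh⟩ * y * ⟨h, hh⟩⁻¹, ?_, by simp⟩
        exact (Subgroup.Normal.comap (inferInstance : Z.Normal) (QuotientGroup.mk' L')).conj_mem y hy _) with e | e
  · have h1 : W.map H.subtype = L'.map H.subtype := by
      rw [e, Subgroup.subgroupOf_map_subtype, inf_eq_left.2 hLH]
    have h2 : W = L' := Subgroup.map_injective H.subtype_injective h1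
    have h3 : Z = ⊥ := by
      rw [← Subgroup.map_comap_eq_self_of_surjective (QuotientGroup.mk'_surjective L') Z, ← hW, h2,
        QuotientGroup.map_mk'_self]
    rw [h3, Subgroup.card_bot] at hZcard
    exact (Fact.out : p.Prime).ne_one hZcard.symm
  · have h1 : W.map H.subtype = K'.map H.subtype := by
      rw [e, Subgroup.subgroupOf_map_subtype, inf_eq_left.2 hKH]
    have h2 : W = K' := Subgroup.map_injective H.subtype_injective h1
    have h3 : L.relIndex K = p := by
      refine (Subgroup.relIndex_subgroupOf (H := L) (L := H) hKH).symm.trans ?_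
      show L'.relIndex K' = p
      rw [← h2]
      have h4 : L'.relIndex W * W.index = L'.index := Subgroup.relIndex_mul_index hLW
      have h5 : W.index = Z.index := Subgroup.index_comap_of_surjective Z (QuotientGroup.mk'_surjective L')
      have h6 : Nat.card Z * Z.index = L'.index := by
        rw [Z.card_mul_index, ← Subgroup.index_eq_card]
      rw [h5, ← h6, hZcard] at h4
      exact Nat.eq_of_mul_eq_mul_right (Nat.pos_of_ne_zero Subgroup.index_ne_zero_of_finite) h4
    rw [h3] at hsq
    exact (Fact.out : p.Prime).prime.not_isSquare hsq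

/-- Characters of such a group are monomial. -/
theorem monomial_of_pQuotient {G : Type u} [Group G] [Fintype G] (K : Subgroup G) [K.Normal]
    (hab : ∀ a ∈ K, ∀ b ∈ K, a * b = b * a) {p : ℕ} [Fact p.Prime] {k : ℕ} (hk : K.index = p ^ k)
    {χ : G → ℂ} (hχ : IsIrrCharacter G χ) :
    ∃ (H : Subgroup G) (lam : H →* ℂˣ), χ = indFun H (fun h => (lam h : ℂ)) := by
  classical
  haveI : Group.IsNilpotent (G ⧸ K) :=
    (IsPGroup.of_card (p := p) (n := k) (by rw [← Subgroup.index_eq_card, hk])).isNilpotent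
  haveI : Group.IsSolvable K := Group.isSolvable_of_comm fun a b => Subtype.ext (hab a a.2 b b.2)
  haveI : Group.IsSolvable G := Group.isSolvable_of_ker_le_range K.subtype (QuotientGroup.mk' K)
    (by rw [QuotientGroup.ker_mk', Subgroup.range_subtype])
  obtain ⟨U, lam, hl, hl1, hind⟩ := S0859.result K
    (fun q _ P a _ b _ => Subtype.ext (hab a a.2 b b.2))
    (fun ψ hψ => Chars2.relative_m K inferInstance (noSquareFactor_of_pQuotient K hk) hψ) χ hχ
  obtain ⟨f, hf⟩ := exists_hom_of_degree_one hl hl1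
  exact ⟨U, f, by rw [← hind, hf]⟩

/-- Taketa's argument, by the number of degrees below. -/
theorem derived_le_ker {G : Type u} [Group G] [Fintype G]
    (hM : ∀ χ : G → ℂ, IsIrrCharacter G χ →
      ∃ (H : Subgroup G) (lam : H →* ℂˣ), χ = indFun H (fun h => (lam h : ℂ)))
    (S : Finset ℕ) (hS : ∀ χ : IrrCharacter G, charDegree (χ : G → ℂ) ∈ S) :
    ∀ (n : ℕ) (χ : G → ℂ), IsIrrCharacter G χ → χ 1 = n →
      ∀ x ∈ derivedSeries G (S.filter fun s => s ≤ n).card, χ x = χ 1 := by
  classical
  have hmem : ∀ (n : ℕ) (χ : G → ℂ), IsIrrCharacter G χ → χ 1 = n → n ∈ S := by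
    intro n χ hχ hn
    have := hS ⟨χ, hχ⟩
    have h1 : charDegree χ = n := by simp [charDegree, hn]
    exact h1 ▸ this
  intro n
  induction n using Nat.strong_induction_on with
  | _ n ih =>
  intro χ hχ hn x hx
  have hnS := hmem n χ hχ hn
  obtain ⟨H, lam, rfl⟩ := hM χ hχ
  have hidx : n = H.index := by
    rw [indFun_apply_one] at hn
    simp only [map_one, Units.val_one, mul_one] at hn
    exact_mod_cast hn.symm
  set r := (S.filter fun s => s ≤ n).card with hr
  have hr0 : 0 < r := Finset.card_pos.2 ⟨n, Finset.mem_filter.2 ⟨hnS, le_rfl⟩⟩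
  obtain ⟨j, hj⟩ : ∃ j, r = j + 1 := ⟨r - 1, by omega⟩
  have hle : derivedSeries G j ≤ H := by
    intro y hy
    set π : G → ℂ := indFun H (fun _ => 1) with hπ
    have hπc : IsCharacter G π := isCharacter_indFun H isCharacter_one
    have hπ1 : classInner π (fun _ => 1) = 1 := by
      rw [hπ, classInner_indFun _ _ (fun _ _ => rfl)]
      exact classInner_self_irr isIrrCharacter_one
    obtain ⟨c, hc, hsum⟩ := exists_eq_sum_nsmul hπc
    choose d hd0 hd using fun ψ : IrrCharacter G => exists_irr_apply_one_eq ψ.2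
    let one : IrrCharacter G := ⟨fun _ => 1, isIrrCharacter_one⟩
    have hc1 : c one = 1 := by exact_mod_cast (hc one).symm.trans hπ1
    have hdeg : ∑ ψ, c ψ * d ψ = n := by
      have e : (n : ℂ) = π 1 := by rw [hπ, indFun_apply_one, mul_one, hidx]
      rw [hsum, Finset.sum_apply] at e
      simp only [Pi.smul_apply, nsmul_eq_mul, hd] at e
      exact_mod_cast e.symm
    have hd1 : d one = 1 := by exact_mod_cast (show (1 : ℂ) = (d one : ℂ) from hd one).symm
    have hterm : ∀ ψ : IrrCharacter G,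
        (c ψ : ℂ) * (ψ : G → ℂ) y = (c ψ : ℂ) * (ψ : G → ℂ) 1 := by
      intro ψ
      by_cases h0 : c ψ = 0
      · rw [h0, Nat.cast_zero, zero_mul, zero_mul]
      by_cases h1 : ψ = one
      · rw [h1]
      have hlt : d ψ < n := by
        have hp := Finset.sum_le_sum_of_subset (f := fun ψ => c ψ * d ψ)
          (Finset.subset_univ ({one, ψ} : Finset (IrrCharacter G)))
        rw [Finset.sum_pair (Ne.symm h1), hdeg, hc1, hd1] at hp
        have : 1 * d ψ ≤ c ψ * d ψ := Nat.mul_le_mul_right _ (Nat.pos_of_ne_zero h0)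
        omega
      have hcard : (S.filter fun s => s ≤ d ψ).card ≤ j := by
        have h2 : (S.filter fun s => s ≤ d ψ).card < r := by
          refine Finset.card_lt_card (Finset.ssubset_iff_of_subset (fun s hs => ?_)
            |>.2 ⟨n, Finset.mem_filter.2 ⟨hnS, le_rfl⟩, fun h => ?_⟩)
          · rw [Finset.mem_filter] at hs ⊢; exact ⟨hs.1, by omega⟩
          · rw [Finset.mem_filter] at h; omega
        omega
      rw [ih (d ψ) hlt _ ψ.2 (hd ψ) y (derivedSeries_antitone G hcard hy)]
    have hy1 : π y = π 1 := by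
      rw [hsum]
      simp only [Finset.sum_apply, Pi.smul_apply, nsmul_eq_mul]
      exact Finset.sum_congr rfl fun ψ _ => hterm ψ
    rw [hπ, indFun_apply, indFun_apply, mul_right_inj' (inv_ne_zero (subgroup_card_ne_zero H))] at hy1
    simp only [extendByZero_eq_ite, dite_eq_ite, mul_one, inv_mul_cancel,
      H.one_mem, if_true, Finset.sum_boole, Finset.sum_const, nsmul_eq_mul] at hy1
    have hall := Finset.eq_univ_of_card _ (by exact_mod_cast hy1)
    have := (Finset.mem_filter.1 (hall.symm ▸ Finset.mem_univ (1 : G))).2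
    simpa using this
  have hsub : derivedSeries G r ≤ lam.ker.map H.subtype := by
    rw [hj, derivedSeries_succ, Subgroup.commutator_le]
    intro a ha b hb
    refine ⟨⁅(⟨a, hle ha⟩ : H), ⟨b, hle hb⟩⁆, ?_, rfl⟩
    rw [SetLike.mem_coe, MonoidHom.mem_ker, map_commutatorElement,
      commutatorElement_eq_one_iff_mul_comm, mul_comm]
  rw [indFun_apply, indFun_apply]
  congr 1
  refine Finset.sum_congr rfl fun a _ => ?_
  haveI := derivedSeries_normal G r
  obtain ⟨w, hw, hwe⟩ := hsub ((inferInstance : (derivedSeries G r).Normal).conj_mem' x hx a)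
  have h1 : a⁻¹ * x * a ∈ H := hwe ▸ w.2
  rw [extendByZero_of_mem H _ h1, mul_one, inv_mul_cancel, extendByZero_of_mem H _ H.one_mem]
  have hw' : lam (⟨_, h1⟩ : H) = 1 := by
    rw [← show w = ⟨_, h1⟩ from Subtype.ext hwe]; exact hw
  show ((lam ⟨_, h1⟩ : ℂˣ) : ℂ) = ((lam 1 : ℂˣ) : ℂ)
  rw [hw', map_one]

/-- A monomial group with at most three degrees has derived length at most three. -/
theorem derived_three_of_monomial {G : Type u} [Group G] [Fintype G]
    (hM : ∀ χ : G → ℂ, IsIrrCharacter G χ →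
      ∃ (H : Subgroup G) (lam : H →* ℂˣ), χ = indFun H (fun h => (lam h : ℂ)))
    (S : Finset ℕ) (hS3 : S.card ≤ 3) (hS : ∀ χ : IrrCharacter G, charDegree (χ : G → ℂ) ∈ S) :
    derivedSeries G 3 = ⊥ := by
  classical
  refine (Subgroup.eq_bot_iff_forall _).2 fun x hx => ?_
  by_contra hne
  have h1 := sum_apply_one_mul (G := G) x
  rw [if_neg hne] at h1
  have h2 : ∀ χ : IrrCharacter G, (χ : G → ℂ) x = (χ : G → ℂ) 1 := fun χ => by
    obtain ⟨m, -, hm⟩ := exists_irr_apply_one_eq χ.2
    exact derived_le_ker hM S hS m _ χ.2 hm x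
      (derivedSeries_antitone G ((Finset.card_filter_le _ _).trans hS3) hx)
  simp only [h2] at h1
  have h3 := sum_sq_apply_one (G := G)
  simp only [sq] at h3
  rw [h1] at h3
  exact card_ne_zero h3.symm

end Cfsg.Agent.Chars.ThreeDeg
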