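import Cfsg.Agent.Chars.ThreeDegSolvable
import Cfsg.Agent.Chars.ThreeDegTaketa
import Cfsg.Agent.Chars.TwoDegrees
import Cfsg.Agent.S0887
import Mathlib.GroupTheory.Abelianization.Defs

/-!
A finite group with three irreducible character degrees has derived length at most three.
-/

set_option autoImplicit false
set_option linter.style.haveILetI false
set_option linter.unusedSectionVars false

open Cfsg Cfsg.Agent
open scoped ComplexConjugate commutatorElement

namespace Cfsg.Agent.Chars.ThreeDeg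

universe u

section helpers

variable {G : Type u} [Group G] [Finite G]

theorem two_degrees {m : ℕ}
    (hcd : ∀ χ : IrrCharacter G, charDegree (χ : G → ℂ) = 1 ∨ charDegree (χ : G → ℂ) = m) :
    derivedSeries G 2 = ⊥ := by
  haveI := Fintype.ofFinite G
  have hcomm : ∀ a ∈ commutator G, ∀ b ∈ commutator G, a * b = b * a := by
    by_cases h : ∃ χ : IrrCharacter G, charDegree (χ : G → ℂ) ≠ 1
    · obtain ⟨χ, hχ⟩ := h
      have hχm : charDegree (χ : G → ℂ) = m := (hcd χ).resolve_left hχ
      exact TwoDeg.commutator_comm hcd ⟨χ, hχm⟩ (hχm ▸ hχ)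
    · push Not at h
      exact fun a _ b _ => Chars2.comm_of_degree_one h a b
  rw [derivedSeries_succ, derivedSeries_one, Subgroup.commutator_eq_bot_iff_le_centralizer]
  exact fun a ha => Subgroup.mem_centralizer_iff.2 fun b hb => hcomm b hb a ha

theorem derived_le_map (K : Subgroup G) (i : ℕ) (h : derivedSeries G i ≤ K) :
    ∀ j, derivedSeries G (i + j) ≤ (derivedSeries K j).map K.subtype := by
  intro j
  induction j with
  | zero => rwa [derivedSeries_zero, ← MonoidHom.range_eq_map, Subgroup.range_subtype, add_zero]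
  | succ j ih =>
    rw [← add_assoc, derivedSeries_succ, derivedSeries_succ, Subgroup.map_commutator]
    exact Subgroup.commutator_mono ih ih

theorem derived_le_of_quotient (K : Subgroup G) [K.Normal] (i : ℕ)
    (h : derivedSeries (G ⧸ K) i = ⊥) : derivedSeries G i ≤ K := by
  have h1 := map_derivedSeries_le_derivedSeries (QuotientGroup.mk' K) i
  rwa [h, le_bot_iff, Subgroup.map_eq_bot_iff, QuotientGroup.ker_mk'] at h1

theorem quotient_degree (K : Subgroup G) [K.Normal] {P : ℕ → Prop}
    (h : ∀ χ : IrrCharacter G, P (charDegree (χ : G → ℂ))) (θ : IrrCharacter (G ⧸ K)) :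
    P (charDegree (θ : G ⧸ K → ℂ)) := by
  obtain ⟨χ, hχ⟩ := Chars2.exists_degree_eq_of_surjective (QuotientGroup.mk' K)
    (QuotientGroup.mk'_surjective K) θ
  exact hχ ▸ h χ

/-- A degree of a normal subgroup divides one of the group, with quotient dividing the index. -/
theorem exists_ratio (N : Subgroup G) [N.Normal] (θ : IrrCharacter N) :
    ∃ (χ : IrrCharacter G) (t : ℕ), t ∣ N.index ∧
      charDegree (χ : G → ℂ) = charDegree (θ : N → ℂ) * t := by
  classical
  haveI := Fintype.ofFinite G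
  haveI : Fintype N := Fintype.ofFinite _
  obtain ⟨χ, hχ⟩ : ∃ χ : IrrCharacter G,
      classInner (fun x : N => (χ : G → ℂ) x) (θ : N → ℂ) ≠ 0 := by
    by_contra hall
    push Not at hall
    have h1 := congrFun (eq_sum_classInner (isClassFunction_indFun N (θ : N → ℂ))) 1
    rw [Finset.sum_apply, Finset.sum_eq_zero (fun χ _ => ?_), indFun_apply_one] at h1
    · exact mul_ne_zero (Nat.cast_ne_zero.2 N.index_ne_zero_of_finite)
        (irr_apply_one_ne_zero θ.2) h1
    · rw [classInner_indFun N _ (isClassFunction_irr χ), ← classInner_conj_symm, hall χ,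
        map_zero, Pi.smul_apply, zero_smul]
  obtain ⟨⟨t, ht⟩, hi⟩ := S0887.result N _ χ.2 _ θ.2 hχ _ _ (deg_eq χ) (deg_eq θ)
  refine ⟨χ, t, ?_, ht⟩
  rwa [ht, Nat.mul_div_cancel_left _ (Blocks.charDegree_eq θ.2).2] at hi

end helpers

/-- The case where a prime divides both nonlinear degrees. -/
theorem derived_three_common {G : Type u} [Group G] [Finite G] {m n p : ℕ} (hp : p.Prime)
    (hpm : p ∣ m) (hpn : p ∣ n) (hm : 1 < m) (hn : 1 < n)
    (hex : ∃ χ : IrrCharacter G, charDegree (χ : G → ℂ) = m)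
    (hcd : ∀ χ : IrrCharacter G, charDegree (χ : G → ℂ) = 1 ∨ charDegree (χ : G → ℂ) = m ∨
      charDegree (χ : G → ℂ) = n)
    (ih : ∀ (H : Type u) [Group H] [Finite H], Nat.card H < Nat.card G → ∀ T : Finset ℕ,
      T.card ≤ 3 → (∀ χ : IrrCharacter H, charDegree (χ : H → ℂ) ∈ T) → derivedSeries H 3 = ⊥) :
    derivedSeries G 3 = ⊥ := by
  classical
  haveI := Fintype.ofFinite G
  haveI := Fact.mk hp
  obtain ⟨K, hKn, hKc, k, hk⟩ := S4456.result (G := G) p hp fun χ hne => by
    rcases hcd χ with h | h | h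
    · exact absurd h hne
    · exact h ▸ hpm
    · exact h ▸ hpn
  haveI := hKn
  have hpG : p ∣ Nat.card G := by
    obtain ⟨χ, hχ⟩ := hex
    obtain ⟨d, -, hd, hdd⟩ := irr_degree_dvd_card χ.2
    rw [deg_eq, hχ] at hd
    exact hpm.trans ((show m = d by exact_mod_cast hd) ▸ hdd)
  have hKlt : Nat.card K < Nat.card G := by
    refine lt_of_le_of_ne (Subgroup.card_le_card_group K) fun e => ?_
    rw [e] at hKc
    exact hp.not_dvd_one (hKc ▸ Nat.dvd_gcd hpG dvd_rfl)
  obtain ⟨a, m', hm', rfl⟩ := Nat.exists_eq_pow_mul_and_not_dvd (by omega : m ≠ 0) p hp.ne_one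
  obtain ⟨b, n', hn', rfl⟩ := Nat.exists_eq_pow_mul_and_not_dvd (by omega : n ≠ 0) p hp.ne_one
  have huniq : ∀ {d e j i : ℕ}, ¬ p ∣ d → ¬ p ∣ e → p ^ i * e = d * p ^ j → d = e := by
    intro d e j i hd he h
    refine Nat.dvd_antisymm ?_ ?_
    · exact (((hp.coprime_iff_not_dvd).2 hd).symm.pow_right i).dvd_of_dvd_mul_left
        (h ▸ dvd_mul_right d _)
    · exact (((hp.coprime_iff_not_dvd).2 he).symm.pow_right j).dvd_of_dvd_mul_right
        (h.symm ▸ dvd_mul_left e _)
  have hKd : ∀ θ : IrrCharacter K, charDegree (θ : K → ℂ) = 1 ∨ charDegree (θ : K → ℂ) = m' ∨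
      charDegree (θ : K → ℂ) = n' := by
    intro θ
    haveI : Fintype K := Fintype.ofFinite _
    obtain ⟨χ, t, ht, hχ⟩ := exists_ratio K θ
    obtain ⟨j, -, rfl⟩ := (Nat.dvd_prime_pow hp).1 (hk ▸ ht)
    have hθp : ¬ p ∣ charDegree (θ : K → ℂ) := fun h => by
      obtain ⟨d, -, hd, hdd⟩ := irr_degree_dvd_card θ.2
      rw [deg_eq] at hd
      exact hp.not_dvd_one (hKc ▸ Nat.dvd_gcd (h.trans
        ((show charDegree (θ : K → ℂ) = d by exact_mod_cast hd) ▸ hdd)) dvd_rfl)
    rcases hcd χ with h | h | h <;> rw [hχ] at h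
    · exact Or.inl (Nat.eq_one_of_mul_eq_one_right h)
    · exact Or.inr (Or.inl (huniq hθp hm' h.symm))
    · exact Or.inr (Or.inr (huniq hθp hn' h.symm))
  by_cases hboth : m' = 1 ∧ n' = 1
  · obtain ⟨rfl, rfl⟩ := hboth
    have hab : ∀ x ∈ K, ∀ y ∈ K, x * y = y * x := fun x hx y hy =>
      congrArg Subtype.val (Chars2.comm_of_degree_one
        (fun θ => by rcases hKd θ with h | h | h <;> exact h) ⟨x, hx⟩ ⟨y, hy⟩)
    refine derived_three_of_monomial (fun χ hχ => monomial_of_pQuotient K hab hk hχ)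
      {1, p ^ a * 1, p ^ b * 1} Finset.card_le_three fun χ => ?_
    simpa using hcd χ
  -- the quotient by the derived subgroup of the complement has prime power degrees
  set L : Subgroup G := ⁅K, K⁆ with hL
  set Kb := K.map (QuotientGroup.mk' L) with hKb
  haveI : Kb.Normal := Subgroup.Normal.map inferInstance _ (QuotientGroup.mk'_surjective L)
  have hKbab : ∀ x ∈ Kb, ∀ y ∈ Kb, x * y = y * x := by
    rintro _ ⟨x, hx, rfl⟩ _ ⟨y, hy, rfl⟩
    rw [← commutatorElement_eq_one_iff_mul_comm, ← map_commutatorElement, QuotientGroup.mk'_apply,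
      QuotientGroup.eq_one_iff]
    exact Subgroup.commutator_mem_commutator hx hy
  have hKbi : Kb.index = p ^ k := by
    rw [hKb, Subgroup.index_map, QuotientGroup.ker_mk', MonoidHom.range_eq_top.2
      (QuotientGroup.mk'_surjective L), Subgroup.index_top, mul_one,
      sup_eq_left.2 (Subgroup.commutator_le_self K), hk]
  have hQd : ∀ θ : IrrCharacter (G ⧸ L), charDegree (θ : G ⧸ L → ℂ) = 1 ∨
      (charDegree (θ : G ⧸ L → ℂ) = p ^ a * m' ∧ m' = 1) ∨
      (charDegree (θ : G ⧸ L → ℂ) = p ^ b * n' ∧ n' = 1) := by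
    intro θ
    have hdvd := hKbi ▸ Chars2.charDegree_dvd_index hKbab θ
    rcases quotient_degree L (P := fun d => d = 1 ∨ d = p ^ a * m' ∨ d = p ^ b * n') hcd θ with
      h | h | h
    · exact Or.inl h
    · refine Or.inr (Or.inl ⟨h, ?_⟩)
      rw [h] at hdvd
      exact Nat.eq_one_of_dvd_coprimes (((hp.coprime_iff_not_dvd).2 hm').pow_left k)
        ((dvd_mul_left m' _).trans hdvd) dvd_rfl
    · refine Or.inr (Or.inr ⟨h, ?_⟩)
      rw [h] at hdvd
      exact Nat.eq_one_of_dvd_coprimes (((hp.coprime_iff_not_dvd).2 hn').pow_left k)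
        ((dvd_mul_left n' _).trans hdvd) dvd_rfl
  have hLeq : L = (derivedSeries K 1).map K.subtype := by
    rw [derivedSeries_one, commutator_def, Subgroup.map_commutator, ← MonoidHom.range_eq_map,
      Subgroup.range_subtype]
  have hLK : L ≤ K := Subgroup.commutator_le_self K
  -- one of the two `p'`-parts is trivial
  have hone : ∀ (u v : ℕ), (∀ θ : IrrCharacter K, charDegree (θ : K → ℂ) = 1 ∨
      charDegree (θ : K → ℂ) = v) → (∀ θ : IrrCharacter (G ⧸ L),
      charDegree (θ : G ⧸ L → ℂ) = 1 ∨ charDegree (θ : G ⧸ L → ℂ) = u) →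
      derivedSeries G 3 = ⊥ := by
    intro u v h1 h2
    have hK2 : derivedSeries K 2 = ⊥ := two_degrees h1
    have hG2 : derivedSeries G 2 ≤ L := derived_le_of_quotient L 2 (two_degrees h2)
    rw [derivedSeries_succ, ← le_bot_iff]
    refine (Subgroup.commutator_mono hG2 hG2).trans (le_of_eq ?_)
    rw [hLeq, ← Subgroup.map_commutator, ← derivedSeries_succ, hK2, Subgroup.map_bot]
  by_cases hm1 : m' = 1
  · have hn1 : n' ≠ 1 := fun h => hboth ⟨hm1, h⟩
    refine hone (p ^ a * m') n' (fun θ => ?_) fun θ => ?_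
    · rcases hKd θ with h | h | h
      · exact Or.inl h
      · exact Or.inl (h.trans hm1)
      · exact Or.inr h
    · rcases hQd θ with h | ⟨h, -⟩ | ⟨-, h⟩
      · exact Or.inl h
      · exact Or.inr h
      · exact absurd h hn1
  by_cases hn1 : n' = 1
  · refine hone (p ^ b * n') m' (fun θ => ?_) fun θ => ?_
    · rcases hKd θ with h | h | h
      · exact Or.inl h
      · exact Or.inr h
      · exact Or.inl (h.trans hn1)
    · rcases hQd θ with h | ⟨-, h⟩ | ⟨h, -⟩
      · exact Or.inl h
      · exact absurd h hm1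
      · exact Or.inr h
  have hlin : ∀ θ : IrrCharacter (G ⧸ L), charDegree (θ : G ⧸ L → ℂ) = 1 := fun θ => by
    rcases hQd θ with h | ⟨-, h⟩ | ⟨-, h⟩
    · exact h
    · exact absurd h hm1
    · exact absurd h hn1
  have hG1 : derivedSeries G 1 ≤ L := by
    rw [derivedSeries_one, commutator_def, Subgroup.commutator_le]
    intro x _ y _
    rw [← QuotientGroup.eq_one_iff, ← QuotientGroup.mk'_apply, map_commutatorElement,
      commutatorElement_eq_one_iff_mul_comm]
    exact Chars2.comm_of_degree_one hlin _ _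
  have hK3 : derivedSeries K 3 = ⊥ := ih K hKlt {1, m', n'} Finset.card_le_three fun θ => by
    simpa using hKd θ
  rw [← le_bot_iff]
  -- one step is gained since the derived subgroup lies in `L`
  have h2 : derivedSeries G 2 ≤ (derivedSeries K 2).map K.subtype := by
    rw [derivedSeries_succ G 1, derivedSeries_succ K 1, Subgroup.map_commutator, ← hLeq]
    exact Subgroup.commutator_mono hG1 hG1
  have h3 : derivedSeries G 3 ≤ (derivedSeries K 3).map K.subtype := by
    rw [derivedSeries_succ G 2, derivedSeries_succ K 2, Subgroup.map_commutator]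
    exact Subgroup.commutator_mono h2 h2
  rw [hK3, Subgroup.map_bot] at h3
  exact h3

end Cfsg.Agent.Chars.ThreeDeg
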