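import Cfsg.Agent.Chars.Induced
import Cfsg.Agent.Chars.Eigen
import Cfsg.Agent.Chars.Linear
import Cfsg.Agent.Chars2.Clifford
import Cfsg.Agent.Blocks.Orth
import Mathlib.Algebra.Polynomial.Roots

/-!
Products of irreducible characters of two coprime degrees when there are only three degrees.
-/

set_option autoImplicit false
set_option linter.style.haveILetI false
set_option linter.unusedSectionVars false

open Cfsg Cfsg.Agent
open scoped ComplexConjugate

namespace Cfsg.Agent.Chars.ThreeDeg

universe u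

variable {G : Type u} [Group G] [Fintype G]

/-- The three degrees are `1`, `m`, `n`, the last two coprime. -/
structure Setup (G : Type u) [Group G] (m n : ℕ) : Prop where
  m_gt : 1 < m
  n_gt : 1 < n
  cop : m.Coprime n
  cd : ∀ χ : IrrCharacter G, charDegree (χ : G → ℂ) = 1 ∨ charDegree (χ : G → ℂ) = m ∨
    charDegree (χ : G → ℂ) = n

theorem Setup.symm {m n : ℕ} (h : Setup G m n) : Setup G n m :=
  ⟨h.n_gt, h.m_gt, h.cop.symm, fun χ => by rcases h.cd χ with h1 | h1 | h1 <;> simp [h1]⟩

theorem deg_eq (χ : IrrCharacter G) : (χ : G → ℂ) 1 = (charDegree (χ : G → ℂ) : ℂ) :=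
  (Blocks.charDegree_eq χ.2).1

theorem isCharacter_conj' {ψ : G → ℂ} (h : IsCharacter G ψ) :
    IsCharacter G (fun g => conj (ψ g)) := isCharacter_star h

theorem classInner_mul_left (φ ψ γ : G → ℂ) :
    classInner (φ * ψ) γ = classInner φ (γ * fun g => conj (ψ g)) := by
  rw [classInner_def, classInner_def]
  congr 1
  refine Finset.sum_congr rfl fun g _ => ?_
  simp only [Pi.mul_apply, map_mul, Complex.conj_conj]
  ring

theorem classInner_mul_right (φ ψ γ : G → ℂ) :
    classInner φ (γ * ψ) = classInner (φ * fun g => conj (ψ g)) γ := by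
  rw [classInner_def, classInner_def]
  congr 1
  refine Finset.sum_congr rfl fun g _ => ?_
  simp only [Pi.mul_apply, map_mul]
  ring

/-- A product of characters of degrees `m` and `n` has constituents of one nonlinear degree. -/
theorem dichotomy {m n : ℕ} (h : Setup G m n) (φ : IrrCharacter G) {ψ : G → ℂ}
    (hψ : IsIrrCharacter G ψ) (hφd : charDegree (φ : G → ℂ) = m) (hψd : ψ 1 = (n : ℂ))
    (γ : IrrCharacter G) (hγd : charDegree (γ : G → ℂ) = m)
    (hγ : classInner ((φ : G → ℂ) * ψ) (γ : G → ℂ) ≠ 0)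
    (δ : IrrCharacter G) (hδ : classInner ((φ : G → ℂ) * ψ) (δ : G → ℂ) ≠ 0) :
    charDegree (δ : G → ℂ) = m := by
  classical
  have hpc : IsCharacter G ((φ : G → ℂ) * ψ) :=
    isCharacter_mul (irr_isCharacter φ) (isCharacter_of_isIrr hψ)
  obtain ⟨c, hc, hsum⟩ := exists_eq_sum_nsmul hpc
  have hlin : ∀ l : IrrCharacter G, charDegree (l : G → ℂ) = 1 → c l = 0 := by
    intro l hl
    by_contra h0
    have h1 : classInner ((φ : G → ℂ) * ψ) (l : G → ℂ) ≠ 0 := by
      rw [hc l]; exact_mod_cast h0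
    obtain ⟨f, hf⟩ := exists_hom_of_degree_one (irr_isCharacter l) (by
      rw [deg_eq, hl, Nat.cast_one])
    rw [classInner_mul_left] at h1
    have hstar : IsIrrCharacter G (fun g => conj (ψ g)) := isIrrCharacter_star hψ
    have hirr : IsIrrCharacter G ((l : G → ℂ) * fun g => conj (ψ g)) := by
      have h3 := isIrrCharacter_mul_hom hstar f
      rw [show ((l : G → ℂ) * fun g => conj (ψ g)) = fun g => (f g : ℂ) * conj (ψ g) by
        funext g; rw [Pi.mul_apply, hf]]
      exact h3
    rw [classInner_irr φ.2 hirr] at h1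
    split_ifs at h1 with h2
    · have h4 := congrFun h2 1
      rw [deg_eq, hφd, Pi.mul_apply, deg_eq, hl, hψd, Complex.conj_natCast, Nat.cast_one,
        one_mul] at h4
      have h5 : m = n := by exact_mod_cast h4
      have := h.cop
      rw [h5, Nat.coprime_self] at this
      have := h.n_gt
      omega
    · exact h1 rfl
  have hd : ∑ γ, c γ * charDegree (γ : G → ℂ) = m * n := by
    have h1 := congrFun hsum 1
    rw [Pi.mul_apply, deg_eq, hφd, hψd, Finset.sum_apply] at h1
    simp only [Pi.smul_apply, nsmul_eq_mul, deg_eq] at h1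
    exact_mod_cast h1.symm
  have hsplit : ∀ γ : IrrCharacter G, c γ * charDegree (γ : G → ℂ) =
      m * (if charDegree (γ : G → ℂ) = m then c γ else 0) +
        n * (if charDegree (γ : G → ℂ) = n then c γ else 0) := by
    intro γ
    have hmn : m ≠ n := fun e => by
      have := h.cop
      rw [e, Nat.coprime_self] at this
      have := h.n_gt
      omega
    rcases h.cd γ with h1 | h1 | h1
    · rw [hlin γ h1]; simp
    · rw [h1, if_pos rfl, if_neg hmn]; ring
    · rw [h1, if_pos rfl, if_neg (Ne.symm hmn)]; ring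
  rw [Finset.sum_congr rfl fun γ _ => hsplit γ, Finset.sum_add_distrib, ← Finset.mul_sum,
    ← Finset.mul_sum] at hd
  set v := ∑ γ : IrrCharacter G, if charDegree (γ : G → ℂ) = m then c γ else 0 with hv
  set w := ∑ γ : IrrCharacter G, if charDegree (γ : G → ℂ) = n then c γ else 0 with hw
  have hcγ : c γ ≠ 0 := fun h0 => hγ (by rw [hc γ, h0, Nat.cast_zero])
  have hcδ : c δ ≠ 0 := fun h0 => hδ (by rw [hc δ, h0, Nat.cast_zero])
  have hv0 : c γ ≤ v := by
    rw [hv]
    refine le_trans (le_of_eq ?_) (Finset.single_le_sum (fun x _ => Nat.zero_le _) (Finset.mem_univ γ))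
    rw [if_pos hγd]
  have hdvd : n ∣ v := by
    have h1 : n ∣ m * v := by
      have h2 : n ∣ m * v + n * w := hd ▸ dvd_mul_left n m
      exact (Nat.dvd_add_left (dvd_mul_right n w)).1 h2
    exact h.cop.symm.dvd_of_dvd_mul_left h1
  have hvn : m * n ≤ m * v := Nat.mul_le_mul_left m (Nat.le_of_dvd (by omega) hdvd)
  rcases h.cd δ with h1 | h1 | h1
  · exact absurd (hlin δ h1) hcδ
  · exact h1
  · exfalso
    have hw0 : c δ ≤ w := by
      rw [hw]
      refine le_trans (le_of_eq ?_) (Finset.single_le_sum (fun x _ => Nat.zero_le _) (Finset.mem_univ δ))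
      rw [if_pos h1]
    have hpos : 0 < n * w := Nat.mul_pos (by have := h.n_gt; omega) (by omega)
    omega

/-- No product over a fixed-point free character of degree `n` has a constituent of degree `m`. -/
theorem no_m_constituent {m n : ℕ} (h : Setup G m n) (ψ : IrrCharacter G)
    (hψd : charDegree (ψ : G → ℂ) = n)
    (hz : ∀ g : G, ‖(ψ : G → ℂ) g‖ = n → g = 1)
    (χ : IrrCharacter G) (hχd : charDegree (χ : G → ℂ) = m)
    (γ : IrrCharacter G) (hγd : charDegree (γ : G → ℂ) = m) :
    classInner ((χ : G → ℂ) * (ψ : G → ℂ)) (γ : G → ℂ) = 0 := by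
  classical
  by_contra hγ
  set ψb : G → ℂ := fun g => conj ((ψ : G → ℂ) g) with hψb
  have hψ1 : (ψ : G → ℂ) 1 = (n : ℂ) := by rw [deg_eq, hψd]
  have hψb1 : ψb 1 = (n : ℂ) := by rw [hψb]; simp [hψ1]
  set ρ : G → ℂ := (ψ : G → ℂ) * ψb with hρ
  let Pm : IrrCharacter G → Prop := fun φ => charDegree (φ : G → ℂ) = m ∧
    ∀ δ : IrrCharacter G, classInner ((φ : G → ℂ) * (ψ : G → ℂ)) (δ : G → ℂ) ≠ 0 →
      charDegree (δ : G → ℂ) = m
  have hstep : ∀ φ, Pm φ → ∀ η : IrrCharacter G,
      classInner ((φ : G → ℂ) * ρ) (η : G → ℂ) ≠ 0 → Pm η := by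
    intro φ hφ η hη
    rw [hρ, ← mul_assoc, classInner_mul_left] at hη
    simp only [hψb, Complex.conj_conj] at hη
    obtain ⟨δ, hδ1, hδ2⟩ : ∃ δ : IrrCharacter G,
        classInner ((φ : G → ℂ) * (ψ : G → ℂ)) (δ : G → ℂ) ≠ 0 ∧
          classInner (δ : G → ℂ) ((η : G → ℂ) * (ψ : G → ℂ)) ≠ 0 := by
      by_contra hno
      push Not at hno
      refine hη ?_
      rw [classInner_eq_sum (isClassFunction_of_isCharacter
        (isCharacter_mul (irr_isCharacter φ) (irr_isCharacter ψ)))]
      refine Finset.sum_eq_zero fun δ _ => ?_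
      by_cases h0 : classInner ((φ : G → ℂ) * (ψ : G → ℂ)) (δ : G → ℂ) = 0
      · rw [h0, zero_mul]
      · rw [hno δ h0, mul_zero]
    have hδd := hφ.2 δ hδ1
    have hback : classInner ((δ : G → ℂ) * ψb) (φ : G → ℂ) ≠ 0 := by
      rw [classInner_mul_left, ← classInner_conj_symm]
      simpa [hψb, Complex.conj_conj] using hδ1
    have hηc : classInner ((δ : G → ℂ) * ψb) (η : G → ℂ) ≠ 0 := by
      rw [classInner_mul_left]
      simpa [hψb, Complex.conj_conj] using hδ2
    have hηd : charDegree (η : G → ℂ) = m :=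
      dichotomy h δ (isIrrCharacter_star ψ.2) hδd hψb1 φ hφ.1 hback η hηc
    refine ⟨hηd, fun ε hε => dichotomy h η ψ.2 hηd hψ1 δ hδd ?_ ε hε⟩
    rw [← classInner_conj_symm]
    simpa using hδ2
  have hχP : Pm χ := ⟨hχd, fun δ hδ => dichotomy h χ ψ.2 hχd hψ1 γ hγd hγ δ hδ⟩
  have hρc : IsCharacter G ρ :=
    isCharacter_mul (irr_isCharacter ψ) (isCharacter_star (irr_isCharacter ψ))
  have hall : ∀ k : ℕ, ∀ η : IrrCharacter G,
      classInner ((χ : G → ℂ) * ρ ^ k) (η : G → ℂ) ≠ 0 → Pm η := by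
    intro k
    induction k with
    | zero =>
      intro η hη
      rw [pow_zero, mul_one, classInner_irrCharacter] at hη
      split_ifs at hη with h1
      · exact h1 ▸ hχP
      · exact absurd rfl hη
    | succ k ih =>
      intro η hη
      rw [pow_succ, ← mul_assoc, classInner_mul_left,
        classInner_eq_sum (isClassFunction_of_isCharacter
          (isCharacter_mul (irr_isCharacter χ) (isCharacter_pow hρc k)))] at hη
      obtain ⟨φ, -, hφ⟩ := Finset.exists_ne_zero_of_sum_ne_zero hη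
      refine hstep φ (ih φ (left_ne_zero_of_mul hφ)) η ?_
      rw [classInner_mul_left]
      exact right_ne_zero_of_mul hφ
  have hsum : ∀ k : ℕ, ∑ g : G, (χ : G → ℂ) g * ρ g ^ k = 0 := by
    intro k
    have h1 : classInner ((χ : G → ℂ) * ρ ^ k) (fun _ => (1 : ℂ)) = 0 := by
      by_contra h0
      have := (hall k ⟨_, isIrrCharacter_one⟩ h0).1
      simp [charDegree] at this
      have := h.m_gt
      omega
    rw [classInner_def, mul_eq_zero] at h1
    rcases h1 with h1 | h1
    · exact absurd (inv_eq_zero.1 h1) card_ne_zero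
    · simpa using h1
  -- a polynomial isolating the identity
  let P : Polynomial ℂ := ∏ v ∈ (Finset.univ.image ρ).erase (ρ 1), (Polynomial.X - Polynomial.C v)
  have hP1 : P.eval (ρ 1) ≠ 0 := by
    simp only [P, Polynomial.eval_prod, Polynomial.eval_sub, Polynomial.eval_X, Polynomial.eval_C]
    exact Finset.prod_ne_zero_iff.2 fun v hv => sub_ne_zero.2 (Finset.ne_of_mem_erase hv).symm
  have hP0 : ∀ g : G, g ≠ 1 → P.eval (ρ g) = 0 := by
    intro g hg
    simp only [P, Polynomial.eval_prod, Polynomial.eval_sub, Polynomial.eval_X, Polynomial.eval_C]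
    refine Finset.prod_eq_zero (i := ρ g) (Finset.mem_erase.2
      ⟨fun e => hg (hz g ?_), Finset.mem_image.2 ⟨g, Finset.mem_univ g, rfl⟩⟩) (sub_self _)
    have e' : ρ g = ρ 1 := e
    simp only [hρ, hψb, Pi.mul_apply, Complex.mul_conj] at e'
    have e2 : Complex.normSq ((ψ : G → ℂ) g) = Complex.normSq ((ψ : G → ℂ) 1) := by
      exact_mod_cast e'
    rw [hψ1, Complex.normSq_natCast, Complex.normSq_eq_norm_sq, ← sq] at e2
    exact (pow_left_inj₀ (norm_nonneg _) (Nat.cast_nonneg n) two_ne_zero).1 e2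
  have h0 : ∑ g : G, (χ : G → ℂ) g * P.eval (ρ g) = 0 := by
    simp only [Polynomial.eval_eq_sum_range, Finset.mul_sum]
    rw [Finset.sum_comm]
    refine Finset.sum_eq_zero fun i _ => ?_
    rw [Finset.sum_congr rfl fun g _ => mul_left_comm _ _ _, ← Finset.mul_sum, hsum i, mul_zero]
  rw [Finset.sum_eq_single 1 (fun g _ hg => by rw [hP0 g hg, mul_zero]) (by simp)] at h0
  rcases mul_eq_zero.1 h0 with h1 | h1
  · exact irr_apply_one_ne_zero χ.2 h1
  · exact hP1 h1

end Cfsg.Agent.Chars.ThreeDeg
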