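import Cfsg.Agent.Chars.ThreeDegProducts
import Cfsg.Agent.Chars.PResidual
import Cfsg.Agent.Chars.Garrison
import Cfsg.Agent.Blocks.PPrimeKer
import Cfsg.Agent.Chars2.DegreeInherit
import Cfsg.Agent.S4455
import Mathlib.GroupTheory.Solvable

/-!
A group with three coprime degrees whose proper quotients are solvable is solvable.
-/

set_option autoImplicit false
set_option linter.style.haveILetI false
set_option linter.unusedSectionVars false

open Cfsg Cfsg.Agent
open scoped ComplexConjugate commutatorElement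

namespace Cfsg.Agent.Chars.ThreeDeg

universe u

variable {G : Type u} [Group G] [Fintype G]

/-- The derived series stabilises at a perfect normal subgroup below all solvable residuals. -/
theorem exists_perfect_core (hns : ¬ Group.IsSolvable G) :
    ∃ R : Subgroup G, R.Normal ∧ R ≠ ⊥ ∧ ⁅R, R⁆ = R ∧
      ∀ M : Subgroup G, M.Normal → (∀ (_ : M.Normal), Group.IsSolvable (G ⧸ M)) → R ≤ M := by
  classical
  have hex : ∃ c, ∃ k, Nat.card (derivedSeries G k) = c := ⟨_, 0, rfl⟩
  obtain ⟨k, hk⟩ := Nat.find_spec hex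
  have hstab : ∀ i, derivedSeries G (k + i) = derivedSeries G k := fun i =>
    Subgroup.eq_of_le_of_card_ge (derivedSeries_antitone G (Nat.le_add_right k i))
      (hk.trans_le (Nat.find_min' hex ⟨k + i, rfl⟩))
  refine ⟨derivedSeries G k, derivedSeries_normal G k, fun h => hns ⟨⟨k, h⟩⟩, ?_, fun M hM hsol => ?_⟩
  · rw [← derivedSeries_succ]; exact hstab 1
  · haveI := hM
    obtain ⟨j, hj⟩ := (hsol hM).solvable
    rw [← hstab j]
    refine le_trans (derivedSeries_antitone G (Nat.le_add_left j k)) ?_
    have h1 := map_derivedSeries_le_derivedSeries (QuotientGroup.mk' M) j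
    rw [hj, le_bot_iff, Subgroup.map_eq_bot_iff, QuotientGroup.ker_mk'] at h1
    exact h1

variable {R : Subgroup G}

/-- A faithful irreducible character of a group with such a core is scalar only at the identity. -/
theorem eq_one_of_norm_eq (hR : ⁅R, R⁆ = R) (hR0 : R ≠ ⊥)
    (hmin : ∀ M : Subgroup G, M.Normal → M ≠ ⊥ → R ≤ M) (ψ : IrrCharacter G)
    (hf : ∀ g : G, (ψ : G → ℂ) g = (ψ : G → ℂ) 1 → g = 1) {n : ℕ}
    (hn : charDegree (ψ : G → ℂ) = n) (g : G) (hg : ‖(ψ : G → ℂ) g‖ = n) : g = 1 := by
  classical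
  have hψ1 : (ψ : G → ℂ) 1 = (n : ℂ) := by rw [deg_eq, hn]
  have hρc : IsCharacter G ((ψ : G → ℂ) * fun x => conj ((ψ : G → ℂ) x)) :=
    isCharacter_mul (irr_isCharacter ψ) (isCharacter_star (irr_isCharacter ψ))
  haveI := charKer_normal hρc
  have hmem : ∀ x : G, x ∈ charKer hρc ↔ ‖(ψ : G → ℂ) x‖ = n := by
    intro x
    rw [mem_charKer]
    simp only [Pi.mul_apply, Complex.mul_conj, hψ1, Complex.normSq_natCast,
      Complex.normSq_eq_norm_sq, Complex.ofReal_inj, ← sq]
    rw [Complex.norm_natCast]
    exact pow_left_inj₀ (norm_nonneg ((ψ : G → ℂ) x)) (Nat.cast_nonneg n) two_ne_zero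
  by_contra hne
  have hRM : R ≤ charKer hρc := hmin _ inferInstance fun h => hne (by
    have := (hmem g).2 hg
    rw [h, Subgroup.mem_bot] at this
    exact this)
  obtain ⟨d, ρ, hρ, hρe⟩ := ψ.2
  haveI := hρ
  have hd : (d : ℂ) = n := by
    rw [← hψ1, ← hρe, Representation.char_one, Module.finrank_fin_fun]
  have hsc : ∀ x ∈ R, ∃ c : ℂ, ρ x = c • (1 : Module.End ℂ (Fin d → ℂ)) := fun x hx => by
    refine (rep_norm_char_eq_iff ρ x).1 ?_
    rw [hρe, (hmem x).1 (hRM hx), Module.finrank_fin_fun]
    exact_mod_cast hd.symm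
  refine hR0 (le_bot_iff.1 ?_)
  rw [← hR, Subgroup.commutator_le]
  intro a ha b hb
  rw [Subgroup.mem_bot]
  refine hf _ ?_
  obtain ⟨c, hc⟩ := hsc a ha
  have h1 : ρ a * ρ b = ρ b * ρ a := by rw [hc]; simp [smul_mul_assoc, mul_smul_comm]
  have h2 : ρ ⁅a, b⁆ = 1 := by
    rw [commutatorElement_def, map_mul, map_mul, map_mul, h1, mul_assoc (ρ b), ← map_mul,
      mul_inv_cancel, map_one, mul_one, ← map_mul, mul_inv_cancel, map_one]
  rw [← hρe, Representation.character, h2, Representation.char_one, LinearMap.trace_one]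

/-- The main step. -/
theorem isSolvable_of_coprime {m n : ℕ} (h : Setup G m n)
    (hq : ∀ M : Subgroup G, ∀ (_ : M.Normal), M ≠ ⊥ → Group.IsSolvable (G ⧸ M)) :
    Group.IsSolvable G := by
  classical
  by_contra hns
  obtain ⟨R, hRn, hR0, hR, hRmin⟩ := exists_perfect_core hns
  haveI := hRn
  have hmin : ∀ M : Subgroup G, M.Normal → M ≠ ⊥ → R ≤ M := fun M hM h0 =>
    hRmin M hM fun hM' => hq M hM' h0
  -- characters nontrivial on the core are faithful
  have hfaith : ∀ χ : IrrCharacter G, (∃ x ∈ R, (χ : G → ℂ) x ≠ (χ : G → ℂ) 1) →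
      ∀ g : G, (χ : G → ℂ) g = (χ : G → ℂ) 1 → g = 1 := by
    rintro χ ⟨x, hx, hxne⟩ g hg
    by_contra hne
    refine hxne ?_
    exact hmin (charKer (irr_isCharacter χ)) (charKer_normal _) (fun h0 => hne (by
      have h1 : g ∈ charKer (irr_isCharacter χ) := hg
      rw [h0, Subgroup.mem_bot] at h1
      exact h1)) hx
  -- and of one degree
  have hnot : ¬ ((∃ χ : IrrCharacter G, charDegree (χ : G → ℂ) = m ∧
      ∃ x ∈ R, (χ : G → ℂ) x ≠ (χ : G → ℂ) 1) ∧ ∃ ψ : IrrCharacter G,
      charDegree (ψ : G → ℂ) = n ∧ ∃ x ∈ R, (ψ : G → ℂ) x ≠ (ψ : G → ℂ) 1) := by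
    rintro ⟨⟨χ, hχd, hχR⟩, ψ, hψd, hψR⟩
    have hχz := eq_one_of_norm_eq hR hR0 hmin χ (hfaith χ hχR) hχd
    have hψz := eq_one_of_norm_eq hR hR0 hmin ψ (hfaith ψ hψR) hψd
    have hpc : IsCharacter G ((χ : G → ℂ) * (ψ : G → ℂ)) :=
      isCharacter_mul (irr_isCharacter χ) (irr_isCharacter ψ)
    obtain ⟨γ, hγ⟩ : ∃ γ : IrrCharacter G,
        classInner ((χ : G → ℂ) * (ψ : G → ℂ)) (γ : G → ℂ) ≠ 0 := by
      by_contra hall
      push Not at hall
      have h1 := Chars2.apply_eq_sum (isClassFunction_of_isCharacter hpc) 1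
      simp only [hall, zero_mul, Finset.sum_const_zero, Pi.mul_apply] at h1
      rcases mul_eq_zero.1 h1 with h1 | h1
      · exact irr_apply_one_ne_zero χ.2 h1
      · exact irr_apply_one_ne_zero ψ.2 h1
    rcases h.cd γ with hγd | hγd | hγd
    · obtain ⟨f, hf⟩ := exists_hom_of_degree_one (irr_isCharacter γ) (by
        rw [deg_eq, hγd, Nat.cast_one])
      rw [classInner_mul_left] at hγ
      have hirr : IsIrrCharacter G ((γ : G → ℂ) * fun g => conj ((ψ : G → ℂ) g)) := by
        rw [show ((γ : G → ℂ) * fun g => conj ((ψ : G → ℂ) g)) =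
          fun g => (f g : ℂ) * conj ((ψ : G → ℂ) g) by funext g; rw [Pi.mul_apply, hf]]
        exact isIrrCharacter_mul_hom (isIrrCharacter_star ψ.2) f
      rw [classInner_irr χ.2 hirr] at hγ
      split_ifs at hγ with h2
      · have h4 := congrFun h2 1
        simp only [Pi.mul_apply, deg_eq, hχd, hψd, hγd, Complex.conj_natCast, Nat.cast_one,
          one_mul] at h4
        have h5 : m = n := by exact_mod_cast h4
        have := h.cop
        rw [h5, Nat.coprime_self] at this
        have := h.n_gt
        omega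
      · exact hγ rfl
    · exact hγ (no_m_constituent h ψ hψd hψz χ hχd γ hγd)
    · rw [mul_comm] at hγ
      exact hγ (no_m_constituent h.symm χ hχd hχz ψ hψd γ hγd)
  -- so assume the degree is `n`
  obtain ⟨d₀, hd₀⟩ : ∃ d₀, ∀ χ : IrrCharacter G, (∃ x ∈ R, (χ : G → ℂ) x ≠ (χ : G → ℂ) 1) →
      charDegree (χ : G → ℂ) = d₀ := by
    have hlin : ∀ χ : IrrCharacter G, (∃ x ∈ R, (χ : G → ℂ) x ≠ (χ : G → ℂ) 1) →
        charDegree (χ : G → ℂ) ≠ 1 := by
      rintro χ ⟨x, hx, hxne⟩ h1
      refine hxne ?_
      obtain ⟨f, hf⟩ := exists_hom_of_degree_one (irr_isCharacter χ) (by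
        rw [deg_eq, h1, Nat.cast_one])
      rw [hf]
      have : x ∈ commutator G := by
        have h2 : R ≤ commutator G := by
          rw [← hR]; exact Subgroup.commutator_mono le_top le_top
        exact h2 hx
      have h3 : f x = 1 := Abelianization.commutator_subset_ker f this
      simp [h3]
    by_cases hm : ∃ χ : IrrCharacter G, charDegree (χ : G → ℂ) = m ∧
        ∃ x ∈ R, (χ : G → ℂ) x ≠ (χ : G → ℂ) 1
    · refine ⟨m, fun χ hχ => ?_⟩
      rcases h.cd χ with h1 | h1 | h1
      · exact absurd h1 (hlin χ hχ)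
      · exact h1
      · exact absurd ⟨hm, χ, h1, hχ⟩ hnot
    · refine ⟨n, fun χ hχ => ?_⟩
      rcases h.cd χ with h1 | h1 | h1
      · exact absurd h1 (hlin χ hχ)
      · exact absurd ⟨χ, h1, hχ⟩ hm
      · exact h1
  -- a prime dividing this degree and the order of the core
  obtain ⟨θ, hθ⟩ : ∃ θ : IrrCharacter R, charDegree (θ : R → ℂ) ≠ 1 := by
    by_contra hall
    push Not at hall
    refine hR0 (le_bot_iff.1 ?_)
    rw [← hR, Subgroup.commutator_le]
    intro a ha b hb
    rw [Subgroup.mem_bot, commutatorElement_eq_one_iff_mul_comm]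
    exact congrArg Subtype.val (Chars2.comm_of_degree_one hall ⟨a, ha⟩ ⟨b, hb⟩)
  haveI : Fintype R := Fintype.ofFinite _
  obtain ⟨p, hp, hpθ⟩ := Nat.exists_prime_and_dvd hθ
  haveI := Fact.mk hp
  have hpR : p ∣ Nat.card R := by
    obtain ⟨d, -, hd, hdd⟩ := irr_degree_dvd_card θ.2
    rw [deg_eq] at hd
    exact hpθ.trans ((show charDegree (θ : R → ℂ) = d by exact_mod_cast hd) ▸ hdd)
  have hpd : p ∣ d₀ := by
    obtain ⟨χ, hχ⟩ : ∃ χ : IrrCharacter G,
        classInner (fun x : R => (χ : G → ℂ) x) (θ : R → ℂ) ≠ 0 := by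
      by_contra hall
      push Not at hall
      have h1 := congrFun (eq_sum_classInner (isClassFunction_indFun R (θ : R → ℂ))) 1
      rw [Finset.sum_apply, Finset.sum_eq_zero (fun χ _ => ?_), indFun_apply_one] at h1
      · exact mul_ne_zero (Nat.cast_ne_zero.2 R.index_ne_zero_of_finite)
          (irr_apply_one_ne_zero θ.2) h1
      · rw [classInner_indFun R _ (isClassFunction_irr χ), ← classInner_conj_symm, hall χ,
          map_zero, Pi.smul_apply, zero_smul]
    have hdeg := Chars2.clifford_degree χ.2 θ.2 hχ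
    obtain ⟨e, he⟩ := exists_classInner_eq_nat (isCharacter_restrict (irr_isCharacter χ) R)
      (irr_isCharacter θ)
    rw [he, deg_eq, deg_eq] at hdeg
    have hdeg' : charDegree (χ : G → ℂ) =
        (Chars2.inertiaSub (θ : R → ℂ)).index * e * charDegree (θ : R → ℂ) := by
      exact_mod_cast hdeg
    have hdvd : p ∣ charDegree (χ : G → ℂ) := hdeg' ▸ dvd_mul_of_dvd_right hpθ _
    suffices hnt : ∃ x ∈ R, (χ : G → ℂ) x ≠ (χ : G → ℂ) 1 from hd₀ χ hnt ▸ hdvd
    by_contra hall
    push Not at hall
    have hres : IsCharacter R (fun x : R => (χ : G → ℂ) x) :=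
      isCharacter_restrict (irr_isCharacter χ) R
    have htriv : ∀ x : R, (θ : R → ℂ) x = (θ : R → ℂ) 1 := fun x =>
      apply_eq_of_constituent hres θ.2 hχ (hall x x.2)
    refine hθ ?_
    have h1 := sum_apply_one_mul (G := R)
    obtain ⟨d, hd0, hd⟩ := exists_irr_apply_one_eq θ.2
    have h2 := classInner_self_irr θ.2
    rw [classInner_def] at h2
    simp only [htriv, hd, Complex.conj_natCast, Finset.sum_const, Finset.card_univ, nsmul_eq_mul,
      ← Nat.card_eq_fintype_card] at h2
    rw [← mul_assoc, inv_mul_cancel₀ card_ne_zero, one_mul] at h2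
    have h3 : d * d = 1 := by exact_mod_cast h2
    have h4 : d = 1 := Nat.eq_one_of_mul_eq_one_right h3
    simp [charDegree, hd, h4]
  -- the Sylow trick
  obtain ⟨P⟩ : Nonempty (Sylow p G) := inferInstance
  set H := R ⊔ (P : Subgroup G) with hH
  haveI : Fintype H := Fintype.ofFinite _
  have hHidx : ¬ p ∣ H.index := fun hd =>
    P.not_dvd_index (hd.trans (Subgroup.index_dvd_of_le le_sup_right))
  set R' : Subgroup H := R.subgroupOf H with hR'
  have hPH : (P : Subgroup G) ≤ H := le_sup_right
  have hQ : IsPGroup p (H ⧸ R') := by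
    refine P.isPGroup'.of_surjective
      ((QuotientGroup.mk' R').comp (Subgroup.inclusion hPH)) fun x => ?_
    obtain ⟨⟨g, hg⟩, rfl⟩ := QuotientGroup.mk_surjective x
    obtain ⟨r, hr, a, ha, rfl⟩ := Subgroup.mem_sup_of_normal_left.1 hg
    refine ⟨⟨a, ha⟩, QuotientGroup.eq.2 ?_⟩
    rw [hR', Subgroup.mem_subgroupOf]
    simpa [mul_assoc] using hRn.conj_mem' r hr a
  have hres : pResidual p H = R' := by
    refine le_antisymm ((Subgroup.closure_le _).2 fun g hg => ?_) ?_
    · rw [SetLike.mem_coe, ← QuotientGroup.eq_one_iff, ← orderOf_eq_one_iff]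
      obtain ⟨j, hj⟩ := (IsPGroup.iff_orderOf.1 hQ) (g : H ⧸ R')
      refine Nat.eq_one_of_dvd_coprimes (Nat.Coprime.pow_left j hg.symm) (dvd_of_eq hj) ?_
      exact orderOf_map_dvd (QuotientGroup.mk' R') g
    · haveI : (pResidual p H).Normal := inferInstance
      obtain ⟨k, hk⟩ := Core.index_pResidual p H
      haveI : Group.IsNilpotent (H ⧸ pResidual p H) :=
        (IsPGroup.of_card (p := p) (n := k) (by rw [← Subgroup.index_eq_card, hk])).isNilpotent
      obtain ⟨j, hj⟩ := (inferInstance : Group.IsSolvable (H ⧸ pResidual p H)).solvable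
      have hperf : ∀ i, R' ≤ derivedSeries H i := by
        intro i
        induction i with
        | zero => simp
        | succ i ih =>
          rw [derivedSeries_succ]
          refine le_trans ?_ (Subgroup.commutator_mono ih ih)
          intro x hx
          have hx' : (x : G) ∈ ⁅R'.map H.subtype, R'.map H.subtype⁆ := by
            rw [hR', Subgroup.subgroupOf_map_subtype, inf_eq_left.2 le_sup_left, hR]
            exact Subgroup.mem_subgroupOf.1 hx
          rw [← Subgroup.map_commutator] at hx'
          obtain ⟨y, hy, hyx⟩ := hx'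
          rwa [← show y = x from Subtype.ext hyx]
      have h1 := map_derivedSeries_le_derivedSeries (QuotientGroup.mk' (pResidual p H)) j
      rw [hj, le_bot_iff, Subgroup.map_eq_bot_iff, QuotientGroup.ker_mk'] at h1
      exact (hperf j).trans h1
  obtain ⟨η, hηd, x, hxR, hxne⟩ : ∃ η : IrrCharacter H, ¬ p ∣ charDegree (η : H → ℂ) ∧
      ∃ x ∈ R', (η : H → ℂ) x ≠ (η : H → ℂ) 1 := by
    by_contra hno
    push Not at hno
    have hset : {χ : IrrCharacter H | ¬ p ∣ charDegree (χ : H → ℂ) ∧
        ¬ p ∣ detOrder (χ : H → ℂ)} = {Blocks.oneChar H} := by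
      ext χ
      constructor
      · rintro ⟨hd, ho⟩
        -- trivial on the core and irreducible there, hence linear
        have hr := (restrict_pPrime (p := p) χ.2 hd).1
        rw [hres] at hr
        have htriv : ∀ x : R', (χ : H → ℂ) x = (χ : H → ℂ) 1 := fun x => hno χ hd x x.2
        have hχ1 : (χ : H → ℂ) 1 = 1 := by
          haveI : Fintype R' := Fintype.ofFinite _
          have h2 := classInner_self_irr hr
          obtain ⟨d, hd0, hd1⟩ := exists_irr_apply_one_eq χ.2
          rw [classInner_def] at h2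
          simp only [htriv, hd1, Complex.conj_natCast, Finset.sum_const, Finset.card_univ,
            nsmul_eq_mul, ← Nat.card_eq_fintype_card] at h2
          rw [← mul_assoc, inv_mul_cancel₀ card_ne_zero, one_mul] at h2
          have h3 : d * d = 1 := by exact_mod_cast h2
          rw [hd1, Nat.eq_one_of_mul_eq_one_right h3, Nat.cast_one]
        obtain ⟨f, hf⟩ := Chars2.exists_linFun (χ : H → ℂ) ⟨irr_isCharacter χ, hχ1⟩
        have hf1 : f = 1 := by
          have hker : R' ≤ f.ker := fun x hx => by
            have h1 := htriv ⟨x, hx⟩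
            rw [← hf, Chars2.linFun_apply, Chars2.linFun_apply, map_one] at h1
            exact Units.ext h1
          suffices h8 : orderOf f = 1 by
            have h9 := pow_orderOf_eq_one f
            rwa [h8, pow_one] at h9
          have ho' : ¬ p ∣ orderOf f := by
            obtain ⟨d, σ, hσ, hσe⟩ := χ.2
            haveI := hσ
            have : detOrder (χ : H → ℂ) = orderOf f := by
              rw [← hσe, Chars2.detOrder_eq σ _ rfl]
              congr 1
              refine MonoidHom.ext fun g => Units.ext ?_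
              have hd' : d = 1 := by
                have h5 : (χ : H → ℂ) 1 = (d : ℂ) := by
                  rw [← hσe, Representation.char_one, Module.finrank_fin_fun]
                rw [hχ1] at h5
                exact_mod_cast h5.symm
              subst hd'
              rw [Chars2.detHom_apply, ← Chars2.trace_eq_det_one]
              have h6 := congrFun hσe g
              rw [← hf, Chars2.linFun_apply] at h6
              exact h6
            rwa [this] at ho
          obtain ⟨k, hk⟩ := IsPGroup.iff_card.1 hQ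
          have hpow : f ^ (p ^ k) = 1 := by
            refine MonoidHom.ext fun g => ?_
            rw [MonoidHom.pow_apply, ← map_pow, MonoidHom.one_apply]
            refine MonoidHom.mem_ker.1 (hker ?_)
            rw [← QuotientGroup.eq_one_iff, QuotientGroup.mk_pow, ← hk, pow_card_eq_one']
          exact Nat.eq_one_of_dvd_coprimes
            (Nat.Coprime.pow_left k ((hp.coprime_iff_not_dvd).2 ho'))
            (orderOf_dvd_of_pow_eq_one hpow) dvd_rfl
        refine Subtype.ext (hf.symm.trans ?_)
        funext g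
        rw [hf1, Chars2.linFun_apply]
        simp [Blocks.coe_oneChar]
      · rintro rfl
        refine ⟨?_, ?_⟩
        · simp [Blocks.coe_oneChar, charDegree, hp.one_lt.ne']
        · have h1 : ((Blocks.oneChar H : IrrCharacter H) : H → ℂ) = Chars2.linFun (1 : H →* ℂˣ) := by
            funext g; simp [Blocks.coe_oneChar]
          obtain ⟨d, σ, hσ, hσe⟩ := (Blocks.oneChar H).2
          haveI := hσ
          rw [← hσe, Chars2.detOrder_eq σ _ rfl]
          have hd' : d = 1 := by
            have h5 : ((Blocks.oneChar H : IrrCharacter H) : H → ℂ) 1 = (d : ℂ) := by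
              rw [← hσe, Representation.char_one, Module.finrank_fin_fun]
            rw [Blocks.coe_oneChar] at h5
            have h6 : (d : ℂ) = 1 := h5.symm
            exact_mod_cast h6
          subst hd'
          rw [show Chars2.detHom σ = 1 from MonoidHom.ext fun g => Units.ext (by
            rw [Chars2.detHom_apply, ← Chars2.trace_eq_det_one]
            exact (congrFun hσe g).trans (congrFun Blocks.coe_oneChar g)), orderOf_one]
          exact hp.not_dvd_one
    have hsum := S4455.result (G := H) p hp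
    rw [hset, finsum_mem_singleton, hres] at hsum
    have h1 : charDegree ((Blocks.oneChar H : IrrCharacter H) : H → ℂ) = 1 := by
      simp [Blocks.coe_oneChar, charDegree]
    rw [h1, hR', Nat.card_congr (Subgroup.subgroupOfEquivOfLe (le_sup_left : R ≤ H)).toEquiv] at hsum
    have h2 : (p : ℤ) ∣ (Nat.card R : ℤ) := by exact_mod_cast hpR
    have h3 := Int.modEq_iff_dvd.1 hsum
    have h4 := dvd_add h3 h2
    simp only [Nat.cast_one, one_pow, sub_add_cancel] at h4
    exact hp.not_dvd_one (by exact_mod_cast h4)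
  obtain ⟨χ, hχd, hχη⟩ := Blocks.exists_over_pprime H hHidx η hηd
  have hχR : ∃ x ∈ R, (χ : G → ℂ) x ≠ (χ : G → ℂ) 1 := by
    by_contra hall
    push Not at hall
    refine hxne (apply_eq_of_constituent (isCharacter_restrict (irr_isCharacter χ) H) η.2 ?_ ?_)
    · intro h0
      exact hχη (by rw [← classInner_conj_symm, h0, map_zero])
    · exact hall x (Subgroup.mem_subgroupOf.1 hxR)
  exact hχd (hd₀ χ hχR ▸ hpd)

end Cfsg.Agent.Chars.ThreeDeg
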